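import Cfsg.Statements.S3035
import Mathlib
import Cfsg.Agent.LibDi11f
import Cfsg.Agent.LibA6c
import Cfsg.Agent.LibH22Lin
import Cfsg.Agent.LibH22SL

set_option autoImplicit false
set_option linter.all false
open Cfsg

namespace Cfsg.Agent.S3035

open Subgroup Cfsg CfsgLib.Di11

theorem card_sl3 : Nat.card (Matrix.SpecialLinearGroup (Fin 3) (ZMod 2)) = 168 := by
  have h := Cfsg.Agent.H22.card_SL (F := ZMod 2) (q := 2) (by simp [ZMod.card]) 3 (by norm_num)
  simpa [Fin.prod_univ_succ] using h

theorem simple_sl3 : IsSimpleGroup (Matrix.SpecialLinearGroup (Fin 3) (ZMod 2)) := by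
  have h1 : IsSimpleGroup (Matrix.ProjectiveSpecialLinearGroup (Fin 3) (ZMod 2)) := Cfsg.Agent.H22.PSLn_simple (by simp)
  have h2 := Cfsg.Agent.H22.card_center_SL (F := ZMod 2) 3 (by norm_num)
  have h3 : Subgroup.center (Matrix.SpecialLinearGroup (Fin 3) (ZMod 2)) = ⊥ := by
    rw [← Subgroup.card_eq_one, h2, ZMod.card]; rfl
  have e : Matrix.ProjectiveSpecialLinearGroup (Fin 3) (ZMod 2) ≃* Matrix.SpecialLinearGroup (Fin 3) (ZMod 2) :=
    (QuotientGroup.quotientMulEquivOfEq h3).trans QuotientGroup.quotientBot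
  haveI : Nontrivial (Matrix.SpecialLinearGroup (Fin 3) (ZMod 2)) := e.symm.toEquiv.nontrivial
  exact IsSimpleGroup.isSimpleGroup_of_surjective e.toMonoidHom e.surjective

theorem case_b {G : Type*} [Group G] [Finite G] {z a b : G} (h : DD z a b)
    (hb : IsConj z b) (hba : ¬ IsConj z (b * a)) : Nonempty (G ≃* Equiv.Perm (Fin 4)) ∨ Nonempty (G ≃* Equiv.Perm (Fin 5)) := by
  rcases h.order_b hb hba with h1 | h1
  · exact Or.inl (h.sym_four hb h1)
  · exact Or.inr (h.sym_five hb hba h1)

/-- Let G be a finite group with an involution z whose centralizer is dihedral of order 8. Then G = C_G(z) O(G) with O(G) the largest normal subgroup of odd order, or G is isomorphic to the symmetric group of degree 4, the symmetric group of degree 5, the group SL₃(2), or the alternating group of degree 6. -/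
theorem result {G : Type*} [Group G] [Finite G] (z : G) (hz : orderOf z = 2)
    (hC : Nonempty (↥(Subgroup.centralizer ({z} : Set G)) ≃* DihedralGroup 4)) :
    Subgroup.centralizer ({z} : Set G) ⊔ Cfsg.oddCore G = ⊤ ∨ Nonempty (G ≃* Equiv.Perm (Fin 4)) ∨ Nonempty (G ≃* Equiv.Perm (Fin 5)) ∨
      Nonempty (G ≃* Matrix.SpecialLinearGroup (Fin 3) (ZMod 2)) ∨ Nonempty (G ≃* ↥(alternatingGroup (Fin 6))) := by
  obtain ⟨e⟩ := hC
  obtain ⟨a, b, h⟩ := exists_DD hz e
  by_cases hb : IsConj z b
  · by_cases hba : IsConj z (b * a)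
    · haveI := h.simple hb hba
      rcases h.order_c hb hba with h1 | h1
      · right; right; right; left
        haveI := simple_sl3
        exact CfsgLib.PL11.unique_168 h1 card_sl3
      · right; right; right; right
        exact CfsgLib.A611.alt_six h1
    · rcases case_b h hb hba with h1 | h1
      · exact Or.inr (Or.inl h1)
      · exact Or.inr (Or.inr (Or.inl h1))
  · by_cases hba : IsConj z (b * a)
    · have h0 : ¬ IsConj z (b * a * a) := by
        intro h1
        apply hb
        have h2 : b * a * a = b * z := by rw [mul_assoc, h.aa]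
        rw [h2] at h1
        exact h1.trans h.conj_b.symm
      rcases case_b (h.swap (mem_zpowers a)) hba h0 with h1 | h1
      · exact Or.inr (Or.inl h1)
      · exact Or.inr (Or.inr (Or.inl h1))
    · exact Or.inl (h.isolated hb hba)

end Cfsg.Agent.S3035
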