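import Cfsg.Statements.S3053
import Mathlib
import Cfsg.Agent.LibLE11Ms
import Cfsg.Agent.LibExtraH28
import Cfsg.Agent.LibLE11Syl

set_option autoImplicit false
set_option linter.all false
open Cfsg

namespace Cfsg.Agent.S3053

open Cfsg Subgroup CfsgLib.LE CfsgLib.LE11Syl
open scoped Pointwise

/-- Let p be an odd prime and G a finite group with a Sylow p-subgroup P that is extraspecial of order p³ and exponent p². Then the centre of P is strongly closed in P with respect to G: a G-conjugate of an element of Z(P) that lies in P already lies in Z(P). In particular a nontrivial central element of P is conjugate in G to no noncentral element of P. -/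
theorem result {G : Type*} [Group G] [Finite G]
    {p : ℕ} [Fact p.Prime] (hp : p ≠ 2) (P : Sylow p G) (hE : Cfsg.IsExtraspecial p ↥P)
    (hcard : Nat.card P = p ^ 3) (hexp : Monoid.exponent ↥P = p ^ 2) :
    Cfsg.IsStronglyClosed ((Subgroup.center ↥P).map (P : Subgroup G).subtype) (P : Subgroup G) := by
  classical
  have hpp : p.Prime := Fact.out
  set P0 : Subgroup G := (P : Subgroup G) with hP0
  set Zc : Subgroup G := (center ↥P).map P0.subtype with hZc
  refine ⟨map_subtype_le _, ?_⟩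
  intro z hz h hw
  by_contra hwZ
  set w := h * z * h⁻¹ with hwdef
  have hZle : Zc ≤ P0 := map_subtype_le _
  have hcardZ : Nat.card Zc = p := by
    rw [hZc, Nat.card_congr (equivMapOfInjective _ _ P0.subtype_injective).symm.toEquiv]
    exact hE.2
  have hZcent : ∀ c ∈ Zc, ∀ g ∈ P0, g * c = c * g := by
    rintro _ ⟨c, hc, rfl⟩ g hg
    exact congrArg Subtype.val (mem_center_iff.1 hc ⟨g, hg⟩)
  have hcommZ : ∀ a ∈ P0, ∀ b ∈ P0, a * b * a⁻¹ * b⁻¹ ∈ Zc := by
    intro a ha b hb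
    exact ⟨_, CfsgLib.ExtraH28.comm_mem_center hE (⟨a, ha⟩ : P) ⟨b, hb⟩, rfl⟩
  have hpowZ : ∀ a ∈ P0, a ^ p ∈ Zc := by
    intro a ha
    exact ⟨_, CfsgLib.ExtraH28.pow_mem_center hE (⟨a, ha⟩ : P), rfl⟩
  have hZp : ∀ c ∈ Zc, c ^ p = 1 := by
    intro c hc
    have h1 : orderOf c ∣ p := by
      rw [← hcardZ]; exact Subgroup.orderOf_dvd_natCard _ hc
    exact orderOf_dvd_iff_pow_eq_one.1 h1
  have hmulpow : ∀ a ∈ P0, ∀ b ∈ P0, (a * b) ^ p = a ^ p * b ^ p := by
    intro a ha b hb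
    have := CfsgLib.PCyc.mul_pow_of_central hpp hp (CfsgLib.ExtraH28.comm_mem_center hE)
      (fun x y => by
        have h1 := hZp _ (hcommZ x x.2 y y.2)
        exact Subtype.ext h1) (⟨a, ha⟩ : P) ⟨b, hb⟩
    exact congrArg Subtype.val this
  have hz1 : z ≠ 1 := by
    rintro rfl
    apply hwZ; rw [hwdef]; simp [Zc.one_mem]
  have hwp : w ^ p = 1 := by rw [hwdef, conj_pow, hZp z hz]; group
  have hZz : ∀ c ∈ Zc, c ∈ zpowers z := by
    intro c hc
    have h1 : zpowers z = Zc := by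
      apply eq_of_le_of_card_ge (zpowers_le.2 hz)
      rw [Nat.card_zpowers, hcardZ, orderOf_eq_prime (hZp z hz) hz1]
    rw [h1]; exact hc
  -- exists comm
  have hex : ∀ a ∈ P0, a ∉ Zc → ∀ c ∈ Zc, ∃ b ∈ P0, a * b * a⁻¹ * b⁻¹ = c := by
    rintro a ha haZ _ ⟨c, hc, rfl⟩
    have h1 : (⟨a, ha⟩ : P) ∉ center ↥P := fun h2 => haZ ⟨_, h2, rfl⟩
    obtain ⟨b, hb⟩ := CfsgLib.ExtraH28.exists_comm_eq hE h1 hc
    exact ⟨b, b.2, congrArg Subtype.val hb⟩
  -- E
  set E : Subgroup G := P0 ⊓ centralizer ({w} : Set G) with hEdef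
  have hEP : E ≤ P0 := inf_le_left
  have hZE : Zc ≤ E := by
    intro c hc
    refine mem_inf.2 ⟨hZle hc, ?_⟩
    rw [mem_centralizer_singleton_iff]
    exact (hZcent c hc w hw).symm
  have hwE : w ∈ E := mem_inf.2 ⟨hw, by rw [mem_centralizer_singleton_iff]⟩
  have hcardE : Nat.card E = p ^ 2 := by
    have h1 : (⟨w, hw⟩ : P) ∉ center ↥P := fun h2 => hwZ ⟨_, h2, rfl⟩
    have h2 := CfsgLib.ExtraH28.index_centralizer_singleton hE h1
    have h3 : E.subgroupOf P0 = centralizer ({(⟨w, hw⟩ : P)} : Set P) := by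
      ext g
      rw [mem_subgroupOf, mem_inf, mem_centralizer_singleton_iff, mem_centralizer_singleton_iff]
      constructor
      · rintro ⟨_, h4⟩; exact Subtype.ext h4
      · intro h4; exact ⟨g.2, congrArg Subtype.val h4⟩
    have h4 : E.relIndex P0 = p := by rw [relIndex, h3]; exact h2
    have h5 := CfsgLib.LE.card_mul_relIndex hEP
    rw [h4] at h5
    have h6 : Nat.card P0 = p ^ 3 := hcard
    rw [h6, pow_succ] at h5
    exact Nat.eq_of_mul_eq_mul_right hpp.pos h5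
  have hEcomm : ∀ a ∈ E, ∀ b ∈ E, a * b = b * a := by
    intro a ha b hb
    exact congrArg Subtype.val (IsPGroup.commutative_of_card_eq_prime_sq hcardE ⟨a, ha⟩ ⟨b, hb⟩)
  -- generation principle
  have hgen : ∀ F : Subgroup G, z ∈ F → w ∈ F → E ≤ F := by
    intro F hzF hwF
    have h1 : Zc < E ⊓ F := by
      refine lt_of_le_of_ne (le_inf hZE ?_) ?_
      · intro c hc; exact (zpowers_le.2 hzF) (hZz c hc)
      · intro h2; exact hwZ (h2 ▸ mem_inf.2 ⟨hwE, hwF⟩)
    have h2 : Nat.card (E ⊓ F : Subgroup G) ∣ p ^ 2 := by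
      rw [← hcardE]; exact card_dvd_of_le inf_le_left
    obtain ⟨i, hi, hi'⟩ := (Nat.dvd_prime_pow hpp).1 h2
    have h3 : p < Nat.card (E ⊓ F : Subgroup G) := by
      rw [← hcardZ]
      by_contra hlt
      exact h1.ne (eq_of_le_of_card_ge h1.le (not_lt.1 hlt))
    have h4 : i = 2 := by
      rw [hi'] at h3
      nth_rw 1 [← pow_one p] at h3
      have := (Nat.pow_lt_pow_iff_right hpp.one_lt).1 h3
      omega
    rw [h4, ← hcardE] at hi'
    have h5 := eq_of_le_of_card_ge (inf_le_left : E ⊓ F ≤ E) hi'.ge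
    rw [← h5]; exact inf_le_right
  have hEelem : ∀ e ∈ E, e ^ p = 1 := by
    let F : Subgroup G :=
      { carrier := {e | e ∈ E ∧ e ^ p = 1}
        one_mem' := ⟨E.one_mem, one_pow _⟩
        mul_mem' := by
          rintro a b ⟨ha, ha'⟩ ⟨hb, hb'⟩
          refine ⟨E.mul_mem ha hb, ?_⟩
          rw [(show Commute a b from hEcomm a ha b hb).mul_pow, ha', hb', one_mul]
        inv_mem' := by
          rintro a ⟨ha, ha'⟩
          exact ⟨E.inv_mem ha, by rw [inv_pow, ha', inv_one]⟩ }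
    intro e he
    exact (hgen F ⟨hZE hz, hZp z hz⟩ ⟨hwE, hwp⟩ he).2
  have hEn : P0 ≤ normalizer (E : Set G) := by
    rw [CfsgLib.LE.le_normalizer_iff]
    intro g hg e he
    have h1 : g * e * g⁻¹ = (g * e * g⁻¹ * e⁻¹) * e := by group
    rw [h1]
    exact E.mul_mem (hZE (hcommZ g hg e (hEP he))) he
  -- x
  obtain ⟨x, hx, hxw⟩ := hex w hw hwZ z⁻¹ (Zc.inv_mem hz)
  have hxw' : x * w * x⁻¹ = z * w := by
    have h1 : x * w⁻¹ * x⁻¹ = w⁻¹ * z⁻¹ := by rw [← hxw]; group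
    calc x * w * x⁻¹ = (x * w⁻¹ * x⁻¹)⁻¹ := by group
      _ = z * w := by rw [h1]; group
  have hxz : x * z * x⁻¹ = z := by rw [hZcent z hz x hx]; group
  have hzw : z * w = w * z := hEcomm z (hZE hz) w hwE
  -- R
  have hsylS : IsSyl p (MulAut.conj h • P0) (centralizer ({w} : Set G)) := by
    refine ((isSyl_top P).conj h).mono ?_ ?_
    · intro g hg
      rw [mem_conj_smul] at hg
      rw [mem_centralizer_singleton_iff]
      have h1 := hZcent z hz _ hg
      calc g * w = h * ((h⁻¹ * g * h) * z) * h⁻¹ := by rw [hwdef]; group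
        _ = h * (z * (h⁻¹ * g * h)) * h⁻¹ := by rw [h1]
        _ = w * g := by rw [hwdef]; group
    · intro g _
      rw [mem_conj_smul]; trivial
  obtain ⟨c, hc, hcE⟩ := hsylS.conj_le (S := E) inf_le_right (P.2.to_le hEP)
  set k := c⁻¹ * h with hk
  have hkz : k * z * k⁻¹ = w := by
    rw [mem_centralizer_singleton_iff] at hc
    calc k * z * k⁻¹ = c⁻¹ * (h * z * h⁻¹) * c := by rw [hk]; group
      _ = c⁻¹ * (w * c) := by rw [← hwdef]; group
      _ = w := by rw [← hc]; group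
  have hEk : ∀ e ∈ E, k⁻¹ * e * k ∈ P0 := by
    intro e he
    have h1 : c * e * c⁻¹ ∈ MulAut.conj c • E := by
      rw [mem_conj_smul]
      have : c⁻¹ * (c * e * c⁻¹) * c = e := by group
      rwa [this]
    have h2 := hcE h1
    rw [mem_conj_smul] at h2
    convert h2 using 1
    rw [hk]; group
  set z' := k⁻¹ * z * k with hz'
  have hz'P : z' ∈ P0 := hEk z (hZE hz)
  have hz'Z : z' ∉ Zc := by
    intro h1
    obtain ⟨j, hj⟩ := mem_zpowers_iff.1 (hZz z' h1)
    -- z = k z' k⁻¹ = w ^ j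
    have h2 : z = w ^ j := by
      calc z = k * z' * k⁻¹ := by rw [hz']; group
        _ = k * z ^ j * k⁻¹ := by rw [hj]
        _ = (k * z * k⁻¹) ^ j := by rw [conj_zpow]
        _ = w ^ j := by rw [hkz]
    -- so zpowers w = zpowers z
    have hw1 : w ≠ 1 := by
      rintro h3; apply hwZ; rw [h3]; exact Zc.one_mem
    have h3 : zpowers z = zpowers w := by
      apply eq_of_le_of_card_ge
      · rw [zpowers_le, h2]; exact zpow_mem (mem_zpowers w) j
      · rw [Nat.card_zpowers, Nat.card_zpowers, orderOf_eq_prime (hZp z hz) hz1,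
          orderOf_eq_prime hwp hw1]
    have h4 : w ∈ zpowers z := by rw [h3]; exact mem_zpowers w
    exact hwZ ((zpowers_le.2 hz) h4)
  obtain ⟨y', hy', hyz'⟩ := hex z' hz'P hz'Z z hz
  set y := k * y' * k⁻¹ with hy
  have hyz : y * z * y⁻¹ = w⁻¹ * z := by
    have h1 : y' * z' * y'⁻¹ = z⁻¹ * z' := by rw [← hyz']; group
    calc y * z * y⁻¹ = k * (y' * z' * y'⁻¹) * k⁻¹ := by rw [hy, hz']; group
      _ = (k * z * k⁻¹)⁻¹ * (k * z' * k⁻¹) := by rw [h1]; group
      _ = w⁻¹ * z := by rw [hkz, hz']; group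
  have hyw : y * w * y⁻¹ = w := by
    have h1 := hZcent z hz y' hy'
    calc y * w * y⁻¹ = k * (y' * z * y'⁻¹) * k⁻¹ := by rw [hy, ← hkz]; group
      _ = k * z * k⁻¹ := by rw [h1]; group
      _ = w := hkz
  set T := x * y * x with hT
  have hTz : T * z * T⁻¹ = w⁻¹ := by
    calc T * z * T⁻¹ = x * (y * (x * z * x⁻¹) * y⁻¹) * x⁻¹ := by rw [hT]; group
      _ = x * (w⁻¹ * z) * x⁻¹ := by rw [hxz, hyz]
      _ = (x * w * x⁻¹)⁻¹ * (x * z * x⁻¹) := by group
      _ = w⁻¹ := by rw [hxw', hxz]; group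
  have hTw : T * w * T⁻¹ = z := by
    calc T * w * T⁻¹ = x * (y * (x * w * x⁻¹) * y⁻¹) * x⁻¹ := by rw [hT]; group
      _ = x * ((y * z * y⁻¹) * (y * w * y⁻¹)) * x⁻¹ := by rw [hxw']; group
      _ = x * (w⁻¹ * (z * w)) * x⁻¹ := by rw [hyz, hyw]; group
      _ = x * z * x⁻¹ := by rw [hzw]; group
      _ = z := hxz
  set t := T * T with ht
  have htz : t * z * t⁻¹ = z⁻¹ := by
    calc t * z * t⁻¹ = T * (T * z * T⁻¹) * T⁻¹ := by rw [ht]; group
      _ = (T * w * T⁻¹)⁻¹ := by rw [hTz]; group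
      _ = z⁻¹ := by rw [hTw]
  have htw : t * w * t⁻¹ = w⁻¹ := by
    calc t * w * t⁻¹ = T * (T * w * T⁻¹) * T⁻¹ := by rw [ht]; group
      _ = w⁻¹ := by rw [hTw, hTz]
  have hinvE : ∀ n : G, n * z * n⁻¹ = z⁻¹ → n * w * n⁻¹ = w⁻¹ → ∀ e ∈ E, n * e * n⁻¹ = e⁻¹ := by
    intro n hn1 hn2
    let F : Subgroup G :=
      { carrier := {e | e ∈ E ∧ n * e * n⁻¹ = e⁻¹}
        one_mem' := ⟨E.one_mem, by simp⟩
        mul_mem' := by
          rintro a b ⟨ha, ha'⟩ ⟨hb, hb'⟩
          refine ⟨E.mul_mem ha hb, ?_⟩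
          calc n * (a * b) * n⁻¹ = (n * a * n⁻¹) * (n * b * n⁻¹) := by group
            _ = (b * a)⁻¹ := by rw [ha', hb']; group
            _ = (a * b)⁻¹ := by rw [hEcomm a ha b hb]
        inv_mem' := by
          rintro a ⟨ha, ha'⟩
          refine ⟨E.inv_mem ha, ?_⟩
          calc n * a⁻¹ * n⁻¹ = (n * a * n⁻¹)⁻¹ := by group
            _ = a⁻¹⁻¹ := by rw [ha'] }
    intro e he
    exact (hgen F ⟨hZE hz, hn1⟩ ⟨hwE, hn2⟩ he).2
  have htE := hinvE t htz htw
  -- Frattini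
  set M : Subgroup G := centralizer (E : Set G) ⊔ P0 with hM
  have htEn : t ∈ normalizer (E : Set G) := by
    rw [mem_normalizer_iff]
    intro e
    constructor
    · intro he; rw [htE e he]; exact E.inv_mem he
    · intro he
      have h1 := htE _ he
      have h2 : t⁻¹ * (t * e * t⁻¹)⁻¹ * t = t * e * t⁻¹ := by rw [← h1]; group
      have h3 : e⁻¹ = t * e * t⁻¹ := by rw [← h2]; group
      rw [← h3] at he
      exact inv_mem_iff.1 he
  have htM : t ∈ normalizer (M : Set G) := by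
    have h1 : t ∈ normalizer (centralizer (E : Set G) : Set G) :=
      le_normalizer_centralizer (A := normalizer (E : Set G)) le_rfl htEn
    have key : ∀ t : G, (∀ e ∈ E, t * e * t⁻¹ = e⁻¹) → t ∈ normalizer (centralizer (E : Set G) : Set G) →
        M ≤ M.comap (MulAut.conj t).toMonoidHom := by
      intro t htE h1
      rw [hM]
      refine sup_le ?_ ?_
      · intro g hg
        exact (le_sup_left : centralizer (E : Set G) ≤ _) ((mem_normalizer_iff.1 h1 g).1 hg)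
      · intro g hg
        have h2 : t * g * t⁻¹ * g⁻¹ ∈ centralizer (E : Set G) := by
          rw [mem_centralizer_iff]
          intro e he
          have he' : g⁻¹ * e * g ∈ E := by
            have := (mem_normalizer_iff.1 (hEn (P0.inv_mem hg)) e).1 he
            simpa using this
          have h3 : (t * g * t⁻¹ * g⁻¹) * e * (t * g * t⁻¹ * g⁻¹)⁻¹ = e := by
            have e1 := htE _ (E.inv_mem he')
            have e2 : t⁻¹ * (g⁻¹ * e * g) * t = (g⁻¹ * e * g)⁻¹ := by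
              have e3 := htE _ he'
              have : t⁻¹ * (t * (g⁻¹ * e * g)⁻¹ * t⁻¹) * t = (g⁻¹ * e * g)⁻¹ := by group
              rw [e1, inv_inv] at this
              exact this
            calc (t * g * t⁻¹ * g⁻¹) * e * (t * g * t⁻¹ * g⁻¹)⁻¹ =
                t * (g * (t⁻¹ * (g⁻¹ * e * g) * t) * g⁻¹) * t⁻¹ := by group
              _ = (t * e * t⁻¹)⁻¹ := by rw [e2]; group
              _ = e := by rw [htE e he, inv_inv]
          calc e * (t * g * t⁻¹ * g⁻¹) = ((t * g * t⁻¹ * g⁻¹) * e * (t * g * t⁻¹ * g⁻¹)⁻¹) *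
              (t * g * t⁻¹ * g⁻¹) := by rw [h3]
            _ = (t * g * t⁻¹ * g⁻¹) * e := by group
        show t * g * t⁻¹ ∈ centralizer (E : Set G) ⊔ P0
        have h3 : t * g * t⁻¹ = (t * g * t⁻¹ * g⁻¹) * g := by group
        rw [h3]
        exact mul_mem ((le_sup_left : centralizer (E : Set G) ≤ _) h2) ((le_sup_right : P0 ≤ _) hg)
    rw [mem_normalizer_iff_map_conj]
    apply eq_of_le_of_card_ge
    · rw [map_le_iff_le_comap]; exact key t htE h1
    · rw [card_map_conj]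
  have hsylM : IsSyl p P0 M := (isSyl_top P).mono le_sup_right le_top
  obtain ⟨m, hm, hmt⟩ := hsylM.frattini htM
  have hPC : P0 ≤ normalizer (centralizer (E : Set G) : Set G) := le_normalizer_centralizer hEn
  rw [hM, mem_sup_of_le_normalizer' hPC] at hm
  obtain ⟨c1, hc1, g1, hg1, rfl⟩ := hm
  set n := g1⁻¹ * (c1 * g1 * t) with hn
  have hnP : n ∈ normalizer (P0 : Set G) := mul_mem (le_normalizer (P0.inv_mem hg1)) hmt
  have hnE : ∀ e ∈ E, n * e * n⁻¹ = e⁻¹ := by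
    intro e he
    have h1 := htE e he
    have h2 : g1 * e⁻¹ * g1⁻¹ ∈ E := (mem_normalizer_iff.1 (hEn hg1) _).1 (E.inv_mem he)
    have h3 := mem_centralizer_iff.1 hc1 _ h2
    calc n * e * n⁻¹ = g1⁻¹ * (c1 * (g1 * (t * e * t⁻¹) * g1⁻¹) * c1⁻¹) * g1 := by rw [hn]; group
      _ = g1⁻¹ * (c1 * (g1 * e⁻¹ * g1⁻¹) * c1⁻¹) * g1 := by rw [h1]
      _ = g1⁻¹ * ((g1 * e⁻¹ * g1⁻¹) * c1 * c1⁻¹) * g1 := by rw [h3]
      _ = e⁻¹ := by group
  -- contradiction
  obtain ⟨g0, hg0, hg0p⟩ : ∃ g ∈ P0, g ^ p ≠ 1 := by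
    by_contra hno
    push Not at hno
    have h1 : Monoid.exponent ↥P ∣ p := by
      apply Monoid.exponent_dvd_of_forall_pow_eq_one
      intro g
      exact Subtype.ext (hno g g.2)
    rw [hexp] at h1
    have h2 := Nat.le_of_dvd hpp.pos h1
    have h3 := hpp.one_lt
    nlinarith
  have hg0' : n * g0 * n⁻¹ ∈ P0 := (mem_normalizer_iff.1 hnP g0).1 hg0
  set e0 := n * g0 * n⁻¹ * g0⁻¹ with he0
  have he0P : e0 ∈ P0 := P0.mul_mem hg0' (P0.inv_mem hg0)
  have he0E : e0 ∈ E := by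
    refine mem_inf.2 ⟨he0P, ?_⟩
    rw [mem_centralizer_singleton_iff]
    have hwe : g0⁻¹ * w * g0 ∈ E := by
      have := (mem_normalizer_iff.1 (hEn (P0.inv_mem hg0)) w).1 hwE
      simpa using this
    have e1 := hnE _ (E.inv_mem hwe)
    have e2 : n⁻¹ * (g0⁻¹ * w * g0) * n = (g0⁻¹ * w * g0)⁻¹ := by
      have : n⁻¹ * (n * (g0⁻¹ * w * g0)⁻¹ * n⁻¹) * n = (g0⁻¹ * w * g0)⁻¹ := by group
      rw [e1, inv_inv] at this
      exact this
    have h3 : e0 * w * e0⁻¹ = w := by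
      calc e0 * w * e0⁻¹ = n * (g0 * (n⁻¹ * (g0⁻¹ * w * g0) * n) * g0⁻¹) * n⁻¹ := by rw [he0]; group
        _ = (n * w * n⁻¹)⁻¹ := by rw [e2]; group
        _ = w := by rw [hnE w hwE, inv_inv]
    calc e0 * w = (e0 * w * e0⁻¹) * e0 := by group
      _ = w * e0 := by rw [h3]
  have h1 : (n * g0 * n⁻¹) ^ p = g0 ^ p := by
    have h2 : n * g0 * n⁻¹ = e0 * g0 := by rw [he0]; group
    rw [h2, hmulpow e0 he0P g0 hg0, hEelem e0 he0E, one_mul]
  have h2 : (n * g0 * n⁻¹) ^ p = (g0 ^ p)⁻¹ := by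
    rw [conj_pow]
    exact hnE _ (hZE (hpowZ g0 hg0))
  have h3 : g0 ^ p * g0 ^ p = 1 := by
    have h4 : g0 ^ p = (g0 ^ p)⁻¹ := h1.symm.trans h2
    nth_rw 2 [h4]; group
  have h4 := hZp _ (hpowZ g0 hg0)
  obtain ⟨j, hj⟩ := hpp.odd_of_ne_two hp
  apply hg0p
  have h5 : (g0 ^ p) ^ (2 * j + 1) = g0 ^ p := by
    rw [pow_succ, pow_mul, sq, h3, one_pow, one_mul]
  rw [← hj, h4] at h5
  exact h5.symm

end Cfsg.Agent.S3053
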