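import Cfsg.Statements.S3056
import Mathlib
import Cfsg.Agent.LibLE11Syl

set_option autoImplicit false
set_option linter.all false
open Cfsg

namespace Cfsg.Agent.S3056

open CfsgLib.LE11Syl
open scoped Pointwise

variable {G : Type*} [Group G] [Finite G] {p : ℕ} [Fact p.Prime]

theorem syl_conj (S : Sylow p G) (g : G) : ((g • S : Sylow p G) : Subgroup G) = MulAut.conj g • (S : Subgroup G) := rfl

/-- adjacency -/
theorem chain_of_rel {S T : Sylow p G}
    (h : Relation.ReflTransGen (fun A B : Sylow p G => A ≠ B ∧ (A : Subgroup G) ⊓ (B : Subgroup G) ≠ ⊥) S T) :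
    ∃ (n : ℕ) (c : ℕ → Sylow p G), c 0 = S ∧ c n = T ∧ ∀ i < n, c i ≠ c (i + 1) ∧ (c i : Subgroup G) ⊓ (c (i + 1) : Subgroup G) ≠ ⊥ := by
  induction h with
  | refl => exact ⟨0, fun _ => S, rfl, rfl, fun i hi => absurd hi (Nat.not_lt_zero _)⟩
  | @tail U V _ hUV ih =>
    obtain ⟨n, c, h0, hn, hc⟩ := ih
    refine ⟨n + 1, fun i => if i ≤ n then c i else V, ?_, ?_, ?_⟩
    · simp [h0]
    · simp
    · intro i hi
      have hi' : i ≤ n := Nat.lt_succ_iff.mp hi
      by_cases h : i + 1 ≤ n
      · simp only [hi', h, if_true]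
        exact hc i h
      · have hin : i = n := by omega
        subst hin
        simp only [le_refl, if_true, h, if_false]
        rw [hn]; exact hUV

theorem rel_of_chain {n : ℕ} {c : ℕ → Sylow p G}
    (hc : ∀ i < n, c i ≠ c (i + 1) ∧ (c i : Subgroup G) ⊓ (c (i + 1) : Subgroup G) ≠ ⊥) :
    ∀ i ≤ n, Relation.ReflTransGen (fun A B : Sylow p G => A ≠ B ∧ (A : Subgroup G) ⊓ (B : Subgroup G) ≠ ⊥) (c 0) (c i) := by
  intro i
  induction i with
  | zero => intro _; exact Relation.ReflTransGen.refl
  | succ i ih => intro hi; exact (ih (by omega)).tail (hc i (by omega))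

theorem rel_symm {S T : Sylow p G}
    (h : Relation.ReflTransGen (fun A B : Sylow p G => A ≠ B ∧ (A : Subgroup G) ⊓ (B : Subgroup G) ≠ ⊥) S T) :
    Relation.ReflTransGen (fun A B : Sylow p G => A ≠ B ∧ (A : Subgroup G) ⊓ (B : Subgroup G) ≠ ⊥) T S := by
  induction h with
  | refl => exact Relation.ReflTransGen.refl
  | @tail U V _ hUV ih => exact Relation.ReflTransGen.head ⟨hUV.1.symm, by rw [inf_comm]; exact hUV.2⟩ ih

theorem rel_smul {S T : Sylow p G} (g : G)
    (h : Relation.ReflTransGen (fun A B : Sylow p G => A ≠ B ∧ (A : Subgroup G) ⊓ (B : Subgroup G) ≠ ⊥) S T) :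
    Relation.ReflTransGen (fun A B : Sylow p G => A ≠ B ∧ (A : Subgroup G) ⊓ (B : Subgroup G) ≠ ⊥) (g • S) (g • T) := by
  induction h with
  | refl => exact Relation.ReflTransGen.refl
  | @tail U V _ hUV ih =>
    refine ih.tail ⟨fun h => hUV.1 (smul_left_cancel g h), ?_⟩
    rw [syl_conj, syl_conj, ← Subgroup.smul_inf]
    intro h
    apply hUV.2
    rw [← Subgroup.smul_bot (MulAut.conj g)] at h
    exact smul_left_cancel _ h

/-- Let G be a finite group and p a prime. Join two Sylow p-subgroups when they are distinct and meet nontrivially. This graph on the Sylow p-subgroups is disconnected (the Sylow p-subgroups are not chain-connected through nontrivial intersections) if and only if G has a strongly p-embedded subgroup in the classical sense: a proper subgroup H of order divisible by p such that H ∩ gHg⁻¹ has order prime to p for every g outside H. -/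
theorem result {G : Type*} [Group G] [Finite G]
    (p : ℕ) [Fact p.Prime] :
    ¬ Cfsg.IsSylowChainConnected p G ↔
      ∃ H : Subgroup G, H ≠ ⊤ ∧ p ∣ Nat.card H ∧
        ∀ g : G, g ∉ H → ¬ p ∣ Nat.card ↥(H ⊓ H.map (MulAut.conj g).toMonoidHom) := by
  set r : Sylow p G → Sylow p G → Prop := Relation.ReflTransGen (fun A B : Sylow p G => A ≠ B ∧ (A : Subgroup G) ⊓ (B : Subgroup G) ≠ ⊥) with hr
  constructor
  · intro hnc
    unfold Cfsg.IsSylowChainConnected at hnc
    push Not at hnc
    obtain ⟨S, T, hST⟩ := hnc
    have hnr : ¬ r S T := by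
      intro h
      by_cases hST1 : (S : Subgroup G) ⊓ (T : Subgroup G) = ⊥
      · obtain ⟨n, c, h0, hn, hc⟩ := chain_of_rel h
        obtain ⟨i, hi⟩ := hST n (fun i => c i) (by simpa using h0) (by simpa using hn) (by intro i; rw [hST1]; exact bot_le)
        have := hc i i.2
        exact this.2 (hi this.1)
      · by_cases hne : S = T
        · subst hne
          obtain ⟨i, hi⟩ := hST 0 (fun _ => S) rfl rfl (by intro i; exact inf_le_left)
          exact i.elim0
        · obtain ⟨i, hi⟩ := hST 1 (fun i => if i = 0 then S else T) rfl rfl (by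
            intro i
            by_cases h : i = 0
            · simp [h]
            · simp [h])
          have hi0 : i = 0 := Subsingleton.elim _ _
          subst hi0
          exact hST1 (hi hne)
    have hadj : ∀ (U V : Sylow p G) (R : Subgroup G), R ≠ ⊥ → R ≤ (U : Subgroup G) → R ≤ (V : Subgroup G) → r U V := by
      intro U V R hR hU hV
      by_cases h : U = V
      · subst h; exact Relation.ReflTransGen.refl
      · exact Relation.ReflTransGen.single ⟨h, fun hb => hR (by rw [eq_bot_iff, ← hb]; exact le_inf hU hV)⟩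
    -- stabilizer of the component
    let H : Subgroup G :=
      { carrier := {g | r (g • S) S}
        mul_mem' := by
          intro a b ha hb
          show r ((a * b) • S) S
          rw [mul_smul]
          exact (rel_smul a hb).trans ha
        one_mem' := by show r ((1 : G) • S) S; rw [one_smul]
        inv_mem' := by
          intro a ha
          show r (a⁻¹ • S) S
          have := rel_smul a⁻¹ ha
          rw [inv_smul_smul] at this
          exact rel_symm this }
    have hSH : (S : Subgroup G) ≤ H := by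
      intro s hs
      show r (s • S) S
      have : s • S = S := by
        apply Sylow.ext
        rw [syl_conj, conj_smul_eq_iff]
        exact Subgroup.le_normalizer hs
      rw [this]
    have hSne : (S : Subgroup G) ≠ ⊥ := by
      intro h
      apply hnr
      have hT : (T : Subgroup G) = ⊥ := by
        have h1 := Sylow.card_eq_multiplicity S
        have h2 := Sylow.card_eq_multiplicity T
        rw [← h1] at h2
        rw [← Subgroup.card_eq_one]
        rw [h2, h]; exact Subgroup.card_bot
      have : S = T := Sylow.ext (by rw [h, hT])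
      rw [this]
    have hSH' : IsSyl p (S : Subgroup G) H := (isSyl_top S).mono hSH le_top
    have hmain : ∀ R : Subgroup G, R ≤ H → IsPGroup p ↥R → R ≠ ⊥ → ∀ U : Sylow p G, R ≤ (U : Subgroup G) → r U S := by
      intro R hRH hRp hRne U hRU
      obtain ⟨h, hh, hle⟩ := hSH'.conj_le hRH hRp
      have h1 : R ≤ ((h⁻¹ • S : Sylow p G) : Subgroup G) := by
        rw [syl_conj, map_inv]
        rw [← Subgroup.pointwise_smul_subset_iff]
        exact hle
      have h2 := hadj U (h⁻¹ • S) R hRne hRU h1
      have h3 : h⁻¹ ∈ H := H.inv_mem hh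
      exact h2.trans h3
    refine ⟨H, ?_, ?_, ?_⟩
    · intro hH
      obtain ⟨g, hg⟩ := MulAction.exists_smul_eq G S T
      have h1 : g ∈ H := by rw [hH]; trivial
      have h2 : r (g • S) S := h1
      rw [hg] at h2
      exact hnr (rel_symm h2)
    · exact (dvd_card_of_ne_bot S.isPGroup' hSne).trans (Subgroup.card_dvd_of_le hSH)
    · intro g hg hd
      obtain ⟨Q, hQ⟩ := exists_isSyl (p := p) (H ⊓ H.map (MulAut.conj g).toMonoidHom)
      have hQne := hQ.ne_bot hd
      obtain ⟨U, hU⟩ := hQ.2.1.exists_le_sylow
      have h1 := hmain Q (hQ.1.trans inf_le_left) hQ.2.1 hQne U hU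
      have h2 : MulAut.conj g⁻¹ • Q ≤ H := by
        rw [map_inv, ← Subgroup.subset_pointwise_smul_iff]
        exact hQ.1.trans inf_le_right
      have h3 := hmain (MulAut.conj g⁻¹ • Q) h2 (IsPGroup_conj hQ.2.1 _) (by
        intro h
        apply hQne
        rw [← Subgroup.smul_bot (MulAut.conj g⁻¹)] at h
        exact smul_left_cancel _ h) (g⁻¹ • U) (by
          rw [syl_conj]; exact Subgroup.pointwise_smul_le_pointwise_smul_iff.mpr hU)
      have h4 := rel_smul g h3
      rw [smul_inv_smul] at h4
      exact hg ((rel_symm h4).trans h1)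
  · rintro ⟨H, hHT, hpH, hse⟩ hconn
    obtain ⟨R, hR⟩ := exists_isSyl (p := p) H
    have hRne : R ≠ ⊥ := hR.ne_bot hpH
    have hnorm : ∀ R : Subgroup G, R ≤ H → IsPGroup p ↥R → R ≠ ⊥ → ∀ n : G, MulAut.conj n • R ≤ H → n ∈ H := by
      intro R hRH hRp hRne n hn
      by_contra hcon
      have hcon' : n⁻¹ ∉ H := fun h => hcon (by simpa using H.inv_mem h)
      apply hse n⁻¹ hcon'
      refine (dvd_card_of_ne_bot hRp hRne).trans (Subgroup.card_dvd_of_le (le_inf hRH ?_))
      rw [map_conj_eq_smul, map_inv, ← Subgroup.pointwise_smul_subset_iff]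
      exact hn
    have hRG : IsSyl p R ⊤ := hR.of_normalizer_le le_top (by
      rintro n ⟨_, hn⟩
      apply hnorm R hR.1 hR.2.1 hRne n
      rw [conj_smul_eq_iff.mpr hn]; exact hR.1)
    obtain ⟨S, hS⟩ := hRG.sylow_of_top
    obtain ⟨g, hg⟩ : ∃ g : G, g ∉ H := by
      by_contra hcon
      push Not at hcon
      exact hHT (eq_top_iff.mpr (fun g _ => hcon g))
    obtain ⟨n, c, h0, hn, _, hc⟩ := hconn S (g • S)
    have hall : ∀ i : ℕ, (hi : i < n + 1) → ((c ⟨i, hi⟩ : Sylow p G) : Subgroup G) ≤ H := by
      intro i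
      induction i with
      | zero =>
        intro hi
        have : c ⟨0, hi⟩ = S := h0
        rw [this, hS]; exact hR.1
      | succ i ih =>
        intro hi
        have h1 := ih (by omega)
        have h2 := (hc ⟨i, by omega⟩).2
        set U := c ⟨i, by omega⟩ with hU
        set V := c ⟨i + 1, hi⟩ with hV
        have h2' : (U : Subgroup G) ⊓ (V : Subgroup G) ≠ ⊥ := h2
        obtain ⟨y, hy⟩ := MulAction.exists_smul_eq G V U
        have h3 : MulAut.conj y • ((U : Subgroup G) ⊓ (V : Subgroup G)) ≤ H := by
          refine le_trans ?_ h1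
          rw [← hy, syl_conj]
          exact Subgroup.pointwise_smul_le_pointwise_smul_iff.mpr inf_le_right
        have h4 := hnorm _ (inf_le_left.trans h1) (U.isPGroup'.to_le inf_le_left) h2' y h3
        have h5 : (V : Subgroup G) = MulAut.conj y⁻¹ • (U : Subgroup G) := by
          rw [← hy, syl_conj, smul_smul, ← map_mul]; simp
        rw [h5]
        intro z hz
        rw [mem_conj_smul, inv_inv] at hz
        have h6 := H.mul_mem (H.mul_mem (H.inv_mem h4) (h1 hz)) h4
        have e : y⁻¹ * (y * z * y⁻¹) * y = z := by group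
        rwa [e] at h6
    have h1 := hall n (by omega)
    have h2 : c ⟨n, by omega⟩ = g • S := hn
    rw [h2, syl_conj] at h1
    apply hg
    apply hnorm S (by rw [hS]; exact hR.1) S.isPGroup' (by rw [hS]; exact hRne) g h1

end Cfsg.Agent.S3056
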