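import Cfsg.Statements.S3057
import Mathlib
import Cfsg.Agent.S3056
import Cfsg.Agent.LibPCyc
import Cfsg.Agent.LibPCyc2
import Cfsg.Agent.LibNF2
import Cfsg.Agent.LibLE11Syl
import Cfsg.Agent.LibLE11Act
import Cfsg.Agent.LibSolvCoprime3
import Cfsg.Agent.LibCoprime
import Cfsg.Agent.LibCores
import Cfsg.Agent.LibPSolv19

set_option autoImplicit false
set_option linter.all false
open Cfsg

namespace Cfsg.Agent.S3057

open Subgroup Cfsg CfsgLib.LE11Syl
open scoped Pointwise

theorem cyclic_unique {G : Type*} [Group G] [Finite G] {p : ℕ} {P : Subgroup G} (hc : IsCyclic P) {x y : G}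
    (hx : x ∈ P) (hy : y ∈ P) (hxo : orderOf x = p) (hyo : orderOf y = p) : zpowers x = zpowers y := by
  have h1 : zpowers (⟨x, hx⟩ : P) = zpowers (⟨y, hy⟩ : P) := by
    apply Cfsg.Agent.LibNF2.cyclic_eq_of_card
    rw [Nat.card_zpowers, Nat.card_zpowers, Subgroup.orderOf_mk, Subgroup.orderOf_mk, hxo, hyo]
  have h2 := congrArg (Subgroup.map P.subtype) h1
  rwa [MonoidHom.map_zpowers, MonoidHom.map_zpowers] at h2

theorem quat_order_two {m : ℕ} [NeZero m] {g : QuaternionGroup m} (hg : orderOf g = 2) : g = QuaternionGroup.a (m : ZMod (2 * m)) := by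
  have hg2 : g * g = 1 := by rw [← pow_two, ← hg, pow_orderOf_eq_one]
  have hg1 : g ≠ 1 := by
    rintro rfl
    rw [orderOf_one] at hg
    exact absurd hg (by norm_num)
  cases g with
  | a i =>
    rw [QuaternionGroup.a_mul_a, ← QuaternionGroup.a_zero] at hg2
    have h1 : i + i = 0 := QuaternionGroup.a.inj hg2
    have h2 : 2 * m ∣ 2 * i.val := by
      rw [← ZMod.natCast_eq_zero_iff, Nat.cast_mul, ZMod.natCast_zmod_val]
      have e : ((2 : ℕ) : ZMod (2 * m)) * i = i + i := by push_cast; ring
      rw [e]; exact h1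
    have h3 : m ∣ i.val := Nat.dvd_of_mul_dvd_mul_left (by norm_num) h2
    obtain ⟨k, hk⟩ := h3
    have h4 : i.val < 2 * m := ZMod.val_lt i
    have hm : 0 < m := Nat.pos_of_ne_zero (NeZero.ne m)
    have h5 : k < 2 := by
      rw [hk, mul_comm 2] at h4
      exact Nat.lt_of_mul_lt_mul_left h4
    have h6 : i = ((m * k : ℕ) : ZMod (2 * m)) := by rw [← hk, ZMod.natCast_zmod_val]
    interval_cases k
    · exfalso
      apply hg1
      rw [h6]; simp
    · rw [h6, mul_one]
  | xa i =>
    rw [QuaternionGroup.orderOf_xa] at hg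
    exact absurd hg (by norm_num)

theorem unique_of {G : Type*} [Group G] [Finite G] {p : ℕ} {P : Subgroup G}
    (h : IsCyclic ↥P ∨ (p = 2 ∧ ∃ n : ℕ, Nonempty (↥P ≃* QuaternionGroup (2 ^ n)))) {x y : G}
    (hx : x ∈ P) (hy : y ∈ P) (hxo : orderOf x = p) (hyo : orderOf y = p) : zpowers x = zpowers y := by
  rcases h with h | ⟨h2, n, ⟨e⟩⟩
  · exact cyclic_unique h hx hy hxo hyo
  · subst h2
    have : NeZero (2 ^ n) := ⟨(pow_pos (by norm_num) n).ne'⟩
    have h1 := quat_order_two (g := e ⟨x, hx⟩) (by rw [MulEquiv.orderOf_eq, Subgroup.orderOf_mk, hxo])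
    have h2 := quat_order_two (g := e ⟨y, hy⟩) (by rw [MulEquiv.orderOf_eq, Subgroup.orderOf_mk, hyo])
    rw [← h2] at h1
    have h3 := congrArg Subtype.val (e.injective h1)
    have h4 : x = y := h3
    rw [h4]

theorem exists_E {P : Type*} [Group P] [Finite P] {p : ℕ} [hp : Fact p.Prime] (hP : IsPGroup p P)
    (h : ¬ (IsCyclic P ∨ (p = 2 ∧ ∃ n : ℕ, Nonempty (P ≃* QuaternionGroup (2 ^ n))))) :
    ∃ E : Subgroup P, Nat.card E = p ^ 2 ∧ ∀ a ∈ E, a ^ p = 1 := by
  push Not at h
  obtain ⟨h1, h2⟩ := h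
  by_cases hp2 : p = 2
  · subst hp2
    by_cases huniq : ∀ H K : Subgroup P, Nat.card H = 2 → Nat.card K = 2 → H = K
    · exfalso
      rcases CfsgLib.PCyc.cyclic_or_quaternion hP huniq with h3 | ⟨n, h3⟩
      · exact h1 h3
      · exact (h2 rfl n).false h3.some |>.elim
    · push Not at huniq
      obtain ⟨H, K, hH, hK, hHK⟩ := huniq
      have hnt : Nontrivial P := by
        by_contra hn
        rw [not_nontrivial_iff_subsingleton] at hn
        exact hHK (Subsingleton.elim _ _)
      have hcnt := hP.center_nontrivial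
      have h3 : 2 ∣ Nat.card (center P) := dvd_card_of_ne_bot (hP.to_subgroup _) ((nontrivial_iff_ne_bot _).1 hcnt)
      obtain ⟨z, hz⟩ := exists_prime_orderOf_dvd_card' 2 h3
      have hzo : orderOf (z : P) = 2 := by rw [Subgroup.orderOf_coe, hz]
      obtain ⟨A, hA, hAz⟩ : ∃ A : Subgroup P, Nat.card A = 2 ∧ A ≠ zpowers (z : P) := by
        by_cases hHz : H = zpowers (z : P)
        · exact ⟨K, hK, fun h => hHK (by rw [hHz, h])⟩
        · exact ⟨H, hH, hHz⟩
      obtain ⟨B, hB⟩ : ∃ B : Subgroup P, B = zpowers (z : P) ⊔ A := ⟨_, rfl⟩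
      have hAcyc : IsCyclic A := isCyclic_of_prime_card hA
      have hAc : ∀ a ∈ A, ∀ b ∈ A, a * b = b * a := by
        intro a ha b hb
        let _ := hAcyc.commGroup
        exact congrArg Subtype.val (mul_comm (⟨a, ha⟩ : A) ⟨b, hb⟩)
      have hBc : IsMulCommutative B := by
        have h4 : B ≤ centralizer (B : Set P) := by
          have hzB : zpowers (z : P) ≤ centralizer (B : Set P) := by
            rw [zpowers_le, mem_centralizer_iff]
            intro y _
            exact mem_center_iff.1 z.2 y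
          have hAB : A ≤ centralizer (B : Set P) := by
            rw [le_centralizer_iff, hB]
            refine sup_le ?_ ?_
            · rw [zpowers_le, mem_centralizer_iff]
              intro y _
              exact mem_center_iff.1 z.2 y
            · intro a ha
              rw [mem_centralizer_iff]
              intro b hb
              exact hAc b hb a ha
          conv_lhs => rw [hB]
          exact sup_le hzB hAB
        exact ⟨⟨fun a b => Subtype.ext (mem_centralizer_iff.1 (h4 b.2) a a.2)⟩⟩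
      have hBnc : ¬ IsCyclic B := by
        intro hBcyc
        apply hAz
        have hAB : A ≤ B := by rw [hB]; exact le_sup_right
        have hzB : zpowers (z : P) ≤ B := by rw [hB]; exact le_sup_left
        have h5 : A.subgroupOf B = (zpowers (z : P)).subgroupOf B := by
          apply Cfsg.Agent.LibNF2.cyclic_eq_of_card
          rw [Nat.card_congr (subgroupOfEquivOfLe hAB).toEquiv, Nat.card_congr (subgroupOfEquivOfLe hzB).toEquiv,
            hA, Nat.card_zpowers, hzo]
        have h6 := congrArg (Subgroup.map B.subtype) h5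
        rwa [subgroupOf_map_subtype, subgroupOf_map_subtype, inf_eq_left.2 hAB, inf_eq_left.2 hzB] at h6
      obtain ⟨E, -, hE1, hE2⟩ := CfsgLib.PCyc.exists_elem_of_not_isCyclic Nat.prime_two B (hP.to_subgroup _) hBc hBnc
      exact ⟨E, hE1, hE2⟩
  · obtain ⟨A, -, -, hAe, hA⟩ := CfsgLib.PCyc.exists_normal_elem hp.out hp2 hP h1
    exact ⟨A, hA, hAe⟩

/-- Let p be a prime and G a finite p-solvable group of order divisible by p, with Sylow p-subgroup P. Then the Sylow p-subgroups of G fail to be chain-connected through nontrivial intersections (equivalently, G has a strongly p-embedded subgroup) if and only if O_p(G) = 1 and P is cyclic or, for p = 2, generalized quaternion. -/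
theorem result {G : Type*} [Group G] [Finite G]
    (p : ℕ) [Fact p.Prime] (hdiv : p ∣ Nat.card G) (hsol : Cfsg.IsPSolvable p G) (P : Sylow p G) :
    ¬ Cfsg.IsSylowChainConnected p G ↔
      Cfsg.pCore p G = ⊥ ∧ (IsCyclic ↥P ∨ (p = 2 ∧ ∃ n : ℕ, Nonempty (↥P ≃* QuaternionGroup (2 ^ n)))) := by
  classical
  have hpp : p.Prime := Fact.out
  constructor
  · intro hnc
    obtain ⟨H, hHT, hpH, hse⟩ := (Cfsg.Agent.S3056.result p).1 hnc
    obtain ⟨S, hS⟩ := exists_isSyl (p := p) H
    have hSne : S ≠ ⊥ := hS.ne_bot hpH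
    have hnorm : ∀ R : Subgroup G, R ≤ H → IsPGroup p ↥R → R ≠ ⊥ → Subgroup.normalizer (R : Set G) ≤ H := by
      intro R hRH hRp hRne n hn
      by_contra hcon
      apply hse n hcon
      refine (dvd_card_of_ne_bot hRp hRne).trans (Subgroup.card_dvd_of_le (le_inf hRH ?_))
      rw [map_conj_eq_smul]
      rw [← conj_smul_eq_iff] at hn
      conv_lhs => rw [← hn]
      exact Subgroup.pointwise_smul_le_pointwise_smul_iff.mpr hRH
    have hSG : IsSyl p S ⊤ := hS.of_normalizer_le le_top (inf_le_right.trans (hnorm S hS.1 hS.2.1 hSne))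
    obtain ⟨S', hS'⟩ := hSG.sylow_of_top
    have hcore : pCore p G = ⊥ := by
      by_contra hne
      apply hHT
      have h1 : pCore p G ≤ H := (CfsgLib.Cores.pCore_le_sylow S').trans (by rw [hS']; exact hS.1)
      have h2 := hnorm _ h1 (CfsgLib.Cores.pCore_isPGroup p) hne
      rw [normalizer_eq_top, top_le_iff] at h2
      exact h2
    refine ⟨hcore, ?_⟩
    by_contra hno
    obtain ⟨E0, hE0c, hE0e⟩ := exists_E P.isPGroup' hno
    -- move into S
    obtain ⟨g, hg⟩ := MulAction.exists_smul_eq G P S'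
    obtain ⟨E, hE⟩ : ∃ E : Subgroup G, E = MulAut.conj g • (E0.map (P : Subgroup G).subtype) := ⟨_, rfl⟩
    have hEc : Nat.card E = p ^ 2 := by
      rw [hE, card_conj, Nat.card_congr (E0.equivMapOfInjective _ (P : Subgroup G).subtype_injective).toEquiv.symm, hE0c]
    have hEe : ∀ a ∈ E, a ^ p = 1 := by
      intro a ha
      rw [hE, mem_conj_smul] at ha
      obtain ⟨b, hb, hb'⟩ := ha
      have h1 : a = g * (b : G) * g⁻¹ := by
        have : (b : G) = g⁻¹ * a * g := hb'
        rw [this]; group
      have h2 : (b : G) ^ p = 1 := congrArg Subtype.val (hE0e b hb)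
      rw [h1, conj_pow, h2]; group
    have hES : E ≤ S := by
      rw [hE, ← hS', ← hg]
      exact Subgroup.pointwise_smul_le_pointwise_smul_iff.mpr (map_subtype_le E0)
    have hcentr : ∀ a ∈ S, a ≠ 1 → centralizer ({a} : Set G) ≤ H := by
      intro a ha ha1
      refine le_trans ?_ (hnorm (zpowers a) (by rw [zpowers_le]; exact hS.1 ha)
        (hS.2.1.to_le (by rwa [zpowers_le])) (by rwa [Ne, zpowers_eq_bot]))
      intro c hc
      rw [mem_centralizer_singleton_iff] at hc
      apply CfsgLib.LE11Act.mem_normalizer_of_forall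
      rintro _ ⟨k, rfl⟩
      have h3 : Commute c (a ^ k) := (show Commute c a from hc).zpow_right k
      have h4 : c * a ^ k * c⁻¹ = a ^ k := by rw [h3.eq, mul_inv_cancel_right]
      exact ⟨k, h4.symm⟩
    have hKH : pPrimeCore p G ≤ H := by
      apply CfsgLib.SolvCoprime.le_of_centralizers_le hpp E (pPrimeCore p G) H hEc hEe
        Subgroup.le_normalizer_of_normal (CfsgLib.Cores.pPrimeCore_coprime p).symm
      intro a ha ha1
      exact inf_le_right.trans (hcentr a (hES ha) ha1)
    -- the quotient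
    obtain ⟨K, hK⟩ : ∃ K, K = pPrimeCore p G := ⟨_, rfl⟩
    have hKn : K.Normal := by rw [hK]; infer_instance
    have hKcop : (Nat.card K).Coprime p := by rw [hK]; exact CfsgLib.Cores.pPrimeCore_coprime p
    have hqc : pPrimeCore p (G ⧸ K) = ⊥ := by
      subst hK; exact CfsgLib.Cores.pPrimeCore_quotient_pPrimeCore p
    rw [← hK] at hKH
    have hKt : K ≠ ⊤ := by
      intro h
      rw [h, card_top] at hKcop
      exact (Nat.Prime.coprime_iff_not_dvd hpp).1 hKcop.symm hdiv
    have hqnt : Nontrivial (G ⧸ K) := by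
      rw [QuotientGroup.nontrivial_iff]; exact hKt
    have hqp : pCore p (G ⧸ K) ≠ ⊥ := by
      rcases CfsgLib.PSolv19.psolv_core_ne_bot (CfsgLib.PSolv19.psolv_quotient hpp hsol K) with h | h
      · exact h
      · exact absurd hqc h
    obtain ⟨L, hL⟩ : ∃ L, L = (pCore p (G ⧸ K)).comap (QuotientGroup.mk' K) := ⟨_, rfl⟩
    have hLn : L.Normal := by rw [hL]; infer_instance
    have hKL : K ≤ L := by
      rw [hL]
      intro z hz
      rw [mem_comap, QuotientGroup.mk'_apply, (QuotientGroup.eq_one_iff z).2 hz]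
      exact one_mem _
    obtain ⟨k, hk⟩ := IsPGroup.iff_card.1 (CfsgLib.Cores.pCore_isPGroup (G := G ⧸ K) p)
    have hLc : Nat.card L = Nat.card K * p ^ k := by
      rw [hL, CfsgLib.Cores.card_comap_mk, hk]
    have hk1 : 1 ≤ k := by
      rcases Nat.eq_zero_or_pos k with h0 | h0
      · rw [h0, pow_zero] at hk
        exact absurd (card_eq_one.1 hk) hqp
      · exact h0
    have hR : IsSyl p (S ⊓ L) L := hSG.inf_of_normal le_top Subgroup.le_normalizer_of_normal
    have hpL : p ∣ Nat.card L := by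
      rw [hLc]; exact (dvd_pow_self p (by omega)).mul_left _
    have hRne := hR.ne_bot hpL
    have hRc : Nat.card (S ⊓ L : Subgroup G) = p ^ k := by
      rw [hR.card_pow, hLc, Nat.factorization_mul Nat.card_pos.ne' (pow_pos hpp.pos k).ne',
        Finsupp.add_apply, hpp.factorization_pow, Finsupp.single_eq_same,
        Nat.factorization_eq_zero_of_not_dvd ((Nat.Prime.coprime_iff_not_dvd hpp).1 hKcop.symm), zero_add]
    have hRK : (S ⊓ L) ⊓ K = ⊥ := by
      rw [← card_eq_one]
      have h1 : Nat.card ((S ⊓ L) ⊓ K : Subgroup G) ∣ p ^ k := by rw [← hRc]; exact card_dvd_of_le inf_le_left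
      have h2 : Nat.card ((S ⊓ L) ⊓ K : Subgroup G) ∣ Nat.card K := card_dvd_of_le inf_le_right
      exact Nat.eq_one_of_dvd_coprimes (Nat.Coprime.pow_left _ hKcop.symm) h1 h2
    have hLeq : (S ⊓ L) ⊔ K = L := by
      apply Subgroup.eq_of_le_of_card_ge (sup_le inf_le_right hKL)
      rw [CfsgLib.Coprime.card_sup_of_normal _ _ hRK, hRc, hLc, mul_comm]
    have hLH : L ≤ H := by
      rw [← hLeq]
      exact sup_le (inf_le_left.trans hS.1) hKH
    apply hHT
    rw [eq_top_iff]
    intro g _
    obtain ⟨m, hm, hmg⟩ := hR.frattini (g := g) (by rw [normalizer_eq_top]; trivial)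
    have h1 := hnorm _ (inf_le_left.trans hS.1) (hS.2.1.to_le inf_le_left) hRne hmg
    have h2 := H.mul_mem (H.inv_mem (hLH hm)) h1
    rwa [inv_mul_cancel_left] at h2
  · rintro ⟨hcore, hPc⟩
    rw [Cfsg.Agent.S3056.result p]
    have hpP : p ∣ Nat.card (P : Subgroup G) := by
      rw [P.card_eq_multiplicity]
      have h1 := (hpp.factorization_pos_of_dvd Nat.card_pos.ne' hdiv)
      exact dvd_pow_self p (by omega)
    obtain ⟨z, hz⟩ := exists_prime_orderOf_dvd_card' p hpP
    have hzo : orderOf (z : G) = p := by rw [Subgroup.orderOf_coe, hz]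
    obtain ⟨Z, hZ⟩ : ∃ Z, Z = zpowers (z : G) := ⟨_, rfl⟩
    have hZp : IsPGroup p Z := by
      rw [hZ]; exact IsPGroup.of_card (n := 1) (by rw [Nat.card_zpowers, hzo, pow_one])
    have hZne : Z ≠ ⊥ := by
      rw [hZ, Ne, zpowers_eq_bot]
      intro h
      rw [h, orderOf_one] at hzo
      exact hpp.one_lt.ne hzo
    have key : ∀ y ∈ normalizer (Z : Set G), orderOf y = p → zpowers y = Z := by
      intro y hy hyo
      have hyp : IsPGroup p (zpowers y) := IsPGroup.of_card (n := 1) (by rw [Nat.card_zpowers, hyo, pow_one])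
      have h1 : IsPGroup p ↥(zpowers y ⊔ Z) := IsPGroup.to_sup_of_normal_right' hyp hZp (zpowers_le.2 hy)
      obtain ⟨Q, hQ⟩ := h1.exists_le_sylow
      obtain ⟨c, hc⟩ := MulAction.exists_smul_eq G P Q
      have hmem : ∀ w ∈ (Q : Subgroup G), c⁻¹ * w * c ∈ (P : Subgroup G) := by
        intro w hw
        rw [← hc] at hw
        exact mem_conj_smul.1 hw
      have hy' := hmem y (hQ (mem_sup_left (mem_zpowers y)))
      have hz' := hmem (z : G) (hQ (mem_sup_right (by rw [hZ]; exact mem_zpowers _)))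
      have ho : ∀ w : G, orderOf (c⁻¹ * w * c) = orderOf w := by
        intro w
        have : c⁻¹ * w * c = c⁻¹ * w * c⁻¹⁻¹ := by rw [inv_inv]
        rw [this]
        exact MulEquiv.orderOf_eq (MulAut.conj c⁻¹) w
      have h2 := unique_of hPc hy' hz' (by rw [ho, hyo]) (by rw [ho, hzo])
      have h3 := congrArg (Subgroup.map (MulAut.conj c).toMonoidHom) h2
      rw [MonoidHom.map_zpowers, MonoidHom.map_zpowers] at h3
      have e : ∀ w : G, (MulAut.conj c).toMonoidHom (c⁻¹ * w * c) = w := by
        intro w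
        show c * (c⁻¹ * w * c) * c⁻¹ = w
        group
      rw [e, e] at h3
      rw [h3, hZ]
    refine ⟨normalizer (Z : Set G), ?_, ?_, ?_⟩
    · intro h
      rw [normalizer_eq_top_iff] at h
      apply hZne
      rw [eq_bot_iff, ← hcore]
      exact CfsgLib.Cores.le_pCore h hZp
    · exact (dvd_card_of_ne_bot hZp hZne).trans (card_dvd_of_le le_normalizer)
    · intro g hg hd
      obtain ⟨y, hy⟩ := exists_prime_orderOf_dvd_card' p hd
      have hyo : orderOf (y : G) = p := by rw [Subgroup.orderOf_coe, hy]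
      obtain ⟨hy1, y', hy', hyy⟩ := y.2
      have hyy' : g * y' * g⁻¹ = (y : G) := hyy
      have hyo' : orderOf y' = p := by
        rw [← hyo, ← hyy']
        exact (MulEquiv.orderOf_eq (MulAut.conj g) y').symm
      have h1 := key y hy1 hyo
      have h2 := key y' hy' hyo'
      apply hg
      rw [← conj_smul_eq_iff]
      have h3 : MulAut.conj g • zpowers y' = zpowers (y : G) := by
        rw [← hyy']
        exact (MonoidHom.map_zpowers (MulAut.conj g).toMonoidHom y')
      rwa [h1, h2] at h3

end Cfsg.Agent.S3057
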