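import Cfsg.Statements.S3059
import Mathlib
import Cfsg.Agent.LibLE11Syl

set_option autoImplicit false
set_option linter.all false
open Cfsg

namespace Cfsg.Agent.S3059

open CfsgLib.LE11Syl
open scoped Pointwise

/-- `N = K R` for `R` Sylow in `N` and `K` the subgroup generated by the `p'`-elements -/
theorem gen_sup {G : Type*} [Group G] [Finite G] {p : ℕ} [Fact p.Prime] (N R : Subgroup G) (hR : IsSyl p R N) :
    Subgroup.closure {g : G | g ∈ N ∧ (orderOf g).Coprime p} ⊔ R = N := by
  set K := Subgroup.closure {g : G | g ∈ N ∧ (orderOf g).Coprime p} with hK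
  have hKN : K ≤ N := by rw [hK, Subgroup.closure_le]; exact fun g hg => hg.1
  have hle : K ⊔ R ≤ N := sup_le hKN hR.1
  apply Subgroup.eq_of_le_of_card_ge hle
  apply Nat.le_of_dvd Nat.card_pos
  rw [← Nat.factorization_le_iff_dvd Nat.card_pos.ne' Nat.card_pos.ne']
  intro q
  by_cases hq : q.Prime
  · haveI : Fact q.Prime := ⟨hq⟩
    rw [← hq.pow_dvd_iff_le_factorization Nat.card_pos.ne']
    obtain ⟨Q, hQ⟩ := exists_isSyl (p := q) N
    rw [← hQ.card_pow]
    by_cases hqp : q = p
    · subst hqp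
      rw [hQ.card_eq hR]
      exact Subgroup.card_dvd_of_le le_sup_right
    · apply Subgroup.card_dvd_of_le
      refine le_trans ?_ le_sup_left
      intro x hx
      apply Subgroup.subset_closure
      refine ⟨hQ.1 hx, ?_⟩
      obtain ⟨k, hk⟩ := (IsPGroup.iff_orderOf.mp hQ.2.1) ⟨x, hx⟩
      rw [Subgroup.orderOf_mk] at hk
      rw [hk]
      exact Nat.Coprime.pow_left k ((Nat.coprime_primes hq Fact.out).mpr hqp)
  · rw [Nat.factorization_eq_zero_of_not_prime _ hq]; exact Nat.zero_le _

/-- Let p be a prime and H a strongly p-embedded subgroup of the finite group G in the classical sense: H is proper, p divides the order of H, and H ∩ gHg⁻¹ has order prime to p for every g outside H. Then for every normal subgroup N of G of order divisible by p, G = H · O^p(N), where O^p(N) is the subgroup generated by the elements of N of order prime to p. -/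
theorem result {G : Type*} [Group G] [Finite G]
    (p : ℕ) [Fact p.Prime] (H : Subgroup G) (hH : H ≠ ⊤) (hpH : p ∣ Nat.card H)
    (hse : ∀ g : G, g ∉ H → ¬ p ∣ Nat.card ↥(H ⊓ H.map (MulAut.conj g).toMonoidHom))
    (N : Subgroup G) [N.Normal] (hN : p ∣ Nat.card N) :
    H ⊔ Subgroup.closure {g : G | g ∈ N ∧ (orderOf g).Coprime p} = ⊤ := by
  -- a Sylow p-subgroup of H is Sylow in G
  obtain ⟨S, hS⟩ := exists_isSyl (p := p) H
  have hSne : S ≠ ⊥ := hS.ne_bot hpH
  have hnorm : ∀ R : Subgroup G, R ≤ H → IsPGroup p ↥R → R ≠ ⊥ → Subgroup.normalizer (R : Set G) ≤ H := by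
    intro R hRH hRp hRne n hn
    by_contra hcon
    apply hse n hcon
    refine (dvd_card_of_ne_bot hRp hRne).trans (Subgroup.card_dvd_of_le (le_inf hRH ?_))
    rw [map_conj_eq_smul]
    rw [← conj_smul_eq_iff] at hn
    conv_lhs => rw [← hn]
    exact Subgroup.pointwise_smul_le_pointwise_smul_iff.mpr hRH
  have hSG : IsSyl p S ⊤ := hS.of_normalizer_le le_top (inf_le_right.trans (hnorm S hS.1 hS.2.1 hSne))
  have hSN : IsSyl p (S ⊓ N) N := hSG.inf_of_normal le_top Subgroup.le_normalizer_of_normal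
  have hSNne : S ⊓ N ≠ ⊥ := hSN.ne_bot hN
  have hNN : Subgroup.normalizer ((S ⊓ N : Subgroup G) : Set G) ≤ H := hnorm _ (inf_le_left.trans hS.1) hSN.2.1 hSNne
  rw [eq_top_iff]
  intro g _
  obtain ⟨n, hn, hng⟩ := hSN.frattini (g := g) (Subgroup.le_normalizer_of_normal (Subgroup.mem_top g))
  have hn' : n ∈ H ⊔ Subgroup.closure {g : G | g ∈ N ∧ (orderOf g).Coprime p} := by
    have h1 := gen_sup N (S ⊓ N) hSN
    rw [← h1] at hn
    have h2 : Subgroup.closure {g : G | g ∈ N ∧ (orderOf g).Coprime p} ⊔ (S ⊓ N) ≤ H ⊔ Subgroup.closure {g : G | g ∈ N ∧ (orderOf g).Coprime p} :=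
      sup_le le_sup_right ((inf_le_left.trans hS.1).trans le_sup_left)
    exact h2 hn
  have h3 := Subgroup.mul_mem _ (Subgroup.inv_mem _ hn') (Subgroup.mem_sup_left (hNN hng))
  have e : n⁻¹ * (n * g) = g := by group
  rwa [e] at h3

end Cfsg.Agent.S3059
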