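import Cfsg.Statements.S3058
import Mathlib
import Cfsg.Agent.LibLE11Syl
import Cfsg.Agent.LibSolvCoprime3
import Cfsg.Agent.LibLE11CD
import Cfsg.Agent.S3056
import Cfsg.Agent.S3059

set_option autoImplicit false
set_option linter.all false
open Cfsg

namespace Cfsg.Agent.S3058

open CfsgLib.LE11Syl
open scoped Pointwise

/-- in a nontrivial `p`-subgroup there is an element of order `p` -/
theorem exists_order {G : Type*} [Group G] [Finite G] {p : ℕ} [Fact p.Prime] {R : Subgroup G} (hR : IsPGroup p ↥R) (hne : R ≠ ⊥) :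
    ∃ x ∈ R, orderOf x = p := by
  have h := dvd_card_of_ne_bot hR hne
  obtain ⟨x, hx⟩ := exists_prime_orderOf_dvd_card' p h
  exact ⟨x, x.2, by rwa [Subgroup.orderOf_coe]⟩

/-- Let p be a prime and G a finite group whose Sylow p-subgroups are not chain-connected through nontrivial intersections (so G has a strongly p-embedded subgroup). If N and M are normal subgroups of G whose orders are both divisible by p, then the order of N ∩ M is divisible by p. Consequently, among the normal subgroups of G whose order is divisible by p there is a smallest one (the intersection of all of them). -/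
theorem result {G : Type*} [Group G] [Finite G]
    (p : ℕ) [Fact p.Prime] (hG : ¬ Cfsg.IsSylowChainConnected p G)
    (N M : Subgroup G) [N.Normal] [M.Normal] (hN : p ∣ Nat.card N) (hM : p ∣ Nat.card M) :
    p ∣ Nat.card ↥(N ⊓ M) := by
  obtain ⟨H, hHT, hpH, hse⟩ := (Cfsg.Agent.S3056.result p).mp hG
  by_contra hK
  obtain ⟨S, hS⟩ := exists_isSyl (p := p) H
  have hSne : S ≠ ⊥ := hS.ne_bot hpH
  have hnorm : ∀ R : Subgroup G, R ≤ H → IsPGroup p ↥R → R ≠ ⊥ → Subgroup.normalizer (R : Set G) ≤ H := by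
    intro R hRH hRp hRne n hn
    by_contra hcon
    apply hse n hcon
    refine (dvd_card_of_ne_bot hRp hRne).trans (Subgroup.card_dvd_of_le (le_inf hRH ?_))
    rw [map_conj_eq_smul]
    rw [← conj_smul_eq_iff] at hn
    conv_lhs => rw [← hn]
    exact Subgroup.pointwise_smul_le_pointwise_smul_iff.mpr hRH
  have hSG : IsSyl p S ⊤ := hS.of_normalizer_le le_top (inf_le_right.trans (hnorm S hS.1 hS.2.1 hSne))
  have hSN : IsSyl p (S ⊓ N) N := hSG.inf_of_normal le_top Subgroup.le_normalizer_of_normal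
  have hSM : IsSyl p (S ⊓ M) M := hSG.inf_of_normal le_top Subgroup.le_normalizer_of_normal
  have hSNne : S ⊓ N ≠ ⊥ := hSN.ne_bot hN
  have hSMne : S ⊓ M ≠ ⊥ := hSM.ne_bot hM
  set K := N ⊓ M with hKdef
  have hcop : Nat.Coprime p (Nat.card K) := (Nat.Prime.coprime_iff_not_dvd Fact.out).mpr hK
  -- centralizers of elements of order p in S are in H
  have hcentr : ∀ a ∈ S, a ≠ 1 → Subgroup.centralizer ({a} : Set G) ≤ H := by
    intro a ha ha1
    refine le_trans ?_ (hnorm (Subgroup.zpowers a) (by rw [Subgroup.zpowers_le]; exact hS.1 ha)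
      (hS.2.1.to_le (by rwa [Subgroup.zpowers_le])) (by rwa [Ne, Subgroup.zpowers_eq_bot]))
    intro c hc
    rw [← conj_smul_eq_iff]
    rw [Subgroup.mem_centralizer_singleton_iff] at hc
    apply Subgroup.eq_of_le_of_card_ge _ (by rw [card_conj])
    intro z hz
    rw [mem_conj_smul] at hz
    obtain ⟨k, hk⟩ := hz
    have hk' : a ^ k = c⁻¹ * z * c := hk
    have h3 : Commute c (a ^ k) := (show Commute c a from hc).zpow_right k
    have h4 : z = a ^ k := by
      have : z = c * a ^ k * c⁻¹ := by rw [hk']; group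
      rw [this, h3.eq]; group
    rw [h4]; exact ⟨k, rfl⟩
  obtain ⟨x, hx, hxo⟩ := exists_order (hS.2.1.to_le inf_le_left) hSNne
  obtain ⟨y, hy, hyo⟩ := exists_order (hS.2.1.to_le inf_le_left) hSMne
  have hSK : S ⊓ K = ⊥ := by
    rw [← Subgroup.card_eq_one]
    have h1 : Nat.card (S ⊓ K : Subgroup G) ∣ Nat.card S := Subgroup.card_dvd_of_le inf_le_left
    have h2 : Nat.card (S ⊓ K : Subgroup G) ∣ Nat.card K := Subgroup.card_dvd_of_le inf_le_right
    rw [hS.card_pow] at h1
    exact Nat.eq_one_of_dvd_coprimes (Nat.Coprime.pow_left _ hcop) h1 h2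
  have hxy : x * y = y * x := by
    have h1 : x * y * x⁻¹ * y⁻¹ ∈ S ⊓ K := by
      refine ⟨S.mul_mem (S.mul_mem (S.mul_mem hx.1 hy.1) (S.inv_mem hx.1)) (S.inv_mem hy.1), ?_, ?_⟩
      · have e : x * y * x⁻¹ * y⁻¹ = x * (y * x⁻¹ * y⁻¹) := by group
        rw [e]
        exact N.mul_mem hx.2 ((inferInstance : N.Normal).conj_mem _ (N.inv_mem hx.2) y)
      · exact M.mul_mem ((inferInstance : M.Normal).conj_mem _ hy.2 x) (M.inv_mem hy.2)
    rw [hSK, Subgroup.mem_bot] at h1
    calc x * y = (x * y * x⁻¹ * y⁻¹) * (y * x) := by group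
      _ = y * x := by rw [h1, one_mul]
  have hp1 : 1 < p := (Fact.out : p.Prime).one_lt
  have hx1 : x ≠ 1 := by rintro rfl; rw [orderOf_one] at hxo; omega
  have hy1 : y ≠ 1 := by rintro rfl; rw [orderOf_one] at hyo; omega
  have hxM : ∀ k : ℤ, x ^ k ∈ Subgroup.zpowers y → x ^ k = 1 := by
    rintro k ⟨l, hl⟩
    have h1 : x ^ k ∈ S ⊓ K := by
      refine ⟨S.zpow_mem hx.1 k, N.zpow_mem hx.2 k, ?_⟩
      rw [← hl]; exact M.zpow_mem hy.2 l
    rwa [hSK, Subgroup.mem_bot] at h1
  set E := Subgroup.zpowers x ⊔ Subgroup.zpowers y with hE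
  have hEset : (E : Set G) = (Subgroup.zpowers x : Set G) * (Subgroup.zpowers y : Set G) := by
    apply Subgroup.coe_mul_of_left_le_normalizer_right
    rw [Subgroup.zpowers_le, ← conj_smul_eq_iff]
    apply Subgroup.eq_of_le_of_card_ge _ (by rw [card_conj])
    intro z hz
    rw [mem_conj_smul] at hz
    obtain ⟨k, hk⟩ := hz
    have hk' : y ^ k = x⁻¹ * z * x := hk
    have h3 : Commute x (y ^ k) := (show Commute x y from hxy).zpow_right k
    have h4 : z = y ^ k := by
      have : z = x * y ^ k * x⁻¹ := by rw [hk']; group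
      rw [this, h3.eq]; group
    rw [h4]; exact ⟨k, rfl⟩
  have hEcard : Nat.card E = p ^ 2 := by
    have h1 := CfsgLib.LE11CD.card_mul_card_inf (Subgroup.zpowers x) (Subgroup.zpowers y)
    rw [← hEset] at h1
    have h2 : Subgroup.zpowers x ⊓ Subgroup.zpowers y = ⊥ := by
      rw [eq_bot_iff]
      rintro z ⟨⟨k, hk⟩, hz⟩
      have hk' : x ^ k = z := hk
      rw [Subgroup.mem_bot, ← hk']
      exact hxM k (by rw [hk']; exact hz)
    rw [h2, Subgroup.card_bot, mul_one, Nat.card_zpowers, Nat.card_zpowers, hxo, hyo] at h1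
    rw [pow_two]; exact h1
  have hES : E ≤ S := sup_le (by rw [Subgroup.zpowers_le]; exact hx.1) (by rw [Subgroup.zpowers_le]; exact hy.1)
  have hEexp : ∀ a ∈ E, a ^ p = 1 := by
    intro a ha
    have ha' : a ∈ (E : Set G) := ha
    rw [hEset] at ha'
    obtain ⟨_, ⟨k, rfl⟩, _, ⟨l, rfl⟩, rfl⟩ := ha'
    show (x ^ k * y ^ l) ^ p = 1
    have h3 : Commute (x ^ k) (y ^ l) := ((show Commute x y from hxy).zpow_left k).zpow_right l
    rw [h3.mul_pow, ← zpow_natCast, ← zpow_natCast, ← zpow_mul, ← zpow_mul, mul_comm k, mul_comm l, zpow_mul, zpow_mul, zpow_natCast, zpow_natCast]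
    rw [← hxo, pow_orderOf_eq_one, hxo, ← hyo, pow_orderOf_eq_one]; simp
  have hKH : K ≤ H := by
    apply CfsgLib.SolvCoprime.le_of_centralizers_le (Fact.out : p.Prime) E K H hEcard hEexp Subgroup.le_normalizer_of_normal hcop
    intro a ha ha1
    exact inf_le_right.trans (hcentr a (hES ha) ha1)
  -- M ≤ H
  have hMH : M ≤ H := by
    -- M normalizes K ⊔ (S ⊓ N)
    have hKSN : IsSyl p (S ⊓ N) (K ⊔ (S ⊓ N)) := hSN.mono le_sup_right (sup_le inf_le_left inf_le_right)
    intro m hm
    have hmn : m ∈ Subgroup.normalizer ((K ⊔ (S ⊓ N) : Subgroup G) : Set G) := by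
      rw [← conj_smul_eq_iff]
      apply Subgroup.eq_of_le_of_card_ge _ (by rw [card_conj])
      rw [Subgroup.smul_sup]
      apply sup_le
      · rw [Subgroup.Normal.conj_smul_eq_self]; exact le_sup_left
      · intro z hz
        rw [mem_conj_smul] at hz
        have h1 : (m⁻¹ * z * m)⁻¹ * z ∈ K := by
          refine ⟨?_, ?_⟩
          · have hzN : z ∈ N := by
              have := (inferInstance : N.Normal).conj_mem _ hz.2 m
              have e : m * (m⁻¹ * z * m) * m⁻¹ = z := by group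
              rwa [e] at this
            exact N.mul_mem (N.inv_mem hz.2) hzN
          · have e : (m⁻¹ * z * m)⁻¹ * z = m⁻¹ * (z⁻¹ * m * z) := by group
            rw [e]
            exact M.mul_mem (M.inv_mem hm) (by
              have := (inferInstance : M.Normal).conj_mem _ hm z⁻¹
              rwa [inv_inv] at this)
        have h2 : z = (m⁻¹ * z * m) * ((m⁻¹ * z * m)⁻¹ * z) := by group
        rw [h2]
        exact Subgroup.mul_mem _ (Subgroup.mem_sup_right hz) (Subgroup.mem_sup_left h1)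
    obtain ⟨k, hk, hkm⟩ := hKSN.frattini hmn
    have hkH : k ∈ H := (sup_le hKH (inf_le_left.trans hS.1) : K ⊔ (S ⊓ N) ≤ H) hk
    have h3 := H.mul_mem (H.inv_mem hkH) (hnorm _ (inf_le_left.trans hS.1) (hS.2.1.to_le inf_le_left) hSNne hkm)
    have e : k⁻¹ * (k * m) = m := by group
    rwa [e] at h3
  have h4 := Cfsg.Agent.S3059.result p H hHT hpH hse M hM
  apply hHT
  rw [eq_top_iff, ← h4]
  apply sup_le le_rfl
  rw [Subgroup.closure_le]
  exact fun g hg => hMH hg.1

end Cfsg.Agent.S3058
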