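import Cfsg.Statements.S3061
import Mathlib

set_option autoImplicit false
set_option linter.all false
open Cfsg

namespace Cfsg.Agent.S3061

open scoped commutatorElement in
theorem commute_aux : ∀ (n : ℕ) (S : Type*) [Group S] [Finite S] [Group.IsNilpotent S], Nat.card S ≤ n → ∀ A ∈ Cfsg.dStarFamily S, ∀ B ∈ Cfsg.dStarFamily S,
    ∀ a ∈ A, ∀ b ∈ B, a * b = b * a := by
  intro n
  induction n with
  | zero =>
    intro S _ _ _ hS
    exact absurd hS (by have := Nat.card_pos (α := S); omega)
  | succ n ih =>
    intro S _ _ _ hS A hA B hB a ha b hb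
    -- restriction to a subgroup
    have hres : ∀ (M : Subgroup S) (A : Subgroup S), A ≤ M → A ∈ Cfsg.dStarFamily S → A.subgroupOf M ∈ Cfsg.dStarFamily M := by
      intro M A hAM hA
      refine ⟨?_, ?_⟩
      · refine ⟨⟨fun x y => ?_⟩⟩
        apply Subtype.ext; apply Subtype.ext
        have := hA.1.is_comm.comm (⟨x, Subgroup.mem_subgroupOf.mp x.2⟩ : A) ⟨y, Subgroup.mem_subgroupOf.mp y.2⟩
        show ((x : M) : S) * ((y : M) : S) = ((y : M) : S) * ((x : M) : S)
        exact congrArg (Subtype.val : A → S) this
      · intro x hx a ha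
        apply Subtype.ext
        apply hA.2 (x : S) _ a (Subgroup.mem_subgroupOf.mp ha)
        have e : (A.subgroupOf M ⊔ Subgroup.zpowers x).map M.subtype = A ⊔ Subgroup.zpowers (x : S) := by
          rw [Subgroup.map_sup, Subgroup.map_subgroupOf_eq_of_le hAM, MonoidHom.map_zpowers]
          rfl
        rw [← e, ← Subgroup.map_commutator, ← Subgroup.map_commutator, hx, Subgroup.map_bot]
    have hconj : ∀ (A : Subgroup S), A ∈ Cfsg.dStarFamily S → ∀ g : S, A.map (MulAut.conj g).toMonoidHom ∈ Cfsg.dStarFamily S := by
      intro A hA g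
      refine ⟨?_, ?_⟩
      · refine ⟨⟨?_⟩⟩
        rintro ⟨_, x, hx, rfl⟩ ⟨_, y, hy, rfl⟩
        apply Subtype.ext
        have := congrArg Subtype.val (hA.1.is_comm.comm (⟨x, hx⟩ : A) ⟨y, hy⟩)
        show (MulAut.conj g) x * (MulAut.conj g) y = (MulAut.conj g) y * (MulAut.conj g) x
        rw [← map_mul, ← map_mul]
        exact congrArg _ this
      · rintro x hx _ ⟨a, ha, rfl⟩
        have h1 := hA.2 ((MulAut.conj g).symm x) (by
          have e : (A ⊔ Subgroup.zpowers ((MulAut.conj g).symm x)).map (MulAut.conj g).toMonoidHom = A.map (MulAut.conj g).toMonoidHom ⊔ Subgroup.zpowers x := by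
            rw [Subgroup.map_sup, MonoidHom.map_zpowers]
            congr 2
            exact (MulAut.conj g).apply_symm_apply x
          rw [← e, ← Subgroup.map_commutator, ← Subgroup.map_commutator] at hx
          rwa [Subgroup.map_eq_bot_iff_of_injective _ (MulAut.conj g).injective] at hx) a ha
        show (MulAut.conj g) a * x = x * (MulAut.conj g) a
        have h2 := congrArg (MulAut.conj g) h1
        rw [map_mul, map_mul, (MulAut.conj g).apply_symm_apply] at h2
        exact h2
    -- normal closures of proper members are abelian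
    have hnc : ∀ A : Subgroup S, A ∈ Cfsg.dStarFamily S → A ≠ ⊤ → ∀ x ∈ Subgroup.normalClosure (A : Set S), ∀ y ∈ Subgroup.normalClosure (A : Set S), x * y = y * x := by
      intro A hA hAT
      -- a proper normal subgroup containing A
      obtain ⟨M, hAM, hMn, hMT⟩ : ∃ M : Subgroup S, A ≤ M ∧ M.Normal ∧ M ≠ ⊤ := by
        obtain ⟨M, hM, hAM⟩ := (eq_top_or_exists_le_coatom A).resolve_left hAT
        exact ⟨M, hAM, Subgroup.NormalizerCondition.normal_of_coatom M Group.normalizerCondition_of_isNilpotent hM, hM.1⟩
      have hcardM : Nat.card M ≤ n := by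
        have h1 : Nat.card M < Nat.card S := by
          have h2 := Subgroup.card_mul_index M
          have h3 : M.index ≠ 1 := fun h => hMT (Subgroup.index_eq_one.mp h)
          have h4 : 0 < M.index := Nat.pos_of_ne_zero Subgroup.index_ne_zero_of_finite
          have h5 : 2 ≤ M.index := by omega
          have h6 : 0 < Nat.card M := Nat.card_pos
          nlinarith
        omega
      have hpair : ∀ g h : S, ∀ x ∈ A.map (MulAut.conj g).toMonoidHom, ∀ y ∈ A.map (MulAut.conj h).toMonoidHom, x * y = y * x := by
        intro g h x hx y hy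
        have hgM : ∀ g : S, A.map (MulAut.conj g).toMonoidHom ≤ M := by
          rintro g _ ⟨z, hz, rfl⟩
          exact hMn.conj_mem z (hAM hz) g
        have := ih M hcardM _ (hres M _ (hgM g) (hconj A hA g)) _ (hres M _ (hgM h) (hconj A hA h))
          ⟨x, hgM g hx⟩ (Subgroup.mem_subgroupOf.mpr hx) ⟨y, hgM h hy⟩ (Subgroup.mem_subgroupOf.mpr hy)
        exact congrArg Subtype.val this
      have hcl : Subgroup.normalClosure (A : Set S) ≤ Subgroup.centralizer ((Subgroup.normalClosure (A : Set S) : Subgroup S) : Set S) := by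
        have hstep : ∀ x ∈ Group.conjugatesOfSet (A : Set S), ∀ y ∈ Group.conjugatesOfSet (A : Set S), x * y = y * x := by
          intro x hx y hy
          rw [Group.mem_conjugatesOfSet_iff] at hx hy
          obtain ⟨a, ha, hax⟩ := hx
          obtain ⟨b, hb, hby⟩ := hy
          rw [isConj_iff] at hax hby
          obtain ⟨g, rfl⟩ := hax
          obtain ⟨h, rfl⟩ := hby
          exact hpair g h _ ⟨a, ha, rfl⟩ _ ⟨b, hb, rfl⟩
        rw [Subgroup.normalClosure, Subgroup.closure_le]
        intro x hx
        rw [SetLike.mem_coe, Subgroup.mem_centralizer_iff]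
        intro y hy
        have : y ∈ Subgroup.centralizer ({x} : Set S) := by
          have h1 : Subgroup.closure (Group.conjugatesOfSet (A : Set S)) ≤ Subgroup.centralizer ({x} : Set S) := by
            rw [Subgroup.closure_le]
            intro z hz
            rw [SetLike.mem_coe, Subgroup.mem_centralizer_singleton_iff]
            exact hstep z hz x hx
          exact h1 hy
        rw [Subgroup.mem_centralizer_singleton_iff] at this
        exact this
      intro x hx y hy
      exact (Subgroup.mem_centralizer_iff.mp (hcl hx) y hy).symm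
    by_cases hAT : A = ⊤
    · exact congrArg Subtype.val (hA.1.is_comm.comm (⟨a, ha⟩ : A) ⟨b, by rw [hAT]; trivial⟩)
    by_cases hBT : B = ⊤
    · exact congrArg Subtype.val (hB.1.is_comm.comm (⟨a, by rw [hBT]; trivial⟩ : B) ⟨b, hb⟩)
    by_cases hAB : A ⊔ B = ⊤
    · -- class two
      set A1 := Subgroup.normalClosure (A : Set S) with hA1
      set B1 := Subgroup.normalClosure (B : Set S) with hB1
      have hAA1 : A ≤ A1 := Subgroup.le_normalClosure
      have hBB1 : B ≤ B1 := Subgroup.le_normalClosure
      have hA1c := hnc A hA hAT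
      have hB1c := hnc B hB hBT
      have hA1B1 : A1 ⊔ B1 = ⊤ := by
        rw [eq_top_iff, ← hAB]; exact sup_le_sup hAA1 hBB1
      have hcent : A1 ⊓ B1 ≤ Subgroup.center S := by
        rintro x ⟨hx1, hx2⟩
        rw [Subgroup.mem_center_iff]
        intro g
        have hg : g ∈ A1 ⊔ B1 := by rw [hA1B1]; trivial
        have hle : A1 ⊔ B1 ≤ Subgroup.centralizer ({x} : Set S) := by
          apply sup_le
          · intro z hz; rw [Subgroup.mem_centralizer_singleton_iff]; exact hA1c z hz x hx1
          · intro z hz; rw [Subgroup.mem_centralizer_singleton_iff]; exact hB1c z hz x hx2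
        exact Subgroup.mem_centralizer_singleton_iff.mp (hle hg)
      have hcomm : ⁅(⊤ : Subgroup S), (⊤ : Subgroup S)⁆ ≤ Subgroup.center S := by
        refine le_trans ?_ hcent
        have hAB1 : ⁅A1, B1⁆ ≤ A1 ⊓ B1 := Subgroup.commutator_le_inf A1 B1
        have h1 : ⁅(⊤ : Subgroup S), (⊤ : Subgroup S)⁆ ≤ A1 ⊓ B1 := by
          rw [← hA1B1, Subgroup.commutator_le]
          intro g hg h hh
          -- work modulo A1 ⊓ B1
          have hN : (A1 ⊓ B1).Normal := inferInstance
          have hq : ∀ g h : S, (QuotientGroup.mk' (A1 ⊓ B1)) g * (QuotientGroup.mk' (A1 ⊓ B1)) h = (QuotientGroup.mk' (A1 ⊓ B1)) h * (QuotientGroup.mk' (A1 ⊓ B1)) g := by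
            have key : ∀ x ∈ (A1 : Set S) ∪ B1, ∀ y ∈ (A1 : Set S) ∪ B1, (QuotientGroup.mk' (A1 ⊓ B1)) x * (QuotientGroup.mk' (A1 ⊓ B1)) y = (QuotientGroup.mk' (A1 ⊓ B1)) y * (QuotientGroup.mk' (A1 ⊓ B1)) x := by
              have hmix : ∀ x ∈ A1, ∀ y ∈ B1, (QuotientGroup.mk' (A1 ⊓ B1)) x * (QuotientGroup.mk' (A1 ⊓ B1)) y = (QuotientGroup.mk' (A1 ⊓ B1)) y * (QuotientGroup.mk' (A1 ⊓ B1)) x := by
                intro x hx y hy
                rw [← map_mul, ← map_mul]
                symm
                apply QuotientGroup.eq.mpr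
                apply hAB1
                have e : (y * x)⁻¹ * (x * y) = ⁅x⁻¹, y⁻¹⁆ := by rw [commutatorElement_def]; group
                rw [e]
                exact Subgroup.commutator_mem_commutator (A1.inv_mem hx) (B1.inv_mem hy)
              rintro x (hx | hx) y (hy | hy)
              · rw [← map_mul, ← map_mul, hA1c x hx y hy]
              · exact hmix x hx y hy
              · exact (hmix y hy x hx).symm
              · rw [← map_mul, ← map_mul, hB1c x hx y hy]
            have hall : ∀ g : S, g ∈ Subgroup.closure ((A1 : Set S) ∪ B1) := by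
              intro g
              rw [← Subgroup.sup_eq_closure, hA1B1]; trivial
            intro g h
            have step1 : ∀ x ∈ (A1 : Set S) ∪ B1, ∀ h : S, (QuotientGroup.mk' (A1 ⊓ B1)) x * (QuotientGroup.mk' (A1 ⊓ B1)) h = (QuotientGroup.mk' (A1 ⊓ B1)) h * (QuotientGroup.mk' (A1 ⊓ B1)) x := by
              intro x hx h
              have : Subgroup.closure ((A1 : Set S) ∪ B1) ≤ (Subgroup.centralizer ({(QuotientGroup.mk' (A1 ⊓ B1)) x} : Set _)).comap (QuotientGroup.mk' (A1 ⊓ B1)) := by
                rw [Subgroup.closure_le]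
                intro z hz
                show (QuotientGroup.mk' (A1 ⊓ B1)) z ∈ Subgroup.centralizer _
                rw [Subgroup.mem_centralizer_singleton_iff]
                exact key z hz x hx
              have h2 := this (hall h)
              rw [Subgroup.mem_comap, Subgroup.mem_centralizer_singleton_iff] at h2
              exact h2.symm
            have : Subgroup.closure ((A1 : Set S) ∪ B1) ≤ (Subgroup.centralizer ({(QuotientGroup.mk' (A1 ⊓ B1)) h} : Set _)).comap (QuotientGroup.mk' (A1 ⊓ B1)) := by
              rw [Subgroup.closure_le]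
              intro z hz
              show (QuotientGroup.mk' (A1 ⊓ B1)) z ∈ Subgroup.centralizer _
              rw [Subgroup.mem_centralizer_singleton_iff]
              exact step1 z hz h
            have h2 := this (hall g)
            rw [Subgroup.mem_comap, Subgroup.mem_centralizer_singleton_iff] at h2
            exact h2
          have h3 : (QuotientGroup.mk' (A1 ⊓ B1)) ⁅g, h⁆ = 1 := by
            rw [map_commutatorElement, commutatorElement_eq_one_iff_mul_comm]
            exact hq g h
          exact (QuotientGroup.eq_one_iff _).mp h3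
        exact h1
      have := hA.2 b (by
        rw [eq_bot_iff]
        have h1 : ⁅⁅A ⊔ Subgroup.zpowers b, A ⊔ Subgroup.zpowers b⁆, A ⊔ Subgroup.zpowers b⁆ ≤ ⁅Subgroup.center S, (⊤ : Subgroup S)⁆ :=
          Subgroup.commutator_mono ((Subgroup.commutator_mono le_top le_top).trans hcomm) le_top
        refine h1.trans ?_
        rw [Subgroup.commutator_le]
        intro z hz g _
        rw [Subgroup.mem_bot, commutatorElement_eq_one_iff_mul_comm]
        exact (Subgroup.mem_center_iff.mp hz g).symm) a ha
      exact this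
    · -- smaller group
      have hcardM : Nat.card (A ⊔ B : Subgroup S) ≤ n := by
        have h1 : Nat.card (A ⊔ B : Subgroup S) < Nat.card S := by
          have h2 := Subgroup.card_mul_index (A ⊔ B)
          have h3 : (A ⊔ B).index ≠ 1 := fun h => hAB (Subgroup.index_eq_one.mp h)
          have h4 : 0 < (A ⊔ B).index := Nat.pos_of_ne_zero Subgroup.index_ne_zero_of_finite
          have h5 : 2 ≤ (A ⊔ B).index := by omega
          have h6 : 0 < Nat.card (A ⊔ B : Subgroup S) := Nat.card_pos
          nlinarith
        omega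
      have := ih (A ⊔ B : Subgroup S) hcardM _ (hres _ _ le_sup_left hA) _ (hres _ _ le_sup_right hB)
        ⟨a, Subgroup.mem_sup_left ha⟩ (Subgroup.mem_subgroupOf.mpr ha) ⟨b, Subgroup.mem_sup_right hb⟩ (Subgroup.mem_subgroupOf.mpr hb)
      exact congrArg Subtype.val this

/-- Let S be a finite p-group. Then D*(S) itself belongs to the family that generates it: D*(S) is abelian, and every x ∈ S with ⟨D*(S), x⟩ of class at most two centralizes D*(S). Hence D*(S) is the unique maximal member of that family. -/
theorem result {S : Type*} [Group S] [Finite S] {p : ℕ} [Fact p.Prime] (hS : IsPGroup p S) :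
    Cfsg.dStar S ∈ Cfsg.dStarFamily S := by
  haveI : Group.IsNilpotent S := hS.isNilpotent
  have hcomm := commute_aux (Nat.card S) S le_rfl
  have hab : ∀ x ∈ Cfsg.dStar S, ∀ A ∈ Cfsg.dStarFamily S, ∀ a ∈ A, x * a = a * x := by
    intro x hx A hA a ha
    have hle : Cfsg.dStar S ≤ Subgroup.centralizer ({a} : Set S) := by
      apply sSup_le
      intro B hB b hb
      rw [Subgroup.mem_centralizer_singleton_iff]
      exact hcomm B hB A hA b hb a ha
    exact Subgroup.mem_centralizer_singleton_iff.mp (hle hx)
  refine ⟨⟨⟨fun x y => ?_⟩⟩, fun x hx a ha => ?_⟩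
  · apply Subtype.ext
    have hle : Cfsg.dStar S ≤ Subgroup.centralizer ({(x : S)} : Set S) := by
      apply sSup_le
      intro B hB b hb
      rw [Subgroup.mem_centralizer_singleton_iff]
      exact (hab x x.2 B hB b hb).symm
    exact (Subgroup.mem_centralizer_singleton_iff.mp (hle y.2)).symm
  · have hle : Cfsg.dStar S ≤ Subgroup.centralizer ({x} : Set S) := by
      apply sSup_le
      intro B hB b hb
      rw [Subgroup.mem_centralizer_singleton_iff]
      apply hB.2 x _ b hb
      rw [eq_bot_iff, ← hx]
      have h1 : B ⊔ Subgroup.zpowers x ≤ Cfsg.dStar S ⊔ Subgroup.zpowers x := sup_le_sup_right (le_sSup hB) _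
      exact Subgroup.commutator_mono (Subgroup.commutator_mono h1 h1) h1
    exact Subgroup.mem_centralizer_singleton_iff.mp (hle ha)

end Cfsg.Agent.S3061
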