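import Cfsg.Statements.S3064
import Mathlib
import Cfsg.Agent.LibFrob6b
import Cfsg.Agent.LibTransPC
import Cfsg.Agent.LibLE11Iso
import Cfsg.Agent.LibLE11Syl

set_option autoImplicit false
set_option linter.all false
open Cfsg

namespace Cfsg.Agent.S3064

open CfsgLib.LE11Iso CfsgLib.LE11Syl
open scoped Pointwise

universe w

/-- the inductive core -/
theorem core {p : ℕ} [hp : Fact p.Prime] : ∀ (n : ℕ) (G : Type w) [Group G] [Finite G], Nat.card G ≤ n → ∀ x : G,
    (∃ k : ℕ, orderOf x = p ^ k) → Cfsg.IsIsolated x →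
    (∀ H : Subgroup G, (Nat.card H).Coprime p → (∀ h ∈ H, x * h * x⁻¹ ∈ H) → ∀ h ∈ H, x * h = h * x) →
    x ∈ Subgroup.center G := by
  intro n
  induction n with
  | zero => intro G _ _ hn; exact absurd hn (by have : 0 < Nat.card G := Nat.card_pos; omega)
  | succ n ih =>
  intro G _ _ hn x hxo hiso hb
  by_contra hxZ
  set C : Subgroup G := Subgroup.centralizer ({x} : Set G) with hC
  have hxC : x ∈ C := by rw [hC, Subgroup.mem_centralizer_singleton_iff]
  have hmemC : ∀ g : G, g ∈ C ↔ g * x = x * g := fun g => Subgroup.mem_centralizer_singleton_iff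
  have hCtop : C ≠ ⊤ := by
    intro h
    apply hxZ
    rw [Subgroup.mem_center_iff]
    intro g
    exact (hmemC g).1 (by rw [h]; trivial)
  have hsub : ∀ H : Subgroup G, x ∈ H → H ≠ ⊤ → H ≤ C := by
    intro H hxH hH
    have hlt : Nat.card H < Nat.card G := by
      rcases lt_or_eq_of_le (Subgroup.card_le_card_group H) with h | h
      · exact h
      · exact absurd (Subgroup.eq_top_of_card_eq H h) hH
    have h1 := ih H (by omega) ⟨x, hxH⟩ (by
        obtain ⟨k, hk⟩ := hxo
        exact ⟨k, by rw [Subgroup.orderOf_mk, hk]⟩)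
      (by
        intro g hg
        apply Subtype.ext
        exact hiso (g : G) (congrArg Subtype.val hg.eq))
      (by
        intro K hK hKx h hh
        apply Subtype.ext
        refine hb (K.map H.subtype) ?_ ?_ h ⟨h, hh, rfl⟩
        · rwa [Subgroup.card_map_of_injective H.subtype_injective]
        · rintro _ ⟨k, hk, rfl⟩
          exact ⟨_, hKx k hk, rfl⟩)
    intro h hh
    rw [hmemC]
    have := Subgroup.mem_center_iff.1 h1 ⟨h, hh⟩
    exact congrArg Subtype.val this
  set Z := Subgroup.center G with hZ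
  have hZC : Z ≤ C := by
    intro z hz
    rw [hmemC]
    exact (Subgroup.mem_center_iff.1 hz x).symm
  set f := QuotientGroup.mk' Z with hf
  have hfs : Function.Surjective f := QuotientGroup.mk'_surjective Z
  set Cb := C.map f with hCb
  have hCbC : ∀ g : G, f g ∈ Cb → g ∈ C := by
    rintro g ⟨c, hc, hcg⟩
    have h1 : c⁻¹ * g ∈ Z := by rw [← QuotientGroup.eq]; exact hcg
    have h2 := C.mul_mem hc (hZC h1)
    rwa [mul_inv_cancel_left] at h2
  have hmal : ∀ g : G ⧸ Z, g ∉ Cb → Cb ⊓ (MulAut.conj g • Cb) = ⊥ := by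
    intro gb hgb
    obtain ⟨g, rfl⟩ := hfs gb
    have hgC : g ∉ C := fun h => hgb ⟨g, h, rfl⟩
    rw [eq_bot_iff]
    rintro yb ⟨⟨c, hc, rfl⟩, hy2⟩
    have hy3 : (f g)⁻¹ * f c * f g ∈ Cb := by
      have := mem_conj_smul.1 hy2
      exact this
    rw [← map_inv, ← map_mul, ← map_mul] at hy3
    have hc' : g⁻¹ * c * g ∈ C := hCbC _ hy3
    have hcx : c * x = x * c := (hmemC c).1 hc
    have hcy : c * (g * x * g⁻¹) = (g * x * g⁻¹) * c := by
      have h1 := (hmemC _).1 hc'
      calc c * (g * x * g⁻¹) = g * (g⁻¹ * c * g * x) * g⁻¹ := by group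
        _ = g * (x * (g⁻¹ * c * g)) * g⁻¹ := by rw [h1]
        _ = (g * x * g⁻¹) * c := by group
    have htop : Subgroup.closure ({x, g * x * g⁻¹} : Set G) = ⊤ := by
      by_contra hne
      have h1 := hsub _ (Subgroup.subset_closure (Set.mem_insert _ _)) hne
      have h2 : g * x * g⁻¹ ∈ C := h1 (Subgroup.subset_closure (Set.mem_insert_of_mem _ rfl))
      have h3 := hiso g ((hmemC _).1 h2).symm
      exact hgC (conj_eq_iff_mem.1 h3)
    have hcZ : c ∈ Z := by
      rw [hZ, Subgroup.mem_center_iff]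
      intro y
      have h1 : (⊤ : Subgroup G) ≤ Subgroup.centralizer ({c} : Set G) := by
        rw [← htop, Subgroup.closure_le]
        intro w hw
        rw [SetLike.mem_coe, Subgroup.mem_centralizer_singleton_iff]
        rcases hw with rfl | hw
        · exact hcx.symm
        · rw [Set.mem_singleton_iff.1 hw]; exact hcy.symm
      exact Subgroup.mem_centralizer_singleton_iff.1 (h1 (Subgroup.mem_top y))
    rw [Subgroup.mem_bot]
    exact (QuotientGroup.eq_one_iff c).2 hcZ
  obtain ⟨Nb, -, hNbn, hcompl⟩ := CfsgLib.Frob6.frobenius_kernel Cb hmal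
  have hcop := CfsgLib.Frob6.index_coprime Cb hmal
  have hNbcard : Nat.card Nb = Cb.index := hcompl.index_eq_card.symm
  have hfx : f x ≠ 1 := fun h => hxZ ((QuotientGroup.eq_one_iff x).1 h)
  have hpC : p ∣ Nat.card Cb := by
    obtain ⟨k, hk⟩ := hxo
    have h1 : orderOf (f x) ∣ p ^ k := by rw [← hk]; exact orderOf_map_dvd f x
    obtain ⟨j, -, hj⟩ := (Nat.dvd_prime_pow hp.out).1 h1
    have hj0 : j ≠ 0 := by
      rintro rfl
      rw [pow_zero, orderOf_eq_one_iff] at hj
      exact hfx hj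
    have h2 : orderOf (f x) ∣ Nat.card Cb := Subgroup.orderOf_dvd_natCard Cb ⟨x, hxC, rfl⟩
    exact (hj ▸ dvd_pow_self p hj0 : p ∣ orderOf (f x)).trans h2
  have hpN : ¬ p ∣ Nat.card Nb := by
    intro h
    rw [hNbcard] at h
    have h2 : p ∣ Nat.gcd (Nat.card Cb) Cb.index := Nat.dvd_gcd hpC h
    rw [hcop] at h2
    exact hp.out.one_lt.ne' (Nat.dvd_one.1 h2)
  set N := Nb.comap f with hN
  have hNn : N.Normal := hNbn.comap f
  -- Sylow `p`-subgroup of `N` is central
  obtain ⟨P⟩ : Nonempty (Sylow p N) := inferInstance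
  have hPZ : ∀ y : N, y ∈ P → (y : G) ∈ Z := by
    intro y hy
    obtain ⟨k, hk⟩ := IsPGroup.iff_orderOf.mp P.isPGroup' (⟨y, hy⟩ : P)
    rw [Subgroup.orderOf_mk] at hk
    have h1 : orderOf (f (y : G)) ∣ p ^ k := by
      rw [← hk, ← Subgroup.orderOf_coe]; exact orderOf_map_dvd f _
    have h2 : orderOf (f (y : G)) ∣ Nat.card Nb := Subgroup.orderOf_dvd_natCard Nb y.2
    have h3 : Nat.Coprime (Nat.card Nb) (p ^ k) :=
      (Nat.Coprime.pow_left k ((Nat.Prime.coprime_iff_not_dvd hp.out).2 hpN)).symm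
    have h4 : orderOf (f (y : G)) = 1 :=
      Nat.Coprime.eq_one_of_dvd (Nat.Coprime.coprime_dvd_left h2 (Nat.Coprime.coprime_dvd_right h1 h3)) dvd_rfl
    exact (QuotientGroup.eq_one_iff _).1 (orderOf_eq_one_iff.1 h4)
  have hPc : Subgroup.normalizer ((P : Subgroup N) : Set N) ≤ Subgroup.centralizer ((P : Subgroup N) : Set N) := by
    intro w _
    rw [Subgroup.mem_centralizer_iff]
    intro y hy
    apply Subtype.ext
    exact (Subgroup.mem_center_iff.1 (hPZ y hy) (w : G)).symm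
  have hK0 := MonoidHom.ker_transferSylow_isComplement' P hPc
  set K0 := (MonoidHom.transferSylow P hPc).ker with hK0def
  have hnpc : CfsgLib.TransPC.IsNPC p K0 := CfsgLib.TransPC.IsNPC.of_isComplement' P inferInstance hK0
  have hK0x : ∀ h ∈ K0.map N.subtype, x * h * x⁻¹ ∈ K0.map N.subtype := by
    rintro _ ⟨h, hh, rfl⟩
    have h1 : x * (h : G) * x⁻¹ ∈ N := hNn.conj_mem _ h.2 x
    refine ⟨⟨x * (h : G) * x⁻¹, h1⟩, ?_, rfl⟩
    show (⟨x * (h : G) * x⁻¹, h1⟩ : N) ∈ K0
    rw [hnpc.mem_iff, Subgroup.orderOf_mk]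
    have h2 := (hnpc.mem_iff h).1 hh
    rw [← Subgroup.orderOf_coe] at h2
    have h3 : orderOf (x * (h : G) * x⁻¹) = orderOf (h : G) := by
      have := MulEquiv.orderOf_eq (MulAut.conj x) (h : G)
      rwa [MulAut.conj_apply] at this
    rw [h3]; exact h2
  have hK0cop : (Nat.card (K0.map N.subtype)).Coprime p := by
    rw [Subgroup.card_map_of_injective N.subtype_injective]
    exact hnpc.coprime
  have hxK0 := hb _ hK0cop hK0x
  have hNC : N ≤ C := by
    intro y hy
    have h1 : (⟨y, hy⟩ : N) ∈ K0 ⊔ (P : Subgroup N) := by rw [hK0.sup_eq_top]; trivial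
    rw [Subgroup.mem_sup_of_normal_left] at h1
    obtain ⟨k, hk, s, hs, hks⟩ := h1
    have h2 : y = (k : G) * (s : G) := (congrArg Subtype.val hks).symm
    rw [h2]
    refine C.mul_mem ?_ (hZC (hPZ s hs))
    rw [hmemC]
    exact (hxK0 k ⟨k, hk, rfl⟩).symm
  have hNbC : Nb ≤ Cb := by
    have := Subgroup.map_mono (f := f) hNC
    rwa [hN, Subgroup.map_comap_eq_self_of_surjective hfs] at this
  have hNb : Nb = ⊥ := by
    have h1 := hcompl.disjoint
    rw [eq_bot_iff]
    exact h1 le_rfl hNbC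
  have hCbtop : Cb = ⊤ := by
    have := hcompl.sup_eq_top
    rwa [hNb, bot_sup_eq] at this
  apply hCtop
  rw [eq_top_iff]
  intro g _
  exact hCbC g (by rw [hCbtop]; trivial)

/-- Let S be a Sylow p-subgroup of the finite group G and x an element of S such that (i) x is the only G-conjugate of x lying in S, and (ii) x centralizes every subgroup of order prime to p that it normalizes. Then x lies in the centre of G. -/
theorem result {G : Type*} [Group G] [Finite G] {p : ℕ} [Fact p.Prime]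
    (S : Sylow p G) (x : G) (hx : x ∈ S)
    (hU : ∀ g : G, g⁻¹ * x * g ∈ S → g⁻¹ * x * g = x)
    (hb : ∀ H : Subgroup G, (Nat.card H).Coprime p → (∀ h ∈ H, x * h * x⁻¹ ∈ H) → ∀ h ∈ H, x * h = h * x) :
    x ∈ Subgroup.center G := by
  have hxo : ∃ k : ℕ, orderOf x = p ^ k := by
    obtain ⟨k, hk⟩ := IsPGroup.iff_orderOf.mp S.isPGroup' (⟨x, hx⟩ : S)
    exact ⟨k, by rwa [Subgroup.orderOf_mk] at hk⟩
  refine core (Nat.card G) G le_rfl x hxo ?_ hb
  intro g hg
  have h1 : IsPGroup p (Subgroup.zpowers x ⊔ Subgroup.zpowers (g * x * g⁻¹) : Subgroup G) := by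
    have h2 : IsPGroup p (Subgroup.zpowers (g * x * g⁻¹)) := by
      apply isPGroup_zpowers
      obtain ⟨k, hk⟩ := hxo
      refine ⟨k, ?_⟩
      have := MulEquiv.orderOf_eq (MulAut.conj g) x
      rw [MulAut.conj_apply] at this
      rw [this, hk]
    refine IsPGroup.to_sup_of_normal_left' (isPGroup_zpowers hxo) h2 ?_
    rw [Subgroup.zpowers_le]
    apply Subgroup.centralizer_le_normalizer
    rw [Subgroup.mem_centralizer_iff]
    intro y hy
    obtain ⟨k, rfl⟩ := hy
    exact hg.zpow_left k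
  obtain ⟨T, hT⟩ := h1.exists_le_sylow
  obtain ⟨h, hh⟩ := MulAction.exists_smul_eq G T S
  have hmem : ∀ y ∈ (T : Subgroup G), h * y * h⁻¹ ∈ (S : Subgroup G) := by
    intro y hy
    rw [← hh, Sylow.coe_subgroup_smul]
    exact Subgroup.smul_mem_pointwise_smul y (MulAut.conj h) (T : Subgroup G) hy
  have hxT : x ∈ (T : Subgroup G) := hT (Subgroup.mem_sup_left (Subgroup.mem_zpowers x))
  have hyT : g * x * g⁻¹ ∈ (T : Subgroup G) := hT (Subgroup.mem_sup_right (Subgroup.mem_zpowers _))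
  have h3 := hmem x hxT
  have h4 := hmem _ hyT
  have h5 : h * x * h⁻¹ = x := by
    have := hU h⁻¹ (by rw [inv_inv]; exact h3)
    rwa [inv_inv] at this
  have h6 : h * (g * x * g⁻¹) * h⁻¹ = x := by
    have e : h * (g * x * g⁻¹) * h⁻¹ = (h * g)⁻¹⁻¹ * x * (h * g)⁻¹ := by group
    rw [e] at h4 ⊢
    exact hU _ h4
  have h7 : g * x * g⁻¹ = h⁻¹ * x * h := by
    calc g * x * g⁻¹ = h⁻¹ * (h * (g * x * g⁻¹) * h⁻¹) * h := by group
      _ = h⁻¹ * x * h := by rw [h6]
  rw [h7]
  have h8 : h⁻¹ * (h * x * h⁻¹) * h = x := by group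
  rw [h5] at h8
  exact h8

end Cfsg.Agent.S3064
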