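import Cfsg.Statements.S3073
import Cfsg.Agent.S1988

set_option autoImplicit false
universe u
open Cfsg

namespace Cfsg.Agent.S3073

/-- For an odd prime p, every finite p-group S has a characteristic subgroup K with C_S(K) ≤ K such that, whenever S is (isomorphic to) a Sylow p-subgroup of a finite group G, G has a normal p-complement if and only if N_G(K)/C_G(K) is a p-group, i.e. every element of N_G(K) of order prime to p centralizes K (K transported into G along the isomorphism). -/
theorem result (p : ℕ) [Fact p.Prime] (hp : p ≠ 2)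
    (S : Type u) [Group S] [Finite S] (hS : IsPGroup p S) :
    ∃ K : Subgroup S, K.Characteristic ∧ Subgroup.centralizer (K : Set S) ≤ K ∧
      ∀ (G : Type u) [Group G] [Finite G] (P : Sylow p G) (e : ↥(P : Subgroup G) ≃* S),
        Cfsg.HasNormalPComplement p G ↔
          ∀ g ∈ Subgroup.normalizer (((K.comap (e : ↥(P : Subgroup G) →* S)).map (P : Subgroup G).subtype : Subgroup G) : Set G),
            (orderOf g).Coprime p →
              g ∈ Subgroup.centralizer (((K.comap (e : ↥(P : Subgroup G) →* S)).map (P : Subgroup G).subtype : Subgroup G) : Set G) := by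
  refine ⟨Cfsg.kInfLower S, ?_, (Cfsg.Agent.S1978.result hS).1, ?_⟩
  · rw [Subgroup.characteristic_iff_map_eq]
    intro φ
    exact CfsgLib.Kinf9.map_kInfLower φ
  intro G _ _ P e
  have hK : ((Cfsg.kInfLower S).comap (e : ↥(P : Subgroup G) →* S)).map (P : Subgroup G).subtype =
      Cfsg.inducedFunctor Cfsg.kInfLower (P : Subgroup G) := by
    have h1 : (Cfsg.kInfLower ↥(P : Subgroup G)).map e.toMonoidHom = Cfsg.kInfLower S :=
      CfsgLib.Kinf9.map_kInfLower e
    have h2 : (Cfsg.kInfLower S).comap (e : ↥(P : Subgroup G) →* S) = Cfsg.kInfLower ↥(P : Subgroup G) := by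
      rw [← h1]
      exact Subgroup.comap_map_eq_self_of_injective e.injective _
    rw [h2]; rfl
  rw [hK]
  constructor
  · rintro ⟨Q, N, hN, hc⟩ g hg hgp
    haveI := hN
    have hgN : g ∈ N := by
      rw [← QuotientGroup.eq_one_iff]
      have h1 : orderOf (QuotientGroup.mk g : G ⧸ N) ∣ orderOf g := orderOf_map_dvd (QuotientGroup.mk' N) g
      obtain ⟨n, hn⟩ := IsPGroup.iff_card.1 Q.2
      have h2 : orderOf (QuotientGroup.mk g : G ⧸ N) ∣ p ^ n := by
        have := orderOf_dvd_natCard (QuotientGroup.mk g : G ⧸ N)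
        rwa [← Subgroup.index_eq_card, hc.symm.index_eq_card, hn] at this
      have h3 := Nat.dvd_gcd h1 h2
      rw [(hgp.pow_right n).gcd_eq_one, Nat.dvd_one, orderOf_eq_one_iff] at h3
      exact h3
    -- [K, g] ≤ K ∩ N = 1
    rw [Subgroup.mem_centralizer_iff]
    intro k hk
    have hkP : k ∈ (P : Subgroup G) := by
      obtain ⟨k', _, rfl⟩ := hk
      exact k'.2
    have h1 : g * k * g⁻¹ ∈ Cfsg.inducedFunctor Cfsg.kInfLower (P : Subgroup G) :=
      (Subgroup.mem_normalizer_iff.1 hg k).1 hk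
    have h1P : g * k * g⁻¹ ∈ (P : Subgroup G) := by
      obtain ⟨k', _, he⟩ := h1
      rw [← he]; exact k'.2
    have h2 : g * k * g⁻¹ * k⁻¹ ∈ N := by
      have : g * k * g⁻¹ * k⁻¹ = g * (k * g⁻¹ * k⁻¹) := by group
      rw [this]
      exact N.mul_mem hgN (hN.conj_mem _ (N.inv_mem hgN) k)
    have h3 : g * k * g⁻¹ * k⁻¹ ∈ (P : Subgroup G) := (P : Subgroup G).mul_mem h1P ((P : Subgroup G).inv_mem hkP)
    obtain ⟨n, hn⟩ := P.2 ⟨_, h3⟩
    have h4 : (g * k * g⁻¹ * k⁻¹) ^ p ^ n = 1 := congrArg Subtype.val hn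
    have h5 : (Nat.card N).Coprime p := by
      have hcard := hc.card_mul
      rw [Nat.coprime_comm, Nat.Prime.coprime_iff_not_dvd Fact.out]
      intro hd
      have h6 : (Nat.card N) * Nat.card Q = Nat.card G := hcard
      -- `Q` is Sylow
      have h7 : ¬ p ∣ (Q : Subgroup G).index := Q.not_dvd_index
      apply h7
      have h8 : (Q : Subgroup G).index * Nat.card Q = Nat.card G := (Q : Subgroup G).index_mul_card
      have h9 : (Q : Subgroup G).index = Nat.card N := by
        have hpos : 0 < Nat.card Q := Nat.card_pos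
        exact Nat.eq_of_mul_eq_mul_right hpos (h8.trans h6.symm)
      rw [h9]; exact hd
    have h6 : orderOf (g * k * g⁻¹ * k⁻¹) ∣ Nat.card N := by
      have := orderOf_dvd_natCard (⟨_, h2⟩ : N)
      rwa [← Subgroup.orderOf_coe] at this
    have h7 := Nat.dvd_gcd h6 (orderOf_dvd_of_pow_eq_one h4)
    rw [(h5.pow_right n).gcd_eq_one, Nat.dvd_one, orderOf_eq_one_iff] at h7
    have h8 : g * k * g⁻¹ = k := mul_inv_eq_one.1 h7
    exact (mul_inv_eq_iff_eq_mul.1 h8).symm
  · intro h
    exact Cfsg.Agent.S1988.result hp P (Or.inr h)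

end Cfsg.Agent.S3073
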