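import Cfsg.Statements.S3075
import Mathlib
import Cfsg.Agent.LibLE11Ms

set_option autoImplicit false
set_option linter.all false
open Cfsg

namespace Cfsg.Agent.S3075

open Cfsg Subgroup CfsgLib.LE

theorem splits_of {N : Type*} [Group N] [Finite N] {p : ℕ} [hp : Fact p.Prime] (hp2 : p ≠ 2)
    (A : Subgroup N) [hAn : A.Normal] (hAcomm : IsMulCommutative A) (hAcard : Nat.card A = p ^ 2)
    (hAexp : Monoid.exponent ↥A = p) {x t : N} (ht : t ∉ A) (htt : t * t ∈ A)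
    (htc : ∀ n : N, n * t * n⁻¹ * t⁻¹ ∈ A) (hxA : x ∉ centralizer (A : Set N)) (hxp : x ^ p ∈ A)
    (htA : ∃ a ∈ A, t * a * t⁻¹ = a⁻¹ ∧ a ≠ 1)
    (hself : centralizer (A : Set N) = A) :
    ∃ U : Subgroup N, A ⊓ U = ⊥ ∧ A ⊔ U = ⊤ := by
  have hpodd : Odd p := hp.out.odd_of_ne_two hp2
  have hcomm : ∀ a ∈ A, ∀ b ∈ A, a * b = b * a := fun a ha b hb =>
    congrArg Subtype.val (mul_comm' (⟨a, ha⟩ : A) ⟨b, hb⟩)
  have hpow : ∀ a ∈ A, a ^ p = 1 := by
    intro a ha
    have := Monoid.pow_exponent_eq_one (⟨a, ha⟩ : A)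
    rw [hAexp] at this
    exact congrArg Subtype.val this
  -- involution
  obtain ⟨k, hk⟩ := hpodd
  set τ : N := t ^ p with hτ
  have hττ : τ * τ = 1 := by
    rw [hτ, ← pow_add, ← two_mul, pow_mul, sq]
    exact hpow _ htt
  have hτt : ∃ a ∈ A, τ = a * t := by
    refine ⟨(t * t) ^ k, A.pow_mem htt k, ?_⟩
    rw [hτ, hk, pow_succ, pow_mul, sq]
  obtain ⟨a0, ha0, hτa⟩ := hτt
  have hτA : τ ∉ A := by
    intro h
    apply ht
    have : t = a0⁻¹ * τ := by rw [hτa]; group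
    rw [this]; exact A.mul_mem (A.inv_mem ha0) h
  have hτc : ∀ n : N, n * τ * n⁻¹ * τ⁻¹ ∈ A := by
    intro n
    have h1 : n * τ * n⁻¹ * τ⁻¹ = (n * a0 * n⁻¹) * (n * t * n⁻¹ * t⁻¹) * a0⁻¹ := by
      rw [hτa]; group
    rw [h1]
    exact A.mul_mem (A.mul_mem (hAn.conj_mem _ ha0 n) (htc n)) (A.inv_mem ha0)
  have hτact : ∀ a ∈ A, τ * a * τ⁻¹ = t * a * t⁻¹ := by
    intro a ha
    have h1 : t * a * t⁻¹ ∈ A := hAn.conj_mem _ ha t
    calc τ * a * τ⁻¹ = a0 * (t * a * t⁻¹) * a0⁻¹ := by rw [hτa]; group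
      _ = (t * a * t⁻¹) * a0 * a0⁻¹ := by rw [hcomm a0 ha0 _ h1]
      _ = t * a * t⁻¹ := by group
  have hconjact : ∀ n : N, ∀ a ∈ A, (n * τ * n⁻¹) * a * (n * τ * n⁻¹)⁻¹ = τ * a * τ⁻¹ := by
    intro n a ha
    have h1 := hτc n
    set c := n * τ * n⁻¹ * τ⁻¹ with hc
    have h2 : n * τ * n⁻¹ = c * τ := by rw [hc]; group
    have h3 : τ * a * τ⁻¹ ∈ A := hAn.conj_mem _ ha τ
    calc (n * τ * n⁻¹) * a * (n * τ * n⁻¹)⁻¹ = c * (τ * a * τ⁻¹) * c⁻¹ := by rw [h2]; group
      _ = (τ * a * τ⁻¹) * c * c⁻¹ := by rw [hcomm c h1 _ h3]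
      _ = τ * a * τ⁻¹ := by group
  -- the two eigenspaces
  let C : Subgroup N := A ⊓ centralizer ({τ} : Set N)
  let D : Subgroup N :=
    { carrier := {a | a ∈ A ∧ τ * a * τ⁻¹ = a⁻¹}
      one_mem' := ⟨A.one_mem, by simp⟩
      mul_mem' := by
        rintro a b ⟨ha, ha'⟩ ⟨hb, hb'⟩
        refine ⟨A.mul_mem ha hb, ?_⟩
        calc τ * (a * b) * τ⁻¹ = (τ * a * τ⁻¹) * (τ * b * τ⁻¹) := by group
          _ = a⁻¹ * b⁻¹ := by rw [ha', hb']
          _ = (b * a)⁻¹ := by group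
          _ = (a * b)⁻¹ := by rw [hcomm a ha b hb]
      inv_mem' := by
        rintro a ⟨ha, ha'⟩
        refine ⟨A.inv_mem ha, ?_⟩
        calc τ * a⁻¹ * τ⁻¹ = (τ * a * τ⁻¹)⁻¹ := by group
          _ = a⁻¹⁻¹ := by rw [ha'] }
  have hCmem : ∀ a, a ∈ C ↔ a ∈ A ∧ τ * a * τ⁻¹ = a := by
    intro a
    rw [mem_inf, mem_centralizer_singleton_iff]
    constructor
    · rintro ⟨h1, h2⟩; exact ⟨h1, by rw [← h2]; group⟩
    · rintro ⟨h1, h2⟩; exact ⟨h1, by nth_rw 1 [← h2]; group⟩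
  have hCn : ∀ n : N, n ∈ normalizer (C : Set N) := by
    have key : ∀ n : N, ∀ a ∈ C, n * a * n⁻¹ ∈ C := by
      intro n a ha
      rw [hCmem] at ha ⊢
      refine ⟨hAn.conj_mem _ ha.1 n, ?_⟩
      have h1 := hconjact n⁻¹ a ha.1
      have h2 : (n⁻¹ * τ * n⁻¹⁻¹) * a * (n⁻¹ * τ * n⁻¹⁻¹)⁻¹ = a := by rw [h1, ha.2]
      calc τ * (n * a * n⁻¹) * τ⁻¹ = n * ((n⁻¹ * τ * n⁻¹⁻¹) * a * (n⁻¹ * τ * n⁻¹⁻¹)⁻¹) * n⁻¹ := by group
        _ = n * a * n⁻¹ := by rw [h2]
    intro n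
    rw [mem_normalizer_iff]
    intro a
    refine ⟨key n a, fun h => ?_⟩
    have := key n⁻¹ _ h
    have e : n⁻¹ * (n * a * n⁻¹) * n⁻¹⁻¹ = a := by group
    rwa [e] at this
  have hDn : ∀ n : N, n ∈ normalizer (D : Set N) := by
    have key : ∀ n : N, ∀ a ∈ D, n * a * n⁻¹ ∈ D := by
      rintro n a ⟨ha, ha'⟩
      refine ⟨hAn.conj_mem _ ha n, ?_⟩
      have h1 := hconjact n⁻¹ a ha
      have h2 : (n⁻¹ * τ * n⁻¹⁻¹) * a * (n⁻¹ * τ * n⁻¹⁻¹)⁻¹ = a⁻¹ := by rw [h1, ha']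
      calc τ * (n * a * n⁻¹) * τ⁻¹ = n * ((n⁻¹ * τ * n⁻¹⁻¹) * a * (n⁻¹ * τ * n⁻¹⁻¹)⁻¹) * n⁻¹ := by group
        _ = n * a⁻¹ * n⁻¹ := by rw [h2]
        _ = (n * a * n⁻¹)⁻¹ := by group
    intro n
    rw [mem_normalizer_iff]
    intro a
    refine ⟨key n a, fun h => ?_⟩
    have := key n⁻¹ _ h
    have e : n⁻¹ * (n * a * n⁻¹) * n⁻¹⁻¹ = a := by group
    rwa [e] at this
  have hCA : C ≤ A := inf_le_left
  have hDA : D ≤ A := fun a ha => ha.1
  have hAp : IsPGroup p A := IsPGroup.of_card hAcard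
  have hsq1 : ∀ a ∈ A, a * a = 1 → a = 1 := by
    intro a ha h
    have h1 := hpow a ha
    rw [hk, pow_succ, pow_mul, sq, h, one_pow, one_mul] at h1
    exact h1
  have hCD : C ⊓ D = ⊥ := by
    rw [eq_bot_iff]
    rintro a ⟨h1, h2⟩
    replace h1 : a ∈ C := h1
    rw [hCmem] at h1
    have h3 : τ * a * τ⁻¹ = a⁻¹ := h2.2
    rw [mem_bot]
    apply hsq1 a h1.1
    rw [h1.2] at h3
    nth_rw 1 [h3]; group
  have hD1 : D ≠ ⊥ := by
    obtain ⟨a, ha, ha', ha1⟩ := htA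
    intro h
    apply ha1
    have : a ∈ D := ⟨ha, by rw [hτact a ha, ha']⟩
    rwa [h, mem_bot] at this
  -- C is trivial
  have hC1 : C = ⊥ := by
    by_contra hC1
    apply hxA
    have hcard : Nat.card C * Nat.card D ∣ p ^ 2 := by
      have hdis : Disjoint C D := disjoint_iff.2 hCD
      have h1 : Nat.card (C ⊔ D : Subgroup N) = Nat.card C * Nat.card D := by
        have h2 := card_sup_mul_card_inf (H := C) (K := D) (fun n _ => hDn n)
        rw [hCD, card_bot, mul_one] at h2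
        exact h2
      rw [← h1, ← hAcard]
      exact card_dvd_of_le (sup_le hCA hDA)
    obtain ⟨i, hi⟩ := IsPGroup.iff_card.1 (hAp.to_le hCA)
    obtain ⟨j, hj⟩ := IsPGroup.iff_card.1 (hAp.to_le hDA)
    have hi0 : i ≠ 0 := by
      rintro rfl; rw [pow_zero, card_eq_one] at hi; exact hC1 hi
    have hj0 : j ≠ 0 := by
      rintro rfl; rw [pow_zero, card_eq_one] at hj; exact hD1 hj
    rw [hi, hj, ← pow_add, Nat.pow_dvd_pow_iff_le_right hp.out.one_lt] at hcard
    have hi1 : i = 1 := by omega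
    have hj1 : j = 1 := by omega
    rw [hi1, pow_one] at hi
    rw [hj1, pow_one] at hj
    have hxP : IsPGroup p (zpowers x) := by
      have : orderOf x ∣ p ^ 2 := by
        apply orderOf_dvd_of_pow_eq_one
        rw [sq, pow_mul]; exact hpow _ hxp
      obtain ⟨m, _, hm⟩ := (Nat.dvd_prime_pow hp.out).1 this
      exact IsPGroup.of_card (n := m) (by rw [Nat.card_zpowers, hm])
    have h1 := CfsgLib.LE11Ms.centralizes_of_card_prime hi hxP (fun n _ => hCn n)
    have h2 := CfsgLib.LE11Ms.centralizes_of_card_prime hj hxP (fun n _ => hDn n)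
    rw [zpowers_le] at h1 h2
    have hsup : C ⊔ D = A := by
      apply eq_of_le_of_card_ge (sup_le hCA hDA)
      have h2 := card_sup_mul_card_inf (H := C) (K := D) (fun n _ => hDn n)
      rw [hCD, card_bot, mul_one, hi, hj] at h2
      rw [h2, hAcard, sq]
    rw [← hsup]
    have h3 : C ⊔ D ≤ centralizer ({x} : Set N) := by
      refine sup_le ?_ ?_
      · intro c hc; rw [mem_centralizer_singleton_iff]
        exact mem_centralizer_iff.1 h1 c hc
      · intro c hc; rw [mem_centralizer_singleton_iff]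
        exact mem_centralizer_iff.1 h2 c hc
    rw [mem_centralizer_iff]
    intro c hc
    exact mem_centralizer_singleton_iff.1 (h3 hc)
  -- τ inverts A
  have hinv := (CfsgLib.LE11OC.inverts_of_fpf (D := A) (z := τ)
    (by rw [normalizer_eq_top]; trivial) hττ hC1).1
  refine ⟨centralizer ({τ} : Set N), hC1, ?_⟩
  rw [eq_top_iff]
  intro n _
  -- n τ n⁻¹ = c τ, c = a², a τ a⁻¹ = n τ n⁻¹
  have h1 := hτc n
  set c := n * τ * n⁻¹ * τ⁻¹ with hc
  have h2 : n * τ * n⁻¹ = c * τ := by rw [hc]; group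
  set a := c ^ (k + 1) with ha
  have haA : a ∈ A := A.pow_mem h1 _
  have haa : a * a = c := by
    rw [ha, ← pow_add]
    have : k + 1 + (k + 1) = p + 1 := by omega
    rw [this, pow_succ, hpow c h1, one_mul]
  have h3 : a * τ * a⁻¹ = n * τ * n⁻¹ := by
    have h4 := hinv a⁻¹ (A.inv_mem haA)
    rw [inv_inv] at h4
    calc a * τ * a⁻¹ = a * (τ * a⁻¹ * τ⁻¹) * τ := by group
      _ = a * a * τ := by rw [h4]
      _ = n * τ * n⁻¹ := by rw [haa, h2]
  have h5 : n = a * (a⁻¹ * n) := by group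
  rw [h5]
  apply mul_mem ((le_sup_left : A ≤ _) haA)
  apply (le_sup_right : centralizer ({τ} : Set N) ≤ _)
  rw [mem_centralizer_singleton_iff]
  calc a⁻¹ * n * τ = a⁻¹ * (n * τ * n⁻¹) * n := by group
    _ = a⁻¹ * (a * τ * a⁻¹) * n := by rw [h3]
    _ = τ * (a⁻¹ * n) := by group

/-- Let p be an odd prime and N a finite group with a normal elementary abelian subgroup A of order p² that is its own centralizer in N, such that N/A is isomorphic to SL₂(p) (over any field F with p elements). Then N splits over A: some subgroup U of N satisfies A ∩ U = 1 and AU = N. -/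
theorem result {N : Type*} [Group N] [Finite N] {p : ℕ} [Fact p.Prime] (hp : p ≠ 2)
    (A : Subgroup N) [A.Normal] (hAcomm : IsMulCommutative A) (hAcard : Nat.card A = p ^ 2) (hAexp : Monoid.exponent ↥A = p)
    (hAself : Subgroup.centralizer (A : Set N) = A)
    {F : Type*} [Field F] [Fintype F] (hF : Fintype.card F = p) (e : N ⧸ A ≃* Matrix.SpecialLinearGroup (Fin 2) F) :
    ∃ U : Subgroup N, A ⊓ U = ⊥ ∧ A ⊔ U = ⊤ := by
  classical
  -- matrices
  have hchar : ringChar F = p := by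
    obtain ⟨n, hn1, hn2⟩ := FiniteField.card F (ringChar F)
    rw [hF] at hn2
    have h1 : ringChar F ∣ p := by rw [hn2]; exact dvd_pow_self _ n.pos.ne'
    exact (Nat.prime_dvd_prime_iff_eq hn1 Fact.out).1 h1
  have hcp : CharP F p := hchar ▸ (inferInstance : CharP F (ringChar F))
  have h2F : (2 : F) ≠ 0 := by
    intro h
    have h1 : ((2 : ℕ) : F) = 0 := by exact_mod_cast h
    rw [CharP.cast_eq_zero_iff F p] at h1
    exact hp ((Nat.prime_dvd_prime_iff_eq Fact.out Nat.prime_two).1 h1)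
  let m : Matrix.SpecialLinearGroup (Fin 2) F := -1
  let u : Matrix.SpecialLinearGroup (Fin 2) F := ⟨!![1, 1; 0, 1], by simp [Matrix.det_fin_two]⟩
  obtain ⟨t, ht⟩ := QuotientGroup.mk'_surjective A (e.symm m)
  obtain ⟨x, hx⟩ := QuotientGroup.mk'_surjective A (e.symm u)
  have hmem : ∀ y : N, y ∈ A ↔ QuotientGroup.mk' A y = 1 := fun y => (QuotientGroup.eq_one_iff y).symm
  have hm1 : m ≠ 1 := by
    intro h
    have h1 := congrArg (fun M : Matrix.SpecialLinearGroup (Fin 2) F => M.1 0 0) h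
    simp [m] at h1
    apply h2F
    linear_combination (-1 : F) * h1
  have hmm : m * m = 1 := by simp [m]
  have hmc : ∀ g : Matrix.SpecialLinearGroup (Fin 2) F, g * m * g⁻¹ * m⁻¹ = 1 := by
    intro g; simp [m]
  have hu : u ^ p = 1 := by
    have key : ∀ n : ℕ, ((u ^ n : Matrix.SpecialLinearGroup (Fin 2) F) : Matrix (Fin 2) (Fin 2) F) =
        !![1, (n : F); 0, 1] := by
      intro n
      induction n with
      | zero => ext i j; fin_cases i <;> fin_cases j <;> simp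
      | succ n ih =>
        rw [pow_succ, Matrix.SpecialLinearGroup.coe_mul, ih]
        ext i j
        fin_cases i <;> fin_cases j <;> simp [u, Matrix.mul_apply, Fin.sum_univ_two, add_comm]
    apply Subtype.ext
    rw [key p]
    ext i j
    fin_cases i <;> fin_cases j <;> simp
  have hu1 : u ≠ 1 := by
    intro h
    have h1 := congrArg (fun M : Matrix.SpecialLinearGroup (Fin 2) F => M.1 0 1) h
    simp [u] at h1
  have htA : t ∉ A := by
    rw [hmem, ht]
    intro h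
    apply hm1
    have := congrArg e h
    simpa using this
  have hself : centralizer (A : Set N) = A := hAself
  refine splits_of hp A hAcomm hAcard hAexp (x := x) (t := t) htA ?_ ?_ ?_ ?_ ?_ hself
  · rw [hmem, map_mul, ht, ← map_mul, hmm, map_one]
  · intro n
    rw [hmem, map_mul, map_mul, map_mul, map_inv, map_inv, ht]
    obtain ⟨g, hg⟩ := e.symm.surjective (QuotientGroup.mk' A n)
    rw [← hg, ← map_mul, ← map_inv, ← map_inv, ← map_mul, ← map_mul, hmc, map_one]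
  · rw [hself, hmem, hx]
    intro h
    apply hu1
    have := congrArg e h
    simpa using this
  · rw [hmem, map_pow, hx, ← map_pow, hu, map_one]
  · -- some element is inverted
    have hcomm : ∀ a ∈ A, ∀ b ∈ A, a * b = b * a := fun a ha b hb =>
      congrArg Subtype.val (mul_comm' (⟨a, ha⟩ : A) ⟨b, hb⟩)
    have htt : t * t ∈ A := by rw [hmem, map_mul, ht, ← map_mul, hmm, map_one]
    have h1 : t ∉ centralizer (A : Set N) := by rw [hself]; exact htA
    rw [mem_centralizer_iff] at h1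
    push Not at h1
    obtain ⟨a, ha, ha'⟩ := h1
    have hta : t * a * t⁻¹ ∈ A := (inferInstance : A.Normal).conj_mem _ ha t
    refine ⟨a * (t * a * t⁻¹)⁻¹, A.mul_mem ha (A.inv_mem hta), ?_, ?_⟩
    · have h2 : t * (t * a * t⁻¹) * t⁻¹ = a := by
        calc t * (t * a * t⁻¹) * t⁻¹ = (t * t) * a * (t * t)⁻¹ := by group
          _ = a * (t * t) * (t * t)⁻¹ := by rw [hcomm _ htt _ ha]
          _ = a := by group
      calc t * (a * (t * a * t⁻¹)⁻¹) * t⁻¹ = (t * a * t⁻¹) * (t * (t * a * t⁻¹) * t⁻¹)⁻¹ := by group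
        _ = (t * a * t⁻¹) * a⁻¹ := by rw [h2]
        _ = (a * (t * a * t⁻¹)⁻¹)⁻¹ := by group
    · intro h
      apply ha'
      have h3 : a = t * a * t⁻¹ := by rwa [mul_inv_eq_one] at h
      nth_rw 1 [h3]; group

end Cfsg.Agent.S3075
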