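import Cfsg.Agent.LibPSolv19
import Mathlib
-- Template for statement S3076 (row 3076; see /opt/grader/pristine/manifest.json for weights).
-- Copy to Cfsg/Agent/S3076.lean and replace the sorry. The statement below is byte-identical to the frozen
-- statement Cfsg.CfsgFrozen.S3076 (Cfsg/Statements/S3076.lean; the theorem Cfsg.loc3_sylow_in_p_core_preimage_iff_centric_radical);
-- the grader kernel-checks Cfsg.Agent.S3076.result against that frozen type. Keep the theorem IN THIS FILE
-- (a `result` declared elsewhere and merely imported here is not credited); helpers may live anywhere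
-- under Cfsg/Agent/.
import Cfsg.Statements.S3076
-- import your own Cfsg.Agent.* helpers here

set_option autoImplicit false
open Cfsg

namespace Cfsg.Agent.S3076

open Subgroup CfsgLib.Cores

private lemma relIndex_dvd_index' {M : Type*} [Group M] [Finite M] (S C : Subgroup M) [C.Normal] :
    S.relIndex C ∣ S.index := by
  have h1 : S.relIndex (S ⊔ C) = S.relIndex C := by
    have e1 : (S ⊓ C).relIndex S * S.relIndex (S ⊔ C) = (S ⊓ C).relIndex (S ⊔ C) :=
      relIndex_mul_relIndex _ _ _ inf_le_left le_sup_left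
    have e2 : (S ⊓ C).relIndex C * C.relIndex (S ⊔ C) = (S ⊓ C).relIndex (S ⊔ C) :=
      relIndex_mul_relIndex _ _ _ inf_le_right le_sup_right
    rw [inf_relIndex_right, relIndex_sup_right] at e2
    rw [inf_relIndex_left] at e1
    have h0 : C.relIndex S ≠ 0 := FiniteIndex.index_ne_zero
    rw [← e1, mul_comm (S.relIndex C)] at e2
    exact (Nat.eq_of_mul_eq_mul_left (Nat.pos_of_ne_zero h0) e2).symm
  rw [← h1]
  exact relIndex_dvd_index_of_le le_sup_left

private lemma core {M : Type*} [Group M] [Finite M] {p : ℕ} [hp : Fact p.Prime] (H : Subgroup M) [H.Normal]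
    (hH : IsPGroup p H) (S : Subgroup M) (hS : IsPGroup p S) (hSi : ¬ p ∣ S.index) (hHS : H ≤ S)
    (C : Subgroup M) [C.Normal] (hC : ∀ x, x ∈ C ↔ ∀ h ∈ H, h * x = x * h) :
    H ≤ (pCore p (M ⧸ C)).comap (QuotientGroup.mk' C) ∧
    (¬ p ∣ H.relIndex ((pCore p (M ⧸ C)).comap (QuotientGroup.mk' C)) ↔
      (S ⊓ C ≤ H ∧ pPrimePCore p M = H ⊔ C)) := by
  obtain ⟨K, hK⟩ : ∃ K, K = (pCore p (M ⧸ C)).comap (QuotientGroup.mk' C) := ⟨_, rfl⟩
  haveI hKn : K.Normal := by rw [hK]; infer_instance
  have hHK : H ≤ K := by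
    rw [hK, ← map_le_iff_le_comap]
    exact le_pCore (Normal.map inferInstance _ (QuotientGroup.mk'_surjective C)) (hH.map _)
  have hCK : C ≤ K := by
    intro x hx
    rw [hK, mem_comap]
    have h1 : QuotientGroup.mk' C x = 1 := (QuotientGroup.eq_one_iff x).mpr hx
    rw [h1]; exact one_mem _
  have hDC : pPrimeCore p M ≤ C := by
    have hdis : Disjoint (pPrimeCore p M) H := by
      rw [disjoint_iff]
      obtain ⟨n, hn⟩ := IsPGroup.iff_card.mp hH
      apply inf_eq_bot_of_coprime
      rw [hn]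
      exact (pPrimeCore_coprime p).pow_right n
    intro x hx
    rw [hC]
    intro h hh
    exact (commute_of_normal_of_disjoint _ _ inferInstance inferInstance hdis x h hx hh).symm
  have hLK : pPrimePCore p M ≤ K := by
    rw [hK, ← map_le_iff_le_comap]
    apply le_pCore (Normal.map (by rw [pPrimePCore]; infer_instance) _ (QuotientGroup.mk'_surjective C))
    rintro ⟨_, x, hx, rfl⟩
    obtain ⟨n, hn⟩ := pCore_isPGroup p ⟨QuotientGroup.mk' (pPrimeCore p M) x, mem_comap.mp hx⟩
    refine ⟨n, Subtype.ext ?_⟩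
    have h1 := congrArg Subtype.val hn
    change (QuotientGroup.mk' (pPrimeCore p M) x) ^ p ^ n = 1 at h1
    change (QuotientGroup.mk' C x) ^ p ^ n = 1
    rw [← map_pow] at h1 ⊢
    exact (QuotientGroup.eq_one_iff _).mpr (hDC ((QuotientGroup.eq_one_iff _).mp h1))
  have hpK : ∀ x ∈ K, ∃ n, x ^ p ^ n ∈ C := by
    intro x hx
    rw [hK] at hx
    obtain ⟨n, hn⟩ := pCore_isPGroup p ⟨QuotientGroup.mk' C x, mem_comap.mp hx⟩
    refine ⟨n, ?_⟩
    have h1 := congrArg Subtype.val hn
    change (QuotientGroup.mk' C x) ^ p ^ n = 1 at h1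
    rw [← map_pow] at h1
    exact (QuotientGroup.eq_one_iff _).mp h1
  have hSC : ¬ p ∣ S.relIndex C := fun h => hSi (h.trans (relIndex_dvd_index' S C))
  have hsix : S ⊓ C ≤ H → ¬ p ∣ H.relIndex C ∧ K ≤ pPrimePCore p M := by
    intro hle
    have hHC : ¬ p ∣ H.relIndex C := by
      intro h
      apply hSC
      have h1 : H.relIndex C ∣ (S ⊓ C).relIndex C := relIndex_dvd_of_le_left _ hle
      rw [inf_relIndex_right] at h1
      exact h.trans h1
    refine ⟨hHC, ?_⟩
    obtain ⟨L0, hL0, hL0p, hL0C, hdec⟩ := CfsgLib.PSolv19.exists_normal_compl (p := p) (Z := H ⊓ C) (K := C) inf_le_right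
      (IsPGroup.to_inf_left hH) (fun z hz k hk => (hC k).mp hk z hz.1) (by rw [inf_relIndex_right]; exact hHC)
    have hL0D : L0 ≤ pPrimeCore p M := le_pPrimeCore hL0 ((Nat.Prime.coprime_iff_not_dvd hp.out).mpr hL0p).symm
    have hCD : ∀ x ∈ C, ∃ n, x ^ p ^ n ∈ pPrimeCore p M := by
      intro x hx
      obtain ⟨l, hl, z, hz, rfl⟩ := hdec x hx
      obtain ⟨n, hn⟩ := hH ⟨z, hz.1⟩
      refine ⟨n, ?_⟩
      have hcm : Commute l z := ((hC l).mp (hL0C hl) z hz.1).symm
      have hz1 : z ^ p ^ n = 1 := congrArg Subtype.val hn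
      rw [hcm.mul_pow, hz1, mul_one]
      exact pow_mem (hL0D hl) _
    rw [pPrimePCore, ← map_le_iff_le_comap]
    apply le_pCore (Normal.map inferInstance _ (QuotientGroup.mk'_surjective _))
    rintro ⟨_, x, hx, rfl⟩
    obtain ⟨n, hn⟩ := hpK x hx
    obtain ⟨m, hm⟩ := hCD _ hn
    refine ⟨n + m, Subtype.ext ?_⟩
    change (QuotientGroup.mk' (pPrimeCore p M) x) ^ p ^ (n + m) = 1
    rw [← map_pow, pow_add, pow_mul]
    exact (QuotientGroup.eq_one_iff _).mpr hm
  rw [← hK]
  refine ⟨hHK, ?_, ?_⟩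
  · intro hnd
    have h1 : K ⊓ S ≤ H := by
      rw [← relIndex_eq_one]
      have h2 : H.relIndex (K ⊓ S) ∣ H.relIndex K := CfsgLib.PSolv19.relIndex_inf_dvd
      obtain ⟨n, hn⟩ := IsPGroup.iff_card.mp (IsPGroup.to_inf_right (H := K) hS)
      have h3 : H.relIndex (K ⊓ S) ∣ p ^ n := hn ▸ relIndex_dvd_card _ _
      obtain ⟨k, -, hk⟩ := (Nat.dvd_prime_pow hp.out).mp h3
      rcases Nat.eq_zero_or_pos k with h | h
      · rw [hk, h, pow_zero]
      · exact absurd ((dvd_pow_self p h.ne').trans (hk ▸ h2)) hnd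
    have h2 : S ⊓ C ≤ H := fun x hx => h1 ⟨hCK hx.2, hx.1⟩
    refine ⟨h2, ?_⟩
    rw [le_antisymm hLK (hsix h2).2]
    apply le_antisymm _ (sup_le hHK hCK)
    rw [← relIndex_eq_one]
    have h3 : (H ⊔ C).relIndex K ∣ H.relIndex K := relIndex_dvd_of_le_left _ le_sup_left
    have h4 : (H ⊔ C).relIndex K ∣ C.relIndex K := relIndex_dvd_of_le_left _ le_sup_right
    have h5 : C.relIndex K = Nat.card (pCore p (M ⧸ C)) := by
      have h6 : (⊥ : Subgroup (M ⧸ C)).comap (QuotientGroup.mk' C) = C := by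
        rw [MonoidHom.comap_bot, QuotientGroup.ker_mk']
      conv_lhs => rw [← h6]
      rw [relIndex_comap, relIndex_bot_left, hK, map_comap_eq_self_of_surjective (QuotientGroup.mk'_surjective C)]
    obtain ⟨n, hn⟩ := IsPGroup.iff_card.mp (pCore_isPGroup (G := M ⧸ C) p)
    rw [h5, hn] at h4
    obtain ⟨k, -, hk⟩ := (Nat.dvd_prime_pow hp.out).mp h4
    rcases Nat.eq_zero_or_pos k with h | h
    · rw [hk, h, pow_zero]
    · exact absurd ((dvd_pow_self p h.ne').trans (hk ▸ h3)) hnd
  · rintro ⟨h1, h2⟩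
    obtain ⟨h3, h4⟩ := hsix h1
    have h5 : K = C ⊔ H := by
      rw [sup_comm, ← h2]
      exact le_antisymm h4 hLK
    rw [h5, relIndex_sup_right]
    exact h3

/-- Let P be a Sylow p-subgroup of the finite group G and H ≤ P a subgroup with N_P(H) a Sylow p-subgroup of N_G(H). Let N be the preimage in N_G(H) of O_p(N_G(H)/C_G(H)). Then H is a Sylow p-subgroup of N if and only if C_P(H) ≤ H and O_{p',p}(N_G(H)) = H·C_G(H). -/
theorem result {G : Type*} [Group G] [Finite G] {p : ℕ} [Fact p.Prime]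
    (P : Sylow p G) (H : Subgroup G) (hHP : H ≤ (P : Subgroup G))
    (hSyl : ¬ p ∣ ((P : Subgroup G) ⊓ Subgroup.normalizer (H : Set G)).relIndex (Subgroup.normalizer (H : Set G)))
    [hC : ((Subgroup.centralizer (H : Set G)).subgroupOf (Subgroup.normalizer (H : Set G))).Normal] :
    (H ≤ ((Cfsg.pCore p (↥(Subgroup.normalizer (H : Set G)) ⧸
              (Subgroup.centralizer (H : Set G)).subgroupOf (Subgroup.normalizer (H : Set G)))).comap
            (QuotientGroup.mk' _)).map (Subgroup.normalizer (H : Set G)).subtype ∧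
      ¬ p ∣ H.relIndex (((Cfsg.pCore p (↥(Subgroup.normalizer (H : Set G)) ⧸
              (Subgroup.centralizer (H : Set G)).subgroupOf (Subgroup.normalizer (H : Set G)))).comap
            (QuotientGroup.mk' _)).map (Subgroup.normalizer (H : Set G)).subtype)) ↔
    ((P : Subgroup G) ⊓ Subgroup.centralizer (H : Set G) ≤ H ∧
      (Cfsg.pPrimePCore p ↥(Subgroup.normalizer (H : Set G))).map (Subgroup.normalizer (H : Set G)).subtype =
        H ⊔ Subgroup.centralizer (H : Set G)) := by
  classical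
  obtain ⟨N, hN⟩ : ∃ N, N = Subgroup.normalizer (H : Set G) := ⟨_, rfl⟩
  subst hN
  haveI hHn : (H.subgroupOf (normalizer (H : Set G))).Normal := inferInstance
  have hle : H ≤ normalizer (H : Set G) := le_normalizer
  have hCle : centralizer (H : Set G) ≤ normalizer (H : Set G) := centralizer_le_normalizer _
  have hHp : IsPGroup p H := P.isPGroup'.to_le hHP
  have key := core (p := p) (M := normalizer (H : Set G)) (H.subgroupOf _)
    (hHp.comap_of_injective (normalizer (H : Set G)).subtype (subtype_injective _))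
    (((P : Subgroup G) ⊓ normalizer (H : Set G)).subgroupOf _)
    ((IsPGroup.to_inf_left P.isPGroup').comap_of_injective (normalizer (H : Set G)).subtype (subtype_injective _))
    hSyl (fun x hx => ⟨hHP hx, x.2⟩) ((centralizer (H : Set G)).subgroupOf _) (by
      intro x
      rw [mem_subgroupOf, mem_centralizer_iff]
      constructor
      · intro h y hy
        exact Subtype.ext (h y hy)
      · intro h y hy
        exact congrArg Subtype.val (h ⟨y, hle hy⟩ hy))
  obtain ⟨k1, k2⟩ := key
  have e1 : (H.subgroupOf (normalizer (H : Set G))).map (normalizer (H : Set G)).subtype = H :=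
    map_subgroupOf_eq_of_le hle
  have e2 : ((centralizer (H : Set G)).subgroupOf (normalizer (H : Set G))).map (normalizer (H : Set G)).subtype = centralizer (H : Set G) :=
    map_subgroupOf_eq_of_le hCle
  have q1 : H ≤ ((Cfsg.pCore p (↥(normalizer (H : Set G)) ⧸
              (centralizer (H : Set G)).subgroupOf (normalizer (H : Set G)))).comap
            (QuotientGroup.mk' _)).map (normalizer (H : Set G)).subtype := by
    conv_lhs => rw [← e1]
    exact map_mono k1
  have q2 : H.relIndex (((Cfsg.pCore p (↥(normalizer (H : Set G)) ⧸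
              (centralizer (H : Set G)).subgroupOf (normalizer (H : Set G)))).comap
            (QuotientGroup.mk' _)).map (normalizer (H : Set G)).subtype) =
      (H.subgroupOf (normalizer (H : Set G))).relIndex ((Cfsg.pCore p (↥(normalizer (H : Set G)) ⧸
              (centralizer (H : Set G)).subgroupOf (normalizer (H : Set G)))).comap
            (QuotientGroup.mk' _)) := (relIndex_comap _ _ _).symm
  rw [q2, k2]
  constructor
  · rintro ⟨-, h1, h2⟩
    refine ⟨?_, ?_⟩
    · rintro x ⟨hx1, hx2⟩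
      exact h1 (x := ⟨x, hCle hx2⟩) ⟨⟨hx1, hCle hx2⟩, hx2⟩
    · rw [h2, Subgroup.map_sup, e1, e2]
  · rintro ⟨h1, h2⟩
    refine ⟨q1, ?_, ?_⟩
    · rintro x ⟨⟨hx1, -⟩, hx2⟩
      exact h1 ⟨hx1, hx2⟩
    · apply map_injective (subtype_injective (normalizer (H : Set G)))
      rw [h2, Subgroup.map_sup, e1, e2]

end Cfsg.Agent.S3076
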