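import Cfsg.Statements.S3078
import Cfsg.Agent.LibH2Glaub

set_option autoImplicit false
open Cfsg

namespace Cfsg.Agent.S3078

open Subgroup Cfsg MulAction CfsgLib.Cores CfsgLib.Coprime CfsgLib.H2Misc CfsgLib.H2Solv CfsgLib.H2Subn CfsgLib.H2Quad CfsgLib.H2Gen CfsgLib.H2Gen2 CfsgLib.H2Thomp CfsgLib.H2Lift CfsgLib.H2PG CfsgLib.H2Repl CfsgLib.H2Glaub
open scoped Pointwise commutatorElement

theorem mem_omega {G : Type*} [Group G] {p : ℕ} {A : Subgroup G} (hA : IsMulCommutative A) {x : G} :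
    x ∈ Cfsg.omegaOne p A ↔ x ∈ A ∧ x ^ p = 1 := by
  have hAc := comm_of_mulComm hA
  constructor
  · intro hx
    unfold Cfsg.omegaOne at hx
    induction hx using closure_induction with
    | mem x hx => exact hx
    | one => exact ⟨one_mem _, one_pow _⟩
    | mul x y hx hy ihx ihy =>
      have : Commute x y := hAc x ihx.1 y ihy.1
      exact ⟨mul_mem ihx.1 ihy.1, by rw [this.mul_pow, ihx.2, ihy.2, one_mul]⟩
    | inv x hx ih => exact ⟨inv_mem ih.1, by rw [inv_pow, ih.2, inv_one]⟩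
  · intro hx
    exact Subgroup.subset_closure hx

theorem omega_card {G : Type*} [Group G] [Finite G] {p : ℕ} [hp : Fact p.Prime] {A B : Subgroup G}
    (hS : IsPGroup p G) [B.Normal] (hp2 : p ≠ 2) (hA : IsMulCommutative A) (hBA : ⁅B, B⁆ ≤ A)
    (hnot : ¬ B ≤ normalizer (A : Set G)) {b : G} (hb : b ∈ B)
    (hbN : b ∈ normalizer ((normalizer (A : Set G)) : Set G)) (hbA : b ∉ normalizer (A : Set G)) :
    Nat.card (Cfsg.omegaOne p A) ≤ Nat.card (Cfsg.omegaOne p (star A b)) := by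
  have hmain := glauberman_replacement (p := p) (A := A) (B := B) hS (fun h => absurd h hp2) hA hBA hnot hb hbN hbA
  have hsc := hmain.2.1
  have hexp := hmain.2.2.2.2.2.2.2.2.2.1 hp2
  have hAc := comm_of_mulComm hA
  have hscc := comm_of_mulComm hsc
  obtain ⟨β, hβ⟩ : ∃ β : G, b⁻¹ = β := ⟨_, rfl⟩
  have hβB : β ∈ B := by rw [← hβ]; exact inv_mem hb
  set N := normalizer (A : Set G) with hN
  set A' := MulAut.conj β • A with hA'
  have hβN : MulAut.conj β • N = N := conj_smul_eq_of_mem_normalizer (by rw [← hβ]; exact inv_mem hbN)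
  have hNA' : N = normalizer (A' : Set G) := by
    rw [hA', CfsgLib.SolvBasic.normalizer_conj_smul, hβN]
  have hAN : A ≤ N := le_normalizer
  have hA'N : A' ≤ N := by
    rw [← hβN]; exact pointwise_smul_le_pointwise_smul_iff.mpr hAN
  have hAA' : A ≤ normalizer (A' : Set G) := by rw [← hNA']; exact hAN
  have hA'c : ∀ x ∈ A', ∀ y ∈ A', x * y = y * x := by
    rintro _ ⟨x, hx, rfl⟩ _ ⟨y, hy, rfl⟩
    have : (MulAut.conj β) (x * y) = (MulAut.conj β) (y * x) := by rw [hAc x hx y hy]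
    rw [map_mul, map_mul] at this
    exact this
  set Z := A ⊓ A' with hZ
  set H := A ⊔ A' with hH
  have hZH : H ≤ centralizer (Z : Set G) := by
    apply sup_le
    · exact le_centralizer_of_comm fun x hx y hy => hAc x hx y hy.1
    · exact le_centralizer_of_comm fun x hx y hy => hA'c x hx y hy.2
  have hHH : ⁅H, H⁆ ≤ Z := by
    have h1 : ⁅A, A'⁆ ≤ Z := by
      apply le_inf
      · rw [commutator_comm, ]
        rw [← commutator_comm, commutator_comm A A']
        rw [commutator_comm]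
        exact le_normalizer_iff_commutator_le_left.mp hA'N
      · rw [commutator_comm]
        exact le_normalizer_iff_commutator_le_left.mp hAA'
    have h2 : closure ((A : Set G) ∪ (A' : Set G)) = H := by
      rw [Subgroup.closure_union, Subgroup.closure_eq, Subgroup.closure_eq]
    have h3 := commutator_closure_closure_le (T := (A : Set G) ∪ (A' : Set G)) (K := Z) (by
      rw [h2]; exact hZH.trans (centralizer_le_normalizer _)) (by
      rintro s (hs | hs) t (ht | ht)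
      · rw [commutatorElement_eq_one_iff_mul_comm.mpr (hAc s hs t ht)]; exact one_mem _
      · exact h1 (commutator_mem_commutator hs ht)
      · rw [← commutatorElement_inv]; exact inv_mem (h1 (commutator_mem_commutator ht hs))
      · rw [commutatorElement_eq_one_iff_mul_comm.mpr (hA'c s hs t ht)]; exact one_mem _)
    rwa [h2] at h3
  set K := closure {g : G | ∃ a ∈ A, g = a * b⁻¹ * a⁻¹ * b} with hK
  have hstar : star A b = Z ⊔ K := by rw [hZ, hA', ← hβ]; rfl
  have hgen : ∀ a : G, a * b⁻¹ * a⁻¹ * b = ⁅a, β⁆ := by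
    intro a; rw [commutatorElement_def, ← hβ, inv_inv]
  have hKg : ∀ a ∈ A, ⁅a, β⁆ ∈ K := fun a ha => Subgroup.subset_closure ⟨a, ha, (hgen a).symm⟩
  have hconjA' : ∀ a ∈ A, β * a * β⁻¹ ∈ A' := fun a ha => smul_mem_pointwise_smul a (MulAut.conj β) A ha
  have hcH : ∀ a ∈ A, ⁅a, β⁆ ∈ H := by
    intro a ha
    rw [commutatorElement_def]
    have : a * β * a⁻¹ * β⁻¹ = a * (β * a⁻¹ * β⁻¹) := by group
    rw [this]
    exact mul_mem (mem_sup_left ha) (mem_sup_right (hconjA' _ (inv_mem ha)))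
  have hcB : ∀ a : G, ⁅a, β⁆ ∈ B := by
    intro a
    rw [commutatorElement_def]
    exact mul_mem (Normal.conj_mem ‹_› β hβB a) (inv_mem hβB)
  have hcZ : ∀ z ∈ Z, ∀ h ∈ H, Commute z h := fun z hz h hh => (mem_centralizer_iff.mp (hZH hh) z hz)
  have hABZ : A ⊓ B ≤ Z := by
    intro x hx
    obtain ⟨hxA, hxB⟩ := mem_inf.mp hx
    refine mem_inf.mpr ⟨hxA, ?_⟩
    have h1 : β⁻¹ * x * β ∈ A := by
      have : β⁻¹ * x * β = x * ⁅x⁻¹, β⁻¹⁆ := by rw [commutatorElement_def]; group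
      rw [this]
      exact mul_mem hxA (hBA (commutator_mem_commutator (inv_mem hxB) (inv_mem hβB)))
    have h2 := hconjA' _ h1
    have : β * (β⁻¹ * x * β) * β⁻¹ = x := by group
    rwa [this] at h2
  -- commutator of elements of order dividing p
  have hodd : p ∣ p.choose 2 := by
    exact hp.out.dvd_choose_self (by norm_num) (lt_of_le_of_ne hp.out.two_le (Ne.symm hp2))
  have hgenp : ∀ a ∈ A, a ^ p = 1 → ⁅a, β⁆ ^ p = 1 := by
    intro a ha hap
    set y := β * a⁻¹ * β⁻¹ with hy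
    have hyA' : y ∈ A' := hconjA' _ (inv_mem ha)
    have haH : a ∈ H := mem_sup_left ha
    have hyH : y ∈ H := mem_sup_right hyA'
    set c := ⁅a⁻¹, y⁻¹⁆⁻¹ with hc
    have hcZ' : c ∈ Z := inv_mem (hHH (commutator_mem_commutator (inv_mem haH) (inv_mem hyH)))
    have e1 : y * a = a * y * c := by rw [hc, commutatorElement_def]; group
    have e2 : ⁅a, β⁆ = a * y := by rw [hy, commutatorElement_def]; group
    have e3 := CfsgLib.SolvCrit.mul_pow_of_commutator_central a y c e1 (hcZ c hcZ' a haH).eq (hcZ c hcZ' y hyH).eq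
    rw [e2, e3, hap]
    have h3 : y ^ p = 1 := by
      rw [hy, conj_pow, inv_pow, hap]; group
    -- `c ^ p = 1` since `c = [a⁻¹, y⁻¹]⁻¹` and `a ^ p = 1`
    have h4 : c ^ p = 1 := by
      have h5 : a * y = y * a * c⁻¹ := by rw [e1]; group
      -- y a^n = a^n y c^n
      have h6 : ∀ n : ℕ, y * a ^ n = a ^ n * y * c ^ n := by
        intro n
        induction n with
        | zero => simp
        | succ n ih =>
          have hca : Commute c a := hcZ c hcZ' a haH
          have hcn : Commute (c ^ n) a := hca.pow_left n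
          calc y * a ^ (n+1) = (y * a ^ n) * a := by rw [pow_succ]; group
            _ = a ^ n * y * (c ^ n * a) := by rw [ih]; group
            _ = a ^ n * (y * a) * c ^ n := by rw [hcn.eq]; group
            _ = a ^ (n+1) * y * c ^ (n+1) := by rw [e1, pow_succ, pow_succ' c]; group
      have h7 := h6 p
      rw [hap, mul_one, one_mul] at h7
      exact (mul_eq_left.mp h7.symm)
    obtain ⟨m, hm⟩ := hodd
    rw [h3, hm, pow_mul, h4, one_pow, mul_one, mul_one]
  have hcs : ∀ a ∈ A, ⁅a, β⁆ ∈ star A b := by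
    intro a ha; rw [hstar]; exact mem_sup_right (hKg a ha)
  have hZs : Z ≤ star A b := by rw [hstar]; exact le_sup_left
  -- multiplicativity mod Z
  have hmul : ∀ a ∈ A, ∀ c ∈ A, (⁅a, β⁆)⁻¹ * ⁅c, β⁆ * (⁅a⁻¹ * c, β⁆)⁻¹ ∈ Z := by
    intro a ha c hc
    set d := a⁻¹ * c with hd
    have hdA : d ∈ A := mul_mem (inv_mem ha) hc
    have hc' : c = a * d := by rw [hd]; group
    have e : (⁅a * d, β⁆)⁻¹ * (⁅a, β⁆ * ⁅d, β⁆) =
        ⁅⁅a, β⁆⁻¹, a * ⁅d, β⁆⁻¹ * a⁻¹⁆ * ⁅a, ⁅d, β⁆⁻¹⁆ := by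
      simp only [commutatorElement_def]; group
    have haH : a ∈ H := mem_sup_left ha
    have hz : (⁅a * d, β⁆)⁻¹ * (⁅a, β⁆ * ⁅d, β⁆) ∈ Z := by
      rw [e]
      refine mul_mem (hHH (commutator_mem_commutator (inv_mem (hcH a ha)) ?_))
        (hHH (commutator_mem_commutator haH (inv_mem (hcH d hdA))))
      exact mul_mem (mul_mem haH (inv_mem (hcH d hdA))) (inv_mem haH)
    obtain ⟨z, hz'⟩ : ∃ z, z = (⁅a * d, β⁆)⁻¹ * (⁅a, β⁆ * ⁅d, β⁆) := ⟨_, rfl⟩
    rw [← hz'] at hz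
    have hcd : ⁅a * d, β⁆ = ⁅a, β⁆ * ⁅d, β⁆ * z⁻¹ := by rw [hz']; group
    rw [hc', hcd]
    have hzd : Commute z⁻¹ (⁅d, β⁆) := ((hcZ z hz _ (hcH d hdA))).inv_left
    have : (⁅a, β⁆)⁻¹ * (⁅a, β⁆ * ⁅d, β⁆ * z⁻¹) * (⁅d, β⁆)⁻¹ = z⁻¹ := by
      calc (⁅a, β⁆)⁻¹ * (⁅a, β⁆ * ⁅d, β⁆ * z⁻¹) * (⁅d, β⁆)⁻¹ = (⁅d, β⁆ * z⁻¹) * (⁅d, β⁆)⁻¹ := by group
        _ = z⁻¹ := by rw [← hzd.eq]; group
    rw [this]; exact inv_mem hz
  have hker : ∀ x ∈ A, (⁅x, β⁆ ∈ Z ↔ β * x * β⁻¹ ∈ Z) := by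
    intro x hx
    have e : ⁅x, β⁆ = x * (β * x * β⁻¹)⁻¹ := by rw [commutatorElement_def]; group
    constructor
    · intro h
      refine mem_inf.mpr ⟨?_, hconjA' x hx⟩
      have h1 : β * x * β⁻¹ = (⁅x, β⁆)⁻¹ * x := by rw [e]; group
      rw [h1]; exact mul_mem (inv_mem (mem_inf.mp h).1) hx
    · intro h
      apply hABZ
      refine mem_inf.mpr ⟨?_, hcB x⟩
      rw [e]; exact mul_mem hx (inv_mem (mem_inf.mp h).1)
  -- counting
  set Ω := Cfsg.omegaOne p A with hΩ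
  set Ω' := Cfsg.omegaOne p (star A b) with hΩ'
  set Y : Subgroup G := Ω ⊓ (MulAut.conj β⁻¹ • Z) with hY
  set Y' : Subgroup G := Ω' ⊓ Z with hY'
  have hYmem : ∀ x : G, x ∈ MulAut.conj β⁻¹ • Z ↔ β * x * β⁻¹ ∈ Z := by
    intro x
    rw [mem_pointwise_smul_iff_inv_smul_mem, ← map_inv, MulAut.smul_def, MulAut.conj_apply, inv_inv]
  have hcardY : Nat.card Y = Nat.card Y' := by
    have : MulAut.conj β • Y = Y' := by
      ext x
      rw [mem_pointwise_smul_iff_inv_smul_mem, ← map_inv, MulAut.smul_def, MulAut.conj_apply, inv_inv]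
      rw [hY, hY', mem_inf, mem_inf, hYmem, hΩ, hΩ', mem_omega hA, mem_omega hsc]
      have e : β * (β⁻¹ * x * β) * β⁻¹ = x := by group
      have e2 : (β⁻¹ * x * β) ^ p = 1 ↔ x ^ p = 1 := by
        have h := conj_pow (a := β⁻¹) (b := x) (i := p)
        rw [inv_inv] at h
        rw [h]
        constructor
        · intro h'
          have : x ^ p = β * (β⁻¹ * x ^ p * β) * β⁻¹ := by group
          rw [this, h']; group
        · intro h'; rw [h']; group
      rw [e, e2]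
      constructor
      · rintro ⟨⟨h1, h2⟩, h3⟩
        exact ⟨⟨hZs h3, h2⟩, h3⟩
      · rintro ⟨⟨h1, h2⟩, h3⟩
        refine ⟨⟨?_, h2⟩, h3⟩
        have h4 := (mem_inf.mp h3).2
        rw [hA', mem_pointwise_smul_iff_inv_smul_mem, ← map_inv, MulAut.smul_def, MulAut.conj_apply, inv_inv] at h4
        exact h4
    rw [← this, card_conj_smul]
  have hY1 : Y ≤ Ω := inf_le_left
  have hY2 : Y' ≤ Ω' := inf_le_left
  have hmapΩ : ∀ a ∈ Ω, ⁅a, β⁆ ∈ Ω' := by
    intro a ha
    have := (mem_omega hA).mp ha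
    exact (mem_omega hsc).mpr ⟨hcs a this.1, hgenp a this.1 this.2⟩
  have hrel : ∀ a ∈ Ω, ∀ c ∈ Ω, (a⁻¹ * c ∈ Y ↔ (⁅a, β⁆)⁻¹ * ⁅c, β⁆ ∈ Y') := by
    intro a ha c hc
    have haA := ((mem_omega hA).mp ha).1
    have hcA := ((mem_omega hA).mp hc).1
    have hd : a⁻¹ * c ∈ A := mul_mem (inv_mem haA) hcA
    have h1 := hmul a haA c hcA
    have h2 : (⁅a, β⁆)⁻¹ * ⁅c, β⁆ ∈ Z ↔ ⁅a⁻¹ * c, β⁆ ∈ Z := by
      constructor
      · intro h
        have : ⁅a⁻¹ * c, β⁆ = ((⁅a, β⁆)⁻¹ * ⁅c, β⁆ * (⁅a⁻¹ * c, β⁆)⁻¹)⁻¹ * ((⁅a, β⁆)⁻¹ * ⁅c, β⁆) := by group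
        rw [this]; exact mul_mem (inv_mem h1) h
      · intro h
        have : (⁅a, β⁆)⁻¹ * ⁅c, β⁆ = ((⁅a, β⁆)⁻¹ * ⁅c, β⁆ * (⁅a⁻¹ * c, β⁆)⁻¹) * ⁅a⁻¹ * c, β⁆ := by group
        rw [this]; exact mul_mem h1 h
    rw [hY, hY', mem_inf, mem_inf, hYmem, h2, hker _ hd]
    constructor
    · rintro ⟨_, h⟩; exact ⟨mul_mem (inv_mem (hmapΩ a ha)) (hmapΩ c hc), h⟩
    · rintro ⟨_, h⟩; exact ⟨mul_mem (inv_mem ha) hc, h⟩
  let F : (Ω ⧸ Y.subgroupOf Ω) → (Ω' ⧸ Y'.subgroupOf Ω') :=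
    Quotient.map' (fun a => (⟨⁅(a : G), β⁆, hmapΩ a a.2⟩ : Ω')) (by
      rintro ⟨a, ha⟩ ⟨c, hc⟩ h
      rw [QuotientGroup.leftRel_apply] at h ⊢
      exact mem_subgroupOf.mpr ((hrel a ha c hc).mp (mem_subgroupOf.mp h)))
  have hF : Function.Injective F := by
    rintro ⟨a, ha⟩ ⟨c, hc⟩ h
    have h' : (QuotientGroup.mk (⟨⁅(a : G), β⁆, hmapΩ a ha⟩ : Ω') : Ω' ⧸ Y'.subgroupOf Ω') =
      QuotientGroup.mk (⟨⁅(c : G), β⁆, hmapΩ c hc⟩ : Ω') := h
    rw [QuotientGroup.eq] at h'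
    apply QuotientGroup.eq.mpr
    exact mem_subgroupOf.mpr ((hrel a ha c hc).mpr (mem_subgroupOf.mp h'))
  have h1 := Nat.card_le_card_of_injective F hF
  have h2 := card_eq_card_quotient_mul_card_subgroup (Y.subgroupOf Ω)
  have h3 := card_eq_card_quotient_mul_card_subgroup (Y'.subgroupOf Ω')
  rw [Nat.card_congr (subgroupOfEquivOfLe hY1).toEquiv] at h2
  rw [Nat.card_congr (subgroupOfEquivOfLe hY2).toEquiv] at h3
  rw [h2, h3, hcardY]
  exact Nat.mul_le_mul_right _ h1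

theorem map_omega {G H : Type*} [Group G] [Group H] {p : ℕ} (f : H →* G) (hf : Function.Injective f) (A : Subgroup H) :
    (Cfsg.omegaOne p A).map f = Cfsg.omegaOne p (A.map f) := by
  unfold Cfsg.omegaOne
  rw [MonoidHom.map_closure]
  congr 1
  ext x
  constructor
  · rintro ⟨y, ⟨hy, hyp⟩, rfl⟩
    exact ⟨⟨y, hy, rfl⟩, by rw [← map_pow, hyp, map_one]⟩
  · rintro ⟨⟨y, hy, rfl⟩, h⟩
    refine ⟨y, ⟨hy, ?_⟩, rfl⟩
    apply hf
    rw [map_pow, map_one]; exact h

/-- A replacement Theorem for abelian subgroups of p-groups, p odd. Let G be a finite p-group with p odd, A an abelian subgroup of G, and B a subgroup of nilpotency class at most 2 with [B, B] ≤ A, such that A normalizes B but B does not normalize A. Then there is an abelian subgroup A* of G of the same order as A with A ∩ B strictly contained in A* ∩ B, A* contained in N_G(A) and in the normal closure of A, the exponent of A* dividing the exponent of A, and with the subgroup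 generated by the elements of order dividing p in A of order at most that of the corresponding subgroup of A* (the rank of A is at most the rank of A*). -/
theorem result {G : Type*} [Group G] [Finite G] {p : ℕ} [Fact p.Prime] (hp : p ≠ 2) (hG : IsPGroup p G) (A B : Subgroup G) (hA : IsMulCommutative A) (hB2 : ⁅⁅B, B⁆, B⁆ = ⊥) (hBA : ⁅B, B⁆ ≤ A) (hAB : A ≤ Subgroup.normalizer (B : Set G)) (hBnA : ¬ B ≤ Subgroup.normalizer (A : Set G)) : ∃ Astar : Subgroup G, IsMulCommutative Astar ∧ Nat.card Astar = Nat.card A ∧ A ⊓ B < Astar ⊓ B ∧ Astar ≤ Subgroup.normalizer (A : Set G) ∧ Astar ≤ Subgroup.normalClosure (A : Set G) ∧ Monoid.exponent Astar ∣ Monoid.exponent A ∧ Nat.card (Cfsg.omegaOne p A) ≤ Nat.card (Cfsg.omegaOne p Astar) := by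
  classical
  have hpp : p.Prime := Fact.out
  set L := A ⊔ B with hL
  have hAL : A ≤ L := le_sup_left
  have hBL : B ≤ L := le_sup_right
  set A₁ := A.subgroupOf L with hA₁
  set B₁ := B.subgroupOf L with hB₁
  have hLG : IsPGroup p L := hG.to_subgroup L
  haveI hB₁n : B₁.Normal := (normal_subgroupOf_iff_le_normalizer hBL).mpr (sup_le hAB le_normalizer)
  have hA₁m : A₁.map L.subtype = A := by rw [hA₁]; exact Subgroup.map_subgroupOf_eq_of_le hAL
  have hB₁m : B₁.map L.subtype = B := by rw [hB₁]; exact Subgroup.map_subgroupOf_eq_of_le hBL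
  have hinj : Function.Injective L.subtype := L.subtype_injective
  have hA₁c : IsMulCommutative A₁ := by
    apply mulComm_of_comm
    intro x hx y hy
    apply hinj
    exact comm_of_mulComm hA (x : G) (mem_subgroupOf.mp hx) (y : G) (mem_subgroupOf.mp hy)
  have hBA₁ : ⁅B₁, B₁⁆ ≤ A₁ := by
    rw [← Subgroup.map_le_map_iff_of_injective hinj, map_commutator, hA₁m, hB₁m]; exact hBA
  have hnorm : ∀ X : Subgroup L, ∀ x : L, x ∈ normalizer (X : Set L) ↔ (x : G) ∈ normalizer ((X.map L.subtype : Subgroup G) : Set G) := by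
    intro X x
    constructor
    · intro hx
      apply mem_normalizer_of_conj_smul_eq
      apply eq_of_le_of_card_ge ?_ (by rw [card_conj_smul])
      rintro _ ⟨_, ⟨y, hy, rfl⟩, rfl⟩
      exact ⟨x * y * x⁻¹, (mem_normalizer_iff.mp hx y).mp hy, rfl⟩
    · intro hx
      rw [mem_normalizer_iff]
      intro y
      have h1 := mem_normalizer_iff.mp hx (y : G)
      have h2 : ∀ z : L, (z : G) ∈ X.map L.subtype ↔ z ∈ X := fun z =>
        ⟨by rintro ⟨w, hw, e⟩; have : w = z := Subtype.ext e; rwa [← this], fun hz => ⟨z, hz, rfl⟩⟩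
      rw [← h2, h1, ← h2]; rfl
  have hnot₁ : ¬ B₁ ≤ normalizer (A₁ : Set L) := by
    intro h
    apply hBnA
    intro x hx
    have := (hnorm A₁ ⟨x, hBL hx⟩).mp (h (mem_subgroupOf.mpr hx))
    rwa [hA₁m] at this
  -- the element b
  obtain ⟨b, hb, hbN, hbA⟩ : ∃ b ∈ B₁, b ∈ normalizer ((normalizer (A₁ : Set L) : Subgroup L) : Set L) ∧ b ∉ normalizer (A₁ : Set L) := by
    have hNlt : normalizer (A₁ : Set L) < ⊤ := by
      rw [lt_top_iff_ne_top]
      intro h; apply hnot₁; rw [h]; exact le_top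
    haveI : Group.IsNilpotent L := hLG.isNilpotent
    have hlt := Group.normalizerCondition_of_isNilpotent (G := L) _ hNlt
    obtain ⟨x, hxN, hx⟩ := SetLike.exists_of_lt hlt
    have hsup : A₁ ⊔ B₁ = ⊤ := by
      rw [eq_top_iff, ← Subgroup.map_le_map_iff_of_injective hinj, Subgroup.map_sup, hA₁m, hB₁m]
      rw [← MonoidHom.range_eq_map, Subgroup.range_subtype]
    have hxm : x ∈ A₁ ⊔ B₁ := by rw [hsup]; trivial
    rw [← SetLike.mem_coe, Subgroup.mul_normal] at hxm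
    obtain ⟨a, ha, b, hb, rfl⟩ := hxm
    have haN : a ∈ normalizer (A₁ : Set L) := le_normalizer ha
    refine ⟨b, hb, ?_, ?_⟩
    · have h1 : a⁻¹ * (a * b) ∈ normalizer ((normalizer (A₁ : Set L) : Subgroup L) : Set L) :=
        mul_mem (inv_mem (le_normalizer haN)) hxN
      rwa [inv_mul_cancel_left] at h1
    · intro h; exact hx (mul_mem haN h)
  have hmain := glauberman_replacement (p := p) (A := A₁) (B := B₁) hLG (fun h => absurd h hp) hA₁c hBA₁ hnot₁ hb hbN hbA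
  have hom := omega_card (p := p) (A := A₁) (B := B₁) hLG hp hA₁c hBA₁ hnot₁ hb hbN hbA
  obtain ⟨k1, k2, _, k4, _, _, k7, _, _, k10, k11⟩ := hmain
  refine ⟨(star A₁ b).map L.subtype, ?_, ?_, ?_, ?_, ?_, ?_, ?_⟩
  · apply mulComm_of_comm
    rintro _ ⟨x, hx, rfl⟩ _ ⟨y, hy, rfl⟩
    rw [← map_mul, ← map_mul, comm_of_mulComm k2 x hx y hy]
  · rw [card_map_of_injective hinj, k1]
    have := card_map_of_injective (K := A₁) hinj
    rw [hA₁m] at this
    exact this.symm
  · have h1 : (A₁ ⊓ B₁).map L.subtype < (star A₁ b ⊓ B₁).map L.subtype :=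
      (Subgroup.map_lt_map_iff_of_injective hinj).mpr k4
    rw [Subgroup.map_inf _ _ _ hinj, Subgroup.map_inf _ _ _ hinj, hA₁m, hB₁m] at h1
    exact h1
  · rintro _ ⟨x, hx, rfl⟩
    have := (hnorm A₁ x).mp (k7 hx)
    rwa [hA₁m] at this
  · have h1 : (star A₁ b).map L.subtype ≤ (A₁ ⊔ (MulAut.conj b⁻¹ • A₁)).map L.subtype := Subgroup.map_mono k11
    refine h1.trans ?_
    rw [Subgroup.map_sup, hA₁m]
    apply sup_le le_normalClosure
    rintro _ ⟨_, ⟨a, ha, rfl⟩, rfl⟩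
    have haA : (a : G) ∈ A := mem_subgroupOf.mp ha
    have := (normalClosure_normal (s := (A : Set G))).conj_mem (a : G) (le_normalClosure haA) ((b : G)⁻¹)
    exact this
  · obtain ⟨n, hn⟩ : ∃ n, Monoid.exponent A = p ^ n := by
      obtain ⟨m, hm⟩ := (IsPGroup.iff_card.mp (hG.to_subgroup A))
      obtain ⟨n, _, hn⟩ := (Nat.dvd_prime_pow hpp).mp (hm ▸ (Group.exponent_dvd_nat_card (G := A)))
      exact ⟨n, hn⟩
    rw [hn, Monoid.exponent_dvd_iff_forall_pow_eq_one]
    rintro ⟨_, ⟨x, hx, rfl⟩⟩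
    apply Subtype.ext
    have h1 := k10 hp n (by
      intro a ha
      apply Subtype.ext
      have h2 := Monoid.pow_exponent_eq_one (⟨(a : G), mem_subgroupOf.mp ha⟩ : A)
      rw [hn] at h2
      have h3 := congrArg (fun z : A => (z : G)) h2
      simpa using h3) x hx
    have h2 := congrArg (fun z : L => (z : G)) h1
    simpa using h2
  · rw [← map_omega _ hinj, card_map_of_injective hinj]
    have : Nat.card (Cfsg.omegaOne p A) = Nat.card (Cfsg.omegaOne p A₁) := by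
      have h0 := card_map_of_injective (K := Cfsg.omegaOne p A₁) hinj
      rw [map_omega _ hinj, hA₁m] at h0
      exact h0
    rw [this]
    exact hom

end Cfsg.Agent.S3078
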