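import Cfsg.Statements.S3086
import Mathlib
import Cfsg.Agent.LibLE11PGV10

set_option autoImplicit false
set_option linter.all false
open Cfsg

namespace Cfsg.Agent.S3086

/-- The P(G,V)-theorem. Let p be a prime, G a finite group acting faithfully and linearly on a finite vector space V over the field with p elements, and A a nontrivial elementary abelian p-subgroup of G such that |A|·|C_V(A)| ≥ |B|·|C_V(B)| for every subgroup B of A. Then A normalizes every component (subnormal quasisimple subgroup) of G. -/
theorem result {G V : Type*} [Group G] [Finite G] [AddCommGroup V] [Finite V] (p : ℕ) [Fact p.Prime] [Module (ZMod p) V]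
    (ρ : Representation (ZMod p) G V) (hρ : Function.Injective ρ)
    (A : Subgroup G) (hA : A ≠ ⊥) (hAel : Cfsg.IsElementaryAbelian p A)
    (hP : ∀ B : Subgroup G, B ≤ A →
      Nat.card ↥B * Nat.card {v : V // ∀ b ∈ B, ρ b v = v} ≤ Nat.card ↥A * Nat.card {v : V // ∀ a ∈ A, ρ a v = v}) :
    ∀ K : Subgroup G, Cfsg.IsComponent K → A ≤ Subgroup.normalizer (K : Set G) := by
  classical
  letI inst : DistribMulAction G V :=
    { smul := fun g v => ρ g v
      one_smul := fun v => by show ρ 1 v = v; rw [map_one]; rfl
      mul_smul := fun g h v => by show ρ (g * h) v = ρ g (ρ h v); rw [map_mul]; rfl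
      smul_zero := fun g => map_zero (ρ g)
      smul_add := fun g x y => map_add (ρ g) x y }
  have hs : ∀ (g : G) (v : V), g • v = ρ g v := fun _ _ => rfl
  have hfx : ∀ B : Subgroup G, Nat.card (CfsgLib.LE11PGV.fx V B) = Nat.card {v : V // ∀ b ∈ B, ρ b v = v} :=
    fun B => rfl
  have hcomm : ∀ a ∈ A, ∀ b ∈ A, a * b = b * a := by
    intro a ha b hb
    have := hAel.1
    exact congrArg Subtype.val (this.is_comm.comm (⟨a, ha⟩ : A) ⟨b, hb⟩)
  intro K hK
  apply CfsgLib.LE11PGV.pgv (V := V) (p := p) _ _ hcomm hAel.2 _ hK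
  · intro v
    rw [← Nat.cast_smul_eq_nsmul (ZMod p), ZMod.natCast_self, zero_smul]
  · intro g hg
    apply hρ
    rw [map_one]
    apply LinearMap.ext
    intro v
    exact hg v
  · intro B hB
    exact hP B hB

end Cfsg.Agent.S3086
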