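import Cfsg.Statements.S3087
import Mathlib
import Cfsg.Agent.LibLE11CD

set_option autoImplicit false
set_option linter.all false
open Cfsg

namespace Cfsg.Agent.S3087

/-- Let p be a prime, G a finite group acting linearly on a finite vector space V over the field with p elements, W a G-invariant subspace, and A a subgroup of G with |A|·|C_V(A)| ≥ |B|·|C_V(B)| for every subgroup B of A. Then |A|·|C_W(A)| ≥ |B|·|C_W(B)| for every subgroup B of A that contains C_A(W); that is, the image of A in the group induced on W satisfies the same maximality condition. -/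
theorem result {G V : Type*} [Group G] [Finite G] [AddCommGroup V] [Finite V] (p : ℕ) [Fact p.Prime] [Module (ZMod p) V]
    (ρ : Representation (ZMod p) G V) (W : Submodule (ZMod p) V) (hW : ∀ g : G, ∀ w ∈ W, ρ g w ∈ W)
    (A : Subgroup G)
    (hP : ∀ B : Subgroup G, B ≤ A →
      Nat.card ↥B * Nat.card {v : V // ∀ b ∈ B, ρ b v = v} ≤ Nat.card ↥A * Nat.card {v : V // ∀ a ∈ A, ρ a v = v})
    (B : Subgroup G) (hBA : B ≤ A) (hCB : ∀ a ∈ A, (∀ w ∈ W, ρ a w = w) → a ∈ B) :
    Nat.card ↥B * Nat.card {w : W // ∀ b ∈ B, ρ b w = w} ≤ Nat.card ↥A * Nat.card {w : W // ∀ a ∈ A, ρ a w = w} := by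
  classical
  let H : Subgroup G → Subgroup (Multiplicative V) := fun B =>
    { carrier := {v | ∀ b ∈ B, ρ b (Multiplicative.toAdd v) = Multiplicative.toAdd v}
      mul_mem' := by
        intro a b ha hb g hg
        rw [toAdd_mul, map_add, ha g hg, hb g hg]
      one_mem' := by
        intro g hg
        rw [toAdd_one, map_zero]
      inv_mem' := by
        intro a ha g hg
        rw [toAdd_inv, map_neg, ha g hg] }
  let W' : Subgroup (Multiplicative V) := AddSubgroup.toSubgroup W.toAddSubgroup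
  have e1 : ∀ B : Subgroup G, Nat.card {v : V // ∀ b ∈ B, ρ b v = v} = Nat.card (H B) := fun B =>
    Nat.card_congr ⟨fun v => ⟨Multiplicative.ofAdd v.1, v.2⟩, fun v => ⟨Multiplicative.toAdd v.1, v.2⟩, fun _ => rfl, fun _ => rfl⟩
  have e2 : ∀ B : Subgroup G, Nat.card {w : W // ∀ b ∈ B, ρ b w = w} = Nat.card (W' ⊓ H B : Subgroup (Multiplicative V)) := fun B =>
    Nat.card_congr ⟨fun v => ⟨Multiplicative.ofAdd (v.1 : V), ⟨v.1.2, v.2⟩⟩, fun v => ⟨⟨Multiplicative.toAdd v.1, v.2.1⟩, v.2.2⟩, fun _ => rfl, fun _ => rfl⟩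
  rw [e2, e2]
  have h1 := hP B hBA
  rw [e1, e1] at h1
  have h2 := CfsgLib.LE11CD.card_mul_le (H A) (W' ⊓ H B)
  have h3 : H A ⊔ (W' ⊓ H B) ≤ H B := by
    apply sup_le _ inf_le_right
    intro v hv b hb
    exact hv b (hBA hb)
  have h4 : H A ⊓ (W' ⊓ H B) ≤ W' ⊓ H A := by
    rintro v ⟨hv1, hv2, _⟩
    exact ⟨hv2, hv1⟩
  have h5 := Subgroup.card_le_of_le h3
  have h6 := Subgroup.card_le_of_le h4
  have hpos : 0 < Nat.card (H A) := Nat.card_pos
  have h7 : Nat.card (H A) * Nat.card (W' ⊓ H B : Subgroup (Multiplicative V)) ≤ Nat.card (H B) * Nat.card (W' ⊓ H A : Subgroup (Multiplicative V)) :=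
    h2.trans (Nat.mul_le_mul h5 h6)
  apply Nat.le_of_mul_le_mul_right _ hpos
  calc Nat.card B * Nat.card (W' ⊓ H B : Subgroup (Multiplicative V)) * Nat.card (H A)
      = Nat.card B * (Nat.card (H A) * Nat.card (W' ⊓ H B : Subgroup (Multiplicative V))) := by ring
    _ ≤ Nat.card B * (Nat.card (H B) * Nat.card (W' ⊓ H A : Subgroup (Multiplicative V))) := Nat.mul_le_mul_left _ h7
    _ = (Nat.card B * Nat.card (H B)) * Nat.card (W' ⊓ H A : Subgroup (Multiplicative V)) := by ring
    _ ≤ (Nat.card A * Nat.card (H A)) * Nat.card (W' ⊓ H A : Subgroup (Multiplicative V)) := Nat.mul_le_mul_right _ h1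
    _ = _ := by ring

end Cfsg.Agent.S3087
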