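import Cfsg.Statements.S3155
import Mathlib

set_option autoImplicit false
open Cfsg

namespace Cfsg.Agent.S3155

/-- Let B be the direct product of three cyclic groups of order 4. Then the automorphism of B inverting every element is not the square of any automorphism of B. -/
theorem result {B : Type*} [CommGroup B] [Finite B] (hB : Nonempty (B ≃* Multiplicative (ZMod 4 × ZMod 4 × ZMod 4)))
    (τ : B ≃* B) : τ.trans τ ≠ MulEquiv.inv B := by
  intro hτ
  obtain ⟨e⟩ := hB
  let M := ZMod 4 × ZMod 4 × ZMod 4
  -- transport `τ` to an additive map of `M`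
  let g : Multiplicative M →* Multiplicative M :=
    (e.toMonoidHom.comp τ.toMonoidHom).comp e.symm.toMonoidHom
  let f : M →+ M := AddMonoidHom.toMultiplicative.symm g
  have hf : ∀ x : M, f x = Multiplicative.toAdd (e (τ (e.symm (Multiplicative.ofAdd x)))) := fun x => rfl
  let L : M →ₗ[ZMod 4] M := f.toZModLinearMap 4
  have hL : ∀ x : M, L x = f x := fun x => rfl
  have hLL : L ∘ₗ L = (-1 : ZMod 4) • LinearMap.id := by
    apply LinearMap.ext
    intro x
    rw [LinearMap.comp_apply, hL, hL, hf, hf]
    rw [ofAdd_toAdd, MulEquiv.symm_apply_apply]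
    have h1 : τ (τ (e.symm (Multiplicative.ofAdd x))) = (e.symm (Multiplicative.ofAdd x))⁻¹ := by
      have := congrArg (fun φ : B ≃* B => φ (e.symm (Multiplicative.ofAdd x))) hτ
      exact this
    rw [h1, map_inv, MulEquiv.apply_symm_apply]
    change -x = (-1 : ZMod 4) • x
    rw [neg_smul, one_smul]
  have hdet := congrArg LinearMap.det hLL
  rw [LinearMap.det_comp, LinearMap.det_smul, LinearMap.det_id, mul_one] at hdet
  have hrank : Module.finrank (ZMod 4) M = 3 := by
    have : Nontrivial (ZMod 4) := ⟨0, 1, by decide⟩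
    have h1 : Module.finrank (ZMod 4) (ZMod 4 × ZMod 4 × ZMod 4) = 3 := by
      rw [Module.finrank_prod, Module.finrank_prod, Module.finrank_self]
    exact h1
  rw [hrank] at hdet
  revert hdet
  generalize LinearMap.det L = d
  revert d
  decide

end Cfsg.Agent.S3155
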