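import Cfsg.Statements.S3178
import Mathlib
import Cfsg.Agent.LibThompTrH12
import Cfsg.Agent.LibAutH12
import Cfsg.Agent.LibH13

set_option autoImplicit false
open Cfsg

namespace Cfsg.Agent.S3178

open Subgroup CfsgLib.FusionH12

/-- the subgroup generated by two commuting elements -/
def pairSub {G : Type*} [Group G] (c b : G) (h : Commute c b) : Subgroup G where
  carrier := {x | ∃ i j : ℤ, x = c ^ i * b ^ j}
  mul_mem' := by
    rintro _ _ ⟨i, j, rfl⟩ ⟨k, l, rfl⟩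
    refine ⟨i + k, j + l, ?_⟩
    have h1 : b ^ j * c ^ k = c ^ k * b ^ j := (h.zpow_zpow k j).symm
    calc c ^ i * b ^ j * (c ^ k * b ^ l) = c ^ i * (b ^ j * c ^ k) * b ^ l := by simp only [mul_assoc]
      _ = c ^ i * (c ^ k * b ^ j) * b ^ l := by rw [h1]
      _ = _ := by rw [zpow_add, zpow_add]; simp only [mul_assoc]
  one_mem' := ⟨0, 0, by simp⟩
  inv_mem' := by
    rintro _ ⟨i, j, rfl⟩
    refine ⟨-i, -j, ?_⟩
    rw [mul_inv_rev, ← zpow_neg, ← zpow_neg]
    exact (h.zpow_zpow (-i) (-j)).symm.eq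

theorem mem_pairSub {G : Type*} [Group G] {c b : G} {h : Commute c b} {x : G} :
    x ∈ pairSub c b h ↔ ∃ i j : ℤ, x = c ^ i * b ^ j := Iff.rfl



/-- Groups with a modular Sylow 2-subgroup have a normal 2-complement. Let S, of order 2^(n+1) with n ≥ 3, be a Sylow 2-subgroup of a finite group G, and suppose S contains an element a of order 2^n and an involution b with b a b⁻¹ = a^(2^(n-1) + 1); so S is the non-abelian 2-group with a cyclic subgroup of index 2 that is neither dihedral, semidihedral nor generalized quaternion. Then G has a normal 2-complement. -/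
theorem result {G : Type*} [Group G] [Finite G]
    (S : Sylow 2 G) (n : ℕ) (hn : 3 ≤ n) (hS : Nat.card ↥(S : Subgroup G) = 2 ^ (n + 1))
    (a b : G) (ha : a ∈ (S : Subgroup G)) (hb : b ∈ (S : Subgroup G))
    (hao : orderOf a = 2 ^ n) (hbo : orderOf b = 2) (hrel : b * a * b⁻¹ = a ^ (2 ^ (n - 1) + 1)) :
    Cfsg.HasNormalPComplement 2 G := by
  have : Fact (Nat.Prime 2) := ⟨Nat.prime_two⟩
  have h2n : 2 ^ n = 2 * 2 ^ (n - 1) := by rw [← pow_succ']; congr 1; omega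
  have h2n' : 2 ^ (n - 1) = 2 * 2 ^ (n - 2) := by rw [← pow_succ']; congr 1; omega
  have h2n'' : 2 ^ (n - 2) = 2 * 2 ^ (n - 3) := by rw [← pow_succ']; congr 1; omega
  have hpos : 0 < 2 ^ (n - 3) := by positivity
  have hpw : ∀ k : ℤ, a ^ k = 1 ↔ ((2 ^ n : ℕ) : ℤ) ∣ k := by
    intro k; rw [← hao]; exact orderOf_dvd_iff_zpow_eq_one.symm
  have hpwn : ∀ k : ℕ, a ^ k = 1 ↔ 2 ^ n ∣ k := by
    intro k; rw [← hao]; exact orderOf_dvd_iff_pow_eq_one.symm
  have hb2 : b ^ 2 = 1 := by rw [← hbo, pow_orderOf_eq_one]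
  have hcb : Commute (a ^ 2) b := by
    have h1 : b * a ^ 2 * b⁻¹ = a ^ 2 := by
      rw [← conj_pow, hrel, ← pow_mul, add_mul, one_mul, pow_add, ← mul_comm 2, ← h2n, ← hao,
        pow_orderOf_eq_one, one_mul]
    show a ^ 2 * b = b * a ^ 2
    conv_lhs => rw [← h1]
    rw [inv_mul_cancel_right]
  have hnab : b * a * b⁻¹ ≠ a := by
    rw [hrel]
    intro h
    rw [pow_succ] at h
    have h1 : a ^ 2 ^ (n - 1) = 1 := by
      have := mul_right_cancel (b := a) (h.trans (one_mul a).symm)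
      exact this
    rw [hpwn] at h1
    have := Nat.le_of_dvd (by positivity) h1
    omega
  have hbna : b ∉ Subgroup.zpowers a := by
    rintro ⟨i, hi⟩
    apply hnab
    have : Commute b a := by rw [← hi]; exact (Commute.refl a).zpow_left i
    rw [this.eq, mul_inv_cancel_right]
  have haS : Subgroup.zpowers a ≤ (S : Subgroup G) := by rw [Subgroup.zpowers_le]; exact ha
  have hidx : (Subgroup.zpowers a).relIndex (S : Subgroup G) = 2 := by
    have h1 := CfsgLib.H13.relIndex_mul_card_of_le haS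
    rw [Nat.card_zpowers, hao, hS, pow_succ, mul_comm] at h1
    exact Nat.eq_of_mul_eq_mul_left (by positivity) h1
  have hdec : ∀ s ∈ (S : Subgroup G), s ∉ Subgroup.zpowers a → b⁻¹ * s ∈ Subgroup.zpowers a := by
    intro s hs hsa
    have h1 := Subgroup.mul_mem_iff_of_index_two (H := (Subgroup.zpowers a).subgroupOf (S : Subgroup G)) hidx
      (a := (⟨b, hb⟩ : (S : Subgroup G))⁻¹) (b := ⟨s, hs⟩)
    have h2 : (⟨b, hb⟩ : (S : Subgroup G))⁻¹ ∉ (Subgroup.zpowers a).subgroupOf (S : Subgroup G) := by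
      intro h
      exact hbna (inv_mem_iff.1 (Subgroup.mem_subgroupOf.1 h))
    have h3 : (⟨s, hs⟩ : (S : Subgroup G)) ∉ (Subgroup.zpowers a).subgroupOf (S : Subgroup G) := by
      intro h
      exact hsa (Subgroup.mem_subgroupOf.1 h)
    exact Subgroup.mem_subgroupOf.1 (h1.2 ⟨fun h => absurd h h2, fun h => absurd h h3⟩)
  -- the subgroup M
  set M := pairSub (a ^ 2) b hcb with hM
  have hMexp : ∀ x ∈ M, x ^ 2 ^ (n - 1) = 1 := by
    intro x hx
    obtain ⟨i, j, rfl⟩ := mem_pairSub.1 hx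
    rw [(hcb.zpow_zpow i j).mul_pow]
    have h1 : ((a ^ 2) ^ i) ^ 2 ^ (n - 1) = 1 := by
      rw [← zpow_natCast, ← zpow_mul, mul_comm, zpow_mul, zpow_natCast, ← pow_mul, ← h2n, ← hao,
        pow_orderOf_eq_one, one_zpow]
    have h2 : (b ^ j) ^ 2 ^ (n - 1) = 1 := by
      rw [← zpow_natCast, ← zpow_mul, mul_comm, zpow_mul, zpow_natCast, h2n', pow_mul, hb2, one_pow,
        one_zpow]
    rw [h1, h2, one_mul]
  have haexp : a ^ 2 ^ (n - 1) ≠ 1 := by
    rw [Ne, hpwn]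
    intro h
    have := Nat.le_of_dvd (by positivity) h
    omega
  have haM : a ∉ M := fun h => haexp (hMexp a h)
  -- elements of S outside M
  have hS' : ∀ s ∈ (S : Subgroup G), s ∉ M → ∃ j : ℤ, s = a ^ (2 * j + 1) ∨ s = b * a ^ (2 * j + 1) := by
    intro s hs hsM
    by_cases hsa : s ∈ Subgroup.zpowers a
    · obtain ⟨i, rfl⟩ := Subgroup.mem_zpowers_iff.1 hsa
      rcases Int.even_or_odd' i with ⟨j, hj | hj⟩
      · exfalso
        apply hsM
        refine ⟨j, 0, ?_⟩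
        rw [zpow_zero, mul_one, hj, ← zpow_natCast a 2, ← zpow_mul]; rfl
      · exact ⟨j, Or.inl (by rw [hj])⟩
    · obtain ⟨i, hi⟩ := Subgroup.mem_zpowers_iff.1 (hdec s hs hsa)
      have hs1 : s = b * a ^ i := by rw [hi, mul_inv_cancel_left]
      rcases Int.even_or_odd' i with ⟨j, hj | hj⟩
      · exfalso
        apply hsM
        refine ⟨j, 1, ?_⟩
        have h1 : a ^ i = (a ^ 2) ^ j := by rw [hj, ← zpow_natCast a 2, ← zpow_mul]; rfl
        rw [hs1, h1, zpow_one]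
        exact (hcb.zpow_left j).eq.symm
      · exact ⟨j, Or.inr (by rw [hs1, hj])⟩
  have hSexp : ∀ s ∈ (S : Subgroup G), s ∉ M → s ^ 2 ^ (n - 1) ≠ 1 := by
    intro s hs hsM
    obtain ⟨j, hj | hj⟩ := hS' s hs hsM
    · rw [hj, ← zpow_natCast, ← zpow_mul, Ne, hpw]
      rintro ⟨c, hc⟩
      have h1 : ((2 ^ n : ℕ) : ℤ) = 2 * ((2 ^ (n - 1) : ℕ) : ℤ) := by
        rw [h2n]; push_cast; ring
      rw [h1] at hc
      have h3 : ((2 ^ (n - 1) : ℕ) : ℤ) ≠ 0 := by positivity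
      have h4 : (2 * j + 1) = 2 * c := by
        apply mul_right_cancel₀ h3
        rw [hc]; ring
      omega
    · have hba : b * a * b⁻¹ = a ^ (((2 ^ (n - 1) : ℕ) : ℤ) + 1) := by
        rw [hrel]; exact_mod_cast (zpow_natCast a (2 ^ (n - 1) + 1)).symm
      have hbi : b⁻¹ = b := inv_eq_of_mul_eq_one_left (by rw [← pow_two]; exact hb2)
      have hsq : s ^ 2 = a ^ ((2 * j + 1) * (((2 ^ (n - 1) : ℕ) : ℤ) + 2)) := by
        have h5 : b * a ^ (2 * j + 1) * b⁻¹ = a ^ ((((2 ^ (n - 1) : ℕ) : ℤ) + 1) * (2 * j + 1)) := by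
          rw [← conj_zpow, hba, ← zpow_mul]
        rw [pow_two, hj]
        calc b * a ^ (2 * j + 1) * (b * a ^ (2 * j + 1)) = (b * a ^ (2 * j + 1) * b⁻¹) * a ^ (2 * j + 1) := by
              rw [hbi]; simp only [mul_assoc]
          _ = _ := by rw [h5, ← zpow_add]; congr 1; ring
      rw [h2n', pow_mul, hsq, ← zpow_natCast, ← zpow_mul, Ne, hpw]
      rintro ⟨c, hc⟩
      have h1 : ((2 ^ n : ℕ) : ℤ) = 4 * ((2 ^ (n - 2) : ℕ) : ℤ) := by
        rw [h2n, h2n']; push_cast; ring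
      have h2 : ((2 ^ (n - 1) : ℕ) : ℤ) = 4 * ((2 ^ (n - 3) : ℕ) : ℤ) := by
        rw [h2n', h2n'']; push_cast; ring
      rw [h1, h2] at hc
      have h3 : ((2 ^ (n - 2) : ℕ) : ℤ) ≠ 0 := by positivity
      have h4 : (2 * j + 1) * (4 * ((2 ^ (n - 3) : ℕ) : ℤ) + 2) = 4 * c := by
        apply mul_right_cancel₀ h3
        rw [hc]; ring
      have h5 : (2 * j + 1) * (4 * ((2 ^ (n - 3) : ℕ) : ℤ) + 2) = 4 * (2 * j * ((2 ^ (n - 3) : ℕ) : ℤ) + ((2 ^ (n - 3) : ℕ) : ℤ) + j) + 2 := by ring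
      omega
  have hMidx : M.relIndex (S : Subgroup G) = 2 := by
    rw [Subgroup.relIndex_eq_two_iff]
    refine ⟨a, ha, fun s hs => ?_⟩
    by_cases hsM : s ∈ M
    · refine Or.inr ⟨hsM, fun h => haM ?_⟩
      have := M.mul_mem (M.inv_mem hsM) h
      rwa [inv_mul_cancel_left] at this
    · refine Or.inl ⟨?_, hsM⟩
      obtain ⟨j, hj | hj⟩ := hS' s hs hsM
      · refine ⟨j + 1, 0, ?_⟩
        rw [hj, zpow_zero, mul_one, ← zpow_natCast a 2, ← zpow_mul, ← zpow_add_one]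
        congr 1; push_cast; ring
      · refine ⟨j + 1, 1, ?_⟩
        rw [zpow_one, (hcb.zpow_left (j + 1)).eq, hj, mul_assoc, ← zpow_natCast a 2, ← zpow_mul, ← zpow_add_one]
        congr 2; push_cast; ring
  obtain ⟨N, hN, hNi, haN⟩ := CfsgLib.ThompTrH12.exists_index_two S M hMidx a
    ⟨n, by rw [← hao, pow_orderOf_eq_one]⟩ (by
      intro k g hk hmem
      by_contra hout
      apply hSexp _ hmem hout
      obtain ⟨m, hm⟩ := hk
      have h5 : (g⁻¹ * a ^ k * g⁻¹⁻¹) ^ 2 ^ (n - 1) = g⁻¹ * (a ^ k) ^ 2 ^ (n - 1) * g⁻¹⁻¹ := by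
        rw [conj_pow]
      rw [inv_inv] at h5
      rw [h5, ← pow_mul]
      have h6 : k * 2 ^ (n - 1) = 2 ^ n * m := by
        rw [hm, h2n]; ring
      rw [h6, pow_mul, ← hao, pow_orderOf_eq_one, one_pow, mul_one, inv_mul_cancel]) (by
      intro g _ hmem
      have h5 : (g⁻¹ * a * g⁻¹⁻¹) ^ 2 ^ (n - 1) = g⁻¹ * a ^ 2 ^ (n - 1) * g⁻¹⁻¹ := by
        rw [conj_pow]
      rw [inv_inv, hMexp _ hmem] at h5
      apply haexp
      have h6 : a ^ 2 ^ (n - 1) = g * (g⁻¹ * a ^ 2 ^ (n - 1) * g) * g⁻¹ := by group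
      rw [h6, ← h5]; group)
  -- the Sylow subgroup of N
  refine CfsgLib.Npc9.hnpc_of_normal_index hN (k := 1) (by rw [hNi, pow_one]) ?_
  have hT : SylIn 2 ((S : Subgroup G) ⊓ N) N :=
    (SylIn.ofSylow S).inf_normal le_top (by rw [Subgroup.normalizer_eq_top])
  obtain ⟨P, hP⟩ := hT.toSylow
  have hcN : a ^ 2 ∈ N := by
    rw [pow_two, Subgroup.mul_mem_iff_of_index_two hNi]
  have hcP : (⟨a ^ 2, hcN⟩ : N) ∈ (P : Subgroup N) := by
    rw [hP, Subgroup.mem_subgroupOf]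
    exact ⟨pow_mem ha 2, hcN⟩
  have hco : orderOf (⟨a ^ 2, hcN⟩ : N) = 2 ^ (n - 1) := by
    rw [Subgroup.orderOf_mk, orderOf_pow_of_dvd (by norm_num) (by rw [hao, h2n]; exact Dvd.intro _ rfl),
      hao, h2n, Nat.mul_div_cancel_left _ (by norm_num)]
  refine CfsgLib.AutH12.hnpc_of_central_cyclic P ⟨a ^ 2, hcN⟩ hcP ?_ ?_ ?_
  · rintro ⟨x, hxN⟩ hx
    rw [hP, Subgroup.mem_subgroupOf] at hx
    apply Subtype.ext
    show x * a ^ 2 = a ^ 2 * x
    have hxS : x ∈ (S : Subgroup G) := hx.1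
    by_cases hxa : x ∈ Subgroup.zpowers a
    · obtain ⟨i, rfl⟩ := Subgroup.mem_zpowers_iff.1 hxa
      exact ((Commute.refl a).zpow_left i).pow_right 2
    · obtain ⟨i, hi⟩ := Subgroup.mem_zpowers_iff.1 (hdec x hxS hxa)
      have hs1 : x = b * a ^ i := by rw [hi, mul_inv_cancel_left]
      rw [hs1]
      have h1 : Commute (a ^ i) (a ^ 2) := ((Commute.refl a).zpow_left i).pow_right 2
      exact hcb.symm.mul_left h1
  · rw [hco, hP]
    have h1 : Nat.card (((S : Subgroup G) ⊓ N).subgroupOf N) = Nat.card ((S : Subgroup G) ⊓ N : Subgroup G) := by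
      rw [Nat.card_congr (Subgroup.subgroupOfEquivOfLe (inf_le_right : (S : Subgroup G) ⊓ N ≤ N)).toEquiv]
    rw [h1]
    have h2 : N.relIndex (S : Subgroup G) = 2 := by
      have h3 : N.relIndex (S : Subgroup G) ∣ 2 := by
        have h5 := Subgroup.relIndex_dvd_index_of_normal N (S : Subgroup G)
        rwa [hNi] at h5
      rcases (Nat.dvd_prime Nat.prime_two).1 h3 with h4 | h4
      · rw [Subgroup.relIndex_eq_one] at h4
        exact absurd (h4 ha) haN
      · exact h4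
    have h3 := CfsgLib.H13.relIndex_mul_card_inf N (S : Subgroup G)
    rw [h2, hS, inf_comm] at h3
    have h4 : 2 ^ (n + 1) = 2 * 2 ^ n := by rw [pow_succ']
    omega
  · rw [hco]; omega

end Cfsg.Agent.S3178
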