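import Cfsg.Statements.S3180
import Mathlib
import Cfsg.Agent.LibFusionH12

set_option autoImplicit false
open Cfsg

namespace Cfsg.Agent.S3180

/-- Let P be a Sylow p-subgroup of a finite group J and P₁ a subgroup of P that is weakly closed in P with respect to J. If J acts on a set and two points, each fixed by every element of P₁, lie in one J-orbit, then they lie in one orbit of the normalizer of P₁ in J. -/
theorem result {J : Type*} [Group J] [Finite J]
    {p : ℕ} [Fact p.Prime] (P : Sylow p J) (P₁ : Subgroup J) (hW : Cfsg.IsWeaklyClosed P₁ (P : Subgroup J))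
    {Ω : Type*} [MulAction J Ω] (x y : Ω) (hx : ∀ g ∈ P₁, g • x = x) (hy : ∀ g ∈ P₁, g • y = y)
    (hc : ∃ g : J, g • x = y) :
    ∃ g ∈ Subgroup.normalizer (P₁ : Set J), g • x = y := by
  obtain ⟨g, hg⟩ := hc
  let Y : Subgroup J := MulAction.stabilizer J y
  have hP₁P : P₁ ≤ (P : Subgroup J) := hW.1
  have hP₁p : IsPGroup p P₁ := P.2.to_le hP₁P
  have hP₁Y : P₁ ≤ Y := fun h hh => hy h hh
  have hgY : CfsgLib.FusionH12.cj g P₁ ≤ Y := by
    rw [CfsgLib.FusionH12.cj_le']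
    intro h hh
    change (g * h * g⁻¹) • y = y
    rw [← hg, smul_smul, inv_mul_cancel_right, mul_smul, hx h hh]
  obtain ⟨R, hR1, hR2⟩ := CfsgLib.FusionH12.SylIn.exists_ge (p := p) hP₁p hP₁Y
  obtain ⟨h, hhY, hh⟩ := hR2.exists_conj_le (CfsgLib.FusionH12.isPGroup_cj hP₁p) hgY
  have hPs := CfsgLib.FusionH12.SylIn.ofSylow P
  obtain ⟨u, -, hu⟩ := hPs.exists_conj_le hR2.pg le_top
  have h1 : CfsgLib.FusionH12.cj u P₁ = P₁ := hW.2 u ((CfsgLib.FusionH12.cj_mono hR1).trans hu)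
  have h2 : CfsgLib.FusionH12.cj (u * (h * g)) P₁ = P₁ := by
    refine hW.2 (u * (h * g)) ?_
    change CfsgLib.FusionH12.cj (u * (h * g)) P₁ ≤ _
    rw [CfsgLib.FusionH12.cj_mul, CfsgLib.FusionH12.cj_mul]
    exact (CfsgLib.FusionH12.cj_mono hh).trans hu
  refine ⟨h * g, ?_, ?_⟩
  · rw [CfsgLib.FusionH12.mem_nrm]
    rw [CfsgLib.FusionH12.cj_mul] at h2
    have h3 := congrArg (CfsgLib.FusionH12.cj u⁻¹) h2
    rw [CfsgLib.FusionH12.cj_inv_cj] at h3
    rw [h3]
    conv_lhs => rw [← h1]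
    rw [CfsgLib.FusionH12.cj_inv_cj]
  · rw [mul_smul, hg]
    exact hhY

end Cfsg.Agent.S3180
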