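import Cfsg.Statements.S3183
import Mathlib
import Cfsg.Agent.LibFusionH12

set_option autoImplicit false
open Cfsg

namespace Cfsg.Agent.S3183

open CfsgLib.FusionH12 in
theorem mem_zi {G : Type*} [Group G] {U : Subgroup G} {x : G} :
    x ∈ (Subgroup.center ↥U).map U.subtype ↔ x ∈ U ∧ ∀ u ∈ U, u * x = x * u := by
  constructor
  · rintro ⟨y, hy, rfl⟩
    exact ⟨y.2, fun u hu => congrArg Subtype.val (Subgroup.mem_center_iff.1 hy ⟨u, hu⟩)⟩
  · rintro ⟨h1, h2⟩
    exact ⟨⟨x, h1⟩, Subgroup.mem_center_iff.2 fun u => Subtype.ext (h2 u u.2), rfl⟩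

open CfsgLib.FusionH12 in
theorem claim1 {G : Type*} [Group G] [Finite G]
    (hCI : ∀ S T : Sylow 2 G, S ≠ T → ∃ U : Sylow 2 G,
      (S : Subgroup G) ⊓ (T : Subgroup G) ≤ (Subgroup.center ↥(U : Subgroup G)).map (U : Subgroup G).subtype)
    (S : Sylow 2 G) (x : G) (hx : x ∈ (S : Subgroup G)) (P : Subgroup G) (hP : IsPGroup 2 ↥P)
    (hPx : P ≤ Subgroup.centralizer ({x} : Set G)) :
    Nat.card ↥P ≤ Nat.card ↥((S : Subgroup G) ⊓ Subgroup.centralizer ({x} : Set G)) := by
  have h2 : Fact (Nat.Prime 2) := ⟨Nat.prime_two⟩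
  set C := Subgroup.centralizer ({x} : Set G) with hC
  obtain ⟨P₀, hP₀1, hP₀2⟩ := SylIn.exists_ge (p := 2) (P := (S : Subgroup G) ⊓ C) (H := C)
    (S.2.to_le inf_le_left) inf_le_right
  refine (hP₀2.card_ge hP hPx).trans ?_
  obtain ⟨T', hT'1, hT'2⟩ := SylIn.exists_ge (p := 2) hP₀2.pg (le_top (a := P₀))
  obtain ⟨T, rfl⟩ := hT'2.exists_sylow_coe
  by_cases hST : S = T
  · subst hST
    exact Subgroup.card_le_of_le (le_inf hT'1 hP₀2.le)
  exfalso
  have hxC : x ∈ C := by rw [hC, Subgroup.mem_centralizer_singleton_iff]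
  have hxA : x ∈ (S : Subgroup G) ⊓ C := ⟨hx, hxC⟩
  obtain ⟨U, hU⟩ := hCI S T hST
  set D := (S : Subgroup G) ⊓ (T : Subgroup G) with hD
  have hAD : (S : Subgroup G) ⊓ C ≤ D := le_inf inf_le_left (hP₀1.trans hT'1)
  have hxD : x ∈ D := hAD hxA
  have hDU : D ≤ (U : Subgroup G) := fun d hd => (mem_zi.1 (hU hd)).1
  have hDC : ∀ d ∈ D, ∀ u ∈ (U : Subgroup G), u * d = d * u := fun d hd => (mem_zi.1 (hU hd)).2
  have hUC : (U : Subgroup G) ≤ Subgroup.centralizer (D : Set G) := by
    intro u hu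
    rw [Subgroup.mem_centralizer_iff]
    intro d hd
    exact (hDC d hd u hu).symm
  have hCDx : Subgroup.centralizer (D : Set G) ≤ C := by
    rw [hC]
    exact Subgroup.centralizer_le (by simpa using hxD)
  have hCN : Subgroup.centralizer (D : Set G) ≤ Subgroup.normalizer (D : Set G) := by
    intro c hc
    rw [mem_nrm]; exact cj_of_mem_centralizer hc
  have hUN : SylIn 2 (U : Subgroup G) (Subgroup.normalizer (D : Set G)) :=
    (SylIn.ofSylow U).mono (hUC.trans hCN) le_top
  obtain ⟨n, hn, hn'⟩ := hUN.exists_conj_le (P := (S : Subgroup G) ⊓ Subgroup.normalizer (D : Set G))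
    (S.2.to_le inf_le_left) inf_le_right
  have h3 : (S : Subgroup G) ⊓ Subgroup.normalizer (D : Set G) ≤ Subgroup.centralizer (D : Set G) := by
    have h4 := hn'.trans hUC
    rw [cj_le_iff, cj_centralizer, cj_of_mem_nrm (inv_mem hn)] at h4
    exact h4
  have hDS : D < (S : Subgroup G) := by
    refine lt_of_le_of_ne inf_le_left ?_
    intro h
    apply hST
    have h5 : (S : Subgroup G) ≤ (T : Subgroup G) := by rw [← h]; exact inf_le_right
    exact Sylow.ext ((SylIn.ofSylow S).eq_of_le T.2 le_top h5).symm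
  have h4 := lt_nrm_inf S.2 hDS
  exact absurd (h4.trans_le (le_inf inf_le_left (h3.trans hCDx) |>.trans hAD)) (lt_irrefl _)

open CfsgLib.FusionH12 in
theorem claim2 {G : Type*} [Group G] [Finite G]
    (hCI : ∀ S T : Sylow 2 G, S ≠ T → ∃ U : Sylow 2 G,
      (S : Subgroup G) ⊓ (T : Subgroup G) ≤ (Subgroup.center ↥(U : Subgroup G)).map (U : Subgroup G).subtype)
    (S U : Sylow 2 G) (x : G) (hx : x ∈ (S : Subgroup G))
    (hxU : x ∈ (Subgroup.center ↥(U : Subgroup G)).map (U : Subgroup G).subtype) :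
    x ∈ (Subgroup.center ↥(S : Subgroup G)).map (S : Subgroup G).subtype := by
  have h2 : Fact (Nat.Prime 2) := ⟨Nat.prime_two⟩
  have h3 := claim1 hCI S x hx (U : Subgroup G) U.2 (by
    intro u hu
    rw [Subgroup.mem_centralizer_singleton_iff]
    exact (mem_zi.1 hxU).2 u hu)
  have h4 : Nat.card ↥(S : Subgroup G) = Nat.card ↥(U : Subgroup G) :=
    (SylIn.ofSylow S).card_eq (SylIn.ofSylow U)
  have h5 : (S : Subgroup G) ⊓ Subgroup.centralizer ({x} : Set G) = S :=
    Subgroup.eq_of_le_of_card_ge inf_le_left (by rw [h4]; exact h3)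
  rw [mem_zi]
  refine ⟨hx, fun u hu => ?_⟩
  rw [← h5] at hu
  exact Subgroup.mem_centralizer_singleton_iff.1 hu.2


/-- Let G be a finite group in which the intersection of any two distinct Sylow 2-subgroups is contained in the centre of some Sylow 2-subgroup, and let S be a Sylow 2-subgroup. Then for every x in S the centralizer of x in S is a Sylow 2-subgroup of the centralizer of x in G (no 2-subgroup centralizing x is larger), and for every other Sylow 2-subgroup T the intersection S ∩ T lies in both the centre of S and the centre of T. -/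
theorem result {G : Type*} [Group G] [Finite G]
    (hCI : ∀ S T : Sylow 2 G, S ≠ T → ∃ U : Sylow 2 G,
      (S : Subgroup G) ⊓ (T : Subgroup G) ≤ (Subgroup.center ↥(U : Subgroup G)).map (U : Subgroup G).subtype)
    (S : Sylow 2 G) :
    (∀ x ∈ (S : Subgroup G), ∀ P : Subgroup G, IsPGroup 2 ↥P → P ≤ Subgroup.centralizer ({x} : Set G) →
        Nat.card ↥P ≤ Nat.card ↥((S : Subgroup G) ⊓ Subgroup.centralizer ({x} : Set G))) ∧
    (∀ T : Sylow 2 G, T ≠ S →
        (S : Subgroup G) ⊓ (T : Subgroup G) ≤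
          (Subgroup.center ↥(S : Subgroup G)).map (S : Subgroup G).subtype ⊓
            (Subgroup.center ↥(T : Subgroup G)).map (T : Subgroup G).subtype) := by
  refine ⟨fun x hx P hP hPx => claim1 hCI S x hx P hP hPx, fun T hT x hx => ?_⟩
  obtain ⟨U, hU⟩ := hCI S T hT.symm
  exact ⟨claim2 hCI S U x hx.1 (hU hx), claim2 hCI T U x hx.2 (hU hx)⟩

end Cfsg.Agent.S3183
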