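import Cfsg.Statements.S3184
import Cfsg.Agent.LibZCor
import Cfsg.Agent.LibCycNorm

set_option autoImplicit false
open Cfsg

namespace Cfsg.Agent.S3184

open Subgroup CfsgLib.Isolated in
theorem sylow_conj_in {G : Type*} [Group G] [Finite G] {p : ℕ} [Fact p.Prime] (P Q : Sylow p G)
    {H : Subgroup G} (hP : (P : Subgroup G) ≤ H) (hQ : (Q : Subgroup G) ≤ H) :
    ∃ k ∈ H, k • P = Q := by
  obtain ⟨k, hk⟩ := MulAction.exists_smul_eq H (P.subtype hP) (Q.subtype hQ)
  refine ⟨k, k.2, ?_⟩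
  rw [Sylow.smul_subtype] at hk
  exact Sylow.subtype_injective hk

theorem conj_eq_of_normalizer {G : Type*} [Group G] [Finite G] (S : Sylow 2 G)
    (C : Subgroup ↥(S : Subgroup G)) (hCc : IsCyclic ↥C) (hCh : C.Characteristic)
    (c : ↥(S : Subgroup G)) (hc : c ∈ C) (hc2 : orderOf c = 2) {g : G}
    (hg : g ∈ Subgroup.normalizer ((S : Subgroup G) : Set G)) : g * (c : G) * g⁻¹ = c := by
  obtain ⟨φ, hφ⟩ : ∃ φ : MulAut (S : Subgroup G), φ = (S : Subgroup G).normalizerMonoidHom ⟨g, hg⟩ := ⟨_, rfl⟩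
  have h1 : φ c ∈ C := by
    have h2 := hCh.fixed φ
    have h3 : c ∈ C.comap φ.toMonoidHom := by rw [h2]; exact hc
    exact h3
  have hφc : ((φ c : (S : Subgroup G)) : G) = g * (c : G) * g⁻¹ := by
    rw [hφ]; rfl
  have ho : orderOf (φ c) = 2 := (MulEquiv.orderOf_eq φ c).trans hc2
  have hmul : ∀ y : (S : Subgroup G), orderOf y = 2 → ∀ hy : y ∈ C, (⟨y, hy⟩ : C) * ⟨y, hy⟩ = 1 ∧
      (⟨y, hy⟩ : C) ≠ 1 := by
    intro y hy2 hy
    refine ⟨Subtype.ext (CfsgLib.Invol.mul_self hy2), fun h => ?_⟩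
    have : y = 1 := congrArg Subtype.val h
    rw [this, orderOf_one] at hy2
    omega
  have h5 := CfsgLib.CycNorm.unique_inv (hmul _ ho h1).1 (hmul _ ho h1).2 (hmul _ hc2 hc).1 (hmul _ hc2 hc).2
  have h6 : φ c = c := congrArg Subtype.val h5
  rw [← hφc, h6]


/-- Let G be a finite group in which the intersection of any two distinct Sylow 2-subgroups is contained in the centre of some Sylow 2-subgroup, and let S be a Sylow 2-subgroup. If C is a nontrivial cyclic characteristic subgroup of S, then the involution of C is central modulo the largest normal subgroup of odd order of G: each of its conjugates has the same image in G/O(G). -/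
theorem result {G : Type*} [Group G] [Finite G]
    (hCI : ∀ S T : Sylow 2 G, S ≠ T → ∃ U : Sylow 2 G,
      (S : Subgroup G) ⊓ (T : Subgroup G) ≤ (Subgroup.center ↥(U : Subgroup G)).map (U : Subgroup G).subtype)
    (S : Sylow 2 G) (C : Subgroup ↥(S : Subgroup G)) (hC : C ≠ ⊥) (hCc : IsCyclic ↥C) (hCh : C.Characteristic)
    (c : ↥(S : Subgroup G)) (hc : c ∈ C) (hc2 : orderOf c = 2) :
    ∀ g : G, (QuotientGroup.mk (s := Cfsg.oddCore G) (g * (c : G) * g⁻¹)) =
      QuotientGroup.mk (s := Cfsg.oddCore G) (c : G) := by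
  haveI : Fact (Nat.Prime 2) := ⟨Nat.prime_two⟩
  have hc2' : orderOf (c : G) = 2 := by rw [Subgroup.orderOf_coe, hc2]
  have hcs : (c : G) ∈ S := c.2
  have hN : ∀ g : G, g ∈ Subgroup.normalizer ((S : Subgroup G) : Set G) → g * (c : G) * g⁻¹ = c :=
    fun g hg => conj_eq_of_normalizer S C hCc hCh c hc hc2 hg
  -- key
  have key : ∀ (g h x : G), g * (c : G) * g⁻¹ = x →
      ((h • S : Sylow 2 G) : Subgroup G) ≤ Subgroup.centralizer {x} → h * (c : G) * h⁻¹ = x := by
    intro g h x hx hh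
    have hgx : ((g • S : Sylow 2 G) : Subgroup G) ≤ Subgroup.centralizer {x} := by
      intro y hy
      rw [Subgroup.mem_centralizer_singleton_iff]
      have hy' : y ∈ (g • S : Sylow 2 G) := hy
      rw [CfsgLib.Isolated.mem_smul_sylow] at hy'
      have h1 := hN (g⁻¹ * y * g) (Subgroup.le_normalizer hy')
      have h2 : g⁻¹ * y * g * (c : G) = c * (g⁻¹ * y * g) := mul_inv_eq_iff_eq_mul.1 h1
      rw [← hx]
      calc y * (g * (c : G) * g⁻¹) = g * (g⁻¹ * y * g * (c : G)) * g⁻¹ := by group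
      _ = g * (c * (g⁻¹ * y * g)) * g⁻¹ := by rw [h2]
      _ = g * (c : G) * g⁻¹ * y := by group
    obtain ⟨k, hk, hkS⟩ := sylow_conj_in _ _ hgx hh
    have h3 : (h⁻¹ * k * g) ∈ Subgroup.normalizer ((S : Subgroup G) : Set G) := by
      apply Sylow.smul_eq_iff_mem_normalizer.1
      rw [mul_smul, mul_smul, hkS, ← mul_smul, inv_mul_cancel, one_smul]
    have h4 := hN _ h3
    rw [Subgroup.mem_centralizer_singleton_iff] at hk
    have h5 : k * x * k⁻¹ = x := by rw [hk]; group
    calc h * (c : G) * h⁻¹ = h * (h⁻¹ * k * g * (c : G) * (h⁻¹ * k * g)⁻¹) * h⁻¹ := by rw [h4]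
    _ = k * (g * c * g⁻¹) * k⁻¹ := by group
    _ = x := by rw [hx, h5]
  have hiso : Cfsg.IsIsolatedInvolution (c : G) := by
    rw [CfsgLib.Isolated.isolated_iff_sylow S hc2' hcs]
    intro g hgS
    obtain ⟨x, hx⟩ : ∃ x, x = g * (c : G) * g⁻¹ := ⟨_, rfl⟩
    rw [← hx] at hgS ⊢
    -- `S ≤ C(x)`
    have hSx : (S : Subgroup G) ≤ Subgroup.centralizer {x} := by
      by_contra hne
      obtain ⟨D, hD⟩ : ∃ D : Subgroup G, D = (S : Subgroup G) ⊓ Subgroup.centralizer {x} := ⟨_, rfl⟩
      have hDS : D ≤ S := by rw [hD]; exact inf_le_left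
      have hDC : D ≤ Subgroup.centralizer {x} := by rw [hD]; exact inf_le_right
      have hlt : D < S := lt_of_le_of_ne hDS (fun h => hne (h ▸ hDC))
      -- s normalizing D outside D
      haveI : Group.IsNilpotent S := S.isPGroup'.isNilpotent
      have hnc : NormalizerCondition S := Group.normalizerCondition_of_isNilpotent
      have hlt' : D.subgroupOf S < ⊤ := by
        rw [lt_top_iff_ne_top]
        intro h
        rw [Subgroup.subgroupOf_eq_top] at h
        exact hlt.not_ge h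
      obtain ⟨s, hs1, hs2⟩ := SetLike.exists_of_lt (hnc _ hlt')
      have hsN : (s : G) ∈ Subgroup.normalizer (D : Set G) := by
        rw [← Subgroup.subgroupOf_normalizer_eq hDS] at hs1
        exact hs1
      have hsD : (s : G) ∉ D := hs2
      -- a Sylow subgroup `R` of `G` inside `C(x)` containing `D`
      have hgx : ((g • S : Sylow 2 G) : Subgroup G) ≤ Subgroup.centralizer {x} := by
        intro y hy
        rw [Subgroup.mem_centralizer_singleton_iff]
        have hy' : y ∈ (g • S : Sylow 2 G) := hy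
        rw [CfsgLib.Isolated.mem_smul_sylow] at hy'
        have h1 := hN (g⁻¹ * y * g) (Subgroup.le_normalizer hy')
        have h2 : g⁻¹ * y * g * (c : G) = c * (g⁻¹ * y * g) := mul_inv_eq_iff_eq_mul.1 h1
        rw [hx]
        calc y * (g * (c : G) * g⁻¹) = g * (g⁻¹ * y * g * (c : G)) * g⁻¹ := by group
        _ = g * (c * (g⁻¹ * y * g)) * g⁻¹ := by rw [h2]
        _ = g * (c : G) * g⁻¹ * y := by group
      have hDp : IsPGroup 2 (D.subgroupOf (Subgroup.centralizer {x})) :=
        (S.isPGroup'.to_le hDS).comap_subtype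
      obtain ⟨R0, hR0⟩ := hDp.exists_le_sylow
      obtain ⟨R, hR⟩ := CfsgLib.ZCor.exists_sylow_eq_map (g • S) hgx R0
      have hRx : (R : Subgroup G) ≤ Subgroup.centralizer {x} := by
        rw [hR]; exact Subgroup.map_subtype_le _
      have hDR : D ≤ R := by
        rw [hR]
        intro y hy
        exact ⟨⟨y, hDC hy⟩, hR0 hy, rfl⟩
      have hSR : S ≠ R := by
        intro h
        apply hne
        rw [h]; exact hRx
      obtain ⟨U, hU⟩ := hCI S R hSR
      have hDU : ∀ y ∈ D, (U : Subgroup G) ≤ Subgroup.centralizer {y} := by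
        intro y hy
        obtain ⟨w, hw, hwy⟩ := hU ⟨hDS hy, hDR hy⟩
        intro u hu
        rw [Subgroup.mem_centralizer_singleton_iff, ← hwy]
        exact congrArg Subtype.val (Subgroup.mem_center_iff.1 hw ⟨u, hu⟩)
      obtain ⟨h, hh⟩ := MulAction.exists_smul_eq G S U
      have hxD : x ∈ D := by
        rw [hD]
        exact Subgroup.mem_inf.2 ⟨hgS, Subgroup.mem_centralizer_singleton_iff.2 rfl⟩
      have hsx : (s : G) * x * (s : G)⁻¹ ∈ D := ((Subgroup.mem_normalizer_iff.1 hsN) x).1 hxD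
      have e1 := key g h x hx.symm (by rw [hh]; exact hDU x hxD)
      have e2 := key (s * g) h (s * x * (s : G)⁻¹) (by rw [hx]; group)
        (by rw [hh]; exact hDU _ hsx)
      rw [e1] at e2
      apply hsD
      rw [hD]
      refine Subgroup.mem_inf.2 ⟨s.2, Subgroup.mem_centralizer_singleton_iff.2 ?_⟩
      exact (eq_mul_inv_iff_mul_eq.1 e2).symm
    have e3 := key g 1 x hx.symm (by rw [one_smul]; exact hSx)
    simpa using e3.symm
  intro g
  rw [QuotientGroup.eq]
  have h1 := inv_mem (CfsgLib.ZStar.zstar hiso g)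
  have hci := CfsgLib.Invol.inv_eq hc2'
  have e : (g * (c : G) * g⁻¹)⁻¹ * c = ((c : G) * g * (c : G)⁻¹ * g⁻¹)⁻¹ := by
    calc (g * (c : G) * g⁻¹)⁻¹ * c = g * (c : G)⁻¹ * g⁻¹ * c := by group
    _ = g * (c : G) * g⁻¹ * (c : G)⁻¹ := by rw [hci]
    _ = _ := by group
  rw [e]
  exact h1
end Cfsg.Agent.S3184
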