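import Cfsg.Statements.S3190
import Mathlib
import Cfsg.Agent.LibFusionH12
import Cfsg.Agent.LibCoprime2
import Cfsg.Agent.LibSolvNilp

set_option autoImplicit false
open Cfsg

namespace Cfsg.Agent.S3190

/-- Let p be an odd prime and, inside a finite group, let P be a p-subgroup normalized by a Klein four-group T. Let R be a subgroup of P, normal in P and normalized by T, such that P is the product of R with the centralizer of T in P. If T centralizes the centre of P, then T centralizes the centre of R. -/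
theorem result {X : Type*} [Group X] [Finite X]
    {p : ℕ} (hp : p.Prime) (hodd : Odd p) (P T R : Subgroup X) (hP : IsPGroup p ↥P) (hT : IsKleinFour ↥T)
    (hTP : T ≤ Subgroup.normalizer (P : Set X)) (hRP : R ≤ P) (hRn : (R.subgroupOf P).Normal)
    (hTR : T ≤ Subgroup.normalizer (R : Set X)) (hfac : R ⊔ (P ⊓ Subgroup.centralizer (T : Set X)) = P)
    (hZ : T ≤ Subgroup.centralizer (((Subgroup.center ↥P).map P.subtype : Subgroup X) : Set X)) :
    T ≤ Subgroup.centralizer (((Subgroup.center ↥R).map R.subtype : Subgroup X) : Set X) := by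
  have : Fact p.Prime := ⟨hp⟩
  set V : Subgroup X := (Subgroup.center ↥R).map R.subtype with hV
  have hVR : V ≤ R := Subgroup.map_subtype_le _
  have hVc : IsMulCommutative V := by rw [hV]; infer_instance
  have hRV : ∀ r ∈ R, ∀ v ∈ V, r * v = v * r := by
    rintro r hr _ ⟨⟨v, hvR⟩, hv, rfl⟩
    exact congrArg (fun z : R => (z : X)) (Subgroup.mem_center_iff.1 hv ⟨r, hr⟩)
  have hchar : (V.subgroupOf R).Characteristic := by
    have : V.subgroupOf R = Subgroup.center ↥R := by
      rw [hV, Subgroup.subgroupOf, Subgroup.comap_map_eq_self_of_injective (Subgroup.subtype_injective R)]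
    rw [this]; infer_instance
  have hNR := CfsgLib.FusionH12.le_nrm_of_char hchar hVR
  have hTV : T ≤ Subgroup.normalizer (V : Set X) := hTR.trans hNR
  have hPR : P ≤ Subgroup.normalizer (R : Set X) := (Subgroup.normal_subgroupOf_iff_le_normalizer hRP).1 hRn
  have hVp : IsPGroup p V := hP.to_le (hVR.trans hRP)
  have hcop : (Nat.card T).Coprime (Nat.card V) := by
    obtain ⟨k, hk⟩ := hVp.exists_card_eq
    rw [hk]
    have h4 : Nat.card T = 4 := hT.card_four
    rw [h4]
    apply Nat.Coprime.pow_right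
    have : Nat.Coprime 2 p := Nat.coprime_two_left.2 hodd
    exact (show (4 : ℕ) = 2 ^ 2 by norm_num) ▸ this.pow_left 2
  have hWV : ⁅V, T⁆ ≤ V := CfsgLib.Coprime.commutator_le_of_le_normalizer hTV
  have hPW : P ≤ Subgroup.normalizer ((⁅V, T⁆ : Subgroup X) : Set X) := by
    rw [← hfac, sup_le_iff]
    constructor
    · intro r hr
      apply Subgroup.centralizer_le_normalizer
      rw [Subgroup.mem_centralizer_iff]
      intro w hw
      exact (hRV r hr w (hWV hw)).symm
    · rintro c ⟨hcP, hcT⟩
      have h1 : CfsgLib.FusionH12.cj c V = V := CfsgLib.FusionH12.mem_nrm.1 (hNR (hPR hcP))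
      have h2 : CfsgLib.FusionH12.cj c T = T := CfsgLib.FusionH12.mem_nrm.1
        (Subgroup.centralizer_le_normalizer _ hcT)
      rw [CfsgLib.FusionH12.mem_nrm, CfsgLib.FusionH12.cj_commutator, h1, h2]
  have hWP : ⁅V, T⁆ ≤ P := (hWV.trans hVR).trans hRP
  have hWb : ⁅V, T⁆ = ⊥ := by
    by_contra hne
    have hn : (⁅V, T⁆.subgroupOf P).Normal := Subgroup.normal_subgroupOf_of_le_normalizer hPW
    have hnil : Group.IsNilpotent P := hP.isNilpotent
    have h1 := CfsgLib.SolvNilp.inf_center_ne_bot (⁅V, T⁆.subgroupOf P) (by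
      intro h
      apply hne
      rw [Subgroup.subgroupOf_eq_bot, disjoint_iff, inf_eq_left.2 hWP] at h
      exact h)
    apply h1
    rw [eq_bot_iff]
    rintro ⟨x, hxP⟩ hx
    obtain ⟨hx1, hx2⟩ := Subgroup.mem_inf.1 hx
    have hxW : x ∈ ⁅V, T⁆ := Subgroup.mem_subgroupOf.1 hx1
    have hxT : x ∈ Subgroup.centralizer (T : Set X) := by
      rw [Subgroup.mem_centralizer_iff]
      intro t ht
      exact ((Subgroup.mem_centralizer_iff.1 (hZ ht)) x ⟨⟨x, hxP⟩, hx2, rfl⟩).symm
    have h2 : x ∈ ⁅V, T⁆ ⊓ Subgroup.centralizer (T : Set X) := ⟨hxW, hxT⟩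
    rw [CfsgLib.Coprime2.commutator_inf_centralizer hTV hcop, Subgroup.mem_bot] at h2
    rw [Subgroup.mem_bot]
    exact Subtype.ext h2
  rw [← Subgroup.commutator_eq_bot_iff_le_centralizer, Subgroup.commutator_comm]
  exact hWb

end Cfsg.Agent.S3190
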