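import Cfsg.Statements.S3200
import Cfsg.Agent.LibH7KazB
import Cfsg.Agent.LibSolvHall
import Cfsg.Agent.LibCores
import Cfsg.Agent.LibComp2

set_option autoImplicit false
open Cfsg

namespace Cfsg.Agent.S3200
open Subgroup
open scoped Pointwise

theorem compl_of {X : Type*} [Group X] [Finite X] (P : Sylow 2 X) (D : Subgroup X)
    (hodd : ¬ 2 ∣ Nat.card D) {n : ℕ} (hidx : D.index ∣ 2 ^ n) : Subgroup.IsComplement' (P : Subgroup X) D := by
  haveI : Fact (Nat.Prime 2) := ⟨Nat.prime_two⟩
  obtain ⟨k, hk⟩ := IsPGroup.iff_card.mp P.isPGroup'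
  obtain ⟨j, hj, hj2⟩ := (Nat.dvd_prime_pow Nat.prime_two).mp hidx
  have h1 := P.not_dvd_index
  have h2 := D.card_mul_index
  have h3 := (P : Subgroup X).card_mul_index
  have hcop : Nat.Coprime (Nat.card (P : Subgroup X)) (Nat.card D) := by
    rw [hk]
    exact Nat.Coprime.pow_left k ((Nat.Prime.coprime_iff_not_dvd Nat.prime_two).mpr hodd)
  apply Subgroup.isComplement'_of_coprime _ hcop
  have e1 : Nat.card (P : Subgroup X) ∣ D.index := by
    apply hcop.dvd_of_dvd_mul_left
    rw [h2, ← h3]; exact dvd_mul_right _ _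
  have e2 : D.index ∣ Nat.card (P : Subgroup X) := by
    have : Nat.Coprime D.index (P : Subgroup X).index := by
      rw [hj2]
      exact Nat.Coprime.pow_left j ((Nat.Prime.coprime_iff_not_dvd Nat.prime_two).mpr h1)
    apply this.dvd_of_dvd_mul_right
    rw [h3, ← h2]; exact dvd_mul_left _ _
  rw [Nat.dvd_antisymm e1 e2, mul_comm, h2]

theorem solv {H : Type*} [Group H] [Finite H]
    (C : Subgroup H) (hC : IsMulCommutative ↥C) {n : ℕ} (hidx : C.index ∣ 2 ^ n) : Group.IsSolvable H := by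
  haveI : Fact (Nat.Prime 2) := ⟨Nat.prime_two⟩
  have hR : sSup {N : Subgroup H | N.Normal ∧ Group.IsSolvable N} ∈ {N : Subgroup H | N.Normal ∧ Group.IsSolvable N} := by
    apply CfsgLib.Cores.sSup_mem_of_supClosed
    · exact ⟨inferInstance, inferInstance⟩
    · rintro A ⟨hA, hA'⟩ B ⟨hB, hB'⟩
      exact ⟨Subgroup.sup_normal A B, CfsgLib.Comp2.solvable_sup hA' hB' (by rw [Subgroup.normalizer_eq_top]; exact le_top)⟩
  set R := sSup {N : Subgroup H | N.Normal ∧ Group.IsSolvable N} with hRd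
  obtain ⟨hRn, hRs⟩ := hR
  have hCR : C ≤ R := by
    intro c hc
    have h1 : C ≤ centralizer ({c} : Set H) := by
      intro x hx
      rw [mem_centralizer_singleton_iff]
      exact congrArg Subtype.val (hC.is_comm.comm (⟨x, hx⟩ : C) ⟨c, hc⟩)
    obtain ⟨a, ha, ha2⟩ := (Nat.dvd_prime_pow Nat.prime_two).mp ((index_dvd_of_le h1).trans hidx)
    have h2 := CfsgLib.H7Kaz.kazarin ha2
    have h3 : normalClosure ({c} : Set H) ≤ R := le_sSup ⟨inferInstance, h2⟩
    exact h3 (subset_normalClosure (Set.mem_singleton c))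
  obtain ⟨a, ha, ha2⟩ := (Nat.dvd_prime_pow Nat.prime_two).mp ((index_dvd_of_le hCR).trans hidx)
  have h4 : IsPGroup 2 (H ⧸ R) := IsPGroup.of_card (n := a) (by rw [← ha2]; rfl)
  haveI : Group.IsNilpotent (H ⧸ R) := h4.isNilpotent
  haveI : Group.IsSolvable (H ⧸ R) := inferInstance
  haveI := hRs
  exact Group.isSolvable_of_ker_le_range R.subtype (QuotientGroup.mk' R) (by simp)

/-- Let H be a finite group in which a Sylow 2-subgroup has an abelian complement (an abelian subgroup meeting it trivially whose product with it is all of H). Then H is solvable, and every subgroup and every quotient group of H again has a Sylow 2-subgroup with an abelian complement. -/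
theorem result {H : Type*} [Group H] [Finite H]
    (S : Sylow 2 H) (C : Subgroup H) (hC : IsMulCommutative ↥C) (hSC : Subgroup.IsComplement' (S : Subgroup H) C) :
    Group.IsSolvable H ∧
    (∀ L : Subgroup H, ∃ (P : Sylow 2 ↥L) (D : Subgroup ↥L), IsMulCommutative ↥D ∧ Subgroup.IsComplement' (P : Subgroup ↥L) D) ∧
    (∀ (N : Subgroup H) [N.Normal], ∃ (P : Sylow 2 (H ⧸ N)) (D : Subgroup (H ⧸ N)),
      IsMulCommutative ↥D ∧ Subgroup.IsComplement' (P : Subgroup (H ⧸ N)) D) := by
  haveI : Fact (Nat.Prime 2) := ⟨Nat.prime_two⟩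
  obtain ⟨n, hn⟩ := IsPGroup.iff_card.mp S.isPGroup'
  have hidx : C.index = 2 ^ n := by
    have := hSC.index_eq_card
    rw [this, ← hn]
  have hcard : Nat.card C = (S : Subgroup H).index := by
    have := hSC.symm.index_eq_card
    rw [this]
  have hodd : ¬ 2 ∣ Nat.card C := by rw [hcard]; exact S.not_dvd_index
  have hs := solv C hC (n := n) (by rw [hidx])
  haveI := hs
  refine ⟨hs, ?_, ?_⟩
  · intro L
    obtain ⟨P⟩ : Nonempty (Sylow 2 L) := inferInstance
    obtain ⟨k, hk⟩ := IsPGroup.iff_card.mp P.isPGroup'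
    have hPi := P.not_dvd_index
    have h3 := (P : Subgroup L).card_mul_index
    have hcop : Nat.Coprime (P : Subgroup L).index (Nat.card (P : Subgroup L)) := by
      rw [hk]
      exact (Nat.Coprime.pow_left k ((Nat.Prime.coprime_iff_not_dvd Nat.prime_two).mpr hPi)).symm
    haveI : Group.IsSolvable L := inferInstance
    obtain ⟨D, hD⟩ := CfsgLib.SolvHall.hall_exists _ L rfl (P : Subgroup L).index (Nat.card (P : Subgroup L)) (by rw [mul_comm, h3]) hcop
    have hDodd : ¬ 2 ∣ Nat.card D := by rw [hD]; exact hPi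
    have hDidx : D.index ∣ 2 ^ k := by
      have h4 := D.card_mul_index
      rw [hD, ← h3, mul_comm] at h4
      have h5 := Nat.eq_of_mul_eq_mul_right (Nat.pos_of_ne_zero (by rw [← hD]; exact Nat.card_pos.ne')) h4
      rw [h5, hk]
    refine ⟨P, D, ?_, compl_of P D hDodd hDidx⟩
    have hCH : Nat.card H = Nat.card C * 2 ^ n := by rw [← C.card_mul_index, hidx]
    have hcm : Nat.card (D.map L.subtype) = Nat.card D := Nat.card_congr (D.equivMapOfInjective L.subtype L.subtype_injective).symm.toEquiv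
    obtain ⟨g, hg⟩ := CfsgLib.SolvHall.hall_dominance _ H rfl (Nat.card C) (2 ^ n) hCH
      (Nat.Coprime.pow_left n ((Nat.Prime.coprime_iff_not_dvd Nat.prime_two).mpr hodd)).symm (D.map L.subtype) C
      (by
        rw [hcm]
        apply Nat.Coprime.dvd_of_dvd_mul_right (n := 2 ^ n)
        · exact (Nat.Coprime.pow_left n ((Nat.Prime.coprime_iff_not_dvd Nat.prime_two).mpr hDodd)).symm
        · rw [← hCH, ← hcm]; exact Subgroup.card_subgroup_dvd_card _) rfl
    refine ⟨⟨fun a b => ?_⟩⟩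
    have ha : g * (a : L) * g⁻¹ ∈ C := hg ⟨((a : L) : H), ⟨a, a.2, rfl⟩, by simp⟩
    have hb : g * (b : L) * g⁻¹ ∈ C := hg ⟨((b : L) : H), ⟨b, b.2, rfl⟩, by simp⟩
    have hab := congrArg Subtype.val (hC.is_comm.comm (⟨_, ha⟩ : C) ⟨_, hb⟩)
    apply Subtype.ext
    apply Subtype.ext
    simp only [Subgroup.coe_mul, Subgroup.mul_mem_cancel_left] at hab ⊢
    have e1 : g * ((a : L) : H) * g⁻¹ * (g * ((b : L) : H) * g⁻¹) = g * (((a : L) : H) * ((b : L) : H)) * g⁻¹ := by group
    have e2 : g * ((b : L) : H) * g⁻¹ * (g * ((a : L) : H) * g⁻¹) = g * (((b : L) : H) * ((a : L) : H)) * g⁻¹ := by group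
    rw [e1, e2] at hab
    exact mul_left_cancel (mul_right_cancel hab)
  · intro N hN
    have hq : Function.Surjective (QuotientGroup.mk' N) := QuotientGroup.mk'_surjective _
    refine ⟨S.mapSurjective hq, C.map (QuotientGroup.mk' N), ?_, ?_⟩
    · refine ⟨⟨?_⟩⟩
      rintro ⟨_, ⟨a, ha, rfl⟩⟩ ⟨_, ⟨b, hb, rfl⟩⟩
      apply Subtype.ext
      have hab := congrArg Subtype.val (hC.is_comm.comm (⟨_, ha⟩ : C) ⟨_, hb⟩)
      show QuotientGroup.mk' N a * QuotientGroup.mk' N b = QuotientGroup.mk' N b * QuotientGroup.mk' N a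
      rw [← map_mul, ← map_mul]
      exact congrArg _ hab
    · apply compl_of _ _ (n := n)
      · intro h
        exact hodd (h.trans (Subgroup.card_map_dvd C _))
      · rw [← hidx]
        exact Subgroup.index_map_dvd _ hq

end Cfsg.Agent.S3200
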