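import Cfsg.Statements.S3201
import Mathlib
import Cfsg.Agent.LibH7Quat
set_option autoImplicit false
open Cfsg

namespace Cfsg.Agent.S3201


/-- Let S be a finite 2-group whose centre Z(S) has n ≥ 2 distinct maximal subgroups C₁, …, Cₙ with trivial intersection such that each quotient S/Cᵢ is a non-abelian group with exactly one involution (a generalized quaternion group). Then S is the internal direct product of an elementary abelian subgroup and a non-abelian subgroup with exactly one involution. -/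
theorem result {S : Type*} [Group S] [Finite S]
    (hS : IsPGroup 2 S) (n : ℕ) (hn : 2 ≤ n) (C : Fin n → Subgroup ↥(Subgroup.center S))
    (hCmax : ∀ i, IsCoatom (C i)) (hCinj : Function.Injective C) (hCint : ⨅ i, C i = ⊥)
    (hCq : ∀ i, ∃ (_ : ((C i).map (Subgroup.center S).subtype).Normal),
      ¬ IsMulCommutative (S ⧸ (C i).map (Subgroup.center S).subtype) ∧
      ∃! x : S ⧸ (C i).map (Subgroup.center S).subtype, orderOf x = 2) :
    ∃ E Q : Subgroup S, Cfsg.IsInternalDirectProduct E Q ⊤ ∧ Cfsg.IsElementaryAbelian 2 E ∧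
      ¬ IsMulCommutative ↥Q ∧ ∃! x : ↥Q, orderOf x = 2 := by
  obtain ⟨E, Q, ⟨h1, h2, h3⟩, h4, h5, h6⟩ := CfsgLib.H7Quat.s3201 hS n hn C hCmax hCint hCq
  refine ⟨E, Q, ⟨le_top, le_top, ?_, h2, h3⟩, ⟨?_, ?_⟩, h5, h6⟩
  · intro a ha b _
    exact (Subgroup.mem_center_iff.mp (h1 ha) b).symm
  · refine ⟨⟨fun a b => Subtype.ext ?_⟩⟩
    exact (Subgroup.mem_center_iff.mp (h1 a.2) b).symm
  · intro a ha
    exact h4 a (h1 ha)

end Cfsg.Agent.S3201
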