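import Cfsg.Statements.S3208
import Mathlib
import Cfsg.Agent.LibFusionH12

set_option autoImplicit false
open Cfsg

namespace Cfsg.Agent.S3208

/-- Let j be an involution of a finite group G, H a subgroup of G, and T a Sylow 2-subgroup of H ∩ C_G(j) containing j such that ⟨j⟩ is a characteristic subgroup of T. Then T is a Sylow 2-subgroup of H. -/
theorem result {G : Type*} [Group G] [Finite G]
    (j : G) (hj : orderOf j = 2) (H T : Subgroup G) (hT : T ≤ H ⊓ Subgroup.centralizer ({j} : Set G)) (h2 : IsPGroup 2 ↥T)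
    (hSyl : ¬ 2 ∣ T.relIndex (H ⊓ Subgroup.centralizer ({j} : Set G))) (hjT : j ∈ T)
    (hchar : ((Subgroup.zpowers j).subgroupOf T).Characteristic) :
    ¬ 2 ∣ T.relIndex H := by
  classical
  have : Fact (Nat.Prime 2) := ⟨Nat.prime_two⟩
  have hTs : CfsgLib.FusionH12.SylIn 2 T (H ⊓ Subgroup.centralizer ({j} : Set G)) := ⟨hT, h2, hSyl⟩
  obtain ⟨T₁, hTT₁, hT₁⟩ := CfsgLib.FusionH12.SylIn.exists_ge (p := 2) h2 (hT.trans inf_le_left)
  rcases eq_or_lt_of_le hTT₁ with h | h
  · rw [h]; exact hT₁.idx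
  exfalso
  have h3 := CfsgLib.FusionH12.lt_nrm_inf hT₁.pg h
  have h4 : Subgroup.normalizer (T : Set G) ≤ Subgroup.centralizer ({j} : Set G) := by
    refine (CfsgLib.FusionH12.le_nrm_of_char hchar (by simpa using hjT)).trans ?_
    intro g hg
    rw [CfsgLib.FusionH12.mem_nrm] at hg
    have h5 : g * j * g⁻¹ ∈ Subgroup.zpowers j := by
      rw [← hg]; exact CfsgLib.FusionH12.conj_mem_cj (Subgroup.mem_zpowers j)
    have h6 : g * j * g⁻¹ = j := by
      rw [mem_zpowers_iff_mem_range_orderOf, hj] at h5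
      obtain ⟨i, hi, hij⟩ := Finset.mem_image.1 h5
      rw [Finset.mem_range] at hi
      interval_cases i
      · exfalso
        rw [pow_zero] at hij
        have : j = 1 := by
          have h7 := congrArg (fun x => g⁻¹ * x * g) hij
          simpa [mul_assoc] using h7.symm
        rw [this, orderOf_one] at hj
        omega
      · simpa using hij.symm
    rw [Subgroup.mem_centralizer_singleton_iff]
    exact mul_inv_eq_iff_eq_mul.1 h6
  have h5 : T₁ ⊓ Subgroup.normalizer (T : Set G) = T :=
    hTs.eq_of_le (hT₁.pg.to_le inf_le_left) (inf_le_inf hT₁.le h4) h3.le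
  exact h3.ne h5.symm

end Cfsg.Agent.S3208
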