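import Cfsg.Statements.S3209
import Cfsg.Agent.LibH22J1

set_option autoImplicit false
open Cfsg

namespace Cfsg.Agent.S3209


/-- Let L₁ ≅ SL₂(q₁) and L₂ ≅ SL₂(q₂), q₁ and q₂ odd, be elementwise-commuting subgroups of a finite group meeting in ⟨j⟩ for an involution j. Then L₁L₂ has exactly two conjugacy classes of involutions: the central involution j, and one further class (there is an involution x ≠ j in L₁L₂, and every involution of L₁L₂ other than j is conjugate to x by an element of L₁L₂). -/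
theorem result {G : Type*} [Group G] [Finite G]
    {F₁ : Type*} [Field F₁] [Fintype F₁] {F₂ : Type*} [Field F₂] [Fintype F₂]
    (hF₁ : Odd (Fintype.card F₁)) (hF₂ : Odd (Fintype.card F₂)) (L₁ L₂ : Subgroup G)
    (e₁ : ↥L₁ ≃* Matrix.SpecialLinearGroup (Fin 2) F₁) (e₂ : ↥L₂ ≃* Matrix.SpecialLinearGroup (Fin 2) F₂)
    (hc : ∀ x ∈ L₁, ∀ y ∈ L₂, x * y = y * x) (j : G) (hj : orderOf j = 2) (hm : L₁ ⊓ L₂ = Subgroup.zpowers j) :
    ∃ x ∈ L₁ ⊔ L₂, orderOf x = 2 ∧ x ≠ j ∧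
      ∀ y ∈ L₁ ⊔ L₂, orderOf y = 2 → y = j ∨ ∃ g ∈ L₁ ⊔ L₂, g * x * g⁻¹ = y := by
  have hjm : j ∈ L₁ ⊓ L₂ := by rw [hm]; exact Subgroup.mem_zpowers j
  have q1 := CfsgLib.H22J.QS.of_equiv hF₁ e₁ hj hjm.1
  have q2 := CfsgLib.H22J.QS.of_equiv hF₂ e₂ hj hjm.2
  obtain ⟨x1, hx1, hxx1⟩ := q1.ex
  obtain ⟨x2, hx2, hxx2⟩ := q2.ex
  have hsq : x1 * x2 * (x1 * x2) = 1 := by
    calc x1 * x2 * (x1 * x2) = x1 * (x2 * x1) * x2 := by group
      _ = x1 * (x1 * x2) * x2 := by rw [hc x1 hx1 x2 hx2]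
      _ = (x1 * x1) * (x2 * x2) := by group
      _ = 1 := by rw [hxx1, hxx2, q1.jj]
  have hnot : x1 ∉ L₂ := by
    intro h
    rcases CfsgLib.H22J.inter q1.jj hm hx1 h with h' | h'
    · apply q1.j1; rw [← hxx1, h', mul_one]
    · apply q1.j1; rw [← hxx1, h']; exact q1.jj
  have h1 : x1 * x2 ≠ 1 := by
    intro h
    apply hnot
    rw [mul_eq_one_iff_eq_inv] at h
    rw [h]; exact inv_mem hx2
  have h2 : x1 * x2 ≠ j := by
    intro h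
    apply hnot
    have : x1 = j * x2⁻¹ := by rw [← h]; group
    rw [this]; exact mul_mem hjm.2 (inv_mem hx2)
  refine ⟨x1 * x2, (CfsgLib.H22J.mem_sup_comm hc).2 ⟨x1, hx1, x2, hx2, rfl⟩, ?_, h2, ?_⟩
  · exact orderOf_eq_prime (by rw [pow_two]; exact hsq) h1
  · intro y hy hy2
    have hyy : y * y = 1 := by have := pow_orderOf_eq_one y; rw [hy2, pow_two] at this; exact this
    rcases CfsgLib.H22J.invol q1 q2 hc hm hy hyy with h | h | ⟨a, ha, b, hb, rfl, haa, hbb⟩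
    · exfalso; rw [h, orderOf_one] at hy2; omega
    · left; exact h
    · right
      obtain ⟨g1, hg1, hg1'⟩ := q1.conj x1 hx1 a ha hxx1 haa
      obtain ⟨g2, hg2, hg2'⟩ := q2.conj x2 hx2 b hb hxx2 hbb
      refine ⟨g1 * g2, (CfsgLib.H22J.mem_sup_comm hc).2 ⟨g1, hg1, g2, hg2, rfl⟩, ?_⟩
      have e1 : g2 * x1 = x1 * g2 := (hc x1 hx1 g2 hg2).symm
      have e2 : g1 * (g2 * x2 * g2⁻¹) = (g2 * x2 * g2⁻¹) * g1 := hc g1 hg1 _ (mul_mem (mul_mem hg2 hx2) (inv_mem hg2))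
      calc g1 * g2 * (x1 * x2) * (g1 * g2)⁻¹ = g1 * (g2 * x1) * x2 * g2⁻¹ * g1⁻¹ := by group
        _ = g1 * (x1 * g2) * x2 * g2⁻¹ * g1⁻¹ := by rw [e1]
        _ = g1 * x1 * g1⁻¹ * (g1 * (g2 * x2 * g2⁻¹)) * g1⁻¹ := by group
        _ = g1 * x1 * g1⁻¹ * ((g2 * x2 * g2⁻¹) * g1) * g1⁻¹ := by rw [e2]
        _ = (g1 * x1 * g1⁻¹) * (g2 * x2 * g2⁻¹) := by group
        _ = a * b := by rw [hg1', hg2']

end Cfsg.Agent.S3209
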