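import Cfsg.Statements.S3210
import Cfsg.Agent.LibH22J3
import Cfsg.Agent.LibH22PSL2

set_option autoImplicit false
open Cfsg

namespace Cfsg.Agent.S3210


/-- Let G be a finite group with subgroups L₁ ≅ SL₂(q₁) and L₂ ≅ SL₂(q₂), q₁ and q₂ odd prime powers, which commute elementwise and meet in ⟨j⟩ for an involution j, and suppose L₁L₂ has index 2 in C_G(j). Then every element n of C_G(j) outside L₁L₂ either normalizes both L₁ and L₂, or conjugates L₁ onto L₂; in the second case q₁ = q₂ and there is an element n′ of C_G(j) outside L₁L₂ conjugating L₁ onto L₂ with n′² ∈ ⟨j⟩. -/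
theorem result {G : Type*} [Group G] [Finite G]
    {F₁ : Type*} [Field F₁] [Fintype F₁] {F₂ : Type*} [Field F₂] [Fintype F₂]
    (hF₁ : Odd (Fintype.card F₁)) (hF₂ : Odd (Fintype.card F₂)) (L₁ L₂ : Subgroup G)
    (e₁ : ↥L₁ ≃* Matrix.SpecialLinearGroup (Fin 2) F₁) (e₂ : ↥L₂ ≃* Matrix.SpecialLinearGroup (Fin 2) F₂)
    (hc : ∀ x ∈ L₁, ∀ y ∈ L₂, x * y = y * x) (j : G) (hj : orderOf j = 2) (hm : L₁ ⊓ L₂ = Subgroup.zpowers j)
    (hle : L₁ ⊔ L₂ ≤ Subgroup.centralizer ({j} : Set G)) (hi : (L₁ ⊔ L₂).relIndex (Subgroup.centralizer ({j} : Set G)) = 2) (n : G) (hn : n ∈ Subgroup.centralizer ({j} : Set G)) (hn' : n ∉ L₁ ⊔ L₂) :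
    (L₁.map (MulAut.conj n).toMonoidHom = L₁ ∧ L₂.map (MulAut.conj n).toMonoidHom = L₂) ∨
      (L₁.map (MulAut.conj n).toMonoidHom = L₂ ∧ Fintype.card F₁ = Fintype.card F₂ ∧
        ∃ n' ∈ Subgroup.centralizer ({j} : Set G), n' ∉ L₁ ⊔ L₂ ∧ L₁.map (MulAut.conj n').toMonoidHom = L₂ ∧ n' ^ 2 ∈ Subgroup.zpowers j) := by
  have hjm : j ∈ L₁ ⊓ L₂ := by rw [hm]; exact Subgroup.mem_zpowers j
  have q1 := CfsgLib.H22J.QS.of_equiv hF₁ e₁ hj hjm.1
  have q2 := CfsgLib.H22J.QS.of_equiv hF₂ e₂ hj hjm.2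
  have i1 := CfsgLib.H22J.Ind.of_equiv hF₁ e₁ hj hjm.1
  have i2 := CfsgLib.H22J.Ind.of_equiv hF₂ e₂ hj hjm.2
  have hjj := q1.jj
  have hnj : n * j = j * n := Subgroup.mem_centralizer_singleton_iff.1 hn
  -- index two facts
  have hmem : ∀ g : G, g * j = j * g → ∀ h : G, h * j = j * h → g ∉ L₁ ⊔ L₂ → h ∉ L₁ ⊔ L₂ → g * h ∈ L₁ ⊔ L₂ := by
    intro g hg h hh hgL hhL
    rw [Subgroup.relIndex] at hi
    have h1 := (Subgroup.mul_mem_iff_of_index_two hi (a := (⟨g, Subgroup.mem_centralizer_singleton_iff.2 hg⟩ : ↥(Subgroup.centralizer ({j} : Set G))))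
      (b := ⟨h, Subgroup.mem_centralizer_singleton_iff.2 hh⟩))
    have h2 : (⟨g, Subgroup.mem_centralizer_singleton_iff.2 hg⟩ : ↥(Subgroup.centralizer ({j} : Set G))) ∉ (L₁ ⊔ L₂).subgroupOf (Subgroup.centralizer ({j} : Set G)) := by
      rw [Subgroup.mem_subgroupOf]; exact hgL
    have h3 : (⟨h, Subgroup.mem_centralizer_singleton_iff.2 hh⟩ : ↥(Subgroup.centralizer ({j} : Set G))) ∉ (L₁ ⊔ L₂).subgroupOf (Subgroup.centralizer ({j} : Set G)) := by
      rw [Subgroup.mem_subgroupOf]; exact hhL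
    have h4 := h1.2 ⟨fun h => absurd h h2, fun h => absurd h h3⟩
    rw [Subgroup.mem_subgroupOf] at h4
    exact h4
  have hcj : ∀ g ∈ L₁ ⊔ L₂, g * j = j * g := by
    intro g hg
    obtain ⟨a, ha, b, hb, rfl⟩ := (CfsgLib.H22J.mem_sup_comm hc).1 hg
    rw [mul_assoc, q2.cen b hb, ← mul_assoc, q1.cen a ha, mul_assoc]
  have hnorm : ∀ g ∈ L₁ ⊔ L₂, n * g * n⁻¹ ∈ L₁ ⊔ L₂ := by
    intro g hg
    have hgn : n * g ∉ L₁ ⊔ L₂ := by
      intro h
      apply hn'
      have : n = (n * g) * g⁻¹ := by group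
      rw [this]; exact mul_mem h (inv_mem hg)
    have hcn : (n * g) * j = j * (n * g) := by rw [mul_assoc, hcj g hg, ← mul_assoc, hnj, mul_assoc]
    have hni : n⁻¹ ∉ L₁ ⊔ L₂ := by rw [inv_mem_iff]; exact hn'
    have hnij : n⁻¹ * j = j * n⁻¹ := by rw [inv_mul_eq_iff_eq_mul, ← mul_assoc, hnj]; group
    exact hmem _ hcn _ hnij hgn hni
  set M₁ := L₁.map (MulAut.conj n).toMonoidHom with hM1
  set M₂ := L₂.map (MulAut.conj n).toMonoidHom with hM2
  have hcM : ∀ x ∈ M₁, ∀ y ∈ M₂, x * y = y * x := by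
    rintro _ ⟨a, ha, rfl⟩ _ ⟨b, hb, rfl⟩
    show (MulAut.conj n) a * (MulAut.conj n) b = (MulAut.conj n) b * (MulAut.conj n) a
    rw [← map_mul, ← map_mul, hc a ha b hb]
  have hsup : M₁ ⊔ M₂ = L₁ ⊔ L₂ := by
    rw [hM1, hM2, ← Subgroup.map_sup]
    apply Subgroup.eq_of_le_of_card_ge
    · rintro _ ⟨g, hg, rfl⟩
      exact hnorm g hg
    · rw [Subgroup.card_map_of_injective (MulAut.conj n).injective]
  have hcardM1 : Nat.card M₁ = Nat.card L₁ := Subgroup.card_map_of_injective (MulAut.conj n).injective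
  have hcardM2 : Nat.card M₂ = Nat.card L₂ := Subgroup.card_map_of_injective (MulAut.conj n).injective
  have hm' : L₂ ⊓ L₁ = Subgroup.zpowers j := by rw [inf_comm]; exact hm
  have hc' : ∀ x ∈ L₂, ∀ y ∈ L₁, x * y = y * x := fun x hx y hy => (hc y hy x hx).symm
  have o1 := CfsgLib.H22J.one_side q1 i1 hjm.2 hc hm hcM hsup
  have o2 := CfsgLib.H22J.one_side q2 i2 hjm.1 hc' hm' hcM (by rw [hsup, sup_comm])
  -- M₁ not in both
  have hnot : ∀ (L : Subgroup G), (∃ x ∈ L, x * x = j) → ¬ (L.map (MulAut.conj n).toMonoidHom ≤ L₁ ∧ L.map (MulAut.conj n).toMonoidHom ≤ L₂) := by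
    rintro L ⟨x, hx, hxx⟩ ⟨h1, h2⟩
    have h3 : n * x * n⁻¹ ∈ L.map (MulAut.conj n).toMonoidHom := ⟨x, hx, rfl⟩
    have h4 : (n * x * n⁻¹) * (n * x * n⁻¹) = 1 := by
      rcases CfsgLib.H22J.inter hjj hm (h1 h3) (h2 h3) with h | h
      · rw [h, mul_one]
      · rw [h]; exact hjj
    have h5 : x * x = 1 := by
      calc x * x = n⁻¹ * ((n * x * n⁻¹) * (n * x * n⁻¹)) * n := by group
        _ = 1 := by rw [h4]; group
    rw [hxx] at h5
    exact q1.j1 h5
  have hcase : (M₁ ≤ L₂ ∧ M₂ ≤ L₁) ∨ (M₁ ≤ L₁ ∧ M₂ ≤ L₂) := by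
    rcases o1 with h1 | h1 <;> rcases o2 with h2 | h2
    · exact absurd ⟨h2, h1⟩ (hnot L₁ q1.ex)
    · left; exact ⟨h1, h2⟩
    · right; exact ⟨h2, h1⟩
    · exact absurd ⟨h2, h1⟩ (hnot L₂ q2.ex)
  rcases hcase with ⟨h1, h2⟩ | ⟨h1, h2⟩
  · right
    have k1 : Nat.card L₁ ≤ Nat.card L₂ := by rw [← hcardM1]; exact Subgroup.card_le_of_le h1
    have k2 : Nat.card L₂ ≤ Nat.card L₁ := by rw [← hcardM2]; exact Subgroup.card_le_of_le h2
    have k3 : Nat.card L₁ = Nat.card L₂ := le_antisymm k1 k2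
    have hM1L : M₁ = L₂ := Subgroup.eq_of_le_of_card_ge h1 (by rw [hcardM1, k3])
    have hM2L : M₂ = L₁ := Subgroup.eq_of_le_of_card_ge h2 (by rw [hcardM2, k3])
    refine ⟨hM1L, ?_, ?_⟩
    · rw [Nat.card_congr e₁.toEquiv, Nat.card_congr e₂.toEquiv, Cfsg.Agent.H22.card_SL2, Cfsg.Agent.H22.card_SL2] at k3
      have key : ∀ a b : ℕ, 0 < a → a < b → a * ((a - 1) * (a + 1)) < b * ((b - 1) * (b + 1)) := by
        intro a b ha hab
        apply Nat.mul_lt_mul_of_lt_of_le hab _ (by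
          apply Nat.mul_pos <;> omega)
        apply Nat.mul_le_mul <;> omega
      rcases lt_trichotomy (Fintype.card F₁) (Fintype.card F₂) with h | h | h
      · exact absurd k3 (key _ _ Fintype.card_pos h).ne
      · exact h
      · exact absurd k3.symm (key _ _ Fintype.card_pos h).ne
    · -- n * n ∈ L
      have hnn := hmem n hnj n hnj hn' hn'
      obtain ⟨a, ha, b, hb, hab⟩ := (CfsgLib.H22J.mem_sup_comm hc).1 hnn
      have sa : n * a * n⁻¹ ∈ L₂ := by rw [← hM1L]; exact ⟨a, ha, rfl⟩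
      have sb : n * b * n⁻¹ ∈ L₁ := by rw [← hM2L]; exact ⟨b, hb, rfl⟩
      -- n b n⁻¹ * n a n⁻¹ = a b
      have e1 : (n * b * n⁻¹) * (n * a * n⁻¹) = a * b := by
        calc (n * b * n⁻¹) * (n * a * n⁻¹) = n * (b * a) * n⁻¹ := by group
          _ = n * (a * b) * n⁻¹ := by rw [hc a ha b hb]
          _ = n * (n * n) * n⁻¹ := by rw [hab]
          _ = n * n := by group
          _ = a * b := hab
      have e2 : (n * b * n⁻¹)⁻¹ * a = (n * a * n⁻¹) * b⁻¹ := by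
        rw [eq_mul_inv_iff_mul_eq, mul_assoc, ← e1]; group
      have h5 : (n * b * n⁻¹)⁻¹ * a ∈ L₁ := mul_mem (inv_mem sb) ha
      have h6 : (n * b * n⁻¹)⁻¹ * a ∈ L₂ := by rw [e2]; exact mul_mem sa (inv_mem hb)
      have h7 := CfsgLib.H22J.inter hjj hm h5 h6
      -- n⁻¹ b n
      have tb : n⁻¹ * b * n ∈ L₁ := by
        have : b ∈ M₁ := by rw [hM1L]; exact hb
        obtain ⟨c, hcc, hcb⟩ := this
        have hcb' : n * c * n⁻¹ = b := hcb
        have : n⁻¹ * b * n = c := by rw [← hcb']; group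
        rw [this]; exact hcc
      have e3 : n * b * n⁻¹ = a * (n⁻¹ * b * n) * a⁻¹ := by
        have e4 := hc _ (mul_mem (mul_mem ha tb) (inv_mem ha)) b hb
        have e5 := hc a ha b hb
        calc n * b * n⁻¹ = (n * n) * (n⁻¹ * b * n) * (n * n)⁻¹ := by group
          _ = (a * b) * (n⁻¹ * b * n) * (a * b)⁻¹ := by rw [hab]
          _ = a * (b * (n⁻¹ * b * n)) * b⁻¹ * a⁻¹ := by group
          _ = a * ((n⁻¹ * b * n) * b) * b⁻¹ * a⁻¹ := by rw [hc _ tb b hb]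
          _ = _ := by group
      refine ⟨n * b⁻¹, ?_, ?_, ?_, ?_⟩
      · exact mul_mem hn (hle (inv_mem ((le_sup_right (a := L₁)) hb)))
      · intro h
        apply hn'
        have : n = (n * b⁻¹) * b := by group
        rw [this]; exact mul_mem h ((le_sup_right (a := L₁)) hb)
      · apply Subgroup.eq_of_le_of_card_ge
        · rintro _ ⟨c, hcc, rfl⟩
          show n * b⁻¹ * c * (n * b⁻¹)⁻¹ ∈ L₂
          have : n * b⁻¹ * c * (n * b⁻¹)⁻¹ = n * c * n⁻¹ := by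
            calc n * b⁻¹ * c * (n * b⁻¹)⁻¹ = n * b⁻¹ * (c * b) * n⁻¹ := by group
              _ = n * b⁻¹ * (b * c) * n⁻¹ := by rw [hc c hcc b hb]
              _ = _ := by group
          rw [this, ← hM1L]
          exact ⟨c, hcc, rfl⟩
        · rw [Subgroup.card_map_of_injective (MulAut.conj (n * b⁻¹)).injective, k3]
      · rw [pow_two]
        have e6 : (n * b⁻¹) * (n * b⁻¹) = a * (n⁻¹ * b * n)⁻¹ := by
          have e7 := hc _ (inv_mem tb) b hb
          calc (n * b⁻¹) * (n * b⁻¹) = (n * n) * (n⁻¹ * b * n)⁻¹ * b⁻¹ := by group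
            _ = (a * b) * (n⁻¹ * b * n)⁻¹ * b⁻¹ := by rw [hab]
            _ = a * (b * (n⁻¹ * b * n)⁻¹) * b⁻¹ := by group
            _ = a * ((n⁻¹ * b * n)⁻¹ * b) * b⁻¹ := by rw [e7]
            _ = _ := by group
        rw [e6]
        rcases h7 with h7 | h7
        · -- n b n⁻¹ = a
          have e8 : n * b * n⁻¹ = a := inv_mul_eq_one.1 h7
          have e9 : n⁻¹ * b * n = a := by
            rw [e8] at e3
            have : n⁻¹ * b * n = a⁻¹ * (a * (n⁻¹ * b * n) * a⁻¹) * a := by group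
            rw [this, ← e3]; group
          rw [e9, mul_inv_cancel]; exact one_mem _
        · have e8 : a = (n * b * n⁻¹) * j := by rw [inv_mul_eq_iff_eq_mul] at h7; exact h7
          have e8' : n * b * n⁻¹ = a * j := by
            rw [e8, mul_assoc, mul_assoc, hjj, mul_one]
          have e9 : n⁻¹ * b * n = a * j := by
            rw [e8'] at e3
            have : n⁻¹ * b * n = a⁻¹ * (a * (n⁻¹ * b * n) * a⁻¹) * a := by group
            rw [this, ← e3, q1.cen a ha]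
            calc a⁻¹ * (j * a) * a = a⁻¹ * (a * j) * a := by rw [q1.cen a ha]
              _ = j * a := by group
          rw [e9]
          have : a * (a * j)⁻¹ = a * j⁻¹ * a⁻¹ := by group
          have hji : j⁻¹ = j := inv_eq_of_mul_eq_one_left hjj
          rw [this, hji, q1.cen a ha, mul_assoc, mul_inv_cancel, mul_one]
          exact Subgroup.mem_zpowers j
  · left
    exact ⟨Subgroup.eq_of_le_of_card_ge h1 (by rw [hcardM1]), Subgroup.eq_of_le_of_card_ge h2 (by rw [hcardM2])⟩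

end Cfsg.Agent.S3210
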