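import Cfsg.Statements.S3211
import Cfsg.Agent.LibH22J2
import Cfsg.Agent.LibZStar3

set_option autoImplicit false
open Cfsg

namespace Cfsg.Agent.S3211
lemma cent_core {G : Type*} [Group G] [Finite G] {j : G} (hj : orderOf j = 2) (h : Cfsg.IsIsolatedInvolution j) :
    Subgroup.centralizer ({j} : Set G) ⊔ Cfsg.oddCore G = ⊤ := by
  have hzs := CfsgLib.ZStar.zstar h
  have hodd : Odd (Nat.card (Cfsg.oddCore G)) := CfsgLib.ZStar.oddCore_odd
  have hjj : j * j = 1 := by have := pow_orderOf_eq_one j; rw [hj, pow_two] at this; exact this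
  have ha' : j⁻¹ = j := inv_eq_of_mul_eq_one_left hjj
  rw [eq_top_iff]
  intro g _
  -- w = j * (g j g⁻¹)
  have hw : j * (g * j * g⁻¹) ∈ Cfsg.oddCore G := by
    have := hzs g
    have e : j * (g * j * g⁻¹) = j * g * j⁻¹ * g⁻¹ := by rw [ha']; group
    rw [e]; exact this
  have hwo : Odd (orderOf (j * (g * j * g⁻¹))) := by
    have h1 : orderOf (j * (g * j * g⁻¹)) ∣ Nat.card (Cfsg.oddCore G) := by
      rw [← Subgroup.orderOf_mk _ hw]
      exact orderOf_dvd_natCard _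
    exact Odd.of_dvd_nat hodd h1
  obtain ⟨k, hk⟩ := hwo
  set b := g * j * g⁻¹ with hb
  have hb2 : b * b = 1 := by
    rw [hb]
    calc (g * j * g⁻¹) * (g * j * g⁻¹) = g * (j * j) * g⁻¹ := by group
      _ = 1 := by rw [hjj]; group
  have hb' : b⁻¹ = b := inv_eq_of_mul_eq_one_left hb2
  have hr : (j * b)⁻¹ = b * j := by rw [mul_inv_rev, ha', hb']
  have hinvj : ∀ i : ℕ, j * (j * b) ^ i * j⁻¹ = ((j * b) ^ i)⁻¹ := by
    intro i
    rw [← conj_pow, ← inv_pow, hr, ha', ← mul_assoc, hjj, one_mul]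
  have hconj : (j * b) ^ k * j * ((j * b) ^ k)⁻¹ = b := by
    have h1 := hinvj k
    have h2 : (j * b) ^ (2 * k + 1) = 1 := by rw [← hk]; exact pow_orderOf_eq_one _
    have h3 : j * ((j * b) ^ k)⁻¹ = (j * b) ^ k * j := by
      have h4 : j * (j * b) ^ k = ((j * b) ^ k)⁻¹ * j := by
        rw [mul_inv_eq_iff_eq_mul] at h1; exact h1
      calc j * ((j * b) ^ k)⁻¹ = (j * b) ^ k * (((j * b) ^ k)⁻¹ * j) * ((j * b) ^ k)⁻¹ := by group
        _ = (j * b) ^ k * (j * (j * b) ^ k) * ((j * b) ^ k)⁻¹ := by rw [h4]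
        _ = _ := by group
    rw [mul_assoc, h3, ← mul_assoc, ← pow_add, ← two_mul]
    have h5 : (j * b) ^ (2 * k) = (j * b)⁻¹ := by
      rw [eq_inv_iff_mul_eq_one, ← pow_succ, h2]
    rw [h5, hr, mul_assoc, hjj, mul_one]
  have hwk : (j * b) ^ k ∈ Cfsg.oddCore G := pow_mem hw k
  have hc : ((j * b) ^ k)⁻¹ * g ∈ Subgroup.centralizer ({j} : Set G) := by
    rw [Subgroup.mem_centralizer_singleton_iff]
    have e1 : (j * b) ^ k * j * ((j * b) ^ k)⁻¹ = g * j * g⁻¹ := hconj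
    calc ((j * b) ^ k)⁻¹ * g * j = ((j * b) ^ k)⁻¹ * (g * j * g⁻¹) * g := by group
      _ = ((j * b) ^ k)⁻¹ * ((j * b) ^ k * j * ((j * b) ^ k)⁻¹) * g := by rw [e1]
      _ = j * (((j * b) ^ k)⁻¹ * g) := by group
  have : g = (j * b) ^ k * (((j * b) ^ k)⁻¹ * g) := by group
  rw [this]
  exact mul_mem (Subgroup.mem_sup_right hwk) (Subgroup.mem_sup_left hc)

/-- Let G be a finite group with subgroups L₁ ≅ SL₂(q₁) and L₂ ≅ SL₂(q₂), q₁ and q₂ odd prime powers, which commute elementwise and meet in ⟨j⟩ for an involution j, and suppose L₁L₂ has index 2 in C_G(j). If some n ∈ C_G(j) with n² = j interchanges L₁ and L₂ under conjugation (so that C_G(j) = L₁L₂⟨n⟩), then G = C_G(j)O(G). -/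
theorem result {G : Type*} [Group G] [Finite G]
    {F₁ : Type*} [Field F₁] [Fintype F₁] {F₂ : Type*} [Field F₂] [Fintype F₂]
    (hF₁ : Odd (Fintype.card F₁)) (hF₂ : Odd (Fintype.card F₂)) (L₁ L₂ : Subgroup G)
    (e₁ : ↥L₁ ≃* Matrix.SpecialLinearGroup (Fin 2) F₁) (e₂ : ↥L₂ ≃* Matrix.SpecialLinearGroup (Fin 2) F₂)
    (hc : ∀ x ∈ L₁, ∀ y ∈ L₂, x * y = y * x) (j : G) (hj : orderOf j = 2) (hm : L₁ ⊓ L₂ = Subgroup.zpowers j)
    (hle : L₁ ⊔ L₂ ≤ Subgroup.centralizer ({j} : Set G)) (hi : (L₁ ⊔ L₂).relIndex (Subgroup.centralizer ({j} : Set G)) = 2) (n : G) (hn : n ∈ Subgroup.centralizer ({j} : Set G))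
    (hn2 : n ^ 2 = j) (hswap : L₁.map (MulAut.conj n).toMonoidHom = L₂) :
    Subgroup.centralizer ({j} : Set G) ⊔ Cfsg.oddCore G = ⊤ := by
  have hjm : j ∈ L₁ ⊓ L₂ := by rw [hm]; exact Subgroup.mem_zpowers j
  have q1 := CfsgLib.H22J.QS.of_equiv hF₁ e₁ hj hjm.1
  have q2 := CfsgLib.H22J.QS.of_equiv hF₂ e₂ hj hjm.2
  have hnn : n * n = j := by rw [← pow_two]; exact hn2
  have s1 : ∀ a ∈ L₁, n * a * n⁻¹ ∈ L₂ := by
    intro a ha
    rw [← hswap]
    exact ⟨a, ha, rfl⟩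
  have s2 : ∀ b ∈ L₂, n * b * n⁻¹ ∈ L₁ := by
    intro b hb
    rw [← hswap] at hb
    obtain ⟨a, ha, hab⟩ := hb
    have hab' : n * a * n⁻¹ = b := hab
    have : n * b * n⁻¹ = a := by
      rw [← hab']
      calc n * (n * a * n⁻¹) * n⁻¹ = (n * n) * a * (n * n)⁻¹ := by group
        _ = j * a * j⁻¹ := by rw [hnn]
        _ = a := by rw [← q1.cen a ha, mul_assoc, mul_inv_cancel, mul_one]
    rw [this]; exact ha
  have nL : n ∉ L₁ ⊔ L₂ := by
    intro h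
    obtain ⟨a, ha, b, hb, hab⟩ := (CfsgLib.H22J.mem_sup_comm hc).1 h
    obtain ⟨x, hx, hxx⟩ := q1.ex
    have h1 := s1 x hx
    have h2 : n * x * n⁻¹ = a * x * a⁻¹ := by
      rw [hab]
      have e := hc x hx b hb
      calc a * b * x * (a * b)⁻¹ = a * (b * x) * b⁻¹ * a⁻¹ := by group
        _ = a * (x * b) * b⁻¹ * a⁻¹ := by rw [e]
        _ = _ := by group
    have h3 : n * x * n⁻¹ ∈ L₁ := by rw [h2]; exact mul_mem (mul_mem ha hx) (inv_mem ha)
    have h4 : (n * x * n⁻¹) * (n * x * n⁻¹) = 1 := by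
      rcases CfsgLib.H22J.inter q1.jj hm h3 h1 with h | h
      · rw [h, mul_one]
      · rw [h]; exact q1.jj
    have h5 : x * x = 1 := by
      calc x * x = n⁻¹ * ((n * x * n⁻¹) * (n * x * n⁻¹)) * n := by group
        _ = 1 := by rw [h4]; group
    rw [hxx] at h5
    exact q1.j1 h5
  have hC : ∀ g : G, g * j = j * g → g ∈ L₁ ⊔ L₂ ∨ n⁻¹ * g ∈ L₁ ⊔ L₂ := by
    intro g hg
    by_cases hgL : g ∈ L₁ ⊔ L₂
    · left; exact hgL
    · right
      rw [Subgroup.relIndex] at hi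
      have hgC : g ∈ Subgroup.centralizer ({j} : Set G) := Subgroup.mem_centralizer_singleton_iff.2 hg
      have h1 := (Subgroup.mul_mem_iff_of_index_two hi (a := (⟨n, hn⟩ : ↥(Subgroup.centralizer ({j} : Set G)))⁻¹) (b := ⟨g, hgC⟩))
      have h2 : (⟨n, hn⟩ : ↥(Subgroup.centralizer ({j} : Set G)))⁻¹ ∉ (L₁ ⊔ L₂).subgroupOf (Subgroup.centralizer ({j} : Set G)) := by
        rw [inv_mem_iff, Subgroup.mem_subgroupOf]; exact nL
      have h3 : (⟨g, hgC⟩ : ↥(Subgroup.centralizer ({j} : Set G))) ∉ (L₁ ⊔ L₂).subgroupOf (Subgroup.centralizer ({j} : Set G)) := by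
        rw [Subgroup.mem_subgroupOf]; exact hgL
      have h4 := h1.2 ⟨fun h => absurd h h2, fun h => absurd h h3⟩
      rw [Subgroup.mem_subgroupOf] at h4
      exact h4
  have sw : CfsgLib.H22J.SW L₁ L₂ j n := ⟨q1, q2, hc, hm, hC, hnn, s1, s2, nL⟩
  apply cent_core hj
  refine ⟨hj, fun g hg => ?_⟩
  by_contra hne
  obtain ⟨x, hx, hxx, m, hm1, hm2⟩ := sw.exists_m hg hne
  exact sw.no_m hx hxx hm1 hm2

end Cfsg.Agent.S3211
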