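import Cfsg.Statements.S3213
import Cfsg.Agent.EqBase

set_option autoImplicit false
open Cfsg

namespace Cfsg.Agent.S3213
open Matrix

theorem dec5 : ∀ a b c : ZMod 5, a * (-1 - a) - b * c = 1 →
    ∃ p q r : ZMod 5, -(p*p) - q*r = 1 ∧ p*(a - (-1 - a)) + q*c + r*b = 0 := by decide

theorem exists_pqr {K : Type*} [Field K] [Fintype K] (hK : Fintype.card K = 5) (a b c : K)
    (h : a * (-1 - a) - b * c = 1) :
    ∃ p q r : K, -(p*p) - q*r = 1 ∧ p*(a - (-1 - a)) + q*c + r*b = 0 := by
  let e := ZMod.ringEquivOfPrime K (by norm_num : Nat.Prime 5) hK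
  obtain ⟨p, q, r, h1, h2⟩ := dec5 (e.symm a) (e.symm b) (e.symm c) (by
    apply e.injective
    simpa using h)
  refine ⟨e p, e q, e r, ?_, ?_⟩
  · have := congrArg e h1
    simpa using this
  · have := congrArg e h2
    simpa using this

theorem exists_y {K : Type*} [Field K] [Fintype K] (hK : Fintype.card K = 5)
    (x : Matrix.SpecialLinearGroup (Fin 2) K) (hx : orderOf x = 3) :
    ∃ y : Matrix.SpecialLinearGroup (Fin 2) K, y * y = -1 ∧ x * y * x = y := by
  have hx3 : x * x * x = 1 := by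
    have := pow_orderOf_eq_one x
    rw [hx] at this
    rw [← this, pow_succ, pow_two]
  have hxne : x ≠ 1 := by rintro rfl; rw [orderOf_one] at hx; omega
  have hx2 : x * x ≠ 1 := by
    intro h
    rw [h, one_mul] at hx3
    exact hxne hx3
  obtain ⟨a, ha⟩ : ∃ a, a = x.1 0 0 := ⟨_, rfl⟩
  obtain ⟨b, hb⟩ : ∃ a, a = x.1 0 1 := ⟨_, rfl⟩
  obtain ⟨c, hc⟩ : ∃ a, a = x.1 1 0 := ⟨_, rfl⟩
  obtain ⟨d, hd⟩ : ∃ a, a = x.1 1 1 := ⟨_, rfl⟩
  have hxm : x.1 = !![a, b; c, d] := by
    rw [ha, hb, hc, hd]; exact Matrix.eta_fin_two _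
  have hdet : a * d - b * c = 1 := by
    have := x.2
    rw [hxm, Matrix.det_fin_two_of] at this
    exact this
  have h3 : (!![a, b; c, d] * !![a, b; c, d]) * !![a, b; c, d] = (1 : Matrix (Fin 2) (Fin 2) K) := by
    have := congrArg Subtype.val hx3
    rw [← hxm]
    exact this
  rw [Matrix.mul_fin_two, Matrix.mul_fin_two, Matrix.one_fin_two] at h3
  have e00 := congrFun (congrFun h3 0) 0
  have e01 := congrFun (congrFun h3 0) 1
  have e10 := congrFun (congrFun h3 1) 0
  have e11 := congrFun (congrFun h3 1) 1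
  simp only [Matrix.of_apply, Matrix.cons_val', Matrix.cons_val_zero, Matrix.cons_val_one, Matrix.cons_val_fin_one] at e00 e01 e10 e11
  have ht : a + d = -1 := by
    by_contra hne
    have hne' : a + d + 1 ≠ 0 := fun h => hne (by linear_combination h)
    have k1 : (a + d + 1) * ((a + d - 1) * b) = 0 := by linear_combination e01 + b * hdet
    have k2 : (a + d + 1) * ((a + d - 1) * c) = 0 := by linear_combination e10 + c * hdet
    have k3 : (a + d + 1) * ((a + d - 1) * a - 1) = 0 := by linear_combination e00 + (2 * a + d) * hdet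
    have k4 : (a + d + 1) * ((a + d - 1) * d - 1) = 0 := by linear_combination e11 + (2 * d + a) * hdet
    replace k1 := (mul_eq_zero.mp k1).resolve_left hne'
    replace k2 := (mul_eq_zero.mp k2).resolve_left hne'
    replace k3 := (mul_eq_zero.mp k3).resolve_left hne'
    replace k4 := (mul_eq_zero.mp k4).resolve_left hne'
    have k5 : a + d - 1 ≠ 0 := by
      intro h
      rw [h] at k3
      simp at k3
    have hb0 : b = 0 := (mul_eq_zero.mp k1).resolve_left k5
    have hc0 : c = 0 := (mul_eq_zero.mp k2).resolve_left k5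
    have had : a = d := by
      apply mul_left_cancel₀ k5
      linear_combination k3 - k4
    apply hx2
    apply Subtype.ext
    show x.1 * x.1 = 1
    rw [hxm, hb0, hc0, ← had]
    rw [hb0, ← had] at hdet
    ext i j
    fin_cases i <;> fin_cases j <;> simp
    · linear_combination hdet
    · linear_combination hdet
  have hd2 : d = -1 - a := by linear_combination ht
  obtain ⟨p, q, r, h1, h2⟩ := exists_pqr hK a b c (by rw [← hd2]; exact hdet)
  rw [← hd2] at h2
  refine ⟨⟨!![p, q; r, -p], by rw [Matrix.det_fin_two_of]; linear_combination h1⟩, ?_, ?_⟩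
  · apply Subtype.ext
    show !![p, q; r, -p] * !![p, q; r, -p] = -(1 : Matrix (Fin 2) (Fin 2) K)
    ext i j
    fin_cases i <;> fin_cases j <;> simp
    · linear_combination -h1
    · ring
    · ring
    · linear_combination -h1
  · apply Subtype.ext
    show x.1 * !![p, q; r, -p] * x.1 = !![p, q; r, -p]
    rw [hxm, Matrix.mul_fin_two, Matrix.mul_fin_two]
    ext i j
    fin_cases i <;> fin_cases j <;> simp
    · linear_combination a * h2 + p * hdet
    · linear_combination b * h2 + q * hdet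
    · linear_combination c * h2 + r * hdet
    · linear_combination d * h2 - p * hdet

theorem sq_ne {F : Type*} [Field F] [Fintype F] (hF : Fintype.card F = 3) (t : F) : t * t ≠ -1 := by
  have h : ∀ t : ZMod 3, t * t ≠ -1 := by decide
  let e := ZMod.ringEquivOfPrime F (by norm_num : Nat.Prime 3) hF
  intro h1
  apply h (e.symm t)
  apply e.injective
  simpa using h1

theorem three_eq {F : Type*} [Field F] [Fintype F] (hF : Fintype.card F = 3) : (3 : F) = 0 := by
  let e := ZMod.ringEquivOfPrime F (by norm_num : Nat.Prime 3) hF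
  have h : (1 : ZMod 3) + 1 + 1 = 0 := by decide
  have := congrArg e h
  rw [map_add, map_add, map_one, map_zero] at this
  linear_combination this

open Module in
theorem even_of_sq {F V : Type*} [Field F] [AddCommGroup V] [Module F V] [FiniteDimensional F V]
    (hF : ∀ t : F, t * t ≠ -1) (g : V →ₗ[F] V) (S : Submodule F V) (hg : ∀ v, g (g v) = -v)
    (hS : ∀ v ∈ S, g v ∈ S) : Even (finrank F S) := by
  by_contra hodd
  rw [Nat.not_even_iff_odd] at hodd
  set T := g.restrict hS with hT
  have h1 : T ∘ₗ T = (-1 : F) • LinearMap.id := by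
    ext ⟨v, hv⟩
    simp [hT, hg]
  have h2 := congrArg LinearMap.det h1
  rw [LinearMap.det_comp, LinearMap.det_smul, LinearMap.det_id, mul_one, hodd.neg_one_pow] at h2
  exact hF _ h2

theorem not_dvd_prod (d : ℕ) (hd : d ≤ 3) : ¬ 5 ∣ ∏ i : (Fin d), (3 ^ d - 3 ^ (i : ℕ)) := by
  interval_cases d
  · simp
  · simp
  · simp [Fin.prod_univ_succ]
  · simp [Fin.prod_univ_succ]

open Module in
theorem five_eq_one {F V : Type*} [Field F] [Fintype F] [AddCommGroup V] [Module F V] [FiniteDimensional F V]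
    (hF : Fintype.card F = 3) (hd : finrank F V ≤ 3) (T : V →ₗ[F] V) (hT : T ^ 5 = 1) : T = 1 := by
  classical
  set d := finrank F V with hdd
  let b := Module.finBasis F V
  let e : (V →ₗ[F] V) ≃ₐ[F] Matrix (Fin d) (Fin d) F := LinearMap.toMatrixAlgEquiv b
  have hu : ∃ u : GL (Fin d) F, (u : Matrix (Fin d) (Fin d) F) = e T := by
    refine ⟨⟨e T, e (T ^ 4), ?_, ?_⟩, rfl⟩
    · rw [← map_mul, ← pow_succ', hT, map_one]
    · rw [← map_mul, ← pow_succ, hT, map_one]
  obtain ⟨u, hu⟩ := hu
  have h5 : u ^ 5 = 1 := by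
    apply Units.ext
    rw [Units.val_pow_eq_pow_val, hu, ← map_pow, hT, map_one, Units.val_one]
  have h6 : orderOf u ∣ 5 := orderOf_dvd_of_pow_eq_one h5
  have h7 : orderOf u = 1 := by
    rcases (Nat.dvd_prime (by norm_num : Nat.Prime 5)).mp h6 with h | h
    · exact h
    · exfalso
      have h8 : 5 ∣ Nat.card (GL (Fin d) F) := h ▸ orderOf_dvd_natCard u
      rw [Matrix.card_GL_field, hF] at h8
      exact not_dvd_prod d hd h8
  rw [orderOf_eq_one_iff] at h7
  rw [h7, Units.val_one] at hu
  apply e.injective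
  rw [← hu, map_one]

open Module in
theorem fix_of {F V : Type*} [Field F] [Fintype F] [AddCommGroup V] [Module F V] [FiniteDimensional F V]
    (hF : Fintype.card F = 3) (f : V →ₗ[F] V) (hf : ∀ v, f (f (f (f (f v)))) = v) (S : Submodule F V)
    (hS : ∀ v ∈ S, f v ∈ S) (hd : finrank F S ≤ 3) (v : V) (hv : v ∈ S) : f v = v := by
  have h1 : f.restrict hS = 1 := by
    apply five_eq_one hF hd
    ext ⟨w, hw⟩
    simp only [pow_succ, pow_zero, one_mul, Module.End.mul_apply, LinearMap.restrict_apply, Module.End.one_apply]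
    exact hf w
  have h2 := LinearMap.congr_fun h1 ⟨v, hv⟩
  exact congrArg Subtype.val h2

theorem mat_one_of {F ι : Type*} [Field F] [Fintype ι] [DecidableEq ι] (B : Matrix ι ι F)
    (h : ∀ v, B *ᵥ v = v) : B = 1 := by
  apply Matrix.toLin'.injective
  apply LinearMap.ext
  intro v
  rw [Matrix.toLin'_apply, h, Matrix.toLin'_one, LinearMap.id_apply]

/-- Let F be the field with 3 elements and K the field with 5 elements. For every injective homomorphism φ from SL₂(K) into the symplectic group Sp₄(F) (4 × 4 matrices g with g J gᵀ = J for the standard alternating matrix J) and every element x of order 3 of SL₂(K), the vectors of F⁴ fixed by φ(x) form a 2-dimensional subspace that is totally isotropic for the alternating form defined by J. -/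
theorem result {F : Type*} [Field F] [Fintype F] (hF : Fintype.card F = 3)
    {K : Type*} [Field K] [Fintype K] (hK : Fintype.card K = 5)
    (φ : Matrix.SpecialLinearGroup (Fin 2) K →* ↥(Matrix.symplecticGroup (Fin 2) F)) (hφ : Function.Injective φ)
    (x : Matrix.SpecialLinearGroup (Fin 2) K) (hx : orderOf x = 3) :
    Module.finrank F ↥(LinearMap.ker (Matrix.toLin' ((φ x : Matrix (Fin 2 ⊕ Fin 2) (Fin 2 ⊕ Fin 2) F)) - LinearMap.id)) = 2 ∧
      ∀ v w : Fin 2 ⊕ Fin 2 → F, (φ x : Matrix (Fin 2 ⊕ Fin 2) (Fin 2 ⊕ Fin 2) F).mulVec v = v →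
        (φ x : Matrix (Fin 2 ⊕ Fin 2) (Fin 2 ⊕ Fin 2) F).mulVec w = w →
          dotProduct v ((Matrix.J (Fin 2) F).mulVec w) = 0 := by
  classical
  obtain ⟨y, hy1, hy2⟩ := exists_y hK x hx
  have hsq := sq_ne hF
  have h30 := three_eq hF
  set M := fun s : Matrix.SpecialLinearGroup (Fin 2) K => ((φ s : symplecticGroup (Fin 2) F) : Matrix (Fin 2 ⊕ Fin 2) (Fin 2 ⊕ Fin 2) F) with hM
  have hMmul : ∀ s t, M (s * t) = M s * M t := by
    intro s t; simp only [hM]; rw [map_mul]; rfl
  have hM1 : M 1 = 1 := by simp only [hM]; rw [map_one]; rfl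
  have hMinj : Function.Injective M := fun s t h => hφ (Subtype.ext h)
  -- the involution acts as -1
  have hneg : ∀ v : Fin 2 ⊕ Fin 2 → F, (M (-1)) *ᵥ v = -v := by
    have h5 : (5 : K) = 0 := by
      have := Nat.cast_card_eq_zero K
      rw [hK] at this
      exact_mod_cast this
    have h2K : (2 : K) ≠ 0 := by
      intro h
      have : (1 : K) = 0 := by linear_combination h5 - 2 * h
      exact one_ne_zero this
    let g : Matrix.SpecialLinearGroup (Fin 2) K := ⟨!![1, 1; 0, 1], by rw [Matrix.det_fin_two_of]; ring⟩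
    have hg5 : g * g * g * g * g = 1 := by
      apply Subtype.ext
      show !![1, 1; 0, 1] * !![1, 1; 0, 1] * !![1, 1; 0, 1] * !![1, 1; 0, 1] * !![1, 1; 0, 1] = (1 : Matrix (Fin 2) (Fin 2) K)
      rw [Matrix.mul_fin_two, Matrix.mul_fin_two, Matrix.mul_fin_two, Matrix.mul_fin_two, Matrix.one_fin_two]
      ext i j
      fin_cases i <;> fin_cases j <;> simp
      linear_combination h5
    have hg1 : g ≠ 1 := by
      intro h
      have := congrArg (fun s : Matrix.SpecialLinearGroup (Fin 2) K => s.1 0 1) h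
      simp [g] at this
    have hn1 : (-1 : Matrix.SpecialLinearGroup (Fin 2) K) ≠ 1 := by
      intro h
      have := congrArg (fun s : Matrix.SpecialLinearGroup (Fin 2) K => s.1 0 0) h
      simp at this
      apply h2K
      linear_combination -this
    set A := M g with hA
    set Z := M (-1) with hZ
    have hAZ : A * Z = Z * A := by rw [hA, hZ, ← hMmul, ← hMmul]; congr 1; simp
    have hZZ : Z * Z = 1 := by rw [hZ, ← hMmul, ← hM1]; congr 1; simp
    have hA5 : A * A * A * A * A = 1 := by rw [hA, ← hMmul, ← hMmul, ← hMmul, ← hMmul, hg5, hM1]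
    set f := Matrix.toLin' A with hf
    have hf5 : ∀ v, f (f (f (f (f v)))) = v := by
      intro v
      simp only [hf, Matrix.toLin'_apply, Matrix.mulVec_mulVec]
      rw [← mul_assoc, ← mul_assoc, ← mul_assoc, hA5, Matrix.one_mulVec]
    set E1 := LinearMap.ker (Matrix.toLin' Z - LinearMap.id) with hE1
    set E2 := LinearMap.ker (Matrix.toLin' Z + LinearMap.id) with hE2
    have m1 : ∀ v, v ∈ E1 ↔ Z *ᵥ v = v := by
      intro v
      rw [hE1, LinearMap.mem_ker, LinearMap.sub_apply, Matrix.toLin'_apply, LinearMap.id_apply, sub_eq_zero]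
    have m2 : ∀ v, v ∈ E2 ↔ Z *ᵥ v = -v := by
      intro v
      rw [hE2, LinearMap.mem_ker, LinearMap.add_apply, Matrix.toLin'_apply, LinearMap.id_apply, add_eq_zero_iff_eq_neg]
    have hZZv : ∀ v, Z *ᵥ (Z *ᵥ v) = v := by
      intro v; rw [Matrix.mulVec_mulVec, hZZ, Matrix.one_mulVec]
    have hAZv : ∀ v, Z *ᵥ (A *ᵥ v) = A *ᵥ (Z *ᵥ v) := by
      intro v; rw [Matrix.mulVec_mulVec, Matrix.mulVec_mulVec, hAZ]
    have i1 : ∀ v ∈ E1, f v ∈ E1 := by
      intro v hv
      rw [m1] at hv ⊢
      rw [hf, Matrix.toLin'_apply, hAZv, hv]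
    have i2 : ∀ v ∈ E2, f v ∈ E2 := by
      intro v hv
      rw [m2] at hv ⊢
      rw [hf, Matrix.toLin'_apply, hAZv, hv, Matrix.mulVec_neg]
    have hdec : ∀ v : Fin 2 ⊕ Fin 2 → F, v = -(v + Z *ᵥ v) + -(v - Z *ᵥ v) := by
      intro v
      have : (3 : F) • v = 0 := by rw [h30, zero_smul]
      have h' : v - (-(v + Z *ᵥ v) + -(v - Z *ᵥ v)) = (3 : F) • v := by module
      rw [this] at h'
      exact sub_eq_zero.mp h'
    have d1 : ∀ v, -(v + Z *ᵥ v) ∈ E1 := by
      intro v
      rw [m1, Matrix.mulVec_neg, Matrix.mulVec_add, hZZv, add_comm]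
    have d2 : ∀ v, -(v - Z *ᵥ v) ∈ E2 := by
      intro v
      rw [m2, Matrix.mulVec_neg, Matrix.mulVec_sub, hZZv]
      module
    by_cases c1 : Module.finrank F E1 ≤ 3
    · by_cases c2 : Module.finrank F E2 ≤ 3
      · exfalso
        apply hg1
        apply hMinj
        rw [hM1, ← hA]
        have hAv : ∀ v, A *ᵥ v = v := by
          intro v
          have k1 := fix_of hF f hf5 E1 i1 c1 _ (d1 v)
          have k2 := fix_of hF f hf5 E2 i2 c2 _ (d2 v)
          rw [hf, Matrix.toLin'_apply] at k1 k2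
          conv_lhs => rw [hdec v]
          rw [Matrix.mulVec_add, k1, k2, ← hdec v]
        exact mat_one_of A hAv
      · have h4 : Module.finrank F (Fin 2 ⊕ Fin 2 → F) = 4 := by simp
        have h5' : E2 = ⊤ := by
          apply Submodule.eq_top_of_finrank_eq
          have := Submodule.finrank_le E2
          omega
        intro v
        rw [← m2, h5']
        trivial
    · exfalso
      have h4 : Module.finrank F (Fin 2 ⊕ Fin 2 → F) = 4 := by simp
      have h5' : E1 = ⊤ := by
        apply Submodule.eq_top_of_finrank_eq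
        have := Submodule.finrank_le E1
        omega
      apply hn1
      apply hMinj
      rw [hM1, ← hZ]
      have hZv : ∀ v, Z *ᵥ v = v := by
        intro v
        rw [← m1, h5']
        trivial
      exact mat_one_of Z hZv
  set X := M x with hX
  set Y := M y with hY
  have hYY : ∀ v, Y *ᵥ (Y *ᵥ v) = -v := by
    intro v
    rw [Matrix.mulVec_mulVec, hY, ← hMmul, hy1, hneg]
  have hXYX : ∀ v, X *ᵥ (Y *ᵥ (X *ᵥ v)) = Y *ᵥ v := by
    intro v
    rw [Matrix.mulVec_mulVec, Matrix.mulVec_mulVec, hX, hY, ← hMmul, ← hMmul, hy2]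
  have hX3 : ∀ v, X *ᵥ (X *ᵥ (X *ᵥ v)) = v := by
    intro v
    have : x * x * x = 1 := by
      have := pow_orderOf_eq_one x
      rw [hx] at this
      rw [← this, pow_succ, pow_two]
    rw [Matrix.mulVec_mulVec, Matrix.mulVec_mulVec, hX, ← hMmul, ← hMmul, this, hM1, Matrix.one_mulVec]
  have hXsym : ∀ v w : Fin 2 ⊕ Fin 2 → F, dotProduct (X *ᵥ v) ((Matrix.J (Fin 2) F) *ᵥ (X *ᵥ w)) = dotProduct v ((Matrix.J (Fin 2) F) *ᵥ w) := by
    intro v w
    have h1 := SymplecticGroup.mem_iff'.mp (φ x).2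
    have h2 : Xᵀ * Matrix.J (Fin 2) F * X = Matrix.J (Fin 2) F := h1
    conv_rhs => rw [← h2]
    rw [← Matrix.mulVec_mulVec, ← Matrix.mulVec_mulVec, Matrix.dotProduct_mulVec v Xᵀ, Matrix.vecMul_transpose]
  have hXne : X ≠ 1 := by
    intro h
    have : x = 1 := hMinj (by rw [hM1]; exact h)
    rw [this, orderOf_one] at hx
    omega
  set f := Matrix.toLin' X with hf
  set g := Matrix.toLin' Y with hg
  set u := f - LinearMap.id with hu
  have huv : ∀ v, u v = X *ᵥ v - v := by
    intro v; rw [hu, LinearMap.sub_apply, hf, Matrix.toLin'_apply, LinearMap.id_apply]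
  set W := LinearMap.ker u with hW
  have hWm : ∀ v, v ∈ W ↔ X *ᵥ v = v := by
    intro v; rw [hW, LinearMap.mem_ker, huv, sub_eq_zero]
  have hgg : ∀ v, g (g v) = -v := by
    intro v; rw [hg, Matrix.toLin'_apply, Matrix.toLin'_apply, hYY]
  have hu3 : ∀ v, u (u (u v)) = 0 := by
    intro v
    have h1 : u (u (u v)) = (X *ᵥ (X *ᵥ (X *ᵥ v)) - v) - (3 : F) • (X *ᵥ (X *ᵥ v) - X *ᵥ v) := by
      rw [huv, huv, huv, Matrix.mulVec_sub, Matrix.mulVec_sub, Matrix.mulVec_sub]
      module
    rw [h1, hX3, h30, zero_smul, sub_self, sub_self]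
  have h4 : Module.finrank F (Fin 2 ⊕ Fin 2 → F) = 4 := by simp
  have hrn : Module.finrank F (LinearMap.range u) + Module.finrank F W = 4 := by
    rw [← h4]; exact LinearMap.finrank_range_add_finrank_ker u
  -- W is Y-invariant
  have hXinvY : ∀ v, Y *ᵥ (X *ᵥ v) = X *ᵥ (X *ᵥ (Y *ᵥ v)) := by
    intro v
    rw [← hXYX v, hX3]
  have hWY : ∀ v ∈ W, g v ∈ W := by
    intro v hv
    rw [hWm] at hv ⊢
    rw [hg, Matrix.toLin'_apply]
    conv_lhs => rw [← hv]
    exact hXYX v
  have hWe := even_of_sq hsq g W hgg hWY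
  have hW4 : Module.finrank F W ≠ 4 := by
    intro h
    have : W = ⊤ := Submodule.eq_top_of_finrank_eq (by rw [h, h4])
    apply hXne
    apply mat_one_of
    intro v
    rw [← hWm, this]
    trivial
  have hW0 : Module.finrank F W ≠ 0 := by
    intro h
    have hbot : W = ⊥ := Submodule.finrank_eq_zero.mp h
    have hinj : ∀ v, u v = 0 → v = 0 := by
      intro v hv
      have : v ∈ W := hv
      rw [hbot] at this
      exact this
    apply hXne
    apply mat_one_of
    intro v
    have := hinj _ (hinj _ (hinj _ (hu3 v)))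
    rw [this, Matrix.mulVec_zero]
  have hW2 : Module.finrank F W = 2 := by
    obtain ⟨k, hk⟩ := hWe
    omega
  refine ⟨hW2, ?_⟩
  -- range of u^2
  set R := LinearMap.range (u ∘ₗ u) with hR
  have hRY : ∀ v ∈ R, g v ∈ R := by
    rintro _ ⟨v, rfl⟩
    refine ⟨X *ᵥ (Y *ᵥ v), ?_⟩
    rw [LinearMap.comp_apply, LinearMap.comp_apply, hg, Matrix.toLin'_apply, huv, huv, huv, huv]
    simp only [Matrix.mulVec_sub, hXinvY, hX3]
    module
  have hRe := even_of_sq hsq g R hgg hRY
  have hRW : R ≤ W := by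
    rintro _ ⟨v, rfl⟩
    exact hu3 v
  have hRu : R ≤ LinearMap.range u := by
    rintro _ ⟨v, rfl⟩
    exact ⟨u v, rfl⟩
  have huu : ∀ v, u (u v) = 0 := by
    by_cases hR2 : Module.finrank F R = 2
    · have e1 : R = W := Submodule.eq_of_le_of_finrank_eq hRW (by rw [hR2, hW2])
      have e2 : R = LinearMap.range u := Submodule.eq_of_le_of_finrank_eq hRu (by omega)
      intro v
      have : u v ∈ W := by rw [← e1, e2]; exact ⟨v, rfl⟩
      exact this
    · have hR0 : Module.finrank F R = 0 := by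
        have := Submodule.finrank_mono hRW
        obtain ⟨k, hk⟩ := hRe
        omega
      have hbot : R = ⊥ := Submodule.finrank_eq_zero.mp hR0
      intro v
      have : u (u v) ∈ R := ⟨v, rfl⟩
      rw [hbot] at this
      exact this
  have hWu : LinearMap.range u = W := by
    apply Submodule.eq_of_le_of_finrank_eq
    · rintro _ ⟨v, rfl⟩
      exact huu v
    · omega
  intro v w hv hw
  have hw' : w ∈ LinearMap.range u := by rw [hWu, hWm]; exact hw
  obtain ⟨t, rfl⟩ := hw'
  rw [huv, Matrix.mulVec_sub, dotProduct_sub, ← hXsym v t]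
  have hv' : X *ᵥ v = v := hv
  rw [hv', sub_self]

end Cfsg.Agent.S3213
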