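import Cfsg.Statements.S3215
import Mathlib
import Cfsg.Agent.LibFPF2
import Cfsg.Agent.LibPQ2
import Cfsg.Agent.LibLE13
import Cfsg.Agent.LibH2Lift
import Cfsg.Agent.LibSolvMin

set_option autoImplicit false
open Cfsg

namespace Cfsg.Agent.S3215

open Subgroup Cfsg CfsgLib.FPF1
open scoped commutatorElement

theorem odd_pow {H : Type*} [Group H] [Finite H] {x : H} (hx : Odd (orderOf x)) {k : ℕ} {N : Subgroup H} (h : x ^ (2 ^ k) ∈ N) : x ∈ N := by
  have h1 : x ∈ Subgroup.zpowers (x ^ (2 ^ k)) := by
    rw [mem_zpowers_pow_iff]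
    have : Nat.Coprime (2 ^ k) (orderOf x) := Nat.Coprime.pow_left k (Nat.coprime_two_left.2 hx)
    exact this
  exact (Subgroup.zpowers_le.2 h) h1

theorem odd_of_two_group {H : Type*} [Group H] [Finite H] {Y : Subgroup H} (hY : IsPGroup 2 Y) {x : H} (hxY : x ∈ Y) (hx : Odd (orderOf x)) : x = 1 := by
  obtain ⟨k, hk⟩ := hY ⟨x, hxY⟩
  have h1 : x ^ (2 ^ k) ∈ (⊥ : Subgroup H) := by
    rw [mem_bot]; exact congrArg Subtype.val hk
  exact (mem_bot.1 (odd_pow hx h1))

theorem odd_comm_inv {H : Type*} [Group H] [Finite H] (hC : centralizer (pCore 2 H : Set H) ≤ pCore 2 H)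
    (hI : ∀ t : H, orderOf t = 2 → HasNormalPComplement 2 ↥(centralizer ({t} : Set H)))
    {t x : H} (ht : orderOf t = 2) (hx : Odd (orderOf x)) (hxt : x * t = t * x) : x = 1 := by
  haveI : Fact (Nat.Prime 2) := ⟨Nat.prime_two⟩
  have hYp : IsPGroup 2 (pCore 2 H) := CfsgLib.Cores.pCore_isPGroup 2
  obtain ⟨P, N, hN, hcomp⟩ := hI t ht
  have hxC : x ∈ centralizer ({t} : Set H) := by
    rw [mem_centralizer_singleton_iff]; exact hxt
  have hidx : N.index = Nat.card P := hcomp.symm.index_eq_card
  have hPidx : (P : Subgroup (centralizer ({t} : Set H))).index = Nat.card N := hcomp.index_eq_card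
  obtain ⟨k, hk⟩ := IsPGroup.iff_card.1 P.isPGroup'
  have hxN : (⟨x, hxC⟩ : centralizer ({t} : Set H)) ∈ N := by
    have h1 := N.pow_index_mem (⟨x, hxC⟩ : centralizer ({t} : Set H))
    have h2 : N.index = 2 ^ k := hidx.trans hk
    rw [h2] at h1
    exact odd_pow (by rw [Subgroup.orderOf_mk]; exact hx) h1
  have hNodd : (Nat.card N).Coprime 2 := by
    rw [← hPidx]
    exact (Nat.Coprime.symm ((Nat.Prime.coprime_iff_not_dvd Nat.prime_two).2 P.not_dvd_index))
  haveI hDn : ((pCore 2 H).subgroupOf (centralizer ({t} : Set H))).Normal := by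
    haveI : (pCore 2 H).Normal := inferInstance
    infer_instance
  have hDp : IsPGroup 2 ((pCore 2 H).subgroupOf (centralizer ({t} : Set H))) := hYp.comap_of_injective _ (subtype_injective _)
  have hbot : (pCore 2 H).subgroupOf (centralizer ({t} : Set H)) ⊓ N = ⊥ := CfsgLib.H2Lift.inf_eq_bot_of_isPGroup hDp hNodd
  have hxY : x ∈ centralizer (pCore 2 H : Set H) := by
    refine CfsgLib.LE.mem_centralizer_of_AxB (X := zpowers t) (R := pCore 2 H) ?_ hYp ?_ ?_ ?_ ?_ ?_
    · rw [IsPGroup.iff_card]; exact ⟨1, by rw [Nat.card_zpowers, ht, pow_one]⟩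
    · rw [normalizer_eq_top]; exact le_top
    · rw [normalizer_eq_top]; exact mem_top _
    · exact (Nat.coprime_two_left.2 hx).symm
    · rw [mem_centralizer_iff]
      rintro _ ⟨i, rfl⟩
      exact ((show Commute t x from hxt.symm).zpow_left i)
    · rw [mem_centralizer_iff]
      intro y hy
      have hy1 : y ∈ centralizer ({t} : Set H) := by
        rw [mem_centralizer_singleton_iff]
        exact (mem_centralizer_iff.1 hy.2 t (mem_zpowers t)).symm
      have h1 : ⁅(⟨y, hy1⟩ : centralizer ({t} : Set H)), ⟨x, hxC⟩⁆ ∈ (pCore 2 H).subgroupOf (centralizer ({t} : Set H)) ⊓ N :=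
        commutator_le_inf _ _ (commutator_mem_commutator hy.1 hxN)
      rw [hbot, mem_bot, commutatorElement_eq_one_iff_mul_comm] at h1
      exact congrArg Subtype.val h1
  exact odd_of_two_group hYp (hC hxY) hx

theorem exists_invol {H : Type*} [Group H] [Finite H] {y : H} (h : Even (orderOf y)) : ∃ t ∈ zpowers y, orderOf t = 2 := by
  obtain ⟨m, hm⟩ := even_iff_two_dvd.1 h
  refine ⟨y ^ m, pow_mem (mem_zpowers y) m, ?_⟩
  have hpos := orderOf_pos y
  rw [orderOf_pow' y (by rintro rfl; omega), hm]
  have hm0 : 0 < m := by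
    rcases Nat.eq_zero_or_pos m with h | h
    · rw [h] at hm; omega
    · exact h
  rw [Nat.gcd_eq_right (Dvd.intro_left 2 rfl)]
  exact Nat.mul_div_cancel 2 hm0

theorem card_rel' {G : Type*} [Group G] [Finite G] {H K : Subgroup G} (h : H ≤ K) : Nat.card H * H.relIndex K = Nat.card K := by
  rw [Subgroup.relIndex, ← Subgroup.card_mul_index (H.subgroupOf K), Nat.card_congr (Subgroup.subgroupOfEquivOfLe h).toEquiv]

theorem relIndex_dvd_of_normal' {G : Type*} [Group G] [Finite G] (K L : Subgroup G) [K.Normal] : L.relIndex K ∣ L.index := by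
  have h1 := card_rel' (le_sup_left : K ≤ K ⊔ L)
  rw [Subgroup.relIndex_sup_left] at h1
  have h2 := card_rel' (inf_le_right : K ⊓ L ≤ L)
  rw [Subgroup.inf_relIndex_right] at h2
  have h3 := card_rel' (le_sup_right : L ≤ K ⊔ L)
  have h4 := card_rel' (inf_le_left : K ⊓ L ≤ K)
  rw [Subgroup.inf_relIndex_left] at h4
  have hp1 : 0 < Nat.card L := Nat.card_pos
  have hp2 : 0 < Nat.card (K ⊓ L : Subgroup G) := Nat.card_pos
  have h5 : L.relIndex (K ⊔ L) = L.relIndex K := by
    have h6 : (Nat.card L * Nat.card (K ⊓ L : Subgroup G)) * L.relIndex (K ⊔ L) = (Nat.card L * Nat.card (K ⊓ L : Subgroup G)) * L.relIndex K := by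
      calc (Nat.card L * Nat.card (K ⊓ L : Subgroup G)) * L.relIndex (K ⊔ L) = (Nat.card L * L.relIndex (K ⊔ L)) * Nat.card (K ⊓ L : Subgroup G) := by ring
        _ = Nat.card K * (Nat.card (K ⊓ L : Subgroup G) * K.relIndex L) := by rw [h3, ← h1]; ring
        _ = (Nat.card (K ⊓ L : Subgroup G) * L.relIndex K) * Nat.card L := by rw [h2, h4]
        _ = _ := by ring
    exact Nat.eq_of_mul_eq_mul_left (Nat.mul_pos hp1 hp2) h6
  rw [← h5]
  exact Subgroup.relIndex_dvd_index_of_le le_sup_right


/-- Let H be a finite solvable group with no nontrivial normal subgroup of odd order in which the centralizer of every involution has a normal 2-complement. Let X be a Hall 2'-subgroup of H (odd order, index a power of 2) and Y = O₂(H). Then no non-identity element of X commutes with a non-identity element of Y (so for X ≠ 1 the group XY is a Frobenius group with kernel Y), every Sylow subgroup of X is cyclic, XY is normal in H, and H/XY is a cyclic 2-group. -/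
theorem result {H : Type*} [Group H] [Finite H] (hsol : Group.IsSolvable H)
    (hO : Cfsg.oddCore H = ⊥)
    (hI : ∀ t : H, orderOf t = 2 → Cfsg.HasNormalPComplement 2 ↥(Subgroup.centralizer ({t} : Set H)))
    (X : Subgroup H) (hXodd : Odd (Nat.card X)) (hXidx : ∃ k : ℕ, X.index = 2 ^ k) :
    (∀ x ∈ X, x ≠ 1 → ∀ y ∈ Cfsg.pCore 2 H, y ≠ 1 → x * y ≠ y * x) ∧
      (∀ (p : ℕ) [Fact p.Prime] (P : Sylow p ↥X), IsCyclic ↥(P : Subgroup ↥X)) ∧
      (X ⊔ Cfsg.pCore 2 H).Normal ∧
      ∀ hN : (X ⊔ Cfsg.pCore 2 H).Normal, IsCyclic (H ⧸ (X ⊔ Cfsg.pCore 2 H)) ∧ IsPGroup 2 (H ⧸ (X ⊔ Cfsg.pCore 2 H)) := by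
  classical
  haveI : Fact (Nat.Prime 2) := ⟨Nat.prime_two⟩
  set Y := Cfsg.pCore 2 H with hYdef
  have hYp : IsPGroup 2 Y := CfsgLib.Cores.pCore_isPGroup 2
  haveI hYn : Y.Normal := by rw [hYdef]; infer_instance
  have hC : centralizer (Y : Set H) ≤ Y := by
    have h1 : Cfsg.fittingSubgroup H = Cfsg.pCore 2 H := CfsgLib.PQ2.fitting_eq_pCore_of hO
    have h2 := CfsgLib.Cores.centralizer_fittingSubgroup_le (G := H)
    rw [h1] at h2
    exact h2
  have K1 : ∀ {t x : H}, orderOf t = 2 → Odd (orderOf x) → x * t = t * x → x = 1 :=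
    fun ht hx h => odd_comm_inv hC hI ht hx h
  have hpart1 : ∀ x : H, Odd (orderOf x) → x ≠ 1 → ∀ y ∈ Y, y ≠ 1 → x * y ≠ y * x := by
    intro x hx hx1 y hy hy1 hxy
    have he : Even (orderOf y) := by
      by_contra ho
      exact hy1 (odd_of_two_group hYp hy (Nat.not_even_iff_odd.1 ho))
    obtain ⟨t, ht, ht2⟩ := exists_invol he
    apply hx1
    refine K1 ht2 hx ?_
    obtain ⟨i, rfl⟩ := ht
    exact ((show Commute x y from hxy).zpow_right i)
  have hXo : ∀ x ∈ X, Odd (orderOf x) := fun x hx => Odd.of_dvd_nat hXodd (Subgroup.orderOf_dvd_natCard X hx)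
  have hfpf : ∀ A : Subgroup H, (∀ a ∈ A, Odd (orderOf a)) → FPF A Y := by
    intro A hA a ha ha1
    rw [eq_bot_iff]
    intro y hy
    rw [mem_bot]
    by_contra hy1
    exact hpart1 a (hA a ha) ha1 y hy.1 hy1 (mem_centralizer_singleton_iff.1 hy.2).symm
  have hcyc : ∀ (A : Subgroup H) (p : ℕ), p.Prime → p ≠ 2 → IsPGroup p A → IsCyclic A := by
    intro A p hp hp2 hA
    haveI : Fact p.Prime := ⟨hp⟩
    by_cases hY1 : Y = ⊥
    · have h1 : ∀ x : H, x = 1 := by
        intro x
        have : x ∈ Y := hC (by rw [mem_centralizer_iff]; intro y hy; rw [hY1] at hy; rw [(mem_bot.1 hy)]; simp)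
        rw [hY1] at this
        exact mem_bot.1 this
      haveI : Subsingleton A := ⟨fun a b => Subtype.ext ((h1 a).trans (h1 b).symm)⟩
      infer_instance
    · refine (hfpf A ?_).pgroup_cyclic (by rw [normalizer_eq_top]; exact le_top) hY1 hp hp2 hA
      intro a ha
      obtain ⟨k, hk⟩ := IsPGroup.iff_orderOf.1 hA ⟨a, ha⟩
      rw [Subgroup.orderOf_mk] at hk
      rw [hk]
      exact (hp.odd_of_ne_two hp2).pow
  refine ⟨fun x hx hx1 y hy hy1 => hpart1 x (hXo x hx) hx1 y hy hy1, ?_, ?_⟩
  · intro p hp P
    by_cases hp2 : p = 2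
    · subst hp2
      obtain ⟨k, hk⟩ := IsPGroup.iff_card.1 P.isPGroup'
      have h1 : Nat.card P ∣ Nat.card X := Subgroup.card_subgroup_dvd_card _
      have h2 : k = 0 := by
        by_contra hk0
        have : 2 ∣ Nat.card X := (hk ▸ dvd_pow_self 2 hk0).trans h1
        exact (Nat.not_even_iff_odd.2 hXodd) (even_iff_two_dvd.2 this)
      rw [h2, pow_zero] at hk
      haveI := (Nat.card_eq_one_iff_unique.1 hk).1
      infer_instance
    · have h1 := hcyc ((P : Subgroup X).map X.subtype) p hp.out hp2 (P.isPGroup'.map _)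
      exact isCyclic_of_surjective _ ((P : Subgroup X).equivMapOfInjective _ (subtype_injective X)).symm.surjective
  · -- the cyclic quotient
    obtain ⟨K, hKn, hYK, hKidx, hKc⟩ : ∃ K : Subgroup H, ∃ hK : K.Normal, Y ≤ K ∧ Odd (Y.relIndex K) ∧ IsCyclic (H ⧸ K) := by
      by_cases hYtop : Y = ⊤
      · refine ⟨⊤, inferInstance, le_top, ?_, ?_⟩
        · rw [hYtop, Subgroup.relIndex_self]; exact odd_one
        · haveI : Subsingleton (H ⧸ (⊤ : Subgroup H)) := QuotientGroup.subsingleton_quotient_top
          infer_instance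
      · haveI : Nontrivial (H ⧸ Y) := by
          rw [← not_subsingleton_iff_nontrivial]
          intro h1
          exact hYtop (QuotientGroup.subgroup_eq_top_of_subsingleton Y h1)
        have hneb : (⊤ : Subgroup (H ⧸ Y)) ≠ ⊥ := top_ne_bot
        obtain ⟨M, p, hp, hMin, -, hMc, hMe, hMp⟩ := CfsgLib.SolvMin.exists_minNormal_pgroup_of_solvable (⊤ : Subgroup (H ⧸ Y)) hneb
        haveI : Fact p.Prime := ⟨hp⟩
        haveI hMn : M.Normal := hMin.1
        have hM1 : M ≠ ⊥ := hMin.2.1
        have hp2 : p ≠ 2 := by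
          rintro rfl
          have h1 := CfsgLib.Cores.le_pCore hMn hMp
          rw [CfsgLib.Cores.pCore_quotient_pCore] at h1
          exact hM1 (le_bot_iff.1 h1)
        set M' := M.comap (QuotientGroup.mk' Y) with hM'
        haveI hM'n : M'.Normal := hMn.comap _
        have hYM' : Y ≤ M' := by
          intro y hy
          rw [hM', mem_comap]
          have : QuotientGroup.mk' Y y = 1 := (QuotientGroup.eq_one_iff y).2 hy
          rw [this]; exact one_mem _
        have hM'map : M'.map (QuotientGroup.mk' Y) = M := map_comap_eq_self_of_surjective (QuotientGroup.mk'_surjective Y) M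
        obtain ⟨P⟩ := (inferInstance : Nonempty (Sylow p M'))
        set P0 := (P : Subgroup M').map M'.subtype with hP0
        have hP0p : IsPGroup p P0 := P.isPGroup'.map _
        have hP0M : P0 ≤ M' := map_subtype_le _
        have hYcard : ∃ k, Nat.card Y = 2 ^ k := IsPGroup.iff_card.1 hYp
        obtain ⟨k, hk⟩ := hYcard
        obtain ⟨m, hm⟩ := IsPGroup.iff_card.1 hMp
        have hdisj : P0 ⊓ Y = ⊥ := by
          apply CfsgLib.H2Lift.inf_eq_bot_of_isPGroup hP0p
          rw [hk]
          exact Nat.Coprime.pow_left k ((Nat.coprime_primes Nat.prime_two hp).2 (Ne.symm hp2))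
        have hcardM' : Nat.card M' = Nat.card Y * Nat.card M := by
          have h1 := CfsgLib.Cores.card_comap_mk Y M
          exact h1
        have hcardP : Nat.card P0 = Nat.card M := by
          rw [hP0, Nat.card_congr ((P : Subgroup M').equivMapOfInjective _ (subtype_injective M')).symm.toEquiv]
          have h1 := P.card_eq_multiplicity
          rw [hcardM', hk, hm, Nat.factorization_mul (by positivity) (pow_ne_zero _ hp.ne_zero), Finsupp.add_apply,
            Nat.factorization_pow, Nat.factorization_pow, Finsupp.smul_apply, Finsupp.smul_apply, hp.factorization_self,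
            Nat.factorization_eq_zero_of_not_dvd (by
              intro h2
              exact hp2 ((Nat.prime_dvd_prime_iff_eq hp Nat.prime_two).1 h2))] at h1
          simp at h1
          rw [hm]; exact h1
        have hinj : ∀ a ∈ P0, QuotientGroup.mk' Y a = 1 → a = 1 := by
          intro a ha h1
          have : a ∈ P0 ⊓ Y := ⟨ha, (QuotientGroup.eq_one_iff a).1 h1⟩
          rw [hdisj] at this
          exact mem_bot.1 this
        have hPmap : P0.map (QuotientGroup.mk' Y) = M := by
          apply Subgroup.eq_of_le_of_card_ge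
          · rw [← hM'map]; exact map_mono hP0M
          · rw [← hcardP]
            have hinj2 : Function.Injective ((QuotientGroup.mk' Y).comp P0.subtype) := by
              rw [injective_iff_map_eq_one]
              intro a ha
              exact Subtype.ext (hinj a a.2 ha)
            have h1 := Nat.card_le_card_of_injective (fun a : P0 => (⟨QuotientGroup.mk' Y a, ⟨a, a.2, rfl⟩⟩ : P0.map (QuotientGroup.mk' Y))) (by
              intro a b hab
              exact hinj2 (congrArg Subtype.val hab))
            exact h1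
        have hP0c : IsCyclic P0 := hcyc P0 p hp hp2 hP0p
        have hMcyc : IsCyclic M := by
          refine isCyclic_of_surjective (((QuotientGroup.mk' Y).comp P0.subtype).codRestrict M (fun a => by
            rw [← hPmap]; exact ⟨a, a.2, rfl⟩)) ?_
          rintro ⟨q, hq⟩
          rw [← hPmap] at hq
          obtain ⟨a, ha, rfl⟩ := hq
          exact ⟨⟨a, ha⟩, rfl⟩
        have hMcard : Nat.card M = p := by
          obtain ⟨g, hg⟩ := hMcyc.exists_generator
          have h1 := orderOf_eq_card_of_forall_mem_zpowers hg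
          have h2 : orderOf g ∣ p := orderOf_dvd_of_pow_eq_one (Subtype.ext (hMe g g.2))
          rw [h1] at h2
          rcases (Nat.dvd_prime hp).1 h2 with h3 | h3
          · exact absurd (Subgroup.card_eq_one.1 h3) hM1
          · exact h3
        have hAutc : IsCyclic (MulAut M) := by
          have e := IsCyclic.mulAutMulEquiv M
          rw [hMcard] at e
          haveI := ZMod.isCyclic_units_prime hp
          exact isCyclic_of_surjective _ e.symm.surjective
        let f : H →* MulAut M := (MulAut.conjNormal : (H ⧸ Y) →* MulAut M).comp (QuotientGroup.mk' Y)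
        refine ⟨f.ker, inferInstance, ?_, ?_, ?_⟩
        · intro y hy
          rw [MonoidHom.mem_ker]
          show MulAut.conjNormal (QuotientGroup.mk' Y y) = 1
          have : QuotientGroup.mk' Y y = 1 := (QuotientGroup.eq_one_iff y).2 hy
          rw [this, map_one]
        · by_contra hodd
          rw [Nat.not_odd_iff_even, even_iff_two_dvd] at hodd
          obtain ⟨q, hq⟩ := exists_prime_orderOf_dvd_card' (G := f.ker ⧸ Y.subgroupOf f.ker) 2 hodd
          obtain ⟨h, rfl⟩ := QuotientGroup.mk_surjective q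
          -- `h` is in the kernel, its square lies in `Y`
          have hh2 : (h : H) ∉ Y := by
            intro h1
            have : (h : f.ker ⧸ Y.subgroupOf f.ker) = 1 := (QuotientGroup.eq_one_iff h).2 h1
            rw [this, orderOf_one] at hq
            norm_num at hq
          have hh3 : (h : H) ^ 2 ∈ Y := by
            have h1 := pow_orderOf_eq_one (h : f.ker ⧸ Y.subgroupOf f.ker)
            rw [hq, ← QuotientGroup.mk_pow, QuotientGroup.eq_one_iff] at h1
            exact h1
          have hfr := Sylow.normalizer_sup_eq_top P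
          have hsup : M' = P0 ⊔ Y := by
            apply le_antisymm
            · intro x hx
              have h1 : QuotientGroup.mk' Y x ∈ M := hx
              rw [← hPmap] at h1
              obtain ⟨a, ha, hax⟩ := h1
              have h2 : a⁻¹ * x ∈ Y := QuotientGroup.eq.1 hax
              have h3 : a * (a⁻¹ * x) = x := by group
              rw [← h3]
              exact mul_mem (mem_sup_left ha) (mem_sup_right h2)
            · exact sup_le hP0M hYM'
          have hfr2 : normalizer (P0 : Set H) ⊔ Y = ⊤ := by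
            rw [eq_top_iff, ← hfr, ← hP0]
            refine sup_le le_sup_left ?_
            rw [hsup]
            exact sup_le (le_normalizer.trans le_sup_left) le_sup_right
          have hhm : (h : H) ∈ normalizer (P0 : Set H) ⊔ Y := by rw [hfr2]; exact mem_top _
          rw [mem_sup_of_normal_right] at hhm
          obtain ⟨n, hn, y, hy, hny⟩ := hhm
          have hnq : QuotientGroup.mk' Y n = QuotientGroup.mk' Y (h : H) := by
            rw [← hny, map_mul]
            have : QuotientGroup.mk' Y y = 1 := (QuotientGroup.eq_one_iff y).2 hy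
            rw [this, mul_one]
          have hncomm : ∀ r ∈ P0, n * r = r * n := by
            intro r hr
            have h1 : ⁅n, r⁆ ∈ P0 := by
              rw [commutatorElement_def]
              exact P0.mul_mem ((mem_normalizer_iff.1 hn r).1 hr) (P0.inv_mem hr)
            have h2 : QuotientGroup.mk' Y ⁅n, r⁆ = 1 := by
              rw [map_commutatorElement, hnq, commutatorElement_eq_one_iff_mul_comm]
              have hrM : QuotientGroup.mk' Y r ∈ M := by rw [← hPmap]; exact ⟨r, hr, rfl⟩
              have h3 : f h = 1 := h.2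
              have h4 := congrArg (fun φ : MulAut M => ((φ ⟨_, hrM⟩ : M) : H ⧸ Y)) h3
              have h5 : QuotientGroup.mk' Y (h : H) * QuotientGroup.mk' Y r * (QuotientGroup.mk' Y (h : H))⁻¹ = QuotientGroup.mk' Y r := h4
              rw [mul_inv_eq_iff_eq_mul] at h5
              exact h5
            have h3 := hinj _ h1 h2
            rwa [commutatorElement_eq_one_iff_mul_comm] at h3
          have hneven : Even (orderOf n) := by
            by_contra ho
            rw [Nat.not_even_iff_odd] at ho
            have h1 : n ^ 2 ∈ Y := by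
              have h2 : QuotientGroup.mk' Y (n ^ 2) = 1 := by
                rw [map_pow, hnq, ← map_pow]
                exact (QuotientGroup.eq_one_iff _).2 hh3
              exact (QuotientGroup.eq_one_iff _).1 h2
            have h2 : n ∈ Y := odd_pow (k := 1) ho (by rw [pow_one]; exact h1)
            apply hh2
            rw [← hny]
            exact Y.mul_mem h2 hy
          obtain ⟨t, ht, ht2⟩ := exists_invol hneven
          have hP01 : P0 ≠ ⊥ := by
            intro h1
            have := hcardP
            rw [h1, Subgroup.card_bot, hMcard] at this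
            exact hp.one_lt.ne this
          obtain ⟨r, hr, hr1⟩ : ∃ r : H, r ∈ P0 ∧ r ≠ 1 := by
            obtain ⟨a, ha⟩ := (Subgroup.ne_bot_iff_exists_ne_one).1 hP01
            exact ⟨a.1, a.2, fun h3 => ha (Subtype.ext h3)⟩
          apply hr1
          refine K1 ht2 ?_ ?_
          · obtain ⟨j, hj⟩ := IsPGroup.iff_orderOf.1 hP0p ⟨r, hr⟩
            rw [Subgroup.orderOf_mk] at hj
            rw [hj]
            exact (hp.odd_of_ne_two hp2).pow
          · obtain ⟨i, rfl⟩ := ht
            exact ((show Commute n r from hncomm r hr).zpow_left i).symm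
        · haveI : IsCyclic f.range := inferInstance
          exact isCyclic_of_surjective _ (QuotientGroup.quotientKerEquivRange f).symm.surjective
    obtain ⟨k, hk⟩ := hXidx
    have hKL : K ≤ X ⊔ Y := by
      rw [← Subgroup.relIndex_eq_one]
      have h1 : (X ⊔ Y).relIndex K ∣ Y.relIndex K := Subgroup.relIndex_dvd_of_le_left K le_sup_right
      have h2 : (X ⊔ Y).relIndex K ∣ (X ⊔ Y).index := relIndex_dvd_of_normal' K (X ⊔ Y)
      have h3 : (X ⊔ Y).index ∣ 2 ^ k := by rw [← hk]; exact Subgroup.index_dvd_of_le le_sup_left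
      have h4 : Odd ((X ⊔ Y).relIndex K) := Odd.of_dvd_nat hKidx h1
      have h5 : Nat.Coprime ((X ⊔ Y).relIndex K) (2 ^ k) := Nat.Coprime.pow_right k (Nat.coprime_two_right.2 h4)
      exact Nat.eq_one_of_dvd_coprimes h5 dvd_rfl (h2.trans h3)
    have hLn : (X ⊔ Y).Normal := by
      refine ⟨fun l hl h => ?_⟩
      have h1 : ⁅h, l⁆ ∈ K := by
        rw [← QuotientGroup.eq_one_iff (N := K)]
        have h2 : ((⁅h, l⁆ : H) : H ⧸ K) = ⁅(h : H ⧸ K), (l : H ⧸ K)⁆ := map_commutatorElement (QuotientGroup.mk' K) h l
        rw [h2, commutatorElement_eq_one_iff_mul_comm]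
        letI := hKc.commGroup
        exact mul_comm _ _
      have h2 : h * l * h⁻¹ = ⁅h, l⁆ * l := by rw [commutatorElement_def]; group
      rw [h2]
      exact mul_mem (hKL h1) hl
    refine ⟨hLn, fun hN => ⟨?_, ?_⟩⟩
    · refine isCyclic_of_surjective (QuotientGroup.map K (X ⊔ Y) (MonoidHom.id H) (by rw [Subgroup.comap_id]; exact hKL)) ?_
      intro q
      obtain ⟨h, rfl⟩ := QuotientGroup.mk_surjective q
      exact ⟨(h : H ⧸ K), rfl⟩
    · have h1 : (X ⊔ Y).index ∣ 2 ^ k := by rw [← hk]; exact Subgroup.index_dvd_of_le le_sup_left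
      obtain ⟨j, -, hj⟩ := (Nat.dvd_prime_pow Nat.prime_two).1 h1
      exact IsPGroup.of_card hj

end Cfsg.Agent.S3215
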