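import Cfsg.Statements.S3225
import Mathlib
import Cfsg.Agent.LibThompTrH12

set_option autoImplicit false
open Cfsg

namespace Cfsg.Agent.S3225

/-- Let G be a finite group of even order with no subgroup of index 2, S a Sylow 2-subgroup of G and M a subgroup of index 2 in S such that, for some n ≥ 1, every element of S outside M has order greater than 2^(n−1). Then every element of S of order 2ⁿ is conjugate in G to an element of M. -/
theorem result {G : Type*} [Group G] [Finite G] (hev : Even (Nat.card G))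
    (hG : ∀ H : Subgroup G, H.index ≠ 2) (S : Sylow 2 G) (M : Subgroup G) (hMS : M ≤ (S : Subgroup G)) (hM : M.relIndex (S : Subgroup G) = 2)
    (n : ℕ) (hn : 1 ≤ n) (hord : ∀ y ∈ (S : Subgroup G), y ∉ M → 2 ^ (n - 1) < orderOf y)
    (x : G) (hx : x ∈ (S : Subgroup G)) (hxn : orderOf x = 2 ^ n) :
    ∃ g : G, g * x * g⁻¹ ∈ M := by
  by_contra hcon
  push Not at hcon
  have h2 : ∀ g : G, g⁻¹ * x * g ∈ (S : Subgroup G) → g⁻¹ * x * g ∉ M := by
    intro g _ h
    apply hcon g⁻¹
    rw [inv_inv]; exact h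
  obtain ⟨N, -, hN, -⟩ := CfsgLib.ThompTrH12.exists_index_two S M hM x
    ⟨n, by rw [← hxn, pow_orderOf_eq_one]⟩ (by
      intro k g hk hmem
      by_contra hout
      have h3 := hord _ hmem hout
      obtain ⟨m, hm⟩ := hk
      have h4 : (g⁻¹ * x ^ k * g) ^ 2 ^ (n - 1) = 1 := by
        have h5 : (g⁻¹ * x ^ k * g⁻¹⁻¹) ^ 2 ^ (n - 1) = g⁻¹ * (x ^ k) ^ 2 ^ (n - 1) * g⁻¹⁻¹ := by
          rw [conj_pow]
        rw [inv_inv] at h5
        rw [h5, ← pow_mul]
        have h6 : k * 2 ^ (n - 1) = 2 ^ n * m := by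
          have : 2 ^ n = 2 * 2 ^ (n - 1) := by rw [← pow_succ']; congr 1; omega
          rw [hm, this]; ring
        rw [h6, pow_mul, ← hxn, pow_orderOf_eq_one, one_pow, mul_one, inv_mul_cancel]
      have h5 := Nat.le_of_dvd (by positivity) (orderOf_dvd_of_pow_eq_one h4)
      omega) h2
  exact hG N hN

end Cfsg.Agent.S3225
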