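import Cfsg.Statements.S3265
import Cfsg.Agent.LibOddS6H13
import Cfsg.Agent.LibOddP3H13

set_option autoImplicit false
open Cfsg

namespace Cfsg.Agent.S3265

open Equiv CfsgLib.OddS

theorem inv_univ {n : ℕ} {x : Perm (Fin n)} (hx : orderOf x = 2) : Inv Finset.univ x := by
  refine ⟨?_, fun p hp => absurd (Finset.mem_univ p) hp⟩
  have h := pow_orderOf_eq_one x
  rw [hx, pow_two] at h
  exact h

theorem card_supp {n : ℕ} {x : Perm (Fin n)} (hx : orderOf x = 2) : ∃ k : ℕ, x.cycleType = Multiset.replicate k 2 ∧ x.support.card = 2 * k := by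
  obtain ⟨k, hk⟩ := Perm.cycleType_prime_order (σ := x) (by rw [hx]; exact Nat.prime_two)
  rw [hx] at hk
  refine ⟨k + 1, hk, ?_⟩
  rw [← Perm.sum_cycleType, hk, Multiset.sum_replicate, smul_eq_mul, mul_comm]

theorem conj_iff {n : ℕ} {x y : Perm (Fin n)} (hx : orderOf x = 2) (hy : orderOf y = 2) : IsConj x y ↔ x.support.card = y.support.card := by
  obtain ⟨k, hk, ck⟩ := card_supp hx
  obtain ⟨l, hl, cl⟩ := card_supp hy
  rw [Perm.isConj_iff_cycleType_eq, hk, hl, ck, cl]
  constructor
  · intro h
    have := congrArg Multiset.card h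
    rw [Multiset.card_replicate, Multiset.card_replicate] at this
    omega
  · intro h
    rw [show k = l by omega]

theorem ord_two {n : ℕ} {x : Perm (Fin n)} (h : x * x = 1) (hx : x.support.card ≠ 0) : orderOf x = 2 := by
  apply orderOf_eq_prime
  · rw [pow_two]; exact h
  · rintro rfl
    apply hx
    simp

theorem final2 {P : Type*} [Group P] (t : P) (ht : orderOf t = 2) (K : ∀ x y : P, IsConj t x → IsConj t y → Odd (orderOf (x * y)) ∨ ∃ z, IsConj t z ∧ Odd (orderOf (x * z)) ∧ Odd (orderOf (y * z)))
    (N : ∃ y : P, IsConj t y ∧ orderOf (t * y) = 2) :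
    (SimpleGraph.fromRel fun x y : {x : P // IsConj t x} => Odd (orderOf (x.1 * y.1))).Connected ∧
      (SimpleGraph.fromRel fun x y : {x : P // IsConj t x} => Odd (orderOf (x.1 * y.1))).diam = 2 := by
  haveI : Nonempty {x : P // IsConj t x} := ⟨⟨t, IsConj.refl t⟩⟩
  have hord : ∀ x : P, IsConj t x → orderOf x = 2 := by
    intro x hx
    obtain ⟨c, rfl⟩ := isConj_iff.1 hx
    rw [← ht]
    exact (MulAut.conj c).orderOf_eq t
  have hsq : ∀ x : P, orderOf x = 2 → x * x = 1 := by
    intro x hx
    rw [← pow_two, ← hx, pow_orderOf_eq_one]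
  have hinv : ∀ x y : P, orderOf x = 2 → orderOf y = 2 → orderOf (y * x) = orderOf (x * y) := by
    intro x y hx hy
    have h1 : y * x = (x * y)⁻¹ := by
      rw [_root_.mul_inv_rev, inv_eq_of_mul_eq_one_right (hsq y hy), inv_eq_of_mul_eq_one_right (hsq x hx)]
    rw [h1, orderOf_inv]
  apply CfsgLib.OddP.graph2
  · intro u v huv
    rcases K u.1 v.1 u.2 v.2 with h | ⟨z, hz, h1, h3⟩
    · left
      rw [SimpleGraph.fromRel_adj]
      exact ⟨huv, Or.inl h⟩
    · by_cases hzu : z = u.1
      · left
        rw [SimpleGraph.fromRel_adj]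
        rw [hzu] at h3
        exact ⟨huv, Or.inr h3⟩
      · by_cases hzv : z = v.1
        · left
          rw [SimpleGraph.fromRel_adj]
          rw [hzv] at h1
          exact ⟨huv, Or.inl h1⟩
        · right
          refine ⟨⟨z, hz⟩, ?_, ?_⟩
          · rw [SimpleGraph.fromRel_adj]
            exact ⟨fun h => hzu (congrArg Subtype.val h).symm, Or.inl h1⟩
          · rw [SimpleGraph.fromRel_adj]
            exact ⟨fun h => hzv (congrArg Subtype.val h), Or.inr h3⟩
  · obtain ⟨y, hy, hxy⟩ := N
    refine ⟨⟨t, IsConj.refl t⟩, ⟨y, hy⟩, ?_, ?_⟩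
    · intro h
      have h1 : t = y := congrArg Subtype.val h
      rw [← h1, hsq t ht, orderOf_one] at hxy
      exact absurd hxy (by decide)
    · rw [SimpleGraph.fromRel_adj]
      rintro ⟨-, h | h⟩
      · have h' : Odd (orderOf (t * y)) := h
        rw [hxy] at h'
        exact absurd h' (by decide)
      · have h' : Odd (orderOf (y * t)) := h
        rw [hinv t y ht (hord y hy), hxy] at h'
        exact absurd h' (by decide)

/-- Let n ≥ 5 and let X be a conjugacy class of involutions of the symmetric group of degree n. The graph on X joining two distinct involutions whose product has odd order is connected and has diameter exactly 2. -/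
theorem result (n : ℕ) (hn : 5 ≤ n) (t : Equiv.Perm (Fin n)) (ht : orderOf t = 2) :
    (SimpleGraph.fromRel fun x y : {x : Equiv.Perm (Fin n) // IsConj t x} =>
        Odd (orderOf (x.1 * y.1))).Connected ∧
      (SimpleGraph.fromRel fun x y : {x : Equiv.Perm (Fin n) // IsConj t x} =>
        Odd (orderOf (x.1 * y.1))).diam = 2 := by
  classical
  have hord : ∀ x : Perm (Fin n), IsConj t x → orderOf x = 2 := by
    intro x hx
    obtain ⟨c, rfl⟩ := isConj_iff.1 hx
    rw [← ht]
    exact (MulAut.conj c).orderOf_eq t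
  have hpos : ∀ x : Perm (Fin n), orderOf x = 2 → x.support.card ≠ 0 := by
    intro x hx h
    rw [Finset.card_eq_zero, Perm.support_eq_empty_iff] at h
    rw [h, orderOf_one] at hx
    exact absurd hx (by decide)
  apply final2 t ht
  · intro x y hx hy
    right
    have ox := hord x hx
    have oy := hord y hy
    obtain ⟨z, hz, hzc, h1, h2⟩ := main_aux _ Finset.univ x y rfl (inv_univ ox) (inv_univ oy)
      ((conj_iff ox oy).1 (hx.symm.trans hy)) (by intro h; rw [Finset.card_univ, Fintype.card_fin] at h; omega)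
    have oz : orderOf z = 2 := ord_two hz.1 (by rw [hzc]; exact hpos x ox)
    exact ⟨z, hx.trans ((conj_iff ox oz).2 hzc.symm), h1, h2⟩
  · -- a commuting conjugate
    obtain ⟨a, ha⟩ : ∃ a, t a ≠ a := by
      by_contra hcon
      push Not at hcon
      have : t = 1 := by ext p; rw [hcon p]; rfl
      rw [this, orderOf_one] at ht
      exact absurd ht (by decide)
    obtain ⟨b, hb⟩ : ∃ b, t a = b := ⟨_, rfl⟩
    have nab : a ≠ b := by rw [← hb]; exact ha.symm
    obtain ⟨_, _, t1, e1, i1, c1, t1a, t1b, f1⟩ := peel nab (inv_univ ht) hb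
    by_cases h1 : ∃ c, t1 c ≠ c
    · obtain ⟨c, hc⟩ := h1
      obtain ⟨d, hd⟩ : ∃ d, t1 c = d := ⟨_, rfl⟩
      have ncd : c ≠ d := by rw [← hd]; exact hc.symm
      obtain ⟨hcS, hdS, t2, e2, i2, c2, t2c, t2d, f2⟩ := peel ncd i1 hd
      simp only [Finset.mem_erase, Finset.mem_univ, and_true] at hcS hdS
      have t2a : t2 a = a := by rw [f2 a hcS.2.symm hdS.2.symm, t1a]
      have t2b : t2 b = b := by rw [f2 b hcS.1.symm hdS.1.symm, t1b]
      obtain ⟨j1, k1⟩ := comp (a := b) (b := d) (x := t2) (S := ((((Finset.univ.erase a).erase b).erase c).erase d)) hdS.1.symm (by simp) (by simp) i2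
      obtain ⟨j2, k2⟩ := comp (a := a) (b := c) (x := swap b d * t2) hcS.2.symm
        (by simp [nab, hdS.2.symm]) (by simp [hcS.1, ncd]) j1
      have hy2 : orderOf (swap a c * (swap b d * t2)) = 2 := ord_two j2.1 (by omega)
      refine ⟨swap a c * (swap b d * t2), (conj_iff ht hy2).2 (by omega), ?_⟩
      have hte : t * (swap a c * (swap b d * t2)) = swap a d * swap b c := by
        have hd1 := (disj t2a t2c).commute
        have hd2 := (disj t2b t2d).commute
        have hf : Function.Injective (![a, b, c, d] : Fin 4 → Fin n) := by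
          rw [← List.nodup_ofFn]
          have : [a, b, c, d].Nodup := by
            simp only [List.nodup_cons, List.mem_cons, List.not_mem_nil, or_false, not_or, not_false_eq_true, List.nodup_nil, and_true]
            exact ⟨⟨nab, hcS.2.symm, hdS.2.symm⟩, ⟨hcS.1.symm, hdS.1.symm⟩, ncd⟩
          simpa [List.ofFn_succ] using this
        obtain ⟨φ, -, hφ⟩ := emb _ hf
        have h := congrArg φ (show (swap 0 1 * swap 2 3 * (swap 0 2 * swap 1 3) : Perm (Fin 4)) = swap 0 3 * swap 1 2 by decide)
        simp only [map_mul, hφ] at h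
        have h' : swap a b * swap c d * (swap a c * swap b d) = swap a d * swap b c := h
        rw [e1, e2, ← h']
        calc swap a b * (swap c d * t2) * (swap a c * (swap b d * t2)) = swap a b * swap c d * (t2 * (swap a c * swap b d)) * t2 := by simp only [mul_assoc]
          _ = swap a b * swap c d * ((swap a c * swap b d) * t2) * t2 := by rw [(hd1.mul_left hd2).eq]
          _ = swap a b * swap c d * (swap a c * swap b d) * (t2 * t2) := by simp only [mul_assoc]
          _ = _ := by rw [i2.1, mul_one]
      rw [hte]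
      obtain ⟨j3, k3⟩ := comp (S := {b, c}) (x := swap b c) (a := a) (b := d) hdS.2.symm (by simp [nab, hcS.2.symm]) (by simp [hdS.1, ncd.symm])
        (inv_swap (by simp) (by simp))
      exact ord_two j3.1 (by omega)
    · push Not at h1
      have ht1 : t1 = 1 := by ext p; rw [h1 p]; rfl
      rw [ht1, mul_one] at e1
      obtain ⟨c, hc⟩ : ∃ c, c ∉ ({a, b} : Finset (Fin n)) := by
        by_contra hcon
        push Not at hcon
        have h6 : (Finset.univ : Finset (Fin n)).card ≤ ({a, b} : Finset (Fin n)).card := Finset.card_le_card (fun x _ => hcon x)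
        have h7 : ({a, b} : Finset (Fin n)).card ≤ 2 := Finset.card_le_two
        rw [Finset.card_univ, Fintype.card_fin] at h6
        omega
      obtain ⟨d, hd⟩ : ∃ d, d ∉ ({a, b, c} : Finset (Fin n)) := by
        by_contra hcon
        push Not at hcon
        have h6 : (Finset.univ : Finset (Fin n)).card ≤ ({a, b, c} : Finset (Fin n)).card := Finset.card_le_card (fun x _ => hcon x)
        have h7 : ({a, b, c} : Finset (Fin n)).card ≤ 3 := Finset.card_le_three
        rw [Finset.card_univ, Fintype.card_fin] at h6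
        omega
      simp only [Finset.mem_insert, Finset.mem_singleton, not_or] at hc hd
      have ncd : c ≠ d := fun h => hd.2.2 h.symm
      have hs2 : orderOf (swap c d) = 2 := ord_two (swap_mul_self _ _) (by rw [Perm.card_support_swap ncd]; decide)
      refine ⟨swap c d, (conj_iff ht hs2).2 ?_, ?_⟩
      · rw [e1, Perm.card_support_swap nab, Perm.card_support_swap ncd]
      · rw [e1]
        obtain ⟨j3, k3⟩ := comp (S := {c, d}) (x := swap c d) (a := a) (b := b) nab (by simp [Ne.symm hc.1, Ne.symm hd.1]) (by simp [Ne.symm hc.2, Ne.symm hd.2.1])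
          (inv_swap (by simp) (by simp))
        exact ord_two j3.1 (by omega)

end Cfsg.Agent.S3265
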