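import Cfsg.Statements.S3266
import Cfsg.Agent.LibOddP3H13
import Cfsg.Agent.S2302

set_option autoImplicit false
open Cfsg

namespace Cfsg.Agent.S3266

open Matrix CfsgLib.Fus21.PSL2

theorem two_ne {F : Type*} [Field F] [Fintype F] (hodd : Fintype.card F % 2 = 1) : (2 : F) ≠ 0 := by
  intro h0
  obtain ⟨p, hp⟩ := CharP.exists F
  haveI : Fact p.Prime := ⟨CharP.char_is_prime F p⟩
  have h1 : p ∣ 2 := (CharP.cast_eq_zero_iff F p 2).mp (by exact_mod_cast h0)
  have h3 := (Nat.prime_dvd_prime_iff_eq (CharP.char_is_prime F _) Nat.prime_two).mp h1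
  have h4 := (CharP.cast_eq_zero_iff F p _).mp (FiniteField.cast_card_eq_zero F)
  rw [h3] at h4
  omega

theorem inv_of_trace {F : Type*} [Field F] (h2 : (2 : F) ≠ 0) {Z : SpecialLinearGroup (Fin 2) F} (h : Z 0 0 + Z 1 1 = 0) :
    orderOf (pr F Z) = 2 := by
  apply involution_of_sq h2
  rw [CfsgLib.OddP.trace_eq', h, zero_smul, zero_sub]

theorem odd_part {F : Type*} [Field F] [Fintype F] (hF : 4 ≤ Fintype.card F) (hodd : Fintype.card F % 2 = 1)
    (t : Matrix.ProjectiveSpecialLinearGroup (Fin 2) F) (ht : orderOf t = 2) :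
    (SimpleGraph.fromRel fun x y : {x : Matrix.ProjectiveSpecialLinearGroup (Fin 2) F // IsConj t x} =>
        Odd (orderOf (x.1 * y.1))).Connected ∧
      (SimpleGraph.fromRel fun x y : {x : Matrix.ProjectiveSpecialLinearGroup (Fin 2) F // IsConj t x} =>
        Odd (orderOf (x.1 * y.1))).diam = 2 := by
  have h2 : (2 : F) ≠ 0 := two_ne hodd
  apply CfsgLib.OddP.final _ _ _ t ht
  · intro x y hx hy
    obtain ⟨X, rfl⟩ := pr_surj x
    obtain ⟨Y, rfl⟩ := pr_surj y
    have h3 := trace_zero_of_sq (sq_of_involution h2 hx)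
    have h4 := trace_zero_of_sq (sq_of_involution h2 hy)
    rcases CfsgLib.OddP.odd_case hodd (by omega) X Y (by linear_combination h3) (by linear_combination h4) with h | ⟨Z, h5, h6, h7⟩
    · exact Or.inl h
    · exact Or.inr ⟨pr F Z, inv_of_trace h2 (by rw [h5]; ring), h6, h7⟩
  · intro x y hx hy
    obtain ⟨g, hg⟩ := involutions_conj hodd h2 hx hy
    exact isConj_iff.2 ⟨g, hg⟩
  · obtain ⟨a, b, hab⟩ := sq_sum (F := F) hodd (-1)
    obtain ⟨Y, y00, y01, y10, y11⟩ : ∃ Z : SpecialLinearGroup (Fin 2) F, Z 0 0 = a ∧ Z 0 1 = b ∧ Z 1 0 = b ∧ Z 1 1 = -a :=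
      ⟨⟨!![a, b; b, -a], by rw [det_fin_two]; show a * -a - b * b = 1; linear_combination -hab⟩, rfl, rfl, rfl, rfl⟩
    obtain ⟨X, x00, x01, x10, x11⟩ : ∃ Z : SpecialLinearGroup (Fin 2) F, Z 0 0 = 0 ∧ Z 0 1 = 1 ∧ Z 1 0 = -1 ∧ Z 1 1 = 0 :=
      ⟨⟨!![0, 1; -1, 0], by rw [det_fin_two]; show (0 : F) * 0 - 1 * (-1) = 1; ring⟩, rfl, rfl, rfl, rfl⟩
    refine ⟨pr F X, pr F Y, inv_of_trace h2 (by rw [x00, x11]; ring), inv_of_trace h2 (by rw [y00, y11]; ring), ?_⟩
    rw [← map_mul]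
    apply inv_of_trace h2
    rw [CfsgLib.Fus21.PSL2.mul_apply', CfsgLib.Fus21.PSL2.mul_apply', x00, x01, x10, x11, y00, y01, y10, y11]
    ring

theorem even_part {F : Type*} [Field F] [Fintype F] (hF : 4 ≤ Fintype.card F) (hchar : CharP F 2)
    (t : Matrix.ProjectiveSpecialLinearGroup (Fin 2) F) (ht : orderOf t = 2) :
    (SimpleGraph.fromRel fun x y : {x : Matrix.ProjectiveSpecialLinearGroup (Fin 2) F // IsConj t x} =>
        Odd (orderOf (x.1 * y.1))).Connected ∧
      (SimpleGraph.fromRel fun x y : {x : Matrix.ProjectiveSpecialLinearGroup (Fin 2) F // IsConj t x} =>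
        Odd (orderOf (x.1 * y.1))).diam = 2 := by
  classical
  have h2 : (2 : F) = 0 := CharTwo.two_eq_zero
  have hneg : (-1 : Matrix (Fin 2) (Fin 2) F) = 1 := by
    ext i j
    rw [Matrix.neg_apply, CharTwo.neg_eq]
  have hone : ∀ X : SpecialLinearGroup (Fin 2) F, pr F X = 1 ↔ X = 1 := by
    intro X
    rw [pr_eq_one, hneg, or_self]
    exact ⟨fun h => Subtype.ext h, fun h => by rw [h]; rfl⟩
  have hinj : Function.Injective (pr F) := (injective_iff_map_eq_one _).2 (fun X hX => (hone X).1 hX)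
  have hlift : ∀ X : SpecialLinearGroup (Fin 2) F, orderOf (pr F X) = 2 → X * X = 1 ∧ X ≠ 1 := by
    intro X hX
    rw [orderOf_injective _ hinj] at hX
    have h0 := pow_orderOf_eq_one X
    rw [hX] at h0
    refine ⟨by rw [← pow_two]; exact h0, ?_⟩
    rintro rfl
    rw [orderOf_one] at hX
    exact absurd hX (by decide)
  have hord : ∀ X : SpecialLinearGroup (Fin 2) F, X * X = 1 → X ≠ 1 → orderOf (pr F X) = 2 := by
    intro X h1 h3
    rw [orderOf_injective _ hinj]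
    exact orderOf_eq_prime (by rw [pow_two, h1]) h3
  apply CfsgLib.OddP.final _ _ _ t ht
  · intro x y hx hy
    obtain ⟨X, rfl⟩ := pr_surj x
    obtain ⟨Y, rfl⟩ := pr_surj y
    obtain ⟨h3, h4⟩ := hlift X hx
    obtain ⟨h5, h6⟩ := hlift Y hy
    rcases CfsgLib.OddP.even_case h2 X Y h3 h4 h5 h6 with h | ⟨Z, h7, h8, h9, h10⟩
    · exact Or.inl h
    · exact Or.inr ⟨pr F Z, hord Z h7 h8, h9, h10⟩
  · intro x y hx hy
    obtain ⟨X, rfl⟩ := pr_surj x
    obtain ⟨Y, rfl⟩ := pr_surj y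
    rw [orderOf_injective _ hinj] at hx hy
    exact (pr F).map_isConj (Cfsg.Agent.S2302.result X Y hx hy).1
  · obtain ⟨a, ha⟩ : ∃ ρ : F, ρ ∉ ({0, 1} : Finset F) := by
      by_contra hcon
      push Not at hcon
      have h6 : Fintype.card F ≤ ({0, 1} : Finset F).card := by
        rw [← Finset.card_univ]
        exact Finset.card_le_card (fun x _ => hcon x)
      have h7 : ({0, 1} : Finset F).card ≤ 2 := Finset.card_le_two
      omega
    simp only [Finset.mem_insert, Finset.mem_singleton, not_or] at ha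
    obtain ⟨ha0, ha1⟩ := ha
    have key : ∀ b : F, b ≠ 0 → ∀ Z : SpecialLinearGroup (Fin 2) F, Z 0 0 = 1 → Z 0 1 = b → Z 1 0 = 0 → Z 1 1 = 1 → orderOf (pr F Z) = 2 := by
      intro b hb Z z00 z01 z10 z11
      apply hord
      · apply sl2_ext <;> simp only [CfsgLib.Fus21.PSL2.mul_apply', z00, z01, z10, z11]
        · show (1 : F) * 1 + b * 0 = 1; ring
        · show (1 : F) * b + b * 1 = 0; linear_combination b * h2
        · show (0 : F) * 1 + 1 * 0 = 0; ring
        · show (0 : F) * b + 1 * 1 = 1; ring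
      · rintro rfl
        exact hb z01.symm
    obtain ⟨Y, y00, y01, y10, y11⟩ : ∃ Z : SpecialLinearGroup (Fin 2) F, Z 0 0 = 1 ∧ Z 0 1 = a ∧ Z 1 0 = 0 ∧ Z 1 1 = 1 :=
      ⟨⟨!![1, a; 0, 1], by rw [det_fin_two]; show (1 : F) * 1 - a * 0 = 1; ring⟩, rfl, rfl, rfl, rfl⟩
    obtain ⟨X, x00, x01, x10, x11⟩ : ∃ Z : SpecialLinearGroup (Fin 2) F, Z 0 0 = 1 ∧ Z 0 1 = 1 ∧ Z 1 0 = 0 ∧ Z 1 1 = 1 :=
      ⟨⟨!![1, 1; 0, 1], by rw [det_fin_two]; show (1 : F) * 1 - 1 * 0 = 1; ring⟩, rfl, rfl, rfl, rfl⟩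
    refine ⟨pr F X, pr F Y, key 1 one_ne_zero X x00 x01 x10 x11, key a ha0 Y y00 y01 y10 y11, ?_⟩
    rw [← map_mul]
    apply key (a + 1) ?_ (X * Y)
    · rw [CfsgLib.Fus21.PSL2.mul_apply', x00, x01, y00, y10]; ring
    · rw [CfsgLib.Fus21.PSL2.mul_apply', x00, x01, y01, y11]; ring
    · rw [CfsgLib.Fus21.PSL2.mul_apply', x10, x11, y00, y10]; ring
    · rw [CfsgLib.Fus21.PSL2.mul_apply', x10, x11, y01, y11]; ring
    · intro h9
      apply ha1
      linear_combination h9 - h2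

/-- Let F be a finite field with at least 4 elements and let X be a conjugacy class of involutions of PSL(2, F). The graph on X joining two distinct involutions whose product has odd order is connected and has diameter exactly 2. -/
theorem result {F : Type*} [Field F] [Fintype F] (hF : 4 ≤ Fintype.card F)
    (t : Matrix.ProjectiveSpecialLinearGroup (Fin 2) F) (ht : orderOf t = 2) :
    (SimpleGraph.fromRel fun x y : {x : Matrix.ProjectiveSpecialLinearGroup (Fin 2) F // IsConj t x} =>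
        Odd (orderOf (x.1 * y.1))).Connected ∧
      (SimpleGraph.fromRel fun x y : {x : Matrix.ProjectiveSpecialLinearGroup (Fin 2) F // IsConj t x} =>
        Odd (orderOf (x.1 * y.1))).diam = 2 := by
  by_cases hodd : Fintype.card F % 2 = 1
  · exact odd_part hF hodd t ht
  · apply even_part hF _ t ht
    obtain ⟨p, hp⟩ := CharP.exists F
    haveI : Fact p.Prime := ⟨CharP.char_is_prime F p⟩
    obtain ⟨n, hp1, hn⟩ := FiniteField.card F p
    have h3 : 2 ∣ p ^ (n : ℕ) := by rw [← hn]; omega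
    have h4 := Nat.prime_two.dvd_of_dvd_pow h3
    have h5 := (Nat.prime_dvd_prime_iff_eq Nat.prime_two hp1).1 h4
    rw [h5]; exact hp

end Cfsg.Agent.S3266
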