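import Cfsg.Statements.S3276
import Mathlib

set_option autoImplicit false
open Cfsg

namespace Cfsg.Agent.S3276

open Subgroup

/-- two non-conjugate involutions commute with a common involution -/
theorem exists_common {G : Type*} [Group G] [Finite G] {x y : G} (hx : orderOf x = 2)
    (hy : orderOf y = 2) (hnc : ¬ IsConj x y) :
    ∃ z : G, orderOf z = 2 ∧ Commute z x ∧ Commute z y := by
  have hx2 : x * x = 1 := by rw [← pow_two, ← hx, pow_orderOf_eq_one]
  have hy2 : y * y = 1 := by rw [← pow_two, ← hy, pow_orderOf_eq_one]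
  have hxi : x⁻¹ = x := inv_eq_of_mul_eq_one_left hx2
  have hyi : y⁻¹ = y := inv_eq_of_mul_eq_one_left hy2
  have hconjx : ∀ k : ℕ, x * (x * y) ^ k * x = ((x * y) ^ k)⁻¹ := by
    intro k
    have h1 : x * (x * y) ^ k * x⁻¹ = (x * (x * y) * x⁻¹) ^ k := by rw [conj_pow]
    rw [hxi] at h1
    rw [h1, ← inv_pow, mul_inv_rev, hxi, hyi]
    congr 1
    rw [← mul_assoc, hx2, one_mul]
  have hconjy : ∀ k : ℕ, y * (x * y) ^ k * y = ((x * y) ^ k)⁻¹ := by
    intro k
    have h1 : y * (x * y) ^ k * y⁻¹ = (y * (x * y) * y⁻¹) ^ k := by rw [conj_pow]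
    rw [hyi] at h1
    rw [h1, ← inv_pow, mul_inv_rev, hxi, hyi]
    congr 1
    rw [mul_assoc, mul_assoc, hy2, mul_one]
  rcases Nat.even_or_odd' (orderOf (x * y)) with ⟨k, hk | hk⟩
  · have hpos := orderOf_pos (x * y)
    have hk0 : k ≠ 0 := by omega
    have hz2 : orderOf ((x * y) ^ k) = 2 := by
      rw [orderOf_pow_of_dvd hk0 (by rw [hk]; exact Dvd.intro_left _ rfl), hk,
        Nat.mul_div_cancel _ (Nat.pos_of_ne_zero hk0)]
    have hzz : (x * y) ^ k * (x * y) ^ k = 1 := by rw [← pow_two, ← hz2, pow_orderOf_eq_one]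
    have hzi : ((x * y) ^ k)⁻¹ = (x * y) ^ k := inv_eq_of_mul_eq_one_left hzz
    refine ⟨(x * y) ^ k, hz2, ?_, ?_⟩
    · have h1 := hconjx k
      rw [hzi] at h1
      show (x * y) ^ k * x = x * (x * y) ^ k
      calc (x * y) ^ k * x = (x * x) * (x * y) ^ k * x := by rw [hx2, one_mul]
        _ = x * (x * (x * y) ^ k * x) := by simp only [mul_assoc]
        _ = _ := by rw [h1]
    · have h1 := hconjy k
      rw [hzi] at h1
      show (x * y) ^ k * y = y * (x * y) ^ k
      calc (x * y) ^ k * y = (y * y) * (x * y) ^ k * y := by rw [hy2, one_mul]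
        _ = y * (y * (x * y) ^ k * y) := by simp only [mul_assoc]
        _ = _ := by rw [h1]
  · exfalso
    apply hnc
    rw [isConj_iff]
    refine ⟨(x * y) ^ k, ?_⟩
    have h0 : (x * y) ^ k * x = x * ((x * y) ^ k)⁻¹ := by
      calc (x * y) ^ k * x = (x * x) * (x * y) ^ k * x := by rw [hx2, one_mul]
        _ = x * (x * (x * y) ^ k * x) := by simp only [mul_assoc]
        _ = _ := by rw [hconjx k]
    have h1 : ((x * y) ^ k) * x * ((x * y) ^ k)⁻¹ = x * ((x * y) ^ (2 * k))⁻¹ := by
      rw [h0, mul_assoc, ← mul_inv_rev, ← pow_add, two_mul]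
    have h2 : (x * y) ^ (2 * k) * (x * y) = 1 := by
      rw [← pow_succ, ← hk, pow_orderOf_eq_one]
    rw [h1, inv_eq_of_mul_eq_one_right h2, ← mul_assoc, hx2, one_mul]



/-- Let x and y be commuting, non-conjugate involutions of a finite group G, and suppose that for every involution u commuting with x, each conjugate of y that commutes with u also commutes with y. Then the normal closure of y is a proper, normal, elementary abelian 2-subgroup of G; and if y is the only involution of that normal closure commuting with x, it has order at most 4. -/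
theorem result {G : Type*} [Group G] [Finite G] (x y : G) (hx : orderOf x = 2) (hy : orderOf y = 2)
    (hxy : Commute x y) (hnc : ¬ IsConj x y)
    (hstar : ∀ u : G, orderOf u = 2 → Commute u x → ∀ g : G, Commute (g * y * g⁻¹) u → Commute (g * y * g⁻¹) y) :
    Subgroup.normalClosure ({y} : Set G) ≠ ⊤ ∧ Cfsg.IsElementaryAbelian 2 (Subgroup.normalClosure ({y} : Set G)) ∧
      ((∀ u ∈ Subgroup.normalClosure ({y} : Set G), orderOf u = 2 → Commute u x → u = y) →
        Nat.card ↥(Subgroup.normalClosure ({y} : Set G)) ≤ 4) := by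
  have hy2 : y ^ 2 = 1 := by rw [← hy, pow_orderOf_eq_one]
  have key : ∀ g : G, Commute (g * y * g⁻¹) y := by
    intro g
    have h1 : orderOf (g * y * g⁻¹) = 2 := by
      rw [← hy]
      exact orderOf_injective (MulAut.conj g).toMonoidHom (MulAut.conj g).injective y
    have h2 : ¬ IsConj x (g * y * g⁻¹) := by
      intro h
      apply hnc
      refine h.trans ?_
      rw [isConj_comm, isConj_iff]
      exact ⟨g, rfl⟩
    obtain ⟨z, hz, hzx, hzy⟩ := exists_common hx h1 h2
    exact hstar z hz hzx g hzy.symm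
  have key2 : ∀ g h : G, Commute (g * y * g⁻¹) (h * y * h⁻¹) := by
    intro g h
    have h1 := key (h⁻¹ * g)
    have h2 := h1.map (MulAut.conj h).toMonoidHom
    simpa [mul_assoc] using h2
  set N := Subgroup.normalClosure ({y} : Set G) with hN
  have hyN : y ∈ N := Subgroup.subset_normalClosure rfl
  have hcomm : ∀ a ∈ N, ∀ b ∈ N, a * b = b * a := by
    have h1 : Subgroup.normalClosure ({y} : Set G) = Subgroup.closure (Group.conjugatesOfSet {y}) := rfl
    have h2 : ∀ a ∈ Group.conjugatesOfSet ({y} : Set G), ∃ g : G, a = g * y * g⁻¹ := by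
      intro a ha
      rw [Group.mem_conjugatesOfSet_iff] at ha
      obtain ⟨c, hc, hca⟩ := ha
      rw [Set.mem_singleton_iff] at hc
      subst hc
      rw [isConj_iff] at hca
      obtain ⟨g, hg⟩ := hca
      exact ⟨g, hg.symm⟩
    have h3 : N ≤ centralizer ((N : Subgroup G) : Set G) := by
      rw [hN, h1, Subgroup.closure_le]
      intro a ha
      rw [SetLike.mem_coe, Subgroup.mem_centralizer_iff]
      intro b hb
      have h4 : Subgroup.closure (Group.conjugatesOfSet ({y} : Set G)) ≤ centralizer {a} := by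
        rw [Subgroup.closure_le]
        intro b hb
        rw [SetLike.mem_coe, Subgroup.mem_centralizer_iff]
        intro a' ha'
        rw [Set.mem_singleton_iff] at ha'
        subst ha'
        obtain ⟨g, rfl⟩ := h2 _ ha
        obtain ⟨h, rfl⟩ := h2 _ hb
        exact key2 g h
      exact ((Subgroup.mem_centralizer_iff.1 (h4 hb)) a rfl).symm
    intro a ha b hb
    exact (Subgroup.mem_centralizer_iff.1 (h3 hb) a ha)
  have hexp : ∀ a ∈ N, a ^ 2 = 1 := by
    intro a ha
    rw [hN, Subgroup.normalClosure] at ha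
    induction ha using Subgroup.closure_induction with
    | mem a ha' =>
      rw [Group.mem_conjugatesOfSet_iff] at ha'
      obtain ⟨c, hc, hca⟩ := ha'
      rw [Set.mem_singleton_iff] at hc
      subst hc
      rw [isConj_iff] at hca
      obtain ⟨g, rfl⟩ := hca
      rw [conj_pow, hy2]; group
    | one => exact one_pow 2
    | mul a b ha hb h1 h2 =>
      rw [(show Commute a b from hcomm a ha b hb).mul_pow, h1, h2, one_mul]
    | inv a ha h1 => rw [inv_pow, h1, inv_one]
  refine ⟨?_, ⟨⟨⟨fun a b => Subtype.ext (hcomm a a.2 b b.2)⟩⟩, hexp⟩, ?_⟩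
  · intro htop
    have hx0 : ∀ g : G, g * y * g⁻¹ = y := by
      intro g
      rw [hcomm g (htop ▸ Subgroup.mem_top g) y hyN, mul_assoc, mul_inv_cancel, mul_one]
    have h1 : N ≤ zpowers y := by
      rw [hN]
      have : (zpowers y).Normal := by
        refine ⟨?_⟩
        intro n hn g
        obtain ⟨i, rfl⟩ := mem_zpowers_iff.1 hn
        rw [← conj_zpow, hx0]
        exact ⟨i, rfl⟩
      apply Subgroup.normalClosure_le_normal
      rw [Set.singleton_subset_iff]
      exact mem_zpowers y
    have h2 : x ∈ zpowers y := h1 (htop ▸ Subgroup.mem_top x)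
    have h3 : Nat.card (zpowers y) = 2 := by rw [Nat.card_zpowers, hy]
    obtain ⟨i, hi⟩ := mem_zpowers_iff.1 h2
    have hy1 : y ≠ 1 := by rintro rfl; simp at hy
    have hx1 : x ≠ 1 := by rintro rfl; simp at hx
    rcases Int.even_or_odd' i with ⟨j, hj | hj⟩
    · apply hx1
      rw [← hi, hj, zpow_mul, zpow_ofNat, hy2, one_zpow]
    · apply hnc
      rw [← hi, hj, zpow_add, zpow_mul, zpow_ofNat, hy2, one_zpow, one_mul, zpow_one]
  · intro huniq
    have hCN : ∀ u ∈ N, Commute u x → u = 1 ∨ u = y := by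
      intro u hu hux
      by_cases h1 : u = 1
      · exact Or.inl h1
      · right
        exact huniq u hu (orderOf_eq_prime (hexp u hu) h1) hux
    have hNn : N.Normal := Subgroup.normalClosure_normal
    have hx2 : x * x = 1 := by rw [← pow_two, ← hx, pow_orderOf_eq_one]
    have hxi : x⁻¹ = x := inv_eq_of_mul_eq_one_left hx2
    let f : N →* N := MonoidHom.mk' (fun n => ⟨(n : G) * (x * n * x⁻¹), N.mul_mem n.2 (hNn.conj_mem _ n.2 x)⟩) (by
      intro a b
      apply Subtype.ext
      show ((a : G) * b) * (x * (a * b) * x⁻¹) = (a * (x * a * x⁻¹)) * (b * (x * b * x⁻¹))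
      have h1 : (b : G) * (x * a * x⁻¹) = (x * a * x⁻¹) * b := hcomm _ b.2 _ (hNn.conj_mem _ a.2 x)
      calc ((a : G) * b) * (x * (a * b) * x⁻¹) = a * (b * (x * a * x⁻¹)) * (x * b * x⁻¹) := by group
        _ = a * ((x * a * x⁻¹) * b) * (x * b * x⁻¹) := by rw [h1]
        _ = _ := by group)
    have hfv : ∀ n : N, ((f n : N) : G) = n * (x * n * x⁻¹) := fun n => rfl
    have hcf : ∀ n : N, Commute ((f n : N) : G) x := by
      intro n
      rw [hfv]
      have h1 : (n : G) * (x * n * x⁻¹) = (x * n * x⁻¹) * n := hcomm _ n.2 _ (hNn.conj_mem _ n.2 x)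
      show (n : G) * (x * n * x⁻¹) * x = x * (n * (x * n * x⁻¹))
      rw [h1]
      calc (x * n * x⁻¹) * n * x = x * (n * (x⁻¹ * n * x)) := by group
        _ = x * (n * (x * n * x⁻¹)) := by rw [hxi]
        _ = x * ((x * n * x⁻¹) * n) := by rw [h1]
    have hker : ∀ n : N, n ∈ f.ker → Commute (n : G) x := by
      intro n hn
      have h1 : (n : G) * (x * n * x⁻¹) = 1 := congrArg Subtype.val (MonoidHom.mem_ker.1 hn)
      have h2 : (n : G)⁻¹ = n := inv_eq_of_mul_eq_one_left (by rw [← pow_two]; exact hexp _ n.2)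
      have h3 : x * (n : G) * x⁻¹ = n := by
        rw [← inv_eq_of_mul_eq_one_right h1, h2]
      show (n : G) * x = x * n
      calc (n : G) * x = (x * n * x⁻¹) * x := by rw [h3]
        _ = x * n := by group
    have hcard := Subgroup.card_mul_index f.ker
    rw [Subgroup.index_ker] at hcard
    have h2 : ∀ K : Subgroup N, (∀ n ∈ K, Commute (n : G) x) → Nat.card K ≤ 2 := by
      intro K hK
      have h3 : Set.InjOn (fun n : N => (n : G)) (K : Set N) := fun a _ b _ h => Subtype.ext h
      have h4 : (fun n : N => (n : G)) '' (K : Set N) ⊆ {1, y} := by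
        rintro _ ⟨n, hn, rfl⟩
        exact hCN _ n.2 (hK n hn)
      calc Nat.card K = (K : Set N).ncard := rfl
        _ = ((fun n : N => (n : G)) '' (K : Set N)).ncard := (Set.ncard_image_of_injOn h3).symm
        _ ≤ ({1, y} : Set G).ncard := Set.ncard_le_ncard h4 (Set.toFinite _)
        _ ≤ 2 := Set.ncard_insert_le _ _ |>.trans (by simp)
    have h5 := h2 f.ker hker
    have h6 := h2 f.range (by
      rintro _ ⟨n, rfl⟩
      exact hcf n)
    rw [← hcard]
    exact Nat.mul_le_mul h5 h6

end Cfsg.Agent.S3276
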