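import Cfsg.Statements.S3282
import Mathlib
import Cfsg.Agent.EqBase
import Cfsg.Agent.LibBW11n

set_option autoImplicit false
set_option linter.all false
open Cfsg

namespace Cfsg.Agent.S3282

theorem of_two {G : Type*} [Group G] {t : G} (ht : orderOf t = 2) : t * t = 1 ∧ t ≠ 1 := by
  constructor
  · rw [← pow_two, ← ht, pow_orderOf_eq_one]
  · rintro rfl
    rw [orderOf_one] at ht
    norm_num at ht

theorem mk_bw {G : Type*} [Group G] [Finite G] (t : G) (ht : orderOf t = 2)
    (K : Subgroup G) (hKab : ∀ x ∈ K, ∀ y ∈ K, x * y = y * x) (hKH : K ≤ Subgroup.centralizer ({t} : Set G)) (htK : t ∈ K)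
    (s : G) (hs : orderOf s = 2) (hsH : s ∈ Subgroup.centralizer ({t} : Set G)) (hsK : s ∉ K)
    (hH : K ⊔ Subgroup.zpowers s = Subgroup.centralizer ({t} : Set G)) (hCK : K ⊓ Subgroup.centralizer ({s} : Set G) = Subgroup.zpowers t)
    (hinv : ∀ x ∈ K, s * x * s⁻¹ = x⁻¹)
    (hTI : ∀ g : G, g ∉ Subgroup.centralizer ({t} : Set G) → K ⊓ K.map (MulAut.conj g).toMonoidHom = ⊥)
    (hconj : ∀ x y : G, orderOf x = 2 → orderOf y = 2 → IsConj x y) : CfsgLib.BW11.BW K t s := by
  obtain ⟨ht2, ht1⟩ := of_two ht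
  obtain ⟨hs2, hs1⟩ := of_two hs
  have hsi : s⁻¹ = s := inv_eq_of_mul_eq_one_left hs2
  have hsx : ∀ x ∈ K, s * x = x⁻¹ * s := by
    intro x hx
    rw [← hinv x hx]; group
  have hcent : ∀ g, g * t = t * g ↔ (g ∈ K ∨ s * g ∈ K) := by
    intro g
    rw [← Subgroup.mem_centralizer_singleton_iff, ← hH]
    constructor
    · intro hg
      have hle : K ⊔ Subgroup.zpowers s ≤
          { carrier := {g | g ∈ K ∨ s * g ∈ K}
            one_mem' := Or.inl K.one_mem
            mul_mem' := by
              rintro a b (ha | ha) (hb | hb)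
              · exact Or.inl (K.mul_mem ha hb)
              · right
                have : s * (a * b) = a⁻¹ * (s * b) := by rw [← mul_assoc, hsx a ha, mul_assoc]
                rw [this]; exact K.mul_mem (K.inv_mem ha) hb
              · right
                rw [← mul_assoc]; exact K.mul_mem ha hb
              · left
                have h1 : a * b = (s * (s * a)) * (s * (s * b)) := by
                  rw [← mul_assoc s s a, ← mul_assoc s s b, hs2, one_mul, one_mul]
                have h2 : (s * (s * a)) * (s * (s * b)) = (s * a)⁻¹ * (s * b) := by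
                  rw [hsx _ ha, mul_assoc, ← mul_assoc s s, hs2, one_mul]
                rw [h1, h2]; exact K.mul_mem (K.inv_mem ha) hb
            inv_mem' := by
              rintro a (ha | ha)
              · exact Or.inl (K.inv_mem ha)
              · right
                have h1 : a = s * (s * a) := by rw [← mul_assoc, hs2, one_mul]
                have h2 : a⁻¹ = (s * a)⁻¹ * s := by
                  nth_rewrite 1 [h1]
                  rw [mul_inv_rev, hsi]
                rw [h2]
                have h3 : s * ((s * a)⁻¹ * s) = s * a := by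
                  have := hsx _ ha
                  rw [← this, ← mul_assoc, hs2, one_mul]
                rw [h3]; exact ha } := by
        apply sup_le
        · intro x hx; exact Or.inl hx
        · rw [Subgroup.zpowers_le]
          right
          show s * s ∈ K
          rw [hs2]; exact K.one_mem
      exact hle hg
    · rintro (hg | hg)
      · exact Subgroup.mem_sup_left hg
      · have h1 : g = s * (s * g) := by rw [← mul_assoc, hs2, one_mul]
        rw [h1]
        exact mul_mem (Subgroup.mem_sup_right (Subgroup.mem_zpowers s)) (Subgroup.mem_sup_left hg)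
  refine ⟨ht2, ht1, htK, hKab, hs2, hsK, hinv, hcent, ?_, ?_, ?_⟩
  · intro x hx hxx
    have h1 : x ∈ K ⊓ Subgroup.centralizer ({s} : Set G) := by
      refine Subgroup.mem_inf.2 ⟨hx, ?_⟩
      rw [Subgroup.mem_centralizer_singleton_iff, hsx x hx, inv_eq_of_mul_eq_one_left hxx]
    rw [hCK, Subgroup.mem_zpowers_iff] at h1
    obtain ⟨j, rfl⟩ := h1
    rcases Int.even_or_odd' j with ⟨i, hi | hi⟩
    · left
      rw [hi, zpow_mul, zpow_ofNat, pow_two, ht2, one_zpow]
    · right
      rw [hi, zpow_add, zpow_mul, zpow_ofNat, pow_two, ht2, one_zpow, zpow_one, one_mul]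
  · intro g x hx hx1 hg
    rw [← hcent, ← Subgroup.mem_centralizer_singleton_iff]
    by_contra hcon
    have h1 := hTI g hcon
    have h2 : g * x * g⁻¹ ∈ K ⊓ K.map (MulAut.conj g).toMonoidHom := ⟨hg, x, hx, rfl⟩
    rw [h1, Subgroup.mem_bot, mul_inv_eq_one, mul_eq_left] at h2
    exact hx1 h2
  · intro x hx hx1
    exact hconj t x ht (orderOf_eq_prime (by rw [pow_two]; exact hx) hx1)

/-- The abstract form of the Brauer–Suzuki–Wall Theorem. Let G be a finite group with an involution t and an abelian subgroup K of H = C_G(t) containing t, such that H = K⟨s⟩ for an involution s ∉ K with C_K(s) = ⟨t⟩ and s inverting every element of K, K ∩ K^g = 1 for every g outside H, and all involutions of G conjugate. Then G has a subgroup Q, of order q say, with |G| = q(q+1)(q−1)/2, C_G(x) = Q for every non-identity x ∈ Q, N_G(Q) = QD for an abelian subgroup D of order (q−1)/2 meeting Q trivially, and for every nontrivial subgroup X of D, N_G(X) = N_G(D) = D⟨u⟩ for some involution u ∉ D inverting D. -/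
theorem result {G : Type*} [Group G] [Finite G] (t : G) (ht : orderOf t = 2)
    (K : Subgroup G) (hKab : IsMulCommutative ↥K) (hKH : K ≤ Subgroup.centralizer ({t} : Set G)) (htK : t ∈ K)
    (s : G) (hs : orderOf s = 2) (hsH : s ∈ Subgroup.centralizer ({t} : Set G)) (hsK : s ∉ K)
    (hH : K ⊔ Subgroup.zpowers s = Subgroup.centralizer ({t} : Set G)) (hCK : K ⊓ Subgroup.centralizer ({s} : Set G) = Subgroup.zpowers t)
    (hinv : ∀ x ∈ K, s * x * s⁻¹ = x⁻¹)
    (hTI : ∀ g : G, g ∉ Subgroup.centralizer ({t} : Set G) → K ⊓ K.map (MulAut.conj g).toMonoidHom = ⊥)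
    (hconj : ∀ x y : G, orderOf x = 2 → orderOf y = 2 → IsConj x y) :
    ∃ Q D : Subgroup G, 2 * Nat.card G = Nat.card ↥Q * (Nat.card ↥Q + 1) * (Nat.card ↥Q - 1) ∧
      (∀ x ∈ Q, x ≠ 1 → Subgroup.centralizer ({x} : Set G) = Q) ∧
      IsMulCommutative ↥D ∧ 2 * Nat.card ↥D + 1 = Nat.card ↥Q ∧ Q ⊓ D = ⊥ ∧
      Subgroup.normalizer (Q : Set G) = Q ⊔ D ∧
      ∀ X : Subgroup G, X ≤ D → X ≠ ⊥ →
        Subgroup.normalizer (X : Set G) = Subgroup.normalizer (D : Set G) ∧
        ∃ u : G, orderOf u = 2 ∧ u ∉ D ∧ (∀ d ∈ D, u * d * u⁻¹ = d⁻¹) ∧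
          Subgroup.normalizer (D : Set G) = D ⊔ Subgroup.zpowers u := by
  have hb := mk_bw t ht K (fun x hx y hy => congrArg Subtype.val (hKab.1.1 (⟨x, hx⟩ : K) ⟨y, hy⟩)) hKH htK s hs hsH hsK hH hCK hinv hTI hconj
  obtain ⟨Q, D, h1, h2, h3, h4, h5, h6, h7⟩ := hb.conc
  exact ⟨Q, D, h1, h2, ⟨⟨fun a b => Subtype.ext (h3 a a.2 b b.2)⟩⟩, h4, h5, h6, h7⟩

end Cfsg.Agent.S3282
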