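import Cfsg.Statements.S3303
import Cfsg.Agent.LibCores

set_option autoImplicit false
open Cfsg

namespace Cfsg.Agent.S3303
open CfsgLib.Cores Subgroup
open scoped Pointwise

theorem cent_core {Q : Type*} [Group Q] [Finite Q] [Group.IsSolvable Q] (h : pPrimeCore 2 Q = ⊥) :
    centralizer (pCore 2 Q : Set Q) ≤ pCore 2 Q := by
  have hF : fittingSubgroup Q = pCore 2 Q := by
    haveI : Fact (Nat.Prime 2) := ⟨Nat.prime_two⟩
    apply le_antisymm _ (pCore_le_fittingSubgroup 2)
    rw [fittingSubgroup_eq_iSup_pCore]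
    refine iSup_le ?_
    rintro ⟨p, hp⟩
    by_cases h2 : p = 2
    · subst h2; exact le_rfl
    · haveI : Fact p.Prime := ⟨hp⟩
      have h1 : pCore p Q ≤ pPrimeCore 2 Q := by
        apply le_pPrimeCore inferInstance
        obtain ⟨n, hn⟩ := IsPGroup.iff_card.mp (pCore_isPGroup (G := Q) p)
        rw [hn]
        exact Nat.Coprime.pow_left n ((Nat.coprime_primes hp Nat.prime_two).mpr h2)
      exact h1.trans (h ▸ bot_le)
  have := centralizer_fittingSubgroup_le (G := Q)
  rwa [hF] at this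

theorem two_group {Q : Type*} [Group Q] [Finite Q] [Group.IsSolvable Q] (h : pPrimeCore 2 Q = ⊥)
    (hc : IsCyclic (pCore 2 Q)) : IsPGroup 2 Q := by
  haveI : Fact (Nat.Prime 2) := ⟨Nat.prime_two⟩
  have h1 : IsPGroup 2 (MulAut (pCore 2 Q)) := by
    obtain ⟨n, hn⟩ := IsPGroup.iff_card.mp (pCore_isPGroup (G := Q) 2)
    rcases Nat.eq_zero_or_pos n with h0 | h0
    · apply IsPGroup.of_card (n := 0)
      rw [IsCyclic.card_mulAut, hn, h0]; simp
    · apply IsPGroup.of_card (n := n - 1)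
      rw [IsCyclic.card_mulAut, hn, Nat.totient_prime_pow Nat.prime_two h0]; simp
  have h2 : IsPGroup 2 (MulAut.conjNormal (H := pCore 2 Q)).ker := by
    apply (pCore_isPGroup (G := Q) 2).to_le
    refine le_trans ?_ (cent_core h)
    intro x hx
    rw [mem_centralizer_iff]
    intro y hy
    have := congrArg (fun f : MulAut (pCore 2 Q) => ((f ⟨y, hy⟩ : pCore 2 Q) : Q)) (MonoidHom.mem_ker.mp hx)
    simp only [MulAut.conjNormal_apply, MulAut.one_apply] at this
    rw [mul_inv_eq_iff_eq_mul] at this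
    exact this.symm
  have h3 : IsPGroup 2 (⊤ : Subgroup (MulAut (pCore 2 Q))) := h1.to_subgroup _
  have h4 := h3.comap_of_ker_isPGroup _ h2
  rw [Subgroup.comap_top] at h4
  exact h4.of_equiv Subgroup.topEquiv

/-- Let G be a finite solvable group in which the intersection of any two distinct Sylow 2-subgroups is cyclic. Then G/O(G) has a normal Sylow 2-subgroup, where O(G) is the largest normal subgroup of odd order. -/
theorem result {G : Type*} [Group G] [Finite G] (hs : Group.IsSolvable G)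
    (hC : ∀ S T : Sylow 2 G, S ≠ T → IsCyclic ↥((S : Subgroup G) ⊓ (T : Subgroup G))) :
    ∃ P : Sylow 2 (G ⧸ Cfsg.oddCore G), (P : Subgroup (G ⧸ Cfsg.oddCore G)).Normal := by
  classical
  haveI := hs
  haveI : Fact (Nat.Prime 2) := ⟨Nat.prime_two⟩
  set q := QuotientGroup.mk' (oddCore G) with hq
  have hqs : Function.Surjective q := QuotientGroup.mk'_surjective _
  have hO : pPrimeCore 2 (G ⧸ oddCore G) = ⊥ := pPrimeCore_quotient_pPrimeCore 2
  set D := (pCore 2 (G ⧸ oddCore G)).comap q with hD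
  haveI hDn : D.Normal := inferInstance
  obtain ⟨R⟩ : Nonempty (Sylow 2 D) := inferInstance
  set R' : Subgroup G := (R : Subgroup D).map D.subtype with hR'
  have hR'p : IsPGroup 2 R' := R.isPGroup'.map _
  obtain ⟨S, hS⟩ := hR'p.exists_le_sylow
  set P : Sylow 2 (G ⧸ oddCore G) := S.mapSurjective hqs with hP
  by_cases hPn : (P : Subgroup (G ⧸ oddCore G)).Normal
  · exact ⟨P, hPn⟩
  exfalso
  have hfr : normalizer (R' : Set G) ⊔ D = ⊤ := Sylow.normalizer_sup_eq_top R
  have h1 : ∃ g : G ⧸ oddCore G, g • P ≠ P := by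
    by_contra hcon
    push Not at hcon
    apply hPn
    refine ⟨fun n hn g => ?_⟩
    have h2 := hcon g
    have h3 : g * n * g⁻¹ ∈ ((g • P : Sylow 2 (G ⧸ oddCore G)) : Subgroup (G ⧸ oddCore G)) := by
      rw [Sylow.coe_subgroup_smul]
      exact Subgroup.smul_mem_pointwise_smul n (MulAut.conj g) _ hn
    rw [h2] at h3
    exact h3
  obtain ⟨g, hg⟩ := h1
  obtain ⟨y, rfl⟩ := hqs g
  have hy : y ∈ normalizer (R' : Set G) ⊔ D := by rw [hfr]; trivial
  obtain ⟨n, hn, d, hd, rfl⟩ := Subgroup.mem_sup_of_normal_right.mp hy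
  have hdP : q d • P = P := by
    rw [Sylow.smul_eq_iff_mem_normalizer]
    exact Subgroup.le_normalizer (pCore_le_sylow P hd)
  rw [map_mul, mul_smul, hdP] at hg
  have hTne : S ≠ n • S := by
    intro he
    apply hg
    have h2 : (n • S).mapSurjective hqs = q n • S.mapSurjective hqs := by
      apply Sylow.ext
      rw [Sylow.coe_mapSurjective, Sylow.coe_subgroup_smul, Sylow.coe_subgroup_smul, Sylow.coe_mapSurjective]
      ext z
      constructor
      · rintro ⟨w, ⟨v, hv, rfl⟩, rfl⟩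
        refine ⟨q v, ⟨v, hv, rfl⟩, ?_⟩
        simp
      · rintro ⟨w, ⟨v, hv, rfl⟩, rfl⟩
        refine ⟨n * v * n⁻¹, ⟨v, hv, rfl⟩, ?_⟩
        simp
    rw [← he] at h2
    exact h2.symm
  have hle : R' ≤ (S : Subgroup G) ⊓ ((n • S : Sylow 2 G) : Subgroup G) := by
    refine le_inf hS ?_
    intro x hx
    rw [Sylow.coe_subgroup_smul]
    refine ⟨n⁻¹ * x * n, hS ?_, ?_⟩
    · have h3 := (Subgroup.mem_normalizer_iff.mp (inv_mem hn) x).mp hx
      simpa using h3
    · simp [mul_assoc]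
  have hcyc := hC _ _ hTne
  have hR'c : IsCyclic R' := by
    have := hcyc
    exact isCyclic_of_injective (Subgroup.inclusion hle) (Subgroup.inclusion_injective hle)
  have hmap : R'.map q = pCore 2 (G ⧸ oddCore G) := by
    have hf : Function.Surjective (q.subgroupComap (pCore 2 (G ⧸ oddCore G))) := by
      rintro ⟨z, hz⟩
      obtain ⟨w, rfl⟩ := hqs z
      exact ⟨⟨w, hz⟩, rfl⟩
    have h5 : ((R.mapSurjective hf : Sylow 2 (pCore 2 (G ⧸ oddCore G))) : Subgroup (pCore 2 (G ⧸ oddCore G))) = ⊤ := by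
      have h6 : IsPGroup 2 (⊤ : Subgroup (pCore 2 (G ⧸ oddCore G))) := (pCore_isPGroup 2).to_subgroup _
      exact ((R.mapSurjective hf).is_maximal' h6 le_top).symm
    apply le_antisymm
    · rintro z ⟨w, ⟨v, hv, rfl⟩, rfl⟩
      exact v.2
    · intro z hz
      have h7 : (⟨z, hz⟩ : pCore 2 (G ⧸ oddCore G)) ∈ ((R.mapSurjective hf : Sylow 2 (pCore 2 (G ⧸ oddCore G))) : Subgroup (pCore 2 (G ⧸ oddCore G))) := by
        rw [h5]; trivial
      rw [Sylow.coe_mapSurjective] at h7
      obtain ⟨v, hv, hv2⟩ := h7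
      exact ⟨v, ⟨v, hv, rfl⟩, congrArg Subtype.val hv2⟩
  have hcc : IsCyclic (pCore 2 (G ⧸ oddCore G)) := by
    rw [← hmap]
    exact isCyclic_of_surjective (q.subgroupMap R') (q.subgroupMap_surjective R')
  have h8 := two_group hO hcc
  apply hPn
  have h9 : (P : Subgroup (G ⧸ oddCore G)) = ⊤ := (P.is_maximal' (h8.to_subgroup ⊤) le_top).symm
  rw [h9]
  infer_instance

end Cfsg.Agent.S3303
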