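import Cfsg.Statements.S3305
import Mathlib
import Cfsg.Agent.LibFusionH12
set_option autoImplicit false
open Cfsg

namespace Cfsg.Agent.S3305

open Cfsg Subgroup CfsgLib.FusionH12 in
private theorem key {G : Type*} [Group G] [Finite G] (H : Subgroup G) [H.Normal]
    (S' : Sylow 2 (G ⧸ H)) {D : Subgroup G} (hD : IsPGroup 2 D)
    (hDS : D ≤ (S' : Subgroup (G ⧸ H)).comap (QuotientGroup.mk' H)) :
    ∃ S : Sylow 2 G, D ≤ (S : Subgroup G) ∧
      (S : Subgroup G).map (QuotientGroup.mk' H) = (S' : Subgroup (G ⧸ H)) := by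
  obtain ⟨S, hS⟩ := Sylow.mapSurjective_surjective (QuotientGroup.mk'_surjective H) 2 S'
  have hSc : (S : Subgroup G).map (QuotientGroup.mk' H) = (S' : Subgroup (G ⧸ H)) := by
    rw [← hS]; rfl
  have h1 : SylIn 2 (S : Subgroup G) ((S' : Subgroup (G ⧸ H)).comap (QuotientGroup.mk' H)) :=
    (SylIn.ofSylow S).mono (by rw [← hSc]; exact Subgroup.le_comap_map _ _) le_top
  obtain ⟨a, ha, haD⟩ := h1.exists_conj_le hD hDS
  have h2 : SylIn 2 (cj a⁻¹ (S : Subgroup G)) ⊤ := by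
    have := (SylIn.ofSylow S).cj a⁻¹
    rwa [cj_top] at this
  obtain ⟨S1, hS1⟩ := h2.exists_sylow_coe
  refine ⟨S1, ?_, ?_⟩
  · rw [hS1]
    exact cj_le_iff.mp haD
  · rw [hS1]
    have h3 : QuotientGroup.mk' H a⁻¹ ∈ (S' : Subgroup (G ⧸ H)) := by
      rw [map_inv]; exact inv_mem ha
    have h4 : (cj a⁻¹ (S : Subgroup G)).map (QuotientGroup.mk' H)
        = cj (QuotientGroup.mk' H a⁻¹) ((S : Subgroup G).map (QuotientGroup.mk' H)) := by
      unfold cj
      rw [Subgroup.map_map, Subgroup.map_map]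
      congr 1
    rw [h4, hSc]
    exact cj_of_mem h3

/-- If any two distinct Sylow 2-subgroups of the finite group G intersect in a cyclic group, then the same holds in every quotient group G/H, H a normal subgroup of G. -/
theorem result {G : Type*} [Group G] [Finite G]
    (hC : ∀ S T : Sylow 2 G, S ≠ T → IsCyclic ↥((S : Subgroup G) ⊓ (T : Subgroup G))) (H : Subgroup G) [H.Normal] :
    ∀ S T : Sylow 2 (G ⧸ H), S ≠ T → IsCyclic ↥((S : Subgroup (G ⧸ H)) ⊓ (T : Subgroup (G ⧸ H))) := by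
  classical
  intro S' T' hne
  obtain ⟨D₂, -, hD₂⟩ := CfsgLib.FusionH12.SylIn.exists_ge (p := 2) (P := (⊥ : Subgroup G))
    (H := ((S' : Subgroup (G ⧸ H)) ⊓ T').comap (QuotientGroup.mk' H)) IsPGroup.of_bot bot_le
  obtain ⟨S, hDS, hS⟩ := key H S' hD₂.pg (hD₂.le.trans (Subgroup.comap_mono inf_le_left))
  obtain ⟨T, hDT, hT⟩ := key H T' hD₂.pg (hD₂.le.trans (Subgroup.comap_mono inf_le_right))
  have hST : S ≠ T := by
    rintro rfl
    exact hne (Sylow.ext (hS.symm.trans hT))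
  have hcyc := hC S T hST
  have hDc : IsCyclic D₂ := by
    have hle : D₂ ≤ (S : Subgroup G) ⊓ T := le_inf hDS hDT
    exact isCyclic_of_injective (Subgroup.inclusion hle) (Subgroup.inclusion_injective hle)
  have hmap : D₂.map (QuotientGroup.mk' H) = (S' : Subgroup (G ⧸ H)) ⊓ T' := by
    have h1 : D₂.map (QuotientGroup.mk' H) ≤ (S' : Subgroup (G ⧸ H)) ⊓ T' :=
      Subgroup.map_le_iff_le_comap.mpr hD₂.le
    have h2 : (((S' : Subgroup (G ⧸ H)) ⊓ T').comap (QuotientGroup.mk' H)).map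
        (QuotientGroup.mk' H) = (S' : Subgroup (G ⧸ H)) ⊓ T' :=
      Subgroup.map_comap_eq_self_of_surjective (QuotientGroup.mk'_surjective H) _
    have h3 : (D₂.map (QuotientGroup.mk' H)).relIndex ((S' : Subgroup (G ⧸ H)) ⊓ T') ∣
        D₂.relIndex (((S' : Subgroup (G ⧸ H)) ⊓ T').comap (QuotientGroup.mk' H)) := by
      have h4 := Subgroup.relIndex_map_map (QuotientGroup.mk' H) D₂
        (((S' : Subgroup (G ⧸ H)) ⊓ T').comap (QuotientGroup.mk' H))
      rw [h2] at h4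
      rw [h4]
      have h5 : (QuotientGroup.mk' H).ker ≤
          (((S' : Subgroup (G ⧸ H)) ⊓ T').comap (QuotientGroup.mk' H)) := by
        intro x hx
        rw [Subgroup.mem_comap, MonoidHom.mem_ker.mp hx]
        exact one_mem _
      rw [sup_of_le_left h5]
      exact Subgroup.relIndex_dvd_of_le_left _ le_sup_left
    have hp : IsPGroup 2 ↥((S' : Subgroup (G ⧸ H)) ⊓ (T' : Subgroup (G ⧸ H))) :=
      S'.2.to_le inf_le_left
    obtain ⟨n, hn⟩ := IsPGroup.iff_card.mp hp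
    have h6 : (D₂.map (QuotientGroup.mk' H)).relIndex ((S' : Subgroup (G ⧸ H)) ⊓ T') ∣ 2 ^ n := by
      rw [← hn]; exact Subgroup.relIndex_dvd_card _ _
    obtain ⟨k, -, hk⟩ := (Nat.dvd_prime_pow Nat.prime_two).mp h6
    have hk0 : k = 0 := by
      by_contra h0
      apply hD₂.idx
      refine dvd_trans ?_ h3
      rw [hk]
      exact dvd_pow_self 2 h0
    rw [hk0, pow_zero] at hk
    exact le_antisymm h1 (Subgroup.relIndex_eq_one.mp hk)
  rw [← hmap]
  exact isCyclic_of_surjective ((QuotientGroup.mk' H).subgroupMap D₂)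
    ((QuotientGroup.mk' H).subgroupMap_surjective D₂)

end Cfsg.Agent.S3305
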