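import Cfsg.Statements.S3335
import Mathlib
import Cfsg.Agent.LibCarmH12

set_option autoImplicit false
open Cfsg

namespace Cfsg.Agent.S3335

open CfsgLib.CosEnH12 CfsgLib.CarmH12 Equiv Equiv.Perm

theorem swap_comm4 {α : Type*} [DecidableEq α] {a b c d : α} (h1 : c ≠ a) (h2 : c ≠ b)
    (h3 : d ≠ a) (h4 : d ≠ b) : swap a b * swap c d = swap c d * swap a b := by
  rw [mul_swap_eq_swap_mul, swap_apply_of_ne_of_ne h1 h2, swap_apply_of_ne_of_ne h3 h4]

theorem sq_of_comm {α : Type*} [Group α] {a b : α} (h : a * b = b * a) (ha : a * a = 1)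
    (hb : b * b = 1) : (a * b) ^ 2 = 1 := by
  rw [pow_two]
  calc a * b * (a * b) = a * (b * a) * b := by group
    _ = a * (a * b) * b := by rw [h]
    _ = (a * a) * (b * b) := by group
    _ = 1 := by rw [ha, hb, mul_one]

theorem three_pow {α : Type*} [DecidableEq α] [Fintype α] {a b c : α} (ab : a ≠ b) (ac : a ≠ c)
    (bc : b ≠ c) : (swap a b * swap a c) ^ 3 = 1 := by
  have := (isThreeCycle_swap_mul_swap_same ab ac bc).orderOf
  rw [← this]; exact pow_orderOf_eq_one _

def pt (N k : ℕ) : Fin (N + 3) := ⟨k % (N + 3), Nat.mod_lt _ (by omega)⟩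

theorem pt_ne {N k l : ℕ} (hk : k < N + 3) (hl : l < N + 3) (h : k ≠ l) : pt N k ≠ pt N l := by
  intro he
  have := congrArg Fin.val he
  simp only [pt] at this
  rw [Nat.mod_eq_of_lt hk, Nat.mod_eq_of_lt hl] at this
  exact h this

def s (N : ℕ) : Perm (Fin (N + 3)) := swap (pt N 0) (pt N 1)

def P (N i : ℕ) : Perm (Fin (N + 3)) :=
  if i = 0 then swap (pt N 0) (pt N 2) * s N else s N * swap (pt N (i + 1)) (pt N (i + 2))

theorem P_zero (N : ℕ) : P N 0 = swap (pt N 0) (pt N 2) * s N := by simp [P]
theorem P_pos (N i : ℕ) (h : 1 ≤ i) : P N i = s N * swap (pt N (i + 1)) (pt N (i + 2)) := by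
  unfold P; rw [if_neg (by omega)]

theorem ss (N : ℕ) : s N * s N = 1 := swap_mul_self _ _

theorem s_comm (N i : ℕ) (h : 1 ≤ i) (h2 : i < N + 1) :
    s N * swap (pt N (i + 1)) (pt N (i + 2)) = swap (pt N (i + 1)) (pt N (i + 2)) * s N :=
  swap_comm4 (pt_ne (by omega) (by omega) (by omega)) (pt_ne (by omega) (by omega) (by omega))
    (pt_ne (by omega) (by omega) (by omega)) (pt_ne (by omega) (by omega) (by omega))

theorem relP (N : ℕ) : Rel (P N) (N + 1) := by
  refine ⟨fun _ => ?_, fun i h1 h2 => ?_, fun i h => ?_, fun i j h1 h2 => ?_⟩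
  · rw [P_zero]
    exact three_pow (pt_ne (by omega) (by omega) (by omega))
      (pt_ne (by omega) (by omega) (by omega)) (pt_ne (by omega) (by omega) (by omega))
  · rw [P_pos N i h1]
    exact sq_of_comm (s_comm N i h1 h2) (ss N) (swap_mul_self _ _)
  · rcases Nat.eq_zero_or_pos i with h0 | h0
    · subst h0
      rw [P_zero, P_pos N (0 + 1) (by omega)]
      have : swap (pt N 0) (pt N 2) * s N * (s N * swap (pt N (0 + 1 + 1)) (pt N (0 + 1 + 2))) =
          swap (pt N 2) (pt N 0) * swap (pt N 2) (pt N 3) := by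
        rw [mul_assoc, ← mul_assoc (s N) (s N), ss, one_mul, swap_comm (pt N 0) (pt N 2)]
      rw [this]
      exact three_pow (pt_ne (by omega) (by omega) (by omega))
        (pt_ne (by omega) (by omega) (by omega)) (pt_ne (by omega) (by omega) (by omega))
    · rw [P_pos N i h0, P_pos N (i + 1) (by omega), s_comm N i h0 (by omega)]
      have : swap (pt N (i + 1)) (pt N (i + 2)) * s N *
          (s N * swap (pt N (i + 1 + 1)) (pt N (i + 1 + 2))) =
          swap (pt N (i + 2)) (pt N (i + 1)) * swap (pt N (i + 2)) (pt N (i + 3)) := by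
        rw [mul_assoc, ← mul_assoc (s N) (s N), ss, one_mul,
          swap_comm (pt N (i + 1)) (pt N (i + 2))]
      rw [this]
      exact three_pow (pt_ne (by omega) (by omega) (by omega))
        (pt_ne (by omega) (by omega) (by omega)) (pt_ne (by omega) (by omega) (by omega))
  · rw [P_pos N j (by omega)]
    rcases Nat.eq_zero_or_pos i with h0 | h0
    · subst h0
      rw [P_zero]
      have : swap (pt N 0) (pt N 2) * s N * (s N * swap (pt N (j + 1)) (pt N (j + 2))) =
          swap (pt N 0) (pt N 2) * swap (pt N (j + 1)) (pt N (j + 2)) := by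
        rw [mul_assoc, ← mul_assoc (s N) (s N), ss, one_mul]
      rw [this]
      exact sq_of_comm (swap_comm4 (pt_ne (by omega) (by omega) (by omega))
        (pt_ne (by omega) (by omega) (by omega))
        (pt_ne (by omega) (by omega) (by omega)) (pt_ne (by omega) (by omega) (by omega)))
        (swap_mul_self _ _) (swap_mul_self _ _)
    · rw [P_pos N i h0, s_comm N i h0 (by omega)]
      have : swap (pt N (i + 1)) (pt N (i + 2)) * s N *
          (s N * swap (pt N (j + 1)) (pt N (j + 2))) =
          swap (pt N (i + 1)) (pt N (i + 2)) * swap (pt N (j + 1)) (pt N (j + 2)) := by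
        rw [mul_assoc, ← mul_assoc (s N) (s N), ss, one_mul]
      rw [this]
      exact sq_of_comm (swap_comm4 (pt_ne (by omega) (by omega) (by omega))
        (pt_ne (by omega) (by omega) (by omega))
        (pt_ne (by omega) (by omega) (by omega)) (pt_ne (by omega) (by omega) (by omega)))
        (swap_mul_self _ _) (swap_mul_self _ _)

def R (N : ℕ) : Subgroup (Perm (Fin (N + 3))) := Subgroup.closure (P N '' {i | i < N + 1})

theorem P_mem (N i : ℕ) (h : i < N + 1) : P N i ∈ R N := Subgroup.subset_closure ⟨i, h, rfl⟩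

theorem s_inv (N : ℕ) : (s N)⁻¹ = s N := inv_eq_of_mul_eq_one_left (ss N)

theorem norm (N : ℕ) (r : Perm (Fin (N + 3))) (hr : r ∈ R N) : s N * r * s N ∈ R N := by
  unfold R at hr
  induction hr using Subgroup.closure_induction with
  | mem t ht =>
    obtain ⟨i, hi, rfl⟩ := ht
    rcases Nat.eq_zero_or_pos i with h0 | h0
    · subst h0
      have : s N * P N 0 * s N = (P N 0)⁻¹ := by
        rw [P_zero, mul_inv_rev, swap_inv, s_inv, mul_assoc, mul_assoc, ss, mul_one]
      rw [this]
      exact (R N).inv_mem (P_mem N 0 (by omega))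
    · have : s N * P N i * s N = P N i := by
        rw [P_pos N i h0, ← mul_assoc, ss, one_mul, ← s_comm N i h0 hi]
      rw [this]
      exact P_mem N i hi
  | one => rw [mul_one, ss]; exact (R N).one_mem
  | mul a b _ _ iha ihb =>
    have : s N * (a * b) * s N = (s N * a * s N) * (s N * b * s N) := by
      calc s N * (a * b) * s N = s N * a * 1 * b * s N := by group
        _ = s N * a * (s N * s N) * b * s N := by rw [ss]
        _ = _ := by group
    rw [this]; exact (R N).mul_mem iha ihb
  | inv a _ ih =>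
    have : s N * a⁻¹ * s N = (s N * a * s N)⁻¹ := by
      rw [mul_inv_rev, mul_inv_rev, s_inv, mul_assoc]
    rw [this]; exact (R N).inv_mem ih

theorem adj (N : ℕ) (i : Fin (N + 2)) : swap i.castSucc i.succ * s N ∈ R N := by
  have e1 : i.castSucc = pt N i.val := by
    apply Fin.ext
    simp only [pt, Fin.val_castSucc]
    rw [Nat.mod_eq_of_lt (by have := i.2; omega)]
  have e2 : i.succ = pt N (i.val + 1) := by
    apply Fin.ext
    simp only [pt, Fin.val_succ]
    rw [Nat.mod_eq_of_lt (by have := i.2; omega)]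
  rw [e1, e2]
  have hi := i.2
  rcases (show i.val = 0 ∨ i.val = 1 ∨ 2 ≤ i.val by omega) with h | h | h
  · rw [h]
    change s N * s N ∈ R N
    rw [ss]; exact (R N).one_mem
  · rw [h]
    have h1 : swap (pt N 1) (pt N 2) = s N * P N 0 := by
      have h2 : s N * swap (pt N 0) (pt N 2) = swap (pt N 1) (pt N 2) * s N := by
        have := mul_swap_eq_swap_mul (s N) (pt N 0) (pt N 2)
        have g1 : s N (pt N 0) = pt N 1 := swap_apply_left _ _
        have g2 : s N (pt N 2) = pt N 2 := swap_apply_of_ne_of_ne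
          (pt_ne (by omega) (by omega) (by omega)) (pt_ne (by omega) (by omega) (by omega))
        rw [this, g1, g2]
      rw [P_zero, ← mul_assoc, h2, mul_assoc, ss, mul_one]
    rw [h1]
    exact norm N _ (P_mem N 0 (by omega))
  · obtain ⟨j, hj⟩ : ∃ j, i.val = j + 1 := ⟨i.val - 1, by omega⟩
    rw [hj]
    have h1 : swap (pt N (j + 1)) (pt N (j + 1 + 1)) * s N = P N j := by
      rw [P_pos N j (by omega), s_comm N j (by omega) (by omega)]
    rw [h1]
    exact P_mem N j (by omega)

theorem all (N : ℕ) (σ : Perm (Fin (N + 3))) : σ ∈ R N ∨ σ * s N ∈ R N := by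
  have hσ : σ ∈ Submonoid.closure (Set.range fun i : Fin (N + 2) => swap i.castSucc i.succ) := by
    rw [Equiv.Perm.mclosure_swap_castSucc_succ]; exact Submonoid.mem_top _
  induction hσ using Submonoid.closure_induction with
  | mem x hx =>
    obtain ⟨i, rfl⟩ := hx
    exact Or.inr (adj N i)
  | one => exact Or.inl (R N).one_mem
  | mul a b _ _ iha ihb =>
    rcases iha with ha | ha <;> rcases ihb with hb | hb
    · exact Or.inl ((R N).mul_mem ha hb)
    · right
      rw [mul_assoc]
      exact (R N).mul_mem ha hb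
    · right
      have : a * b * s N = (a * s N) * (s N * b * s N) := by
        calc a * b * s N = a * 1 * b * s N := by group
          _ = a * (s N * s N) * b * s N := by rw [ss]
          _ = _ := by group
      rw [this]
      exact (R N).mul_mem ha (norm N b hb)
    · left
      have : a * b = (a * s N) * (s N * (b * s N) * s N) := by
        calc a * b = a * 1 * b * 1 := by group
          _ = a * (s N * s N) * b * (s N * s N) := by rw [ss]
          _ = _ := by group
      rw [this]
      exact (R N).mul_mem ha (norm N _ hb)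

theorem sign_s (N : ℕ) : sign (s N) = -1 :=
  sign_swap (pt_ne (by omega) (by omega) (by omega))

theorem sign_P (N i : ℕ) (h : i < N + 1) : sign (P N i) = 1 := by
  rcases Nat.eq_zero_or_pos i with h0 | h0
  · subst h0
    rw [P_zero, map_mul, sign_s, sign_swap (pt_ne (by omega) (by omega) (by omega))]
    norm_num
  · rw [P_pos N i h0, map_mul, sign_s, sign_swap (pt_ne (by omega) (by omega) (by omega))]
    norm_num

theorem R_le (N : ℕ) : R N ≤ alternatingGroup (Fin (N + 3)) := by
  unfold R
  rw [Subgroup.closure_le]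
  rintro _ ⟨i, hi, rfl⟩
  exact Equiv.Perm.mem_alternatingGroup.mpr (sign_P N i hi)

theorem alt_le (N : ℕ) (σ : Perm (Fin (N + 3))) (h : σ ∈ alternatingGroup (Fin (N + 3))) :
    σ ∈ R N := by
  rcases all N σ with h1 | h1
  · exact h1
  · have h2 := Equiv.Perm.mem_alternatingGroup.mp (R_le N h1)
    rw [map_mul, sign_s, Equiv.Perm.mem_alternatingGroup.mp h] at h2
    exact absurd h2 (by decide)


/-- A presentation of the alternating group of degree n ≥ 3 on generators x_1, …, x_{n−2} (indexed here by 0, …, n−3): the first generator cubes to 1, every other generator squares to 1, the product of two consecutive generators has order dividing 3, and the product of two generators at distance at least 2 has order dividing 2. The group so presented is isomorphic to the alternating group of degree n. -/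
theorem result (n : ℕ) (hn : 3 ≤ n) :
    Nonempty (PresentedGroup
      ({g : FreeGroup (Fin (n - 2)) | ∃ i : Fin (n - 2), i.val = 0 ∧ g = FreeGroup.of i ^ 3} ∪
       {g | ∃ i : Fin (n - 2), 1 ≤ i.val ∧ g = FreeGroup.of i ^ 2} ∪
       {g | ∃ i j : Fin (n - 2), j.val = i.val + 1 ∧ g = (FreeGroup.of i * FreeGroup.of j) ^ 3} ∪
       {g | ∃ i j : Fin (n - 2), i.val + 1 < j.val ∧ g = (FreeGroup.of i * FreeGroup.of j) ^ 2})
      ≃* alternatingGroup (Fin n)) := by
  obtain ⟨N, rfl⟩ : ∃ N, n = N + 3 := ⟨n - 3, by omega⟩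
  obtain ⟨rels, hrels⟩ : ∃ r : Set (FreeGroup (Fin (N + 3 - 2))), r =
      ({g : FreeGroup (Fin (N + 3 - 2)) | ∃ i : Fin (N + 3 - 2), i.val = 0 ∧ g = FreeGroup.of i ^ 3} ∪
       {g | ∃ i : Fin (N + 3 - 2), 1 ≤ i.val ∧ g = FreeGroup.of i ^ 2} ∪
       {g | ∃ i j : Fin (N + 3 - 2), j.val = i.val + 1 ∧ g = (FreeGroup.of i * FreeGroup.of j) ^ 3} ∪
       {g | ∃ i j : Fin (N + 3 - 2), i.val + 1 < j.val ∧ g = (FreeGroup.of i * FreeGroup.of j) ^ 2}) :=
    ⟨_, rfl⟩
  rw [← hrels]
  have hrel : ∀ r ∈ rels, PresentedGroup.mk rels r = 1 := fun r hr =>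
    PresentedGroup.mk_eq_one_iff.mpr (Subgroup.subset_normalClosure hr)
  let x : ℕ → PresentedGroup rels := fun i =>
    if h : i < N + 3 - 2 then PresentedGroup.of ⟨i, h⟩ else 1
  have hx : ∀ i (h : i < N + 3 - 2), x i = PresentedGroup.of ⟨i, h⟩ := fun i h => by
    simp only [x, dif_pos h]
  have hR : Rel x (N + 1) := by
    refine ⟨fun _ => ?_, fun i h1 h2 => ?_, fun i h => ?_, fun i j h1 h2 => ?_⟩
    · rw [hx 0 (by omega)]
      have := hrel (FreeGroup.of (⟨0, by omega⟩ : Fin (N + 3 - 2)) ^ 3) (by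
        rw [hrels]; exact Or.inl (Or.inl (Or.inl ⟨_, rfl, rfl⟩)))
      rw [map_pow] at this; exact this
    · rw [hx i (by omega)]
      have := hrel (FreeGroup.of (⟨i, by omega⟩ : Fin (N + 3 - 2)) ^ 2) (by
        rw [hrels]; exact Or.inl (Or.inl (Or.inr ⟨_, h1, rfl⟩)))
      rw [map_pow] at this; exact this
    · rw [hx i (by omega), hx (i + 1) (by omega)]
      have := hrel ((FreeGroup.of (⟨i, by omega⟩ : Fin (N + 3 - 2)) *
          FreeGroup.of (⟨i + 1, by omega⟩ : Fin (N + 3 - 2))) ^ 3) (by
        rw [hrels]; exact Or.inl (Or.inr ⟨_, _, rfl, rfl⟩))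
      rw [map_pow, map_mul] at this; exact this
    · rw [hx i (by omega), hx j (by omega)]
      have := hrel ((FreeGroup.of (⟨i, by omega⟩ : Fin (N + 3 - 2)) *
          FreeGroup.of (⟨j, by omega⟩ : Fin (N + 3 - 2))) ^ 2) (by
        rw [hrels]; exact Or.inr ⟨_, _, h1, rfl⟩)
      rw [map_pow, map_mul] at this; exact this
  have hgen : Subgroup.closure (x '' {i | i < N + 1}) = ⊤ := by
    rw [← PresentedGroup.closure_range_of rels]
    congr 1
    ext z
    constructor
    · rintro ⟨i, hi, rfl⟩
      have hi' : i < N + 1 := hi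
      exact ⟨⟨i, by omega⟩, (hx i (by omega)).symm⟩
    · rintro ⟨i, rfl⟩
      refine ⟨i.val, ?_, hx i.val i.2⟩
      have := i.2
      change i.val < N + 1
      omega
  obtain ⟨hfin, hle⟩ := bound (N + 1) (by omega) (PresentedGroup rels) x hR hgen
  have hRP := relP N
  let f : Fin (N + 3 - 2) → alternatingGroup (Fin (N + 3)) := fun i =>
    ⟨P N i.val, Equiv.Perm.mem_alternatingGroup.mpr (sign_P N i.val (by have := i.2; omega))⟩
  have hf : ∀ r ∈ rels, FreeGroup.lift f r = 1 := by
    rw [hrels]
    rintro r (((⟨i, hi, rfl⟩ | ⟨i, hi, rfl⟩) | ⟨i, j, hij, rfl⟩) | ⟨i, j, hij, rfl⟩)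
    · rw [map_pow, FreeGroup.lift_apply_of]
      apply Subtype.ext
      change (P N i.val) ^ 3 = 1
      rw [hi]; exact hRP.r0 (by omega)
    · rw [map_pow, FreeGroup.lift_apply_of]
      apply Subtype.ext
      exact hRP.r2 i.val hi (by have := i.2; omega)
    · rw [map_pow, map_mul, FreeGroup.lift_apply_of, FreeGroup.lift_apply_of]
      apply Subtype.ext
      change (P N i.val * P N j.val) ^ 3 = 1
      rw [hij]; exact hRP.r3 i.val (by have := j.2; omega)
    · rw [map_pow, map_mul, FreeGroup.lift_apply_of, FreeGroup.lift_apply_of]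
      apply Subtype.ext
      exact hRP.r4 i.val j.val hij (by have := j.2; omega)
  apply equiv_of_surj (PresentedGroup.toGroup hf)
  · intro σ
    have h1 : (R N) ≤ ((PresentedGroup.toGroup hf).range).map
        (alternatingGroup (Fin (N + 3))).subtype := by
      unfold R
      rw [Subgroup.closure_le]
      rintro _ ⟨i, hi, rfl⟩
      have hi' : i < N + 1 := hi
      refine ⟨f ⟨i, by omega⟩, ⟨PresentedGroup.of ⟨i, by omega⟩, PresentedGroup.toGroup.of hf⟩, rfl⟩
    obtain ⟨τ, ⟨g, hg⟩, hτ⟩ := h1 (alt_le N σ.val σ.2)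
    refine ⟨g, ?_⟩
    rw [hg]
    exact Subtype.ext hτ
  · have hnt : Nontrivial (Fin (N + 3)) := Fin.nontrivial_iff_two_le.mpr (by omega)
    have h2 := two_mul_nat_card_alternatingGroup (α := Fin (N + 3))
    rw [Nat.card_perm] at h2
    have h3 : Nat.card (Fin (N + 3)) = N + 3 := by simp
    rw [h3] at h2
    have h4 : (N + 1 + 2).factorial = (N + 3).factorial := rfl
    have h5 : 2 * Nat.card (PresentedGroup rels) ≤ (N + 3).factorial := hle.trans h4.le
    omega

end Cfsg.Agent.S3335
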