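import Cfsg.Statements.S3349
import Mathlib

set_option autoImplicit false
open Cfsg

namespace Cfsg.Agent.S3349

open Subgroup

/-- Let Q be a finite extraspecial p-group and α an automorphism of Q fixing every element of some maximal abelian subgroup of Q. Then the order of α is a power of p. -/
theorem result {Q : Type*} [Group Q] [Finite Q]
    (p : ℕ) [Fact p.Prime] (hQ : Cfsg.IsExtraspecial p Q) (α : MulAut Q)
    (A : Subgroup Q) (hA : IsMulCommutative A) (hmax : ∀ B : Subgroup Q, A ≤ B → IsMulCommutative B → B = A)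
    (hfix : ∀ a ∈ A, α a = a) :
    ∃ k : ℕ, orderOf α = p ^ k := by
  obtain ⟨⟨hp, -, hcomm⟩, -⟩ := hQ
  have hAc : ∀ a ∈ A, ∀ b ∈ A, a * b = b * a := by
    intro a ha b hb
    exact congrArg Subtype.val (hA.is_comm.comm (⟨a, ha⟩ : A) ⟨b, hb⟩)
  -- anything centralizing `A` lies in `A`
  have hcent : ∀ x : Q, (∀ a ∈ A, a * x = x * a) → x ∈ A := by
    intro x hx
    have h1 : IsMulCommutative (closure ((A : Set Q) ∪ {x})) := by
      refine ⟨⟨?_⟩⟩
      rintro ⟨y, hy⟩ ⟨z, hz⟩
      apply Subtype.ext
      change y * z = z * y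
      have key : ∀ u ∈ (A : Set Q) ∪ {x}, ∀ v ∈ (A : Set Q) ∪ {x}, u * v = v * u := by
        rintro u (hu | hu) v (hv | hv)
        · exact hAc u hu v hv
        · rw [Set.mem_singleton_iff] at hv; subst hv; exact hx u hu
        · rw [Set.mem_singleton_iff] at hu; subst hu; exact (hx v hv).symm
        · rw [Set.mem_singleton_iff] at hu hv; subst hu; subst hv; rfl
      have h2 : closure ((A : Set Q) ∪ {x}) ≤ centralizer ((A : Set Q) ∪ {x}) := by
        rw [closure_le]
        intro u hu
        rw [SetLike.mem_coe, mem_centralizer_iff]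
        intro v hv
        exact key v hv u hu
      have h3 : closure ((A : Set Q) ∪ {x}) ≤ centralizer (closure ((A : Set Q) ∪ {x}) : Set Q) := by
        rw [le_centralizer_iff]
        rw [closure_le]
        intro u hu
        rw [SetLike.mem_coe, mem_centralizer_iff]
        intro v hv
        exact (mem_centralizer_iff.mp (h2 hv) u hu).symm
      exact (mem_centralizer_iff.mp (h3 hz) y hy)
    have h2 := hmax _ (fun a ha => subset_closure (Or.inl ha)) h1
    rw [← h2]
    exact subset_closure (Or.inr rfl)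
  have hZA : ∀ z ∈ center Q, z ∈ A := by
    intro z hz
    apply hcent
    intro a _
    exact mem_center_iff.mp hz a
  have h1 : ∀ x : Q, x⁻¹ * α x ∈ A := by
    intro x
    apply hcent
    intro b hb
    have h2 : x * b * x⁻¹ * b⁻¹ ∈ A := by
      apply hZA
      rw [← hcomm]
      exact commutator_mem_commutator (mem_top x) (mem_top b)
    have h3 := hfix _ h2
    simp only [map_mul, map_inv, hfix b hb] at h3
    have h4 : α x * b * (α x)⁻¹ = x * b * x⁻¹ := mul_right_cancel h3
    calc b * (x⁻¹ * α x) = x⁻¹ * (x * b * x⁻¹) * α x := by group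
      _ = x⁻¹ * (α x * b * (α x)⁻¹) * α x := by rw [h4]
      _ = x⁻¹ * α x * b := by group
  have h2 : ∀ (k : ℕ) (x : Q), (α ^ k) x = x * (x⁻¹ * α x) ^ k := by
    intro k x
    induction k with
    | zero => simp
    | succ k ih =>
      have e : α x = x * (x⁻¹ * α x) := by group
      rw [pow_succ', MulAut.mul_apply, ih, map_mul, map_pow, hfix _ (h1 x), pow_succ', ← mul_assoc, ← e]
  obtain ⟨n, hn⟩ := (IsPGroup.iff_card (p := p)).mp hp
  have h3 : α ^ (p ^ n) = 1 := by
    ext x
    rw [h2, ← hn, pow_card_eq_one', mul_one]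
    rfl
  obtain ⟨k, -, hk⟩ := (Nat.dvd_prime_pow (Fact.out : p.Prime)).mp (orderOf_dvd_of_pow_eq_one h3)
  exact ⟨k, hk⟩

end Cfsg.Agent.S3349
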