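import Cfsg.Statements.S3376
import Mathlib
import Cfsg.Agent.LibBGCore

set_option autoImplicit false
open Cfsg

namespace Cfsg.Agent.S3376

open Equiv Subgroup

/-- fixed-point-free elements of order three in degree nine -/
theorem ct (σ : Perm (Fin 9)) (h3 : σ ^ 3 = 1) (hf : ∀ i, σ i ≠ i) : σ.cycleType = Multiset.replicate 3 3 := by
  have h1 : σ ≠ 1 := by
    rintro rfl
    exact hf 0 rfl
  have ho : orderOf σ = 3 := orderOf_eq_prime h3 h1
  obtain ⟨n, hn⟩ := Perm.cycleType_prime_order (σ := σ) (by rw [ho]; exact Nat.prime_three)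
  have hs := Perm.sum_cycleType σ
  have hsup : σ.support = Finset.univ := by
    ext i
    simp [hf i]
  rw [hn, hsup, Multiset.sum_replicate, ho] at hs
  simp at hs
  have : n + 1 = 3 := by omega
  rw [hn, this, ho]

theorem card_cent (c : Perm (Fin 9)) (hc : c.cycleType = Multiset.replicate 3 3) : Nat.card (centralizer ({c} : Set (Perm (Fin 9)))) = 162 := by
  rw [Perm.nat_card_centralizer, hc]
  decide

theorem embed {G : Type*} [Group G] [Finite G] (hG : Nat.card G = 162) (H : Subgroup G) (hH : H.index = 9)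
    (hcore : ∀ N : Subgroup G, N.Normal → N ≤ H → N = ⊥) (z : G) (hz : ∀ g : G, g * z = z * g) (hz3 : z ^ 3 = 1) (hzH : z ∉ H)
    (c : Perm (Fin 9)) (hc3 : c ^ 3 = 1) (hcf : ∀ i, c i ≠ i) : Nonempty (G ≃* centralizer ({c} : Set (Perm (Fin 9)))) := by
  have hcard : Nat.card (G ⧸ H) = 9 := by rw [← hH]; rfl
  have e : (G ⧸ H) ≃ Fin 9 := (Finite.equivFinOfCardEq hcard)
  let φ : G →* Perm (Fin 9) := (e.permCongrHom.toMonoidHom).comp (MulAction.toPermHom G (G ⧸ H))
  have hφ : Function.Injective φ := by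
    rw [← MonoidHom.ker_eq_bot_iff]
    apply hcore _ inferInstance
    intro x hx
    rw [MonoidHom.mem_ker] at hx
    have h1 : MulAction.toPermHom G (G ⧸ H) x = 1 := by
      apply e.permCongrHom.injective
      rw [map_one]
      exact hx
    have h2 := congrArg (fun σ : Perm (G ⧸ H) => σ ((1 : G) : G ⧸ H)) h1
    simp only [MulAction.toPermHom_apply, MulAction.toPerm_apply, Perm.one_apply] at h2
    rw [MulAction.Quotient.smul_coe, QuotientGroup.eq] at h2
    simpa using h2
  have hfz : ∀ i, φ z i ≠ i := by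
    intro i hi
    obtain ⟨q, rfl⟩ := e.surjective i
    have h1 : e (z • q) = e q := by
      rw [← hi]
      simp [φ, Equiv.permCongrHom]
    have h2 := e.injective h1
    obtain ⟨g, rfl⟩ := QuotientGroup.mk_surjective q
    rw [MulAction.Quotient.smul_coe, QuotientGroup.eq] at h2
    apply hzH
    have : (z • g)⁻¹ * g = z⁻¹ := by
      rw [smul_eq_mul, ← hz]
      group
    rw [this] at h2
    simpa using h2
  have hcz := ct (φ z) (by rw [← map_pow, hz3, map_one]) hfz
  have hcc := ct c hc3 hcf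
  have hconj : IsConj (φ z) c := by
    rw [Perm.isConj_iff_cycleType_eq, hcz, hcc]
  obtain ⟨τ, hτ⟩ := isConj_iff.mp hconj
  let ψ : G →* Perm (Fin 9) := (MulAut.conj τ).toMonoidHom.comp φ
  have hψ : Function.Injective ψ := (MulAut.conj τ).injective.comp hφ
  have hle : ψ.range ≤ centralizer ({c} : Set (Perm (Fin 9))) := by
    rintro _ ⟨g, rfl⟩
    rw [mem_centralizer_singleton_iff]
    have h1 : c = ψ z := hτ.symm
    rw [h1, ← map_mul, ← map_mul, hz]
  have heq : ψ.range = centralizer ({c} : Set (Perm (Fin 9))) := by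
    apply Subgroup.eq_of_le_of_card_ge hle
    rw [card_cent c hcc, ← hG]
    exact (Nat.card_congr (MonoidHom.ofInjective hψ).toEquiv).le
  exact ⟨(MonoidHom.ofInjective hψ).trans (MulEquiv.subgroupCongr heq)⟩

theorem exists_compl {G : Type*} [Group G] [Finite G] (J Z : Subgroup G) (hJc : IsMulCommutative J) (hexp : ∀ a ∈ J, a ^ 3 = 1)
    (hZJ : Z ≤ J) (t : G) (ht : t * t = 1) (htJ : ∀ a ∈ J, t * a * t⁻¹ ∈ J) (htZ : ∀ z ∈ Z, t * z = z * t)
    (hJ : Nat.card J = 27) (hZ : Nat.card Z = 3) :
    ∃ K : Subgroup G, K ≤ J ∧ K ⊓ Z = ⊥ ∧ Nat.card K = 9 ∧ ∀ a ∈ K, t * a * t⁻¹ ∈ K := by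
  have hcomm : ∀ a ∈ J, ∀ b ∈ J, a * b = b * a := fun a ha b hb => congrArg Subtype.val (hJc.is_comm.comm ⟨a, ha⟩ ⟨b, hb⟩)
  let _ : CommGroup J := { (inferInstance : Group J) with mul_comm := hJc.is_comm.comm }
  let _ : CommGroup Z := { (inferInstance : Group Z) with mul_comm := fun a b => Subtype.ext (hcomm a (hZJ a.2) b (hZJ b.2)) }
  have iJ : Module (ZMod 3) (Additive J) := AddCommGroup.zmodModule (fun x => by
    change x.toMul ^ 3 = 1
    exact Subtype.ext (hexp _ x.toMul.2))
  have iZ : Module (ZMod 3) (Additive Z) := AddCommGroup.zmodModule (fun x => by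
    change x.toMul ^ 3 = 1
    exact Subtype.ext (hexp _ (hZJ x.toMul.2)))
  let inc : Additive Z →ₗ[ZMod 3] Additive J := (MonoidHom.toAdditive (Subgroup.inclusion hZJ)).toZModLinearMap 3
  obtain ⟨π, hπ⟩ := LinearMap.exists_leftInverse_of_injective inc (by
    rw [LinearMap.ker_eq_bot]
    intro x y hxy
    exact Subgroup.inclusion_injective hZJ hxy)
  -- the projection as a group homomorphism
  let π' : J →* Z := AddMonoidHom.toMultiplicative π.toAddMonoidHom
  have hπ' : ∀ z : Z, π' (Subgroup.inclusion hZJ z) = z := fun z => LinearMap.congr_fun hπ (Additive.ofMul z)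
  let cj : J →* J :=
    { toFun := fun a => ⟨t * a * t⁻¹, htJ a a.2⟩
      map_one' := by apply Subtype.ext; simp
      map_mul' := by intro a b; apply Subtype.ext; simp [mul_assoc] }
  have hcj2 : ∀ a, cj (cj a) = a := by
    intro a
    apply Subtype.ext
    change t * (t * a * t⁻¹) * t⁻¹ = a
    have : t⁻¹ = t := inv_eq_of_mul_eq_one_left ht
    rw [this]
    calc t * (t * a * t) * t = (t * t) * a * (t * t) := by group
      _ = a := by rw [ht]; simp
  let ρ : J →* Z := π' * (π'.comp cj)
  have hρ : ∀ a, ρ a = π' a * π' (cj a) := fun a => rfl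
  have hρcj : ∀ a, ρ (cj a) = ρ a := by
    intro a
    rw [hρ, hρ, hcj2, mul_comm]
  have hρZ : ∀ z : Z, ρ (Subgroup.inclusion hZJ z) = z ^ 2 := by
    intro z
    have h1 : cj (Subgroup.inclusion hZJ z) = Subgroup.inclusion hZJ z := by
      apply Subtype.ext
      change t * z * t⁻¹ = z
      rw [htZ z z.2]; group
    rw [hρ, h1, hπ', pow_two]
  have hinj : ∀ z : Z, z ^ 2 = 1 → z = 1 := by
    intro z hz
    have h3 : z ^ 3 = 1 := Subtype.ext (hexp _ (hZJ z.2))
    calc z = z ^ 3 * (z ^ 2)⁻¹ := by group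
      _ = 1 := by rw [h3, hz]; simp
  have hsurj : Function.Surjective ρ := by
    have h1 : Function.Injective (ρ.comp (Subgroup.inclusion hZJ)) := by
      rw [injective_iff_map_eq_one]
      intro z hz
      exact hinj z (by rw [← hρZ]; exact hz)
    have h2 := Finite.surjective_of_injective h1
    intro z
    obtain ⟨w, hw⟩ := h2 z
    exact ⟨_, hw⟩
  have hcard : Nat.card ρ.ker = 9 := by
    have h1 := Subgroup.card_mul_index ρ.ker
    rw [Subgroup.index_ker, MonoidHom.range_eq_top.mpr hsurj, Subgroup.card_top, hJ, hZ] at h1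
    omega
  refine ⟨ρ.ker.map J.subtype, ?_, ?_, ?_, ?_⟩
  · rintro _ ⟨a, _, rfl⟩
    exact a.2
  · rw [eq_bot_iff]
    rintro x ⟨⟨a, ha, rfl⟩, hxZ⟩
    have h1 : a = Subgroup.inclusion hZJ ⟨(a : G), hxZ⟩ := Subtype.ext rfl
    rw [SetLike.mem_coe, MonoidHom.mem_ker, h1, hρZ] at ha
    have := hinj _ ha
    rw [mem_bot]
    exact congrArg Subtype.val this
  · rw [Subgroup.card_subtype]
    exact hcard
  · rintro _ ⟨a, ha, rfl⟩
    refine ⟨cj a, ?_, rfl⟩
    rw [SetLike.mem_coe, MonoidHom.mem_ker] at ha ⊢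
    rw [hρcj, ha]

/-- Let G be a group of order 162 = 3⁴·2 with Sylow 3-subgroup S and Sylow 2-subgroup T, having an elementary abelian normal subgroup J of order 27, such that Z = Z(S) has order 3, Z centralizes T, and C_S(T) ≠ S. Then G is isomorphic to the centralizer in Sym(9) of a product of three disjoint 3-cycles. -/
theorem result {G : Type*} [Group G] [Finite G] (hG : Nat.card G = 162)
    (S : Sylow 3 G) (T : Sylow 2 G) (J : Subgroup G) [hJn : J.Normal] (hJcomm : IsMulCommutative J)
    (hJexp : ∀ a ∈ J, a ^ 3 = 1) (hJcard : Nat.card J = 27)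
    (Z : Subgroup G) (hZ : Z = (S : Subgroup G) ⊓ Subgroup.centralizer ((S : Subgroup G) : Set G)) (hZcard : Nat.card Z = 3)
    (hZT : Z ≤ Subgroup.centralizer ((T : Subgroup G) : Set G))
    (hST : (S : Subgroup G) ⊓ Subgroup.centralizer ((T : Subgroup G) : Set G) ≠ S) :
    Nonempty (G ≃* Subgroup.centralizer ({Equiv.swap (0 : Fin 9) 1 * Equiv.swap 1 2 * Equiv.swap 3 4 * Equiv.swap 4 5 * Equiv.swap 6 7 * Equiv.swap 7 8} : Set (Equiv.Perm (Fin 9)))) := by
  have hS : Nat.card S = 81 := by
    have := S.card_eq_multiplicity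
    rw [hG] at this
    rw [this]
    have : Nat.factorization 162 3 = 4 := by
      rw [show (162 : ℕ) = 2 * 3 ^ 4 by norm_num, Nat.factorization_mul (by norm_num) (by norm_num), Nat.Prime.factorization Nat.prime_two, Nat.Prime.factorization_pow Nat.prime_three]
      simp
    rw [this]; norm_num
  have hT : Nat.card T = 2 := by
    have := T.card_eq_multiplicity
    rw [hG] at this
    rw [this]
    have : Nat.factorization 162 2 = 1 := by
      rw [show (162 : ℕ) = 2 * 3 ^ 4 by norm_num, Nat.factorization_mul (by norm_num) (by norm_num), Nat.Prime.factorization Nat.prime_two, Nat.Prime.factorization_pow Nat.prime_three]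
      simp
    rw [this]; norm_num
  have hSidx : (S : Subgroup G).index = 2 := by
    have := Subgroup.card_mul_index (S : Subgroup G)
    rw [hG] at this
    change Nat.card S * _ = _ at this
    rw [hS] at this
    omega
  have hSn : (S : Subgroup G).Normal := Subgroup.normal_of_index_eq_two hSidx
  have hpS : IsPGroup 3 (S : Subgroup G) := S.isPGroup'
  have hcomm : ∀ a ∈ J, ∀ b ∈ J, a * b = b * a := fun a ha b hb => congrArg Subtype.val (hJcomm.is_comm.comm ⟨a, ha⟩ ⟨b, hb⟩)
  have hJS : J ≤ S := by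
    have hJp : IsPGroup 3 J := IsPGroup.of_card (n := 3) (by rw [hJcard]; norm_num)
    obtain ⟨Q, hQ⟩ := hJp.exists_le_sylow
    have : Unique (Sylow 3 G) := Sylow.unique_of_normal S hSn
    have : Q = S := Subsingleton.elim _ _
    rw [← this]; exact hQ
  have hZS : Z ≤ S := by rw [hZ]; exact inf_le_left
  have hZcS : ∀ z ∈ Z, ∀ s ∈ S, s * z = z * s := by
    intro z hz s hs
    rw [hZ] at hz
    exact mem_centralizer_iff.mp hz.2 s hs
  have hZJ : Z ≤ J := by
    have h1 : Nat.card J ∣ Nat.card ↥(J ⊔ Z) := card_dvd_of_le le_sup_left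
    have h2 : Nat.card ↥(J ⊔ Z) ∣ Nat.card S := card_dvd_of_le (sup_le hJS hZS)
    obtain ⟨k, hk⟩ := h1
    rw [hJcard] at hk
    rw [hS, hk] at h2
    have hk3 : k ∣ 3 := by
      have : 27 * k ∣ 27 * 3 := by simpa using h2
      exact Nat.dvd_of_mul_dvd_mul_left (by norm_num) this
    rcases (Nat.dvd_prime Nat.prime_three).mp hk3 with rfl | rfl
    · have h3 : J = J ⊔ Z := Subgroup.eq_of_le_of_card_ge le_sup_left (by rw [hk, hJcard])
      rw [h3]; exact le_sup_right
    · exfalso
      have h3 : J ⊔ Z = S := Subgroup.eq_of_le_of_card_ge (sup_le hJS hZS) (by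
        change Nat.card S ≤ _
        rw [hk, hS])
      have h4 : J ≤ centralizer ((J ⊔ Z : Subgroup G) : Set G) := by
        rw [le_centralizer_iff]
        apply sup_le
        · intro a ha
          rw [mem_centralizer_iff]
          intro b hb
          exact hcomm b hb a ha
        · intro a ha
          rw [mem_centralizer_iff]
          intro b hb
          exact hZcS a ha b (hJS hb)
      rw [h3] at h4
      have h5 : (S : Subgroup G) ≤ Z := by
        rw [hZ]
        apply le_inf le_rfl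
        rw [← h3]
        apply sup_le
        · rw [h3]; exact h4
        · rw [h3]
          intro a ha
          rw [mem_centralizer_iff]
          exact fun b hb => hZcS a ha b hb
      have h6 := Subgroup.card_le_of_le h5
      change Nat.card S ≤ _ at h6
      omega
  obtain ⟨t, htT, ht1⟩ : ∃ t ∈ (T : Subgroup G), t ≠ 1 := by
    rcases Subgroup.bot_or_exists_ne_one (T : Subgroup G) with h | h
    · exfalso
      have : Nat.card T = 1 := by
        change Nat.card (T : Subgroup G) = 1
        rw [h]; simp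
      omega
    · exact h
  have ht2 : t * t = 1 := by
    have := pow_card_eq_one' (x := (⟨t, htT⟩ : (T : Subgroup G)))
    change _ ^ (Nat.card T) = _ at this
    rw [hT, pow_two] at this
    exact congrArg Subtype.val this
  have hTt : ∀ x ∈ (T : Subgroup G), x = 1 ∨ x = t := by
    intro x hx
    by_contra hcon
    push Not at hcon
    obtain ⟨y, hy, hy2⟩ := (Nat.card_eq_two_iff' (1 : (T : Subgroup G))).mp hT
    have h1 := hy2 ⟨x, hx⟩ (fun h => hcon.1 (congrArg Subtype.val h))
    have h2 := hy2 ⟨t, htT⟩ (fun h => ht1 (congrArg Subtype.val h))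
    exact hcon.2 (congrArg Subtype.val (h1.trans h2.symm))
  have htZ : ∀ z ∈ Z, t * z = z * t := fun z hz => (mem_centralizer_iff.mp (hZT hz) t htT)
  obtain ⟨K, hKJ, hKZ, hK, hKt⟩ := exists_compl J Z hJcomm hJexp hZJ t ht2 (fun a ha => hJn.conj_mem a ha t) htZ hJcard hZcard
  -- the subgroup H = K ⊔ T
  have hTK : ∀ x ∈ (T : Subgroup G), ∀ a ∈ K, x * a * x⁻¹ ∈ K := by
    intro x hx a ha
    rcases hTt x hx with rfl | rfl
    · simpa using ha
    · exact hKt a ha
  have hTnorm : (T : Subgroup G) ≤ normalizer (K : Set G) := by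
    intro x hx
    rw [mem_normalizer_iff]
    intro a
    constructor
    · exact hTK x hx a
    · intro h
      have := hTK x⁻¹ (inv_mem hx) _ h
      have e : x⁻¹ * (x * a * x⁻¹) * x⁻¹⁻¹ = a := by group
      rwa [e] at this
  have hHmem : ∀ x, x ∈ K ⊔ (T : Subgroup G) → ∃ a ∈ K, ∃ y ∈ (T : Subgroup G), a * y = x := by
    intro x hx
    have := Subgroup.coe_mul_of_right_le_normalizer_left K (T : Subgroup G) hTnorm
    have h2 : x ∈ ((K ⊔ (T : Subgroup G) : Subgroup G) : Set G) := hx
    rw [this] at h2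
    exact h2
  have hTS : (S : Subgroup G) ⊓ (T : Subgroup G) = ⊥ := by
    apply Subgroup.inf_eq_bot_of_coprime
    change (Nat.card S).Coprime (Nat.card T)
    rw [hS, hT]; norm_num
  have hH : Nat.card ↥(K ⊔ (T : Subgroup G)) = 18 := by
    have h1 : Function.Bijective (fun p : K × (T : Subgroup G) => (⟨(p.1 : G) * p.2, mul_mem_sup p.1.2 p.2.2⟩ : ↥(K ⊔ (T : Subgroup G)))) := by
      constructor
      · rintro ⟨⟨a, ha⟩, ⟨x, hx⟩⟩ ⟨⟨b, hb⟩, ⟨y, hy⟩⟩ h
        have h1 : a * x = b * y := congrArg Subtype.val h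
        have h2 : b⁻¹ * a = y * x⁻¹ := by
          calc b⁻¹ * a = b⁻¹ * (a * x) * x⁻¹ := by group
            _ = y * x⁻¹ := by rw [h1]; group
        have h3 : b⁻¹ * a ∈ (S : Subgroup G) ⊓ (T : Subgroup G) := by
          refine ⟨hJS (hKJ (K.mul_mem (K.inv_mem hb) ha)), ?_⟩
          rw [h2]
          exact (T : Subgroup G).mul_mem hy ((T : Subgroup G).inv_mem hx)
        rw [hTS, mem_bot] at h3
        have h4 : a = b := by
          rw [← mul_one b, ← h3]; group
        subst h4
        have h5 : x = y := mul_left_cancel h1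
        subst h5
        rfl
      · rintro ⟨x, hx⟩
        obtain ⟨a, ha, y, hy, h⟩ := hHmem x hx
        exact ⟨⟨⟨a, ha⟩, ⟨y, hy⟩⟩, Subtype.ext h⟩
    have h2 := Nat.card_congr (Equiv.ofBijective _ h1)
    rw [Nat.card_prod, hK] at h2
    change 9 * Nat.card T = _ at h2
    rw [hT] at h2
    rw [← h2]
  have hHidx : (K ⊔ (T : Subgroup G)).index = 9 := by
    have := Subgroup.card_mul_index (K ⊔ (T : Subgroup G))
    rw [hG, hH] at this
    omega
  have hHS : ∀ x ∈ K ⊔ (T : Subgroup G), x ∈ S → x ∈ K := by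
    intro x hx hxS
    obtain ⟨a, ha, y, hy, rfl⟩ := hHmem x hx
    have h3 : y ∈ (S : Subgroup G) ⊓ (T : Subgroup G) := by
      refine ⟨?_, hy⟩
      have : y = a⁻¹ * (a * y) := by group
      rw [this]
      exact (S : Subgroup G).mul_mem ((S : Subgroup G).inv_mem (hJS (hKJ ha))) hxS
    rw [hTS, mem_bot] at h3
    rw [h3, mul_one]
    exact ha
  obtain ⟨z, hzZ, hz1⟩ : ∃ z ∈ Z, z ≠ 1 := by
    rcases Subgroup.bot_or_exists_ne_one Z with h | h
    · exfalso
      have : Nat.card Z = 1 := by
        rw [h]; simp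
      omega
    · exact h
  have hZcent : ∀ z ∈ Z, ∀ g : G, g * z = z * g := by
    intro z hz g
    have h1 : (S : Subgroup G) ≤ centralizer ({z} : Set G) := by
      intro s hs
      rw [mem_centralizer_singleton_iff]
      exact (hZcS z hz s hs)
    have h2 : (T : Subgroup G) ≤ centralizer ({z} : Set G) := by
      intro s hs
      rw [mem_centralizer_singleton_iff]
      exact (mem_centralizer_iff.mp (hZT hz) s hs)
    have h3 := card_dvd_of_le h1
    have h4 := card_dvd_of_le h2
    change Nat.card S ∣ _ at h3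
    change Nat.card T ∣ _ at h4
    rw [hS] at h3
    rw [hT] at h4
    have h5 : 81 * 2 ∣ Nat.card (centralizer ({z} : Set G)) := Nat.Coprime.mul_dvd_of_dvd_of_dvd (by norm_num) h3 h4
    have h6 : Nat.card (centralizer ({z} : Set G)) ∣ 162 := by
      rw [← hG]; exact Subgroup.card_subgroup_dvd_card _
    have h7 : centralizer ({z} : Set G) = ⊤ := by
      apply Subgroup.eq_top_of_card_eq
      rw [hG]
      exact Nat.dvd_antisymm h6 h5
    have h8 : g ∈ centralizer ({z} : Set G) := by rw [h7]; trivial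
    rw [mem_centralizer_singleton_iff] at h8
    exact h8
  refine embed hG (K ⊔ (T : Subgroup G)) hHidx ?_ z (hZcent z hzZ) (hJexp z (hZJ hzZ)) ?_ _ (by decide) (by decide)
  · intro N hN hNH
    have hNS : N ⊓ (S : Subgroup G) = ⊥ := by
      by_contra hne
      have : Group.IsNilpotent (S : Subgroup G) := hpS.isNilpotent
      apply CfsgLib.BGPi.nilpotent_inf_center (H := N ⊓ (S : Subgroup G)) (N := (S : Subgroup G)) this inf_le_right ?_ hne
      · rw [eq_bot_iff, ← hKZ]
        apply le_inf
        · intro x hx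
          exact hHS x (hNH hx.1.1) hx.1.2
        · rw [hZ]
          exact le_inf (inf_le_left.trans inf_le_right) inf_le_right
      · exact le_normalizer_of_normal
    by_contra hN1
    have hcN : Nat.card N = 2 := by
      have h1 := Subgroup.relIndex_dvd_index_of_normal (S : Subgroup G) N
      rw [Subgroup.relIndex, hSidx] at h1
      have h2 : (S : Subgroup G).subgroupOf N = ⊥ := by
        rw [Subgroup.subgroupOf_eq_bot, disjoint_iff, inf_comm]
        exact hNS
      rw [h2, Subgroup.index_bot] at h1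
      rcases (Nat.dvd_prime Nat.prime_two).mp h1 with h | h
      · exact absurd (Subgroup.card_eq_one.mp h) hN1
      · exact h
    have hNp : IsPGroup 2 N := IsPGroup.of_card (n := 1) (by rw [hcN]; norm_num)
    obtain ⟨Q, hQ⟩ := hNp.exists_le_sylow
    have hQc : Nat.card Q = 2 := by
      rw [Q.card_eq_multiplicity, ← T.card_eq_multiplicity, hT]
    have hNQ : N = Q := Subgroup.eq_of_le_of_card_ge hQ (by
      change Nat.card Q ≤ _
      rw [hQc, hcN])
    have : Unique (Sylow 2 G) := Sylow.unique_of_normal Q (hNQ ▸ hN)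
    have hQT : Q = T := Subsingleton.elim _ _
    rw [hQT] at hNQ
    apply hST
    rw [inf_eq_left]
    intro s hs
    rw [mem_centralizer_iff]
    intro x hx
    have hx' : x ∈ N := by rw [hNQ]; exact hx
    exact (Subgroup.commute_of_normal_of_disjoint N (S : Subgroup G) hN hSn (disjoint_iff.mpr hNS) x s hx' hs)
  · intro hzH
    have h1 := hHS z hzH (hJS (hZJ hzZ))
    have h2 : z ∈ K ⊓ Z := ⟨h1, hzZ⟩
    rw [hKZ, mem_bot] at h2
    exact hz1 h2

end Cfsg.Agent.S3376
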