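import Cfsg.Statements.S3391
import Mathlib
import Cfsg.Agent.LibSuz12
import Cfsg.Agent.LibSuz10
-- import your own Cfsg.Agent.* helpers here

set_option autoImplicit false
open Cfsg

namespace Cfsg.Agent.S3391

open Cfsg.Agent.Suz
open MulAction
open scoped Pointwise
open CfsgLib.TIConj Cfsg.Agent.TICount

/-- an element of odd order permuting a set with at most two elements -/
theorem odd_fix {G Ω : Type*} [Group G] [Finite G] [MulAction G Ω] [Finite Ω] (X : Set Ω) (hX : X.ncard ≤ 2)
    {l : G} (hodd : Odd (orderOf l)) (hl : ∀ x ∈ X, l • x ∈ X) {α : Ω} (hα : α ∈ X) : l • α = α := by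
  by_contra hne
  have h1 : l • α ∈ X := hl _ hα
  have h2 : l • l • α ∈ X := hl _ h1
  have h3 : l • l • α = α := by
    by_contra h3
    have h4 : l • l • α ≠ l • α := fun h => hne (MulAction.injective l h)
    have h5 : ({α, l • α, l • l • α} : Set Ω) ⊆ X := by
      rintro x (rfl | rfl | rfl)
      · exact hα
      · exact h1
      · exact h2
    have h6 := Set.ncard_le_ncard h5 (Set.toFinite _)
    rw [Set.ncard_eq_three.mpr ⟨α, l • α, l • l • α, Ne.symm hne, Ne.symm h3, Ne.symm h4, rfl⟩] at h6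
    omega
  have h4 : l ^ 2 ∈ stabilizer G α := by
    rw [mem_stabilizer_iff, pow_two, mul_smul, h3]
  obtain ⟨k, hk⟩ := hodd
  have h5 : l = (l ^ 2) ^ (k + 1) := by
    rw [← pow_mul]
    have : 2 * (k + 1) = orderOf l + 1 := by omega
    rw [this, pow_succ, pow_orderOf_eq_one, one_mul]
  apply hne
  have h6 : l ∈ stabilizer G α := by
    rw [h5]; exact Subgroup.pow_mem _ h4 _
  exact h6

variable {F : Type*} [Field F] [Fintype F] {O : Set (Projectivization F (Fin 4 → F))} {m : ℕ}

theorem odd_h (D : Data F O m) (t : Fˣ) : Odd (orderOf (D.h t)) := by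
  have h1 : orderOf (D.h t) = orderOf t := orderOf_injective D.hhom D.hhom_inj t
  rw [h1]
  have h2 : orderOf t ∣ 2 ^ (2 * m + 1) - 1 := by
    rw [← D.card_units]; exact orderOf_dvd_natCard t
  have h3 : Odd (2 ^ (2 * m + 1) - 1) := by
    rw [Nat.odd_iff]
    have h4 := D.q_ge
    have h5 : 2 ∣ 2 ^ (2 * m + 1) := dvd_pow_self 2 (by omega)
    omega
  exact Odd.of_dvd_nat h3 h2

theorem main (D : Data F O m) {Ω : Type*} [Finite Ω] [MulAction (Gp O) Ω] (htr : MulAction.IsPretransitive (Gp O) Ω)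
    (hfix : ∀ g : Gp O, g ≠ 1 → Nat.card (MulAction.fixedBy Ω g) ≤ 2)
    (hex : ∃ g : Gp O, g ≠ 1 ∧ Nat.card (MulAction.fixedBy Ω g) = 2) :
    (Nat.card Ω = (2 ^ (2 * m + 1)) ^ 2 + 1 ∧ ∀ a b c d : Ω, a ≠ b → c ≠ d → ∃ g : Gp O, g • a = c ∧ g • b = d) ∨
    (Nat.card Ω = (2 ^ (2 * m + 1)) ^ 2 * ((2 ^ (2 * m + 1)) ^ 2 + 1) ∧
      ∀ α : Ω, Nat.card (stabilizer (Gp O) α) = 2 ^ (2 * m + 1) - 1) := by
  have hq := D.q_ge
  obtain ⟨g₀, hg₀, hg₀2⟩ := hex
  have hne : Nonempty Ω := by
    have : Nonempty (fixedBy Ω g₀) := (Nat.card_pos_iff.mp (by rw [hg₀2]; norm_num)).1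
    exact ⟨(Classical.arbitrary (fixedBy Ω g₀) : Ω)⟩
  have hcardΩ : ∀ α : Ω, Nat.card Ω * Nat.card (stabilizer (Gp O) α) = Nat.card (Gp O) := by
    intro α
    have h1 := Nat.card_congr (orbitProdStabilizerEquivGroup (Gp O) α)
    rw [Nat.card_prod, orbit_eq_univ, Nat.card_univ] at h1
    exact h1
  have hfix' : ∀ g : Gp O, g ≠ 1 → (fixedBy Ω g).ncard ≤ 2 := fun g hg => by
    rw [← Nat.card_coe_set_eq]; exact hfix g hg
  have hΩ1 : Nat.card Ω ≠ 1 := by
    intro h
    have h1 : Nat.card (fixedBy Ω g₀) ≤ Nat.card Ω := Nat.card_le_card_of_injective _ Subtype.val_injective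
    omega
  -- stabilisers are conjugate: nontrivial
  have hnt : ∀ α : Ω, stabilizer (Gp O) α ≠ ⊥ := by
    intro α
    obtain ⟨⟨β, hβ⟩⟩ : Nonempty (fixedBy Ω g₀) := (Nat.card_pos_iff.mp (by rw [hg₀2]; norm_num)).1
    obtain ⟨k, hk⟩ := exists_smul_eq (Gp O) β α
    intro h
    apply hg₀
    have h1 : k * g₀ * k⁻¹ ∈ stabilizer (Gp O) α := by
      rw [mem_stabilizer_iff, ← hk, mul_smul, mul_smul, inv_smul_smul]
      rw [show g₀ • β = β from hβ]
    rw [h, Subgroup.mem_bot] at h1
    have : g₀ = k⁻¹ * (k * g₀ * k⁻¹) * k := by group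
    rw [this, h1]; group
  by_cases heven : ∃ α : Ω, 2 ∣ Nat.card (stabilizer (Gp O) α)
  · left
    obtain ⟨α₀, h2⟩ := heven
    obtain ⟨z, hz⟩ := exists_prime_orderOf_dvd_card' (G := stabilizer (Gp O) α₀) 2 h2
    have hz' : orderOf (z : Gp O) = 2 := by rw [Subgroup.orderOf_coe, hz]
    -- move to `u 0 b`
    obtain ⟨α, b, hb, hα⟩ : ∃ (α : Ω) (b : F), b ≠ 0 ∧ D.u 0 b • α = α := by
      rcases D.cent_prime Nat.prime_two hz' with ⟨h, -⟩ | ⟨k, t, -, h, -, -, -⟩ | ⟨k, a, b, -, h, -⟩
      · exact absurd rfl (D.prime_facts Nat.prime_two h).1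
      · exact absurd rfl h
      · refine ⟨k • α₀, b, ?_⟩
        have h1 : (D.u a b) ^ 2 = 1 := by
          rw [← h]
          have h3 : (z : Gp O) ^ 2 = 1 := by rw [← hz']; exact pow_orderOf_eq_one _
          have e : (k * (z : Gp O) * k⁻¹) ^ 2 = k * (z : Gp O) ^ 2 * k⁻¹ := by
            rw [pow_two, pow_two]; group
          rw [e, h3]; group
        rw [D.u_sq] at h1
        have ha : a = 0 := by
          rcases mul_eq_zero.mp (D.u_eq_one h1).2 with h | h
          · exact (map_eq_zero D.S).mp h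
          · exact h
        subst ha
        constructor
        · rintro rfl
          rw [D.u_zero] at h
          have : (z : Gp O) = 1 := by
            have e : (z : Gp O) = k⁻¹ * (k * (z : Gp O) * k⁻¹) * k := by group
            rw [e, h]; group
          rw [this, orderOf_one] at hz'
          norm_num at hz'
        · rw [← h, mul_smul, mul_smul, inv_smul_smul]
          rw [show (z : Gp O) • α₀ = α₀ from z.2]
    have hub : D.u 0 b ≠ 1 := fun h => hb (D.u_eq_one h).2
    have hcu : ∀ c d, D.u c d * D.u 0 b = D.u 0 b * D.u c d := by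
      intro c d
      rw [D.u_mul, D.u_mul]
      congr 1
      · ring
      · rw [map_zero]; ring
    have hpres : ∀ c d, ∀ x ∈ fixedBy Ω (D.u 0 b), D.u c d • x ∈ fixedBy Ω (D.u 0 b) := by
      intro c d x hx
      change D.u 0 b • D.u c d • x = D.u c d • x
      rw [← mul_smul, ← hcu, mul_smul, show D.u 0 b • x = x from hx]
    have hUα : ∀ c d, D.u c d • α = α := by
      by_contra hcon
      push Not at hcon
      obtain ⟨c₀, d₀, hx⟩ := hcon
      set β := D.u c₀ d₀ • α with hβ
      have hβf : β ∈ fixedBy Ω (D.u 0 b) := hpres _ _ _ hα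
      have hX : ∀ y ∈ fixedBy Ω (D.u 0 b), y = α ∨ y = β := by
        intro y hy
        by_contra hne
        push Not at hne
        have h5 : ({α, β, y} : Set Ω) ⊆ fixedBy Ω (D.u 0 b) := by
          rintro x (rfl | rfl | rfl)
          · exact hα
          · exact hβf
          · exact hy
        have h6 := Set.ncard_le_ncard h5 (Set.toFinite _)
        rw [Set.ncard_eq_three.mpr ⟨α, β, y, Ne.symm hx, Ne.symm hne.1, Ne.symm hne.2, rfl⟩] at h6
        have := hfix' _ hub
        omega
      -- every element of `U` preserves `{α, β}`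
      have hUX : ∀ c d, (D.u c d • α = α ∨ D.u c d • α = β) := fun c d => hX _ (hpres c d _ hα)
      have hsq : ∀ c d, (D.u c d) ^ 2 • α = α := by
        intro c d
        rw [pow_two, mul_smul]
        rcases hUX c d with h | h
        · rw [h, h]
        · rw [h]
          rcases hX _ (hpres c d _ hβf) with h1 | h1
          · exact h1
          · exfalso
            apply hx
            exact MulAction.injective (D.u c d) (h1.trans h.symm)
      have hZα : ∀ e, D.u 0 e • α = α := by
        intro e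
        obtain ⟨c, hc⟩ := D.lam_surj e
        have := hsq c 0
        rw [D.u_sq, mul_comm, hc] at this
        exact this
      have hZβ : ∀ e, D.u 0 e • β = β := by
        intro e
        rw [hβ, ← mul_smul]
        have e1 : D.u 0 e * D.u c₀ d₀ = D.u c₀ d₀ * D.u 0 e := by
          rw [D.u_mul, D.u_mul]
          congr 1
          · ring
          · rw [map_zero]; ring
        rw [e1, mul_smul, hZα]
      -- the torus fixes `α`
      have hhX : ∀ (t : Fˣ), ∀ x ∈ fixedBy Ω (D.u 0 b), D.h t • x ∈ fixedBy Ω (D.u 0 b) := by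
        intro t x hx
        have hx' : ∀ e, D.u 0 e • x = x := by
          intro e
          rcases hX x hx with rfl | rfl
          · exact hZα e
          · exact hZβ e
        change D.u 0 b • D.h t • x = D.h t • x
        have h3 : (D.h t)⁻¹ * D.u 0 b * D.h t ∈ D.Zs := by
          refine ⟨((t⁻¹ : Fˣ) : F) ^ 2 * D.S ((t⁻¹ : Fˣ) : F) * b, ?_⟩
          have := D.norm_h t⁻¹ 0 b
          rw [mul_zero, ← D.h_inv, inv_inv] at this
          rw [← this]
        obtain ⟨e, he⟩ := h3
        have h4 : D.u 0 b * D.h t = D.h t * D.u 0 e := by rw [← he]; group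
        rw [← mul_smul, h4, mul_smul, hx']
      have hhα : ∀ t, D.h t • α = α := fun t => odd_fix _ (hfix' _ hub) (odd_h D t) (hhX t) hα
      have hhβ : ∀ t, D.h t • β = β := fun t => odd_fix _ (hfix' _ hub) (odd_h D t) (hhX t) hβf
      have hcom : ∀ (t : Fˣ) (c d : F), (D.h t * D.u c d * (D.h t)⁻¹ * (D.u c d)⁻¹) • α = α := by
        intro t c d
        have e1 : (D.u c d)⁻¹ • α = α ∨ (D.u c d)⁻¹ • α = β := by
          rw [D.u_inv]; exact hUX _ _
        rw [mul_smul, mul_smul, mul_smul]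
        rcases e1 with h | h
        · rw [h]
          have h1 : (D.h t)⁻¹ • α = α := by rw [inv_smul_eq_iff, hhα]
          have h2 : D.u c d • α = α := by rw [← h, smul_inv_smul, h]
          rw [h1, h2, hhα]
        · rw [h]
          have h1 : (D.h t)⁻¹ • β = β := by rw [inv_smul_eq_iff, hhβ]
          have h2 : D.u c d • β = α := by rw [← h, smul_inv_smul]
          rw [h1, h2, hhα]
      -- `U` is generated by commutators
      apply hx
      rw [hβ]
      obtain ⟨t, ht⟩ := D.exists_unit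
      have hc := D.add_one_ne (D.St_ne ht)
      have h1 := hcom t (c₀ / (D.S t + 1)) 0
      rw [D.norm_h, D.u_inv, D.u_mul] at h1
      have h2 : D.S t * (c₀ / (D.S t + 1)) + c₀ / (D.S t + 1) = c₀ := by
        field_simp
      rw [h2] at h1
      set c := _ + _ + D.S (D.S t * (c₀ / (D.S t + 1))) * (c₀ / (D.S t + 1)) with hcdef
      have e2 : D.u c₀ d₀ = D.u c₀ c * D.u 0 (d₀ + c) := by
        rw [D.u_mul, add_zero, mul_zero, add_zero]
        congr 1
        linear_combination (-c) * D.h2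
      rw [e2, mul_smul, hZα]
      exact h1
    -- the stabiliser is the Borel subgroup
    have hUs : D.Us ≤ stabilizer (Gp O) α := by
      rintro _ ⟨c, d, rfl⟩
      exact hUα c d
    have hst : stabilizer (Gp O) α ≤ stabilizer (Gp O) (inf F) := by
      intro g hg
      by_contra hgi
      have h1 := D.gen_U _ hUs hg hgi
      apply hΩ1
      have h2 := hcardΩ α
      rw [h1] at h2
      have h3 : Nat.card (⊤ : Subgroup (Gp O)) = Nat.card (Gp O) := Nat.card_congr (Equiv.Set.univ _)
      rw [h3] at h2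
      exact Nat.eq_of_mul_eq_mul_right (Nat.card_pos (α := Gp O)) (by rw [h2, one_mul])
    have hhα : ∀ t, D.h t • α = α := by
      intro t
      apply odd_fix {x : Ω | ∀ e, D.u 0 e • x = x} _ (odd_h D t) _ (fun e => hUα 0 e)
      · refine (Set.ncard_le_ncard ?_ (Set.toFinite _)).trans (hfix' _ hub)
        intro x hx
        exact hx b
      · intro x hx e
        have := D.norm_h t⁻¹ 0 e
        rw [mul_zero, ← D.h_inv, inv_inv] at this
        have h4 : D.u 0 e * D.h t = D.h t * D.u 0 (((t⁻¹ : Fˣ) : F) ^ 2 * D.S ((t⁻¹ : Fˣ) : F) * e) := by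
          rw [← this]; group
        rw [← mul_smul, h4, mul_smul, hx]
    have hst2 : stabilizer (Gp O) α = stabilizer (Gp O) (inf F) := by
      apply le_antisymm hst
      intro g hg
      obtain ⟨c, d, t, rfl⟩ := D.gborel g hg
      rw [mem_stabilizer_iff, mul_smul, hhα, hUα]
    have hcard : Nat.card Ω = (2 ^ (2 * m + 1)) ^ 2 + 1 := by
      have h2 := hcardΩ α
      rw [hst2, D.card_borel, D.card_G] at h2
      have h3 : 0 < 2 ^ (2 * m + 1) - 1 := by omega
      apply Nat.eq_of_mul_eq_mul_right (show 0 < (2 ^ (2 * m + 1)) ^ 2 * (2 ^ (2 * m + 1) - 1) by positivity)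
      rw [h2]; ring
    refine ⟨hcard, ?_⟩
    have hrel : ∀ g k : Gp O, g • α = k • α ↔ g • inf F = k • inf F := by
      intro g k
      have h1 : k⁻¹ * g ∈ stabilizer (Gp O) α ↔ k⁻¹ * g ∈ stabilizer (Gp O) (inf F) := by rw [hst2]
      rw [mem_stabilizer_iff, mem_stabilizer_iff, mul_smul, mul_smul, inv_smul_eq_iff, inv_smul_eq_iff] at h1
      exact h1
    intro a b c d hab hcd
    obtain ⟨ga, rfl⟩ := exists_smul_eq (Gp O) α a
    obtain ⟨gb, rfl⟩ := exists_smul_eq (Gp O) α b
    obtain ⟨gc, rfl⟩ := exists_smul_eq (Gp O) α c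
    obtain ⟨gd, rfl⟩ := exists_smul_eq (Gp O) α d
    rw [Ne, hrel] at hab hcd
    obtain ⟨k₁, h1, h2⟩ := D.gtwo (D.smul_mem ga D.inf_mem) (D.smul_mem gb D.inf_mem) hab
    obtain ⟨k₂, h3, h4⟩ := D.gtwo (D.smul_mem gc D.inf_mem) (D.smul_mem gd D.inf_mem) hcd
    refine ⟨k₂⁻¹ * k₁, ?_, ?_⟩
    · rw [← mul_smul, hrel, mul_smul, mul_smul, h1, inv_smul_eq_iff, h3]
    · rw [← mul_smul, hrel, mul_smul, mul_smul, h2, inv_smul_eq_iff, h4]
  · right
    push Not at heven
    -- odd stabilisers
    have key : ∀ (α : Ω) (z : Gp O) (p : ℕ), p.Prime → orderOf z = p → z • α = α → ∃ k : Gp O, ∃ t : Fˣ, t ≠ 1 ∧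
        p ∣ 2 ^ (2 * m + 1) - 1 ∧ k * z * k⁻¹ = D.h t := by
      intro α z p hp hz hzα
      have hz1 : z ≠ 1 := by
        rintro rfl
        rw [orderOf_one] at hz
        exact hp.one_lt.ne hz
      have hp2 : p ≠ 2 := by
        rintro rfl
        apply heven α
        rw [← hz]
        exact order_dvd_of_mem (show z ∈ stabilizer (Gp O) α from hzα)
      rcases D.cent_prime hp hz with ⟨h, -⟩ | ⟨k, t, ht, -, hpd, h, -⟩ | ⟨k, a, b, h, -, -⟩
      · exfalso
        have hT : IsT m (Subgroup.centralizer ({z} : Set (Gp O))) := ⟨z, p, hp, hz, h, rfl⟩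
        obtain ⟨C₂, -, -, -, hN, -⟩ := D.tori_pair hT
        set C := Subgroup.centralizer ({z} : Set (Gp O)) with hC
        -- `C ≤ stabiliser`
        have hCodd : ∀ x ∈ C, Odd (orderOf x) := by
          intro x hx
          have h1 := (order_dvd_of_mem hx).trans (D.T_card_dvd hT)
          have h2 : Odd ((2 ^ (2 * m + 1)) ^ 2 + 1) := by
            rw [Nat.odd_iff]
            have h5 : 2 ∣ (2 ^ (2 * m + 1)) ^ 2 := dvd_pow (dvd_pow_self 2 (by omega)) two_ne_zero
            omega
          exact Odd.of_dvd_nat h2 h1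
        have hCα : ∀ x ∈ C, x • α = α := by
          intro x hx
          apply odd_fix _ (hfix' _ hz1) (hCodd x hx) _ hzα
          intro y hy
          change z • x • y = x • y
          rw [← mul_smul, ← Subgroup.mem_centralizer_singleton_iff.mp hx, mul_smul, show z • y = y from hy]
        -- the normaliser
        have hzC : z ∈ C := Subgroup.mem_centralizer_singleton_iff.mpr rfl
        set N := Subgroup.normalizer (C : Set (Gp O)) with hNdef
        have hNX : ∀ n : N, (n : Gp O) • α ∈ fixedBy Ω z := by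
          intro n
          change z • (n : Gp O) • α = (n : Gp O) • α
          have h1 : (n : Gp O)⁻¹ * z * n ∈ C := (Subgroup.mem_normalizer_iff''.mp n.2 z).mp hzC
          have h2 := hCα _ h1
          rw [mul_smul, mul_smul, inv_smul_eq_iff] at h2
          exact h2
        have horb : Nat.card (orbit N α) ≤ 2 := by
          refine le_trans ?_ (hfix z hz1)
          apply Nat.card_le_card_of_injective (fun x : orbit N α => (⟨x, by
            obtain ⟨n, hn⟩ := x.2
            rw [← hn]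
            exact hNX n⟩ : fixedBy Ω z))
          intro x y hxy
          exact Subtype.ext (congrArg (fun y : fixedBy Ω z => (y : Ω)) hxy)
        have h1 := Nat.card_congr (orbitProdStabilizerEquivGroup N α)
        rw [Nat.card_prod, hN] at h1
        have h2 : Odd (Nat.card (stabilizer N α)) := by
          rw [← Nat.not_even_iff_odd, even_iff_two_dvd]
          intro h3
          apply heven α
          refine h3.trans ?_
          have h4 : Nat.card (stabilizer N α) = Nat.card ((stabilizer N α).map N.subtype) :=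
            Nat.card_congr (Subgroup.equivMapOfInjective _ _ N.subtype_injective).toEquiv
          rw [h4]
          apply Subgroup.card_dvd_of_le
          rintro _ ⟨n, hn, rfl⟩
          exact hn
        have h3 : Nat.card (stabilizer N α) ∣ Nat.card C := by
          have h4 : Nat.card (stabilizer N α) ∣ 4 * Nat.card C := ⟨_, by rw [← h1, mul_comm]⟩
          have h5 : Nat.Coprime (Nat.card (stabilizer N α)) 4 := by
            exact Nat.Coprime.pow_right 2 ((Nat.coprime_two_right).mpr h2)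
          exact h5.dvd_of_dvd_mul_left h4
        have h4 := Nat.le_of_dvd Nat.card_pos h3
        have h5 : 0 < Nat.card C := Nat.card_pos
        nlinarith
      · exact ⟨k, t, ht, hpd, h⟩
      · exact absurd h hp2
    have hprime : ∀ (α : Ω) (p : ℕ), p.Prime → p ∣ Nat.card (stabilizer (Gp O) α) → p ∣ 2 ^ (2 * m + 1) - 1 := by
      intro α p hp hpd
      have hpf : Fact p.Prime := ⟨hp⟩
      obtain ⟨z, hz⟩ := exists_prime_orderOf_dvd_card' (G := stabilizer (Gp O) α) p hpd
      obtain ⟨-, -, -, h, -⟩ := key α z p hp (by rw [Subgroup.orderOf_coe, hz]) z.2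
      exact h
    have hcop : ∀ α : Ω, Nat.card (stabilizer (Gp O) α) ∣ 2 ^ (2 * m + 1) - 1 := by
      intro α
      have h1 : Nat.card (stabilizer (Gp O) α) ∣ Nat.card (Gp O) := Subgroup.card_subgroup_dvd_card _
      rw [D.card_G, mul_assoc] at h1
      have c1 : Nat.Coprime (Nat.card (stabilizer (Gp O) α)) ((2 ^ (2 * m + 1)) ^ 2) := by
        apply Nat.coprime_of_dvd
        intro k hk hk1 hk2
        exact hk.one_lt.ne' (Nat.Coprime.eq_one_of_dvd (Nat.Coprime.coprime_dvd_left (hprime α k hk hk1) D.coprime_q3.symm) hk2)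
      have c2 : Nat.Coprime (Nat.card (stabilizer (Gp O) α)) ((2 ^ (2 * m + 1)) ^ 2 + 1) := by
        apply Nat.coprime_of_dvd
        intro k hk hk1 hk2
        exact hk.one_lt.ne' (Nat.Coprime.eq_one_of_dvd (Nat.Coprime.coprime_dvd_left (hprime α k hk hk1) D.coprime_q1.symm) hk2)
      exact c2.dvd_of_dvd_mul_left (c1.dvd_of_dvd_mul_left h1)
    have hex2 : ∃ α : Ω, Nat.card (stabilizer (Gp O) α) = 2 ^ (2 * m + 1) - 1 := by
      obtain ⟨α₀⟩ := hne
      have h1 : Nat.card (stabilizer (Gp O) α₀) ≠ 1 := fun h => hnt α₀ (Subgroup.card_eq_one.mp h)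
      obtain ⟨p, hp, hpd⟩ := Nat.exists_prime_and_dvd h1
      have hpf : Fact p.Prime := ⟨hp⟩
      obtain ⟨z, hz⟩ := exists_prime_orderOf_dvd_card' (G := stabilizer (Gp O) α₀) p hpd
      obtain ⟨k, t, ht, -, h⟩ := key α₀ z p hp (by rw [Subgroup.orderOf_coe, hz]) z.2
      refine ⟨k • α₀, Nat.dvd_antisymm (hcop _) ?_⟩
      have h2 : D.h t • k • α₀ = k • α₀ := by
        rw [← h, mul_smul, mul_smul, inv_smul_smul, show (z : Gp O) • α₀ = α₀ from z.2]
      have hht : D.h t ≠ 1 := fun h => ht (D.h_inj (h.trans D.h_one.symm))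
      rw [← card_hr D]
      apply Subgroup.card_dvd_of_le
      rintro _ ⟨s, rfl⟩
      change D.h s • k • α₀ = k • α₀
      apply odd_fix _ (hfix' _ hht) (odd_h D s) _ h2
      intro x hx
      change D.h t • D.h s • x = D.h s • x
      rw [← mul_smul, D.h_mul, mul_comm, ← D.h_mul, mul_smul, show D.h t • x = x from hx]
    obtain ⟨α, hα⟩ := hex2
    have hcard : Nat.card Ω = (2 ^ (2 * m + 1)) ^ 2 * ((2 ^ (2 * m + 1)) ^ 2 + 1) := by
      have h2 := hcardΩ α
      rw [hα, D.card_G] at h2
      exact Nat.eq_of_mul_eq_mul_right (show 0 < 2 ^ (2 * m + 1) - 1 by omega) h2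
    refine ⟨hcard, fun β => ?_⟩
    have h2 := hcardΩ β
    rw [hcard, D.card_G] at h2
    exact Nat.eq_of_mul_eq_mul_left (by positivity) h2

/-- Let q = 2^{2m+1} ≥ 8 and let G be isomorphic to the Suzuki group Sz(q). If G acts faithfully and transitively on a finite set Ω with fixity 2 (every non-identity element fixes at most two points, and some fixes exactly two), then either |Ω| = q² + 1 and the action is 2-transitive, or |Ω| = q²(q² + 1) and the point stabilizers have order q − 1. -/
theorem result {G : Type*} [Group G] [Finite G] (F : Type) [Field F] [Fintype F] (m : ℕ) (hm : 1 ≤ m) (hF : Fintype.card F = 2 ^ (2 * m + 1))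
    (e : G ≃* ↥(Cfsg.Lie.Sz F (2 ^ (m + 1)))) {Ω : Type*} [Fintype Ω] [MulAction G Ω] [FaithfulSMul G Ω] (htr : MulAction.IsPretransitive G Ω)
    (hfix : ∀ g : G, g ≠ 1 → Nat.card (MulAction.fixedBy Ω g) ≤ 2) (hex : ∃ g : G, g ≠ 1 ∧ Nat.card (MulAction.fixedBy Ω g) = 2) :
    (Fintype.card Ω = Fintype.card F ^ 2 + 1 ∧ MulAction.IsMultiplyPretransitive G Ω 2) ∨
    (Fintype.card Ω = Fintype.card F ^ 2 * (Fintype.card F ^ 2 + 1) ∧ ∀ α : Ω, Nat.card (MulAction.stabilizer G α) = Fintype.card F - 1) := by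
  have D := Cfsg.Agent.Suz.data hm hF
  let e' : G ≃* Cfsg.Sz F m := e.trans (lieIso hm hF)
  let act : MulAction (Cfsg.Sz F m) Ω := MulAction.compHom Ω e'.symm.toMonoidHom
  have hsm : ∀ (g : Cfsg.Sz F m) (x : Ω), g • x = e'.symm g • x := fun g x => rfl
  have hfb : ∀ g : Cfsg.Sz F m, fixedBy Ω g = fixedBy Ω (e'.symm g) := fun g => rfl
  have htr' : MulAction.IsPretransitive (Cfsg.Sz F m) Ω := by
    refine ⟨fun x y => ?_⟩
    obtain ⟨g, hg⟩ := htr.exists_smul_eq x y
    refine ⟨e' g, ?_⟩
    rw [hsm, e'.symm_apply_apply, hg]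
  have hfix' : ∀ g : Cfsg.Sz F m, g ≠ 1 → Nat.card (MulAction.fixedBy Ω g) ≤ 2 := by
    intro g hg
    rw [hfb]
    apply hfix
    intro h
    apply hg
    rw [← e'.apply_symm_apply g, h, map_one]
  have hex' : ∃ g : Cfsg.Sz F m, g ≠ 1 ∧ Nat.card (MulAction.fixedBy Ω g) = 2 := by
    obtain ⟨g, hg, h2⟩ := hex
    refine ⟨e' g, ?_, ?_⟩
    · intro h
      apply hg
      rw [← e'.symm_apply_apply g, h, map_one]
    · rw [hfb, e'.symm_apply_apply, h2]
  rw [← Nat.card_eq_fintype_card, ← Nat.card_eq_fintype_card, Nat.card_eq_fintype_card (α := F), hF]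
  rcases main D htr' hfix' hex' with ⟨h1, h2⟩ | ⟨h1, h2⟩
  · left
    refine ⟨h1, ?_⟩
    rw [MulAction.is_two_pretransitive_iff]
    intro a b c d hab hcd
    obtain ⟨g, hg1, hg2⟩ := h2 a b c d hab hcd
    exact ⟨e'.symm g, hg1, hg2⟩
  · right
    refine ⟨h1, fun α => ?_⟩
    rw [← h2 α]
    apply Nat.card_congr
    refine
      { toFun := fun g => ⟨e' g, ?_⟩
        invFun := fun g => ⟨e'.symm g, g.2⟩
        left_inv := fun g => Subtype.ext (e'.symm_apply_apply _)
        right_inv := fun g => Subtype.ext (e'.apply_symm_apply _) }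
    change e'.symm (e' g) • α = α
    rw [e'.symm_apply_apply]
    exact g.2

end Cfsg.Agent.S3391
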