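import Cfsg.Statements.S3498
import Mathlib
import Cfsg.Agent.LibH13
import Cfsg.Agent.LibHalfH13
import Cfsg.Agent.LibDiagH13

set_option autoImplicit false
open Cfsg

namespace Cfsg.Agent.S3498

open Subgroup Pointwise CfsgLib.H13 CfsgLib.HalfH13 CfsgLib.DiagH13

/-- a self-normalizing p-subgroup is a Sylow subgroup -/
theorem sylow_eq_of_self_normalizing {G : Type*} [Group G] [Finite G] {p : ℕ} [Fact p.Prime] (H : Subgroup G)
    (hn : normalizer (H : Set G) = H) (P : Sylow p G) (hP : H ≤ P) : (P : Subgroup G) = H := by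
  have hK : H.subgroupOf (P : Subgroup G) = ⊤ := by
    by_contra hcon
    have hnil : Group.IsNilpotent P := P.isPGroup'.isNilpotent
    have h2 := Group.normalizerCondition_of_isNilpotent (G := P) _ (lt_top_iff_ne_top.mpr hcon)
    obtain ⟨x, hx1, hx2⟩ := SetLike.exists_of_lt h2
    apply hx2
    rw [mem_subgroupOf, ← hn, mem_normalizer_iff]
    rw [mem_normalizer_iff] at hx1
    intro u
    constructor
    · intro hu
      exact mem_subgroupOf.mp ((hx1 ⟨u, hP hu⟩).mp (mem_subgroupOf.mpr hu))
    · intro hu
      have huP : u ∈ (P : Subgroup G) := by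
        have h3 := mul_mem (mul_mem (inv_mem x.2) (hP hu)) x.2
        have e : (x : G)⁻¹ * (x * u * (x : G)⁻¹) * x = u := by group
        rwa [e] at h3
      exact mem_subgroupOf.mp ((hx1 ⟨u, huP⟩).mpr (mem_subgroupOf.mpr hu))
  apply le_antisymm _ hP
  rwa [subgroupOf_eq_top] at hK

/-- A maximal subgroup of a finite almost simple group does not have prime order. Here G is almost simple in the sense that it has a non-abelian simple normal subgroup T with trivial centralizer. -/
theorem result {G : Type*} [Group G] [Finite G] (T : Subgroup G) [T.Normal] (hT : IsSimpleGroup T) (hTc : ¬ IsMulCommutative T)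
    (hC : Subgroup.centralizer (T : Set G) = ⊥) (H : Subgroup G) (hmax : IsCoatom H) : ¬ (Nat.card H).Prime := by
  intro hp
  obtain ⟨p, hpdef⟩ : ∃ p, p = Nat.card H := ⟨_, rfl⟩
  rw [← hpdef] at hp
  have hF : Fact p.Prime := ⟨hp⟩
  have hcyc : IsCyclic H := isCyclic_of_prime_card hpdef.symm
  have hHc : ∀ a ∈ H, ∀ b ∈ H, a * b = b * a := by
    intro a ha b hb
    have := hcyc.commGroup.mul_comm (⟨a, ha⟩ : H) ⟨b, hb⟩
    exact congrArg Subtype.val this
  have hTH : ¬ T ≤ H := by
    intro h
    apply hTc
    refine ⟨⟨fun a b => ?_⟩⟩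
    exact Subtype.ext (hHc a (h a.2) b (h b.2))
  have hHpg : IsPGroup p H := IsPGroup.of_card (n := 1) (by rw [pow_one]; exact hpdef.symm)
  have hH1 : H ≠ ⊥ := by
    intro h
    rw [h, card_bot] at hpdef
    exact hp.one_lt.ne hpdef.symm
  have hnt : ∃ a b : T, a * b ≠ b * a := by
    by_contra hcon
    push Not at hcon
    exact hTc ⟨⟨hcon⟩⟩
  -- `H ∩ T`
  have hinf : H ≤ T ∨ H ⊓ T = ⊥ := by
    have h1 : Nat.card (H ⊓ T : Subgroup G) ∣ p := by
      rw [hpdef]; exact card_dvd_of_le inf_le_left
    rcases (Nat.dvd_prime hp).mp h1 with h2 | h2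
    · right; exact card_eq_one.mp h2
    · left
      have : H ⊓ T = H := by
        apply eq_of_le_of_card_ge inf_le_left
        rw [h2, hpdef]
      rw [← this]; exact inf_le_right
  -- `N_G(H) = H`
  have hN : normalizer (H : Set G) = H := by
    rcases hmax.le_iff.mp (le_normalizer : H ≤ normalizer (H : Set G)) with h | h
    · exfalso
      have hHn : H.Normal := normalizer_eq_top_iff.mp h
      rcases hinf with h1 | h1
      · have h2 : (H.subgroupOf T).Normal := normal_subgroupOf
        rcases hT.eq_bot_or_eq_top_of_normal _ h2 with h3 | h3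
        · rw [subgroupOf_eq_bot, disjoint_iff, inf_eq_left.mpr h1] at h3
          exact hH1 h3
        · rw [subgroupOf_eq_top] at h3
          exact hTH h3
      · have h2 : H ≤ centralizer (T : Set G) :=
          commute_of_inf_eq_bot h1 (by rw [normalizer_eq_top]; exact le_top) (by rw [normalizer_eq_top]; exact le_top)
        rw [hC] at h2
        exact hH1 (le_bot_iff.mp h2)
    · exact h
  obtain ⟨P, hP⟩ := hHpg.exists_le_sylow
  have hPH := sylow_eq_of_self_normalizing H hN P hP
  rcases hinf with h1 | h1
  · have hTtop : T = ⊤ := by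
      apply hmax.2
      refine lt_of_le_of_ne h1 ?_
      intro h
      exact hTH (le_of_eq h.symm)
    subst hTtop
    have hs : IsSimpleGroup G := topEquiv.symm.isSimpleGroup
    apply not_normalizer_le_centralizer (T := G) _ p P (by rw [hPH]; exact hH1)
    · have e : (P : Subgroup G) = H := hPH
      rw [e, hN]
      intro x hx
      rw [mem_centralizer_iff]
      intro y hy
      exact hHc y hy x hx
    · obtain ⟨a, b, hab⟩ := hnt
      exact ⟨a, b, fun h => hab (Subtype.ext h)⟩
  · -- coprime case
    have hsup : H ⊔ T = ⊤ := by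
      apply hmax.2
      refine lt_of_le_of_ne le_sup_left ?_
      intro h
      apply hTH
      rw [h]; exact le_sup_right
    have hcard : Nat.card G = p * Nat.card T := by
      have h2 := card_sup_mul_card_inf (H := H) (N := T) (by rw [normalizer_eq_top]; exact le_top)
      rw [hsup, h1, card_bot, mul_one, card_top, ← hpdef] at h2
      exact h2
    have hTnt : 1 < Nat.card T := by
      have : Nontrivial T := hT.toNontrivial
      exact Finite.one_lt_card
    obtain ⟨q, hq, hqT⟩ := Nat.exists_prime_and_dvd hTnt.ne'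
    have hFq : Fact q.Prime := ⟨hq⟩
    obtain ⟨Q⟩ := (inferInstance : Nonempty (Sylow q T))
    obtain ⟨Q', hQ'⟩ : ∃ Q', Q' = (Q : Subgroup T).map T.subtype := ⟨_, rfl⟩
    have hfr := Sylow.normalizer_sup_eq_top Q
    have hfr' : normalizer (Q' : Set G) ⊔ T = ⊤ := by rw [hQ']; exact hfr
    have hcard2 := card_sup_mul_card_inf (H := normalizer (Q' : Set G)) (N := T) le_normalizer_of_normal
    rw [hfr', card_top, hcard] at hcard2
    have hpN : p ∣ Nat.card (normalizer (Q' : Set G)) := by
      have h3 : p * Nat.card (normalizer (Q' : Set G) ⊓ T : Subgroup G) = Nat.card (normalizer (Q' : Set G)) := by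
        apply Nat.eq_of_mul_eq_mul_right (Nat.card_pos (α := T))
        rw [← hcard2]; ring
      rw [← h3]; exact dvd_mul_right _ _
    obtain ⟨x, hx⟩ := exists_prime_orderOf_dvd_card' p hpN
    have hxo : orderOf (x : G) = p := by rw [orderOf_coe]; exact hx
    have hz : IsPGroup p (zpowers (x : G)) := IsPGroup.of_card (n := 1) (by rw [pow_one, Nat.card_zpowers, hxo])
    obtain ⟨P2, hP2⟩ := hz.exists_le_sylow
    obtain ⟨g, hg⟩ := MulAction.exists_smul_eq G P P2
    have hg2 : MulAut.conj g • H = (P2 : Subgroup G) := by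
      have := congrArg (fun R : Sylow p G => (R : Subgroup G)) hg
      rw [← hPH]; exact this
    have hP2x : (P2 : Subgroup G) = zpowers (x : G) := by
      symm
      apply eq_of_le_of_card_ge hP2
      rw [← hg2, card_conj_smul, ← hpdef, Nat.card_zpowers, hxo]
    have hHN : MulAut.conj g • H ≤ normalizer (Q' : Set G) := by
      rw [hg2, hP2x, zpowers_le]
      exact x.2
    -- conjugate back
    obtain ⟨R, hR⟩ : ∃ R, R = MulAut.conj g⁻¹ • Q' := ⟨_, rfl⟩
    have hRmem : ∀ y, y ∈ R ↔ g * y * g⁻¹ ∈ Q' := by
      intro y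
      rw [hR, mem_conj_smul, inv_inv]
    have hHR : H ≤ normalizer (R : Set G) := by
      intro h hh
      have h3 : g * h * g⁻¹ ∈ normalizer (Q' : Set G) := by
        apply hHN
        rw [mem_conj_smul]
        have e : g⁻¹ * (g * h * g⁻¹) * g = h := by group
        rw [e]; exact hh
      rw [mem_normalizer_iff] at h3 ⊢
      intro y
      rw [hRmem, hRmem, h3]
      have e : g * h * g⁻¹ * (g * y * g⁻¹) * (g * h * g⁻¹)⁻¹ = g * (h * y * h⁻¹) * g⁻¹ := by group
      rw [e]
    have hQ'T : Q' ≤ T := by rw [hQ']; exact map_subtype_le _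
    have hRT : R ≤ T := by
      intro y hy
      have h3 := hQ'T ((hRmem y).mp hy)
      have h4 := (inferInstance : T.Normal).conj_mem _ h3 g⁻¹
      have e : g⁻¹ * (g * y * g⁻¹) * g⁻¹⁻¹ = y := by group
      rwa [e] at h4
    have hQne : (Q : Subgroup T) ≠ ⊥ := by
      intro h
      apply Q.not_dvd_index
      rw [h, index_bot]; exact hqT
    have hRcard : Nat.card R = Nat.card Q := by
      rw [hR, card_conj_smul, hQ']
      exact (Nat.card_congr ((Q : Subgroup T).equivMapOfInjective _ T.subtype_injective).toEquiv).symm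
    have hRne : R ≠ ⊥ := by
      intro h
      rw [h, card_bot] at hRcard
      exact hQne (card_eq_one.mp hRcard.symm)
    rcases hmax.le_iff.mp hHR with h3 | h3
    · have hRn : R.Normal := normalizer_eq_top_iff.mp h3
      have h4 : (R.subgroupOf T).Normal := normal_subgroupOf
      rcases hT.eq_bot_or_eq_top_of_normal _ h4 with h5 | h5
      · rw [subgroupOf_eq_bot, disjoint_iff, inf_eq_left.mpr hRT] at h5
        exact hRne h5
      · rw [subgroupOf_eq_top] at h5
        have h6 : R = T := le_antisymm hRT h5
        rw [h6] at hRcard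
        have h7 : (Q : Subgroup T) = ⊤ := by
          apply eq_top_of_card_eq
          exact hRcard.symm
        have hTp : IsPGroup q T := by
          have := Q.isPGroup'
          rw [h7] at this
          exact this.of_equiv topEquiv
        have h8 : Nontrivial T := hT.toNontrivial
        have h9 : Nontrivial (center T) := hTp.center_nontrivial
        exact (nontrivial_iff_ne_bot _).mp h9 (center_eq_bot hnt)
    · have h4 : R ≤ H := by rw [← h3]; exact le_normalizer
      apply hRne
      rw [eq_bot_iff, ← h1]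
      exact le_inf h4 hRT

end Cfsg.Agent.S3498
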