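import Cfsg.Statements.S3504
import Mathlib

set_option autoImplicit false
open Cfsg

namespace Cfsg.Agent.S3504

open Equiv Equiv.Perm

theorem cycleType_of (n p : ℕ) (hp : p.Prime) (g : Equiv.Perm (Fin n)) (hg : orderOf g = p) (hd : ∀ i, g i ≠ i) :
    p ∣ n ∧ g.cycleType = Multiset.replicate (n / p) p := by
  have hF : Fact p.Prime := ⟨hp⟩
  obtain ⟨k, hk⟩ := cycleType_prime_order (σ := g) (by rw [hg]; exact hp)
  rw [hg] at hk
  have h1 : g.cycleType.sum = n := by
    rw [sum_cycleType]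
    have : g.support = Finset.univ := by
      ext i; simp [hd i]
    rw [this, Finset.card_univ, Fintype.card_fin]
  rw [hk, Multiset.sum_replicate, smul_eq_mul] at h1
  refine ⟨⟨k + 1, by rw [← h1, mul_comm]⟩, ?_⟩
  rw [hk, ← h1, Nat.mul_div_cancel _ hp.pos]

theorem exists_der (n p : ℕ) (hn : 0 < n) (hp : p.Prime) (hpn : p ∣ n) :
    ∃ g : Equiv.Perm (Fin n), orderOf g = p ∧ ∀ i, g i ≠ i := by
  obtain ⟨g, hg⟩ := (exists_with_cycleType_iff (α := Fin n) (m := Multiset.replicate (n / p) p)).mpr ⟨by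
    rw [Multiset.sum_replicate, smul_eq_mul, Nat.div_mul_cancel hpn, Fintype.card_fin], by
    intro a ha
    rw [Multiset.eq_of_mem_replicate ha]
    exact hp.two_le⟩
  refine ⟨g, ?_, ?_⟩
  · rw [← lcm_cycleType, hg]
    have h1 : n / p ≠ 0 := by
      obtain ⟨c, hc⟩ := hpn
      rw [hc, Nat.mul_div_cancel_left _ hp.pos]
      rintro rfl
      rw [mul_zero] at hc; omega
    obtain ⟨k, hk⟩ := Nat.exists_eq_succ_of_ne_zero h1
    rw [hk]
    apply Nat.dvd_antisymm
    · rw [Multiset.lcm_dvd]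
      intro b hb
      rw [Multiset.eq_of_mem_replicate hb]
    · apply Multiset.dvd_lcm
      rw [Multiset.mem_replicate]
      exact ⟨Nat.succ_ne_zero _, rfl⟩
  · have h1 : g.cycleType.sum = n := by
      rw [hg, Multiset.sum_replicate, smul_eq_mul, Nat.div_mul_cancel hpn]
    rw [sum_cycleType] at h1
    have h2 : g.support = Finset.univ := by
      rw [← Finset.card_eq_iff_eq_univ, h1, Fintype.card_fin]
    intro i
    have : i ∈ g.support := by rw [h2]; exact Finset.mem_univ i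
    exact mem_support.mp this

/-- For n ≥ 5, the fixed-point-free permutations of prime order in the symmetric group of degree n form a single conjugacy class if and only if n is a prime power. -/
theorem result (n : ℕ) (hn : 5 ≤ n) :
    Nat.card {c : ConjClasses (Equiv.Perm (Fin n)) // ∃ g : Equiv.Perm (Fin n), ConjClasses.mk g = c ∧ (orderOf g).Prime ∧ ∀ i : Fin n, g i ≠ i} = 1 ↔ IsPrimePow n := by
  rw [Nat.card_eq_one_iff_unique]
  constructor
  · rintro ⟨hsub, ⟨⟨c, g, hgc, hgp, hgd⟩⟩⟩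
    obtain ⟨hpn, -⟩ := cycleType_of n (orderOf g) hgp g rfl hgd
    rw [isPrimePow_iff_unique_prime_dvd]
    refine ⟨orderOf g, ⟨hgp, hpn⟩, ?_⟩
    rintro q ⟨hq, hqn⟩
    obtain ⟨h, hh1, hh2⟩ := exists_der n q (by omega) hq hqn
    have h1 : (⟨ConjClasses.mk h, h, rfl, by rw [hh1]; exact hq, hh2⟩ :
      {c : ConjClasses (Equiv.Perm (Fin n)) // ∃ g : Equiv.Perm (Fin n), ConjClasses.mk g = c ∧ (orderOf g).Prime ∧ ∀ i : Fin n, g i ≠ i}) =
      ⟨ConjClasses.mk g, g, rfl, hgp, hgd⟩ := Subsingleton.elim _ _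
    have h2 := congrArg Subtype.val h1
    have h3 : IsConj h g := ConjClasses.mk_eq_mk_iff_isConj.mp h2
    rw [← hh1, ← lcm_cycleType, ← lcm_cycleType, isConj_iff_cycleType_eq.mp h3]
  · intro hpp
    rw [isPrimePow_iff_unique_prime_dvd] at hpp
    obtain ⟨p, ⟨hp, hpn⟩, huniq⟩ := hpp
    constructor
    · refine ⟨fun a b => ?_⟩
      obtain ⟨c, g, rfl, hgp, hgd⟩ := a
      obtain ⟨c', g', rfl, hgp', hgd'⟩ := b
      apply Subtype.ext
      change ConjClasses.mk g = ConjClasses.mk g'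
      rw [ConjClasses.mk_eq_mk_iff_isConj, isConj_iff_cycleType_eq]
      obtain ⟨h1, h2⟩ := cycleType_of n _ hgp g rfl hgd
      obtain ⟨h1', h2'⟩ := cycleType_of n _ hgp' g' rfl hgd'
      rw [h2, h2', huniq _ ⟨hgp, h1⟩, huniq _ ⟨hgp', h1'⟩]
    · obtain ⟨h, hh1, hh2⟩ := exists_der n p (by omega) hp hpn
      exact ⟨⟨ConjClasses.mk h, h, rfl, by rw [hh1]; exact hp, hh2⟩⟩

end Cfsg.Agent.S3504
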