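import Cfsg.Statements.S3508
import Mathlib

set_option autoImplicit false
open Cfsg

namespace Cfsg.Agent.S3508

open MulAction Subgroup Polynomial

theorem geom_char (p : ℕ) [Fact p.Prime] (j : ℕ) :
    (∑ i ∈ Finset.range (p ^ j), (X : (ZMod p)[X]) ^ i) = (X - 1) ^ (p ^ j - 1) := by
  have h1 : (X - 1 : (ZMod p)[X]) ≠ 0 := by
    rw [← C_1]; exact X_sub_C_ne_zero 1
  apply mul_right_cancel₀ h1
  rw [geom_sum_mul, ← pow_succ, Nat.sub_add_cancel (Nat.one_le_pow _ _ (Fact.out : p.Prime).pos), sub_pow_char_pow, one_pow]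

theorem frob_char (p : ℕ) [Fact p.Prime] (j : ℕ) :
    (X - 1 : (ZMod p)[X]) ^ (p ^ j) = X ^ (p ^ j) - 1 := by
  rw [sub_pow_char_pow, one_pow]

/-- affine maps over `F_p` -/
theorem key (p m j : ℕ) [Fact p.Prime] {V : Type*} [AddCommGroup V] [Module (ZMod p) V] [Module.Finite (ZMod p) V]
    (hm : Module.finrank (ZMod p) V = m) (A : Module.End (ZMod p) V) (r : ℕ) (hA : A ^ (p ^ r) = 1) (hj : m < p ^ j) :
    A ^ (p ^ j) = 1 ∧ ∑ i ∈ Finset.range (p ^ j), A ^ i = 0 := by
  have hfr : ∀ j : ℕ, (A - 1) ^ (p ^ j) = A ^ (p ^ j) - 1 := by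
    intro j
    have h := congrArg (Polynomial.aeval A) (frob_char p j)
    simpa using h
  have h1 : (A - 1) ^ (p ^ r) = 0 := by
    rw [hfr, hA, sub_self]
  have h2 : IsNilpotent (A - 1) := ⟨_, h1⟩
  have h3 : (A - 1) ^ m = 0 := by
    have h4 := (LinearMap.isNilpotent_iff_charpoly (A - 1)).mp h2
    have h5 := LinearMap.aeval_self_charpoly (A - 1)
    rw [h4, hm] at h5
    simpa using h5
  have h4 : (A - 1) ^ (p ^ j - 1) = 0 := pow_eq_zero_of_le (by omega) h3
  constructor
  · have h5 : (A - 1) ^ (p ^ j) = 0 := pow_eq_zero_of_le (by omega) h3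
    rw [hfr, sub_eq_zero] at h5
    exact h5
  · have h5 := congrArg (Polynomial.aeval A) (geom_char p j)
    rw [map_sum, map_pow, map_sub, aeval_X, map_one, h4] at h5
    rw [← h5]
    apply Finset.sum_congr rfl
    intro i _
    rw [map_pow, aeval_X]

theorem key2 (p m j r : ℕ) [hp : Fact p.Prime] {V : Type*} [AddCommGroup V] [Finite V] [Module (ZMod p) V]
    (hcard : Nat.card V = p ^ m) (A : V →+ V) (hA : ∀ x, A^[p ^ r] x = x) (hj : m < p ^ j) (b : V) :
    (∀ x, A^[p ^ j] x = x) ∧ (fun s => A s + b)^[p ^ j] 0 = 0 := by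
  have hMf : Module.Finite (ZMod p) V := Module.Finite.of_finite
  have hfr : Module.finrank (ZMod p) V = m := by
    have h1 := Module.natCard_eq_pow_finrank (K := ZMod p) (V := V)
    rw [Nat.card_zmod, hcard] at h1
    exact (Nat.pow_right_injective hp.out.two_le h1).symm
  let B : Module.End (ZMod p) V := A.toZModLinearMap p
  have hB : ∀ (k : ℕ) (x : V), (B ^ k) x = A^[k] x := by
    intro k x
    rw [Module.End.pow_apply]; rfl
  have hB1 : B ^ (p ^ r) = 1 := by
    apply LinearMap.ext
    intro x
    rw [hB, hA]; rfl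
  obtain ⟨h1, h2⟩ := key p m j hfr B r hB1 hj
  constructor
  · intro x
    rw [← hB, h1]; rfl
  · have h3 : ∀ k : ℕ, (fun s => A s + b)^[k] 0 = (∑ i ∈ Finset.range k, B ^ i) b := by
      intro k
      induction k with
      | zero => simp
      | succ k ih =>
        rw [Function.iterate_succ_apply', ih]
        have e1 : (∑ i ∈ Finset.range (k + 1), B ^ i) = B * (∑ i ∈ Finset.range k, B ^ i) + 1 := by
          rw [Finset.sum_range_succ', pow_zero, Finset.mul_sum]
          congr 1
          apply Finset.sum_congr rfl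
          intro i _
          rw [pow_succ']
        rw [e1, LinearMap.add_apply, Module.End.mul_apply]
        rfl
    rw [h3, h2]; rfl

/-- Let a finite group G act faithfully on a set Ω with p ^ m points (p prime) and have an elementary abelian normal p-subgroup N acting regularly on Ω (so G is a group of affine transformations of an m-dimensional space over the field with p elements). If G contains an element of order p ^ r with r ≥ 1, then p ^ (r − 1) ≤ m. In particular an element of order p ^ m forces m ≤ 2, and m ≤ 1 when p is odd. -/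
theorem result {G : Type*} [Group G] [Finite G] {Ω : Type*} [Fintype Ω] [MulAction G Ω] [FaithfulSMul G Ω] (p m : ℕ) (hp : p.Prime) (hcard : Fintype.card Ω = p ^ m)
    (N : Subgroup G) [N.Normal] (hNc : IsMulCommutative N) (hNp : ∀ n ∈ N, n ^ p = 1)
    (hNtr : MulAction.IsPretransitive N Ω) (hNreg : ∀ ω : Ω, MulAction.stabilizer N ω = ⊥)
    (g : G) (r : ℕ) (hr : 1 ≤ r) (hg : orderOf g = p ^ r) :
    p ^ (r - 1) ≤ m ∧ (r = m → m ≤ 2 ∧ (2 < p → m ≤ 1)) := by
  classical
  have hF : Fact p.Prime := ⟨hp⟩
  have hbound : p ^ (r - 1) ≤ m := by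
    by_contra hcon
    push Not at hcon
    -- a base point
    have hne : Nonempty Ω := by
      rw [← Fintype.card_pos_iff, hcard]; exact pow_pos hp.pos _
    obtain ⟨α⟩ := hne
    let instC : CommGroup N := { (inferInstance : Group N) with mul_comm := fun a b => hNc.is_comm.comm a b }
    have hfin : Finite (Additive N) := inferInstanceAs (Finite N)
    have hreg : ∀ n : N, (n : G) • α = α → n = 1 := by
      intro n hn
      have : n ∈ stabilizer N α := hn
      rw [hNreg α, mem_bot] at this
      exact this
    have hcardN : Nat.card N = p ^ m := by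
      rw [← hcard, ← Nat.card_eq_fintype_card]
      apply Nat.card_congr
      exact Equiv.ofBijective (fun n : N => (n : G) • α) ⟨by
        intro a b hab
        have h1 : b⁻¹ * a = 1 := hreg _ (by
          change ((b : G)⁻¹ * a) • α = α
          have hab' : (a : G) • α = (b : G) • α := hab
          rw [mul_smul, hab', inv_smul_smul])
        exact (inv_mul_eq_one.mp h1).symm, by
        intro x
        obtain ⟨n, hn⟩ := exists_smul_eq N α x
        exact ⟨n, hn⟩⟩
    -- the linear part
    let A : Additive N →+ Additive N := MonoidHom.toAdditive ((MulAut.conjNormal g : MulAut N) : N →* N)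
    have hAapp : ∀ n : N, A (Additive.ofMul n) = Additive.ofMul (MulAut.conjNormal g n) := fun n => rfl
    have hApow : ∀ (k : ℕ) (n : N), A^[k] (Additive.ofMul n) = Additive.ofMul (MulAut.conjNormal (g ^ k) n) := by
      intro k n
      induction k with
      | zero => simp
      | succ k ih =>
        rw [Function.iterate_succ_apply', ih, hAapp, pow_succ', map_mul]
        rfl
    have hA1 : ∀ x, A^[p ^ r] x = x := by
      intro x
      have := hApow (p ^ r) (Additive.toMul x)
      rw [← hg, pow_orderOf_eq_one, map_one] at this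
      rw [← hg]
      exact this
    -- the translation part
    obtain ⟨b, hb⟩ := exists_smul_eq N α (g • α)
    have hb' : (b : G) • α = g • α := hb
    have hp0 : ∀ x : Additive N, p • x = 0 := by
      intro x
      have h3 : (Additive.toMul x : N) ^ p = 1 := Subtype.ext (hNp (Additive.toMul x : N) (Additive.toMul x : N).2)
      exact congrArg Additive.ofMul h3
    have inst2 : Module (ZMod p) (Additive N) := AddCommGroup.zmodModule hp0
    obtain ⟨h1, h2⟩ := key2 p m (r - 1) r (V := Additive N) hcardN A hA1 hcon (Additive.ofMul b)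
    have hS : ∀ k : ℕ, ((Additive.toMul ((fun s => A s + Additive.ofMul b)^[k] 0) : N) : G) • α = g ^ k • α := by
      intro k
      induction k with
      | zero => simp
      | succ k ih =>
        rw [Function.iterate_succ_apply']
        obtain ⟨s, hs⟩ : ∃ s : N, s = Additive.toMul ((fun s => A s + Additive.ofMul b)^[k] 0) := ⟨_, rfl⟩
        rw [← hs] at ih
        have e2 : Additive.toMul (A ((fun s => A s + Additive.ofMul b)^[k] 0) + Additive.ofMul b) = MulAut.conjNormal g s * b := by
          rw [hs]
          rfl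
        rw [e2, Subgroup.coe_mul, mul_smul, hb', MulAut.conjNormal_apply, smul_smul, pow_succ', mul_smul g (g ^ k),
          ← ih, smul_smul]
        congr 1
        group
    have h3 := hS (p ^ (r - 1))
    rw [h2] at h3
    have h4 : g ^ (p ^ (r - 1)) • α = α := by
      rw [← h3]; simp
    have h5 : g ^ (p ^ (r - 1)) = 1 := by
      apply FaithfulSMul.eq_of_smul_eq_smul (α := Ω)
      intro x
      obtain ⟨n, rfl⟩ := exists_smul_eq N α x
      rw [one_smul]
      have h6 := hApow (p ^ (r - 1)) n
      rw [h1] at h6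
      have h7 : n = MulAut.conjNormal (g ^ (p ^ (r - 1))) n := h6
      have h8 := congrArg (fun z : N => (z : G)) h7
      simp only [MulAut.conjNormal_apply] at h8
      change g ^ (p ^ (r - 1)) • (n : G) • α = (n : G) • α
      have h9 : g ^ (p ^ (r - 1)) * (n : G) = (n : G) * g ^ (p ^ (r - 1)) := by
        conv_rhs => rw [h8]
        group
      rw [smul_smul, h9, mul_smul, h4]
    have h6 := orderOf_dvd_of_pow_eq_one h5
    rw [hg] at h6
    have h7 := (Nat.pow_dvd_pow_iff_le_right hp.one_lt).mp h6
    omega
  refine ⟨hbound, ?_⟩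
  intro hrm
  subst hrm
  constructor
  · by_contra hcon
    push Not at hcon
    have h1 : 2 ^ (r - 1) ≤ p ^ (r - 1) := Nat.pow_le_pow_left hp.two_le _
    have h2 : r < 2 ^ (r - 1) := by
      obtain ⟨k, rfl⟩ : ∃ k, r = k + 3 := ⟨r - 3, by omega⟩
      rw [show k + 3 - 1 = k + 2 by omega]
      clear * -
      induction k with
      | zero => norm_num
      | succ k ih => rw [show k + 1 + 2 = (k + 2) + 1 by ring, pow_succ]; omega
    omega
  · intro hp2
    by_contra hcon
    push Not at hcon
    have h1 : 3 ^ (r - 1) ≤ p ^ (r - 1) := Nat.pow_le_pow_left hp2 _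
    have h2 : r < 3 ^ (r - 1) := by
      obtain ⟨k, rfl⟩ : ∃ k, r = k + 2 := ⟨r - 2, by omega⟩
      rw [show k + 2 - 1 = k + 1 by omega]
      clear * -
      induction k with
      | zero => norm_num
      | succ k ih => rw [show k + 1 + 1 = (k + 1) + 1 by ring, pow_succ]; omega
    omega

end Cfsg.Agent.S3508
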