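import Cfsg.Statements.S3511
import Mathlib

set_option autoImplicit false
open Cfsg

namespace Cfsg.Agent.S3511



/-- Let a finite group G act faithfully on a set Ω. If every element of G of square-free order has a regular cycle (an orbit of the cyclic group it generates with trivial stabilizer), then every element of G has a regular cycle. -/
theorem result {G : Type*} [Group G] [Finite G] {Ω : Type*} [MulAction G Ω] [FaithfulSMul G Ω]
    (h : ∀ g : G, Squarefree (orderOf g) → ∃ ω : Ω, MulAction.stabilizer (Subgroup.zpowers g) ω = ⊥) (g : G) :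
    ∃ ω : Ω, MulAction.stabilizer (Subgroup.zpowers g) ω = ⊥ := by
  classical
  set n := orderOf g with hn
  have hn0 : 0 < n := orderOf_pos g
  set R := ∏ p ∈ n.primeFactors, p with hR
  have hRn : R ∣ n := Nat.prod_primeFactors_dvd n
  have hR0 : 0 < R := Nat.pos_of_dvd_of_pos hRn hn0
  obtain ⟨r, hr⟩ := hRn
  have hr0 : r ≠ 0 := by rintro rfl; omega
  have hord : orderOf (g ^ r) = R := by
    rw [orderOf_pow' g hr0, ← hn]
    have : Nat.gcd n r = r := Nat.gcd_eq_right ⟨R, by rw [hr]; ring⟩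
    rw [this, hr]
    exact Nat.mul_div_cancel _ (Nat.pos_of_ne_zero hr0)
  have hsq : Squarefree (orderOf (g ^ r)) := by
    rw [hord]
    apply Finset.squarefree_prod_of_pairwise_isCoprime
    · intro a ha b hb hab
      rw [Function.onFun, ← Nat.coprime_iff_isRelPrime]
      exact (Nat.coprime_primes (Nat.prime_of_mem_primeFactors ha) (Nat.prime_of_mem_primeFactors hb)).mpr hab
    · intro a ha
      exact (Nat.prime_of_mem_primeFactors ha).squarefree
  obtain ⟨ω, hω⟩ := h (g ^ r) hsq
  refine ⟨ω, ?_⟩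
  rw [eq_bot_iff]
  rintro ⟨x, hx⟩ hxω
  rw [MulAction.mem_stabilizer_iff] at hxω
  have hxω' : x • ω = ω := hxω
  rw [Subgroup.mem_bot]
  by_contra hne
  have hx1 : x ≠ 1 := fun hh => hne (Subtype.ext hh)
  have hm1 : orderOf x ≠ 1 := by rwa [Ne, orderOf_eq_one_iff]
  obtain ⟨p, hp, hpm⟩ := Nat.exists_prime_and_dvd hm1
  obtain ⟨m', hm'⟩ := hpm
  have hxn : orderOf x ∣ n := orderOf_dvd_of_mem_zpowers hx
  have hpn : p ∣ n := (Dvd.intro _ hm'.symm).trans hxn
  have hm0 : 0 < orderOf x := orderOf_pos x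
  have hm'0 : m' ≠ 0 := by rintro rfl; omega
  -- y = x ^ m' has order p
  have hy1 : x ^ m' ≠ 1 := by
    intro hh
    have := orderOf_dvd_of_pow_eq_one hh
    have h2 := Nat.le_of_dvd (Nat.pos_of_ne_zero hm'0) this
    have h3 := hp.two_le
    nlinarith
  have hyp : (x ^ m') ^ p = 1 := by
    rw [← pow_mul, mul_comm, ← hm', pow_orderOf_eq_one]
  have hyω : (x ^ m') • ω = ω := by
    have : x ^ m' ∈ MulAction.stabilizer G ω := Subgroup.pow_mem _ (by rw [MulAction.mem_stabilizer_iff]; exact hxω') _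
    exact this
  -- y is in zpowers (g ^ r)
  have hxp : x ∈ Submonoid.powers g := mem_powers_iff_mem_zpowers.mpr hx
  obtain ⟨j, hj⟩ := hxp
  have hj' : g ^ j = x := hj
  have hymem : x ^ m' ∈ Subgroup.zpowers (g ^ r) := by
    rw [← hj', ← pow_mul]
    have h1 : n ∣ j * m' * p := by
      apply orderOf_dvd_of_pow_eq_one
      rw [pow_mul, pow_mul, hj', hyp]
    obtain ⟨s, hs⟩ : p ∣ R := by
      rw [hR]
      exact Finset.dvd_prod_of_mem _ (Nat.mem_primeFactors.mpr ⟨hp, hpn, hn0.ne'⟩)
    have h2 : r * s ∣ j * m' := by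
      have : r * s * p ∣ j * m' * p := by
        have e : r * s * p = n := by rw [hr, hs]; ring
        rw [e]; exact h1
      exact Nat.dvd_of_mul_dvd_mul_right hp.pos this
    obtain ⟨t, ht⟩ := h2
    rw [ht, mul_assoc, pow_mul]
    exact Subgroup.pow_mem _ (Subgroup.mem_zpowers _) _
  have : (⟨x ^ m', hymem⟩ : Subgroup.zpowers (g ^ r)) ∈ MulAction.stabilizer (Subgroup.zpowers (g ^ r)) ω := by
    rw [MulAction.mem_stabilizer_iff]
    exact hyω
  rw [hω, Subgroup.mem_bot] at this
  exact hy1 (congrArg Subtype.val this)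

end Cfsg.Agent.S3511
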