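import Cfsg.Statements.S3514
import Mathlib
import Cfsg.Agent.LibH13

set_option autoImplicit false
open Cfsg

namespace Cfsg.Agent.S3514

theorem card_eq {p : ℕ} [Fact p.Prime] {V : Type*} [AddCommGroup V] [Module (ZMod p) V] [Finite V]
    (H : Subgroup (V ≃ₗ[ZMod p] V)) (v : V) :
    Nat.card {u : V | ∃ h ∈ H, h v = u} = (MulAction.stabilizer (V ≃ₗ[ZMod p] V) v).relIndex H := by
  rw [← CfsgLib.H13.card_orbit_eq_relIndex]
  congr 1
  apply congrArg
  ext u
  simp only [Set.mem_setOf_eq, MulAction.mem_orbit_iff]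
  constructor
  · rintro ⟨h, hh, rfl⟩
    exact ⟨⟨h, hh⟩, rfl⟩
  · rintro ⟨⟨h, hh⟩, rfl⟩
    exact ⟨h, hh, rfl⟩

/-- Let p be a prime, V a finite vector space over the field with p elements, and H a group of linear transformations of V all of whose orbits on V have size coprime to p. (i) Every normal subgroup K of H has all its orbits on V of size coprime to p. (ii) If N is a group of linear transformations of V of order coprime to p that is normalized by H, then the group generated by N and H has all its orbits on V of size coprime to p. -/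
theorem result (p : ℕ) [Fact p.Prime] {V : Type*} [AddCommGroup V] [Module (ZMod p) V] [Finite V]
    (H : Subgroup (V ≃ₗ[ZMod p] V)) (hH : ∀ v : V, ¬ p ∣ Nat.card {u : V | ∃ h ∈ H, h v = u}) :
    (∀ K : Subgroup (V ≃ₗ[ZMod p] V), K ≤ H → H ≤ Subgroup.normalizer (K : Set (V ≃ₗ[ZMod p] V)) →
        ∀ v : V, ¬ p ∣ Nat.card {u : V | ∃ k ∈ K, k v = u}) ∧
    (∀ N : Subgroup (V ≃ₗ[ZMod p] V), ¬ p ∣ Nat.card N → H ≤ Subgroup.normalizer (N : Set (V ≃ₗ[ZMod p] V)) →
        ∀ v : V, ¬ p ∣ Nat.card {u : V | ∃ x ∈ N ⊔ H, x v = u}) := by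
  have hfin : Finite (V ≃ₗ[ZMod p] V) := Finite.of_injective (fun f => (f : V → V)) DFunLike.coe_injective
  have hp : p.Prime := Fact.out
  simp only [card_eq] at hH ⊢
  constructor
  · intro K hKH hn v hdvd
    exact hH v (hdvd.trans (CfsgLib.H13.relIndex_dvd_relIndex_of_normal hKH hn))
  · intro N hN hn v hdvd
    set S := MulAction.stabilizer (V ≃ₗ[ZMod p] V) v
    have h1 : S.relIndex (N ⊔ H) ∣ (S ⊓ H).relIndex (N ⊔ H) := Subgroup.relIndex_dvd_of_le_left _ inf_le_left
    have h2 : (S ⊓ H).relIndex H * H.relIndex (N ⊔ H) = (S ⊓ H).relIndex (N ⊔ H) :=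
      Subgroup.relIndex_mul_relIndex _ _ _ inf_le_right le_sup_right
    rw [Subgroup.inf_relIndex_right] at h2
    have h3 : H.relIndex (N ⊔ H) = H.relIndex N := by
      rw [sup_comm]
      exact CfsgLib.H13.relIndex_sup_of_le_normalizer hn
    rw [h3] at h2
    rcases (Nat.Prime.dvd_mul hp).mp (hdvd.trans (h1.trans (dvd_of_eq h2.symm))) with h | h
    · exact hH v h
    · exact hN (h.trans (Subgroup.relIndex_dvd_card _ _))

end Cfsg.Agent.S3514
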