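import Cfsg.Statements.S3515
import Mathlib
import Cfsg.Agent.LibAffH13

set_option autoImplicit false
open Cfsg

namespace Cfsg.Agent.S3515

open CfsgLib.AffH13

theorem four_points : ∀ x : Fin 2 → ZMod 2, x = ![1, 1] ∨ ∃ i : Fin 3, x = (![![0, 0], ![1, 0], ![0, 1]] : Fin 3 → Fin 2 → ZMod 2) i := by
  decide

theorem four_points' : ∀ i : Fin 3, (![![0, 0], ![1, 0], ![0, 1]] : Fin 3 → Fin 2 → ZMod 2) i ≠ ![1, 1] := by
  decide

/-- Every primitive affine permutation group of degree p² is 3-closed. Let p be a prime and G a group of permutations of the plane V = F_p² consisting of affine maps x ↦ Ax + b, containing all translations, and acting primitively on V. Then any permutation σ of V that agrees on every triple of points with some element of G (σ preserves every G-orbit on ordered triples) already lies in G. -/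
theorem result (p : ℕ) [Fact p.Prime] (G : Subgroup (Equiv.Perm (Fin 2 → ZMod p)))
    (haff : (G : Set (Equiv.Perm (Fin 2 → ZMod p))) ⊆ {τ : Equiv.Perm (Fin 2 → ZMod p) | ∃ (A : (Fin 2 → ZMod p) ≃ₗ[ZMod p] (Fin 2 → ZMod p)) (b : Fin 2 → ZMod p), ∀ x, τ x = A x + b})
    (htrans : ∀ b : Fin 2 → ZMod p, ∃ g ∈ G, ∀ x, g x = x + b) (hprim : MulAction.IsPreprimitive G (Fin 2 → ZMod p))
    (σ : Equiv.Perm (Fin 2 → ZMod p)) (hσ : (∀ t : Fin 3 → (Fin 2 → ZMod p), ∃ g ∈ G, ∀ i, σ (t i) = g (t i))) : σ ∈ G := by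
  by_cases hp : p = 2
  · subst hp
    obtain ⟨g, hg, hgt⟩ := hσ ![![0, 0], ![1, 0], ![0, 1]]
    have : σ = g := by
      ext1 x
      rcases four_points x with rfl | ⟨i, rfl⟩
      · obtain ⟨y, hy⟩ := g.surjective (σ ![1, 1])
        rcases four_points y with rfl | ⟨i, rfl⟩
        · exact hy.symm
        · rw [← hgt i] at hy
          exact absurd (σ.injective hy) (four_points' i)
      · exact hgt i
    rw [this]; exact hg
  · obtain ⟨A, b, hAb⟩ := affine_of_triples p hp σ (by
      intro x y z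
      obtain ⟨g, hg, hgt⟩ := hσ ![x, y, z]
      obtain ⟨A, b, hA⟩ := haff hg
      refine ⟨A, b, ?_, ?_, ?_⟩
      · rw [← hA]; exact hgt 0
      · rw [← hA]; exact hgt 1
      · rw [← hA]; exact hgt 2)
    obtain ⟨g, hg, hgt⟩ := hσ ![0, ![1, 0], ![0, 1]]
    obtain ⟨B, c, hB⟩ := haff hg
    have h0 : σ 0 = g 0 := hgt 0
    have h1 : σ ![1, 0] = g ![1, 0] := hgt 1
    have h2 : σ ![0, 1] = g ![0, 1] := hgt 2
    rw [hAb, hB] at h0 h1 h2
    have hbc : b = c := by simpa using h0
    subst hbc
    have h1' := add_right_cancel h1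
    have h2' := add_right_cancel h2
    have : σ = g := by
      ext1 x
      rw [hAb, hB]
      congr 1
      have hx : x = x 0 • ![1, 0] + x 1 • ![0, 1] := by
        ext i; fin_cases i <;> simp
      rw [hx, map_add, map_add, map_smul, map_smul, map_smul, map_smul, h1', h2']
    rw [this]; exact hg

end Cfsg.Agent.S3515
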