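import Cfsg.Statements.S3516
import Mathlib
import Cfsg.Agent.LibAffH13

set_option autoImplicit false
open Cfsg

namespace Cfsg.Agent.S3516

open CfsgLib.AffH13

/-- Let p be an odd prime, d ≥ 3, and G a group of affine permutations x ↦ Ax + b of V = F_p^d containing all translations and all maps x ↦ Ax with A of determinant 1. Then the 3-closure of G is the full affine group: a permutation σ of V agrees on every triple of points with some element of G if and only if σ is an affine map. -/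
theorem result (p : ℕ) [Fact p.Prime] (hp : p ≠ 2) (d : ℕ) (hd : 3 ≤ d) (G : Subgroup (Equiv.Perm (Fin d → ZMod p)))
    (haff : (G : Set (Equiv.Perm (Fin d → ZMod p))) ⊆ {τ : Equiv.Perm (Fin d → ZMod p) | ∃ (A : (Fin d → ZMod p) ≃ₗ[ZMod p] (Fin d → ZMod p)) (b : Fin d → ZMod p), ∀ x, τ x = A x + b})
    (htrans : ∀ b : Fin d → ZMod p, ∃ g ∈ G, ∀ x, g x = x + b)
    (hsl : ∀ A : (Fin d → ZMod p) ≃ₗ[ZMod p] (Fin d → ZMod p), LinearMap.det (A : (Fin d → ZMod p) →ₗ[ZMod p] (Fin d → ZMod p)) = 1 → ∃ g ∈ G, ∀ x, g x = A x)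
    (σ : Equiv.Perm (Fin d → ZMod p)) :
    (∀ t : Fin 3 → (Fin d → ZMod p), ∃ g ∈ G, ∀ i, σ (t i) = g (t i)) ↔ σ ∈ {τ : Equiv.Perm (Fin d → ZMod p) | ∃ (A : (Fin d → ZMod p) ≃ₗ[ZMod p] (Fin d → ZMod p)) (b : Fin d → ZMod p), ∀ x, τ x = A x + b} := by
  constructor
  · intro h
    obtain ⟨A, b, hAb⟩ := affine_of_triples p hp σ (by
      intro x y z
      obtain ⟨g, hg, hgt⟩ := h ![x, y, z]
      obtain ⟨A, b, hA⟩ := haff hg
      refine ⟨A, b, ?_, ?_, ?_⟩
      · rw [← hA]; exact hgt 0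
      · rw [← hA]; exact hgt 1
      · rw [← hA]; exact hgt 2)
    exact ⟨A, b, hAb⟩
  · rintro ⟨A, b, hAb⟩ t
    -- a functional vanishing on the two differences
    let W : Submodule (ZMod p) (Fin d → ZMod p) := Submodule.span (ZMod p) ((({t 1 - t 0, t 2 - t 0} : Finset (Fin d → ZMod p))) : Set (Fin d → ZMod p))
    have hW : W < ⊤ := by
      rw [lt_top_iff_ne_top]
      intro htop
      have h1 : Module.finrank (ZMod p) W ≤ 2 := by
        exact (finrank_span_finset_le_card _).trans Finset.card_le_two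
      rw [htop, finrank_top, Module.finrank_fin_fun] at h1
      omega
    obtain ⟨φ, hφ0, hφ⟩ := Submodule.exists_le_ker_of_lt_top W hW
    obtain ⟨w0, hw0⟩ : ∃ w, φ w ≠ 0 := by
      by_contra hcon
      push Not at hcon
      exact hφ0 (LinearMap.ext hcon)
    have hdet : LinearMap.det (A : (Fin d → ZMod p) →ₗ[ZMod p] (Fin d → ZMod p)) ≠ 0 := A.isUnit_det'.ne_zero
    obtain ⟨c, hc⟩ : ∃ c, c = (LinearMap.det (A : (Fin d → ZMod p) →ₗ[ZMod p] (Fin d → ZMod p)))⁻¹ := ⟨_, rfl⟩
    have hc0 : c ≠ 0 := by rw [hc]; exact inv_ne_zero hdet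
    obtain ⟨w, hw⟩ : ∃ w, 1 + φ w = c := by
      refine ⟨((c - 1) * (φ w0)⁻¹) • w0, ?_⟩
      rw [map_smul, smul_eq_mul, mul_assoc, inv_mul_cancel₀ hw0]; ring
    have hunit : IsUnit (1 + φ w) := by rw [hw]; exact isUnit_iff_ne_zero.mpr hc0
    let S := LinearEquiv.dilatransvection hunit
    have hS : ∀ x ∈ W, S x = x := by
      intro x hx
      have : φ x = 0 := hφ hx
      rw [LinearEquiv.dilatransvection.apply, this, zero_smul, add_zero]
    have hSdet : LinearMap.det (S : (Fin d → ZMod p) →ₗ[ZMod p] (Fin d → ZMod p)) = c := by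
      change LinearMap.det (LinearMap.transvection φ w) = c
      rw [LinearMap.transvection.det, hw]
    have h1 : LinearMap.det ((S.trans A : (Fin d → ZMod p) ≃ₗ[ZMod p] (Fin d → ZMod p)) : (Fin d → ZMod p) →ₗ[ZMod p] (Fin d → ZMod p)) = 1 := by
      rw [LinearEquiv.coe_trans, LinearMap.det_comp, hSdet, hc, mul_inv_cancel₀ hdet]
    obtain ⟨g1, hg1, hg1x⟩ := hsl (S.trans A) h1
    obtain ⟨g2, hg2, hg2x⟩ := htrans (σ (t 0) - A (S (t 0)))
    refine ⟨g2 * g1, G.mul_mem hg2 hg1, ?_⟩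
    have h2 : ∀ i, S (t i - t 0) = t i - t 0 := by
      intro i
      apply hS
      fin_cases i
      · simp
      · exact Submodule.subset_span (by simp)
      · exact Submodule.subset_span (by simp)
    intro i
    rw [Equiv.Perm.mul_apply, hg2x, hg1x, LinearEquiv.trans_apply]
    have h3 : S (t i) = t i - t 0 + S (t 0) := by
      rw [← h2 i, map_sub]; abel
    rw [h3, map_add, hAb (t i), hAb (t 0), map_sub]
    abel

end Cfsg.Agent.S3516
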