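import Cfsg.Statements.S3517
import Mathlib
import Cfsg.Agent.LibAffH13

set_option autoImplicit false
open Cfsg

namespace Cfsg.Agent.S3517

open CfsgLib.AffH13

theorem zmod2_add_self {d : ℕ} (x : Fin d → ZMod 2) : x + x = 0 := by
  ext i
  exact CharTwo.add_self_eq_zero (x i)

theorem indep_one {d : ℕ} {x : Fin d → ZMod 2} (hx : x ≠ 0) : LinearIndependent (ZMod 2) ![x] := by
  exact LinearIndependent.of_subsingleton 0 (by simpa using hx)

theorem indep_two {d : ℕ} {x y : Fin d → ZMod 2} (hx : x ≠ 0) (hy : y ≠ 0) (hxy : x ≠ y) :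
    LinearIndependent (ZMod 2) ![x, y] := by
  rw [LinearIndependent.pair_iff]
  intro s t hst
  have h01 : ∀ s : ZMod 2, s = 0 ∨ s = 1 := by decide
  rcases h01 s with rfl | rfl <;> rcases h01 t with rfl | rfl
  · exact ⟨rfl, rfl⟩
  · rw [zero_smul, one_smul, zero_add] at hst; exact absurd hst hy
  · rw [zero_smul, one_smul, add_zero] at hst; exact absurd hst hx
  · rw [one_smul, one_smul] at hst
    exfalso
    apply hxy
    have h1 := zmod2_add_self y
    rw [← hst] at h1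
    exact (add_right_cancel h1).symm

theorem exists_map {d : ℕ} (u1 u2 v1 v2 : Fin d → ZMod 2) (h1 : u1 = 0 ↔ v1 = 0) (h2 : u2 = 0 ↔ v2 = 0)
    (h12 : u1 = u2 ↔ v1 = v2) :
    ∃ A : (Fin d → ZMod 2) ≃ₗ[ZMod 2] (Fin d → ZMod 2), A u1 = v1 ∧ A u2 = v2 := by
  by_cases hu1 : u1 = 0
  · have hv1 := h1.mp hu1
    by_cases hu2 : u2 = 0
    · have hv2 := h2.mp hu2
      exact ⟨LinearEquiv.refl _ _, by rw [hu1, hv1, map_zero], by rw [hu2, hv2, map_zero]⟩
    · obtain ⟨A, hA⟩ := exists_linearEquiv_of_indep (indep_one hu2) (indep_one (fun h => hu2 (h2.mpr h)))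
      exact ⟨A, by rw [hu1, hv1, map_zero], hA 0⟩
  · by_cases hu2 : u2 = 0
    · have hv2 := h2.mp hu2
      obtain ⟨A, hA⟩ := exists_linearEquiv_of_indep (indep_one hu1) (indep_one (fun h => hu1 (h1.mpr h)))
      exact ⟨A, hA 0, by rw [hu2, hv2, map_zero]⟩
    · by_cases h : u1 = u2
      · have hv := h12.mp h
        obtain ⟨A, hA⟩ := exists_linearEquiv_of_indep (indep_one hu1) (indep_one (fun h => hu1 (h1.mpr h)))
        exact ⟨A, hA 0, by rw [← h, ← hv]; exact hA 0⟩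
      · obtain ⟨A, hA⟩ := exists_linearEquiv_of_indep (indep_two hu1 hu2 h)
          (indep_two (fun h => hu1 (h1.mpr h)) (fun h => hu2 (h2.mpr h)) (fun h' => h (h12.mpr h')))
        exact ⟨A, hA 0, hA 1⟩

/-- For d ≥ 3, the 3-closure of the affine group AGL_d(2) acting on F_2^d is the full symmetric group: every permutation of F_2^d agrees on every ordered triple of points with some affine map (AGL_d(2) is 3-transitive). -/
theorem result (d : ℕ) (hd : 3 ≤ d) (σ : Equiv.Perm (Fin d → ZMod 2)) (t : Fin 3 → (Fin d → ZMod 2)) :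
    ∃ (A : (Fin d → ZMod 2) ≃ₗ[ZMod 2] (Fin d → ZMod 2)) (b : Fin d → ZMod 2), ∀ i, σ (t i) = A (t i) + b := by
  have key : ∀ i j : Fin 3, t i - t j = 0 ↔ σ (t i) - σ (t j) = 0 := by
    intro i j
    rw [sub_eq_zero, sub_eq_zero, σ.injective.eq_iff]
  obtain ⟨A, hA1, hA2⟩ := exists_map (t 1 - t 0) (t 2 - t 0) (σ (t 1) - σ (t 0)) (σ (t 2) - σ (t 0))
    (key 1 0) (key 2 0) (by rw [sub_left_inj, sub_left_inj, σ.injective.eq_iff])
  refine ⟨A, σ (t 0) - A (t 0), fun i => ?_⟩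
  rw [map_sub] at hA1 hA2
  fin_cases i
  · simp
  · change σ (t 1) = A (t 1) + (σ (t 0) - A (t 0))
    have e : A (t 1) + (σ (t 0) - A (t 0)) = (A (t 1) - A (t 0)) + σ (t 0) := by abel
    rw [e, hA1]; abel
  · change σ (t 2) = A (t 2) + (σ (t 0) - A (t 0))
    have e : A (t 2) + (σ (t 0) - A (t 0)) = (A (t 2) - A (t 0)) + σ (t 0) := by abel
    rw [e, hA2]; abel

end Cfsg.Agent.S3517
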