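import Cfsg.Statements.S3518
import Mathlib

set_option autoImplicit false
open Cfsg

namespace Cfsg.Agent.S3518

open Polynomial

section
variable {p : ℕ} [Fact p.Prime]

/-- power sums over a subgroup of the multiplicative group -/
theorem powsum_zero (U : Subgroup (ZMod p)ˣ) [Fintype U] (j : ℕ) (hj : 0 < j) (hjd : j < Nat.card U) :
    ∑ u : U, ((u : (ZMod p)ˣ) : ZMod p) ^ j = 0 := by
  obtain ⟨g, hg⟩ := IsCyclic.exists_generator (α := U)
  have ho : orderOf g = Nat.card U := orderOf_eq_card_of_forall_mem_zpowers hg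
  have hgj : g ^ j ≠ 1 := by
    intro h
    have := Nat.le_of_dvd hj (orderOf_dvd_of_pow_eq_one h)
    omega
  have h1 : ∑ u : U, ((u : (ZMod p)ˣ) : ZMod p) ^ j = ∑ u : U, ((((g * u : U)) : (ZMod p)ˣ) : ZMod p) ^ j :=
    (Fintype.sum_equiv (Equiv.mulLeft g) _ _ (fun x => rfl)).symm
  have h2 : ∑ u : U, ((((g * u : U)) : (ZMod p)ˣ) : ZMod p) ^ j = ((g : (ZMod p)ˣ) : ZMod p) ^ j * ∑ u : U, ((u : (ZMod p)ˣ) : ZMod p) ^ j := by
    rw [Finset.mul_sum]
    apply Finset.sum_congr rfl
    intro u _
    rw [Subgroup.coe_mul, Units.val_mul, mul_pow]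
  rw [h2] at h1
  have h3 : (((g : (ZMod p)ˣ) : ZMod p) ^ j - 1) * ∑ u : U, ((u : (ZMod p)ˣ) : ZMod p) ^ j = 0 := by
    linear_combination -h1
  rcases mul_eq_zero.mp h3 with h | h
  · exfalso
    apply hgj
    apply Subtype.ext
    apply Units.ext
    simpa using sub_eq_zero.mp h
  · exact h

theorem powsum_card (U : Subgroup (ZMod p)ˣ) [Fintype U] :
    ∑ u : U, ((u : (ZMod p)ˣ) : ZMod p) ^ (Nat.card U) = (Nat.card U : ZMod p) := by
  have : ∀ u : U, ((u : (ZMod p)ˣ) : ZMod p) ^ (Nat.card U) = 1 := by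
    intro u
    have h := pow_card_eq_one' (x := u)
    have h2 : (u : (ZMod p)ˣ) ^ (Nat.card U) = 1 := congrArg Subtype.val h
    rw [← Units.val_pow_eq_pow_val, h2, Units.val_one]
  rw [Finset.sum_congr rfl (fun u _ => this u), Finset.sum_const, Finset.card_univ, nsmul_eq_mul, mul_one, Nat.card_eq_fintype_card]

theorem card_lt (U : Subgroup (ZMod p)ˣ) (hU : U ≠ ⊤) : 2 * Nat.card U ≤ p - 1 := by
  have h1 := Subgroup.card_mul_index U
  rw [Nat.card_eq_fintype_card (α := (ZMod p)ˣ), ZMod.card_units] at h1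
  have h2 : U.index ≠ 1 := fun h => hU (Subgroup.index_eq_one.mp h)
  have h3 : U.index ≠ 0 := Subgroup.index_ne_zero_of_finite
  have h4 : 2 ≤ U.index := by omega
  calc 2 * Nat.card U = Nat.card U * 2 := by ring
    _ ≤ Nat.card U * U.index := Nat.mul_le_mul_left _ h4
    _ = p - 1 := h1

theorem card_ne_zero (U : Subgroup (ZMod p)ˣ) : (Nat.card U : ZMod p) ≠ 0 := by
  rw [Ne, ZMod.natCast_eq_zero_iff]
  intro h
  have h1 : Nat.card U ∣ p - 1 := by
    have := Subgroup.card_subgroup_dvd_card U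
    rwa [Nat.card_eq_fintype_card (α := (ZMod p)ˣ), ZMod.card_units] at this
  have hp := (Fact.out : p.Prime).two_le
  have h2 := Nat.le_of_dvd (by omega) (h.trans h1)
  omega

theorem muller (U : Subgroup (ZMod p)ˣ) (hU : U ≠ ⊤) (f : ZMod p → ZMod p) (hf : Function.Injective f)
    (h : ∀ x, ∀ u : U, ∃ v : U, f (x + ((u : (ZMod p)ˣ) : ZMod p)) - f x = ((v : (ZMod p)ˣ) : ZMod p)) :
    ∃ a b, ∀ x, f x = a * x + b := by
  classical
  have hpp : p.Prime := Fact.out
  have : Fintype U := Fintype.ofFinite U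
  let P : (ZMod p)[X] := Lagrange.interpolate Finset.univ id f
  have hPe : ∀ x, P.eval x = f x := fun x =>
    Lagrange.eval_interpolate_at_node f (Function.injective_id.injOn) (Finset.mem_univ x)
  have hPd : P.degree < p := by
    have := Lagrange.degree_interpolate_lt (s := (Finset.univ : Finset (ZMod p))) f (Function.injective_id.injOn)
    rwa [Finset.card_univ, ZMod.card] at this
  have hPn : P.natDegree < p := by
    by_cases hP0 : P = 0
    · rw [hP0, natDegree_zero]; exact hpp.pos
    · exact (natDegree_lt_iff_degree_lt hP0).mpr hPd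
  rcases Nat.lt_or_ge P.natDegree 2 with hq | hq
  · refine ⟨P.coeff 1, P.coeff 0, fun x => ?_⟩
    rw [← hPe x, eq_X_add_C_of_natDegree_le_one (show P.natDegree ≤ 1 by omega)]
    simp
  exfalso
  set q := P.natDegree with hqdef
  set d := Nat.card U with hd
  have hd0 : 0 < d := Nat.card_pos
  have hd2 : 2 * d ≤ p - 1 := card_lt U hU
  set w := (p - 1) / q with hw
  have hw1 : w * q ≤ p - 1 := Nat.div_mul_le_self _ _
  have hw2 : p - 1 < w * q + q := by
    have := Nat.lt_div_mul_add (a := p - 1) (b := q) (by omega)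
    rwa [← hw] at this
  have hwpos : 1 ≤ w := by
    rw [hw]
    exact (Nat.one_le_div_iff (by omega)).mpr (by omega)
  have hDd : d ≤ w * q := by
    have : q ≤ w * q := Nat.le_mul_of_pos_left q hwpos
    omega
  set D := w * q with hD
  have hFdeg : (P ^ w).natDegree = D := by rw [natDegree_pow]
  set F := P ^ w with hF
  have hP0 : P ≠ 0 := by
    intro h0
    rw [hqdef, h0, natDegree_zero] at hq
    omega
  -- the two polynomials
  let A : (ZMod p)[X] := ∑ u : U, taylor ((u : (ZMod p)ˣ) : ZMod p) F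
  let B : (ZMod p)[X] := ∑ u : U, (P + C ((u : (ZMod p)ˣ) : ZMod p)) ^ w
  have hAB : A = B := by
    have hdA : A.natDegree ≤ D := by
      apply natDegree_sum_le_of_forall_le
      intro u _
      rw [natDegree_taylor, hFdeg]
    have hdB : B.natDegree ≤ D := by
      apply natDegree_sum_le_of_forall_le
      intro u _
      rw [natDegree_pow, natDegree_add_C]
    rw [← sub_eq_zero]
    apply Polynomial.eq_zero_of_natDegree_lt_card_of_eval_eq_zero' (A - B) Finset.univ
    · intro x _
      rw [eval_sub, sub_eq_zero]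
      simp only [A, B, eval_finsetSum]
      choose v hv using h x
      have hvinj : Function.Injective v := by
        intro u u' huu
        have h1 : f (x + ((u : (ZMod p)ˣ) : ZMod p)) = f (x + ((u' : (ZMod p)ˣ) : ZMod p)) := by
          have e1 := hv u
          have e2 := hv u'
          rw [huu] at e1
          linear_combination e1 - e2
        have h2 := add_left_cancel (hf h1)
        exact Subtype.ext (Units.ext h2)
      have hvbij : Function.Bijective v := (Finite.injective_iff_bijective).mp hvinj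
      rw [← Function.Bijective.sum_comp hvbij (fun u : U => (P + C ((u : (ZMod p)ˣ) : ZMod p) : (ZMod p)[X])^w |>.eval x)]
      apply Finset.sum_congr rfl
      intro u _
      rw [taylor_eval, eval_pow, eval_pow, eval_add, eval_C, hPe, hPe]
      rw [← hv u, add_sub_cancel]
    · rw [Finset.card_univ, ZMod.card]
      have := natDegree_sub_le A B
      have h2 : max A.natDegree B.natDegree ≤ D := max_le hdA hdB
      have := hpp.pos
      omega
  -- compare coefficients
  have hcA : A.coeff (D - d) = F.coeff (D - d) * ∑ u : U, ((u : (ZMod p)ˣ) : ZMod p) ^ 0 +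
      (((d + (D - d)).choose (D - d) : ℕ) : ZMod p) * F.coeff D * ∑ u : U, ((u : (ZMod p)ˣ) : ZMod p) ^ d := by
    simp only [A, finsetSum_coeff, taylor_coeff]
    have h1 : ∀ u : U, (hasseDeriv (D - d) F).eval ((u : (ZMod p)ˣ) : ZMod p) =
        ∑ i ∈ Finset.range (d + 1), (hasseDeriv (D - d) F).coeff i * ((u : (ZMod p)ˣ) : ZMod p) ^ i := by
      intro u
      rw [eval_eq_sum_range' (n := d + 1)]
      have := natDegree_hasseDeriv_le F (D - d)
      omega
    rw [Finset.sum_congr rfl (fun u _ => h1 u), Finset.sum_comm]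
    simp_rw [← Finset.mul_sum]
    rw [Finset.sum_range_succ, Finset.sum_eq_single 0]
    · rw [hasseDeriv_coeff, hasseDeriv_coeff]
      have e : d + (D - d) = D := by omega
      rw [zero_add, Nat.choose_self, Nat.cast_one, one_mul, e]
    · intro i hi hi0
      rw [powsum_zero U i (Nat.pos_of_ne_zero hi0) (Finset.mem_range.mp hi), mul_zero]
    · intro h0
      exact absurd (Finset.mem_range.mpr hd0) h0
  have hcB : B.coeff (D - d) = F.coeff (D - d) * ∑ u : U, ((u : (ZMod p)ˣ) : ZMod p) ^ 0 := by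
    simp only [B, finsetSum_coeff]
    have h1 : ∀ u : U, ((P + C ((u : (ZMod p)ˣ) : ZMod p)) ^ w).coeff (D - d) =
        ∑ k ∈ Finset.range (w + 1), ((P ^ k).coeff (D - d) * (w.choose k : ZMod p)) * ((u : (ZMod p)ˣ) : ZMod p) ^ (w - k) := by
      intro u
      rw [add_pow, finsetSum_coeff]
      apply Finset.sum_congr rfl
      intro k _
      rw [← C_pow, mul_assoc, ← C_eq_natCast, ← C_mul, coeff_mul_C]
      ring
    rw [Finset.sum_congr rfl (fun u _ => h1 u), Finset.sum_comm]
    simp_rw [← Finset.mul_sum]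
    rw [Finset.sum_eq_single w]
    · rw [Nat.choose_self, Nat.cast_one, mul_one, Nat.sub_self]
    · intro k hk hkw
      have hk' : k < w := lt_of_le_of_ne (Nat.lt_succ_iff.mp (Finset.mem_range.mp hk)) hkw
      rcases Nat.lt_or_ge (w - k) d with h2 | h2
      · rw [powsum_zero U (w - k) (by omega) h2, mul_zero]
      · have h3 : (P ^ k).coeff (D - d) = 0 := by
          apply coeff_eq_zero_of_natDegree_lt
          rw [natDegree_pow, ← hqdef]
          have h4 : (k + d) * q ≤ w * q := Nat.mul_le_mul_right _ (by omega)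
          have h5 : d * 2 ≤ d * q := Nat.mul_le_mul_left _ hq
          rw [add_mul] at h4
          omega
        rw [h3, zero_mul, zero_mul]
    · intro h0
      exact absurd (Finset.mem_range.mpr (Nat.lt_succ_self w)) h0
  rw [hAB, hcB] at hcA
  have h0 : (((d + (D - d)).choose (D - d) : ℕ) : ZMod p) * F.coeff D * ∑ u : U, ((u : (ZMod p)ˣ) : ZMod p) ^ d = 0 := by
    linear_combination -hcA
  rw [hd, powsum_card, ← hd] at h0
  have h1 : (((d + (D - d)).choose (D - d) : ℕ) : ZMod p) ≠ 0 := by
    rw [Ne, ZMod.natCast_eq_zero_iff]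
    intro hdvd
    have e : d + (D - d) = D := by omega
    rw [e] at hdvd
    have h2 : p ∣ D.factorial := by
      rw [← Nat.choose_mul_factorial_mul_factorial (show D - d ≤ D by omega)]
      exact (hdvd.mul_right _).mul_right _
    have := (hpp.dvd_factorial).mp h2
    have := hpp.pos
    omega
  have h2 : F.coeff D ≠ 0 := by
    rw [← hFdeg, coeff_natDegree]
    exact leadingCoeff_ne_zero.mpr (pow_ne_zero _ hP0)
  exact (mul_ne_zero (mul_ne_zero h1 h2) (card_ne_zero U)) h0
end

/-- Closures of subgroups of the one-dimensional affine group. Let p be a prime and G a group of permutations of F_p lying in the affine group AGL₁(p) = {x ↦ ax + b, a ≠ 0} and containing all translations. (1) If G is a proper subgroup of AGL₁(p), then G is 2-closed: a permutation of F_p agreeing on every ordered pair of points with some element of G lies in G. (2) Every permutation of F_p agrees on every ordered pair with some element of AGL₁(p) (the 2-closure of AGL₁(p) is the symmetric group). (3) AGL₁(p)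 is 3-closed: a permutation agreeing on every ordered triple with some affine map is affine. -/
theorem result (p : ℕ) [Fact p.Prime] (G : Subgroup (Equiv.Perm (ZMod p))) (hG : G ≤ Cfsg.affineGroup (ZMod p))
    (htrans : ∀ b : ZMod p, ∃ g ∈ G, ∀ x, g x = x + b) :
    (G ≠ Cfsg.affineGroup (ZMod p) → ∀ σ : Equiv.Perm (ZMod p), (∀ t : Fin 2 → ZMod p, ∃ g ∈ G, ∀ i, σ (t i) = g (t i)) → σ ∈ G) ∧
    (∀ σ : Equiv.Perm (ZMod p), (∀ t : Fin 2 → ZMod p, ∃ g ∈ Cfsg.affineGroup (ZMod p), ∀ i, σ (t i) = g (t i))) ∧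
    (∀ σ : Equiv.Perm (ZMod p), (∀ t : Fin 3 → ZMod p, ∃ g ∈ Cfsg.affineGroup (ZMod p), ∀ i, σ (t i) = g (t i)) → σ ∈ Cfsg.affineGroup (ZMod p)) := by
  have hpp : p.Prime := Fact.out
  refine ⟨?_, ?_, ?_⟩
  · intro hne σ hσ
    -- the linear parts
    let U : Subgroup (ZMod p)ˣ :=
      { carrier := {a | ∃ g ∈ G, ∃ b : ZMod p, ∀ x, g x = (a : ZMod p) * x + b}
        one_mem' := ⟨1, one_mem _, 0, fun x => by simp⟩
        mul_mem' := by
          rintro a b ⟨g, hg, c, hc⟩ ⟨g', hg', c', hc'⟩
          refine ⟨g * g', mul_mem hg hg', a * c' + c, fun x => ?_⟩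
          rw [Equiv.Perm.mul_apply, hc, hc', Units.val_mul]
          ring
        inv_mem' := by
          rintro a ⟨g, hg, c, hc⟩
          refine ⟨g⁻¹, inv_mem hg, -((a⁻¹ : (ZMod p)ˣ) : ZMod p) * c, fun x => ?_⟩
          apply g.injective
          rw [Equiv.Perm.inv_def, Equiv.apply_symm_apply, hc, mul_add, ← mul_assoc, Units.mul_inv]
          rw [← mul_assoc, mul_neg, Units.mul_inv]
          ring }
    have key : ∀ (a : (ZMod p)ˣ) (b : ZMod p) (τ : Equiv.Perm (ZMod p)), a ∈ U → (∀ x, τ x = (a : ZMod p) * x + b) → τ ∈ G := by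
      rintro a b τ ⟨g, hg, c, hc⟩ hτ
      obtain ⟨g', hg', hc'⟩ := htrans (b - c)
      have : τ = g' * g := by
        ext x
        rw [Equiv.Perm.mul_apply, hc', hc, hτ]
        ring
      rw [this]
      exact mul_mem hg' hg
    have hU : U ≠ ⊤ := by
      intro h
      apply hne
      apply le_antisymm hG
      rintro τ ⟨a, b, hτ⟩
      exact key a b τ (h ▸ Subgroup.mem_top a) hτ
    have hsub : ∀ x y : ZMod p, x ≠ y → ∃ u : U, σ x - σ y = ((u : (ZMod p)ˣ) : ZMod p) * (x - y) := by
      intro x y hxy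
      obtain ⟨g, hg, hgt⟩ := hσ ![x, y]
      obtain ⟨a, b, hab⟩ := hG hg
      have h0 := hgt 0
      have h1 := hgt 1
      simp only [Matrix.cons_val_zero, Matrix.cons_val_one] at h0 h1
      refine ⟨⟨a, ⟨g, hg, b, hab⟩⟩, ?_⟩
      rw [h0, h1, hab, hab]
      ring
    obtain ⟨a, b, hab⟩ := muller U hU σ σ.injective (by
      intro x u
      obtain ⟨v, hv⟩ := hsub (x + ((u : (ZMod p)ˣ) : ZMod p)) x (by
        intro h
        exact Units.ne_zero (u : (ZMod p)ˣ) (by linear_combination h))
      refine ⟨v * u, ?_⟩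
      rw [hv]
      simp)
    obtain ⟨v, hv⟩ := hsub 1 0 one_ne_zero
    rw [hab, hab] at hv
    have ha : a = ((v : (ZMod p)ˣ) : ZMod p) := by linear_combination hv
    exact key v b σ v.2 (fun x => by rw [hab, ha])
  · intro σ t
    by_cases ht : t 0 = t 1
    · refine ⟨Equiv.addRight (σ (t 0) - t 0), ⟨1, σ (t 0) - t 0, fun x => by simp⟩, ?_⟩
      intro i
      fin_cases i
      · simp
      · simp [← ht]
    · have hσ : σ (t 0) ≠ σ (t 1) := fun h => ht (σ.injective h)
      have h1 : σ (t 0) - σ (t 1) ≠ 0 := sub_ne_zero.mpr hσ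
      have h2 : t 0 - t 1 ≠ 0 := sub_ne_zero.mpr ht
      let a : (ZMod p)ˣ := Units.mk0 ((σ (t 0) - σ (t 1)) / (t 0 - t 1)) (div_ne_zero h1 h2)
      have ha : (a : ZMod p) * (t 0 - t 1) = σ (t 0) - σ (t 1) := by
        simp only [a, Units.val_mk0]
        field_simp
      refine ⟨(Units.mulLeft a).trans (Equiv.addRight (σ (t 0) - a * t 0)), ⟨a, σ (t 0) - a * t 0, fun x => by simp⟩, ?_⟩
      intro i
      fin_cases i
      · simp
      · simp
        linear_combination ha
  · intro σ hσ
    have h01 : (0 : ZMod p) ≠ 1 := zero_ne_one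
    have hne : σ 1 - σ 0 ≠ 0 := sub_ne_zero.mpr (fun h => h01.symm (σ.injective h))
    refine ⟨Units.mk0 (σ 1 - σ 0) hne, σ 0, fun x => ?_⟩
    obtain ⟨g, ⟨a, b, hab⟩, hg⟩ := hσ ![0, 1, x]
    have e0 := hg 0
    have e1 := hg 1
    have e2 := hg 2
    simp only [Matrix.cons_val_zero, Matrix.cons_val_one, Matrix.cons_val, hab] at e0 e1 e2
    rw [Units.val_mk0, e0, e1, e2]
    ring

end Cfsg.Agent.S3518
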