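import Cfsg.Statements.S3524
import Mathlib

set_option autoImplicit false
open Cfsg

namespace Cfsg.Agent.S3524



/-- A permutation group with a base is closed at one level above the base size. Let G be a group of permutations of a set Ω and suppose some k points α₁, …, α_k are fixed simultaneously only by the identity of G (a base of size k). Then G is (k+1)-closed: a permutation of Ω that agrees on every (k+1)-tuple of points with some element of G belongs to G. -/
theorem result {Ω : Type*} (G : Subgroup (Equiv.Perm Ω)) (k : ℕ) (α : Fin k → Ω)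
    (hbase : ∀ g ∈ G, (∀ i, g (α i) = α i) → g = 1) (σ : Equiv.Perm Ω)
    (hσ : ∀ t : Fin (k + 1) → Ω, ∃ g ∈ G, ∀ i, σ (t i) = g (t i)) : σ ∈ G := by
  rcases isEmpty_or_nonempty Ω with hΩ | ⟨⟨ω0⟩⟩
  · have : σ = 1 := Subsingleton.elim _ _
    rw [this]; exact G.one_mem
  · obtain ⟨g, hg, hgs⟩ := hσ (Fin.snoc (α := fun _ => Ω) α ω0)
    have h1 : ∀ i : Fin k, σ (α i) = g (α i) := by
      intro i
      have := hgs (Fin.castSucc i)
      simpa using this
    have h2 : σ = g := by
      ext ω
      obtain ⟨g', hg', hgs'⟩ := hσ (Fin.snoc (α := fun _ => Ω) α ω)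
      have h3 : ∀ i : Fin k, σ (α i) = g' (α i) := by
        intro i
        have := hgs' (Fin.castSucc i)
        simpa using this
      have h4 : σ ω = g' ω := by
        have := hgs' (Fin.last k)
        simpa using this
      have h5 : g⁻¹ * g' = 1 := by
        apply hbase _ (G.mul_mem (G.inv_mem hg) hg')
        intro i
        rw [Equiv.Perm.mul_apply, ← h3 i, h1 i]; simp
      rw [h4, ← inv_mul_eq_one.mp h5]
    rw [h2]; exact hg

end Cfsg.Agent.S3524
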