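import Cfsg.Statements.S3532
import Cfsg.Agent.LibPSLord14
import Cfsg.Agent.LibSpecH13


set_option autoImplicit false
open Cfsg

namespace Cfsg.Agent.S3532


open Matrix CfsgLib.PSLord14

/-- multiplication action -/
def mulAct (E : Type) [Field E] : Eˣ →* MulAut (Multiplicative E) where
  toFun u := AddEquiv.toMultiplicative (DistribMulAction.toAddEquiv E u)
  map_one' := by
    refine MulEquiv.ext fun v => ?_
    apply Multiplicative.toAdd.injective
    exact one_smul Eˣ (Multiplicative.toAdd v)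
  map_mul' g h := by
    refine MulEquiv.ext fun v => ?_
    apply Multiplicative.toAdd.injective
    exact mul_smul g h (Multiplicative.toAdd v)

theorem frob (p : ℕ) [hp : Fact p.Prime] (m : ℕ) (hm : m ≠ 0) (b : ℕ) (hb : b ∣ p ^ m - 1) :
    ∃ (H : Type) (_ : Group H) (_ : Finite H), Group.IsSolvable H ∧ (∀ x : H, x ^ p = 1 ∨ x ^ b = 1) ∧
      (∃ x : H, orderOf x = p) ∧ ∃ x : H, orderOf x = b := by
  classical
  let E := GaloisField p m
  haveI : Finite Eˣ := inferInstance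
  have hE : Nat.card E = p ^ m := GaloisField.card p m hm
  have hE' : Nat.card Eˣ = p ^ m - 1 := by rw [Nat.card_units, hE]
  obtain ⟨g, hg⟩ := IsCyclic.exists_generator (α := Eˣ)
  have hgo : orderOf g = p ^ m - 1 := by rw [← hE']; exact orderOf_eq_card_of_forall_mem_zpowers hg
  obtain ⟨c, hc⟩ := hb
  have hpos : 0 < p ^ m - 1 := by
    rw [← hE']; exact Nat.card_pos
  have hcpos : c ≠ 0 := by
    rintro rfl
    rw [mul_zero] at hc
    omega
  have hbpos : 0 < b := by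
    rcases Nat.eq_zero_or_pos b with h | h
    · rw [h, zero_mul] at hc; omega
    · exact h
  have hz : orderOf (g ^ c) = b := by
    rw [orderOf_pow' g hcpos, hgo, hc, Nat.gcd_eq_right (dvd_mul_left c b), Nat.mul_div_cancel _ (Nat.pos_of_ne_zero hcpos)]
  let Z : Subgroup Eˣ := Subgroup.zpowers (g ^ c)
  have hZc : Nat.card Z = b := by rw [Nat.card_zpowers, hz]
  let φ : Z →* MulAut (Multiplicative E) := (mulAct E).comp Z.subtype
  have hφ : ∀ (z : Z) (v : Multiplicative E), Multiplicative.toAdd (φ z v) = (z.1 : E) * Multiplicative.toAdd v := fun z v => rfl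
  haveI : Finite (Multiplicative E) := inferInstanceAs (Finite E)
  haveI hfin : Finite (Multiplicative E ⋊[φ] Z) := Finite.of_equiv _ SemidirectProduct.equivProd.symm
  refine ⟨Multiplicative E ⋊[φ] Z, inferInstance, hfin, Cfsg.Agent.SpecH13.semi_solvable (φ := φ) inferInstance, ?_, ?_, ?_⟩
  · intro x
    by_cases hx : x.right = 1
    · left
      have : x = SemidirectProduct.inl x.left := by ext1 <;> simp [hx]
      rw [this, ← map_pow]
      have : x.left ^ p = 1 := by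
        apply Multiplicative.toAdd.injective
        show p • (Multiplicative.toAdd x.left : E) = 0
        rw [nsmul_eq_mul, CharP.cast_eq_zero, zero_mul]
      rw [this, map_one]
    · right
      refine Cfsg.Agent.SpecH13.pow_eq_one (φ := φ) ?_ x hx b ?_
      · intro z hz v hv
        apply Multiplicative.toAdd.injective
        have h1 := congrArg Multiplicative.toAdd hv
        rw [hφ] at h1
        by_contra h0
        apply hz
        have h0' : (Multiplicative.toAdd v : E) ≠ 0 := h0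
        have h2 : (z.1 : E) = 1 := mul_right_cancel₀ h0' (by rw [h1, one_mul])
        exact Subtype.ext (Units.ext h2)
      · rw [← hZc]
        exact pow_card_eq_one'
  · refine ⟨SemidirectProduct.inl (Multiplicative.ofAdd (1 : E)), ?_⟩
    rw [orderOf_injective _ SemidirectProduct.inl_injective]
    apply orderOf_eq_prime
    · apply Multiplicative.toAdd.injective
      show p • (1 : E) = 0
      rw [nsmul_eq_mul, CharP.cast_eq_zero, zero_mul]
    · intro h
      exact one_ne_zero (α := E) (congrArg Multiplicative.toAdd h)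
  · refine ⟨SemidirectProduct.inr ⟨g ^ c, Subgroup.mem_zpowers _⟩, ?_⟩
    rw [orderOf_injective _ SemidirectProduct.inr_injective]
    rw [← Subgroup.orderOf_coe]
    exact hz

theorem prod_range {A B : Type*} [Group A] [Group B] (p a b : ℕ) (hp : 0 < p) (ha : 0 < a) (hb : 0 < b)
    (hA : ∀ x : A, x ^ p = 1 ∨ x ^ a = 1 ∨ x ^ b = 1) (hB : ∀ x : B, x ^ p = 1 ∨ x ^ a = 1 ∨ x ^ b = 1)
    (hex : ∀ (x : A) (y : B), (x ^ Nat.lcm p a = 1 ∧ y ^ Nat.lcm p a = 1) ∨ (x ^ Nat.lcm p b = 1 ∧ y ^ Nat.lcm p b = 1) ∨ (x ^ Nat.lcm a b = 1 ∧ y ^ Nat.lcm a b = 1))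
    (h1 : ∃ (x : A) (y : B), Nat.lcm (orderOf x) (orderOf y) = Nat.lcm p a) (h2 : ∃ (x : A) (y : B), Nat.lcm (orderOf x) (orderOf y) = Nat.lcm p b)
    (h3 : ∃ (x : A) (y : B), Nat.lcm (orderOf x) (orderOf y) = Nat.lcm a b) :
    Set.range (orderOf : A × B → ℕ) = {d | ∃ n ∈ [Nat.lcm p a, Nat.lcm p b, Nat.lcm a b], d ∣ n} := by
  apply Cfsg.Agent.SpecH13.range_eq
  · intro n hn
    simp only [List.mem_cons, List.not_mem_nil, or_false] at hn
    rcases hn with rfl | rfl | rfl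
    · exact Nat.lcm_pos hp ha
    · exact Nat.lcm_pos hp hb
    · exact Nat.lcm_pos ha hb
  · rintro ⟨x, y⟩
    rcases hex x y with ⟨hx, hy⟩ | ⟨hx, hy⟩ | ⟨hx, hy⟩
    · exact ⟨_, by simp, Prod.ext hx hy⟩
    · exact ⟨Nat.lcm p b, by simp, Prod.ext hx hy⟩
    · exact ⟨Nat.lcm a b, by simp, Prod.ext hx hy⟩
  · intro n hn
    simp only [List.mem_cons, List.not_mem_nil, or_false] at hn
    rcases hn with rfl | rfl | rfl
    · obtain ⟨x, y, h⟩ := h1; exact ⟨(x, y), by rw [Prod.orderOf_mk, h]⟩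
    · obtain ⟨x, y, h⟩ := h2; exact ⟨(x, y), by rw [Prod.orderOf_mk, h]⟩
    · obtain ⟨x, y, h⟩ := h3; exact ⟨(x, y), by rw [Prod.orderOf_mk, h]⟩

theorem pow_lcm_left {A : Type*} [Group A] {x : A} {m : ℕ} (n : ℕ) (h : x ^ m = 1) : x ^ Nat.lcm m n = 1 :=
  orderOf_dvd_iff_pow_eq_one.mp ((orderOf_dvd_of_pow_eq_one h).trans (Nat.dvd_lcm_left m n))

theorem pow_lcm_right {A : Type*} [Group A] {x : A} {m : ℕ} (n : ℕ) (h : x ^ m = 1) : x ^ Nat.lcm n m = 1 :=
  orderOf_dvd_iff_pow_eq_one.mp ((orderOf_dvd_of_pow_eq_one h).trans (Nat.dvd_lcm_right n m))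



/-- Let q ≥ 4 be a prime power and L = PSL(2,q). There is a finite solvable group with the same set of element orders as L × L (so L × L is not determined by its spectrum). -/
theorem result {F : Type*} [Field F] [Fintype F] (hF : 4 ≤ Fintype.card F) :
    ∃ (H : Type) (_ : Group H) (_ : Finite H), Group.IsSolvable H ∧
      Set.range (orderOf : H → ℕ) = Set.range (orderOf : Matrix.ProjectiveSpecialLinearGroup (Fin 2) F × Matrix.ProjectiveSpecialLinearGroup (Fin 2) F → ℕ) := by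
  classical
  obtain ⟨p, hp⟩ := CharP.exists F
  obtain ⟨n, hpp, hn⟩ := FiniteField.card F p
  haveI : Fact p.Prime := ⟨hpp⟩
  set q := Fintype.card F with hq
  have hq1 : 1 < q := by omega
  obtain ⟨hd1, hd2, hd0⟩ := d_cases q hq1
  set d := Nat.gcd 2 (q - 1) with hd
  set a := (q - 1) / d with ha
  set b := (q + 1) / d with hb
  have hapos : 0 < a := Nat.div_pos (Nat.le_of_dvd (by omega) hd1) hd0
  have hbpos : 0 < b := Nat.div_pos (Nat.le_of_dvd (by omega) hd2) hd0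
  have hq2 : p ^ (2 * (n : ℕ)) - 1 = (q + 1) * (q - 1) := by
    rw [mul_comm 2, pow_mul, ← hn, ← Nat.sq_sub_sq q 1, one_pow]
  have ham : a ∣ p ^ (2 * (n : ℕ)) - 1 := by
    rw [hq2]
    exact dvd_mul_of_dvd_right (Nat.div_dvd_of_dvd hd1) _
  have hbm : b ∣ p ^ (2 * (n : ℕ)) - 1 := by
    rw [hq2]
    exact dvd_mul_of_dvd_left (Nat.div_dvd_of_dvd hd2) _
  have hm0 : 2 * (n : ℕ) ≠ 0 := mul_ne_zero two_ne_zero n.2.ne'
  obtain ⟨A, iA, fA, sA, cA, ⟨x1, hx1⟩, ⟨x2, hx2⟩⟩ := frob p (2 * n) hm0 a ham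
  obtain ⟨B, iB, fB, sB, cB, ⟨y1, hy1⟩, ⟨y2, hy2⟩⟩ := frob p (2 * n) hm0 b hbm
  refine ⟨A × B, inferInstance, inferInstance, inferInstance, ?_⟩
  obtain ⟨gp, hgp⟩ := exists_char (F := F) p
  obtain ⟨ga, hga⟩ := exists_minus (F := F)
  obtain ⟨gb, hgb⟩ := exists_plus (F := F)
  rw [← hq, ← hd] at hga hgb
  rw [← ha] at hga
  rw [← hb] at hgb
  have hL := cases (F := F) p
  rw [← hq, ← hd, ← ha, ← hb] at hL
  rw [prod_range (A := A) (B := B) p a b hpp.pos hapos hbpos (fun x => (cA x).imp_right Or.inl) (fun x => (cB x).imp_right Or.inr) ?_ ?_ ?_ ?_,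
    prod_range (A := Matrix.ProjectiveSpecialLinearGroup (Fin 2) F) (B := Matrix.ProjectiveSpecialLinearGroup (Fin 2) F) p a b hpp.pos hapos hbpos hL hL ?_ ?_ ?_ ?_]
  · intro x y
    rcases hL x with hx | hx | hx <;> rcases hL y with hy | hy | hy
    · exact Or.inl ⟨pow_lcm_left _ hx, pow_lcm_left _ hy⟩
    · exact Or.inl ⟨pow_lcm_left _ hx, pow_lcm_right _ hy⟩
    · exact Or.inr (Or.inl ⟨pow_lcm_left _ hx, pow_lcm_right _ hy⟩)
    · exact Or.inl ⟨pow_lcm_right _ hx, pow_lcm_left _ hy⟩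
    · exact Or.inl ⟨pow_lcm_right _ hx, pow_lcm_right _ hy⟩
    · exact Or.inr (Or.inr ⟨pow_lcm_left _ hx, pow_lcm_right _ hy⟩)
    · exact Or.inr (Or.inl ⟨pow_lcm_right _ hx, pow_lcm_left _ hy⟩)
    · exact Or.inr (Or.inr ⟨pow_lcm_right _ hx, pow_lcm_left _ hy⟩)
    · exact Or.inr (Or.inl ⟨pow_lcm_right _ hx, pow_lcm_right _ hy⟩)
  · exact ⟨gp, ga, by rw [hgp, hga]⟩
  · exact ⟨gp, gb, by rw [hgp, hgb]⟩
  · exact ⟨ga, gb, by rw [hga, hgb]⟩
  · intro x y
    rcases cA x with hx | hx <;> rcases cB y with hy | hy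
    · exact Or.inl ⟨pow_lcm_left _ hx, pow_lcm_left _ hy⟩
    · exact Or.inr (Or.inl ⟨pow_lcm_left _ hx, pow_lcm_right _ hy⟩)
    · exact Or.inl ⟨pow_lcm_right _ hx, pow_lcm_left _ hy⟩
    · exact Or.inr (Or.inr ⟨pow_lcm_left _ hx, pow_lcm_right _ hy⟩)
  · exact ⟨x2, y1, by rw [hx2, hy1, Nat.lcm_comm]⟩
  · exact ⟨x1, y2, by rw [hx1, hy2]⟩
  · exact ⟨x2, y2, by rw [hx2, hy2]⟩

end Cfsg.Agent.S3532
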