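import Cfsg.Statements.S3547
import Cfsg.Agent.LibH14Derang


set_option autoImplicit false
open Cfsg

namespace Cfsg.Agent.S3547

open MulAction CfsgLib.H14Derang in
theorem fix_sq {G Ω : Type*} [Group G] [MulAction G Ω] (g : G) :
    Nat.card (fixedBy (Ω × Ω) g) = Nat.card (fixedBy Ω g) * Nat.card (fixedBy Ω g) := by
  rw [← Nat.card_prod]
  apply Nat.card_congr
  refine ⟨fun x => (⟨x.1.1, (Prod.ext_iff.mp x.2).1⟩, ⟨x.1.2, (Prod.ext_iff.mp x.2).2⟩),
    fun x => ⟨(x.1.1, x.2.1), Prod.ext x.1.2 x.2.2⟩, fun x => rfl, fun x => rfl⟩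


/-- Let G act faithfully and transitively on a finite set Ω, let D be the subgroup generated by the derangements, and let r_G and r_D be the numbers of orbits of G and of D on ordered pairs of points (the permutation ranks). Then r_D − 1 = (r_G − 1)·[G : D]. -/
theorem result {G Ω : Type*} [Group G] [Finite G] [MulAction G Ω] [FaithfulSMul G Ω] [Finite Ω]
    (htrans : MulAction.IsPretransitive G Ω) :
    Nat.card (MulAction.orbitRel.Quotient ↥(Subgroup.closure {g : G | ∀ ω : Ω, g • ω ≠ ω}) (Ω × Ω)) - 1 =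
      (Nat.card (MulAction.orbitRel.Quotient G (Ω × Ω)) - 1) * (Subgroup.closure {g : G | ∀ ω : Ω, g • ω ≠ ω}).index := by
  classical
  open MulAction CfsgLib.H14Derang in
  rcases isEmpty_or_nonempty Ω with hE | hN
  · have h1 : IsEmpty (orbitRel.Quotient G (Ω × Ω)) := ⟨fun x => by
      induction x using Quotient.inductionOn with
      | h x => exact isEmptyElim x.1⟩
    have h2 : IsEmpty (orbitRel.Quotient (D G Ω) (Ω × Ω)) := ⟨fun x => by
      induction x using Quotient.inductionOn with
      | h x => exact isEmptyElim x.1⟩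
    rw [Nat.card_of_isEmpty, Nat.card_of_isEmpty, Nat.zero_sub, Nat.zero_mul]
  · obtain ⟨htr, hfix⟩ := main (G := G) (Ω := Ω) htrans
    have : Fintype G := Fintype.ofFinite G
    have h1 := sum_fix (G := G) (Ω := Ω × Ω)
    have h2 := sum_fix_sub (Ω := Ω × Ω) (D G Ω)
    have hsplit := Finset.sum_filter_add_sum_filter_not (Finset.univ : Finset G)
      (fun g => g ∈ D G Ω) (fun g => Nat.card (fixedBy (Ω × Ω) g))
    have hcard := Finset.card_filter_add_card_filter_not (s := (Finset.univ : Finset G))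
      (fun g => g ∈ D G Ω)
    have hDc : (Finset.univ.filter (fun g : G => g ∈ D G Ω)).card = Nat.card (D G Ω) := by
      rw [Nat.card_eq_fintype_card, Fintype.card_subtype]
    have hGc : (Finset.univ : Finset G).card = Nat.card G := by
      rw [Nat.card_eq_fintype_card]; rfl
    have h3 : ∑ g ∈ Finset.univ.filter (fun g : G => g ∉ D G Ω), Nat.card (fixedBy (Ω × Ω) g) =
        (Finset.univ.filter (fun g : G => g ∉ D G Ω)).card := by
      rw [Finset.card_eq_sum_ones]
      apply Finset.sum_congr rfl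
      intro g hg
      rw [fix_sq, hfix g (Finset.mem_filter.mp hg).2]
    rw [h3, h2, h1] at hsplit
    rw [hDc, hGc] at hcard
    have hidx := Subgroup.index_mul_card (D G Ω)
    have hp1 := card_orbits_pos (G := G) (Ω := Ω × Ω)
    have hp2 := card_orbits_pos (G := D G Ω) (Ω := Ω × Ω)
    change Nat.card (orbitRel.Quotient (D G Ω) (Ω × Ω)) - 1 =
      (Nat.card (orbitRel.Quotient G (Ω × Ω)) - 1) * (D G Ω).index
    obtain ⟨a, ha⟩ : ∃ a, Nat.card (orbitRel.Quotient (D G Ω) (Ω × Ω)) = a + 1 := ⟨_, (Nat.sub_add_cancel hp2).symm⟩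
    obtain ⟨b, hb⟩ : ∃ b, Nat.card (orbitRel.Quotient G (Ω × Ω)) = b + 1 := ⟨_, (Nat.sub_add_cancel hp1).symm⟩
    rw [ha, hb] at hsplit ⊢
    simp only [Nat.add_sub_cancel]
    have hDpos : 0 < Nat.card (D G Ω) := Nat.card_pos
    apply Nat.eq_of_mul_eq_mul_right hDpos
    rw [mul_assoc, hidx]
    nlinarith [hsplit, hcard]

end Cfsg.Agent.S3547
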