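import Cfsg.Statements.S3548
import Cfsg.Agent.LibH14Derang


set_option autoImplicit false
open Cfsg

namespace Cfsg.Agent.S3548

/-- Let G act faithfully and transitively on a finite set with n ≥ 2 points and let D be the subgroup generated by the derangements. Then the index of D in G divides n − 1, and if it equals n − 1 then n is a prime power. -/
theorem result {G Ω : Type*} [Group G] [Finite G] [MulAction G Ω] [FaithfulSMul G Ω] [Finite Ω]
    (htrans : MulAction.IsPretransitive G Ω) (hΩ : 2 ≤ Nat.card Ω) :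
    (Subgroup.closure {g : G | ∀ ω : Ω, g • ω ≠ ω}).index ∣ Nat.card Ω - 1 ∧
    ((Subgroup.closure {g : G | ∀ ω : Ω, g • ω ≠ ω}).index = Nat.card Ω - 1 → IsPrimePow (Nat.card Ω)) := by
  classical
  open MulAction CfsgLib.H14Derang in
  have hN : Nonempty Ω := by
    by_contra h
    rw [not_nonempty_iff] at h
    rw [Nat.card_of_isEmpty] at hΩ
    omega
  change (D G Ω).index ∣ Nat.card Ω - 1 ∧ ((D G Ω).index = Nat.card Ω - 1 → IsPrimePow (Nat.card Ω))
  refine ⟨index_dvd htrans, fun heq => ?_⟩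
  obtain ⟨htr, hfix⟩ := main (G := G) (Ω := Ω) htrans
  set α : Ω := Classical.arbitrary Ω with hα
  -- every point other than α is in a single orbit of size n - 1
  have key : ∀ β : Ω, β ≠ α → (orbit (stabilizer G α) β).ncard = Nat.card Ω - 1 ∧
      stabilizer G α ⊓ D G Ω ≤ stabilizer G β := by
    intro β hβ
    obtain ⟨c, hc, hc2, hle⟩ := index_dvd_orbit htrans α β hβ
    have hsub : orbit (stabilizer G α) β ⊆ {α}ᶜ := by
      rintro y ⟨h, rfl⟩ hc
      apply hβ
      have h1 : (h : G) • β = α := hc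
      have h2 : (h : G) • α = α := h.2
      exact smul_left_cancel _ (h1.trans h2.symm)
    have hcomp : ({α}ᶜ : Set Ω).ncard = Nat.card Ω - 1 := by
      rw [Set.ncard_compl, Set.ncard_singleton]
    have hle2 : (orbit (stabilizer G α) β).ncard ≤ Nat.card Ω - 1 := by
      rw [← hcomp]; exact Set.ncard_le_ncard hsub (Set.toFinite _)
    have hpos : 0 < (orbit (stabilizer G α) β).ncard := by
      rw [Set.ncard_pos]; exact ⟨β, mem_orbit_self β⟩
    rw [heq] at hc
    have hc1 : c = 1 := by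
      have h0 : 0 < Nat.card Ω - 1 := by omega
      have : c ≠ 0 := by rintro rfl; omega
      by_contra hne
      have : 2 ≤ c := by omega
      have : (Nat.card Ω - 1) * 2 ≤ (Nat.card Ω - 1) * c := Nat.mul_le_mul_left _ this
      omega
    refine ⟨by rw [hc, hc1, mul_one], ?_⟩
    rw [hc1] at hc2
    have := Subgroup.relIndex_eq_one.mp hc2.symm
    exact this.trans inf_le_right
  have hM : stabilizer G α ⊓ D G Ω = ⊥ := by
    rw [eq_bot_iff]
    intro x hx
    rw [Subgroup.mem_bot]
    apply eq_of_smul_eq_smul (α := Ω)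
    intro y
    rw [one_smul]
    by_cases hy : y = α
    · rw [hy]; exact hx.1
    · exact (key y hy).2 hx
  -- all non-identity elements of D are conjugate
  have hconj : ∀ d₁ ∈ D G Ω, ∀ d₂ ∈ D G Ω, d₁ ≠ 1 → d₂ ≠ 1 → orderOf d₁ = orderOf d₂ := by
    intro d₁ hd₁ d₂ hd₂ h1 h2
    have e1 : d₁ • α ≠ α := fun h => h1 (by
      have : d₁ ∈ stabilizer G α ⊓ D G Ω := ⟨h, hd₁⟩
      rw [hM] at this; exact this)
    have e2 : d₂ • α ≠ α := fun h => h2 (by
      have : d₂ ∈ stabilizer G α ⊓ D G Ω := ⟨h, hd₂⟩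
      rw [hM] at this; exact this)
    have hsub : orbit (stabilizer G α) (d₁ • α) ⊆ {α}ᶜ := by
      rintro y ⟨h, rfl⟩ hc
      apply e1
      have h1 : (h : G) • (d₁ • α) = α := hc
      have h2 : (h : G) • α = α := h.2
      exact smul_left_cancel _ (h1.trans h2.symm)
    have heqs : orbit (stabilizer G α) (d₁ • α) = {α}ᶜ := by
      apply Set.eq_of_subset_of_ncard_le hsub _ (Set.toFinite _)
      rw [(key _ e1).1, Set.ncard_compl, Set.ncard_singleton]
    have hmem : d₂ • α ∈ orbit (stabilizer G α) (d₁ • α) := by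
      rw [heqs]; exact e2
    obtain ⟨h, hh⟩ := hmem
    have hh' : (h : G) • d₁ • α = d₂ • α := hh
    have hα2 : (h : G)⁻¹ • α = α := by
      rw [inv_smul_eq_iff]; exact h.2.symm
    have h3 : d₂⁻¹ * ((h : G) * d₁ * (h : G)⁻¹) ∈ stabilizer G α ⊓ D G Ω := by
      refine ⟨?_, Subgroup.mul_mem _ (Subgroup.inv_mem _ hd₂)
        ((D_normal (G := G) (Ω := Ω)).conj_mem _ hd₁ _)⟩
      change (d₂⁻¹ * ((h : G) * d₁ * (h : G)⁻¹)) • α = α
      rw [mul_smul, mul_smul, mul_smul, hα2, hh', inv_smul_smul]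
    rw [hM, Subgroup.mem_bot] at h3
    have h4 : d₂ = (h : G) * d₁ * (h : G)⁻¹ := by
      rw [inv_mul_eq_one] at h3; exact h3
    rw [h4]
    have h5 : (h : G) * d₁ * (h : G)⁻¹ = MulAut.conj (h : G) d₁ := by simp
    rw [h5]
    exact (MulEquiv.orderOf_eq (MulAut.conj (h : G)) d₁).symm
  -- D is regular
  have hcardD : Nat.card (D G Ω) = Nat.card Ω := by
    have h1 : Function.Bijective (fun d : D G Ω => (d : G) • α) := by
      constructor
      · intro d₁ d₂ h
        have h' : (d₁ : G) • α = (d₂ : G) • α := h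
        have : (d₂ : G)⁻¹ * d₁ ∈ stabilizer G α ⊓ D G Ω := by
          refine ⟨?_, Subgroup.mul_mem _ (Subgroup.inv_mem _ d₂.2) d₁.2⟩
          change ((d₂ : G)⁻¹ * (d₁ : G)) • α = α
          rw [mul_smul, h', inv_smul_smul]
        rw [hM, Subgroup.mem_bot, inv_mul_eq_one] at this
        exact Subtype.ext this.symm
      · intro y
        obtain ⟨d, hd⟩ := htr.exists_smul_eq α y
        exact ⟨d, hd⟩
    exact Nat.card_congr (Equiv.ofBijective _ h1)
  rw [← hcardD] at hΩ ⊢
  set p := (Nat.card (D G Ω)).minFac with hp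
  have hpp : p.Prime := Nat.minFac_prime (by omega)
  have : Fact p.Prime := ⟨hpp⟩
  obtain ⟨x, hx⟩ := exists_prime_orderOf_dvd_card' (G := D G Ω) p (Nat.minFac_dvd _)
  have hpg : IsPGroup p (D G Ω) := by
    intro d
    by_cases hd : d = 1
    · exact ⟨0, by rw [hd, one_pow]⟩
    · refine ⟨1, ?_⟩
      rw [pow_one]
      have hx1 : (x : G) ≠ 1 := by
        intro h
        have : x = 1 := Subtype.ext h
        rw [this, orderOf_one] at hx
        exact hpp.one_lt.ne hx
      have hd1 : (d : G) ≠ 1 := fun h => hd (Subtype.ext h)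
      have := hconj d d.2 x x.2 hd1 hx1
      rw [Subgroup.orderOf_coe, Subgroup.orderOf_coe, hx] at this
      rw [← this, pow_orderOf_eq_one]
  obtain ⟨k, hk⟩ := IsPGroup.iff_card.mp hpg
  rw [hk]
  refine hpp.isPrimePow.pow ?_
  rintro rfl
  rw [hk] at hΩ
  simp at hΩ

end Cfsg.Agent.S3548
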