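import Cfsg.Statements.S3549
import Cfsg.Agent.LibH14Derang


set_option autoImplicit false
open Cfsg

namespace Cfsg.Agent.S3549

/-- Let G act faithfully, transitively but imprimitively on a finite set with n points, and let D be the subgroup generated by the derangements. Then the index of D in G is at most √n − 1. -/
theorem result {G Ω : Type*} [Group G] [Finite G] [MulAction G Ω] [FaithfulSMul G Ω] [Finite Ω]
    (htrans : MulAction.IsPretransitive G Ω) (himp : ¬ MulAction.IsPreprimitive G Ω) :
    ((Subgroup.closure {g : G | ∀ ω : Ω, g • ω ≠ ω}).index : ℝ) ≤ Real.sqrt (Nat.card Ω) - 1 := by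
  classical
  open MulAction CfsgLib.H14Derang Pointwise in
  change (((D G Ω).index : ℕ) : ℝ) ≤ Real.sqrt (Nat.card Ω) - 1
  -- get a nontrivial block
  have hB : ∃ B : Set Ω, IsBlock G B ∧ ¬ IsTrivialBlock B := by
    by_contra hc
    push Not at hc
    exact himp { toIsPretransitive := htrans, isTrivialBlock_of_isBlock := fun {B} hB => hc B hB }
  obtain ⟨B, hB, hnt⟩ := hB
  rw [IsTrivialBlock, not_or] at hnt
  obtain ⟨hns, hnu⟩ := hnt
  rw [Set.not_subsingleton_iff] at hns
  obtain ⟨α, hα, β, hβ, hαβ⟩ := hns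
  have hN : Nonempty Ω := ⟨α⟩
  -- bound from the block
  have h1 : (D G Ω).index ∣ B.ncard - 1 := by
    apply index_dvd_of_invariant htrans α B hα
    intro x hx h hh
    have : h • B = B := by
      apply hB.smul_eq_of_mem hα
      rw [mem_stabilizer_iff] at hh
      rw [hh]; exact hα
    rw [← this]
    exact Set.smul_mem_smul_set hx
  have hBcard : 1 < B.ncard := by
    rw [Set.one_lt_ncard]
    exact ⟨α, hα, β, hβ, hαβ⟩
  -- action on blocks
  let Bk := ↥(orbit G B)
  have htS : IsPretransitive G Bk := inferInstance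
  have hNS : Nonempty Bk := ⟨⟨B, mem_orbit_self B⟩⟩
  have hmul := hB.ncard_block_mul_ncard_orbit_eq ⟨α, hα⟩
  have hDle : D G Bk ≤ D G Ω := by
    rw [D, Subgroup.closure_le]
    intro g hg
    apply Subgroup.subset_closure
    intro ω hω
    obtain ⟨h, hh⟩ := exists_smul_eq G α ω
    have hmem : ω ∈ h • B := by rw [← hh]; exact Set.smul_mem_smul_set hα
    apply hg ⟨h • B, ⟨h, rfl⟩⟩
    apply Subtype.ext
    change g • (h • B) = h • B
    have hb2 : IsBlock G (h • B) := hB.translate h
    apply hb2.smul_eq_of_mem hmem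
    rw [hω]; exact hmem
  have h2 : (D G Bk).index ∣ Nat.card Bk - 1 := index_dvd htS
  have h3 : (D G Ω).index ∣ (D G Bk).index := Subgroup.index_dvd_of_le hDle
  have hcS : Nat.card Bk = (orbit G B).ncard := rfl
  have hS1 : 1 < Nat.card Bk := by
    rw [hcS]
    by_contra hc
    have hpos : 0 < (orbit G B).ncard := by
      rw [Set.ncard_pos (Set.toFinite _)]; exact ⟨B, mem_orbit_self B⟩
    have h1' : (orbit G B).ncard = 1 := by omega
    rw [h1', mul_one] at hmul
    apply hnu
    rw [← Set.ncard_univ] at hmul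
    exact Set.eq_of_subset_of_ncard_le (Set.subset_univ _) hmul.symm.le (Set.toFinite _)
  set e := (D G Ω).index with he
  have hk : e + 1 ≤ B.ncard := by
    have := Nat.le_of_dvd (by omega) h1
    omega
  have hm : e + 1 ≤ (orbit G B).ncard := by
    have := Nat.le_of_dvd (by omega) (h3.trans h2)
    omega
  have hfin : (e + 1) * (e + 1) ≤ Nat.card Ω := by
    rw [← hmul]; exact Nat.mul_le_mul hk hm
  rw [le_sub_iff_add_le]
  apply Real.le_sqrt_of_sq_le
  rw [sq]
  exact_mod_cast hfin

end Cfsg.Agent.S3549
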