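import Cfsg.Statements.S3559
import Cfsg.Agent.LibH14SC


set_option autoImplicit false
open Cfsg

namespace Cfsg.Agent.S3559


open MulAction Subgroup

section Sring

variable {G Ω : Type*} [Group G] [MulAction G Ω] (C : Subgroup G) (ω : Ω)

/-- `T` is a union of suborbits -/
def IsS (T : Set C) : Prop := ∀ t ∈ T, ∀ s : G, s • ω = ω → ∀ t' : C, s • (t • ω) = t' • ω → t' ∈ T

variable {C ω}

theorem R_inv (hab : ∀ a b : C, a * b = b * a) (htr : ∀ a : Ω, ∃ c : C, c • ω = a) {T : Set C} (hT : IsS C ω T) (g : G) (a b : Ω)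
    (h : ∃ t ∈ T, t • a = b) : ∃ t ∈ T, t • (g • a) = g • b := by
  obtain ⟨t, ht, rfl⟩ := h
  obtain ⟨x, rfl⟩ := htr a
  obtain ⟨y, hy⟩ := htr (g • (x • ω))
  obtain ⟨t', ht'⟩ := htr (((y : G)⁻¹ * g * x) • (t • ω))
  have hs : ((y : G)⁻¹ * g * x) • ω = ω := by
    rw [mul_smul, mul_smul, inv_smul_eq_iff]; exact hy.symm
  have h1 : t' ∈ T := hT t ht _ hs t' ht'.symm
  refine ⟨t', h1, ?_⟩
  rw [← hy, smul_smul, hab t' y, mul_smul, ht']
  show (y : G) • (((y : G)⁻¹ * g * x) • (t • ω)) = g • (t • x • ω)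
  rw [smul_smul, smul_smul t x, hab t x, mul_smul x t]
  show ((y : G) * ((y : G)⁻¹ * g * x)) • (t • ω) = g • ((x : G) • (t • ω))
  rw [smul_smul g (x : G)]
  congr 1; group

theorem R_inv_iff (hab : ∀ a b : C, a * b = b * a) (htr : ∀ a : Ω, ∃ c : C, c • ω = a) {T : Set C} (hT : IsS C ω T) (g : G) (a b : Ω) :
    (∃ t ∈ T, t • (g • a) = g • b) ↔ ∃ t ∈ T, t • a = b := by
  constructor
  · intro h
    have := R_inv hab htr hT g⁻¹ _ _ h
    rwa [inv_smul_smul, inv_smul_smul] at this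
  · exact R_inv hab htr hT g a b

/-- S-subgroups are trivial in a primitive group -/
theorem closure_trivial [Finite G] [IsPreprimitive G Ω] [Nontrivial Ω] (hab : ∀ a b : C, a * b = b * a) (htr : ∀ a : Ω, ∃ c : C, c • ω = a)
    (hfree : ∀ c : C, c • ω = ω → c = 1) {T : Set C} (hT : IsS C ω T) : Subgroup.closure T = ⊥ ∨ Subgroup.closure T = ⊤ := by
  set K : Subgroup C := Subgroup.closure T with hK
  have hE : ∀ k ∈ K, ∀ (g : G) (a : Ω), ∃ k' ∈ K, k' • (g • a) = g • (k • a) := by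
    intro k hk
    refine Subgroup.closure_induction (p := fun k _ => ∀ (g : G) (a : Ω), ∃ k' ∈ K, k' • (g • a) = g • (k • a)) ?_ ?_ ?_ ?_ hk
    · intro t ht g a
      obtain ⟨t', ht', h⟩ := R_inv hab htr hT g a (t • a) ⟨t, ht, rfl⟩
      exact ⟨t', Subgroup.subset_closure ht', h⟩
    · intro g a
      exact ⟨1, K.one_mem, by rw [one_smul, one_smul]⟩
    · intro x y _ _ hx hy g a
      obtain ⟨k1, hk1, h1⟩ := hy g a
      obtain ⟨k2, hk2, h2⟩ := hx g (y • a)
      exact ⟨k2 * k1, K.mul_mem hk2 hk1, by rw [mul_smul, h1, h2, mul_smul]⟩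
    · intro x _ hx g a
      obtain ⟨k1, hk1, h1⟩ := hx g (x⁻¹ • a)
      refine ⟨k1⁻¹, K.inv_mem hk1, ?_⟩
      rw [smul_inv_smul] at h1
      rw [inv_smul_eq_iff, h1]
  let L : Subgroup G :=
    { carrier := {g | ∃ k ∈ K, k • ω = g • ω}
      one_mem' := ⟨1, K.one_mem, by rw [one_smul, one_smul]⟩
      mul_mem' := by
        rintro g h ⟨k1, hk1, h1⟩ ⟨k2, hk2, h2⟩
        obtain ⟨k3, hk3, h3⟩ := hE k2 hk2 g ω
        refine ⟨k3 * k1, K.mul_mem hk3 hk1, ?_⟩
        rw [mul_smul, h1, h3, h2, mul_smul]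
      inv_mem' := by
        rintro g ⟨k1, hk1, h1⟩
        obtain ⟨k3, hk3, h3⟩ := hE k1⁻¹ (K.inv_mem hk1) g⁻¹ (g • ω)
        refine ⟨k3, hk3, ?_⟩
        rw [inv_smul_smul] at h3
        have h4 : k1⁻¹ • (g • ω) = ω := by rw [inv_smul_eq_iff, h1]
        rw [h4] at h3
        exact h3 }
  have hle : stabilizer G ω ≤ L := fun g hg => ⟨1, K.one_mem, by rw [one_smul]; exact hg.symm⟩
  have hco : IsCoatom (stabilizer G ω) := IsPreprimitive.isCoatom_stabilizer_of_isPreprimitive G ω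
  rcases hco.le_iff.mp hle with h | h
  · right
    rw [eq_top_iff]
    intro c _
    have : (c : G) ∈ L := by rw [h]; exact mem_top _
    obtain ⟨k, hk, h1⟩ := this
    have h2 : (c⁻¹ * k) • ω = ω := by
      rw [mul_smul, h1]
      show c⁻¹ • (c • ω) = ω
      rw [inv_smul_smul]
    have h3 := hfree _ h2
    rw [inv_mul_eq_one] at h3
    rw [h3]; exact hk
  · left
    rw [Subgroup.eq_bot_iff_forall]
    intro k hk
    have : (k : G) ∈ L := ⟨k, hk, rfl⟩
    rw [h] at this
    exact hfree k this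

/-- the radical of an S-set -/
theorem radical_trivial [Finite G] [IsPreprimitive G Ω] [Nontrivial Ω] (hab : ∀ a b : C, a * b = b * a) (htr : ∀ a : Ω, ∃ c : C, c • ω = a)
    (hfree : ∀ c : C, c • ω = ω → c = 1) {T : Set C} (hT : IsS C ω T) (h : C) (hh1 : h ≠ 1) (hh : ∀ t, t ∈ T ↔ h * t ∈ T) (hne : T.Nonempty) :
    T = Set.univ := by
  have hinj : ∀ c d : C, c • ω = d • ω → c = d := by
    intro c d hcd
    have h2 : (d⁻¹ * c) • ω = ω := by rw [mul_smul, hcd, inv_smul_smul]
    have h3 := hfree _ h2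
    rw [inv_mul_eq_one] at h3
    exact h3.symm
  -- the radical as a subgroup
  let K : Subgroup C :=
    { carrier := {h | ∀ t, t ∈ T ↔ h * t ∈ T}
      one_mem' := by intro t; rw [one_mul]
      mul_mem' := by
        intro x y hx hy t
        rw [mul_assoc, ← hx (y * t), ← hy t]
      inv_mem' := by
        intro x hx t
        have := hx (x⁻¹ * t)
        rw [mul_inv_cancel_left] at this
        exact this.symm }
  have hKS : IsS C ω (K : Set C) := by
    intro x hx s hs y hy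
    have hx' : ∀ t, t ∈ T ↔ x * t ∈ T := hx
    show ∀ t, t ∈ T ↔ y * t ∈ T
    have key : ∀ b : Ω, (∃ t ∈ T, t • ω = b) ↔ ∃ t ∈ T, t • (x • ω) = b := by
      intro b
      obtain ⟨u, rfl⟩ := htr b
      constructor
      · rintro ⟨t, ht, h⟩
        refine ⟨x⁻¹ * t, ?_, ?_⟩
        · rw [hx', mul_inv_cancel_left]; exact ht
        · rw [smul_smul, hab (x⁻¹ * t) x, mul_inv_cancel_left, h]
      · rintro ⟨t, ht, h⟩
        refine ⟨x * t, (hx' t).mp ht, ?_⟩
        rw [hab x t, mul_smul, h]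
    have key2 : ∀ b : Ω, (∃ t ∈ T, t • ω = b) ↔ ∃ t ∈ T, t • (y • ω) = b := by
      intro b
      have h1 := R_inv_iff hab htr hT s ω (s⁻¹ • b)
      have h2 := R_inv_iff hab htr hT s (x • ω) (s⁻¹ • b)
      rw [smul_inv_smul, hs] at h1
      rw [smul_inv_smul, hy] at h2
      rw [h1, h2]
      exact key _
    intro t
    constructor
    · intro ht
      -- y t ω = t (y ω)
      have h1 := (key2 (t • (y • ω))).mpr ⟨t, ht, rfl⟩
      obtain ⟨u, hu, hu2⟩ := h1
      rw [smul_smul] at hu2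
      have := hinj _ _ hu2
      rw [hab y t, ← this]; exact hu
    · intro ht
      have h1 := (key2 ((y * t) • ω)).mp ⟨y * t, ht, rfl⟩
      obtain ⟨u, hu, hu2⟩ := h1
      rw [smul_smul] at hu2
      have := hinj _ _ hu2
      rw [hab u y] at this
      rw [← mul_left_cancel this]; exact hu
  have hKK : Subgroup.closure (K : Set C) = K := Subgroup.closure_eq K
  rcases closure_trivial hab htr hfree hKS with h1 | h1
  · exfalso
    rw [hKK] at h1
    have : h ∈ K := hh
    rw [h1, Subgroup.mem_bot] at this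
    exact hh1 this
  · rw [hKK] at h1
    obtain ⟨t, ht⟩ := hne
    rw [Set.eq_univ_iff_forall]
    intro u
    have : u * t⁻¹ ∈ K := by rw [h1]; exact mem_top _
    have := (this t).mp ht
    rwa [inv_mul_cancel_right] at this

/-- permutation matrices -/
noncomputable def PM [DecidableEq Ω] (p : ℕ) (t : C) : Matrix Ω Ω (ZMod p) := Matrix.of fun a b => if t • a = b then 1 else 0

theorem PM_one [DecidableEq Ω] (p : ℕ) : PM (C := C) (Ω := Ω) p 1 = 1 := by
  ext a b
  rw [PM, Matrix.of_apply, one_smul, Matrix.one_apply]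

theorem PM_mul [Fintype Ω] [DecidableEq Ω] (p : ℕ) (s t : C) : PM (Ω := Ω) p s * PM p t = PM p (t * s) := by
  ext a b
  rw [Matrix.mul_apply, Finset.sum_eq_single (s • a)]
  · simp only [PM, Matrix.of_apply, if_true, one_mul, mul_smul]
  · intro c _ hc
    simp only [PM, Matrix.of_apply]
    rw [if_neg (fun h => hc h.symm), zero_mul]
  · intro h; exact absurd (Finset.mem_univ _) h

theorem PM_pow [Fintype Ω] [DecidableEq Ω] (p : ℕ) (t : C) (k : ℕ) : (PM (Ω := Ω) p t) ^ k = PM p (t ^ k) := by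
  induction k with
  | zero => rw [pow_zero, pow_zero, PM_one]
  | succ k ih => rw [pow_succ, ih, PM_mul, pow_succ']

theorem PM_sum_pow [Fintype Ω] [DecidableEq Ω] [Nonempty Ω] (hab : ∀ a b : C, a * b = b * a) (p : ℕ) [Fact p.Prime] (T : Finset C) :
    (∑ t ∈ T, PM (Ω := Ω) p t) ^ p = ∑ t ∈ T, PM p (t ^ p) := by
  classical
  induction T using Finset.induction_on with
  | empty => rw [Finset.sum_empty, Finset.sum_empty, zero_pow (Fact.out : p.Prime).ne_zero]
  | insert a s ha ih =>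
    rw [Finset.sum_insert ha, Finset.sum_insert ha, add_pow_char_of_commute, ih, PM_pow]
    apply Commute.sum_right
    intro t _
    show PM p a * PM p t = PM p t * PM p a
    rw [PM_mul, PM_mul, hab]

theorem modp [Finite Ω] [Finite C] (hab : ∀ a b : C, a * b = b * a) (htr : ∀ a : Ω, ∃ c : C, c • ω = a)
    (hfree : ∀ c : C, c • ω = ω → c = 1) (p : ℕ) [Fact p.Prime] (T : Set C) (hT : IsS C ω T) :
    IsS C ω {x | ¬ p ∣ {t | t ∈ T ∧ t ^ p = x}.ncard} := by
  classical
  haveI := Fintype.ofFinite Ω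
  haveI := Fintype.ofFinite C
  haveI : Nonempty Ω := ⟨ω⟩
  have hinj : ∀ c d : C, ∀ a : Ω, c • a = d • a → c = d := by
    intro c d a hcd
    obtain ⟨x, rfl⟩ := htr a
    rw [smul_smul, smul_smul] at hcd
    have h2 : ((d * x)⁻¹ * (c * x)) • ω = ω := by rw [mul_smul, hcd, inv_smul_smul]
    have h3 := hfree _ h2
    rw [inv_mul_eq_one] at h3
    exact (mul_right_cancel h3).symm
  set TF : Finset C := T.toFinset with hTF
  have hTm : ∀ t, t ∈ TF ↔ t ∈ T := fun t => Set.mem_toFinset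
  set M : Matrix Ω Ω (ZMod p) := ∑ t ∈ TF, PM (Ω := Ω) p t with hM
  have hMab : ∀ a b, M a b = if (∃ t ∈ T, t • a = b) then 1 else 0 := by
    intro a b
    rw [hM, Matrix.sum_apply]
    split_ifs with h
    · obtain ⟨t, ht, htb⟩ := h
      rw [Finset.sum_eq_single t]
      · rw [PM, Matrix.of_apply, if_pos htb]
      · intro t' _ ht'
        rw [PM, Matrix.of_apply, if_neg]
        intro h
        exact ht' (hinj _ _ a (h.trans htb.symm))
      · intro h; exact absurd ((hTm t).mpr ht) h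
    · apply Finset.sum_eq_zero
      intro t ht
      rw [PM, Matrix.of_apply, if_neg]
      intro h'; exact h ⟨t, (hTm t).mp ht, h'⟩
  have hMinv : ∀ (g : G) a b, M (g • a) (g • b) = M a b := by
    intro g a b
    rw [hMab, hMab, if_congr (R_inv_iff hab htr hT g a b) rfl rfl]
  have hMk : ∀ (k : ℕ) (g : G) a b, (M ^ k) (g • a) (g • b) = (M ^ k) a b := by
    intro k
    induction k with
    | zero =>
      intro g a b
      rw [pow_zero, Matrix.one_apply, Matrix.one_apply]
      simp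
    | succ k ih =>
      intro g a b
      rw [pow_succ, Matrix.mul_apply, Matrix.mul_apply]
      rw [← Equiv.sum_comp (MulAction.toPerm g : Equiv.Perm Ω)]
      apply Finset.sum_congr rfl
      intro c _
      rw [MulAction.toPerm_apply, ih, hMinv]
  have hval : ∀ x : C, (M ^ p) ω (x • ω) = (({t | t ∈ T ∧ t ^ p = x}.ncard : ℕ) : ZMod p) := by
    intro x
    rw [hM, PM_sum_pow hab p TF, Matrix.sum_apply]
    have h1 : ∀ t ∈ TF, PM (Ω := Ω) p (t ^ p) ω (x • ω) = if t ^ p = x then 1 else 0 := by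
      intro t _
      rw [PM, Matrix.of_apply]
      apply if_congr _ rfl rfl
      exact ⟨fun h => hinj _ _ _ h, fun h => by rw [h]⟩
    rw [Finset.sum_congr rfl h1, Finset.sum_boole]
    congr 1
    rw [Set.ncard_eq_toFinset_card']
    congr 1
    ext t
    simp [hTm]
  intro x hx s hs y hy
  have h1 : (M ^ p) ω (y • ω) = (M ^ p) ω (x • ω) := by
    rw [← hy]
    conv_lhs => rw [← hs]
    rw [hs, ← hMk p s ω (x • ω), hs]
  rw [hval, hval] at h1
  intro hd
  apply hx
  rw [← ZMod.natCast_eq_zero_iff] at hd ⊢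
  rw [← h1]; exact hd

theorem fibre_full [Finite G] [Finite Ω] [Finite C] [IsPreprimitive G Ω] [Nontrivial Ω] (hcyc : IsCyclic C) (hab : ∀ a b : C, a * b = b * a)
    (htr : ∀ a : Ω, ∃ c : C, c • ω = a) (hfree : ∀ c : C, c • ω = ω → c = 1) {p : ℕ} (hp : p.Prime) (hpc : p ∣ Nat.card C) {T : Set C}
    (hT : IsS C ω T) (t : C) (ht : t ∈ T) (htp : t ^ p ≠ 1) (u : C) (hu : u ^ p = 1) : t * u ∈ T := by
  classical
  haveI := Fact.mk hp
  haveI := Fintype.ofFinite C
  have hS := modp hab htr hfree p T hT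
  have hcl := closure_trivial hab htr hfree hS
  have hbot : Subgroup.closure {x | ¬ p ∣ {t | t ∈ T ∧ t ^ p = x}.ncard} = ⊥ := by
    refine hcl.resolve_right ?_
    intro htop
    letI : CommGroup C := { (inferInstance : Group C) with mul_comm := hab }
    have h1 : Subgroup.closure {x | ¬ p ∣ {t | t ∈ T ∧ t ^ p = x}.ncard} ≤ (powMonoidHom p : C →* C).range := by
      rw [Subgroup.closure_le]
      intro x hx
      by_contra hcon
      apply hx
      have : {t | t ∈ T ∧ t ^ p = x} = ∅ := by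
        rw [Set.eq_empty_iff_forall_notMem]
        rintro t ⟨_, h⟩
        exact hcon ⟨t, h⟩
      rw [this, Set.ncard_empty]
      exact dvd_zero p
    rw [htop, top_le_iff, MonoidHom.range_eq_top] at h1
    have h2 : Function.Injective (powMonoidHom p : C →* C) := Finite.injective_iff_surjective.mpr h1
    obtain ⟨z, hz⟩ := exists_prime_orderOf_dvd_card' p hpc
    have h3 : z = 1 := by
      apply h2
      show z ^ p = 1 ^ p
      rw [one_pow, ← hz, pow_orderOf_eq_one]
    rw [h3, orderOf_one] at hz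
    exact hp.one_lt.ne hz
  have hnot : t ^ p ∉ {x | ¬ p ∣ {t | t ∈ T ∧ t ^ p = x}.ncard} := by
    intro h
    have := Subgroup.subset_closure h
    rw [SetLike.mem_coe, hbot, Subgroup.mem_bot] at this
    exact htp this
  have hdvd : p ∣ {t' | t' ∈ T ∧ t' ^ p = t ^ p}.ncard := by
    by_contra h; exact hnot h
  have hpos : 0 < {t' | t' ∈ T ∧ t' ^ p = t ^ p}.ncard := by
    rw [Set.ncard_pos (Set.toFinite _)]
    exact ⟨t, ht, rfl⟩
  have hle : p ≤ {t' | t' ∈ T ∧ t' ^ p = t ^ p}.ncard := Nat.le_of_dvd hpos hdvd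
  have hfib : {t' : C | t' ^ p = t ^ p}.ncard ≤ p := by
    have h1 := hcyc.card_pow_eq_one_le hp.pos
    have h2 : {t' : C | t' ^ p = t ^ p} = (fun x => t * x) '' {x : C | x ^ p = 1} := by
      ext x
      constructor
      · intro hx
        refine ⟨t⁻¹ * x, ?_, by simp⟩
        show (t⁻¹ * x) ^ p = 1
        have hc : Commute t⁻¹ x := hab _ _
        rw [hc.mul_pow, inv_pow, (show x ^ p = t ^ p from hx), inv_mul_cancel]
      · rintro ⟨y, hy, rfl⟩
        have hc : Commute t y := hab _ _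
        show (t * y) ^ p = t ^ p
        rw [hc.mul_pow, (show y ^ p = 1 from hy), mul_one]
    rw [h2]
    refine le_trans (Set.ncard_image_le (Set.toFinite _)) ?_
    rw [Set.ncard_eq_toFinset_card']
    refine le_trans (le_of_eq ?_) h1
    congr 1
    ext x; simp
  have hsub : {t' | t' ∈ T ∧ t' ^ p = t ^ p} = {t' : C | t' ^ p = t ^ p} := by
    apply Set.eq_of_subset_of_ncard_le (fun x hx => hx.2) (hfib.trans hle) (Set.toFinite _)
  have : t * u ∈ {t' : C | t' ^ p = t ^ p} := by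
    have hc : Commute t u := hab _ _
    show (t * u) ^ p = t ^ p
    rw [hc.mul_pow, hu, mul_one]
  rw [← hsub] at this
  exact this.1

end Sring



/-- Let G act faithfully and transitively on a finite set whose number of points n ≥ 2 is not a prime power, and suppose G has a cyclic subgroup acting regularly (transitively with trivial point stabilizers). Then G is imprimitive or doubly transitive. -/
theorem result {G Ω : Type*} [Group G] [Finite G] [MulAction G Ω] [FaithfulSMul G Ω] [Finite Ω]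
    (htrans : MulAction.IsPretransitive G Ω) (hn : 2 ≤ Nat.card Ω) (hnp : ¬ IsPrimePow (Nat.card Ω))
    (C : Subgroup G) (hcyc : IsCyclic ↥C) (hC : MulAction.IsPretransitive ↥C Ω ∧ ∀ a : Ω, MulAction.stabilizer ↥C a = ⊥) :
    ¬ MulAction.IsPreprimitive G Ω ∨ MulAction.IsMultiplyPretransitive G Ω 2 := by
  classical
  by_contra hcon
  push Not at hcon
  obtain ⟨hprim, h2t⟩ := hcon
  haveI := hprim
  haveI : Nontrivial Ω := by
    rw [← Finite.one_lt_card_iff_nontrivial]; omega
  obtain ⟨ω⟩ : Nonempty Ω := inferInstance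
  obtain ⟨hC1, hC2⟩ := hC
  have htr : ∀ a : Ω, ∃ c : C, c • ω = a := fun a => MulAction.exists_smul_eq C ω a
  have hfree : ∀ c : C, c • ω = ω → c = 1 := by
    intro c hc
    have : c ∈ MulAction.stabilizer C ω := hc
    rw [hC2, Subgroup.mem_bot] at this
    exact this
  have hab : ∀ a b : C, a * b = b * a := by
    obtain ⟨g, hg⟩ := hcyc.exists_generator
    intro a b
    obtain ⟨i, rfl⟩ := Subgroup.mem_zpowers_iff.mp (hg a)
    obtain ⟨j, rfl⟩ := Subgroup.mem_zpowers_iff.mp (hg b)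
    rw [← zpow_add, ← zpow_add, add_comm]
  have hcard : Nat.card C = Nat.card Ω := by
    apply Nat.card_congr
    refine Equiv.ofBijective (fun c : C => c • ω) ⟨?_, htr⟩
    intro c d hcd
    have h2 : (d⁻¹ * c) • ω = ω := by rw [mul_smul, show c • ω = d • ω from hcd, inv_smul_smul]
    have h3 := hfree _ h2
    rw [inv_mul_eq_one] at h3
    exact h3.symm
  -- two primes
  obtain ⟨p, hp, hpn⟩ := Nat.exists_prime_and_dvd (show Nat.card Ω ≠ 1 by omega)
  obtain ⟨q, hq, hqn, hpq⟩ : ∃ q, q.Prime ∧ q ∣ Nat.card Ω ∧ p ≠ q := by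
    by_contra hcon
    push Not at hcon
    apply hnp
    rw [isPrimePow_nat_iff]
    have h1 : Nat.card Ω = p ^ (Nat.card Ω).primeFactorsList.length := by
      apply Nat.eq_prime_pow_of_unique_prime_dvd (by omega)
      intro d hd hdn
      exact (hcon d hd hdn).symm
    refine ⟨p, _, hp, ?_, h1.symm⟩
    rw [List.length_pos_iff]
    intro h
    rw [h, List.length_nil, pow_zero] at h1
    omega
  -- basic sets
  let B : C → Set C := fun x => {t | ∃ s : G, s • ω = ω ∧ s • (x • ω) = t • ω}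
  have hBS : ∀ x, IsS C ω (B x) := by
    rintro x t ⟨s, hs, hst⟩ s' hs' t' ht'
    exact ⟨s' * s, by rw [mul_smul, hs, hs'], by rw [mul_smul, hst, ht']⟩
  have hBx : ∀ x, x ∈ B x := fun x => ⟨1, one_smul _ _, one_smul _ _⟩
  have hB1 : ∀ x, x ≠ 1 → (1 : C) ∉ B x := by
    rintro x hx ⟨s, hs, h⟩
    apply hx
    apply hfree
    rw [one_smul] at h
    exact smul_left_cancel s (h.trans hs.symm)
  have hclA : ∀ (r : ℕ), r.Prime → r ∣ Nat.card Ω → ∀ x : C, ∀ t ∈ B x, t ^ r ≠ 1 → ∀ u : C, u ^ r = 1 → t * u ∈ B x := by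
    intro r hr hrn x t ht htr' u hu
    exact fibre_full hcyc hab htr hfree hr (hcard ▸ hrn) (hBS x) t ht htr' u hu
  have hclB : ∀ (r : ℕ), r.Prime → r ∣ Nat.card Ω → ∀ x : C, x ≠ 1 → ∃ t ∈ B x, t ^ r = 1 := by
    intro r hr hrn x hx
    by_contra hcon
    push Not at hcon
    haveI := Fact.mk hr
    obtain ⟨z, hz⟩ := exists_prime_orderOf_dvd_card' r (show r ∣ Nat.card C from hcard ▸ hrn)
    have hz1 : z ≠ 1 := by
      intro h; rw [h, orderOf_one] at hz; exact hr.one_lt.ne hz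
    have hzr : z ^ r = 1 := by rw [← hz, pow_orderOf_eq_one]
    have huniv := radical_trivial hab htr hfree (hBS x) z hz1 (by
      intro t
      constructor
      · intro ht
        rw [hab]
        exact hclA r hr hrn x t ht (hcon t ht) z hzr
      · intro ht
        have h1 := hclA r hr hrn x _ ht (hcon _ ht) z⁻¹ (by rw [inv_pow, hzr, inv_one])
        rw [hab z t, mul_inv_cancel_right] at h1
        exact h1) ⟨x, hBx x⟩
    exact hB1 x hx (by rw [huniv]; exact Set.mem_univ _)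
  have hcop : ∀ u : C, u ^ p = 1 → u ^ q = 1 → u = 1 := by
    intro u h1 h2
    have h3 : orderOf u ∣ 1 := by
      rw [← (Nat.coprime_primes hp hq).mpr hpq]
      exact Nat.dvd_gcd (orderOf_dvd_of_pow_eq_one h1) (orderOf_dvd_of_pow_eq_one h2)
    exact orderOf_eq_one_iff.mp (Nat.dvd_one.mp h3)
  obtain ⟨z, hz1, hzp⟩ : ∃ z : C, z ≠ 1 ∧ z ^ p = 1 := by
    haveI := Fact.mk hp
    obtain ⟨z, hz⟩ := exists_prime_orderOf_dvd_card' p (show p ∣ Nat.card C from hcard ▸ hpn)
    refine ⟨z, ?_, by rw [← hz, pow_orderOf_eq_one]⟩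
    intro h; rw [h, orderOf_one] at hz; exact hp.one_lt.ne hz
  have hall : ∀ x : C, x ≠ 1 → z ∈ B x := by
    intro x hx
    obtain ⟨y, hyB, hyq⟩ := hclB q hq hqn x hx
    have hy1 : y ≠ 1 := fun h => hB1 x hx (h ▸ hyB)
    have hyp : y ^ p ≠ 1 := fun h => hy1 (hcop y h hyq)
    have h1 := hclA p hp hpn x y hyB hyp z hzp
    have h2 : (y * z) ^ q ≠ 1 := by
      intro h
      have hc : Commute y z := hab _ _
      rw [hc.mul_pow, hyq, one_mul] at h
      exact hz1 (hcop z hzp h)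
    have h3 := hclA q hq hqn x _ h1 h2 y⁻¹ (by rw [inv_pow, hyq, inv_one])
    rw [hab y z, mul_inv_cancel_right] at h3
    exact h3
  apply h2t
  rw [MulAction.is_two_pretransitive_iff]
  intro a b c d hab' hcd
  obtain ⟨g1, hg1⟩ := MulAction.exists_smul_eq G a ω
  obtain ⟨g2, hg2⟩ := MulAction.exists_smul_eq G c ω
  obtain ⟨x, hx⟩ := htr (g1 • b)
  obtain ⟨y, hy⟩ := htr (g2 • d)
  have hx1 : x ≠ 1 := by
    intro h
    rw [h, one_smul, ← hg1] at hx
    exact hab' (smul_left_cancel g1 hx)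
  have hy1 : y ≠ 1 := by
    intro h
    rw [h, one_smul, ← hg2] at hy
    exact hcd (smul_left_cancel g2 hy)
  obtain ⟨s, hs, hsx⟩ := hall x hx1
  obtain ⟨s', hs', hsy⟩ := hall y hy1
  refine ⟨g2⁻¹ * (s'⁻¹ * s) * g1, ?_, ?_⟩
  · rw [mul_smul, mul_smul, mul_smul, hg1, hs, inv_smul_eq_iff, hg2, inv_smul_eq_iff, hs']
  · rw [mul_smul, mul_smul, mul_smul, ← hx, hsx, inv_smul_eq_iff, ← hy, inv_smul_eq_iff, hsy]

end Cfsg.Agent.S3559
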