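import Cfsg.Statements.S3560
import Mathlib.GroupTheory.GroupAction.MultipleTransitivity


set_option autoImplicit false
open Cfsg

namespace Cfsg.Agent.S3560


open Equiv MulAction
open scoped Pointwise

section Ham

variable {Y ι A : Type*} (κ : Y ≃ (ι → A))

/-- adjacency: the two vectors differ in exactly one coordinate -/
def Adj (v w : ι → A) : Prop := ∃! i, v i ≠ w i

/-- the automorphism group of the Hamming graph -/
def HG : Subgroup (Perm Y) where
  carrier := {σ | ∀ x y, Adj (κ (σ x)) (κ (σ y)) ↔ Adj (κ x) (κ y)}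
  one_mem' := fun x y => Iff.rfl
  mul_mem' := by
    intro a b ha hb x y
    exact (ha (b x) (b y)).trans (hb x y)
  inv_mem' := by
    intro a ha x y
    have := ha (a⁻¹ x) (a⁻¹ y)
    have e : ∀ z, a (a⁻¹ z) = z := fun z => by
      show (a * a⁻¹) z = z
      rw [mul_inv_cancel]; rfl
    rw [e, e] at this
    exact this.symm

theorem mem_HG (σ : Perm Y) : σ ∈ HG κ ↔ ∀ x y, Adj (κ (σ x)) (κ (σ y)) ↔ Adj (κ x) (κ y) := Iff.rfl

/-- coordinatewise permutations -/
def cw (τ : ι → Perm A) : Perm Y := κ.trans ((Equiv.piCongrRight τ).trans κ.symm)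

theorem cw_apply (τ : ι → Perm A) (y : Y) (i : ι) : κ (cw κ τ y) i = τ i (κ y i) := by
  simp [cw]

theorem cw_mem (τ : ι → Perm A) : cw κ τ ∈ HG κ := by
  rw [mem_HG]
  intro x y
  unfold Adj
  simp only [cw_apply, ne_eq, (τ _).injective.eq_iff]

/-- coordinate permutations -/
def cp (π : Perm ι) : Perm Y := κ.trans ((Equiv.arrowCongr π (Equiv.refl A)).trans κ.symm)

theorem cp_apply (π : Perm ι) (y : Y) (i : ι) : κ (cp κ π y) i = κ y (π.symm i) := by
  simp [cp]

theorem cp_mem (π : Perm ι) : cp κ π ∈ HG κ := by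
  rw [mem_HG]
  intro x y
  unfold Adj
  simp only [cp_apply]
  constructor
  · rintro ⟨i, hi, hu⟩
    refine ⟨π.symm i, hi, ?_⟩
    intro j hj
    rw [← hu (π j) (by simpa using hj), Equiv.symm_apply_apply]
  · rintro ⟨i, hi, hu⟩
    refine ⟨π i, by simpa using hi, ?_⟩
    intro j hj
    rw [← hu (π.symm j) hj, Equiv.apply_symm_apply]

/-- there are permutations with two prescribed values -/
theorem exists_perm₂ [DecidableEq A] (a b c d : A) (hab : a ≠ b) (hcd : c ≠ d) : ∃ τ : Perm A, τ a = c ∧ τ b = d := by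
  refine ⟨Equiv.swap (Equiv.swap a c b) d * Equiv.swap a c, ?_, ?_⟩
  · rw [Perm.mul_apply, Equiv.swap_apply_left, Equiv.swap_apply_of_ne_of_ne]
    · intro h
      have : Equiv.swap a c a = Equiv.swap a c b := by rw [Equiv.swap_apply_left]; exact h
      exact hab ((Equiv.swap a c).injective this)
    · exact hcd
  · rw [Perm.mul_apply, Equiv.swap_apply_left]

theorem HG_trans [DecidableEq A] (x y : Y) : ∃ g ∈ HG κ, g x = y := by
  refine ⟨cw κ (fun i => Equiv.swap (κ x i) (κ y i)), cw_mem κ _, ?_⟩
  apply κ.injective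
  funext i
  rw [cw_apply, Equiv.swap_apply_left]

/-- adjacent pairs are conjugate -/
theorem HG_adj [DecidableEq A] [DecidableEq ι] (x y z w : Y) (h : Adj (κ x) (κ y)) (h' : Adj (κ z) (κ w)) :
    ∃ g ∈ HG κ, g x = z ∧ g y = w := by
  obtain ⟨i, hi, hiu⟩ := h
  obtain ⟨j, hj, hju⟩ := h'
  set x' := cp κ (Equiv.swap i j) x with hx'
  set y' := cp κ (Equiv.swap i j) y with hy'
  have ex : ∀ l, κ x' l = κ x (Equiv.swap i j l) := fun l => by rw [hx', cp_apply, Equiv.symm_swap]
  have ey : ∀ l, κ y' l = κ y (Equiv.swap i j l) := fun l => by rw [hy', cp_apply, Equiv.symm_swap]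
  have hne : κ x' j ≠ κ y' j := by
    rw [ex, ey, Equiv.swap_apply_right]; exact hi
  have heq : ∀ l, l ≠ j → κ x' l = κ y' l := by
    intro l hl
    rw [ex, ey]
    by_contra hcon
    have := hiu _ hcon
    apply hl
    have h2 : Equiv.swap i j l = Equiv.swap i j j := by rw [this, Equiv.swap_apply_right]
    exact (Equiv.swap i j).injective h2
  have heq' : ∀ l, l ≠ j → κ z l = κ w l := by
    intro l hl
    by_contra hcon
    exact hl (hju l hcon)
  obtain ⟨τ, hτ1, hτ2⟩ := exists_perm₂ (κ x' j) (κ y' j) (κ z j) (κ w j) hne hj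
  refine ⟨cw κ (fun l => if l = j then τ else Equiv.swap (κ x' l) (κ z l)) * cp κ (Equiv.swap i j),
    (HG κ).mul_mem (cw_mem κ _) (cp_mem κ _), ?_, ?_⟩
  · apply κ.injective
    funext l
    rw [Perm.mul_apply, cw_apply]
    split_ifs with hl
    · rw [hl]; exact hτ1
    · exact Equiv.swap_apply_left _ _
  · apply κ.injective
    funext l
    rw [Perm.mul_apply, cw_apply]
    split_ifs with hl
    · rw [hl]; exact hτ2
    · rw [← hy', ← heq l hl, Equiv.swap_apply_left]; exact heq' l hl

theorem HG_prim [Fintype ι] [Finite A] (hA : 3 ≤ Nat.card A) : IsPreprimitive (HG κ) Y := by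
  classical
  haveI := Fintype.ofFinite A
  haveI hpt : IsPretransitive (HG κ) Y := ⟨fun x y => by
    obtain ⟨g, hg, h⟩ := HG_trans κ x y
    exact ⟨⟨g, hg⟩, h⟩⟩
  refine { hpt with isTrivialBlock_of_isBlock := ?_ }
  intro B hB
  by_cases hsub : B.Subsingleton
  · exact Or.inl hsub
  right
  rw [Set.not_subsingleton_iff] at hsub
  obtain ⟨x, hx, y, hy, hxy⟩ := hsub
  -- block property
  have hblock : ∀ g ∈ HG κ, ∀ x ∈ B, g x ∈ B → ∀ y ∈ B, g y ∈ B := by
    intro g hg x hx hgx y hy
    have h1 : (⟨g, hg⟩ : HG κ) • B = B := by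
      apply hB.smul_eq_of_nonempty
      exact ⟨g x, ⟨x, hx, rfl⟩, hgx⟩
    rw [← h1]
    exact ⟨y, hy, rfl⟩
  obtain ⟨i, hi⟩ : ∃ i, κ x i ≠ κ y i := by
    by_contra hcon
    push Not at hcon
    exact hxy (κ.injective (funext hcon))
  obtain ⟨a, ha1, ha2⟩ : ∃ a, a ≠ κ x i ∧ a ≠ κ y i := by
    by_contra hcon
    push Not at hcon
    have h1 : (Finset.univ : Finset A) ⊆ {κ x i, κ y i} := by
      intro a _
      rw [Finset.mem_insert, Finset.mem_singleton]
      by_cases h : a = κ x i
      · exact Or.inl h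
      · exact Or.inr (hcon a h)
    have h2 := Finset.card_le_card h1
    have h3 : ({κ x i, κ y i} : Finset A).card ≤ 2 := Finset.card_le_two
    rw [Finset.card_univ, ← Nat.card_eq_fintype_card] at h2
    omega
  set g := cw κ (fun l => if l = i then Equiv.swap (κ y i) a else 1) with hg
  have hgm : g ∈ HG κ := cw_mem κ _
  have hgx : g x = x := by
    apply κ.injective
    funext l
    rw [hg, cw_apply]
    split_ifs with hl
    · rw [hl, Equiv.swap_apply_of_ne_of_ne hi ha1.symm]
    · rfl
  have hgy : ∀ l, κ (g y) l = if l = i then a else κ y l := by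
    intro l
    rw [hg, cw_apply]
    split_ifs with hl
    · rw [hl, Equiv.swap_apply_left]
    · rfl
  have hy'B : g y ∈ B := hblock g hgm x hx (by rw [hgx]; exact hx) y hy
  have hadj : Adj (κ y) (κ (g y)) := by
    refine ⟨i, ?_, ?_⟩
    · show κ y i ≠ κ (g y) i
      rw [hgy, if_pos rfl]; exact ha2.symm
    · intro j hj
      by_contra hji
      apply hj
      show κ y j = κ (g y) j
      rw [hgy, if_neg hji]
  -- neighbours
  have hnb : ∀ z ∈ B, ∀ w, Adj (κ z) (κ w) → w ∈ B := by
    intro z hz w hzw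
    obtain ⟨h, hh, h1, h2⟩ := HG_adj κ y (g y) z w hadj hzw
    rw [← h2]
    exact hblock h hh y hy (by rw [h1]; exact hz) _ hy'B
  rw [Set.eq_univ_iff_forall]
  intro w
  have key : ∀ s : Finset ι, κ.symm (fun l => if l ∈ s then κ w l else κ y l) ∈ B := by
    intro s
    induction s using Finset.induction_on with
    | empty =>
      have : (fun l => if l ∈ (∅ : Finset ι) then κ w l else κ y l) = κ y := by
        funext l; simp
      rw [this, Equiv.symm_apply_apply]; exact hy
    | insert j s hj ih =>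
      by_cases hjw : κ w j = κ y j
      · have : (fun l => if l ∈ insert j s then κ w l else κ y l) = (fun l => if l ∈ s then κ w l else κ y l) := by
          funext l
          by_cases hl : l = j
          · rw [hl, if_pos (Finset.mem_insert_self j s), if_neg hj, hjw]
          · simp only [Finset.mem_insert, hl, false_or]
        rw [this]; exact ih
      · apply hnb _ ih
        rw [Equiv.apply_symm_apply, Equiv.apply_symm_apply]
        refine ⟨j, ?_, ?_⟩
        · simp only [if_neg hj, Finset.mem_insert_self, if_true]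
          exact fun h => hjw h.symm
        · intro l hl
          by_contra hlj
          apply hl
          simp only [Finset.mem_insert, hlj, false_or]
  have := key Finset.univ
  have e : (fun l => if l ∈ (Finset.univ : Finset ι) then κ w l else κ y l) = κ w := by
    funext l; simp
  rwa [e, Equiv.symm_apply_apply] at this

theorem HG_not_two [Fintype ι] (hι : 2 ≤ Fintype.card ι) (a b : A) (hab : a ≠ b) : ¬ IsMultiplyPretransitive (HG κ) Y 2 := by
  classical
  intro h
  rw [is_two_pretransitive_iff] at h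
  obtain ⟨i, j, hij⟩ := Fintype.one_lt_card_iff.mp (show 1 < Fintype.card ι by omega)
  set x := κ.symm (fun _ => a) with hx
  set y := κ.symm (fun l => if l = i then b else a) with hy
  set z := κ.symm (fun l => if l = i ∨ l = j then b else a) with hz
  have hxa : Adj (κ x) (κ y) := by
    rw [hx, hy, Equiv.apply_symm_apply, Equiv.apply_symm_apply]
    refine ⟨i, by simpa using hab, ?_⟩
    intro l hl
    by_contra hli
    apply hl
    simp only [if_neg hli]
  have hxz : ¬ Adj (κ x) (κ z) := by
    rw [hx, hz, Equiv.apply_symm_apply, Equiv.apply_symm_apply]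
    rintro ⟨l, _, hu⟩
    have h1 := hu i (by simpa using hab)
    have h2 := hu j (by simpa using hab)
    exact hij (h1.trans h2.symm)
  have hxy : x ≠ y := by
    intro h
    rw [h] at hxa
    obtain ⟨l, hl, _⟩ := hxa
    exact hl rfl
  have hxz' : x ≠ z := by
    intro h
    rw [hx, hz] at h
    have := congrFun (κ.symm.injective h) i
    simp at this
    exact hab this
  obtain ⟨g, hg1, hg2⟩ := h hxy hxz'
  apply hxz
  have h3 := g.2 x y
  rw [show ((g : HG κ) : Perm Y) x = x from hg1, show ((g : HG κ) : Perm Y) y = z from hg2] at h3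
  exact h3.mpr hxa

end Ham



/-- Let K be a finite group isomorphic to a direct product of r ≥ 2 groups all of the same order m ≥ 3. Then K is not a B-group: there is a primitive but not doubly transitive permutation group (on some finite set) containing a regular subgroup isomorphic to K. -/
theorem result {K : Type*} [Group K] [Finite K] {ι : Type*} [Fintype ι] (F : ι → Type*) [∀ i, Group (F i)]
    (hr : 2 ≤ Fintype.card ι) (m : ℕ) (hm : 3 ≤ m) (hcard : ∀ i, Nat.card (F i) = m) (e : K ≃* (∀ i, F i)) :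
    ∃ (n : ℕ) (G R : Subgroup (Equiv.Perm (Fin n))), R ≤ G ∧ Nonempty (↥R ≃* K) ∧
      MulAction.IsPretransitive ↥R (Fin n) ∧ (∀ a : Fin n, MulAction.stabilizer ↥R a = ⊥) ∧
      MulAction.IsPreprimitive ↥G (Fin n) ∧ ¬ MulAction.IsMultiplyPretransitive ↥G (Fin n) 2 := by
  classical
  have hFfin : ∀ i, Finite (F i) := fun i => Nat.finite_of_card_ne_zero (by rw [hcard i]; omega)
  haveI : Finite (∀ i, F i) := inferInstance
  haveI := Fintype.ofFinite (∀ i, F i)
  let φ : (∀ i, F i) ≃ Fin (Fintype.card (∀ i, F i)) := Fintype.equivFin _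
  let c : ∀ i, F i ≃ Fin m := fun i => Finite.equivFinOfCardEq (hcard i)
  let κ : Fin (Fintype.card (∀ i, F i)) ≃ (ι → Fin m) := φ.symm.trans (Equiv.piCongrRight c)
  let ψ : K →* Perm (Fin (Fintype.card (∀ i, F i))) :=
    { toFun := fun k => φ.symm.trans ((Equiv.mulLeft (e k)).trans φ)
      map_one' := by
        ext y; simp
      map_mul' := by
        intro k l; ext y
        simp [mul_assoc] }
  have hψ : ∀ k y, ψ k y = φ (e k * φ.symm y) := fun k y => rfl
  have hinj : Function.Injective ψ := by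
    intro k l h
    have h1 := congrArg (fun τ : Perm _ => τ (φ 1)) h
    simp only [hψ, Equiv.symm_apply_apply, mul_one] at h1
    exact e.injective (φ.injective h1)
  refine ⟨Fintype.card (∀ i, F i), HG κ, ψ.range, ?_, ⟨(MonoidHom.ofInjective hinj).symm⟩, ?_, ?_, ?_, ?_⟩
  · rintro _ ⟨k, rfl⟩
    rw [mem_HG]
    intro x y
    have h1 : ∀ (x : Fin (Fintype.card (∀ i, F i))) i, κ (ψ k x) i = c i (e k i * (φ.symm x) i) := by
      intro x i
      show c i (φ.symm (ψ k x) i) = _
      rw [hψ, Equiv.symm_apply_apply]; rfl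
    have h2 : ∀ (x : Fin (Fintype.card (∀ i, F i))) i, κ x i = c i ((φ.symm x) i) := fun x i => rfl
    unfold Adj
    simp only [h1, h2, ne_eq, (c _).injective.eq_iff, mul_right_inj]
  · constructor
    intro x y
    refine ⟨⟨ψ (e.symm (φ.symm y * (φ.symm x)⁻¹)), ⟨_, rfl⟩⟩, ?_⟩
    show ψ (e.symm (φ.symm y * (φ.symm x)⁻¹)) x = y
    rw [hψ, MulEquiv.apply_symm_apply, inv_mul_cancel_right, Equiv.apply_symm_apply]
  · intro a
    rw [Subgroup.eq_bot_iff_forall]
    rintro ⟨_, ⟨k, rfl⟩⟩ h
    have h1 : ψ k a = a := h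
    rw [hψ] at h1
    have h2 : e k * φ.symm a = φ.symm a := by
      have := congrArg φ.symm h1
      rwa [Equiv.symm_apply_apply] at this
    have h3 : e k = 1 := by
      have := mul_right_cancel (b := φ.symm a) (h2.trans (one_mul _).symm)
      exact this
    have h4 : k = 1 := by rw [← e.map_one] at h3; exact e.injective h3
    apply Subtype.ext
    show ψ k = 1
    rw [h4, map_one]
  · exact HG_prim κ (by rw [Nat.card_fin]; exact hm)
  · exact HG_not_two κ hr ⟨0, by omega⟩ ⟨1, by omega⟩ (by simp)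

end Cfsg.Agent.S3560
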