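import Cfsg.Statements.S3573
import Mathlib.GroupTheory.Perm.Cycle.PossibleTypes
import Mathlib.Data.Nat.Choose.Lucas


set_option autoImplicit false
open Cfsg

namespace Cfsg.Agent.S3573


open Equiv Equiv.Perm

theorem image_eq_of_inv {n : ℕ} (σ : Perm (Fin n)) (s : Finset (Fin n)) (h : ∀ x ∈ s, σ x ∈ s) : s.image σ = s := by
  apply Finset.eq_of_subset_of_card_le
  · intro y hy
    obtain ⟨x, hx, rfl⟩ := Finset.mem_image.mp hy
    exact h x hx
  · rw [Finset.card_image_of_injective _ σ.injective]

theorem orb_card {n : ℕ} {r : ℕ} (hr : r.Prime) (σ : Perm (Fin n)) (hσ : orderOf σ = r) (x : Fin n) (hx : σ x ≠ x) :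
    (σ.cycleOf x).support.card = r := by
  have h1 := orderOf_cycleOf_dvd_orderOf σ x
  rw [(isCycle_cycleOf σ hx).orderOf, hσ] at h1
  rcases (Nat.dvd_prime hr).mp h1 with h | h
  · exact absurd h (by have := (isCycle_cycleOf σ hx).two_le_card_support; omega)
  · exact h

theorem inv_sets {n : ℕ} {r : ℕ} (hr : r.Prime) (σ : Perm (Fin n)) (hσ : orderOf σ = r) :
    ∀ j : ℕ, r * j ≤ σ.support.card → ∃ T : Finset (Fin n), T ⊆ σ.support ∧ T.card = r * j ∧ ∀ x ∈ T, σ x ∈ T := by
  intro j
  induction j with
  | zero => intro _; exact ⟨∅, by simp, by simp, by simp⟩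
  | succ j ih =>
    intro hj
    obtain ⟨T, hT1, hT2, hT3⟩ := ih (le_trans (Nat.mul_le_mul_left r (Nat.le_succ j)) hj)
    have hlt : T.card < σ.support.card := by
      rw [hT2]
      refine lt_of_lt_of_le ?_ hj
      exact Nat.mul_lt_mul_of_pos_left (Nat.lt_succ_self j) hr.pos
    obtain ⟨x, hxs, hxT⟩ := Finset.exists_mem_notMem_of_card_lt_card hlt
    have hx : σ x ≠ x := mem_support.mp hxs
    have hTi : ∀ x ∈ T, σ⁻¹ x ∈ T := by
      intro y hy
      have himg := image_eq_of_inv σ T hT3
      rw [← himg] at hy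
      obtain ⟨z, hz, rfl⟩ := Finset.mem_image.mp hy
      rw [show σ⁻¹ (σ z) = (σ⁻¹ * σ) z from rfl, inv_mul_cancel]; exact hz
    have hTz : ∀ (k : ℤ) (x : Fin n), x ∈ T → (σ ^ k) x ∈ T := by
      intro k
      induction k using Int.induction_on with
      | zero => intro x hx; simpa using hx
      | succ k ih => intro x hx; rw [zpow_add_one]; exact ih _ (hT3 x hx)
      | pred k ih => intro x hx; rw [zpow_sub_one]; exact ih _ (hTi x hx)
    have hdisj : Disjoint T (σ.cycleOf x).support := by
      rw [Finset.disjoint_left]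
      intro y hyT hyc
      rw [mem_support_cycleOf_iff] at hyc
      obtain ⟨⟨k, hk⟩, _⟩ := hyc
      apply hxT
      have := hTz (-k) y hyT
      rw [← hk, show (σ ^ (-k)) ((σ ^ k) x) = (σ ^ (-k) * σ ^ k) x from rfl, zpow_neg, inv_mul_cancel] at this
      exact this
    refine ⟨T ∪ (σ.cycleOf x).support, ?_, ?_, ?_⟩
    · apply Finset.union_subset hT1
      exact support_cycleOf_le σ x
    · rw [Finset.card_union_of_disjoint hdisj, hT2, orb_card hr σ hσ x hx]; ring
    · intro y hy
      rw [Finset.mem_union] at hy ⊢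
      rcases hy with hy | hy
      · exact Or.inl (hT3 y hy)
      · right
        rw [mem_support_cycleOf_iff] at hy ⊢
        exact ⟨hy.1.trans ⟨1, by simp⟩, hy.2⟩

theorem fix_card {n : ℕ} (σ : Perm (Fin n)) (s : Finset (Fin n)) {r : ℕ} (hr : r.Prime) (hσ : orderOf σ = r) (hs : ∀ x ∈ s, σ x ∈ s) :
    s.card ≡ (s.filter (fun x => σ x = x)).card [MOD r] := by
  classical
  haveI := Fact.mk hr
  let f : Function.End s := fun x => ⟨σ x, hs x x.2⟩
  have hf : ∀ (k : ℕ) (x : s), ((f ^ k) x : Fin n) = (σ ^ k) x := by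
    intro k
    induction k with
    | zero => intro x; rfl
    | succ k ih =>
      intro x
      rw [pow_succ, pow_succ]
      show ((f ^ k) (f x) : Fin n) = (σ ^ k) (σ x)
      rw [ih]
  have h1 : f ^ r ^ 1 = 1 := by
    funext x
    apply Subtype.ext
    rw [hf, pow_one, ← hσ, pow_orderOf_eq_one]; rfl
  have h2 := card_fixedPoints_modEq h1
  rw [Fintype.card_coe] at h2
  refine h2.trans ?_
  have : Fintype.card (Function.fixedPoints f) = (s.filter (fun x => σ x = x)).card := by
    rw [← Fintype.card_coe]
    apply Fintype.card_congr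
    exact { toFun := fun x => ⟨x.1.1, Finset.mem_filter.mpr ⟨x.1.2, congrArg Subtype.val x.2⟩⟩
            invFun := fun x => ⟨⟨x.1, (Finset.mem_filter.mp x.2).1⟩, Subtype.ext (Finset.mem_filter.mp x.2).2⟩
            left_inv := fun x => rfl
            right_inv := fun x => rfl }
  rw [this]

theorem fix_support {n : ℕ} (σ : Perm (Fin n)) : (Finset.univ.filter (fun x => σ x = x)).card + σ.support.card = n := by
  have h1 : (Finset.univ.filter (fun x => σ x = x)) = σ.supportᶜ := by
    ext x; simp
  rw [h1, Finset.card_compl_add_card, Fintype.card_fin]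

theorem main (n k : ℕ) (hkn : k ≤ n) (r : ℕ) (hr : r.Prime) (hrn : r ≤ n) :
    (∀ σ : Equiv.Perm (Fin n), orderOf σ = r → ∃ s : Finset (Fin n), s.card = k ∧ s.image σ = s) ↔ k % r ≤ n % r := by
  classical
  constructor
  · intro h
    -- the permutation with the most cycles
    obtain ⟨σ, hσ⟩ : ∃ σ : Perm (Fin n), σ.cycleType = Multiset.replicate (n / r) r := by
      rw [exists_with_cycleType_iff]
      constructor
      · rw [Multiset.sum_replicate, Fintype.card_fin, smul_eq_mul]
        exact Nat.div_mul_le_self n r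
      · intro a ha
        rw [Multiset.eq_of_mem_replicate ha]; exact hr.two_le
    have hord : orderOf σ = r := by
      rw [← lcm_cycleType, hσ]
      have : 0 < n / r := Nat.div_pos hrn hr.pos
      obtain ⟨m, hm⟩ : ∃ m, n / r = m + 1 := ⟨n / r - 1, by omega⟩
      rw [hm]
      clear hm this hσ
      induction m with
      | zero => simp
      | succ m ih => rw [Multiset.replicate_succ, Multiset.lcm_cons, ih]; simp
    have hsup : σ.support.card = n / r * r := by
      rw [← sum_cycleType, hσ, Multiset.sum_replicate, smul_eq_mul]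
    obtain ⟨s, hs1, hs2⟩ := h σ hord
    have hinv : ∀ x ∈ s, σ x ∈ s := by
      intro x hx
      rw [← hs2]; exact Finset.mem_image_of_mem σ hx
    have h3 := fix_card σ s hr hord hinv
    have h4 : (s.filter (fun x => σ x = x)).card ≤ n % r := by
      have h5 := fix_support σ
      have h6 : (s.filter (fun x => σ x = x)).card ≤ (Finset.univ.filter (fun x => σ x = x)).card :=
        Finset.card_le_card (Finset.filter_subset_filter _ (Finset.subset_univ s))
      have h7 := Nat.div_add_mod n r
      rw [hsup] at h5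
      have : r * (n / r) = n / r * r := mul_comm _ _
      omega
    rw [hs1] at h3
    have h5 : k % r = (s.filter (fun x => σ x = x)).card % r := h3
    rw [h5, Nat.mod_eq_of_lt (lt_of_le_of_lt h4 (Nat.mod_lt n hr.pos))]
    exact h4
  · intro h σ hσ
    have h1 := fix_support σ
    -- support size divisible by r
    have h2 : σ.support.card % r = 0 := by
      have h3 := fix_card σ Finset.univ hr hσ (fun x _ => Finset.mem_univ _)
      rw [Finset.card_univ, Fintype.card_fin] at h3
      have h4 : (Finset.univ.filter (fun x => σ x = x)).card + σ.support.card ≡ (Finset.univ.filter (fun x => σ x = x)).card + 0 [MOD r] :=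
        (show (Finset.univ.filter (fun x => σ x = x)).card + σ.support.card ≡ n [MOD r] from congrArg (· % r) h1).trans h3
      have h5 := Nat.ModEq.add_left_cancel' _ h4
      rw [Nat.ModEq, Nat.zero_mod] at h5
      exact h5
    obtain ⟨m, hm⟩ := Nat.dvd_of_mod_eq_zero h2
    set f0 := (Finset.univ.filter (fun x => σ x = x)).card with hf0
    obtain ⟨j, i, hjm, hif, hji⟩ : ∃ j i, j ≤ m ∧ i ≤ f0 ∧ r * j + i = k := by
      have h3 := Nat.div_add_mod k r
      by_cases hkm : k / r ≤ m
      · refine ⟨k / r, k % r, hkm, ?_, h3⟩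
        have : n % r = f0 % r := by
          rw [← h1, hm, Nat.add_mul_mod_self_left]
        rw [this] at h
        exact le_trans h (Nat.mod_le _ _)
      · push Not at hkm
        have h4 : r * m ≤ k := le_trans (Nat.mul_le_mul_left r hkm.le) (by omega)
        exact ⟨m, k - r * m, le_rfl, by omega, by omega⟩
    obtain ⟨T, hT1, hT2, hT3⟩ := inv_sets hr σ hσ j (by rw [hm]; exact Nat.mul_le_mul_left r hjm)
    obtain ⟨U, hU1, hU2⟩ := Finset.exists_subset_card_eq (s := Finset.univ.filter (fun x => σ x = x)) hif
    have hUf : ∀ x ∈ U, σ x = x := fun x hx => (Finset.mem_filter.mp (hU1 hx)).2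
    refine ⟨T ∪ U, ?_, ?_⟩
    · rw [Finset.card_union_of_disjoint, hT2, hU2, hji]
      rw [Finset.disjoint_left]
      intro x hxT hxU
      exact mem_support.mp (hT1 hxT) (hUf x hxU)
    · apply image_eq_of_inv
      intro x hx
      rw [Finset.mem_union] at hx ⊢
      rcases hx with hx | hx
      · exact Or.inl (hT3 x hx)
      · right; rw [hUf x hx]; exact hx



/-- Let 1 ≤ k with 2k < n and consider the symmetric group of degree n acting on the k-subsets of an n-set. Let r be a prime dividing the number C(n,k) of k-subsets. If r is odd, then every permutation of order r fixes some k-subset if and only if r ≤ k and the remainder of k modulo r is at most the remainder of n modulo r. If r = 2, then every involution fixes some k-subset if and only if k is even or n is odd. -/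
theorem result (n k : ℕ) (hk : 1 ≤ k) (hkn : 2 * k < n) (r : ℕ) (hr : r.Prime) (hrd : r ∣ Nat.choose n k) :
    (r ≠ 2 → ((∀ σ : Equiv.Perm (Fin n), orderOf σ = r → ∃ s : Finset (Fin n), s.card = k ∧ s.image σ = s) ↔
      (r ≤ k ∧ k % r ≤ n % r))) ∧
    (r = 2 → ((∀ σ : Equiv.Perm (Fin n), orderOf σ = 2 → ∃ s : Finset (Fin n), s.card = k ∧ s.image σ = s) ↔
      (Even k ∨ Odd n))) := by
  haveI := Fact.mk hr
  have hpos : 0 < Nat.choose n k := Nat.choose_pos (by omega)
  have hrn : r ≤ n := by
    have h1 : r ∣ n.factorial := by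
      refine hrd.trans ?_
      rw [← Nat.choose_mul_factorial_mul_factorial (show k ≤ n by omega), mul_assoc]
      exact Dvd.intro _ rfl
    exact (Nat.Prime.dvd_factorial hr).mp h1
  have key := main n k (by omega) r hr hrn
  have hrk : k % r ≤ n % r → r ≤ k := by
    intro h
    by_contra hlt
    push Not at hlt
    rw [Nat.mod_eq_of_lt hlt] at h
    have h2 := Choose.choose_modEq_choose_mod_mul_choose_div_nat (n := n) (k := k) (p := r)
    rw [Nat.mod_eq_of_lt hlt, Nat.div_eq_of_lt hlt, Nat.choose_zero_right, mul_one] at h2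
    have h3 : r ∣ Nat.choose (n % r) k := by
      have := (Nat.modEq_zero_iff_dvd.mpr hrd)
      exact Nat.modEq_zero_iff_dvd.mp (h2.symm.trans this)
    have h4 : r ∣ (n % r).factorial := by
      refine h3.trans ?_
      rw [← Nat.choose_mul_factorial_mul_factorial h, mul_assoc]
      exact Dvd.intro _ rfl
    have h5 := (Nat.Prime.dvd_factorial hr).mp h4
    have := Nat.mod_lt n hr.pos
    omega
  constructor
  · intro _
    rw [key]
    exact ⟨fun h => ⟨hrk h, h⟩, fun h => h.2⟩
  · rintro rfl
    rw [key, Nat.even_iff, Nat.odd_iff]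
    omega

end Cfsg.Agent.S3573
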