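import Cfsg.Statements.S3575
import Cfsg.Agent.LibH22Up3

set_option autoImplicit false
open Cfsg

namespace Cfsg.Agent.S3575
theorem fact_dvd (a b : ℕ) (ha : 0 < a) : a.factorial ^ b * b.factorial ∣ (a * b).factorial := by
  induction b with
  | zero => simp
  | succ b ih =>
    obtain ⟨c, rfl⟩ := Nat.exists_eq_add_of_le ha
    have h1 : (b + 1) ∣ Nat.choose ((1 + c) * b + c + 1) (c + 1) := by
      have h2 := Nat.add_one_mul_choose_eq ((1 + c) * b + c) c
      have h3 : (1 + c) * b + c + 1 = (b + 1) * (c + 1) := by ring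
      have h4 : (b + 1) * Nat.choose ((1 + c) * b + c) c = Nat.choose ((1 + c) * b + c + 1) (c + 1) := by
        have h5 : ((b + 1) * Nat.choose ((1 + c) * b + c) c) * (c + 1) =
            Nat.choose ((1 + c) * b + c + 1) (c + 1) * (c + 1) := by
          rw [← h2]
          generalize Nat.choose ((1 + c) * b + c) c = w
          ring
        exact Nat.eq_of_mul_eq_mul_right (Nat.succ_pos c) h5
      exact ⟨_, h4.symm⟩
    have h7 : ((1 + c) * (b + 1)).factorial =
        Nat.choose ((1 + c) * b + c + 1) (c + 1) * (1 + c).factorial * ((1 + c) * b).factorial := by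
      have h8 := Nat.choose_mul_factorial_mul_factorial (n := (1 + c) * b + c + 1) (k := c + 1) (by omega)
      have h9 : (1 + c) * b + c + 1 - (c + 1) = (1 + c) * b := by omega
      rw [h9] at h8
      have h10 : (1 + c) * (b + 1) = (1 + c) * b + c + 1 := by ring
      rw [h10, ← h8, add_comm c 1]
    rw [h7, pow_succ, Nat.factorial_succ]
    obtain ⟨w, hw⟩ := ih
    obtain ⟨v, hv⟩ := h1
    rw [hw, hv]
    exact ⟨v * w, by ring⟩

/-- Let a, b ≥ 2 and consider the symmetric group of degree a·b acting on the partitions of an (a·b)-set into b parts of size a (encoded as maps onto a b-element set all of whose fibres have a elements; a permutation fixes such a partition when it permutes the fibres). Let r be a prime dividing the number (ab)!/((a!)^b·b!) of such partitions, and let ℓ and k be the remainders of a and b modulo r. Then every permutation of order r fixes some such partition if and only if r ≤ a and one of the following holds: ℓ = 0; or k = 0 and ℓ = 1; or ℓ and k are non-zero, k·ℓ < r, and either b < r or (k + r)·ℓ ≤ k·a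 + r. -/
theorem result (a b : ℕ) (ha : 2 ≤ a) (hb : 2 ≤ b) (r : ℕ) (hr : r.Prime)
    (hrd : r ∣ (a * b).factorial / (a.factorial ^ b * b.factorial)) :
    (∀ σ : Equiv.Perm (Fin (a * b)), orderOf σ = r →
        ∃ f : Fin (a * b) → Fin b, (∀ j : Fin b, Nat.card {x : Fin (a * b) // f x = j} = a) ∧
          ∃ π : Equiv.Perm (Fin b), ∀ x : Fin (a * b), f (σ x) = π (f x)) ↔
      (r ≤ a ∧ (a % r = 0 ∨ (b % r = 0 ∧ a % r = 1) ∨
        (a % r ≠ 0 ∧ b % r ≠ 0 ∧ (b % r) * (a % r) < r ∧ (b < r ∨ (b % r + r) * (a % r) ≤ (b % r) * a + r)))) := by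
  have hrab : r ≤ a * b := by
    have h1 : r ∣ (a * b).factorial :=
      hrd.trans (Nat.div_dvd_of_dvd (fact_dvd a b (by omega)))
    exact (Nat.Prime.dvd_factorial hr).mp h1
  exact (H22Up.reduce ha hr).trans (H22Up.numeric ha hb hr hrab)

end Cfsg.Agent.S3575
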