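import Cfsg.Statements.S3599
import Mathlib


set_option autoImplicit false
open Cfsg

namespace Cfsg.Agent.S3599


/-- the product of two `r`-elements is an `r`-element -/
def NS (r : ℕ) (Y : Type*) [Group Y] : Prop :=
  ∀ x y : Y, (∃ n, x ^ r ^ n = 1) → (∃ n, y ^ r ^ n = 1) → ∃ n, (x * y) ^ r ^ n = 1

theorem pow_le {Y : Type*} [Group Y] {r n m : ℕ} {x : Y} (h : x ^ r ^ n = 1) (hnm : n ≤ m) : x ^ r ^ m = 1 := by
  obtain ⟨k, rfl⟩ := Nat.exists_eq_add_of_le hnm
  rw [pow_add, pow_mul, h, one_pow]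

theorem lift {Y : Type*} [Group Y] [Finite Y] {r : ℕ} (hr : r.Prime) (N : Subgroup Y) [N.Normal] (x : Y) (n : ℕ)
    (hx : (QuotientGroup.mk' N x) ^ r ^ n = 1) : ∃ x' : Y, QuotientGroup.mk' N x' = QuotientGroup.mk' N x ∧ ∃ a, x' ^ r ^ a = 1 := by
  obtain ⟨a, m, hm, ho⟩ := Nat.exists_eq_pow_mul_and_not_dvd (orderOf_pos x).ne' r hr.ne_one
  have hcop : Nat.Coprime (r ^ n) m := Nat.Coprime.pow_left _ ((Nat.Prime.coprime_iff_not_dvd hr).mpr hm)
  obtain ⟨k, hk1, hk2⟩ := Nat.chineseRemainder hcop 1 0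
  refine ⟨x ^ k, ?_, a, ?_⟩
  · rw [map_pow]
    conv_rhs => rw [← pow_one (QuotientGroup.mk' N x)]
    rw [pow_eq_pow_iff_modEq]
    exact hk1.of_dvd (orderOf_dvd_of_pow_eq_one hx)
  · rw [← pow_mul, ← orderOf_dvd_iff_pow_eq_one, ho, mul_comm]
    exact Nat.mul_dvd_mul_right (Nat.modEq_zero_iff_dvd.mp hk2) _

theorem NS.quot {Y : Type*} [Group Y] [Finite Y] {r : ℕ} (hr : r.Prime) (h : NS r Y) (H : Subgroup Y) (N : Subgroup H) [N.Normal] : NS r (H ⧸ N) := by
  intro x y hx hy
  obtain ⟨x, rfl⟩ := QuotientGroup.mk'_surjective N x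
  obtain ⟨y, rfl⟩ := QuotientGroup.mk'_surjective N y
  obtain ⟨n, hn⟩ := hx
  obtain ⟨m, hm⟩ := hy
  obtain ⟨x', hx', a, ha⟩ := lift hr N x n hn
  obtain ⟨y', hy', b, hb⟩ := lift hr N y m hm
  obtain ⟨c, hc⟩ := h x' y' ⟨a, by exact_mod_cast congrArg Subtype.val ha⟩ ⟨b, by exact_mod_cast congrArg Subtype.val hb⟩
  refine ⟨c, ?_⟩
  rw [← hx', ← hy', ← map_mul, ← map_pow]
  have : (x' * y') ^ r ^ c = 1 := Subtype.ext (by exact_mod_cast hc)
  rw [this, map_one]

theorem NS.equiv {Y Z : Type*} [Group Y] [Group Z] (e : Y ≃* Z) {r : ℕ} (h : NS r Y) : NS r Z := by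
  rintro x y ⟨n, hn⟩ ⟨m, hm⟩
  obtain ⟨c, hc⟩ := h (e.symm x) (e.symm y) ⟨n, by rw [← map_pow, hn, map_one]⟩ ⟨m, by rw [← map_pow, hm, map_one]⟩
  refine ⟨c, ?_⟩
  rw [← map_mul, ← map_pow, ← e.symm.map_one] at hc
  exact e.symm.injective hc

/-- two normal Sylow subgroups give elements of composite order -/
theorem NS.both {Y : Type*} [Group Y] {p q : ℕ} (hp : p.Prime) (hq : q.Prime) (hpq : p ≠ q) (h1 : NS p Y) (h2 : NS q Y)
    {x y : Y} (hx : orderOf x = p) (hy : orderOf y = q) : orderOf (x * y) = p * q := by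
  have hxp : x ^ p = 1 := by rw [← hx, pow_orderOf_eq_one]
  have hyq : y ^ q = 1 := by rw [← hy, pow_orderOf_eq_one]
  have hcx : ∀ g : Y, (g * x * g⁻¹) ^ p ^ 1 = 1 := fun g => by rw [pow_one, conj_pow, hxp, mul_one, mul_inv_cancel]
  have hcy : ∀ g : Y, (g * y * g⁻¹) ^ q ^ 1 = 1 := fun g => by rw [pow_one, conj_pow, hyq, mul_one, mul_inv_cancel]
  obtain ⟨a, ha⟩ := h1 x (y * x⁻¹ * y⁻¹) ⟨1, by rw [pow_one, hxp]⟩ ⟨1, by
    have := hcx y
    have e : y * x⁻¹ * y⁻¹ = (y * x * y⁻¹)⁻¹ := by group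
    rw [e, inv_pow, this, inv_one]⟩
  obtain ⟨b, hb⟩ := h2 (x * y * x⁻¹) y⁻¹ ⟨1, hcy x⟩ ⟨1, by rw [pow_one, inv_pow, hyq, inv_one]⟩
  have e1 : x * (y * x⁻¹ * y⁻¹) = x * y * x⁻¹ * y⁻¹ := by group
  rw [e1] at ha
  have h3 : x * y * x⁻¹ * y⁻¹ = 1 := by
    have hcop : Nat.Coprime (p ^ a) (q ^ b) := Nat.Coprime.pow _ _ ((Nat.coprime_primes hp hq).mpr hpq)
    have h4 : orderOf (x * y * x⁻¹ * y⁻¹) ∣ 1 := by
      rw [← hcop]
      exact Nat.dvd_gcd (orderOf_dvd_of_pow_eq_one ha) (orderOf_dvd_of_pow_eq_one hb)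
    exact orderOf_eq_one_iff.mp (Nat.dvd_one.mp h4)
  have hc : Commute x y := by
    show x * y = y * x
    have : x * y * x⁻¹ = y := by rwa [mul_inv_eq_one] at h3
    rw [mul_inv_eq_iff_eq_mul] at this
    exact this
  rw [hc.orderOf_mul_eq_mul_orderOf_of_coprime, hx, hy]
  rw [hx, hy]; exact (Nat.coprime_primes hp hq).mpr hpq

/-- the multiplication action of units of order `q` -/
def phi {F : Type*} [Field F] (C : Subgroup Fˣ) : C →* MulAut (Multiplicative F) where
  toFun g := AddEquiv.toMultiplicative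
    { toFun := fun v => ((g : Fˣ) : F) * v
      invFun := fun v => (((g : Fˣ)⁻¹ : Fˣ) : F) * v
      left_inv := fun v => by
        show (((g : Fˣ)⁻¹ : Fˣ) : F) * (((g : Fˣ) : F) * v) = v
        rw [← mul_assoc, ← Units.val_mul, inv_mul_cancel, Units.val_one, one_mul]
      right_inv := fun v => by
        show ((g : Fˣ) : F) * ((((g : Fˣ)⁻¹ : Fˣ) : F) * v) = v
        rw [← mul_assoc, ← Units.val_mul, mul_inv_cancel, Units.val_one, one_mul]
      map_add' := fun v w => mul_add _ v w }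
  map_one' := by
    refine MulEquiv.ext fun v => ?_
    apply Multiplicative.toAdd.injective
    show ((1 : Fˣ) : F) * Multiplicative.toAdd v = Multiplicative.toAdd v
    rw [Units.val_one, one_mul]
  map_mul' g h := by
    refine MulEquiv.ext fun v => ?_
    apply Multiplicative.toAdd.injective
    show (((g * h : C) : Fˣ) : F) * Multiplicative.toAdd v = ((g : Fˣ) : F) * (((h : Fˣ) : F) * Multiplicative.toAdd v)
    rw [Subgroup.coe_mul, Units.val_mul, mul_assoc]

theorem phi_apply {F : Type*} [Field F] (C : Subgroup Fˣ) (g : C) (v : Multiplicative F) :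
    Multiplicative.toAdd (phi C g v) = ((g : Fˣ) : F) * Multiplicative.toAdd v := rfl

theorem pow_left {F : Type*} [Field F] (C : Subgroup Fˣ) (x : Multiplicative F ⋊[phi C] C) (n : ℕ) :
    Multiplicative.toAdd (x ^ n).left = (∑ i ∈ Finset.range n, ((x.right : Fˣ) : F) ^ i) * Multiplicative.toAdd x.left ∧
      (x ^ n).right = x.right ^ n := by
  induction n with
  | zero => simp
  | succ n ih =>
    constructor
    · rw [pow_succ', SemidirectProduct.mul_left, toAdd_mul, phi_apply, ih.1, Finset.sum_range_succ', add_mul, pow_zero, one_mul, add_comm,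
        ← mul_assoc, Finset.mul_sum]
      congr 2
      apply Finset.sum_congr rfl
      intro i _
      rw [pow_succ']
    · rw [pow_succ, SemidirectProduct.mul_right, ih.2, pow_succ]

theorem exists_frob (p q : ℕ) (hp : p.Prime) (hq : q.Prime) (hpq : p ≠ q) :
    ∃ (X : Type) (_ : Group X) (_ : Fintype X), Set.range (orderOf : X → ℕ) = {1, p, q} ∧ NS p X := by
  classical
  haveI := Fact.mk hp
  haveI := Fact.mk hq
  have hq1 : q - 1 ≠ 0 := by have := hq.two_le; omega
  let F := GaloisField p (q - 1)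
  haveI : Fintype F := Fintype.ofFinite F
  have hF : Fintype.card F = p ^ (q - 1) := by
    rw [← Nat.card_eq_fintype_card]; exact GaloisField.card p (q - 1) hq1
  have hdvd : q ∣ Fintype.card Fˣ := by
    rw [Fintype.card_units, hF]
    have h1 : p ^ (q - 1) ≡ 1 [MOD q] := Nat.ModEq.pow_totient ((Nat.coprime_primes hp hq).mpr hpq) |> fun h => by rwa [Nat.totient_prime hq] at h
    exact (Nat.modEq_iff_dvd' (Nat.one_le_pow _ _ hp.pos)).mp h1.symm
  obtain ⟨u, hu⟩ := exists_prime_orderOf_dvd_card q hdvd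
  let C : Subgroup Fˣ := Subgroup.zpowers u
  let X := Multiplicative F ⋊[phi C] C
  haveI : Finite X := Finite.of_equiv _ SemidirectProduct.equivProd.symm
  have hCq : ∀ c : C, c ^ q = 1 := by
    intro c
    have h1 : Nat.card C = q := by rw [Nat.card_zpowers, hu]
    have h2 := pow_card_eq_one' (x := c)
    rw [h1] at h2
    exact h2
  have hpF : ∀ v : F, (p : F) * v = 0 := by
    intro v
    haveI : CharP F p := inferInstance
    rw [CharP.cast_eq_zero, zero_mul]
  -- p-th powers of the kernel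
  have hker : ∀ x : X, x.right = 1 → x ^ p = 1 := by
    intro x hx
    have h1 := pow_left C x p
    rw [hx, one_pow] at h1
    have h2 : Multiplicative.toAdd (x ^ p).left = 0 := by
      rw [h1.1]
      simp only [OneMemClass.coe_one, Units.val_one, one_pow, Finset.sum_const, Finset.card_range, nsmul_eq_mul, mul_one]
      exact hpF _
    ext1
    · exact Multiplicative.toAdd.injective h2
    · exact h1.2
  have hnker : ∀ x : X, x.right ≠ 1 → x ^ q = 1 := by
    intro x hx
    have h1 := pow_left C x q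
    have hc1 : ((x.right : Fˣ) : F) ≠ 1 := by
      intro h; apply hx
      exact Subtype.ext (Units.ext h)
    have hcq : ((x.right : Fˣ) : F) ^ q = 1 := by
      have := hCq x.right
      have := congrArg (fun c : C => ((c : Fˣ) : F)) this
      simpa using this
    have h2 : ∑ i ∈ Finset.range q, ((x.right : Fˣ) : F) ^ i = 0 := by
      have h3 := geom_sum_mul ((x.right : Fˣ) : F) q
      rw [hcq, sub_self] at h3
      rcases mul_eq_zero.mp h3 with h | h
      · exact h
      · exact absurd (sub_eq_zero.mp h) hc1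
    rw [h2, zero_mul] at h1
    ext1
    · exact Multiplicative.toAdd.injective h1.1
    · rw [h1.2]; exact hCq _
  have hright : ∀ (x : X) (n : ℕ), x ^ p ^ n = 1 → x.right = 1 := by
    intro x n hn
    have h1 := (pow_left C x (p ^ n)).2
    rw [hn] at h1
    have h2 : x.right ^ p ^ n = 1 := h1.symm
    have hcop : Nat.Coprime (p ^ n) q := Nat.Coprime.pow_left _ ((Nat.coprime_primes hp hq).mpr hpq)
    have h4 := Nat.dvd_gcd (orderOf_dvd_of_pow_eq_one h2) (orderOf_dvd_of_pow_eq_one (hCq x.right))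
    rw [hcop.gcd_eq_one] at h4
    exact orderOf_eq_one_iff.mp (Nat.dvd_one.mp h4)
  refine ⟨X, inferInstance, Fintype.ofFinite X, ?_, ?_⟩
  · ext m
    simp only [Set.mem_range, Set.mem_insert_iff, Set.mem_singleton_iff]
    constructor
    · rintro ⟨x, rfl⟩
      by_cases hx : x.right = 1
      · rcases (Nat.dvd_prime hp).mp (orderOf_dvd_of_pow_eq_one (hker x hx)) with h | h
        · exact Or.inl h
        · exact Or.inr (Or.inl h)
      · rcases (Nat.dvd_prime hq).mp (orderOf_dvd_of_pow_eq_one (hnker x hx)) with h | h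
        · exact Or.inl h
        · exact Or.inr (Or.inr h)
    · rintro (rfl | rfl | rfl)
      · exact ⟨1, orderOf_one⟩
      · refine ⟨SemidirectProduct.inl (Multiplicative.ofAdd 1), ?_⟩
        apply orderOf_eq_prime
        · exact hker _ rfl
        · intro h
          have := congrArg (fun x : X => Multiplicative.toAdd x.left) h
          have h' : (1 : F) = 0 := this
          exact one_ne_zero h'
      · refine ⟨SemidirectProduct.inr ⟨u, Subgroup.mem_zpowers u⟩, ?_⟩
        have hu1 : u ≠ 1 := by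
          intro h; rw [h, orderOf_one] at hu; exact hq.one_lt.ne hu
        apply orderOf_eq_prime
        · apply hnker
          intro h
          exact hu1 (congrArg Subtype.val h)
        · intro h
          have := congrArg (fun x : X => (x.right : Fˣ)) h
          exact hu1 this
  · rintro x y ⟨n, hn⟩ ⟨m, hm⟩
    refine ⟨1, ?_⟩
    rw [pow_one]
    apply hker
    rw [SemidirectProduct.mul_right, hright x n hn, hright y m hm, mul_one]



/-- A finite group is critical with respect to a set Ω of natural numbers when its set of element orders is Ω while no proper section H/N (H a subgroup, N normal in H, (H, N) ≠ (whole group, 1)) has Ω as its set of element orders. Let s ≥ 1 and let p(j,0), p(j,1) (j < s) be 2s pairwise distinct primes, and let Ω be the set of all products c(0)·…·c(s−1) with each c(j) ∈ {1, p(j,0), p(j,1)}. Then there are 2^s pairwise non-isomorphic finite groups critical with respect to Ω. -/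
theorem result (s : ℕ) (hs : 1 ≤ s) (p : Fin s → Fin 2 → ℕ)
    (hp : ∀ j i, (p j i).Prime) (hinj : ∀ j i j' i', p j i = p j' i' → j = j' ∧ i = i') :
    ∃ (G : Fin (2 ^ s) → Type) (_ : ∀ a, Group (G a)) (_ : ∀ a, Fintype (G a)),
      (∀ a b, a ≠ b → ¬ Nonempty (G a ≃* G b)) ∧
      ∀ a, Set.range (orderOf : (G a) → ℕ) = {m : ℕ | ∃ c : Fin s → ℕ, (∀ j, c j = 1 ∨ c j = p j 0 ∨ c j = p j 1) ∧ m = ∏ j, c j} ∧
      ∀ (H : Subgroup (G a)) (N : Subgroup ↥H) [N.Normal], (H ≠ ⊤ ∨ N ≠ ⊥) → Set.range (orderOf : (↥H ⧸ N) → ℕ) ≠ {m : ℕ | ∃ c : Fin s → ℕ, (∀ j, c j = 1 ∨ c j = p j 0 ∨ c j = p j 1) ∧ m = ∏ j, c j} := by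
  classical
  -- the good property
  let Om : Set ℕ := {m : ℕ | ∃ c : Fin s → ℕ, (∀ j, c j = 1 ∨ c j = p j 0 ∨ c j = p j 1) ∧ m = ∏ j, c j}
  have hne01 : ∀ j, p j 0 ≠ p j 1 := by
    intro j h
    have := (hinj j 0 j 1 h).2
    exact absurd this (by decide)
  have hdvdOm : ∀ m ∈ Om, ∀ (j : Fin s) (i : Fin 2), p j i ∣ m → ∃ c : Fin s → ℕ, (∀ j, c j = 1 ∨ c j = p j 0 ∨ c j = p j 1) ∧ m = ∏ j, c j ∧ c j = p j i := by
    rintro m ⟨c, hc, rfl⟩ j i hd
    obtain ⟨j', _, hj'⟩ := (Prime.dvd_finset_prod_iff (hp j i).prime c).mp hd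
    have hcj : c j' = p j i := by
      rcases hc j' with h | h | h
      · rw [h] at hj'; exact absurd (Nat.dvd_one.mp hj') (hp j i).ne_one
      · rw [h] at hj' ⊢; exact ((Nat.prime_dvd_prime_iff_eq (hp j i) (hp j' 0)).mp hj').symm
      · rw [h] at hj' ⊢; exact ((Nat.prime_dvd_prime_iff_eq (hp j i) (hp j' 1)).mp hj').symm
    have hjj : j' = j := by
      rcases hc j' with h | h | h
      · rw [h] at hcj; exact absurd hcj.symm (hp j i).ne_one
      · rw [h] at hcj; exact (hinj _ _ _ _ hcj).1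
      · rw [h] at hcj; exact (hinj _ _ _ _ hcj).1
    rw [hjj] at hcj
    exact ⟨c, hc, rfl, hcj⟩
  have hnoOm : ∀ m ∈ Om, ∀ j, ¬ (p j 0 ∣ m ∧ p j 1 ∣ m) := by
    rintro m hm j ⟨h0, h1⟩
    obtain ⟨c, hc, rfl, hcj⟩ := hdvdOm m hm j 0 h0
    have h2 : ¬ p j 1 ∣ c j := by
      rw [hcj]; intro h
      exact hne01 j ((Nat.prime_dvd_prime_iff_eq (hp j 1) (hp j 0)).mp h).symm
    obtain ⟨j', _, hj'⟩ := (Prime.dvd_finset_prod_iff (hp j 1).prime c).mp h1
    have hjj : j' = j := by
      rcases hc j' with h | h | h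
      · rw [h] at hj'; exact absurd (Nat.dvd_one.mp hj') (hp j 1).ne_one
      · rw [h] at hj'; exact ((hinj _ _ _ _ ((Nat.prime_dvd_prime_iff_eq (hp j 1) (hp j' 0)).mp hj')).1).symm
      · rw [h] at hj'; exact ((hinj _ _ _ _ ((Nat.prime_dvd_prime_iff_eq (hp j 1) (hp j' 1)).mp hj')).1).symm
    rw [hjj] at hj'
    exact h2 hj'
  -- existence of some group
  have hexist : ∀ f : Fin s → Fin 2, ∃ (n : ℕ) (Y : Type) (_ : Group Y) (_ : Fintype Y), Nat.card Y = n ∧ Set.range (orderOf : Y → ℕ) = Om ∧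
      ∀ j, NS (p j (f j)) Y := by
    intro f
    have hne : ∀ j, p j (f j) ≠ p j (1 - f j) := by
      intro j h
      have := (hinj j _ j _ h).2
      have h2 : ∀ a : Fin 2, a ≠ 1 - a := by decide
      exact h2 _ this
    choose X hG hFt hsp hNS using fun j => exists_frob (p j (f j)) (p j (1 - f j)) (hp j _) (hp j _) (hne j)
    letI := hG
    letI := hFt
    have hsp' : ∀ j (m : ℕ), m ∈ Set.range (orderOf : X j → ℕ) ↔ (m = 1 ∨ m = p j 0 ∨ m = p j 1) := by
      intro j m
      rw [hsp j]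
      simp only [Set.mem_insert_iff, Set.mem_singleton_iff]
      have h2 : ∀ a : Fin 2, a = 0 ∨ a = 1 := by decide
      rcases h2 (f j) with h | h
      · rw [h]; rfl
      · rw [h]
        have : (1 : Fin 2) - 1 = 0 := by decide
        rw [this]; tauto
    have hord : ∀ x : (∀ j, X j), orderOf x = ∏ j, orderOf (x j) := by
      intro x
      apply Nat.dvd_antisymm
      · rw [orderOf_dvd_iff_pow_eq_one]
        funext j
        rw [Pi.pow_apply, Pi.one_apply, ← orderOf_dvd_iff_pow_eq_one]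
        exact Finset.dvd_prod_of_mem _ (Finset.mem_univ j)
      · apply Finset.prod_dvd_of_isRelPrime
        · intro i _ j _ hij
          show IsRelPrime (orderOf (x i)) (orderOf (x j))
          rw [← Nat.coprime_iff_isRelPrime]
          have h1 := (hsp' i _).mp ⟨x i, rfl⟩
          have h2 := (hsp' j _).mp ⟨x j, rfl⟩
          have hcp : ∀ a b, Nat.Coprime (p i a) (p j b) := by
            intro a b
            rw [Nat.coprime_primes (hp i a) (hp j b)]
            intro h; exact hij (hinj _ _ _ _ h).1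
          rcases h1 with h1 | h1 | h1 <;> rcases h2 with h2 | h2 | h2 <;> rw [h1, h2] <;>
            first
              | exact hcp _ _
              | exact Nat.coprime_one_left _
              | exact Nat.coprime_one_right _
        · intro j _
          exact orderOf_map_dvd (Pi.evalMonoidHom X j) x
    refine ⟨_, (∀ j, X j), inferInstance, inferInstance, rfl, ?_, ?_⟩
    · ext m
      constructor
      · rintro ⟨x, rfl⟩
        exact ⟨fun j => orderOf (x j), fun j => (hsp' j _).mp ⟨x j, rfl⟩, hord x⟩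
      · rintro ⟨c, hc, rfl⟩
        choose x hx using fun j => (hsp' j (c j)).mpr (hc j)
        exact ⟨x, by rw [hord]; exact Finset.prod_congr rfl (fun j _ => hx j)⟩
    · intro j x y ⟨n, hn⟩ ⟨m, hm⟩
      have hcomp : ∀ i, ∃ k, (x i * y i) ^ (p j (f j)) ^ k = 1 := by
        intro i
        by_cases hij : i = j
        · subst hij
          exact hNS i (x i) (y i) ⟨n, congrFun hn i⟩ ⟨m, congrFun hm i⟩
        · have htriv : ∀ (z : X i) (n : ℕ), z ^ (p j (f j)) ^ n = 1 → z = 1 := by
            intro z n hz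
            obtain ⟨k, _, hk⟩ := (Nat.dvd_prime_pow (hp j (f j))).mp (orderOf_dvd_of_pow_eq_one hz)
            rcases Nat.eq_zero_or_pos k with h0 | h0
            · rw [h0, pow_zero, orderOf_eq_one_iff] at hk; exact hk
            · exfalso
              have h1 : p j (f j) ∣ orderOf z := by rw [hk]; exact dvd_pow_self _ h0.ne'
              rcases (hsp' i _).mp ⟨z, rfl⟩ with h | h | h
              · rw [h] at h1; exact (hp j (f j)).ne_one (Nat.dvd_one.mp h1)
              · rw [h] at h1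
                exact hij (hinj _ _ _ _ ((Nat.prime_dvd_prime_iff_eq (hp j (f j)) (hp i 0)).mp h1)).1.symm
              · rw [h] at h1
                exact hij (hinj _ _ _ _ ((Nat.prime_dvd_prime_iff_eq (hp j (f j)) (hp i 1)).mp h1)).1.symm
          refine ⟨0, ?_⟩
          rw [htriv (x i) n (congrFun hn i), htriv (y i) m (congrFun hm i), one_mul, one_pow]
      choose k hk using hcomp
      refine ⟨∑ i, k i, ?_⟩
      funext i
      exact pow_le (hk i) (Finset.single_le_sum (fun _ _ => Nat.zero_le _) (Finset.mem_univ i))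
  -- minimal groups
  choose Y hYG hYF hYs hYN hYmin using fun f : Fin s → Fin 2 => (by
    obtain ⟨Y, h1, h2, h3, h4, h5⟩ := Nat.find_spec (hexist f)
    refine ⟨Y, h1, h2, h4, h5, ?_⟩
    rintro Z hZ1 hZ2 hZ3 hZ4
    by_contra hlt
    push Not at hlt
    rw [h3] at hlt
    exact Nat.find_min (hexist f) hlt ⟨Z, hZ1, hZ2, rfl, hZ3, hZ4⟩ :
    ∃ (Y : Type) (_ : Group Y) (_ : Fintype Y), Set.range (orderOf : Y → ℕ) = Om ∧ (∀ j, NS (p j (f j)) Y) ∧
      ∀ (Z : Type) (_ : Group Z) (_ : Fintype Z), Set.range (orderOf : Z → ℕ) = Om → (∀ j, NS (p j (f j)) Z) → Nat.card Y ≤ Nat.card Z)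
  let E : Fin (2 ^ s) ≃ (Fin s → Fin 2) := finFunctionFinEquiv.symm
  refine ⟨fun a => Y (E a), fun a => hYG (E a), fun a => hYF (E a), ?_, ?_⟩
  · intro a b hab ⟨e⟩
    letI := hYG (E a)
    letI := hYG (E b)
    letI := hYF (E a)
    have hfab : E a ≠ E b := fun h => hab (E.injective h)
    obtain ⟨j, hj⟩ : ∃ j, E a j ≠ E b j := by
      by_contra hcon
      push Not at hcon
      exact hfab (funext hcon)
    have h1 : NS (p j (E a j)) (Y (E a)) := hYN (E a) j
    have h2 : NS (p j (E b j)) (Y (E a)) := (hYN (E b) j).equiv e.symm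
    have h01 : ∀ a b : Fin 2, a ≠ b → (a = 0 ∧ b = 1) ∨ (a = 1 ∧ b = 0) := by decide
    have hmem : ∀ i : Fin 2, p j i ∈ Set.range (orderOf : Y (E a) → ℕ) := by
      intro i
      rw [hYs (E a)]
      refine ⟨fun j' => if j' = j then p j i else 1, ?_, ?_⟩
      · intro j'
        by_cases h : j' = j
        · subst h
          simp only [if_true]
          have h2 : ∀ a : Fin 2, a = 0 ∨ a = 1 := by decide
          rcases h2 i with h | h <;> rw [h] <;> tauto
        · left; exact if_neg h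
      · rw [Finset.prod_ite_eq' Finset.univ j (fun _ => p j i), if_pos (Finset.mem_univ j)]
    have hne : p j (E a j) ≠ p j (E b j) := fun h => hj (hinj _ _ _ _ h).2
    obtain ⟨x, hx⟩ := hmem (E a j)
    obtain ⟨y, hy⟩ := hmem (E b j)
    have h3 := NS.both (hp j _) (hp j _) hne h1 h2 hx hy
    have h4 : p j (E a j) * p j (E b j) ∈ Om := by
      rw [← h3, ← hYs (E a)]; exact ⟨_, rfl⟩
    rcases h01 _ _ hj with ⟨ha, hb⟩ | ⟨ha, hb⟩
    · rw [ha, hb] at h4
      exact hnoOm _ h4 j ⟨Dvd.intro _ rfl, Dvd.intro_left _ rfl⟩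
    · rw [ha, hb] at h4
      exact hnoOm _ h4 j ⟨Dvd.intro_left _ rfl, Dvd.intro _ rfl⟩
  · intro a
    refine ⟨hYs (E a), ?_⟩
    letI := hYG (E a)
    letI := hYF (E a)
    intro H N hN hHN hsp
    have h1 := hYmin (E a) (H ⧸ N) inferInstance (Fintype.ofFinite _) hsp (fun j => (hYN (E a) j).quot (hp j _) H N)
    have h2 : Nat.card H = Nat.card (H ⧸ N) * Nat.card N := Subgroup.card_eq_card_quotient_mul_card_subgroup N
    have h3 : Nat.card H ≤ Nat.card (Y (E a)) := Subgroup.card_le_card_group H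
    have h4 : 0 < Nat.card N := Nat.card_pos
    have h5 : 0 < Nat.card (H ⧸ N) := Nat.card_pos
    have h6 : Nat.card N = 1 := by
      by_contra hne
      have : 2 ≤ Nat.card N := by omega
      nlinarith
    rcases hHN with h | h
    · apply h
      apply Subgroup.eq_top_of_le_card
      rw [h6, mul_one] at h2
      rw [h2]; exact h1
    · exact h (Subgroup.card_eq_one.mp h6)

end Cfsg.Agent.S3599
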