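import Cfsg.Statements.S3620
import Cfsg.Agent.LibMgH14b


set_option autoImplicit false
open Cfsg

namespace Cfsg.Agent.S3620

/-- Let G act faithfully on a finite set in such a way that every non-trivial normal subgroup of G is transitive (G is quasiprimitive). Let Γ be a subset with more than one point and fewer than half of the points, such that the pointwise stabilizer of the complement of Γ acts transitively on Γ. Then G induces every even permutation of the set (G is the alternating or the symmetric group). -/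
theorem result {G Ω : Type*} [Group G] [Finite G] [MulAction G Ω] [FaithfulSMul G Ω] [Fintype Ω] [DecidableEq Ω]
    (hqp : ∀ N : Subgroup G, N.Normal → N ≠ ⊥ → MulAction.IsPretransitive ↥N Ω)
    (Γ : Set Ω) (hΓ1 : 1 < Γ.ncard) (hΓ2 : 2 * Γ.ncard < Fintype.card Ω)
    (hJ : MulAction.IsPretransitive ↥(fixingSubgroup G Γᶜ) ↥(SubMulAction.ofFixingSubgroup G Γᶜ)) :
    ∀ σ : Equiv.Perm Ω, Equiv.Perm.sign σ = 1 → ∃ x : G, (MulAction.toPerm x : Equiv.Perm Ω) = σ := by
  classical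
  have hΓc : (Γ.toFinset).card = Γ.ncard := by rw [Set.ncard_eq_toFinset_card']
  have hJ' : ∀ x y, x ∈ Γ.toFinset → y ∈ Γ.toFinset → ∃ g : G, (∀ d, d ∉ Γ.toFinset → g • d = d) ∧ g • x = y := by
    intro x y hx hy
    rw [Set.mem_toFinset] at hx hy
    obtain ⟨g, hg⟩ := hJ.exists_smul_eq ⟨x, (SubMulAction.mem_ofFixingSubgroup_iff G).2 (fun h => h hx)⟩
      ⟨y, (SubMulAction.mem_ofFixingSubgroup_iff G).2 (fun h => h hy)⟩
    refine ⟨g, fun d hd => ?_, congrArg Subtype.val hg⟩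
    rw [Set.mem_toFinset] at hd
    exact (mem_fixingSubgroup_iff G).1 g.2 d hd
  have hqp' : ∀ N : Subgroup G, N.Normal → N ≠ ⊥ → ∀ x y : Ω, ∃ n ∈ N, n • x = y := by
    intro N hN hN1 x y
    obtain ⟨n, hn⟩ := (hqp N hN hN1).exists_smul_eq x y
    exact ⟨n, n.2, hn⟩
  have hc1 : 1 < (Γ.toFinset).card := by rw [hΓc]; exact hΓ1
  obtain ⟨x0, hx0, y0, hy0, hxy⟩ := Finset.one_lt_card.1 hc1
  have htr : ∀ x y : Ω, ∃ g : G, g • x = y := by
    intro x y
    obtain ⟨j, -, hj⟩ := hJ' x0 y0 hx0 hy0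
    obtain ⟨n, -, hn⟩ := hqp' ⊤ inferInstance (by
      intro h
      have h2 : j ∈ (⊤ : Subgroup G) := trivial
      rw [h] at h2
      rw [Subgroup.mem_bot.1 h2, one_smul] at hj
      exact hxy hj) x y
    exact ⟨n, hn⟩
  obtain ⟨M, φ, hφ, hsur, hprim, hnt⟩ := CfsgLib.MgH14.exists_quot (G := G) htr x0 y0 hxy
  haveI : Fintype (G ⧸ M) := Fintype.ofFinite _
  exact CfsgLib.MgH14.quasi φ hφ hsur hprim hnt htr hqp' Γ.toFinset hc1 (by rw [hΓc]; exact hΓ2) hJ'

end Cfsg.Agent.S3620
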