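import Cfsg.Statements.S3639
import Mathlib
import Cfsg.Agent.LibSuz14
-- import your own Cfsg.Agent.* helpers here

set_option autoImplicit false
open Cfsg

namespace Cfsg.Agent.S3639

open Cfsg.Agent.Suz
open MulAction
open scoped Pointwise

variable {F : Type*} [Field F] [Fintype F] {O : Set (Projectivization F (Fin 4 → F))} {m : ℕ}

/-- the action -/
def phi (O : Set (Projectivization F (Fin 4 → F))) (k : ℕ) : Gp O →* MulAut (Multiplicative (Fin k → Fin 4 → F)) where
  toFun g := AddEquiv.toMultiplicative
    { toFun := fun v i => g • v i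
      invFun := fun v i => g⁻¹ • v i
      left_inv := fun v => by funext i; exact inv_smul_smul g (v i)
      right_inv := fun v => by funext i; exact smul_inv_smul g (v i)
      map_add' := fun v w => by funext i; exact smul_add g (v i) (w i) }
  map_one' := by
    refine MulEquiv.ext fun v => ?_
    apply Multiplicative.toAdd.injective
    funext i
    exact one_smul (Gp O) (Multiplicative.toAdd v i)
  map_mul' g h := by
    refine MulEquiv.ext fun v => ?_
    apply Multiplicative.toAdd.injective
    funext i
    exact mul_smul g h (Multiplicative.toAdd v i)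

theorem main (D : Data F O m) (N : ℕ) :
    ∃ (H : Type) (_ : Group H) (_ : Fintype H), N < Fintype.card H ∧ (∀ r : ℕ, r.Prime → (r ∣ Nat.card (Gp O) ↔ r ∣ Nat.card H)) ∧
      (∀ r s : ℕ, r.Prime → s.Prime → r ≠ s → ((∃ x : Gp O, orderOf x = r * s) ↔ (∃ y : H, orderOf y = r * s))) := by
  have hfinV : Finite (Multiplicative (Fin N → Fin 4 → F)) := inferInstanceAs (Finite (Fin N → Fin 4 → F))
  let H₀ := Multiplicative (Fin N → Fin 4 → F) ⋊[phi O N] Gp O
  have hc₀ : Nat.card H₀ = Nat.card (Multiplicative (Fin N → Fin 4 → F)) * Nat.card (Gp O) := SemidirectProduct.card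
  have hcV : Nat.card (Multiplicative (Fin N → Fin 4 → F)) = 2 ^ ((2 * m + 1) * (4 * N)) := by
    have h1 : Nat.card (Multiplicative (Fin N → Fin 4 → F)) = Nat.card (Fin N → Fin 4 → F) := rfl
    rw [h1, Nat.card_fun, Nat.card_fun, Nat.card_eq_fintype_card (α := F), D.hF, Nat.card_fin, Nat.card_fin, ← pow_mul, ← pow_mul]
  have hfin : Finite H₀ := by
    apply Nat.finite_of_card_ne_zero
    rw [hc₀, hcV]
    have : 0 < Nat.card (Gp O) := Nat.card_pos
    positivity
  have hcH : Nat.card (Shrink.{0} H₀) = 2 ^ ((2 * m + 1) * (4 * N)) * Nat.card (Gp O) := by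
    rw [← hcV, ← hc₀]
    exact Nat.card_congr (equivShrink.{0} H₀).symm
  have hfinS : Finite (Shrink.{0} H₀) := Finite.of_equiv _ (equivShrink.{0} H₀)
  let ft : Fintype (Shrink.{0} H₀) := Fintype.ofFinite _
  let E : Shrink.{0} H₀ ≃* H₀ := Shrink.mulEquiv
  refine ⟨Shrink.{0} H₀, inferInstance, ft, ?_, ?_, ?_⟩
  · rw [← Nat.card_eq_fintype_card, hcH]
    have h1 : N < 2 ^ N := Nat.lt_two_pow_self
    have h2 : 2 ^ N ≤ 2 ^ ((2 * m + 1) * (4 * N)) := Nat.pow_le_pow_right (by norm_num) (by nlinarith)
    have h3 : 0 < Nat.card (Gp O) := Nat.card_pos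
    nlinarith
  · intro r hr
    rw [hcH]
    constructor
    · intro h
      exact Dvd.dvd.mul_left h _
    · intro h
      rcases (Nat.Prime.dvd_mul hr).mp h with h1 | h1
      · have h2 := hr.dvd_of_dvd_pow h1
        have h3 := (Nat.prime_dvd_prime_iff_eq hr Nat.prime_two).mp h2
        rw [h3]
        exact D.two_dvd_card
      · exact h1
  · intro r s hr hs hrs
    constructor
    · rintro ⟨x, hx⟩
      refine ⟨E.symm (SemidirectProduct.inr x), ?_⟩
      rw [← hx]
      refine (orderOf_injective E.symm.toMonoidHom E.symm.injective (SemidirectProduct.inr x)).trans ?_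
      exact orderOf_injective (SemidirectProduct.inr : Gp O →* H₀) SemidirectProduct.inr_injective x
    · rintro ⟨y', hy'⟩
      obtain ⟨y, hy⟩ : ∃ y : H₀, orderOf y = r * s := by
        refine ⟨E y', ?_⟩
        rw [← hy']
        exact orderOf_injective E.toMonoidHom E.injective y'
      let g : Gp O := SemidirectProduct.rightHom y
      have hsq : ∀ v : Multiplicative (Fin N → Fin 4 → F), v * v = 1 := by
        intro v
        apply Multiplicative.toAdd.injective
        funext i j
        exact D.add_self _
      have hnd : orderOf g ∣ r * s := by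
        rw [← hy]
        exact orderOf_map_dvd SemidirectProduct.rightHom y
      have hker : y ^ orderOf g ∈ (SemidirectProduct.rightHom : H₀ →* Gp O).ker := by
        rw [MonoidHom.mem_ker, map_pow]
        exact pow_orderOf_eq_one g
      rw [← SemidirectProduct.range_inl_eq_ker_rightHom] at hker
      obtain ⟨v, hv⟩ := hker
      have h2n : r * s ∣ 2 * orderOf g := by
        rw [← hy]
        apply orderOf_dvd_of_pow_eq_one
        rw [mul_comm, pow_mul, ← hv, pow_two, ← map_mul, hsq, map_one]
      by_cases hv1 : v = 1
      · refine ⟨g, Nat.dvd_antisymm hnd ?_⟩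
        rw [← hy]
        apply orderOf_dvd_of_pow_eq_one
        rw [← hv, hv1, map_one]
      · exfalso
        -- `v` is fixed by `g`
        have hcomm : y * SemidirectProduct.inl v = SemidirectProduct.inl v * y := by
          rw [hv]
          exact (pow_mul_comm' y (orderOf g)).symm
        have hfix : phi O N g v = v := by
          have h1 := congrArg SemidirectProduct.left hcomm
          rw [SemidirectProduct.mul_left, SemidirectProduct.mul_left] at h1
          simp only [SemidirectProduct.left_inl, SemidirectProduct.right_inl, map_one, MulAut.one_apply] at h1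
          have h2 : y.left * (phi O N y.right) v = y.left * v := by rw [h1, mul_comm]
          exact mul_left_cancel h2
        have hvi : ∀ i, g • (Multiplicative.toAdd v i) = Multiplicative.toAdd v i := by
          intro i
          exact congrFun (congrArg Multiplicative.toAdd hfix) i
        -- `g` has odd prime order
        have hlt : orderOf g ≠ r * s := by
          intro h
          apply hv1
          apply SemidirectProduct.inl_injective (φ := phi O N)
          rw [map_one]
          rw [hv, h, ← hy]
          exact pow_orderOf_eq_one y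
        obtain ⟨c, hc⟩ := hnd
        have hgpos : 0 < orderOf g := orderOf_pos g
        have hc2 : c ∣ 2 := by
          rw [hc, mul_comm] at h2n
          exact Nat.dvd_of_mul_dvd_mul_right hgpos h2n
        have hc2' : c = 2 := by
          rcases (Nat.dvd_prime Nat.prime_two).mp hc2 with h | h
          · exfalso
            rw [h, mul_one] at hc
            exact hlt hc.symm
          · exact h
        subst hc2'
        have hodd : ∃ p, p.Prime ∧ p ≠ 2 ∧ orderOf g = p := by
          have h2rs : 2 ∣ r * s := ⟨orderOf g, by rw [hc, mul_comm]⟩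
          rcases (Nat.Prime.dvd_mul Nat.prime_two).mp h2rs with h | h
          · have hr2 : 2 = r := (Nat.prime_dvd_prime_iff_eq Nat.prime_two hr).mp h
            refine ⟨s, hs, ?_, ?_⟩
            · rw [hr2]; exact hrs.symm
            · rw [← hr2] at hc; omega
          · have hs2 : 2 = s := (Nat.prime_dvd_prime_iff_eq Nat.prime_two hs).mp h
            refine ⟨r, hr, ?_, ?_⟩
            · rw [hs2]; exact hrs
            · rw [← hs2] at hc; omega
        obtain ⟨p, hp, hp2, hgp⟩ := hodd
        apply hv1
        apply Multiplicative.toAdd.injective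
        funext i
        exact D.no_fix_vec hp hp2 hgp _ (hvi i)

/-- Let S be the Suzuki group over the field with q = 2^(2m+1) ≥ 8 elements. Then there are finite groups of arbitrarily large order with the same prime graph as S. -/
theorem result {F : Type*} [Field F] [Fintype F] {m : ℕ} (hm : 1 ≤ m) (hF : Fintype.card F = 2 ^ (2 * m + 1)) (N : ℕ) :
    ∃ (H : Type) (_ : Group H) (_ : Fintype H), N < Fintype.card H ∧ ((∀ r : ℕ, r.Prime → (r ∣ Nat.card ↥(Cfsg.Lie.Sz F (2 ^ (m + 1))) ↔ r ∣ Nat.card H)) ∧
      (∀ r s : ℕ, r.Prime → s.Prime → r ≠ s → ((∃ x : ↥(Cfsg.Lie.Sz F (2 ^ (m + 1))), orderOf x = r * s) ↔ (∃ y : H, orderOf y = r * s)))) := by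
  have hiso := lieIso hm hF
  obtain ⟨H, i1, i2, h1, h2, h3⟩ := main (Cfsg.Agent.Suz.data hm hF) N
  refine ⟨H, i1, i2, h1, ?_, ?_⟩
  · intro r hr
    rw [Nat.card_congr hiso.toEquiv]
    exact h2 r hr
  · intro r s hr hs hrs
    rw [← h3 r s hr hs hrs]
    constructor
    · rintro ⟨x, hx⟩
      exact ⟨hiso x, by rw [← hx]; exact orderOf_injective hiso.toMonoidHom hiso.injective x⟩
    · rintro ⟨x, hx⟩
      exact ⟨hiso.symm x, by rw [← hx]; exact orderOf_injective hiso.symm.toMonoidHom hiso.symm.injective x⟩

end Cfsg.Agent.S3639
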