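import Cfsg.Statements.S3660
import Cfsg.Agent.LibPGext14


set_option autoImplicit false
open Cfsg

namespace Cfsg.Agent.S3660


open Matrix CfsgLib.PGext14

section

variable {F : Type*} [Field F]

/-- natural action -/
@[reducible] def act : DistribMulAction (Matrix.SpecialLinearGroup (Fin 2) F) (Fin 2 → F) where
  smul g v := g.1 *ᵥ v
  one_smul v := by
    show (1 : Matrix.SpecialLinearGroup (Fin 2) F).1 *ᵥ v = v
    rw [Matrix.SpecialLinearGroup.coe_one, Matrix.one_mulVec]
  mul_smul g h v := by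
    show (g * h).1 *ᵥ v = g.1 *ᵥ (h.1 *ᵥ v)
    rw [Matrix.SpecialLinearGroup.coe_mul, Matrix.mulVec_mulVec]
  smul_zero g := Matrix.mulVec_zero _
  smul_add g v w := Matrix.mulVec_add _ _ _

variable [CharP F 2]

theorem center_bot : Subgroup.center (Matrix.SpecialLinearGroup (Fin 2) F) = ⊥ := by
  rw [eq_bot_iff]
  intro g hg
  rw [Matrix.SpecialLinearGroup.mem_center_iff] at hg
  obtain ⟨r, hr, hrg⟩ := hg
  rw [Fintype.card_fin] at hr
  have hr1 : r = 1 := by
    have h2 : (2 : F) = 0 := CharTwo.two_eq_zero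
    have h : (r - 1) ^ 2 = 0 := by linear_combination hr + (1 - r) * h2
    exact sub_eq_zero.mp (pow_eq_zero_iff (two_ne_zero) |>.mp h)
  rw [Subgroup.mem_bot]
  apply Matrix.SpecialLinearGroup.ext
  intro i j
  rw [← hrg, hr1]
  simp

theorem sq_one (g : Matrix.SpecialLinearGroup (Fin 2) F) (v : Fin 2 → F) (hv : v ≠ 0) (h : g.1 *ᵥ v = v) : g ^ 2 = 1 := by
  have hdet : (g.1 - 1).det = 0 := by
    rw [← Matrix.exists_mulVec_eq_zero_iff]
    exact ⟨v, hv, by rw [Matrix.sub_mulVec, h, Matrix.one_mulVec, sub_self]⟩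
  have hd := g.2
  rw [Matrix.det_fin_two] at hdet hd
  simp at hdet
  have h2 : (2 : F) = 0 := CharTwo.two_eq_zero
  have htr : g.1 0 0 = g.1 1 1 := by
    have : g.1 0 0 - g.1 1 1 = 0 := by linear_combination (-1 : F) * hdet + hd + (1 - g.1 1 1) * h2
    exact sub_eq_zero.mp this
  apply Matrix.SpecialLinearGroup.ext
  intro i j
  rw [sq, Matrix.SpecialLinearGroup.coe_mul, Matrix.SpecialLinearGroup.coe_one, Matrix.mul_apply, Fin.sum_univ_two]
  fin_cases i <;> fin_cases j
  · show g.1 0 0 * g.1 0 0 + g.1 0 1 * g.1 1 0 = 1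
    linear_combination hd + g.1 0 0 * htr + g.1 0 1 * g.1 1 0 * h2
  · show g.1 0 0 * g.1 0 1 + g.1 0 1 * g.1 1 1 = 0
    linear_combination g.1 0 1 * htr + g.1 0 1 * g.1 1 1 * h2
  · show g.1 1 0 * g.1 0 0 + g.1 1 1 * g.1 1 0 = 0
    linear_combination g.1 1 0 * htr + g.1 1 0 * g.1 1 1 * h2
  · show g.1 1 0 * g.1 0 1 + g.1 1 1 * g.1 1 1 = 1
    linear_combination hd - g.1 1 1 * htr + g.1 0 1 * g.1 1 0 * h2

theorem two_dvd [Finite F] : 2 ∣ Nat.card (Matrix.SpecialLinearGroup (Fin 2) F) := by
  let t : Matrix.SpecialLinearGroup (Fin 2) F := ⟨!![1, 1; 0, 1], by simp [Matrix.det_fin_two]⟩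
  have ht : orderOf t = 2 := by
    apply orderOf_eq_prime
    · apply Matrix.SpecialLinearGroup.ext
      intro i j
      have h2 : (1 : F) + 1 = 0 := by rw [one_add_one_eq_two]; exact CharTwo.two_eq_zero
      rw [sq, Matrix.SpecialLinearGroup.coe_mul, Matrix.SpecialLinearGroup.coe_one, Matrix.mul_apply, Fin.sum_univ_two]
      fin_cases i <;> fin_cases j <;> simp [t, h2]
    · intro h
      have := congrArg (fun g : Matrix.SpecialLinearGroup (Fin 2) F => g.1 0 1) h
      simp [t] at this
  have := orderOf_dvd_natCard t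
  rwa [ht] at this

end



/-- The prime graph of a finite group has the prime divisors of its order as vertices, two distinct primes p, q being joined when the group has an element of order pq; two groups have the same prime graph when they have the same prime divisors and the same joined pairs. Let F be a finite field of characteristic 2 with at least 4 elements. Then there are finite groups of arbitrarily large order with the same prime graph as PSL(2,F); in particular PSL(2,F) is not determined by its prime graph. -/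
theorem result {F : Type*} [Field F] [Fintype F] [CharP F 2] (hF : 4 ≤ Fintype.card F) (N : ℕ) :
    ∃ (H : Type) (_ : Group H) (_ : Finite H), N < Nat.card H ∧
      ((∀ p : ℕ, p.Prime → (p ∣ Nat.card (Matrix.ProjectiveSpecialLinearGroup (Fin 2) F) ↔ p ∣ Nat.card H)) ∧
      (∀ p q : ℕ, p.Prime → q.Prime → p ≠ q → ((∃ g : (Matrix.ProjectiveSpecialLinearGroup (Fin 2) F), orderOf g = p * q) ↔ (∃ g : H, orderOf g = p * q)))) := by
  classical
  letI := act (F := F)
  haveI : Fact (Nat.Prime 2) := ⟨Nat.prime_two⟩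
  obtain ⟨H, iG, iF, hN, hS⟩ := CfsgLib.PGext14.main (G := Matrix.SpecialLinearGroup (Fin 2) F) (V := Fin 2 → F) Nat.prime_two
    two_dvd (fun v => by
      rw [two_nsmul]; funext i; exact CharTwo.add_self_eq_zero (v i))
    (fun s hs hs2 _ g hg v hv => by
      by_contra hv0
      have h := sq_one g v hv0 hv
      have h2 := orderOf_dvd_of_pow_eq_one h
      rw [hg] at h2
      exact hs2 ((Nat.prime_dvd_prime_iff_eq hs Nat.prime_two).mp h2)) N
  have e : Matrix.ProjectiveSpecialLinearGroup (Fin 2) F ≃* Matrix.SpecialLinearGroup (Fin 2) F :=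
    (QuotientGroup.quotientMulEquivOfEq (center_bot (F := F))).trans QuotientGroup.quotientBot
  exact ⟨H, iG, iF, hN, (SamePG.of_equiv e).trans hS⟩

end Cfsg.Agent.S3660
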