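import Cfsg.Statements.S3678
import Cfsg.Agent.LibPGext14
import Cfsg.Agent.LibPSLord14
import Cfsg.Agent.S3660


set_option autoImplicit false
open Cfsg

namespace Cfsg.Agent.S3678


open Matrix CfsgLib.PGext14 CfsgLib.PSLord14

theorem not_pq (n p q : ℕ) (hp : p.Prime) (hq : q.Prime) (hpq : p ≠ q) (r k : ℕ) (hr : r.Prime) (hn : n = r ^ k) (h : p * q ∣ n) : False := by
  subst hn
  have h1 := (Nat.prime_dvd_prime_iff_eq hp hr).mp (hp.dvd_of_dvd_pow ((dvd_mul_right p q).trans h))
  have h2 := (Nat.prime_dvd_prime_iff_eq hq hr).mp (hq.dvd_of_dvd_pow ((dvd_mul_left q p).trans h))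
  exact hpq (h1.trans h2.symm)



/-- The prime graph of a finite group has the prime divisors of its order as vertices, two distinct primes p, q being joined when the group has an element of order pq; two groups have the same prime graph when they have the same prime divisors and the same joined pairs. Let F be the field with 7 elements. There are finite groups of arbitrarily large order with the same prime graph as PSL(2,F) (the graph on {2, 3, 7} with no edges, which is also the prime graph of PSL(2,8)). -/
theorem result {F : Type*} [Field F] [Fintype F] (hF : Fintype.card F = 7) (N : ℕ) :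
    ∃ (H : Type) (_ : Group H) (_ : Finite H), N < Nat.card H ∧
      ((∀ p : ℕ, p.Prime → (p ∣ Nat.card (Matrix.ProjectiveSpecialLinearGroup (Fin 2) F) ↔ p ∣ Nat.card H)) ∧
      (∀ p q : ℕ, p.Prime → q.Prime → p ≠ q → ((∃ g : (Matrix.ProjectiveSpecialLinearGroup (Fin 2) F), orderOf g = p * q) ↔ (∃ g : H, orderOf g = p * q)))) := by
  classical
  haveI : Fact (Nat.Prime 2) := ⟨Nat.prime_two⟩
  haveI : Fact (Nat.Prime 7) := ⟨by norm_num⟩
  let K := GaloisField 2 3
  letI : Fintype K := Fintype.ofFinite K
  have hK : Fintype.card K = 8 := by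
    rw [← Nat.card_eq_fintype_card, GaloisField.card 2 3 (by norm_num)]; norm_num
  haveI : CharP F 7 := by
    obtain ⟨p, hp⟩ := CharP.exists F
    obtain ⟨n, hpp, hn⟩ := FiniteField.card F p
    have h1 : p ∣ 7 := by rw [← hF, hn]; exact dvd_pow_self _ n.2.ne'
    have h2 := (Nat.prime_dvd_prime_iff_eq hpp (by norm_num : Nat.Prime 7)).mp h1
    rwa [h2] at hp
  obtain ⟨H, iG, iF, hN, hS⟩ := Cfsg.Agent.S3660.result (F := K) (by rw [hK]; norm_num) N
  refine ⟨H, iG, iF, hN, SamePG.trans (B := Matrix.ProjectiveSpecialLinearGroup (Fin 2) K) ?_ hS⟩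
  have hcF := CfsgLib.Dk29.card_PSL (F := F)
  have hcK := CfsgLib.Dk29.card_PSL (F := K)
  rw [hF] at hcF
  rw [hK] at hcK
  have hcF' : Nat.card (Matrix.ProjectiveSpecialLinearGroup (Fin 2) F) = 168 := by
    have h : Nat.gcd 2 (7 - 1) = 2 := by norm_num
    rw [h] at hcF; omega
  have hcK' : Nat.card (Matrix.ProjectiveSpecialLinearGroup (Fin 2) K) = 504 := by
    have h : Nat.gcd 2 (8 - 1) = 1 := by norm_num
    rw [h] at hcK; omega
  constructor
  · intro p hp
    rw [hcF', hcK', show 168 = 2 ^ 3 * 3 * 7 by norm_num, show 504 = 2 ^ 3 * 3 ^ 2 * 7 by norm_num]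
    simp only [hp.dvd_mul]
    constructor
    · rintro ((h | h) | h)
      · exact Or.inl (Or.inl (h))
      · exact Or.inl (Or.inr (h.trans (by norm_num)))
      · exact Or.inr h
    · rintro ((h | h) | h)
      · exact Or.inl (Or.inl (h))
      · exact Or.inl (Or.inr (hp.dvd_of_dvd_pow h))
      · exact Or.inr h
  · intro p q hp hq hpq
    constructor
    · rintro ⟨g, hg⟩
      exfalso
      rcases cases 7 g with h | h | h <;> have h := orderOf_dvd_of_pow_eq_one h <;> rw [hg] at h
      · exact not_pq 7 p q hp hq hpq 7 1 (by norm_num) (by norm_num) h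
      · rw [hF] at h; norm_num at h; exact not_pq 3 p q hp hq hpq 3 1 (by norm_num) (by norm_num) h
      · rw [hF] at h; norm_num at h; exact not_pq 4 p q hp hq hpq 2 2 (by norm_num) (by norm_num) h
    · rintro ⟨g, hg⟩
      exfalso
      rcases cases 2 g with h | h | h <;> have h := orderOf_dvd_of_pow_eq_one h <;> rw [hg] at h
      · exact not_pq 2 p q hp hq hpq 2 1 (by norm_num) (by norm_num) h
      · rw [hK] at h; norm_num at h; exact not_pq 7 p q hp hq hpq 7 1 (by norm_num) (by norm_num) h
      · rw [hK] at h; norm_num at h; exact not_pq 9 p q hp hq hpq 3 2 (by norm_num) (by norm_num) h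

end Cfsg.Agent.S3678
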