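import Cfsg.Statements.S3680
import Cfsg.Agent.S0721
import Cfsg.Agent.LibH14Prim


set_option autoImplicit false
open Cfsg

namespace Cfsg.Agent.S3680


open MulAction Subgroup CfsgLib.H14Prim CfsgLib.SolvMin

/-- `T^m × T^m ≅ T^(m+m)` -/
def powProd (T : Type) [Group T] (m : ℕ) : (Fin m → T) × (Fin m → T) ≃* (Fin (m + m) → T) where
  toEquiv := (Equiv.sumArrowEquivProdArrow (Fin m) (Fin m) T).symm.trans (Equiv.arrowCongr finSumFinEquiv (Equiv.refl T))
  map_mul' := by
    rintro ⟨a, b⟩ ⟨c, d⟩
    funext i
    obtain ⟨j, rfl⟩ := finSumFinEquiv.surjective i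
    simp only [Equiv.toFun_as_coe, Equiv.trans_apply, Equiv.arrowCongr_apply, Pi.mul_apply, Function.comp, Equiv.symm_apply_apply,
      Equiv.refl_apply]
    rcases j with j | j <;> rfl

theorem min_disj {G : Type*} [Group G] {V W : Subgroup G} (hV : IsMinNormal V) (hW : IsMinNormal W) (hne : W ≠ V) :
    ∀ v ∈ V, ∀ w ∈ W, v * w = w * v := by
  haveI := hV.1
  haveI := hW.1
  have h1 : V ⊓ W = ⊥ := by
    rcases hV.2.2 (V ⊓ W) inferInstance inf_le_left with h | h
    · exact h
    · exfalso
      have hVW : V ≤ W := by rw [← h]; exact inf_le_right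
      rcases hW.2.2 V hV.1 hVW with h2 | h2
      · exact hV.2.1 h2
      · exact hne h2.symm
  intro v hv w hw
  exact Subgroup.commute_of_normal_of_disjoint V W hV.1 hW.1 (disjoint_iff.mpr h1) v w hv hw

/-- the opposite regular normal subgroup is isomorphic -/
theorem regular_iso {G Ω : Type*} [Group G] [MulAction G Ω] (V W : Subgroup G) (ω : Ω) (hVt : IsPretransitive V Ω) (hWt : IsPretransitive W Ω)
    (hVs : ∀ v ∈ V, ∀ ω : Ω, v • ω = ω → v = 1) (hWs : ∀ w ∈ W, ∀ ω : Ω, w • ω = ω → w = 1)
    (hc : ∀ v ∈ V, ∀ w ∈ W, v * w = w * v) : Nonempty (V ≃* W) := by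
  have hex : ∀ v : V, ∃ w : W, w • ω = v⁻¹ • ω := fun v => exists_smul_eq W ω (v⁻¹ • ω)
  choose f hf using hex
  have hf' : ∀ v : V, (f v : G) • ω = (v : G)⁻¹ • ω := fun v => hf v
  have huW : ∀ w w' : W, (w : G) • ω = (w' : G) • ω → w = w' := by
    intro w w' h
    have h1 : ((w'⁻¹ * w : W) : G) • ω = ω := by
      rw [Subgroup.coe_mul, Subgroup.coe_inv, mul_smul, h, inv_smul_smul]
    have h2 := hWs _ (w'⁻¹ * w).2 ω h1
    have h3 : w'⁻¹ * w = 1 := Subtype.ext h2
    rw [inv_mul_eq_one] at h3
    exact h3.symm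
  have huV : ∀ w w' : V, (w : G) • ω = (w' : G) • ω → w = w' := by
    intro w w' h
    have h1 : ((w'⁻¹ * w : V) : G) • ω = ω := by
      rw [Subgroup.coe_mul, Subgroup.coe_inv, mul_smul, h, inv_smul_smul]
    have h2 := hVs _ (w'⁻¹ * w).2 ω h1
    have h3 : w'⁻¹ * w = 1 := Subtype.ext h2
    rw [inv_mul_eq_one] at h3
    exact h3.symm
  let F : V →* W := MonoidHom.mk' f (by
    intro a b
    apply huW
    rw [hf', Subgroup.coe_mul, mul_inv_rev, mul_smul, Subgroup.coe_mul, mul_smul, hf' b, ← hf' a, ← mul_smul, ← mul_smul,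
      hc _ (V.inv_mem b.2) _ (f a).2])
  refine ⟨MulEquiv.ofBijective F ⟨?_, ?_⟩⟩
  · intro a b hab
    have h1 : (f a : G) • ω = (f b : G) • ω := congrArg (fun w : W => (w : G) • ω) hab
    rw [hf', hf'] at h1
    have h2 : a⁻¹ = b⁻¹ := huV _ _ h1
    exact inv_injective h2
  · intro w
    obtain ⟨v, hv⟩ := exists_smul_eq V ω (w • ω)
    refine ⟨v⁻¹, ?_⟩
    apply huW
    show (f v⁻¹ : G) • ω = (w : G) • ω
    rw [hf', Subgroup.coe_inv, inv_inv]; exact hv

theorem sup_iso {G : Type*} [Group G] (V W : Subgroup G) (hc : ∀ v ∈ V, ∀ w ∈ W, v * w = w * v) (hd : V ⊓ W = ⊥) :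
    Nonempty ((V ⊔ W : Subgroup G) ≃* V × W) := by
  let F : V × W →* G := MonoidHom.noncommCoprod V.subtype W.subtype (fun v w => hc v v.2 w w.2)
  have hF : ∀ x : V × W, F x = (x.1 : G) * x.2 := fun x => rfl
  have hinj : Function.Injective F := by
    rw [injective_iff_map_eq_one]
    rintro ⟨v, w⟩ h
    rw [hF] at h
    have h1 : (v : G) ∈ V ⊓ W := ⟨v.2, by
      have : (v : G) = (w : G)⁻¹ := eq_inv_of_mul_eq_one_left h
      rw [this]; exact W.inv_mem w.2⟩
    rw [hd, Subgroup.mem_bot] at h1
    have h2 : (w : G) = 1 := by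
      have h' : (v : G) * w = 1 := h
      rwa [h1, one_mul] at h'
    exact Prod.ext (Subtype.ext h1) (Subtype.ext h2)
  have hr : F.range = V ⊔ W := by
    apply le_antisymm
    · rintro _ ⟨x, rfl⟩
      rw [hF]
      exact mul_mem (mem_sup_left x.1.2) (mem_sup_right x.2.2)
    · apply sup_le
      · intro v hv
        exact ⟨(⟨v, hv⟩, 1), by rw [hF]; simp⟩
      · intro w hw
        exact ⟨(1, ⟨w, hw⟩), by rw [hF]; simp⟩
  exact ⟨((MulEquiv.subgroupCongr hr.symm).trans (MonoidHom.ofInjective hinj).symm)⟩



/-- The socle of a finite primitive permutation group. Let a finite group G act faithfully and primitively on a set Ω, and let N be the subgroup generated by the minimal normal subgroups of G. Then either N is an elementary abelian p-group for some prime p and acts regularly on Ω (transitively with trivial point stabilizers), or N is isomorphic to a direct product of m ≥ 1 copies of a non-abelian simple group. -/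
theorem result {G Ω : Type*} [Group G] [Finite G] [MulAction G Ω] [FaithfulSMul G Ω] [Finite Ω]
    (hprim : MulAction.IsPreprimitive G Ω) (N : Subgroup G)
    (hN : N = sSup {V : Subgroup G | V.Normal ∧ V ≠ ⊥ ∧ ∀ M : Subgroup G, M.Normal → M ≤ V → M = ⊥ ∨ M = V}) :
    (∃ p : ℕ, p.Prime ∧ IsMulCommutative N ∧ (∀ x : N, x ^ p = 1) ∧
      MulAction.IsPretransitive N Ω ∧ ∀ ω : Ω, MulAction.stabilizer N ω = ⊥) ∨
    (∃ (T : Type) (_ : Group T) (m : ℕ), 1 ≤ m ∧ IsSimpleGroup T ∧ ¬ IsMulCommutative T ∧ Nonempty (N ≃* (Fin m → T))) := by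
  classical
  by_cases hG : Subsingleton G
  · left
    have hNbot : N = ⊥ := by
      rw [Subgroup.eq_bot_iff_forall]; intro x _; exact Subsingleton.elim _ _
    refine ⟨2, Nat.prime_two, ⟨⟨fun a b => Subsingleton.elim _ _⟩⟩, fun x => Subsingleton.elim _ _, ?_, ?_⟩
    · constructor
      intro x y
      obtain ⟨g, hg⟩ := hprim.toIsPretransitive.exists_smul_eq x y
      refine ⟨1, ?_⟩
      rw [one_smul, ← hg, Subsingleton.elim g 1, one_smul]
    · intro ω
      rw [Subgroup.eq_bot_iff_forall]; intro x _; exact Subsingleton.elim _ _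
  rw [not_subsingleton_iff_nontrivial] at hG
  obtain ⟨V, hV⟩ := exists_isMinNormal (G := G)
  obtain ⟨ω⟩ : Nonempty Ω := by
    by_contra hcon
    rw [not_nonempty_iff] at hcon
    obtain ⟨x, y, hxy⟩ := hG
    exact hxy (eq_of_smul_eq_smul (α := Ω) (fun a => (hcon.false a).elim))
  haveI := hV.1
  have hVt := normal_transitive hprim V hV.2.1
  have hVN : V ≤ N := by rw [hN]; exact le_sSup hV
  -- centraliser is semiregular
  have hCs : ∀ x ∈ centralizer (V : Set G), ∀ ω : Ω, x • ω = ω → x = 1 :=
    semiregular_of_commute V (centralizer (V : Set G)) hVt (fun c hc n hn => (mem_centralizer_iff.mp hn c hc))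
  by_cases hab : IsMulCommutative V
  · left
    have huniq : ∀ W : Subgroup G, IsMinNormal W → W = V := by
      intro W hW
      by_contra hne
      have hc := min_disj hV hW hne
      have hWV : W ≤ V := by
        intro w hw
        obtain ⟨v, hv⟩ := exists_smul_eq V ω (w • ω)
        have h1 : (v : G)⁻¹ * w ∈ centralizer (V : Set G) := by
          apply mul_mem
          · apply inv_mem
            rw [mem_centralizer_iff]
            intro x hx
            exact congrArg Subtype.val (hab.is_comm.comm (⟨x, hx⟩ : V) v)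
          · rw [mem_centralizer_iff]
            intro x hx
            exact hc x hx w hw
        have h2 := hCs _ h1 ω (by
          rw [mul_smul, ← hv]
          exact inv_smul_smul (v : G) ω)
        rw [inv_mul_eq_one] at h2
        rw [← h2]; exact v.2
      rcases hV.2.2 W hW.1 hWV with h | h
      · exact hW.2.1 h
      · exact hne h
    have hNV : N = V := by
      apply le_antisymm _ hVN
      rw [hN]
      apply sSup_le
      intro W hW
      exact (huniq W hW).le
    obtain ⟨⟨r, hr, hr2⟩, h2, h3⟩ := abelian_case hprim V hV hab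
    subst hNV
    exact ⟨r, hr, hab, fun x => Subtype.ext (hr2 x x.2), h2, h3⟩
  · right
    obtain ⟨T, hT, m, hTs, hm, ⟨e⟩⟩ := Cfsg.Agent.S0721.result V hV.2.1 hV.2.2
    have hTna : ¬ IsMulCommutative T := by
      intro h
      apply hab
      constructor
      constructor
      intro a b
      apply e.injective
      rw [map_mul, map_mul]
      funext i
      exact h.is_comm.comm _ _
    by_cases huniq : ∀ W : Subgroup G, IsMinNormal W → W = V
    · have hNV : N = V := by
        apply le_antisymm _ hVN
        rw [hN]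
        apply sSup_le
        intro W hW
        exact (huniq W hW).le
      subst hNV
      exact ⟨T, hT, m, hm, hTs, hTna, ⟨e⟩⟩
    · push Not at huniq
      obtain ⟨W, hW, hWV⟩ := huniq
      haveI := hW.1
      have hc := min_disj hV hW hWV
      have hWt := normal_transitive hprim W hW.2.1
      have hWC : W ≤ centralizer (V : Set G) := by
        intro w hw
        rw [mem_centralizer_iff]
        intro x hx
        exact hc x hx w hw
      have hVs : ∀ v ∈ V, ∀ ω : Ω, v • ω = ω → v = 1 :=
        semiregular_of_commute W V hWt (fun w hw v hv => (hc v hv w hw).symm)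
      have hWs : ∀ w ∈ W, ∀ ω : Ω, w • ω = ω → w = 1 := fun w hw => hCs w (hWC hw)
      have hNVW : N = V ⊔ W := by
        apply le_antisymm
        · rw [hN]
          apply sSup_le
          intro U hU
          by_cases hUV : U = V
          · rw [hUV]; exact le_sup_left
          · refine le_trans ?_ le_sup_right
            have hcU := min_disj hV hU hUV
            intro u hu
            obtain ⟨w, hw⟩ := exists_smul_eq W ω (u • ω)
            have h1 : (w : G)⁻¹ * u ∈ centralizer (V : Set G) := by
              apply mul_mem (inv_mem (hWC w.2))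
              rw [mem_centralizer_iff]
              intro x hx
              exact hcU x hx u hu
            have h2 := hCs _ h1 ω (by
              rw [mul_smul, ← hw]
              exact inv_smul_smul (w : G) ω)
            rw [inv_mul_eq_one] at h2
            rw [← h2]; exact w.2
        · apply sup_le hVN
          rw [hN]; exact le_sSup hW
      have hd : V ⊓ W = ⊥ := by
        rw [Subgroup.eq_bot_iff_forall]
        rintro x ⟨hx1, hx2⟩
        by_contra hne
        rcases hV.2.2 (V ⊓ W) inferInstance inf_le_left with h | h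
        · have : x ∈ V ⊓ W := ⟨hx1, hx2⟩
          rw [h, Subgroup.mem_bot] at this
          exact hne this
        · have hVW : V ≤ W := by rw [← h]; exact inf_le_right
          rcases hW.2.2 V hV.1 hVW with h2 | h2
          · exact hV.2.1 h2
          · exact hWV h2.symm
      obtain ⟨e1⟩ := regular_iso V W ω hVt hWt hVs hWs hc
      obtain ⟨e2⟩ := sup_iso V W hc hd
      rw [← hNVW] at e2
      exact ⟨T, hT, m + m, by omega, hTs, hTna, ⟨e2.trans ((MulEquiv.prodCongr e (e1.symm.trans e)).trans (powProd T m))⟩⟩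

end Cfsg.Agent.S3680
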