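import Cfsg.Statements.S3681
import Mathlib.GroupTheory.GroupAction.Jordan


set_option autoImplicit false
open Cfsg

namespace Cfsg.Agent.S3681


open Equiv

theorem ainv {Ω : Type*} (x : Perm Ω) (z : Ω) : x (x⁻¹ z) = z := by
  have : (x * x⁻¹) z = z := by rw [mul_inv_cancel]; rfl
  exact this

/-- the commutator of two permutations whose supports meet in one point is a 3-cycle -/
theorem three_cycle {Ω : Type*} [Fintype Ω] [DecidableEq Ω] (x y : Perm Ω) (α : Ω) (hx : x α ≠ α) (hy : y α ≠ α)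
    (hxy : ∀ z, z ≠ α → x z = z ∨ y z = z) : (x * y * x⁻¹ * y⁻¹).IsThreeCycle := by
  set β := x α with hβ
  set γ := y α with hγ
  have hxβ : x β ≠ β := fun h => hx (x.injective h)
  have hyγ : y γ ≠ γ := fun h => hy (y.injective h)
  have hyβ : y β = β := (hxy β hx).resolve_left hxβ
  have hxγ : x γ = γ := (hxy γ hy).resolve_right hyγ
  have hβγ : β ≠ γ := fun h => hyγ (h ▸ hyβ)
  have hyβ' : y⁻¹ β = β := by rw [Perm.inv_eq_iff_eq, hyβ]
  have hxγ' : x⁻¹ γ = γ := by rw [Perm.inv_eq_iff_eq, hxγ]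
  have hx1 : x⁻¹ β = α := by rw [Perm.inv_eq_iff_eq]
  have hy1 : y⁻¹ γ = α := by rw [Perm.inv_eq_iff_eq]
  have fx : ∀ z, x⁻¹ z = z → x z = z := fun z h => by rw [Perm.inv_eq_iff_eq] at h; exact h.symm
  have fy : ∀ z, y⁻¹ z = z → y z = z := fun z h => by rw [Perm.inv_eq_iff_eq] at h; exact h.symm
  have fx' : ∀ z, x z = z → x⁻¹ z = z := fun z h => by rw [Perm.inv_eq_iff_eq]; exact h.symm
  have fy' : ∀ z, y z = z → y⁻¹ z = z := fun z h => by rw [Perm.inv_eq_iff_eq]; exact h.symm
  have c1 : (x * y * x⁻¹ * y⁻¹) α = β := by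
    have h1 : y⁻¹ α ≠ α := fun h => hy (fy α h)
    have h2 : y (y⁻¹ α) ≠ y⁻¹ α := by rw [ainv]; exact h1.symm
    have h3 := (hxy _ h1).resolve_right h2
    rw [Perm.mul_apply, Perm.mul_apply, Perm.mul_apply, fx' _ h3, ainv]
  have c2 : (x * y * x⁻¹ * y⁻¹) β = γ := by
    rw [Perm.mul_apply, Perm.mul_apply, Perm.mul_apply, hyβ', hx1, ← hγ, hxγ]
  have c3 : (x * y * x⁻¹ * y⁻¹) γ = α := by
    have h1 : x⁻¹ α ≠ α := fun h => hx (fx α h)
    have h2 : x (x⁻¹ α) ≠ x⁻¹ α := by rw [ainv]; exact h1.symm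
    have h3 := (hxy _ h1).resolve_left h2
    rw [Perm.mul_apply, Perm.mul_apply, Perm.mul_apply, hy1, h3, ainv]
  have c4 : ∀ z, z ≠ α → z ≠ β → z ≠ γ → (x * y * x⁻¹ * y⁻¹) z = z := by
    intro z hα hβz hγz
    rw [Perm.mul_apply, Perm.mul_apply, Perm.mul_apply]
    rcases hxy z hα with h | h
    · -- x z = z
      by_cases hyz : y z = z
      · rw [fy' _ hyz, fx' _ h, hyz, h]
      · have h1 : y⁻¹ z ≠ α := fun h' => hγz (by rw [hγ, ← h', ainv])
        have h2 : y (y⁻¹ z) ≠ y⁻¹ z := by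
          rw [ainv]; exact fun h' => hyz (fy z h'.symm)
        have h3 := (hxy _ h1).resolve_right h2
        rw [fx' _ h3, ainv, h]
    · rw [fy' _ h]
      by_cases hxz : x z = z
      · rw [fx' _ hxz, h, hxz]
      · have h1 : x⁻¹ z ≠ α := fun h' => hβz (by rw [hβ, ← h', ainv])
        have h2 : x (x⁻¹ z) ≠ x⁻¹ z := by
          rw [ainv]; exact fun h' => hxz (fx z h'.symm)
        have h3 := (hxy _ h1).resolve_left h2
        rw [h3, ainv]
  rw [← card_support_eq_three_iff]
  have hs : (x * y * x⁻¹ * y⁻¹).support = {α, β, γ} := by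
    ext z
    rw [Perm.mem_support, Finset.mem_insert, Finset.mem_insert, Finset.mem_singleton]
    constructor
    · intro h
      by_contra hcon
      push Not at hcon
      exact h (c4 z hcon.1 hcon.2.1 hcon.2.2)
    · rintro (rfl | rfl | rfl)
      · rw [c1]; exact hx
      · rw [c2]; exact hβγ.symm
      · rw [c3]; exact hy.symm
  rw [hs]
  exact Finset.card_eq_three.mpr ⟨α, β, γ, hx.symm, hy.symm, hβγ, rfl⟩

theorem bochert {Ω : Type*} [Fintype Ω] [DecidableEq Ω] (H : Subgroup (Perm Ω)) (hH : MulAction.IsPreprimitive H Ω)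
    (hA : ¬ alternatingGroup Ω ≤ H) :
    ∃ Γ : Finset Ω, (Fintype.card Ω + 1) / 2 ≤ Γ.card ∧ ∀ σ ∈ H, (∀ z, z ∉ Γ → σ z = z) → σ = 1 := by
  classical
  -- minimal base
  let S : Finset (Finset Ω) := Finset.univ.filter (fun Δ => ∀ σ ∈ H, (∀ z ∈ Δ, σ z = z) → σ = 1)
  have hS : S.Nonempty := ⟨Finset.univ, by
    rw [Finset.mem_filter]
    exact ⟨Finset.mem_univ _, fun σ _ h => Equiv.ext fun z => h z (Finset.mem_univ z)⟩⟩
  obtain ⟨Δ, hΔS, hΔ⟩ := Finset.exists_min_image S Finset.card hS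
  have hΔb := (Finset.mem_filter.mp hΔS).2
  have hcc : (Δᶜ).card = Fintype.card Ω - Δ.card := Finset.card_compl Δ
  have hle : Δ.card ≤ Fintype.card Ω := Finset.card_le_univ Δ
  by_cases hhalf : Δ.card ≤ Fintype.card Ω / 2
  · refine ⟨Δᶜ, by omega, ?_⟩
    intro σ hσ h
    exact hΔb σ hσ (fun z hz => h z (by rw [Finset.mem_compl, not_not]; exact hz))
  · exfalso
    have h1 : Δᶜ ∉ S := by
      intro h
      have := hΔ _ h
      omega
    simp only [S, Finset.mem_filter, Finset.mem_univ, true_and] at h1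
    push Not at h1
    obtain ⟨x, hxH, hxf, hx1⟩ := h1
    obtain ⟨α, hα⟩ : ∃ α, x α ≠ α := by
      by_contra hcon
      push Not at hcon
      exact hx1 (Equiv.ext hcon)
    have hαΔ : α ∈ Δ := by
      by_contra h
      exact hα (hxf α (Finset.mem_compl.mpr h))
    have h2 : Δ.erase α ∉ S := by
      intro h
      have := hΔ _ h
      have := Finset.card_erase_lt_of_mem hαΔ
      omega
    simp only [S, Finset.mem_filter, Finset.mem_univ, true_and] at h2
    push Not at h2
    obtain ⟨y, hyH, hyf, hy1⟩ := h2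
    have hyα : y α ≠ α := by
      intro h
      apply hy1
      apply hΔb y hyH
      intro z hz
      by_cases hzα : z = α
      · rw [hzα, h]
      · exact hyf z (Finset.mem_erase.mpr ⟨hzα, hz⟩)
    have h3 := three_cycle x y α hα hyα (by
      intro z hz
      by_cases hzΔ : z ∈ Δ
      · right; exact hyf z (Finset.mem_erase.mpr ⟨hz, hzΔ⟩)
      · left; exact hxf z (Finset.mem_compl.mpr hzΔ))
    exact hA (Equiv.Perm.alternatingGroup_le_of_isPreprimitive_of_isThreeCycle_mem hH h3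
      (H.mul_mem (H.mul_mem (H.mul_mem hxH hyH) (H.inv_mem hxH)) (H.inv_mem hyH)))



/-- Bochert's bound for primitive groups. Let a finite group G act faithfully and primitively on a finite set Ω with n elements, and suppose the image of G in the symmetric group of Ω does not contain the alternating group of Ω. Then |G| · ⌊(n + 1)/2⌋! ≤ n!, that is, the index of G in the symmetric group is at least ⌊(n + 1)/2⌋!. -/
theorem result {G Ω : Type*} [Group G] [Finite G] [MulAction G Ω] [FaithfulSMul G Ω] [Fintype Ω] [DecidableEq Ω]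
    (hprim : MulAction.IsPreprimitive G Ω) (hA : ¬ alternatingGroup Ω ≤ (MulAction.toPermHom G Ω).range) :
    Nat.card G * Nat.factorial ((Fintype.card Ω + 1) / 2) ≤ Nat.factorial (Fintype.card Ω) := by
  classical
  set H : Subgroup (Perm Ω) := (MulAction.toPermHom G Ω).range with hH
  have hHp : MulAction.IsPreprimitive H Ω := by
    let φ : G → H := fun g => ⟨MulAction.toPermHom G Ω g, ⟨g, rfl⟩⟩
    let f : Ω →ₑ[φ] Ω := { toFun := id, map_smul' := fun g a => rfl }
    exact MulAction.IsPreprimitive.of_surjective (f := f) Function.surjective_id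
  have hcard : Nat.card G = Nat.card H := by
    apply Nat.card_congr
    exact (MonoidHom.ofInjective (f := MulAction.toPermHom G Ω) MulAction.toPerm_injective).toEquiv
  obtain ⟨Γ, hΓ1, hΓ2⟩ := bochert H hHp hA
  rw [hcard]
  have hinj : Function.Injective (fun p : H × Perm {z // z ∈ Γ} => (p.1 : Perm Ω) * Perm.ofSubtype p.2) := by
    rintro ⟨h1, τ1⟩ ⟨h2, τ2⟩ h
    have h' : (h1 : Perm Ω) * Perm.ofSubtype τ1 = h2 * Perm.ofSubtype τ2 := h
    have e1 : ((h2⁻¹ * h1 : H) : Perm Ω) = Perm.ofSubtype (τ2 * τ1⁻¹) := by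
      rw [map_mul, map_inv, Subgroup.coe_mul, Subgroup.coe_inv, inv_mul_eq_iff_eq_mul, ← mul_assoc, ← h', mul_assoc, mul_inv_cancel, mul_one]
    have e2 : ((h2⁻¹ * h1 : H) : Perm Ω) = 1 := by
      apply hΓ2 _ (h2⁻¹ * h1).2
      intro z hz
      rw [e1, Perm.ofSubtype_apply_of_not_mem _ hz]
    have e3 : h1 = h2 := by
      have : h2⁻¹ * h1 = 1 := Subtype.ext e2
      rw [inv_mul_eq_one] at this
      exact this.symm
    subst e3
    have e4 := mul_left_cancel h'
    have := Perm.ofSubtype_injective e4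
    rw [this]
  have h5 := Nat.card_le_card_of_injective _ hinj
  rw [Nat.card_prod, Nat.card_perm, Nat.card_perm, Nat.card_eq_fintype_card (α := Ω)] at h5
  have h6 : Nat.card {z // z ∈ Γ} = Γ.card := by simp
  rw [h6] at h5
  refine le_trans (Nat.mul_le_mul_left _ (Nat.factorial_le hΓ1)) h5

end Cfsg.Agent.S3681
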