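import Cfsg.Statements.S3683
-- import your own Cfsg.Agent.* helpers here

set_option autoImplicit false
open Cfsg

namespace Cfsg.Agent.S3683

/-- Let a finite group G act faithfully and primitively on a set Ω, and suppose the stabilizer of a point a fixes a second point b ≠ a (a suborbit of length 1 other than {a}). Then the stabilizer of a is trivial and G is cyclic of prime order. -/
theorem result {G Ω : Type*} [Group G] [Finite G] [MulAction G Ω] [FaithfulSMul G Ω] [Finite Ω]
    (hprim : MulAction.IsPreprimitive G Ω) (a b : Ω) (hab : a ≠ b) (hfix : ∀ g : G, g • a = a → g • b = b) :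
    MulAction.stabilizer G a = ⊥ ∧ IsCyclic G ∧ (Nat.card G).Prime := by
  classical
  haveI := hprim
  haveI : Nontrivial Ω := ⟨⟨a, b, hab⟩⟩
  have ha := MulAction.IsPreprimitive.isCoatom_stabilizer_of_isPreprimitive G a
  have hb := MulAction.IsPreprimitive.isCoatom_stabilizer_of_isPreprimitive G b
  have hle : MulAction.stabilizer G a ≤ MulAction.stabilizer G b := fun g hg => hfix g hg
  have heq : MulAction.stabilizer G a = MulAction.stabilizer G b := by
    rcases hle.eq_or_lt with h | h
    · exact h
    · exact absurd (ha.2 _ h) hb.1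
  obtain ⟨g, hg⟩ := MulAction.exists_smul_eq G a b
  have hgn : g ∈ Subgroup.normalizer ((MulAction.stabilizer G a : Subgroup G) : Set G) := by
    rw [Subgroup.mem_normalizer_iff]
    intro h
    constructor
    · intro hh
      rw [heq, MulAction.mem_stabilizer_iff]
      rw [← hg, smul_smul, inv_mul_cancel_right, mul_smul, (MulAction.mem_stabilizer_iff.mp hh)]
    · intro hh
      rw [heq, MulAction.mem_stabilizer_iff, ← hg, smul_smul, inv_mul_cancel_right, mul_smul] at hh
      exact (smul_left_cancel g hh)
  have hgna : g ∉ MulAction.stabilizer G a := by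
    intro h
    rw [MulAction.mem_stabilizer_iff] at h
    exact hab (h.symm.trans hg)
  have hNtop : Subgroup.normalizer ((MulAction.stabilizer G a : Subgroup G) : Set G) = ⊤ := by
    apply ha.2
    refine lt_of_le_of_ne Subgroup.le_normalizer ?_
    intro h
    rw [h] at hgna
    exact hgna hgn
  have hnormal : (MulAction.stabilizer G a).Normal := Subgroup.normalizer_eq_top_iff.mp hNtop
  have hbot : MulAction.stabilizer G a = ⊥ := by
    rw [eq_bot_iff]
    intro x hx
    rw [Subgroup.mem_bot]
    apply eq_of_smul_eq_smul (α := Ω)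
    intro y
    obtain ⟨h, rfl⟩ := MulAction.exists_smul_eq G a y
    have := hnormal.conj_mem x hx h⁻¹
    rw [MulAction.mem_stabilizer_iff, inv_inv, mul_smul, mul_smul, inv_smul_eq_iff] at this
    rw [this, one_smul]
  refine ⟨hbot, ?_⟩
  rw [hbot] at ha
  have hz : ∀ x : G, x ≠ 1 → Subgroup.zpowers x = ⊤ := by
    intro x hx
    apply ha.2
    rw [bot_lt_iff_ne_bot]
    intro h
    exact hx (Subgroup.zpowers_eq_bot.mp h)
  have hne : Nontrivial G := by
    by_contra h
    rw [not_nontrivial_iff_subsingleton] at h
    exact ha.1 (Subsingleton.elim _ _)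
  obtain ⟨x, hx⟩ := exists_ne (1 : G)
  refine ⟨⟨x, fun y => by
    have := hz x hx
    have hy : y ∈ (⊤ : Subgroup G) := Subgroup.mem_top y
    rw [← this] at hy
    exact hy⟩, ?_⟩
  have hcard : Nat.card G ≠ 1 := Finite.one_lt_card.ne'
  haveI : Fact (Nat.card G).minFac.Prime := ⟨Nat.minFac_prime hcard⟩
  obtain ⟨y, hy⟩ := exists_prime_orderOf_dvd_card' (G := G) (Nat.card G).minFac (Nat.minFac_dvd _)
  have hy1 : y ≠ 1 := by
    rintro rfl
    rw [orderOf_one] at hy
    exact (Nat.minFac_prime hcard).one_lt.ne hy
  have := hz y hy1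
  have h2 : Nat.card (Subgroup.zpowers y) = Nat.card G := by
    rw [this]; simp
  rw [Nat.card_zpowers, hy] at h2
  rw [← h2]
  exact Nat.minFac_prime hcard

end Cfsg.Agent.S3683
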