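import Cfsg.Statements.S3684
import Cfsg.Agent.LibH14SC
import Cfsg.Agent.LibDihedral


set_option autoImplicit false
open Cfsg

namespace Cfsg.Agent.S3684


open MulAction Subgroup CfsgLib.H14SC



/-- Let a finite group G act faithfully and primitively on a set Ω, and suppose the stabilizer of a point a has an orbit of length 2. Then the stabilizer of a has order 2 and G is isomorphic to the dihedral group of order 2p for some prime p. -/
theorem result {G Ω : Type*} [Group G] [Finite G] [MulAction G Ω] [FaithfulSMul G Ω] [Finite Ω]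
    (hprim : MulAction.IsPreprimitive G Ω) (a b : Ω) (h2 : Nat.card (MulAction.orbit (MulAction.stabilizer G a) b) = 2) :
    Nat.card (MulAction.stabilizer G a) = 2 ∧ ∃ p : ℕ, p.Prime ∧ Nonempty (G ≃* DihedralGroup p) := by
  haveI := hprim
  -- a ≠ b
  have hcardstab : (((stabilizer G b).subgroupOf (stabilizer G a))).index = 2 := by
    have e1 : stabilizer (stabilizer G a) b = (stabilizer G b).subgroupOf (stabilizer G a) := by
      ext x; rfl
    rw [← e1, ← h2, MulAction.index_stabilizer]
    rfl
  have hrel : (stabilizer G b).relIndex (stabilizer G a) = 2 := hcardstab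
  have hcc := card_stab_eq (G := G) a b
  have hc1 : 2 * Nat.card (stabilizer G b ⊓ stabilizer G a : Subgroup G) = Nat.card (stabilizer G a) := by
    have h3 := Subgroup.card_mul_index ((stabilizer G b).subgroupOf (stabilizer G a))
    rw [hcardstab] at h3
    rw [← Subgroup.subgroupOf_map_subtype, Subgroup.card_map_of_injective (stabilizer G a).subtype_injective, mul_comm]
    exact h3
  have hrel' : (stabilizer G a).relIndex (stabilizer G b) = 2 := by
    have h3 := Subgroup.card_mul_index ((stabilizer G a).subgroupOf (stabilizer G b))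
    have h4 : Nat.card ((stabilizer G a).subgroupOf (stabilizer G b)) = Nat.card (stabilizer G b ⊓ stabilizer G a : Subgroup G) := by
      rw [inf_comm, ← Subgroup.subgroupOf_map_subtype, Subgroup.card_map_of_injective (stabilizer G b).subtype_injective]
    rw [h4, ← hcc, ← hc1, mul_comm] at h3
    exact Nat.eq_of_mul_eq_mul_right Nat.card_pos h3
  have hne : stabilizer G a ≠ stabilizer G b := by
    intro h
    rw [h, Subgroup.relIndex_self] at hrel
    omega
  set D : Subgroup G := stabilizer G a ⊓ stabilizer G b with hD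
  have hDbot : D = ⊥ := by
    apply core_eq_bot hne D inf_le_left
    · have h3 : ((stabilizer G b).subgroupOf (stabilizer G a)).Normal := Subgroup.normal_of_index_eq_two hcardstab
      have h4 : (D.subgroupOf (stabilizer G a)).Normal := by
        rw [hD, inf_comm, Subgroup.inf_subgroupOf_right]; exact h3
      exact (Subgroup.normal_subgroupOf_iff_le_normalizer inf_le_left).mp h4
    · have h3 : ((stabilizer G a).subgroupOf (stabilizer G b)).Normal := Subgroup.normal_of_index_eq_two hrel'
      have h4 : (D.subgroupOf (stabilizer G b)).Normal := by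
        rw [hD, Subgroup.inf_subgroupOf_right]; exact h3
      exact (Subgroup.normal_subgroupOf_iff_le_normalizer inf_le_right).mp h4
  have hcard2 : Nat.card (stabilizer G a) = 2 := by
    rw [← hc1, inf_comm, ← hD, hDbot, Subgroup.card_bot]
  refine ⟨hcard2, ?_⟩
  haveI : Fact (Nat.Prime 2) := ⟨Nat.prime_two⟩
  have hinv : ∀ c : Ω, Nat.card (stabilizer G c) = 2 → ∃ t : G, orderOf t = 2 ∧ stabilizer G c = zpowers t := by
    intro c hc
    obtain ⟨t, ht⟩ := exists_prime_orderOf_dvd_card' 2 (show 2 ∣ Nat.card (stabilizer G c) by rw [hc])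
    refine ⟨t, by rw [Subgroup.orderOf_coe, ht], ?_⟩
    symm
    apply Subgroup.eq_of_le_of_card_ge
    · rw [zpowers_le]; exact t.2
    · rw [hc, Nat.card_zpowers, Subgroup.orderOf_coe, ht]
  obtain ⟨t, ht, hta⟩ := hinv a hcard2
  obtain ⟨u, hu, hub⟩ := hinv b (hcc ▸ hcard2)
  have htu : t ≠ u := by
    intro h; apply hne; rw [hta, hub, h]
  haveI : Nontrivial Ω := ⟨a, b, fun h => hne (by rw [h])⟩
  have hco : IsCoatom (stabilizer G a) := IsPreprimitive.isCoatom_stabilizer_of_isPreprimitive G a
  have htop : Subgroup.closure ({t, u} : Set G) = ⊤ := by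
    apply hco.2
    refine lt_of_le_of_ne ?_ ?_
    · rw [hta, zpowers_le]; exact subset_closure (by simp)
    · intro h
      have : stabilizer G b ≤ stabilizer G a := by
        rw [h, hub, zpowers_le]; exact subset_closure (by simp)
      exact hne (Subgroup.eq_of_le_of_card_ge this hcc.le).symm
  obtain ⟨e⟩ := CfsgLib.Dihedral.involutions_closure ht hu htu
  rw [htop] at e
  have e' : G ≃* DihedralGroup (orderOf (t * u)) := Subgroup.topEquiv.symm.trans e
  refine ⟨orderOf (t * u), ?_, ⟨e'⟩⟩
  set r : G := t * u with hr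
  have hn0 : 0 < orderOf r := orderOf_pos r
  haveI : NeZero (orderOf r) := ⟨hn0.ne'⟩
  have hGcard : Nat.card G = 2 * orderOf r := by
    rw [Nat.card_congr e'.toEquiv, DihedralGroup.nat_card]
  have hΩ : Nat.card Ω = orderOf r := by
    have h3 := Subgroup.card_mul_index (stabilizer G a)
    rw [MulAction.index_stabilizer_of_transitive, hcard2, hGcard] at h3
    exact Nat.eq_of_mul_eq_mul_left (by norm_num) h3
  have hn1 : orderOf r ≠ 1 := by
    intro h
    rw [orderOf_eq_one_iff, hr] at h
    apply htu
    have h3 : u⁻¹ = u := by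
      have := pow_orderOf_eq_one u
      rw [hu, pow_two] at this
      exact inv_eq_of_mul_eq_one_left this
    rw [← h3]; exact eq_inv_of_mul_eq_one_left h
  obtain ⟨p, hp, hpn⟩ := Nat.exists_prime_and_dvd hn1
  have htt : t * t = 1 := by
    have := pow_orderOf_eq_one t
    rwa [ht, pow_two] at this
  have huu : u * u = 1 := by
    have := pow_orderOf_eq_one u
    rwa [hu, pow_two] at this
  have hti : t⁻¹ = t := inv_eq_of_mul_eq_one_left htt
  have hui : u⁻¹ = u := inv_eq_of_mul_eq_one_left huu
  have htr : t * r * t⁻¹ = r⁻¹ := by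
    rw [hr, mul_inv_rev, hti, hui, ← mul_assoc, htt, one_mul]
  have hur : u * r * u⁻¹ = r⁻¹ := by
    rw [hr, mul_inv_rev, hti, hui, mul_assoc, mul_assoc, huu, mul_one]
  have hNn : (zpowers (r ^ p)).Normal := by
    rw [← Subgroup.normalizer_eq_top_iff, eq_top_iff, ← htop, Subgroup.closure_le]
    have key : ∀ s : G, s * s = 1 → s * r * s⁻¹ = r⁻¹ → s ∈ normalizer (zpowers (r ^ p) : Set G) := by
      intro s hs1 hs
      have h1 : ∀ x ∈ zpowers (r ^ p), s * x * s⁻¹ ∈ zpowers (r ^ p) := by
        intro x hx
        obtain ⟨k, rfl⟩ := Subgroup.mem_zpowers_iff.mp hx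
        have : s * (r ^ p) ^ k * s⁻¹ = ((r ^ p) ^ k)⁻¹ := by
          rw [← conj_zpow, ← conj_pow, hs, inv_pow, inv_zpow]
        rw [this]
        exact inv_mem hx
      rw [Subgroup.mem_normalizer_iff]
      intro x
      refine ⟨h1 x, fun h => ?_⟩
      have h2 := h1 _ h
      have h3 : s⁻¹ = s := inv_eq_of_mul_eq_one_left hs1
      have : s * (s * x * s⁻¹) * s⁻¹ = x := by
        rw [h3]
        calc s * (s * x * s) * s = (s * s) * x * (s * s) := by group
          _ = x := by rw [hs1, one_mul, mul_one]
      rwa [this] at h2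
    rintro s (rfl | hs)
    · exact key _ htt htr
    · rw [Set.mem_singleton_iff] at hs
      rw [hs]; exact key _ huu hur
  by_cases hN1 : r ^ p = 1
  · have := orderOf_dvd_of_pow_eq_one hN1
    rw [(Nat.dvd_prime hp).mp this |>.resolve_left hn1]
    exact hp
  · exfalso
    have htr : IsPretransitive (zpowers (r ^ p)) Ω := by
      apply IsQuasiPreprimitive.isPretransitive_of_normal
      intro h
      apply hN1
      apply FaithfulSMul.eq_of_smul_eq_smul (M := G) (α := Ω)
      intro ω
      rw [one_smul]
      have h3 : ω ∈ fixedPoints (zpowers (r ^ p)) Ω := by rw [h]; exact Set.mem_univ _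
      exact h3 ⟨r ^ p, mem_zpowers _⟩
    have h4 : Nat.card Ω ∣ Nat.card (zpowers (r ^ p)) := by
      rw [← MulAction.index_stabilizer_of_transitive (zpowers (r ^ p)) a]
      exact Subgroup.index_dvd_card _
    rw [hΩ, Nat.card_zpowers, orderOf_pow, Nat.gcd_eq_right hpn] at h4
    have h5 := Nat.le_of_dvd (Nat.div_pos (Nat.le_of_dvd hn0 hpn) hp.pos) h4
    have h6 := Nat.div_lt_self hn0 hp.one_lt
    omega

end Cfsg.Agent.S3684
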