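import Cfsg.Statements.S3696
import Mathlib.Analysis.MeanInequalities


set_option autoImplicit false
open Cfsg

namespace Cfsg.Agent.S3696


open Equiv

theorem amgm (a b x y : ℕ) (ha : 0 < a) : x ^ a * y ^ b * (a + b) ^ (a + b) ≤ (x + y) ^ (a + b) * (a ^ a * b ^ b) := by
  rcases Nat.eq_zero_or_pos b with rfl | hb
  · simp only [pow_zero, mul_one, add_zero]
    exact Nat.mul_le_mul_right _ (Nat.pow_le_pow_left (Nat.le_add_right x y) a)
  · have ha' : (0 : ℝ) < a := by exact_mod_cast ha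
    have hb' : (0 : ℝ) < b := by exact_mod_cast hb
    have hs : (0 : ℝ) < (a : ℝ) + b := by positivity
    have h1 := Real.geom_mean_le_arith_mean2_weighted (w₁ := (a : ℝ) / (a + b)) (w₂ := (b : ℝ) / (a + b)) (p₁ := (x : ℝ) / a)
      (p₂ := (y : ℝ) / b) (by positivity) (by positivity) (by positivity) (by positivity) (by field_simp)
    have h2 : ((x : ℝ) / a) ^ a * ((y : ℝ) / b) ^ b ≤ (((x : ℝ) + y) / (a + b)) ^ (a + b) := by
      have e1 : (a : ℝ) / (a + b) * (x / a) + b / (a + b) * (y / b) = (x + y) / (a + b) := by field_simp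
      rw [e1] at h1
      have h3 := pow_le_pow_left₀ (by positivity) h1 (a + b)
      refine le_trans (le_of_eq ?_) h3
      rw [mul_pow, ← Real.rpow_natCast (((x : ℝ) / a) ^ ((a : ℝ) / (a + b))), ← Real.rpow_mul (by positivity),
        ← Real.rpow_natCast (((y : ℝ) / b) ^ ((b : ℝ) / (a + b))), ← Real.rpow_mul (by positivity)]
      have e2 : (a : ℝ) / (a + b) * ((a + b : ℕ) : ℝ) = (a : ℕ) := by push_cast; field_simp
      have e3 : (b : ℝ) / (a + b) * ((a + b : ℕ) : ℝ) = (b : ℕ) := by push_cast; field_simp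
      rw [e2, e3, Real.rpow_natCast, Real.rpow_natCast]
    rw [div_pow, div_pow, div_pow, div_mul_div_comm, div_le_div_iff₀ (by positivity) (by positivity)] at h2
    exact_mod_cast h2

theorem le_two_pow (a : ℕ) (ha : 0 < a) : a ≤ 2 ^ (a - 1) := by
  induction a with
  | zero => omega
  | succ n ih =>
    rcases Nat.eq_zero_or_pos n with rfl | hn
    · simp
    · have := ih hn
      have e : 2 ^ (n + 1 - 1) = 2 * 2 ^ (n - 1) := by
        rw [← pow_succ', show n - 1 + 1 = n + 1 - 1 by omega]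
      have : 1 ≤ 2 ^ (n - 1) := Nat.one_le_two_pow
      omega

theorem pow_self_le (a m : ℕ) (ha : 0 < a) (hm : 2 ^ a ≤ m) : m * a ^ a ≤ m ^ a := by
  have h1 : a ^ a ≤ m ^ (a - 1) := by
    calc a ^ a ≤ (2 ^ (a - 1)) ^ a := Nat.pow_le_pow_left (le_two_pow a ha) a
      _ = (2 ^ a) ^ (a - 1) := by rw [← pow_mul, ← pow_mul, mul_comm]
      _ ≤ m ^ (a - 1) := Nat.pow_le_pow_left hm _
  calc m * a ^ a ≤ m * m ^ (a - 1) := Nat.mul_le_mul_left _ h1
    _ = m ^ a := by rw [← pow_succ', Nat.sub_add_cancel ha]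

theorem arith (a b m l A' : ℕ) (ha : 0 < a) (hm : 2 ^ a ≤ m) (hA : A' * b ^ b ≤ l ^ b) :
    m * A' * (a + b) ^ (a + b) ≤ (m + l) ^ (a + b) := by
  have h1 := amgm a b m l ha
  have h2 := pow_self_le a m ha hm
  have hpos : 0 < a ^ a * b ^ b := by
    have : 0 < b ^ b := by
      rcases Nat.eq_zero_or_pos b with rfl | hb
      · simp
      · positivity
    positivity
  refine Nat.le_of_mul_le_mul_right (c := a ^ a * b ^ b) ?_ hpos
  calc m * A' * (a + b) ^ (a + b) * (a ^ a * b ^ b) = (m * a ^ a) * (A' * b ^ b) * (a + b) ^ (a + b) := by ring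
    _ ≤ m ^ a * l ^ b * (a + b) ^ (a + b) := Nat.mul_le_mul_right _ (Nat.mul_le_mul h2 hA)
    _ ≤ _ := h1

theorem main {Ω : Type*} [Fintype Ω] [DecidableEq Ω] (p : ℕ) (hp : p.Prime) : ∀ (k : ℕ) (A : Subgroup (Perm Ω)) (Δ : Finset Ω),
    IsPGroup p A → (∀ x ∈ A, ∀ y ∈ A, x * y = y * x) → (∀ σ ∈ A, ∀ z, z ∉ Δ → σ z = z) → Nat.card {x : A // x ^ p = 1} = p ^ k →
    Nat.card A * k ^ k ≤ Δ.card ^ k := by
  classical
  haveI := Fact.mk hp
  intro k
  induction k using Nat.strong_induction_on with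
  | _ k ih =>
  intro A Δ hA hab hsupp hk
  -- the subgroup of elements of order dividing p
  let Om : Subgroup (Perm Ω) → Prop := fun _ => True
  let W : Subgroup (Perm Ω) :=
    { carrier := {x | x ∈ A ∧ x ^ p = 1}
      one_mem' := ⟨A.one_mem, one_pow p⟩
      mul_mem' := by
        rintro x y ⟨hx, hx1⟩ ⟨hy, hy1⟩
        refine ⟨A.mul_mem hx hy, ?_⟩
        have hc : Commute x y := hab x hx y hy
        rw [hc.mul_pow, hx1, hy1, one_mul]
      inv_mem' := by
        rintro x ⟨hx, hx1⟩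
        exact ⟨A.inv_mem hx, by rw [inv_pow, hx1, inv_one]⟩ }
  have hW : ∀ x, x ∈ W ↔ x ∈ A ∧ x ^ p = 1 := fun x => Iff.rfl
  have hWcard : Nat.card W = p ^ k := by
    rw [← hk]
    apply Nat.card_congr
    exact { toFun := fun x => ⟨⟨x.1, x.2.1⟩, Subtype.ext x.2.2⟩
            invFun := fun x => ⟨x.1.1, x.1.2, congrArg Subtype.val x.2⟩
            left_inv := fun x => rfl
            right_inv := fun x => rfl }
  rcases Nat.eq_zero_or_pos k with hk0 | hk0
  · subst hk0
    have : A = ⊥ := by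
      by_contra hne
      obtain ⟨n, hn⟩ := (IsPGroup.iff_card).mp hA
      have hn0 : n ≠ 0 := by
        rintro rfl
        rw [pow_zero] at hn
        exact hne (Subgroup.card_eq_one.mp hn)
      obtain ⟨x, hx⟩ := exists_prime_orderOf_dvd_card' p (show p ∣ Nat.card A by rw [hn]; exact dvd_pow_self p hn0)
      have hxW : (x : Perm Ω) ∈ W := ⟨x.2, by
        have := pow_orderOf_eq_one x
        rw [hx] at this
        exact congrArg Subtype.val this⟩
      rw [pow_zero, Subgroup.card_eq_one] at hWcard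
      rw [hWcard, Subgroup.mem_bot] at hxW
      have : x = 1 := Subtype.ext hxW
      rw [this, orderOf_one] at hx
      exact hp.one_lt.ne hx
    rw [this, Subgroup.card_bot]; simp
  -- x ≠ 1
  obtain ⟨x, hxW, hx1⟩ : ∃ x ∈ W, x ≠ 1 := by
    by_contra hcon
    push Not at hcon
    have : W = ⊥ := (Subgroup.eq_bot_iff_forall W).mpr hcon
    rw [this, Subgroup.card_bot] at hWcard
    exact (Nat.one_lt_pow hk0.ne' hp.one_lt).ne hWcard
  obtain ⟨ω, hω⟩ : ∃ ω, x ω ≠ ω := by
    by_contra hcon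
    push Not at hcon
    exact hx1 (Equiv.ext hcon)
  let A' : Subgroup (Perm Ω) := A ⊓ MulAction.stabilizer (Perm Ω) ω
  have hA' : ∀ σ, σ ∈ A' ↔ σ ∈ A ∧ σ ω = ω := fun σ => by
    rw [Subgroup.mem_inf, MulAction.mem_stabilizer_iff]; rfl
  let O : Finset Ω := (Set.toFinite (MulAction.orbit A ω)).toFinset
  have hO : ∀ z, z ∈ O ↔ ∃ σ ∈ A, σ ω = z := by
    intro z
    rw [Set.Finite.mem_toFinset, MulAction.mem_orbit_iff]
    constructor
    · rintro ⟨σ, h⟩; exact ⟨σ, σ.2, h⟩
    · rintro ⟨σ, hσ, h⟩; exact ⟨⟨σ, hσ⟩, h⟩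
  have hOΔ : O ⊆ Δ := by
    intro z hz
    obtain ⟨σ, hσ, rfl⟩ := (hO z).mp hz
    by_contra hcon
    have h1 := hsupp x hxW.1 _ hcon
    have h2 : x (σ ω) = σ (x ω) := by
      have := hab x hxW.1 σ hσ
      exact congrArg (fun τ : Perm Ω => τ ω) this
    rw [h2] at h1
    exact hω (σ.injective h1)
  have hOcard : O.card = Nat.card (MulAction.orbit A ω) := by
    rw [← Set.ncard_eq_toFinset_card]; rfl
  have hidx : Nat.card A = O.card * Nat.card A' := by
    have h1 := Subgroup.index_mul_card (MulAction.stabilizer A ω)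
    rw [MulAction.index_stabilizer] at h1
    rw [← h1, hOcard]
    congr 1
    apply Nat.card_congr
    exact { toFun := fun y => ⟨y.1.1, ⟨y.1.2, y.2⟩⟩
            invFun := fun y => ⟨⟨y.1, y.2.1⟩, y.2.2⟩
            left_inv := fun y => rfl
            right_inv := fun y => rfl }
  -- W' = elements of A' with p-th power 1
  let W' : Subgroup (Perm Ω) := W ⊓ MulAction.stabilizer (Perm Ω) ω
  obtain ⟨k', hk'⟩ : ∃ k', Nat.card W' = p ^ k' := by
    have h1 : IsPGroup p W := by
      rw [IsPGroup.iff_card]; exact ⟨k, hWcard⟩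
    have h2 : IsPGroup p W' := h1.to_le inf_le_left
    exact (IsPGroup.iff_card).mp h2
  have hkk : k' < k := by
    have h1 : W' ≠ W := by
      intro h
      have : x ∈ W' := by rw [h]; exact hxW
      exact hω this.2
    have h2 : Nat.card W' < Nat.card W := by
      apply lt_of_le_of_ne (Subgroup.card_le_of_le inf_le_left)
      intro h
      exact h1 (Subgroup.eq_of_le_of_card_ge inf_le_left h.ge)
    rw [hk', hWcard] at h2
    exact (Nat.pow_lt_pow_iff_right hp.one_lt).mp h2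
  have hW'card : Nat.card {x : A' // x ^ p = 1} = p ^ k' := by
    rw [← hk']
    apply Nat.card_congr
    exact { toFun := fun y => ⟨y.1.1, ⟨⟨y.1.2.1, congrArg Subtype.val y.2⟩, y.1.2.2⟩⟩
            invFun := fun y => ⟨⟨y.1, ⟨y.2.1.1, y.2.2⟩⟩, Subtype.ext y.2.1.2⟩
            left_inv := fun y => rfl
            right_inv := fun y => rfl }
  have hm : p ^ (k - k') ≤ O.card := by
    have h1 := Subgroup.index_mul_card (MulAction.stabilizer W ω)
    rw [MulAction.index_stabilizer, hWcard] at h1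
    have h2 : Nat.card (MulAction.stabilizer W ω) = p ^ k' := by
      rw [← hk']
      apply Nat.card_congr
      exact { toFun := fun y => ⟨y.1.1, ⟨y.1.2, y.2⟩⟩
              invFun := fun y => ⟨⟨y.1, y.2.1⟩, y.2.2⟩
              left_inv := fun y => rfl
              right_inv := fun y => rfl }
    rw [h2] at h1
    have h3 : (MulAction.orbit W ω).ncard = p ^ (k - k') := by
      apply Nat.eq_of_mul_eq_mul_right (pow_pos hp.pos k')
      rw [h1, ← pow_add, Nat.sub_add_cancel hkk.le]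
    rw [← h3, hOcard]
    apply Set.ncard_le_ncard _ (Set.toFinite _)
    rintro z ⟨σ, rfl⟩
    exact ⟨⟨σ.1, σ.2.1⟩, rfl⟩
  have hih := ih k' hkk A' (Δ \ O) (hA.to_le inf_le_left) (fun x hx y hy => hab x hx.1 y hy.1) (by
    intro σ hσ z hz
    rw [Finset.mem_sdiff, not_and, not_not] at hz
    by_cases hzΔ : z ∈ Δ
    · obtain ⟨τ, hτ, rfl⟩ := (hO z).mp (hz hzΔ)
      have : σ (τ ω) = τ (σ ω) := by
        have := hab σ hσ.1 τ hτ
        exact congrArg (fun τ : Perm Ω => τ ω) this
      rw [this, ((hA' σ).mp hσ).2]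
    · exact hsupp σ hσ.1 z hzΔ) hW'card
  have h2p : 2 ^ (k - k') ≤ O.card := le_trans (Nat.pow_le_pow_left hp.two_le _) hm
  have hfin := arith (k - k') k' O.card (Δ \ O).card (Nat.card A') (by omega) h2p hih
  rw [Nat.sub_add_cancel hkk.le] at hfin
  have hΔ : O.card + (Δ \ O).card = Δ.card := by
    rw [add_comm]; exact Finset.card_sdiff_add_card_eq_card hOΔ
  rw [hΔ] at hfin
  rw [hidx]; exact hfin



/-- Let p be a prime, Ω a finite set with n ≥ p elements, and A an abelian p-subgroup of the symmetric group on Ω whose elements of order dividing p number p^k (so k is the rank of A). Then |A| · k^k ≤ n^k, that is, |A| ≤ (n/k)^k. -/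
theorem result {Ω : Type*} [Fintype Ω] [DecidableEq Ω]
    (p : ℕ) (hp : p.Prime) (hn : p ≤ Fintype.card Ω) (A : Subgroup (Equiv.Perm Ω)) (hA : IsPGroup p A) (hab : IsMulCommutative A)
    (k : ℕ) (hk : Nat.card {x : A // x ^ p = 1} = p ^ k) :
    Nat.card A * k ^ k ≤ Fintype.card Ω ^ k := by
  classical
  have h := main p hp k A Finset.univ hA (fun x hx y hy => congrArg Subtype.val (hab.is_comm.comm ⟨x, hx⟩ ⟨y, hy⟩))
    (fun σ _ z hz => absurd (Finset.mem_univ z) hz) hk
  exact h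

end Cfsg.Agent.S3696
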