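import Cfsg.Statements.S3703
import Cfsg.Agent.LibH14Avg
import Cfsg.Agent.LibCoprime
import Cfsg.Agent.LibFrob6c
import Cfsg.Agent.LibSolvBasic


set_option autoImplicit false
open Cfsg

namespace Cfsg.Agent.S3703


open Subgroup CfsgLib.H14Avg
open scoped Pointwise commutatorElement

theorem le_of_sylows {G : Type*} [Group G] [Finite G] (H E : Subgroup G)
    (h : ∀ (p : ℕ) [Fact p.Prime], p ∣ Nat.card H → ∃ P : Sylow p H, (P : Subgroup H).map H.subtype ≤ E) : H ≤ E := by
  have h1 : (E.subgroupOf H).index = 1 := by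
    by_contra hne
    obtain ⟨p, hp, hpd⟩ := Nat.exists_prime_and_dvd hne
    haveI := Fact.mk hp
    obtain ⟨P, hP⟩ := h p (hpd.trans (Subgroup.index_dvd_card _))
    have h2 : (P : Subgroup H) ≤ E.subgroupOf H := by
      intro x hx
      rw [Subgroup.mem_subgroupOf]
      exact hP ⟨x, hx, rfl⟩
    exact P.not_dvd_index (hpd.trans (Subgroup.index_dvd_of_le h2))
  rw [Subgroup.index_eq_one, Subgroup.subgroupOf_eq_top] at h1
  exact h1

theorem order_of_pow_ne {G : Type*} [Group G] [Finite G] (N : Subgroup G) [N.Normal] (x : G) (m : ℕ)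
    (hx : orderOf (QuotientGroup.mk' N x) = m) (h : x ^ m ≠ 1) :
    ∃ p : ℕ, p.Prime ∧ p ∣ Nat.card N ∧ ∃ g : G, orderOf g = p * m := by
  have h1 : x ^ m ∈ N := by
    rw [← QuotientGroup.eq_one_iff]
    have : (QuotientGroup.mk' N x) ^ m = 1 := by rw [← hx, pow_orderOf_eq_one]
    rw [← map_pow] at this
    exact this
  have hm : m ∣ orderOf x := by rw [← hx]; exact orderOf_map_dvd _ _
  have hox : 0 < orderOf x := orderOf_pos x
  have hm0 : 0 < m := Nat.pos_of_dvd_of_pos hm hox
  have h2 : orderOf (x ^ m) ≠ 1 := fun hh => h (orderOf_eq_one_iff.mp hh)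
  obtain ⟨p, hp, hpd⟩ := Nat.exists_prime_and_dvd h2
  refine ⟨p, hp, ?_, ?_⟩
  · refine hpd.trans ?_
    have : orderOf (⟨x ^ m, h1⟩ : N) = orderOf (x ^ m) := by
      rw [← Subgroup.orderOf_coe]
    rw [← this]
    exact orderOf_dvd_natCard _
  · obtain ⟨c, hc⟩ := hpd
    have h3 : orderOf (x ^ m) = orderOf x / m := by
      rw [orderOf_pow, Nat.gcd_eq_right hm]
    have h4 : orderOf x = p * m * c := by
      rw [h3] at hc
      rw [← Nat.div_mul_cancel hm, hc]; ring
    have hc0 : 0 < c := by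
      rcases Nat.eq_zero_or_pos c with h | h
      · rw [h, mul_zero] at h4; omega
      · exact h
    refine ⟨x ^ c, ?_⟩
    rw [orderOf_pow, h4, Nat.gcd_eq_right (Dvd.intro_left _ rfl), Nat.mul_div_cancel _ hc0]

/-- the key non-abelian norm argument -/
theorem key {G : Type*} [Group G] [Finite G] {p : ℕ} (hp : p.Prime) (R A : Subgroup G) (hR : IsPGroup p R) (hR1 : R ≠ ⊥)
    (hA : (Nat.card A).Coprime p) (hAR : A ≤ normalizer (R : Set G)) (hRA : ⁅R, A⁆ = R) (h : G) (hhR : h ∈ normalizer (R : Set G))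
    (hhA : h ∈ normalizer (A : Set G)) (m : ℕ) (hm : 0 < m) (hfix : ∀ i, 0 < i → i < m → ∀ y ∈ A, h ^ i * y = y * h ^ i → y = 1)
    (hno : ∀ v ∈ R, (v * h) ^ m = 1) : False := by
  haveI := Fact.mk hp
  set F : Subgroup G := normalizer (R : Set G) with hF
  let φ : F →* MulAut R := normalizerMonoidHom R
  have hφ : ∀ (g : F) (v : R), ((φ g v : R) : G) = (g : G) * v * (g : G)⁻¹ := fun g v => rfl
  let ρ : F →* Monoid.End (Abelianization R) :=
    { toFun := fun g => Abelianization.map (φ g).toMonoidHom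
      map_one' := by
        rw [map_one]; exact Abelianization.map_id
      map_mul' := by
        intro a b
        rw [map_mul]
        exact (Abelianization.map_comp (φ b).toMonoidHom (φ a).toMonoidHom).symm }
  have hρ : ∀ (g : F) (v : R), ρ g (Abelianization.of v) = Abelianization.of (φ g v) := fun g v => rfl
  let A' : Subgroup F := A.subgroupOf F
  let h' : F := ⟨h, hhR⟩
  haveI := Fintype.ofFinite A'
  have n1 : ∀ v : Abelianization R, ∏ᶠ y : A', ρ y v = 1 := by
    let nrm : Abelianization R →* Abelianization R :=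
      { toFun := fun w => ∏ y : A', ρ y w
        map_one' := by simp
        map_mul' := by intro a b; rw [← Finset.prod_mul_distrib]; apply Finset.prod_congr rfl; intro y _; rw [map_mul] }
    have hn : ∀ w, nrm w = ∏ᶠ y : A', ρ y w := by
      intro w; rw [finprod_eq_prod_of_fintype]; rfl
    have hK : (nrm.comp Abelianization.of).ker = ⊤ := by
      have : ⁅R, A⁆ ≤ (nrm.comp Abelianization.of).ker.map R.subtype := by
        rw [Subgroup.commutator_le]
        intro r hr a ha
        have ha' : (⟨a, hAR ha⟩ : F) ∈ A' := ha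
        refine ⟨⟨r, hr⟩ * (φ ⟨a, hAR ha⟩ ⟨r, hr⟩)⁻¹, ?_, ?_⟩
        · rw [SetLike.mem_coe, MonoidHom.mem_ker, map_mul, map_inv]
          have e1 : (nrm.comp Abelianization.of) (φ ⟨a, hAR ha⟩ ⟨r, hr⟩) = (nrm.comp Abelianization.of) ⟨r, hr⟩ := by
            show nrm (Abelianization.of (φ ⟨a, hAR ha⟩ ⟨r, hr⟩)) = nrm (Abelianization.of ⟨r, hr⟩)
            rw [← hρ, hn, hn]
            exact norm_comm ρ A' _ _ ha'
          rw [e1, mul_inv_cancel]
        · show r * (a * r * a⁻¹)⁻¹ = ⁅r, a⁆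
          rw [commutatorElement_def]; group
      rw [hRA] at this
      rw [eq_top_iff]
      rintro ⟨x, hx⟩ -
      obtain ⟨y, hy, hyx⟩ := this hx
      have : y = ⟨x, hx⟩ := Subtype.ext hyx
      rwa [← this]
    intro v
    obtain ⟨r, rfl⟩ : ∃ r, Abelianization.of r = v := QuotientGroup.mk_surjective v
    rw [← hn]
    have : r ∈ (nrm.comp Abelianization.of).ker := by rw [hK]; exact mem_top r
    exact this
  have n2 : ∀ v : Abelianization R, ∏ i ∈ Finset.range m, ρ (h' ^ i) v = 1 := by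
    intro v
    obtain ⟨r, rfl⟩ : ∃ r, Abelianization.of r = v := QuotientGroup.mk_surjective v
    have hind : ∀ k : ℕ, ∃ w : R, ((r : G) * h) ^ k = w * h ^ k ∧ Abelianization.of w = ∏ i ∈ Finset.range k, ρ (h' ^ i) (Abelianization.of r) := by
      intro k
      induction k with
      | zero => exact ⟨1, by simp, by simp⟩
      | succ k ih =>
        obtain ⟨w, hw1, hw2⟩ := ih
        refine ⟨w * φ (h' ^ k) r, ?_, ?_⟩
        · rw [pow_succ, hw1, Subgroup.coe_mul, hφ]
          show (w : G) * h ^ k * (r * h) = w * (h ^ k * r * (h ^ k)⁻¹) * h ^ (k + 1)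
          rw [pow_succ]; group
        · rw [map_mul, hw2, Finset.prod_range_succ, ← hρ]
    obtain ⟨w, hw1, hw2⟩ := hind m
    have h0 := hno 1 (one_mem R)
    rw [one_mul] at h0
    rw [hno r r.2, h0, mul_one] at hw1
    have hw : w = 1 := Subtype.ext hw1.symm
    rw [hw, map_one] at hw2
    exact hw2.symm
  have hxQ' : h' ∈ Subgroup.normalizer (A' : Set F) := by
    rw [Subgroup.mem_normalizer_iff]
    intro g
    exact Subgroup.mem_normalizer_iff.mp hhA g
  have hfix' : ∀ i, 0 < i → i < m → ∀ y ∈ A', h' ^ i * y = y * h' ^ i → y = 1 := by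
    intro i hi0 him y hy hc
    exact Subtype.ext (hfix i hi0 him y hy (congrArg Subtype.val hc))
  have hfin := avg ρ A' h' m hm hxQ' hfix' n1 n2
  have hAc : Nat.card A' = Nat.card A := Nat.card_congr (Subgroup.subgroupOfEquivOfLe hAR).toEquiv
  rw [hAc] at hfin
  have hVp : IsPGroup p (Abelianization R) := hR.of_surjective Abelianization.of (QuotientGroup.mk_surjective)
  have htriv : ∀ v : Abelianization R, v = 1 := by
    intro v
    obtain ⟨n, hn⟩ := hVp v
    have h7 : Nat.Coprime (p ^ n) (Nat.card A) := Nat.Coprime.pow_left _ hA.symm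
    have h6 : orderOf v ∣ 1 := by
      rw [← h7]
      exact Nat.dvd_gcd (orderOf_dvd_of_pow_eq_one hn) (orderOf_dvd_of_pow_eq_one (hfin v))
    exact orderOf_eq_one_iff.mp (Nat.dvd_one.mp h6)
  haveI : Nontrivial R := (Subgroup.nontrivial_iff_ne_bot R).mpr hR1
  haveI : Group.IsNilpotent R := hR.isNilpotent
  have hlt := Group.IsSolvable.commutator_lt_top_of_nontrivial R
  apply hlt.ne
  rw [eq_top_iff]
  intro r _
  have := htriv (Abelianization.of r)
  rw [← MonoidHom.mem_ker, Abelianization.ker_of] at this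
  exact this



/-- Let N be a normal subgroup of the finite group G such that G/N is a Frobenius group with kernel F and cyclic complement H, where the order of F is coprime to that of N and F is not contained in the image of C_G(N) in G/N. Then G has an element of order p·#H for some prime p dividing the order of N. (A standard tool in recognising groups by their element orders.) -/
theorem result {G : Type*} [Group G] [Finite G] (N : Subgroup G) [N.Normal]
    (Fb Hb : Subgroup (G ⧸ N)) [Fb.Normal] (hHb : Cfsg.IsFrobeniusComplement Hb) (hker : Cfsg.frobeniusKernel Hb = (Fb : Set (G ⧸ N)))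
    (hcyc : IsCyclic Hb) (hcop : (Nat.card Fb).Coprime (Nat.card N))
    (hnot : ¬ Fb ≤ (Subgroup.centralizer (N : Set G)).map (QuotientGroup.mk' N)) :
    ∃ p : ℕ, p.Prime ∧ p ∣ Nat.card N ∧ ∃ g : G, orderOf g = p * Nat.card Hb := by
  classical
  set π := QuotientGroup.mk' N with hπ
  set F : Subgroup G := Fb.comap π with hF
  have hNF : N ≤ F := by
    intro x hx
    rw [hF, Subgroup.mem_comap, (show π x = 1 from (QuotientGroup.eq_one_iff x).mpr hx)]
    exact one_mem _
  have hFmap : F.map π = Fb := by rw [hF, Subgroup.map_comap_eq_self_of_surjective (QuotientGroup.mk'_surjective N)]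
  haveI hFn : F.Normal := by rw [hF]; infer_instance
  -- step 1
  obtain ⟨q, hq, Q, hqN, hQ⟩ : ∃ (q : ℕ) (_ : Fact q.Prime) (Q : Sylow q F), ¬ q ∣ Nat.card N ∧ ¬ (Q : Subgroup F).map F.subtype ≤ centralizer (N : Set G) := by
    by_contra hcon
    push Not at hcon
    have h1 : F ≤ centralizer (N : Set G) ⊔ N := by
      apply le_of_sylows
      intro q hq hqF
      obtain ⟨Q⟩ : Nonempty (Sylow q F) := inferInstance
      refine ⟨Q, ?_⟩
      by_cases h : q ∣ Nat.card N
      · -- Q ≤ N
        have hcF : ¬ q ∣ Nat.card Fb := by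
          intro h'
          have := Nat.dvd_gcd h' h
          rw [hcop] at this
          exact hq.out.one_lt.ne' (Nat.dvd_one.mp this)
        refine le_trans ?_ le_sup_right
        have h2 : (((Q : Subgroup F).map F.subtype).map π) = ⊥ := by
          have hp1 : IsPGroup q (((Q : Subgroup F).map F.subtype).map π) := (Q.2.map _).map _
          obtain ⟨n, hn⟩ := (IsPGroup.iff_card).mp hp1
          have h3 : ((Q : Subgroup F).map F.subtype).map π ≤ Fb := by
            rw [← hFmap]; exact Subgroup.map_mono (map_subtype_le _)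
          have h4 := Subgroup.card_dvd_of_le h3
          rw [hn] at h4
          rcases Nat.eq_zero_or_pos n with h0 | h0
          · rw [h0, pow_zero] at hn
            exact Subgroup.card_eq_one.mp hn
          · exact absurd ((dvd_pow_self q h0.ne').trans h4) hcF
        rw [Subgroup.map_eq_bot_iff, hπ, QuotientGroup.ker_mk'] at h2
        exact h2
      · exact (hcon q hq Q h).trans le_sup_left
    apply hnot
    rw [← hFmap]
    refine (Subgroup.map_mono h1).trans ?_
    rw [Subgroup.map_sup, hπ, QuotientGroup.map_mk'_self, sup_bot_eq]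
  set A : Subgroup G := (Q : Subgroup F).map F.subtype with hA
  have hAp : IsPGroup q A := Q.2.map _
  have hAF : A ≤ F := map_subtype_le _
  have hAcop : (Nat.card A).Coprime (Nat.card N) := by
    obtain ⟨n, hn⟩ := (IsPGroup.iff_card).mp hAp
    rw [hn]
    exact Nat.Coprime.pow_left _ ((Nat.Prime.coprime_iff_not_dvd hq.out).mpr hqN)
  have hAN : A ≤ normalizer (N : Set G) := by
    rw [Subgroup.normalizer_eq_top]; exact le_top
  haveI : Group.IsNilpotent A := hAp.isNilpotent
  have hAs : Group.IsSolvable A := inferInstance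
  -- step 2
  obtain ⟨p, hp, R, hR, hRA⟩ : ∃ (p : ℕ) (_ : Fact p.Prime) (R : Sylow p N), A ≤ normalizer ((R : Subgroup N).map N.subtype : Set G) ∧
      ¬ (R : Subgroup N).map N.subtype ≤ centralizer (A : Set G) := by
    by_contra hcon
    push Not at hcon
    apply hQ
    rw [Subgroup.le_centralizer_iff]
    apply le_of_sylows
    intro p hp _
    obtain ⟨P, hP⟩ := CfsgLib.Coprime.exists_invariant_sylow hAN hAcop (Or.inl hAs) p
    exact ⟨P, hcon p hp P hP⟩
  set R' : Subgroup G := (R : Subgroup N).map N.subtype with hR'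
  have hR'N : R' ≤ N := map_subtype_le _
  have hR'p : IsPGroup p R' := R.2.map _
  set M : Subgroup G := normalizer (R' : Set G) with hM
  have hMN : M ⊔ N = ⊤ := R.normalizer_sup_eq_top
  -- generator
  obtain ⟨g0, hg0⟩ := hcyc.exists_generator
  set t : G ⧸ N := (g0 : G ⧸ N) with ht
  have hot : orderOf t = Nat.card Hb := by
    rw [ht, Subgroup.orderOf_coe]
    exact orderOf_eq_card_of_forall_mem_zpowers hg0
  obtain ⟨a0, ha0⟩ := QuotientGroup.mk'_surjective N t
  obtain ⟨m, hm, n, hn, hmn⟩ : ∃ m ∈ M, ∃ n ∈ N, m * n = a0 := by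
    have : a0 ∈ M ⊔ N := by rw [hMN]; exact mem_top a0
    exact Subgroup.mem_sup_of_normal_right.mp this
  have hπm : π m = t := by
    rw [← ha0, ← hmn, map_mul, (show π n = 1 from (QuotientGroup.eq_one_iff n).mpr hn), mul_one]
  -- step 3
  have hAX : A ≤ F ⊓ M := le_inf hAF hR
  have hmax : ∀ B : Subgroup G, IsPGroup q B → B ≤ F → A ≤ B → B = A := by
    intro B hB hBF hAB
    have h1 : (Q : Subgroup F) ≤ B.subgroupOf F := by
      intro x hx
      exact hAB ⟨x, hx, rfl⟩
    have h2 : IsPGroup q (B.subgroupOf F) := hB.comap_of_injective _ F.subtype_injective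
    have h3 := Q.3 h2 h1
    apply le_antisymm _ hAB
    intro b hb
    exact ⟨⟨b, hBF hb⟩, h3 ▸ (show (⟨b, hBF hb⟩ : F) ∈ B.subgroupOf F from hb), rfl⟩
  obtain ⟨P1, hP1⟩ : ∃ P1 : Sylow q (F ⊓ M : Subgroup G), (P1 : Subgroup (F ⊓ M : Subgroup G)).map (F ⊓ M).subtype = A := by
    have h1 : IsPGroup q (A.subgroupOf (F ⊓ M)) := hAp.comap_of_injective _ (F ⊓ M).subtype_injective
    obtain ⟨P1, hP1⟩ := h1.exists_le_sylow
    refine ⟨P1, hmax _ (P1.2.map _) ((map_subtype_le _).trans inf_le_left) ?_⟩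
    intro a ha
    exact ⟨⟨a, hAX ha⟩, hP1 ha, rfl⟩
  obtain ⟨k, hk, hkA⟩ : ∃ k ∈ F ⊓ M, MulAut.conj k • (MulAut.conj m • A) = A := by
    have h1 : MulAut.conj m • A ≤ F ⊓ M := by
      intro x hx
      rw [Subgroup.mem_pointwise_smul_iff_inv_smul_mem, ← map_inv, MulAut.smul_def, MulAut.conj_apply, inv_inv] at hx
      have h2 := hAX hx
      constructor
      · have := hFn.conj_mem _ h2.1 m
        have e : m * (m⁻¹ * x * m) * m⁻¹ = x := by group
        rwa [e] at this
      · have := M.mul_mem (M.mul_mem hm h2.2) (M.inv_mem hm)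
        have e : m * (m⁻¹ * x * m) * m⁻¹ = x := by group
        rwa [e] at this
    obtain ⟨Q1, hQ1⟩ := CfsgLib.Coprime.exists_sylow_of_card h1 P1 (by
      rw [← Subgroup.card_map_of_injective (F ⊓ M).subtype_injective, hP1]
      exact (Nat.card_congr (Subgroup.equivSMul (MulAut.conj m) A).toEquiv).symm)
    obtain ⟨k, hk, hk2⟩ := CfsgLib.Coprime.sylow_map_conj Q1 P1
    exact ⟨k, hk, by rw [← hQ1, hk2, hP1]⟩
  set h : G := k * m with hh
  have hhA : h ∈ normalizer (A : Set G) := by
    rw [← mul_smul, ← map_mul] at hkA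
    rw [CfsgLib.SolvBasic.mem_normalizer_iff_conj_smul]
    exact hkA
  have hhM : h ∈ M := M.mul_mem hk.2 hm
  -- conjugate
  have hMal : CfsgLib.Frob6.Mal Hb := CfsgLib.Frob6.mal_iff.mpr hHb.2.2
  have hFH : Fb ⊓ Hb = ⊥ := by
    rw [Subgroup.eq_bot_iff_forall]
    rintro x ⟨hx1, hx2⟩
    have : x ∈ Cfsg.frobeniusKernel Hb := by rw [hker]; exact hx1
    rcases this with h | h
    · exact h
    · exfalso; apply h 1
      rw [map_one, one_smul]; exact hx2
  have hfpf : ∀ i, 0 < i → i < Nat.card Hb → ∀ f ∈ Fb, t ^ i * f = f * t ^ i → f = 1 := by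
    intro i hi0 him f hf hc
    apply CfsgLib.Frob6.fpf_on_kernel hMal hFH (h := t ^ i) (Hb.pow_mem g0.2 i) ?_ hf hc
    intro h1
    have := Nat.le_of_dvd hi0 (orderOf_dvd_of_pow_eq_one h1)
    omega
  obtain ⟨y, hyF, hy⟩ : ∃ y ∈ Fb, π h = y * t * y⁻¹ := by
    have hmem : ∀ y : Fb, (y : G ⧸ N) * t * (y : G ⧸ N)⁻¹ * t⁻¹ ∈ Fb := by
      intro y
      have := Fb.mul_mem y.2 (‹Fb.Normal›.conj_mem _ (Fb.inv_mem y.2) t)
      simpa [mul_assoc] using this
    let φ : Fb → Fb := fun y => ⟨_, hmem y⟩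
    have hφ : Function.Injective φ := by
      intro y y' hyy
      have e1 : (y : G ⧸ N) * t * (y : G ⧸ N)⁻¹ * t⁻¹ = (y' : G ⧸ N) * t * (y' : G ⧸ N)⁻¹ * t⁻¹ := congrArg Subtype.val hyy
      have e2 : (y : G ⧸ N) * t * (y : G ⧸ N)⁻¹ = (y' : G ⧸ N) * t * (y' : G ⧸ N)⁻¹ := mul_right_cancel e1
      set n : G ⧸ N := (y' : G ⧸ N)⁻¹ * y with hn'
      have hnQ : n ∈ Fb := Fb.mul_mem (Fb.inv_mem y'.2) y.2
      have e3 : t * n = n * t := by
        have : n * t * n⁻¹ = t := by
          calc n * t * n⁻¹ = (y' : G ⧸ N)⁻¹ * ((y : G ⧸ N) * t * (y : G ⧸ N)⁻¹) * y' := by rw [hn']; group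
            _ = (y' : G ⧸ N)⁻¹ * ((y' : G ⧸ N) * t * (y' : G ⧸ N)⁻¹) * y' := by rw [e2]
            _ = t := by group
        exact (mul_inv_eq_iff_eq_mul.mp this).symm
      have h3 : n = 1 := by
        apply CfsgLib.Frob6.fpf_on_kernel hMal hFH (h := t) g0.2 ?_ hnQ e3
        intro h1
        apply hHb.1
        rw [Subgroup.eq_bot_iff_card, ← hot, h1, orderOf_one]
      rw [hn', inv_mul_eq_one] at h3
      exact Subtype.ext h3.symm
    obtain ⟨y, hy⟩ := (Finite.injective_iff_surjective.mp hφ) ⟨π k, hk.1⟩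
    refine ⟨y, y.2, ?_⟩
    have e1 : (y : G ⧸ N) * t * (y : G ⧸ N)⁻¹ * t⁻¹ = π k := congrArg Subtype.val hy
    rw [hh, map_mul, hπm, ← e1]; group
  have hoh : orderOf (π h) = Nat.card Hb := by
    rw [hy, ← hot]
    exact (MulAut.conj y).orderOf_eq t
  by_contra hno
  push Not at hno
  have hall : ∀ x : G, π x = π h → x ^ Nat.card Hb = 1 := by
    intro x hx
    by_contra hne
    obtain ⟨p, hp, hpN, g, hg⟩ := order_of_pow_ne N x (Nat.card Hb) (by rw [← hoh]; exact congrArg orderOf hx) hne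
    exact hno p hp hpN g hg
  -- R0
  have hAR : A ≤ normalizer (R' : Set G) := hR
  have hARcop : (Nat.card A).Coprime (Nat.card R') := hAcop.coprime_dvd_right (Subgroup.card_dvd_of_le hR'N)
  set R0 : Subgroup G := ⁅R', A⁆ with hR0
  have hR0R : R0 ≤ R' := CfsgLib.Coprime.commutator_le_of_le_normalizer hAR
  refine key (p := p) hp.out R0 A (hR'p.to_le hR0R) ?_ ?_ (Subgroup.normalizer_commutator_ge_right _ _) 
    (CfsgLib.Coprime.commutator_commutator_eq hAR hARcop (Or.inl hAs)) h ?_ hhA (Nat.card Hb) Nat.card_pos ?_ ?_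
  · intro h0
    rw [hR0, Subgroup.commutator_eq_bot_iff_le_centralizer] at h0
    exact hRA h0
  · obtain ⟨n, hn⟩ := (IsPGroup.iff_card).mp hAp
    rw [hn]
    apply Nat.Coprime.pow_left
    rw [Nat.coprime_primes hq.out hp.out]
    rintro rfl
    apply hqN
    have hRne : R' ≠ ⊥ := by
      intro h0; apply hRA; rw [h0]; exact bot_le
    obtain ⟨j, hj⟩ := (IsPGroup.iff_card).mp hR'p
    rcases Nat.eq_zero_or_pos j with h0 | h0
    · rw [h0, pow_zero] at hj
      exact absurd (Subgroup.card_eq_one.mp hj) hRne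
    · exact (dvd_pow_self q h0.ne').trans (hj ▸ Subgroup.card_dvd_of_le hR'N)
  · -- h normalises R0
    rw [CfsgLib.SolvBasic.mem_normalizer_iff_conj_smul] at hhA hhM ⊢
    rw [CfsgLib.SolvBasic.conj_smul_eq_map] at hhA hhM ⊢
    rw [hR0, Subgroup.map_commutator, hhA, hhM]
  · intro i hi0 him a ha hc
    have h1 : (π h) ^ i = y * t ^ i * y⁻¹ := by rw [hy, conj_pow]
    have h2 : (π h) ^ i * π a = π a * (π h) ^ i := by
      rw [← map_pow, ← map_mul, hc, map_mul]
    have h3 : π a ∈ Fb := hAF ha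
    have h4 : y⁻¹ * π a * y = 1 := by
      apply hfpf i hi0 him
      · exact Fb.mul_mem (Fb.mul_mem (Fb.inv_mem hyF) h3) hyF
      · rw [h1] at h2
        calc t ^ i * (y⁻¹ * π a * y) = y⁻¹ * (y * t ^ i * y⁻¹ * π a) * y := by group
          _ = y⁻¹ * (π a * (y * t ^ i * y⁻¹)) * y := by rw [h2]
          _ = y⁻¹ * π a * y * t ^ i := by group
    have h5 : π a = 1 := by
      have : π a = y * (y⁻¹ * π a * y) * y⁻¹ := by group
      rw [this, h4]; group
    have h6 : a ∈ N := (QuotientGroup.eq_one_iff a).mp h5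
    have h7 : a ∈ A ⊓ N := ⟨ha, h6⟩
    rw [Subgroup.inf_eq_bot_of_coprime hAcop, Subgroup.mem_bot] at h7
    exact h7
  · intro v hv
    apply hall
    rw [map_mul, (show π v = 1 from (QuotientGroup.eq_one_iff v).mpr (hR'N (hR0R hv))), one_mul]

end Cfsg.Agent.S3703
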