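import Cfsg.Agent.LibSolvNilp
import Cfsg.Agent.LibDihedral
import Cfsg.Agent.LibPCyc
import Cfsg.Agent.LibCycNorm
import Mathlib
-- Template for statement S3761 (row 3761; see /opt/grader/pristine/manifest.json for weights).
-- Copy to Cfsg/Agent/S3761.lean and replace the sorry. The statement below is byte-identical to the frozen
-- statement Cfsg.CfsgFrozen.S3761 (Cfsg/Statements/S3761.lean; the theorem Cfsg.fg_pgroup_with_selfcentralizing_cyclic_normal_subgroup);
-- the grader kernel-checks Cfsg.Agent.S3761.result against that frozen type. Keep the theorem IN THIS FILE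
-- (a `result` declared elsewhere and merely imported here is not credited); helpers may live anywhere
-- under Cfsg/Agent/.
import Cfsg.Statements.S3761
-- import your own Cfsg.Agent.* helpers here

set_option autoImplicit false
open Cfsg

namespace Cfsg.Agent.S3761

theorem exB {P : Type*} [Group P] [Finite P] (p : ℕ) [Fact p.Prime]
    (hP : IsPGroup p P) (hn : ∀ A : Subgroup P, A.Normal → IsMulCommutative A → IsCyclic A)
    (hnc : ¬ IsCyclic P) :
    p = 2 ∧ ((∃ n : ℕ, Nonempty (P ≃* QuaternionGroup n)) ∨ (∃ n : ℕ, 8 ≤ n ∧ Nonempty (P ≃* DihedralGroup n)) ∨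
      Cfsg.IsQuasiDihedral P) := by
  have hp : Fact p.Prime := inferInstance
  have hp2 : p = 2 := by
    by_contra hp2
    obtain ⟨A, hAn, hAc, hAe, hAcard⟩ := CfsgLib.PCyc.exists_normal_elem hp.out hp2 hP hnc
    have h1 := hn A hAn hAc
    have h2 : Monoid.exponent A ∣ p := Monoid.exponent_dvd_of_forall_pow_eq_one (fun a => Subtype.ext (hAe a a.2))
    rw [IsCyclic.exponent_eq_card, hAcard] at h2
    have h3 := Nat.le_of_dvd hp.out.pos h2
    have h4 := hp.out.two_le
    nlinarith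
  subst hp2
  refine ⟨rfl, ?_⟩
  rcases CfsgLib.CycNorm.structure_thm hP hn with h | ⟨n, a, b, hn2, ha, hb, hidx, h⟩
  · exact absurd h hnc
  have htop : Subgroup.closure ({a, b} : Set P) = ⊤ := by
    rw [eq_top_iff]
    intro g _
    have haC : a ∈ Subgroup.closure ({a, b} : Set P) := Subgroup.subset_closure (by simp)
    have hbC : b ∈ Subgroup.closure ({a, b} : Set P) := Subgroup.subset_closure (by simp)
    by_cases hg : g ∈ Subgroup.zpowers a
    · exact (Subgroup.zpowers_le.mpr haC) hg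
    · have h1 := mul_mem ((Subgroup.zpowers_le.mpr haC) (hidx g hg)) hbC
      rwa [inv_mul_cancel_right] at h1
  have hcard : Nat.card P = 2 ^ (n + 1) := by
    have h1 : (Subgroup.zpowers a).index = 2 := by
      rw [Subgroup.index_eq_two_iff]
      refine ⟨b⁻¹, fun g => ?_⟩
      by_cases hg : g ∈ Subgroup.zpowers a
      · right
        refine ⟨hg, fun h' => hb ?_⟩
        have h2 := (Subgroup.mul_mem_cancel_left _ hg).mp h'
        rwa [inv_mem_iff] at h2
      · left; exact ⟨hidx g hg, hg⟩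
    rw [← Subgroup.card_mul_index (Subgroup.zpowers a), h1, Nat.card_zpowers, ha, pow_succ]
  rcases h with ⟨h1, h2⟩ | ⟨h1, h2, h3⟩ | ⟨h1, h2, h3⟩
  · left
    refine ⟨2 ^ (n - 1), CfsgLib.Dihedral.nonempty_equiv_quaternion_top (a := a) (b := b) ?_ h1 h2 hb htop⟩
    rw [ha, ← pow_succ']; congr 1; omega
  · right; left
    refine ⟨2 ^ n, ?_, CfsgLib.Dihedral.nonempty_equiv_dihedral_top (a := a) (b := b) ha h2 h3 hb htop⟩
    calc 8 = 2 ^ 3 := by norm_num
      _ ≤ 2 ^ n := Nat.pow_le_pow_right (by norm_num) h1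
  · right; right
    refine ⟨n, h1, hcard, a, b, ha, ?_, h3⟩
    exact orderOf_eq_prime (by rw [pow_two, h2]) (by rintro rfl; exact hb (one_mem _))


theorem pick {G : Type*} [Group G] [Finite G] (p : ℕ) [hp : Fact p.Prime] (hG : IsPGroup p G) (B : Subgroup G) (hB : B.Normal)
    (hBc : IsMulCommutative B) (hBn : ¬ IsCyclic B) :
    ∃ z a : G, z ∈ Subgroup.center G ∧ z ^ p = 1 ∧ z ≠ 1 ∧ a ^ p = 1 ∧ a ∉ Subgroup.zpowers z ∧
      ∀ g : G, g * a * g⁻¹ * a⁻¹ ∈ Subgroup.zpowers z := by
  obtain ⟨C, hCB, hCc, hCe⟩ := CfsgLib.PCyc.exists_elem_of_not_isCyclic hp.out B (hG.to_subgroup B) hBc hBn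
  have hcomm : ∀ x ∈ B, ∀ y ∈ B, x * y = y * x := fun x hx y hy =>
    congrArg Subtype.val (hBc.is_comm.comm (⟨x, hx⟩ : B) ⟨y, hy⟩)
  let E : Subgroup G :=
    { carrier := {x | x ∈ B ∧ x ^ p = 1}
      mul_mem' := by
        rintro x y ⟨hx, hx1⟩ ⟨hy, hy1⟩
        refine ⟨mul_mem hx hy, ?_⟩
        rw [(show Commute x y from hcomm x hx y hy).mul_pow, hx1, hy1, one_mul]
      one_mem' := ⟨one_mem _, one_pow _⟩
      inv_mem' := by
        rintro x ⟨hx, hx1⟩
        exact ⟨inv_mem hx, by rw [inv_pow, hx1, inv_one]⟩ }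
  have hCE : C ≤ E := fun x hx => ⟨hCB hx, hCe x hx⟩
  haveI hEn : E.Normal := by
    refine ⟨?_⟩
    rintro x ⟨hx, hx1⟩ g
    exact ⟨hB.conj_mem x hx g, by rw [conj_pow, hx1]; group⟩
  have hEne : E ≠ ⊥ := by
    intro h
    rw [h, le_bot_iff] at hCE
    rw [hCE, Subgroup.card_bot] at hCc
    have := Nat.one_lt_pow (n := 2) (by norm_num) hp.out.one_lt
    omega
  haveI := hG.isNilpotent
  obtain ⟨z, hz⟩ := Subgroup.ne_bot_iff_exists_ne_one.mp (CfsgLib.SolvNilp.inf_center_ne_bot E hEne)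
  have hzc : (z : G) ∈ Subgroup.center G := z.2.2
  have hzp : (z : G) ^ p = 1 := z.2.1.2
  have hz1 : (z : G) ≠ 1 := fun h => hz (Subtype.ext h)
  haveI hzn : (Subgroup.zpowers (z : G)).Normal := by
    refine ⟨?_⟩
    intro x hx g
    have hxc : x ∈ Subgroup.center G := (Subgroup.zpowers_le.mpr hzc) hx
    have := Subgroup.mem_center_iff.mp hxc g
    rw [this, mul_assoc, mul_inv_cancel, mul_one]
    exact hx
  have hE2 : E.map (QuotientGroup.mk' (Subgroup.zpowers (z : G))) ≠ ⊥ := by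
    intro h
    rw [Subgroup.map_eq_bot_iff, QuotientGroup.ker_mk'] at h
    have h1 := Subgroup.card_le_of_le (hCE.trans h)
    rw [hCc, Nat.card_zpowers, orderOf_eq_prime hzp hz1] at h1
    have h2 := hp.out.two_le
    nlinarith
  haveI : (E.map (QuotientGroup.mk' (Subgroup.zpowers (z : G)))).Normal :=
    hEn.map _ (QuotientGroup.mk'_surjective _)
  haveI : Group.IsNilpotent (G ⧸ Subgroup.zpowers (z : G)) := (hG.to_quotient _).isNilpotent
  obtain ⟨y, hy⟩ := Subgroup.ne_bot_iff_exists_ne_one.mp (CfsgLib.SolvNilp.inf_center_ne_bot _ hE2)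
  obtain ⟨a, haE, hay⟩ := y.2.1
  refine ⟨z, a, hzc, hzp, hz1, haE.2, ?_, ?_⟩
  · intro h
    apply hy
    apply Subtype.ext
    rw [← hay]
    exact (QuotientGroup.eq_one_iff a).mpr h
  · intro g
    have h1 := Subgroup.mem_center_iff.mp y.2.2 (QuotientGroup.mk' _ g)
    rw [← hay] at h1
    rw [← QuotientGroup.eq_one_iff]
    change (QuotientGroup.mk' (Subgroup.zpowers (z : G))) (g * a * g⁻¹ * a⁻¹) = 1
    rw [map_mul, map_mul, map_mul, h1, map_inv, map_inv]
    group


theorem uniq {T : Type*} [Group T] [Finite T] {p : ℕ} [hp : Fact p.Prime] (hT : IsCyclic T) {x y : T} (hx : x ^ p = 1)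
    (hx1 : x ≠ 1) (hy : y ^ p = 1) : y ∈ Subgroup.zpowers x := by
  have hxo : orderOf x = p := orderOf_eq_prime hx hx1
  classical
  haveI : Fintype T := Fintype.ofFinite T
  have h1 : (Finset.univ.filter (fun a : T => a ^ p = 1)).card ≤ p := IsCyclic.card_pow_eq_one_le hp.out.pos
  have h2 : Finset.univ.filter (fun a : T => a ∈ Subgroup.zpowers x) ⊆ Finset.univ.filter (fun a : T => a ^ p = 1) := by
    intro a ha
    rw [Finset.mem_filter] at ha ⊢
    refine ⟨ha.1, ?_⟩
    obtain ⟨k, rfl⟩ := ha.2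
    simp only
    rw [← zpow_natCast, ← zpow_mul, mul_comm, zpow_mul, zpow_natCast, hx, one_zpow]
  have h3 : (Finset.univ.filter (fun a : T => a ∈ Subgroup.zpowers x)).card = p := by
    rw [← hxo, ← Nat.card_zpowers, Nat.card_eq_fintype_card, Fintype.card_subtype]
  have h4 := Finset.eq_of_subset_of_card_le h2 (by rw [h3]; exact h1)
  have h5 : y ∈ Finset.univ.filter (fun a : T => a ^ p = 1) := by simp [hy]
  rw [← h4, Finset.mem_filter] at h5
  exact h5.2

theorem cls_pow {G : Type*} [Group G] {v b d : G} (hd : ∀ g : G, g * d = d * g) (h : b * v = d * (v * b)) (n : ℕ) :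
    (v * b) ^ n = v ^ n * b ^ n * d ^ (n.choose 2) := by
  have hdn : ∀ (k : ℕ) (g : G), g * d ^ k = d ^ k * g := fun k g => (Commute.pow_right (show Commute g d from hd g) k).eq
  have hb : ∀ k : ℕ, b ^ k * v = d ^ k * (v * b ^ k) := by
    intro k
    induction k with
    | zero => simp
    | succ k ih =>
      rw [pow_succ', mul_assoc, ih, ← mul_assoc b, hdn k b, mul_assoc, ← mul_assoc b v, h, pow_succ d]
      simp only [mul_assoc]
  induction n with
  | zero => simp
  | succ n ih =>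
    have hch : (n + 1).choose 2 = n + n.choose 2 := by rw [Nat.choose_succ_succ' n 1, Nat.choose_one_right]
    rw [pow_succ (v * b), ih, hch, pow_add d]
    calc v ^ n * b ^ n * d ^ n.choose 2 * (v * b) = v ^ n * b ^ n * (v * b) * d ^ n.choose 2 := by
          rw [mul_assoc (v ^ n * b ^ n), ← hdn, ← mul_assoc]
      _ = v ^ n * (b ^ n * v) * b * d ^ n.choose 2 := by simp only [mul_assoc]
      _ = v ^ n * (d ^ n * (v * b ^ n)) * b * d ^ n.choose 2 := by rw [hb]
      _ = d ^ n * (v ^ n * v * (b ^ n * b)) * d ^ n.choose 2 := by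
          rw [← mul_assoc (v ^ n) (d ^ n), hdn n (v ^ n)]; simp only [mul_assoc]
      _ = v ^ (n + 1) * b ^ (n + 1) * (d ^ n * d ^ n.choose 2) := by
          rw [← pow_succ, ← pow_succ, ← hdn, mul_assoc]

theorem small {G : Type*} [Group G] [Finite G] (hna : ¬ IsMulCommutative G) (u : G)
    (hUn : (Subgroup.zpowers u).Normal) (hC : ∀ g : G, g * u = u * g → g ∈ Subgroup.zpowers u) (h4 : u ^ 4 = 1) :
    (Subgroup.zpowers u).index = 2 ∧ orderOf u = 4 ∧ ∃ b : G, b ∉ Subgroup.zpowers u ∧ b * u * b⁻¹ = u⁻¹ ∧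
      (b * b = 1 ∨ b * b = u ^ 2) ∧ Subgroup.closure ({u, b} : Set G) = ⊤ := by
  have hcases : ∀ x ∈ Subgroup.zpowers u, x = 1 ∨ x = u ∨ x = u ^ 2 ∨ x = u⁻¹ := by
    rintro _ ⟨k, rfl⟩
    simp only
    have h1 : u ^ k = u ^ (k % 4) := by
      conv_lhs => rw [← Int.emod_add_mul_ediv k 4, zpow_add, zpow_mul]
      rw [show (u ^ (4 : ℤ)) = 1 by rw [show (4 : ℤ) = ((4 : ℕ) : ℤ) by norm_num, zpow_natCast, h4], one_zpow, mul_one]
    have h2 : k % 4 = 0 ∨ k % 4 = 1 ∨ k % 4 = 2 ∨ k % 4 = 3 := by omega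
    rcases h2 with h | h | h | h
    · left; rw [h1, h, zpow_zero]
    · right; left; rw [h1, h, zpow_one]
    · right; right; left; rw [h1, h]; rw [show (2 : ℤ) = ((2 : ℕ) : ℤ) by norm_num, zpow_natCast]
    · right; right; right
      rw [h1, h, eq_inv_iff_mul_eq_one, show (3 : ℤ) = ((3 : ℕ) : ℤ) by norm_num, zpow_natCast, ← pow_succ, h4]
  have hgu : ∀ g, g * u * g⁻¹ ∈ Subgroup.zpowers u := fun g => hUn.conj_mem u (Subgroup.mem_zpowers u) g
  have hncen : ∃ g, g * u ≠ u * g := by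
    by_contra hcon
    push Not at hcon
    apply hna
    refine ⟨⟨fun x y => ?_⟩⟩
    obtain ⟨i, rfl⟩ := hC x (hcon x)
    obtain ⟨j, rfl⟩ := hC y (hcon y)
    exact (Commute.zpow_zpow (Commute.refl u) i j).eq
  have h2 : u ^ 2 ≠ 1 := by
    intro h
    obtain ⟨g, hg⟩ := hncen
    have hui : u⁻¹ = u := by rw [inv_eq_iff_mul_eq_one, ← pow_two, h]
    have hu1 : u ≠ 1 := by rintro rfl; exact hg (by simp)
    rcases hcases _ (hgu g) with h1 | h1 | h1 | h1
    · apply hu1
      have := mul_inv_eq_iff_eq_mul.mp h1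
      rw [one_mul] at this
      exact mul_eq_left.mp this
    · exact hg (mul_inv_eq_iff_eq_mul.mp h1)
    · rw [h] at h1
      apply hu1
      have := mul_inv_eq_iff_eq_mul.mp h1
      rw [one_mul] at this
      exact mul_eq_left.mp this
    · rw [hui] at h1
      exact hg (mul_inv_eq_iff_eq_mul.mp h1)
  have hinv : ∀ g, g ∉ Subgroup.zpowers u → g * u * g⁻¹ = u⁻¹ := by
    intro g hg
    have hk : ∀ x, (g * u * g⁻¹ = x) → x ^ 2 ≠ 1 := by
      intro x hx hx2
      apply h2
      have h3 : (g * u * g⁻¹) ^ 2 = 1 := by rw [hx, hx2]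
      rw [conj_pow] at h3
      have := mul_inv_eq_iff_eq_mul.mp h3
      rw [one_mul] at this
      exact mul_eq_left.mp this
    rcases hcases _ (hgu g) with h1 | h1 | h1 | h1
    · exact absurd (one_pow 2) (hk _ h1)
    · exact absurd (hC g (mul_inv_eq_iff_eq_mul.mp h1)) hg
    · exact absurd (by rw [← pow_mul]; exact h4) (hk _ h1)
    · exact h1
  obtain ⟨b, hb⟩ : ∃ b, b ∉ Subgroup.zpowers u := by
    obtain ⟨g, hg⟩ := hncen
    refine ⟨g, ?_⟩
    rintro ⟨k, rfl⟩
    exact hg ((Commute.zpow_left (Commute.refl u) k).eq)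
  have hidx : ∀ g, g ∉ Subgroup.zpowers u → g * b⁻¹ ∈ Subgroup.zpowers u := by
    intro g hg
    apply hC
    have h1 := hinv g hg
    have h3 := hinv b⁻¹ (fun h => hb (by rwa [inv_mem_iff] at h))
    have h5 : (g * b⁻¹) * u * (g * b⁻¹)⁻¹ = u := by
      calc (g * b⁻¹) * u * (g * b⁻¹)⁻¹ = g * (b⁻¹ * u * b⁻¹⁻¹) * g⁻¹ := by group
        _ = (g * u * g⁻¹)⁻¹ := by rw [h3]; group
        _ = u := by rw [h1, inv_inv]
    exact mul_inv_eq_iff_eq_mul.mp h5
  have ho : orderOf u = 4 := by
    have := orderOf_eq_prime_pow (p := 2) (n := 1) (x := u) (by rw [pow_one]; exact h2) (by norm_num; exact h4)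
    simpa using this
  refine ⟨?_, ho, b, hb, hinv b hb, ?_, ?_⟩
  · rw [Subgroup.index_eq_two_iff]
    refine ⟨b⁻¹, fun g => ?_⟩
    by_cases hg : g ∈ Subgroup.zpowers u
    · right
      refine ⟨hg, fun h' => hb ?_⟩
      have h2 := (Subgroup.mul_mem_cancel_left _ hg).mp h'
      rwa [inv_mem_iff] at h2
    · left; exact ⟨hidx g hg, hg⟩
  · have h1 : b * b ∈ Subgroup.zpowers u := by
      by_contra hcon
      have h5 := hidx _ hcon
      rw [mul_inv_cancel_right] at h5
      exact hb h5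
    have h6 : (b * b) ^ 2 = 1 := by
      obtain ⟨k, hk⟩ := h1
      simp only at hk
      have h7 : b * u ^ k * b⁻¹ = (u ^ k)⁻¹ := by
        rw [← conj_zpow, hinv b hb, inv_zpow]
      rw [hk] at h7
      have h8 : b * (b * b) * b⁻¹ = b * b := by rw [mul_assoc b (b * b), mul_inv_cancel_right]
      rw [h8] at h7
      rw [pow_two]
      exact mul_eq_one_iff_eq_inv.mpr h7
    rcases hcases _ h1 with h | h | h | h
    · left; exact h
    · exfalso; rw [h] at h6; exact h2 h6
    · right; exact h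
    · exfalso; rw [h, inv_pow, inv_eq_one] at h6; exact h2 h6
  · rw [eq_top_iff]
    intro g _
    have haC : u ∈ Subgroup.closure ({u, b} : Set G) := Subgroup.subset_closure (by simp)
    have hbC : b ∈ Subgroup.closure ({u, b} : Set G) := Subgroup.subset_closure (by simp)
    by_cases hg : g ∈ Subgroup.zpowers u
    · exact (Subgroup.zpowers_le.mpr haC) hg
    · have h1 := mul_mem ((Subgroup.zpowers_le.mpr haC) (hidx g hg)) hbC
      rwa [inv_mul_cancel_right] at h1


/-- Let G be a finite non-abelian p-group with a cyclic normal subgroup U of order p^n such that C_G(U) = U. Then either p = 2 and G is dihedral, generalized quaternion or semidihedral of order 2^(n+1); or, writing U₁ for the subgroup generated by the p-th powers of elements of U and M = C_G(U₁), the subgroup U has index p in M and the subgroup Ω₁(M) generated by the elements of M of order dividing p is elementary abelian of order p² and characteristic in G. -/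
theorem result {G : Type*} [Group G] [Finite G] {p : ℕ} [Fact p.Prime] (hG : IsPGroup p G) (hna : ¬ IsMulCommutative G) (U : Subgroup G) [U.Normal] (hU : IsCyclic U) (n : ℕ) (hUn : Nat.card U = p ^ n) (hC : Subgroup.centralizer (U : Set G) = U) : (p = 2 ∧ Nat.card G = 2 ^ (n + 1) ∧ ((∃ m : ℕ, Nonempty (G ≃* DihedralGroup m)) ∨ (∃ m : ℕ, Nonempty (G ≃* QuaternionGroup m)) ∨ Cfsg.IsQuasiDihedral G)) ∨ (U.relIndex (Subgroup.centralizer (Cfsg.powerClosure p 1 U : Set G)) = p ∧ Cfsg.IsElementaryAbelian p (Cfsg.omegaOne p (Subgroup.centralizer (Cfsg.powerClosure p 1 U : Set G))) ∧ Nat.card ↥(Cfsg.omegaOne p (Subgroup.centralizer (Cfsg.powerClosure p 1 U : Set G))) = p ^ 2 ∧ (Cfsg.omegaOne p (Subgroup.centralizer (Cfsg.powerClosure p 1 U : Set G))).Characteristic) := by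
  classical
  have hp : Fact p.Prime := inferInstance
  obtain ⟨⟨u, huU⟩, hgen⟩ := hU.exists_generator
  have hUz : U = Subgroup.zpowers u := by
    apply le_antisymm
    · intro x hx
      obtain ⟨k, hk⟩ := hgen ⟨x, hx⟩
      exact ⟨k, congrArg Subtype.val hk⟩
    · exact Subgroup.zpowers_le.mpr huU
  have hmem : ∀ g : G, g ∈ U ↔ g * u = u * g := by
    intro g
    rw [← hC, Subgroup.mem_centralizer_iff]
    constructor
    · intro h
      exact (h u huU).symm
    · intro h x hx
      rw [SetLike.mem_coe, hUz] at hx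
      obtain ⟨k, rfl⟩ := hx
      exact ((Commute.zpow_right (show Commute g u from h) k).eq).symm
  have hC' : ∀ g : G, g * u = u * g → g ∈ Subgroup.zpowers u := fun g hg => hUz ▸ (hmem g).mpr hg
  have hou : orderOf u = p ^ n := by rw [← Nat.card_zpowers, ← hUz, hUn]
  have hncyc : ¬ IsCyclic G := by
    intro h
    exact hna inferInstance
  haveI hUnn : (Subgroup.zpowers u).Normal := hUz ▸ (inferInstance : U.Normal)
  by_cases h4 : p = 2 ∧ u ^ 4 = 1
  · left
    obtain ⟨hp2, h4⟩ := h4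
    obtain ⟨h1, h2, b, hb, hbu, hbb, hcl⟩ := small hna u hUnn hC' h4
    have h3 : n = 2 := by
      rw [h2, hp2] at hou
      exact (Nat.pow_right_injective le_rfl (show 2 ^ 2 = 2 ^ n from hou)).symm
    refine ⟨hp2, ?_, ?_⟩
    · rw [← (Subgroup.zpowers u).index_mul_card, h1, Nat.card_zpowers, h2, h3]; norm_num
    · rcases hbb with hbb | hbb
      · left
        exact ⟨4, CfsgLib.Dihedral.nonempty_equiv_dihedral_top h2 hbb hbu hb hcl⟩
      · right; left
        exact ⟨2, CfsgLib.Dihedral.nonempty_equiv_quaternion_top (by rw [h2]) hbb hbu hb hcl⟩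
  by_cases hall : ∀ A : Subgroup G, A.Normal → IsMulCommutative A → IsCyclic A
  · left
    obtain ⟨hp2, htype⟩ := exB p hG hall hncyc
    subst hp2
    rcases CfsgLib.CycNorm.structure_thm hG hall with h | ⟨N, a, b, hN2, ha, hb, hidx, h⟩
    · exact absurd h hncyc
    have hcard : Nat.card G = 2 ^ (N + 1) := by
      have h1 : (Subgroup.zpowers a).index = 2 := by
        rw [Subgroup.index_eq_two_iff]
        refine ⟨b⁻¹, fun g => ?_⟩
        by_cases hg : g ∈ Subgroup.zpowers a
        · right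
          refine ⟨hg, fun h' => hb ?_⟩
          have h2 := (Subgroup.mul_mem_cancel_left _ hg).mp h'
          rwa [inv_mem_iff] at h2
        · left; exact ⟨hidx g hg, hg⟩
      rw [← Subgroup.card_mul_index (Subgroup.zpowers a), h1, Nat.card_zpowers, ha, pow_succ]
    have hua : u ∈ Subgroup.zpowers a := by
      by_contra hu
      apply h4
      refine ⟨rfl, ?_⟩
      obtain ⟨i, hi⟩ := hidx u hu
      simp only at hi
      have hu1 : u = a ^ i * b := by rw [hi]; group
      have haN : a ^ (2 ^ N) = 1 := by rw [← ha, pow_orderOf_eq_one]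
      have h2N : 2 ^ N = 2 ^ (N - 1) * 2 := by rw [← pow_succ]; congr 1; omega
      have huu : u * u = a ^ i * (b * a * b⁻¹) ^ i * (b * b) := by
        rw [conj_zpow, hu1]; group
      have h5 : (u * u) * (u * u) = 1 := by
        rcases h with ⟨h1, h2⟩ | ⟨h1, h2, h3⟩ | ⟨h1, h2, h3⟩
        · rw [huu, h2, h1, inv_zpow, mul_inv_cancel, one_mul, ← pow_add, ← mul_two, ← h2N, haN]
        · rw [huu, h3, h2, inv_zpow, mul_inv_cancel, one_mul, one_mul]
        · rw [huu, h3, h2, mul_one]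
          have h6 : a ^ i * (a ^ (2 ^ (N - 1) - 1)) ^ i = (a ^ (2 ^ (N - 1))) ^ i := by
            have h7 : a ^ (2 ^ (N - 1)) = a * a ^ (2 ^ (N - 1) - 1) := by
              rw [← pow_succ']; congr 1
              have : 0 < 2 ^ (N - 1) := by positivity
              omega
            rw [h7, (Commute.pow_right (Commute.refl a) _).mul_zpow]
          rw [h6, ← zpow_add, ← two_mul, mul_comm, zpow_mul', zpow_two, ← pow_add, ← mul_two, ← h2N, haN, one_zpow]
      rw [show (4 : ℕ) = 2 * 2 by norm_num, pow_mul, pow_two, pow_two]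
      exact h5
    have haU : a ∈ U := by
      rw [hmem]
      obtain ⟨k, rfl⟩ := hua
      exact (Commute.zpow_right (Commute.refl a) k).eq
    have hUa : U = Subgroup.zpowers a := by
      apply le_antisymm
      · rw [hUz]; exact Subgroup.zpowers_le.mpr hua
      · exact Subgroup.zpowers_le.mpr haU
    have hnN : n = N := by
      rw [hUa, Nat.card_zpowers, ha] at hUn
      exact (Nat.pow_right_injective le_rfl hUn).symm
    refine ⟨rfl, by rw [hcard, hnN], ?_⟩
    rcases htype with h | ⟨m, -, h⟩ | h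
    · exact Or.inr (Or.inl h)
    · exact Or.inl ⟨m, h⟩
    · exact Or.inr (Or.inr h)
  right
  push Not at hall
  obtain ⟨B, hB, hBc, hBn⟩ := hall
  obtain ⟨z, a, hzc, hzp, hz1, hap, haz, hcom⟩ := pick p hG B hB hBc hBn
  have hzg : ∀ g : G, g * z = z * g := Subgroup.mem_center_iff.mp hzc
  have hcz : ∀ x ∈ Subgroup.zpowers z, ∀ g, g * x = x * g := fun x hx =>
    Subgroup.mem_center_iff.mp ((Subgroup.zpowers_le.mpr hzc) hx)
  have hzz : ∀ x ∈ Subgroup.zpowers z, x ^ p = 1 := by
    rintro _ ⟨k, rfl⟩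
    simp only
    rw [← zpow_natCast, ← zpow_mul, mul_comm, zpow_mul, zpow_natCast, hzp, one_zpow]
  have hzU : z ∈ U := (hmem z).mpr (hzg u).symm
  have huniq : ∀ x ∈ U, x ^ p = 1 → x ∈ Subgroup.zpowers z := by
    intro x hx hxp
    obtain ⟨k, hk⟩ := uniq hU (x := (⟨z, hzU⟩ : U)) (y := ⟨x, hx⟩) (p := p) (Subtype.ext hzp)
      (fun h => hz1 (congrArg Subtype.val h)) (Subtype.ext hxp)
    exact ⟨k, congrArg Subtype.val hk⟩
  have hzo : Nat.card (Subgroup.zpowers z) = p := by rw [Nat.card_zpowers, orderOf_eq_prime hzp hz1]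
  set M := Subgroup.centralizer (Cfsg.powerClosure p 1 U : Set G) with hMdef
  have hM0 : ∀ g, g ∈ M ↔ g * u ^ p = u ^ p * g := by
    intro g
    rw [hMdef, Cfsg.powerClosure, Subgroup.centralizer_closure, Subgroup.mem_centralizer_iff]
    constructor
    · intro h
      exact (h (u ^ p) ⟨u, huU, by rw [pow_one]⟩).symm
    · rintro h _ ⟨x, hx, rfl⟩
      rw [hUz] at hx
      obtain ⟨k, rfl⟩ := hx
      simp only
      rw [pow_one, ← zpow_natCast, ← zpow_mul, mul_comm, zpow_mul, zpow_natCast]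
      exact ((Commute.zpow_right (show Commute g (u ^ p) from h) k).eq).symm
  have hgu : ∀ g, g * u * g⁻¹ ∈ U := fun g => Subgroup.Normal.conj_mem inferInstance u huU g
  have hM : ∀ g, g ∈ M ↔ g * u * g⁻¹ * u⁻¹ ∈ Subgroup.zpowers z := by
    intro g
    rw [hM0]
    have hc : Commute (g * u * g⁻¹) u⁻¹ := (show Commute (g * u * g⁻¹) u from (hmem _).mp (hgu g)).inv_right
    have hw : (g * u * g⁻¹ * u⁻¹) ^ p = g * u ^ p * g⁻¹ * (u ^ p)⁻¹ := by
      rw [hc.mul_pow, conj_pow, inv_pow]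
    constructor
    · intro h
      apply huniq _ (mul_mem (hgu g) (inv_mem huU))
      rw [hw, h]; group
    · intro h
      have h1 := hzz _ h
      rw [hw, mul_inv_eq_one] at h1
      exact mul_inv_eq_iff_eq_mul.mp h1
  let φ : M →* Subgroup.zpowers z :=
    { toFun := fun g => ⟨(g : G) * u * (g : G)⁻¹ * u⁻¹, (hM g).mp g.2⟩
      map_one' := Subtype.ext (by simp)
      map_mul' := by
        intro g h
        apply Subtype.ext
        change (g : G) * h * u * ((g : G) * h)⁻¹ * u⁻¹ = ((g : G) * u * (g : G)⁻¹ * u⁻¹) * (h * u * (h : G)⁻¹ * u⁻¹)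
        have h1 := hcz _ ((hM h).mp h.2) g
        calc (g : G) * h * u * ((g : G) * h)⁻¹ * u⁻¹ = (g * (h * u * (h : G)⁻¹ * u⁻¹)) * (u * (g : G)⁻¹ * u⁻¹) := by group
          _ = (h * u * (h : G)⁻¹ * u⁻¹) * (g * u * (g : G)⁻¹ * u⁻¹) := by rw [h1]; group
          _ = _ := (hcz _ ((hM h).mp h.2) _).symm }
  have hker : ∀ g : M, φ g = 1 ↔ (g : G) ∈ U := by
    intro g
    rw [hmem]
    constructor
    · intro h
      have h1 : (g : G) * u * (g : G)⁻¹ * u⁻¹ = 1 := congrArg Subtype.val h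
      rw [mul_inv_eq_one] at h1
      exact mul_inv_eq_iff_eq_mul.mp h1
    · intro h
      apply Subtype.ext
      change (g : G) * u * (g : G)⁻¹ * u⁻¹ = 1
      rw [h]; group
  have haM : a ∈ M := by
    rw [hM]
    have h1 := inv_mem (hcom u)
    have h2 : (u * a * u⁻¹ * a⁻¹)⁻¹ = a * u * a⁻¹ * u⁻¹ := by group
    rwa [h2] at h1
  have haU : a ∉ U := fun h => haz (huniq a h hap)
  have hφa : φ ⟨a, haM⟩ ≠ 1 := fun h => haU ((hker _).mp h)
  have hrel : U.relIndex M = p := by
    have h1 : U.subgroupOf M = φ.ker := by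
      ext g
      rw [Subgroup.mem_subgroupOf, MonoidHom.mem_ker, hker]
    rw [Subgroup.relIndex, h1, Subgroup.index_ker]
    have h2 : Nat.card φ.range ∣ p := by rw [← hzo]; exact Subgroup.card_subgroup_dvd_card _
    rcases (Nat.dvd_prime hp.out).mp h2 with h | h
    · exfalso
      have h2 := Subgroup.card_eq_one.mp h
      have h3 : φ ⟨a, haM⟩ ∈ φ.range := ⟨_, rfl⟩
      rw [h2] at h3
      exact hφa (Subgroup.mem_bot.mp h3)
    · exact h
  let E : Subgroup G :=
    { carrier := {x | ∃ v ∈ Subgroup.zpowers z, ∃ j : ℤ, x = v * a ^ j}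
      mul_mem' := by
        rintro _ _ ⟨v, hv, j, rfl⟩ ⟨v', hv', j', rfl⟩
        refine ⟨v * v', mul_mem hv hv', j + j', ?_⟩
        have h1 := hcz v' hv' (a ^ j)
        rw [zpow_add]
        calc v * a ^ j * (v' * a ^ j') = v * (a ^ j * v') * a ^ j' := by simp only [mul_assoc]
          _ = _ := by rw [h1]; simp only [mul_assoc]
      one_mem' := ⟨1, one_mem _, 0, by simp⟩
      inv_mem' := by
        rintro _ ⟨v, hv, j, rfl⟩
        refine ⟨v⁻¹, inv_mem hv, -j, ?_⟩
        rw [mul_inv_rev, zpow_neg]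
        exact hcz _ (inv_mem hv) _ }
  have hE0 : ∀ x, x ∈ E ↔ ∃ v ∈ Subgroup.zpowers z, ∃ j : ℤ, x = v * a ^ j := fun x => Iff.rfl
  have hzE : ∀ v ∈ Subgroup.zpowers z, v ∈ E := fun v hv => ⟨v, hv, 0, by simp⟩
  have haE : a ∈ E := ⟨1, one_mem _, 1, by simp⟩
  have hajp : ∀ j : ℤ, (a ^ j) ^ p = 1 := by
    intro j
    rw [← zpow_natCast, ← zpow_mul, mul_comm, zpow_mul, zpow_natCast, hap, one_zpow]
  have hzM : ∀ v ∈ Subgroup.zpowers z, v ∈ M := by
    intro v hv
    rw [hM0]
    exact (hcz v hv _).symm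
  have hE1 : ∀ x ∈ E, x ∈ M ∧ x ^ p = 1 := by
    rintro x ⟨v, hv, j, rfl⟩
    refine ⟨mul_mem (hzM v hv) (zpow_mem haM j), ?_⟩
    rw [(show Commute v (a ^ j) from (hcz v hv _).symm).mul_pow, hzz v hv, hajp, one_mul]
  have hE2 : ∀ x ∈ M, x ^ p = 1 → x ∈ E := by
    intro x hxM hxp
    obtain ⟨j, hj⟩ := mem_zpowers_of_prime_card (p := p) hzo (g := φ ⟨a, haM⟩) (g' := φ ⟨x, hxM⟩) hφa
    have hj' : φ ⟨a, haM⟩ ^ j = φ ⟨x, hxM⟩ := hj
    set b := a ^ j with hb
    have hbM : b ∈ M := zpow_mem haM j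
    have hvU : x * b⁻¹ ∈ U := by
      have h1 : φ (⟨x, hxM⟩ * (⟨a, haM⟩ ^ j)⁻¹) = 1 := by
        rw [map_mul, map_inv, map_zpow, hj', mul_inv_cancel]
      have h2 := (hker _).mp h1
      exact h2
    set v := x * b⁻¹ with hv
    have hxv : x = v * b := by rw [hv]; group
    have hvU' := hvU
    rw [hUz] at hvU'
    obtain ⟨i, hi⟩ := hvU'
    simp only at hi
    set w := b * u * b⁻¹ * u⁻¹ with hw
    have hwz : w ∈ Subgroup.zpowers z := (hM b).mp hbM
    have hbub : b * u * b⁻¹ = w * u := by rw [hw]; group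
    have hbv : b * v * b⁻¹ = w ^ i * v := by
      rw [← hi, ← conj_zpow, hbub, (show Commute w u from (hcz w hwz u).symm).mul_zpow]
    have hdz : w ^ i ∈ Subgroup.zpowers z := zpow_mem hwz i
    have hbv2 : b * v = w ^ i * (v * b) := by
      have h1 := mul_inv_eq_iff_eq_mul.mp hbv
      exact h1.trans (mul_assoc _ _ _)
    have hpow := cls_pow (v := v) (b := b) (d := w ^ i) (hcz _ hdz) hbv2 p
    rw [← hxv, hxp, hajp, mul_one] at hpow
    have hvp : v ^ p = 1 := by
      by_cases hp2 : p = 2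
      · by_cases hd : w ^ i = 1
        · rw [hd, one_pow, mul_one] at hpow
          exact hpow.symm
        · exfalso
          apply h4
          refine ⟨hp2, ?_⟩
          have hdd := hzz _ hdz
          have hww := hzz _ hwz
          rw [hp2] at hpow hdd hww
          rw [Nat.choose_self, pow_one] at hpow
          have hodd : Odd i := by
            by_contra hev
            rw [Int.not_odd_iff_even] at hev
            obtain ⟨c, hc⟩ := hev
            apply hd
            rw [hc, ← two_mul, zpow_mul, zpow_two, ← pow_two, hww, one_zpow]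
          have hv4 : v ^ 4 = 1 := by
            have h1 : v ^ 2 = (w ^ i)⁻¹ := eq_inv_of_mul_eq_one_left hpow.symm
            rw [show (4 : ℕ) = 2 * 2 by norm_num, pow_mul, h1, inv_pow, hdd, inv_one]
          rw [← hi, ← zpow_natCast, ← zpow_mul, ← orderOf_dvd_iff_zpow_eq_one, hou, hp2] at hv4
          rw [← orderOf_dvd_iff_pow_eq_one, hou, hp2]
          have hcop : IsCoprime (((2 : ℕ) ^ n : ℕ) : ℤ) i := by
            push_cast
            apply IsCoprime.pow_left
            rw [Int.isCoprime_iff_gcd_eq_one]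
            obtain ⟨c, hc⟩ := hodd
            rw [hc]
            simp
          have h5 := hcop.dvd_of_dvd_mul_left hv4
          exact_mod_cast h5
      · obtain ⟨c, hc⟩ := hp.out.dvd_choose_self (k := 2) (by norm_num) (lt_of_le_of_ne hp.out.two_le (Ne.symm hp2))
        rw [hc, pow_mul, hzz _ hdz, one_pow, mul_one] at hpow
        exact hpow.symm
    rw [hxv]
    exact ⟨v, huniq v hvU hvp, j, rfl⟩
  have hOm : Cfsg.omegaOne p M = E := by
    apply le_antisymm
    · rw [Cfsg.omegaOne, Subgroup.closure_le]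
      rintro x ⟨hx, hxp⟩
      exact hE2 x hx hxp
    · intro x hx
      exact Subgroup.subset_closure (hE1 x hx)
  rw [hOm]
  have hEcomm : ∀ x ∈ E, ∀ y ∈ E, x * y = y * x := by
    rintro _ ⟨v, hv, j, rfl⟩ _ ⟨v', hv', j', rfl⟩
    have h1 := hcz v hv
    have h2 := hcz v' hv'
    have h3 : a ^ j * a ^ j' = a ^ j' * a ^ j := (Commute.zpow_zpow (Commute.refl a) j j').eq
    calc v * a ^ j * (v' * a ^ j') = v * (a ^ j * v') * a ^ j' := by simp only [mul_assoc]
      _ = v * v' * (a ^ j * a ^ j') := by rw [h2 (a ^ j)]; simp only [mul_assoc]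
      _ = v' * v * (a ^ j' * a ^ j) := by rw [h3, h2 v]
      _ = v' * (v * a ^ j') * a ^ j := by simp only [mul_assoc]
      _ = v' * (a ^ j' * v) * a ^ j := by rw [h1 (a ^ j')]
      _ = _ := by simp only [mul_assoc]
  refine ⟨hrel, ⟨⟨⟨fun x y => Subtype.ext (hEcomm x x.2 y y.2)⟩⟩, fun x hx => (hE1 x hx).2⟩, ?_, ?_⟩
  · have ha1 : a ≠ 1 := by rintro rfl; exact haz (one_mem _)
    have hao : Nat.card (Subgroup.zpowers a) = p := by rw [Nat.card_zpowers, orderOf_eq_prime hap ha1]
    let f : Subgroup.zpowers z × Subgroup.zpowers a → E := fun x => ⟨(x.1 : G) * x.2, by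
      obtain ⟨j, hj⟩ := x.2.2
      exact ⟨x.1, x.1.2, j, by rw [← hj]⟩⟩
    have hf : Function.Bijective f := by
      constructor
      · rintro ⟨v, w⟩ ⟨v', w'⟩ h
        have h1 : (v : G) * w = v' * w' := congrArg Subtype.val h
        have h2 : (w' : G) * (w : G)⁻¹ = (v' : G)⁻¹ * v := by
          rw [eq_inv_mul_iff_mul_eq, ← mul_assoc, ← h1]; group
        have h3 : (w' : G) * (w : G)⁻¹ ∈ Subgroup.zpowers z := by
          rw [h2]; exact mul_mem (inv_mem v'.2) v.2
        have h4' : w' * w⁻¹ = 1 := by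
          by_contra hne
          apply haz
          obtain ⟨k, hk⟩ := mem_zpowers_of_prime_card (p := p) hao (g := w' * w⁻¹) (g' := ⟨a, Subgroup.mem_zpowers a⟩) hne
          have hk' : ((w' : G) * (w : G)⁻¹) ^ k = a := congrArg Subtype.val hk
          rw [← hk']
          exact zpow_mem h3 k
        have h5 : w' = w := mul_inv_eq_one.mp h4'
        subst h5
        have h6 : (v : G) = v' := mul_right_cancel h1
        rw [Subtype.ext h6]
      · rintro ⟨x, v, hv, j, rfl⟩
        exact ⟨(⟨v, hv⟩, ⟨a ^ j, ⟨j, rfl⟩⟩), rfl⟩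
    rw [← Nat.card_congr (Equiv.ofBijective f hf), Nat.card_prod, hzo, hao, pow_two]
  · have hEn : ∀ x ∈ E, ∀ g : G, g * x * g⁻¹ ∈ E := by
      rintro _ ⟨v, hv, j, rfl⟩ g
      have h1 : g * (v * a ^ j) * g⁻¹ = v * (g * a * g⁻¹) ^ j := by
        rw [conj_zpow, ← mul_assoc, hcz v hv g]
        simp only [mul_assoc]
      rw [h1]
      refine mul_mem (hzE v hv) (zpow_mem ?_ j)
      have h2 : g * a * g⁻¹ = (g * a * g⁻¹ * a⁻¹) * a := by group
      rw [h2]
      exact mul_mem (hzE _ (hcom g)) haE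
    rw [Subgroup.characteristic_iff_map_le]
    rintro ψ _ ⟨x, hx, rfl⟩
    have hx' : x ∈ E := hx
    change ψ x ∈ E
    have hp1 : ∀ y ∈ E, (ψ y) ^ p = 1 := fun y hy => by rw [← map_pow, (hE1 y hy).2, map_one]
    apply hE2
    · rw [hM]
      have h1 : ψ x * u * (ψ x)⁻¹ * u⁻¹ = ψ (x * (ψ.symm u * x⁻¹ * (ψ.symm u)⁻¹)) := by
        simp only [map_mul, map_inv, ψ.apply_symm_apply, mul_assoc]
      apply huniq
      · exact mul_mem (hgu _) (inv_mem huU)
      · rw [h1]
        exact hp1 _ (mul_mem hx' (hEn _ (inv_mem hx') _))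
    · exact hp1 x hx'

end Cfsg.Agent.S3761
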