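import Cfsg.Statements.S3802
import Cfsg.Agent.LibH2Subn

set_option autoImplicit false
open Cfsg

namespace Cfsg.Agent.S3802

/-- Let G be a finite group, M a maximal subgroup of G and N a subnormal subgroup of G contained in M. Then N is contained in every conjugate of M, that is, N lies in the core of M in G. -/
theorem result {G : Type*} [Group G] [Finite G] (M N : Subgroup G) (hM : IsCoatom M) (hN : N.IsSubnormal) (hNM : N ≤ M) :
    N ≤ Subgroup.normalCore M := by
  set S : Set (Subgroup G) := {U | U.IsSubnormal ∧ U ≤ M} with hS
  set L : Subgroup G := sSup S with hL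
  have hLsn : L.IsSubnormal := CfsgLib.H2Subn.sSup_subnormal S fun U hU => hU.1
  have hLM : L ≤ M := sSup_le fun U hU => hU.2
  have hmem : N ≤ L := le_sSup ⟨hN, hNM⟩
  have hMN : M ≤ Subgroup.normalizer (L : Set G) := by
    have hinv : ∀ m ∈ M, L.map (MulAut.conj m).toMonoidHom ≤ L := by
      intro m hm
      rw [Subgroup.map_le_iff_le_comap]
      apply sSup_le
      intro U hU
      rw [← Subgroup.map_le_iff_le_comap]
      apply le_sSup
      refine ⟨hU.1.map (MulAut.conj m).surjective, ?_⟩
      rintro _ ⟨u, hu, rfl⟩
      exact M.mul_mem (M.mul_mem hm (hU.2 hu)) (M.inv_mem hm)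
    intro m hm
    rw [Subgroup.mem_normalizer_iff]
    intro x
    constructor
    · intro hx
      exact hinv m hm ⟨x, hx, rfl⟩
    · intro hx
      have := hinv m⁻¹ (M.inv_mem hm) ⟨_, hx, rfl⟩
      simpa [mul_assoc] using this
  have hLn : L.Normal := by
    by_contra hnn
    have hind : ∀ U : Subgroup G, U.IsSubnormal → U = L → False := by
      intro U hU
      induction hU with
      | top => intro h; exact hnn (h ▸ inferInstance)
      | step U K hle hK hn ih =>
        intro hUL
        have h1 : K ≤ Subgroup.normalizer (L : Set G) := by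
          rw [← hUL]
          exact (Subgroup.normal_subgroupOf_iff_le_normalizer hle).1 hn
        have h3 : Subgroup.normalizer (L : Set G) = M := by
          by_contra hne
          have h4 := hM.2 _ (lt_of_le_of_ne hMN (Ne.symm hne))
          exact hnn (Subgroup.normalizer_eq_top_iff.1 h4)
        have h2 : K ≤ L := le_sSup ⟨hK, h1.trans h3.le⟩
        exact ih (le_antisymm h2 (hUL ▸ hle))
    exact hind L hLsn rfl
  haveI := hLn
  exact hmem.trans (Subgroup.normal_le_normalCore.2 hLM)


end Cfsg.Agent.S3802
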