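import Cfsg.Statements.S3815
import Cfsg.Agent.LibCores

set_option autoImplicit false
open Cfsg

namespace Cfsg.Agent.S3815

/-- Let G be a finite group, p a prime and d ∈ G an element of order prime to p. If dg has order prime to p for every element g ∈ G of order prime to p, then d ∈ O_{p'}(G). -/
theorem result {G : Type*} [Group G] [Finite G] {p : ℕ} [Fact p.Prime]
    (d : G) (hd : (orderOf d).Coprime p)
    (h : ∀ g : G, (orderOf g).Coprime p → (orderOf (d * g)).Coprime p) :
    d ∈ Cfsg.pPrimeCore p G := by
  let D : Set G := {x | (orderOf x).Coprime p ∧ ∀ g : G, (orderOf g).Coprime p → (orderOf (x * g)).Coprime p}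
  have hconj : ∀ x y : G, orderOf (y * x * y⁻¹) = orderOf x := by
    intro x y
    have := orderOf_injective (MulAut.conj y).toMonoidHom (MulAut.conj y).injective x
    simpa using this
  have h1 : (1 : G) ∈ D := ⟨by simp, fun g hg => by rwa [one_mul]⟩
  have hm : ∀ x ∈ D, ∀ y ∈ D, x * y ∈ D := by
    intro x hx y hy
    refine ⟨hx.2 y hy.1, fun g hg => ?_⟩
    rw [mul_assoc]
    exact hx.2 _ (hy.2 g hg)
  let S : Subgroup G :=
    { carrier := D
      one_mem' := h1
      mul_mem' := fun {a b} ha hb => hm a ha b hb
      inv_mem' := by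
        intro x hx
        have hpow : ∀ n : ℕ, x ^ n ∈ D := by
          intro n
          induction n with
          | zero => rw [pow_zero]; exact h1
          | succ n ih => rw [pow_succ]; exact hm _ ih _ hx
        have : x⁻¹ = x ^ (orderOf x - 1) := by
          rw [inv_eq_iff_mul_eq_one, ← pow_succ']
          rw [Nat.sub_add_cancel (orderOf_pos x), pow_orderOf_eq_one]
        rw [this]
        exact hpow _ }
  haveI hS : S.Normal := by
    refine ⟨fun x hx y => ?_⟩
    refine ⟨by rw [hconj]; exact hx.1, fun g hg => ?_⟩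
    have h2 := hx.2 (y⁻¹ * g * y) (by
      have := hconj g y⁻¹
      rw [inv_inv] at this
      rw [this]; exact hg)
    have h3 : y * x * y⁻¹ * g = y * (x * (y⁻¹ * g * y)) * y⁻¹ := by group
    rw [h3, hconj]
    exact h2
  have hcop : (Nat.card S).Coprime p := by
    rw [Nat.coprime_comm, Nat.Prime.coprime_iff_not_dvd Fact.out]
    intro hdvd
    obtain ⟨x, hx⟩ := exists_prime_orderOf_dvd_card' p hdvd
    have h2 : (orderOf (x : G)).Coprime p := x.2.1
    rw [Subgroup.orderOf_coe, hx] at h2
    exact (Fact.out : p.Prime).ne_one ((Nat.coprime_self p).1 h2)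
  exact CfsgLib.Cores.le_pPrimeCore hS hcop ⟨hd, h⟩

end Cfsg.Agent.S3815
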