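import Cfsg.Statements.S3820
import Cfsg.Agent.LibFusionH12

set_option autoImplicit false
open Cfsg

namespace Cfsg.Agent.S3820

/-- Call a subgroup H of G pronormal if H and gHg⁻¹ are conjugate inside ⟨H, gHg⁻¹⟩ for every g ∈ G. Let S ≤ H ≤ G be subgroups of a finite group with S pronormal in G (for instance S a Sylow subgroup). Then H is pronormal in G if and only if H and gHg⁻¹ are conjugate inside ⟨H, gHg⁻¹⟩ for every g ∈ N_G(S). In particular H is pronormal whenever N_G(S) ≤ H. -/
theorem result {G : Type*} [Group G] [Finite G] (S H : Subgroup G) (hSH : S ≤ H)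
    (hS : Cfsg.IsPronormal S) :
    Cfsg.IsPronormal H ↔
      ∀ g ∈ Subgroup.normalizer (S : Set G), ∃ w ∈ H ⊔ H.map (MulAut.conj g).toMonoidHom,
        H.map (MulAut.conj g).toMonoidHom = H.map (MulAut.conj w).toMonoidHom := by
  have hmul : ∀ (K : Subgroup G) (a b : G), K.map (MulAut.conj (a * b)).toMonoidHom
      = (K.map (MulAut.conj b).toMonoidHom).map (MulAut.conj a).toMonoidHom := by
    intro K a b
    rw [Subgroup.map_map]
    congr 1
    ext y
    simp
  have hm1 : ∀ (K : Subgroup G), K.map (MulAut.conj (1 : G)).toMonoidHom = K := by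
    intro K
    rw [map_one]
    ext y; simp
  have hle : ∀ (K J : Subgroup G) (w : G), w ∈ J → K ≤ J → K.map (MulAut.conj w).toMonoidHom ≤ J := by
    rintro K J w hw hK _ ⟨k, hk, rfl⟩
    exact J.mul_mem (J.mul_mem hw (hK hk)) (J.inv_mem hw)
  constructor
  · intro h g _
    exact h g
  · intro h g
    obtain ⟨w, hw, hwS⟩ := hS g
    have hwJ : w ∈ H ⊔ H.map (MulAut.conj g).toMonoidHom :=
      (sup_le_sup hSH (Subgroup.map_mono hSH)) hw
    have hN : w⁻¹ * g ∈ Subgroup.normalizer (S : Set G) := by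
      rw [CfsgLib.FusionH12.mem_nrm]
      show S.map (MulAut.conj (w⁻¹ * g)).toMonoidHom = S
      rw [hmul, hwS, ← hmul, inv_mul_cancel, hm1]
    obtain ⟨v, hv, hvH⟩ := h _ hN
    have e1 : H.map (MulAut.conj g).toMonoidHom = (H.map (MulAut.conj (w⁻¹ * g)).toMonoidHom).map (MulAut.conj w).toMonoidHom := by
      rw [← hmul, mul_inv_cancel_left]
    refine ⟨w * v, ?_, ?_⟩
    · refine mul_mem hwJ ?_
      have h2 : H.map (MulAut.conj (w⁻¹ * g)).toMonoidHom ≤ H ⊔ H.map (MulAut.conj g).toMonoidHom := by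
        rw [hmul]
        exact hle _ _ _ (inv_mem hwJ) le_sup_right
      exact (sup_le le_sup_left h2) hv
    · rw [e1, hvH, ← hmul]

end Cfsg.Agent.S3820
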