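import Cfsg.Statements.S3821
import Cfsg.Agent.LibFusionH12

set_option autoImplicit false
open Cfsg

namespace Cfsg.Agent.S3821

/-- Let A be a normal subgroup of the finite group G and H a subgroup of A. Then H is pronormal in G (H and gHg⁻¹ conjugate inside ⟨H, gHg⁻¹⟩ for every g ∈ G) if and only if H is pronormal in A and G = A · N_G(H). -/
theorem result {G : Type*} [Group G] [Finite G] (A H : Subgroup G) [A.Normal] (hHA : H ≤ A) :
    Cfsg.IsPronormal H ↔ (Cfsg.IsPronormal (H.subgroupOf A) ∧ A ⊔ Subgroup.normalizer (H : Set G) = ⊤) := by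
  have hmul : ∀ (K : Subgroup G) (a b : G), K.map (MulAut.conj (a * b)).toMonoidHom
      = (K.map (MulAut.conj b).toMonoidHom).map (MulAut.conj a).toMonoidHom := by
    intro K a b
    rw [Subgroup.map_map]
    congr 1
    ext y
    simp
  have hm1 : ∀ (K : Subgroup G), K.map (MulAut.conj (1 : G)).toMonoidHom = K := by
    intro K
    rw [map_one]
    ext y; simp
  have hsub : ∀ (a : A), ((H.subgroupOf A).map (MulAut.conj a).toMonoidHom).map A.subtype
      = H.map (MulAut.conj (a : G)).toMonoidHom := by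
    intro a
    rw [Subgroup.map_map]
    have e : A.subtype.comp (MulAut.conj a).toMonoidHom = (MulAut.conj (a : G)).toMonoidHom.comp A.subtype := by
      ext y; simp
    rw [e, ← Subgroup.map_map, Subgroup.subgroupOf_map_subtype, inf_of_le_left hHA]
  have hsub0 : (H.subgroupOf A).map A.subtype = H := by
    rw [Subgroup.subgroupOf_map_subtype, inf_of_le_left hHA]
  have hconjA : ∀ g : G, H.map (MulAut.conj g).toMonoidHom ≤ A := by
    rintro g _ ⟨y, hy, rfl⟩
    exact (inferInstance : A.Normal).conj_mem y (hHA hy) g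
  constructor
  · intro h
    refine ⟨?_, ?_⟩
    · intro a
      obtain ⟨w, hw, hwH⟩ := h (a : G)
      have hwA : w ∈ A := (sup_le hHA (hconjA a)) hw
      refine ⟨⟨w, hwA⟩, ?_, ?_⟩
      · have : (⟨w, hwA⟩ : A).1 ∈ ((H.subgroupOf A) ⊔ (H.subgroupOf A).map (MulAut.conj a).toMonoidHom).map A.subtype := by
          rw [Subgroup.map_sup, hsub, hsub0]; exact hw
        obtain ⟨y, hy, hyw⟩ := this
        have e : y = ⟨w, hwA⟩ := Subtype.ext hyw
        rwa [e] at hy
      · apply Subgroup.map_injective A.subtype_injective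
        rw [hsub, hsub]
        exact hwH
    · rw [eq_top_iff]
      intro g _
      obtain ⟨w, hw, hwH⟩ := h g
      have hwA : w ∈ A := (sup_le hHA (hconjA g)) hw
      have hN : w⁻¹ * g ∈ Subgroup.normalizer (H : Set G) := by
        rw [CfsgLib.FusionH12.mem_nrm]
        show H.map (MulAut.conj (w⁻¹ * g)).toMonoidHom = H
        rw [hmul, hwH, ← hmul, inv_mul_cancel, hm1]
      have := mul_mem (Subgroup.mem_sup_left (T := Subgroup.normalizer (H : Set G)) hwA) (Subgroup.mem_sup_right (S := A) hN)
      rwa [mul_inv_cancel_left] at this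
  · rintro ⟨h, htop⟩ g
    have hg : g ∈ A ⊔ Subgroup.normalizer (H : Set G) := by rw [htop]; exact Subgroup.mem_top g
    obtain ⟨a, ha, n, hn, rfl⟩ := Subgroup.mem_sup_of_normal_left.1 hg
    have hnH : H.map (MulAut.conj n).toMonoidHom = H := CfsgLib.FusionH12.mem_nrm.1 hn
    rw [hmul, hnH]
    obtain ⟨w, hw, hwH⟩ := h ⟨a, ha⟩
    refine ⟨w, ?_, ?_⟩
    · have : (w : G) ∈ ((H.subgroupOf A) ⊔ (H.subgroupOf A).map (MulAut.conj (⟨a, ha⟩ : A)).toMonoidHom).map A.subtype :=
        ⟨w, hw, rfl⟩
      rw [Subgroup.map_sup, hsub, hsub0] at this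
      exact this
    · have := congrArg (Subgroup.map A.subtype) hwH
      rw [hsub, hsub] at this
      exact this

end Cfsg.Agent.S3821
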