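import Cfsg.Statements.S3825
import Cfsg.Agent.EqBase

set_option autoImplicit false
open Cfsg

namespace Cfsg.Agent.S3825

open scoped commutatorElement


open Subgroup

/-- Let U be a subgroup of a finite group H and w an involution of H normalizing U and commuting with exactly two elements of U, the identity and y. If V is a non-cyclic elementary abelian 2-subgroup of U containing y which is normal in U and invariant under w, then V is a Sylow 2-subgroup of U, V has order 4, and U/V is abelian. -/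
theorem result {H : Type*} [Group H] [Finite H] (U : Subgroup H) (w : H) (hw : orderOf w = 2)
    (hwU : w ∈ Subgroup.normalizer (U : Set H)) (y : H) (hy : y ≠ 1) (hyU : y ∈ U)
    (hfix : ∀ u ∈ U, w * u * w⁻¹ = u ↔ (u = 1 ∨ u = y))
    (V : Subgroup H) (hVU : V ≤ U) (hVn : (V.subgroupOf U).Normal) (hVw : ∀ v ∈ V, w * v * w⁻¹ ∈ V)
    (hVe : Cfsg.IsElementaryAbelian 2 V) (hVc : ¬ IsCyclic ↥V) (hyV : y ∈ V) :
    ¬ 2 ∣ V.relIndex U ∧ Nat.card ↥V = 4 ∧ ⁅U, U⁆ ≤ V := by
  have hw2 : w * w = 1 := by rw [← pow_two, ← hw, pow_orderOf_eq_one]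
  have hwi : w⁻¹ = w := inv_eq_of_mul_eq_one_left hw2
  have hVab : ∀ a ∈ V, ∀ b ∈ V, a * b = b * a := fun a ha b hb => by
    have := hVe.1.is_comm.comm ⟨a, ha⟩ ⟨b, hb⟩
    exact congrArg Subtype.val this
  have hV2 : ∀ a ∈ V, a * a = 1 := fun a ha => by
    rw [← pow_two]; exact hVe.2 a ha
  -- key
  have key : ∀ u ∈ U, u⁻¹ * (w * u * w⁻¹) ∈ V → u⁻¹ * (w * u * w⁻¹) = 1 ∨ u⁻¹ * (w * u * w⁻¹) = y := by
    intro u hu hv
    refine (hfix _ (hVU hv)).1 ?_
    have h1 : w * (u⁻¹ * (w * u * w⁻¹)) * w⁻¹ = (u⁻¹ * (w * u * w⁻¹))⁻¹ := by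
      rw [hwi]
      have : u⁻¹ * (w * u * w) = u⁻¹ * w * u * w := by group
      rw [this]
      have e : (u⁻¹ * w * u * w)⁻¹ = w⁻¹ * u⁻¹ * w⁻¹ * u := by group
      rw [e, hwi]
      calc w * (u⁻¹ * w * u * w) * w = w * u⁻¹ * w * u * (w * w) := by group
        _ = _ := by rw [hw2, mul_one]
    rw [h1]
    exact inv_eq_of_mul_eq_one_left (hV2 _ hv)
  -- the map on V
  let φ : V →* V :=
    { toFun := fun v => ⟨(v : H)⁻¹ * (w * v * w⁻¹), mul_mem (inv_mem v.2) (hVw v v.2)⟩
      map_one' := by apply Subtype.ext; simp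
      map_mul' := by
        intro a b
        apply Subtype.ext
        show ((a : H) * b)⁻¹ * (w * (a * b) * w⁻¹) = (a : H)⁻¹ * (w * a * w⁻¹) * ((b : H)⁻¹ * (w * b * w⁻¹))
        have h1 := hVab (b : H)⁻¹ (inv_mem b.2) ((a : H)⁻¹ * (w * a * w⁻¹)) (mul_mem (inv_mem a.2) (hVw a a.2))
        calc ((a : H) * b)⁻¹ * (w * (a * b) * w⁻¹) = ((b : H)⁻¹ * ((a : H)⁻¹ * (w * a * w⁻¹))) * (w * b * w⁻¹) := by group
          _ = _ := by rw [h1]; group }
  have hφ : ∀ v : V, ((φ v : V) : H) = (v : H)⁻¹ * (w * v * w⁻¹) := fun v => rfl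
  have hker : Nat.card φ.ker = 2 := by
    rw [Nat.card_eq_two_iff]
    refine ⟨⟨1, one_mem _⟩, ⟨⟨y, hyV⟩, ?_⟩, ?_, ?_⟩
    · rw [MonoidHom.mem_ker]
      apply Subtype.ext
      rw [hφ]
      show y⁻¹ * (w * y * w⁻¹) = 1
      rw [(hfix y hyU).2 (Or.inr rfl)]; simp
    · intro h
      exact hy (congrArg (fun z : φ.ker => ((z : V) : H)) h).symm
    · rw [Set.eq_univ_iff_forall]
      rintro ⟨⟨v, hv⟩, hk⟩
      rw [MonoidHom.mem_ker] at hk
      have h1 := congrArg Subtype.val hk
      rw [hφ] at h1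
      have h2 : w * v * w⁻¹ = v := (inv_mul_eq_one.1 h1).symm
      rcases (hfix v (hVU hv)).1 h2 with h3 | h3
      · left
        apply Subtype.ext
        apply Subtype.ext
        exact h3
      · right
        apply Subtype.ext
        apply Subtype.ext
        exact h3
  have hcardV := φ.ker.card_mul_index
  rw [Subgroup.index_ker, hker] at hcardV
  have hran : ∀ x : φ.range, ((x : V) : H) = 1 ∨ ((x : V) : H) = y := by
    rintro ⟨x, v, rfl⟩
    exact key v (hVU v.2) (φ v).2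
  have hran2 : Nat.card φ.range ≤ 2 := by
    have : Function.Injective (fun x : φ.range => (⟨((x : V) : H), hran x⟩ : ({1, y} : Set H))) := by
      intro a b hab
      apply Subtype.ext
      apply Subtype.ext
      exact congrArg (fun z : ({1, y} : Set H) => (z : H)) hab
    refine (Nat.card_le_card_of_injective _ this).trans ?_
    rw [Nat.card_coe_set_eq, Set.ncard_pair (Ne.symm hy)]
  have hran3 : Nat.card φ.range ≠ 1 := by
    intro h
    rw [h] at hcardV
    exact hVc (isCyclic_of_prime_card (p := 2) (by omega))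
  have hran4 : Nat.card φ.range = 2 := by
    have : 0 < Nat.card φ.range := Nat.card_pos
    omega
  have hV4 : Nat.card V = 4 := by omega
  -- y is in the range
  have hyr : ∃ v ∈ V, v⁻¹ * (w * v * w⁻¹) = y := by
    by_contra hcon
    push Not at hcon
    apply hran3
    rw [Subgroup.card_eq_one, eq_bot_iff]
    rintro x ⟨v, rfl⟩
    rcases key v (hVU v.2) (φ v).2 with h | h
    · rw [Subgroup.mem_bot]; exact Subtype.ext h
    · exact absurd h (hcon v v.2)
  have key2 : ∀ u ∈ U, u⁻¹ * (w * u * w⁻¹) ∈ V → u ∈ V := by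
    intro u hu hv
    rcases key u hu hv with h | h
    · rcases (hfix u hu).1 (inv_mul_eq_one.1 h).symm with h1 | h1
      · rw [h1]; exact one_mem _
      · rw [h1]; exact hyV
    · obtain ⟨v, hvV, hvy⟩ := hyr
      have h2 : w * (u * v⁻¹) * w⁻¹ = u * v⁻¹ := by
        have h3 : w * u * w⁻¹ = u * y := by rw [← h]; group
        have h4 : w * v * w⁻¹ = v * y := by rw [← hvy]; group
        calc w * (u * v⁻¹) * w⁻¹ = (w * u * w⁻¹) * (w * v * w⁻¹)⁻¹ := by group
          _ = _ := by rw [h3, h4]; group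
      have h5 : u * v⁻¹ ∈ V := by
        rcases (hfix _ (mul_mem hu (inv_mem (hVU hvV)))).1 h2 with h1 | h1
        · rw [h1]; exact one_mem _
        · rw [h1]; exact hyV
      have h6 := mul_mem h5 hvV
      rwa [inv_mul_cancel_right] at h6
  -- the automorphism
  have hwU' : ∀ u ∈ U, w * u * w⁻¹ ∈ U := fun u hu => (Subgroup.mem_normalizer_iff.1 hwU u).1 hu
  let c : U →* U :=
    { toFun := fun u => ⟨w * u * w⁻¹, hwU' u u.2⟩
      map_one' := by apply Subtype.ext; simp
      map_mul' := by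
        intro a b
        apply Subtype.ext
        show w * ((a : H) * b) * w⁻¹ = (w * a * w⁻¹) * (w * b * w⁻¹)
        group }
  set V' := V.subgroupOf U with hV'
  haveI := hVn
  let τ : U ⧸ V' →* U ⧸ V' := QuotientGroup.map V' V' c (by
    intro v hv
    rw [Subgroup.mem_comap, hV', Subgroup.mem_subgroupOf]
    exact hVw v (Subgroup.mem_subgroupOf.1 hv))
  have hτ : ∀ u : U, τ (u : U ⧸ V') = ((c u : U) : U ⧸ V') := fun u => rfl
  have hfpf : MonoidHom.FixedPointFree τ := by
    intro g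
    induction g using QuotientGroup.induction_on with
    | H u =>
      intro h
      rw [hτ] at h
      have h1 := QuotientGroup.eq.1 h.symm
      rw [hV', Subgroup.mem_subgroupOf] at h1
      rw [QuotientGroup.eq_one_iff, hV', Subgroup.mem_subgroupOf]
      exact key2 u u.2 h1
  have hinv : Function.Involutive τ := by
    intro g
    induction g using QuotientGroup.induction_on with
    | H u =>
      rw [hτ, hτ]
      congr 1
      apply Subtype.ext
      show w * (w * u * w⁻¹) * w⁻¹ = u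
      calc w * (w * (u : H) * w⁻¹) * w⁻¹ = (w * w) * u * (w * w)⁻¹ := by group
        _ = u := by rw [hw2]; simp
  refine ⟨?_, hV4, ?_⟩
  · have h1 := hfpf.odd_card_of_involutive hinv
    intro h2
    exact (Nat.not_even_iff_odd.2 h1) (even_iff_two_dvd.2 h2)
  · rw [Subgroup.commutator_le]
    intro a ha b hb
    have h1 := hfpf.commute_all_of_involutive hinv ((⟨a, ha⟩ : U) : U ⧸ V') ((⟨b, hb⟩ : U) : U ⧸ V')
    have h2 : ((⁅(⟨a, ha⟩ : U), ⟨b, hb⟩⁆ : U) : U ⧸ V') = 1 := by
      rw [commutatorElement_def]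
      show QuotientGroup.mk' V' ((⟨a, ha⟩ : U) * ⟨b, hb⟩ * (⟨a, ha⟩ : U)⁻¹ * (⟨b, hb⟩ : U)⁻¹) = 1
      rw [map_mul, map_mul, map_mul, map_inv, map_inv]
      rw [show (QuotientGroup.mk' V') (⟨a, ha⟩ : U) * (QuotientGroup.mk' V') (⟨b, hb⟩ : U) = (QuotientGroup.mk' V') (⟨b, hb⟩ : U) * (QuotientGroup.mk' V') (⟨a, ha⟩ : U) from h1.eq]
      group
    rw [QuotientGroup.eq_one_iff, hV', Subgroup.mem_subgroupOf] at h2
    exact h2

end Cfsg.Agent.S3825
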