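import Cfsg.Statements.S3835
import Cfsg.Agent.LibFgQd

set_option autoImplicit false
open Cfsg

namespace Cfsg.Agent.S3835

set_option linter.style.haveILetI false
set_option linter.unusedSectionVars false
set_option linter.unusedVariables false

/-- Let p be an odd prime and n a natural number. The alternating group of degree n has a subgroup isomorphic to Qd(p) (the natural semidirect product of an elementary abelian group of order p² by SL₂(p)) if and only if n ≥ p²; and if n < p² then Qd(p) is not even involved in it. -/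
theorem result {p : ℕ} [Fact p.Prime] (hp : p ≠ 2) (n : ℕ) : ((∃ H : Subgroup (alternatingGroup (Fin n)), Nonempty (↥H ≃* ↥(Cfsg.qd p))) ↔ p ^ 2 ≤ n) ∧ (n < p ^ 2 → ¬ Cfsg.Involves ↥(Cfsg.qd p) ↥(alternatingGroup (Fin n))) := by
  refine ⟨⟨?_, CfsgLib.FgQd.exists_emb hp n⟩, CfsgLib.FgQd.not_involved hp n⟩
  rintro ⟨H, ⟨e⟩⟩
  by_contra hcon
  push Not at hcon
  apply CfsgLib.FgQd.not_involved hp n hcon
  refine ⟨H, ⊥, ?_, ⟨?_⟩⟩
  · rw [Subgroup.bot_subgroupOf]; infer_instance
  · have h1 : (⊥ : Subgroup (alternatingGroup (Fin n))).subgroupOf H = ⊥ := Subgroup.bot_subgroupOf _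
    exact ((QuotientGroup.quotientMulEquivOfEq h1).trans QuotientGroup.quotientBot).trans e

end Cfsg.Agent.S3835
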