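import Cfsg.Statements.S3838
import Cfsg.Agent.LibNpc9
import Cfsg.Agent.LibBGCop
import Cfsg.Agent.S0081
import Cfsg.Agent.LibHHMin

set_option autoImplicit false
open Cfsg

namespace Cfsg.Agent.S3838

open Cfsg CfsgLib.Npc9 CfsgLib.BGPi
open scoped commutatorElement

universe u

theorem core {G : Type u} [Group G] [Finite G] {p : ℕ} [hp : Fact p.Prime] (P : Sylow p G) (Q : Subgroup G)
    [Q.Normal] (h1 : ∀ x ∈ (P : Subgroup G), ∀ y ∈ (P : Subgroup G), ⁅x, y⁆ ∈ Q) (hQP : Q ≤ (P : Subgroup G))
    (h2 : Q ≤ (frattini P).map (P : Subgroup G).subtype)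
    (hN : HasNormalPComplement p ↥(Subgroup.normalizer ((P : Subgroup G) : Set G))) :
    HasNormalPComplement p G := by
  classical
  set π := QuotientGroup.mk' Q with hπ
  have hπs : Function.Surjective π := QuotientGroup.mk'_surjective Q
  have hker : π.ker = Q := QuotientGroup.ker_mk' Q
  have hcomap : ((P : Subgroup G).map π).comap π = P := by
    rw [Subgroup.comap_map_eq, hker, sup_eq_left.2 hQP]
  have hq : HasNormalPComplement p (G ⧸ Q) := by
    apply hnpc_of_central (P.mapSurjective hπs)
    rw [Sylow.coe_mapSurjective]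
    intro y hy
    obtain ⟨g, rfl⟩ := hπs y
    have hg : g ∈ Subgroup.normalizer ((P : Subgroup G) : Set G) := by
      rw [Subgroup.mem_normalizer_iff] at hy ⊢
      intro x
      have := hy (π x)
      rw [← Subgroup.mem_comap, hcomap] at this
      rw [this, ← map_inv, ← map_mul, ← map_mul, ← Subgroup.mem_comap, hcomap]
    set N := Subgroup.normalizer ((P : Subgroup G) : Set G) with hNdef
    set K := pPrimeCore p N with hK
    obtain ⟨k, hk⟩ := hnpc_iff_pPrimeCore.1 hN
    have hPN : (P : Subgroup G) ≤ N := Subgroup.le_normalizer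
    haveI : ((P : Subgroup G).subgroupOf N).Normal := normal_subgroupOf hPN le_rfl
    have hcen := pPrimeCore_centralizes (G := N) (Q := (P : Subgroup G).subgroupOf N)
      (P.isPGroup'.comap_subtype)
    have hsup : K ⊔ (P : Subgroup G).subgroupOf N = ⊤ := by
      rw [← Subgroup.index_eq_one]
      have a1 : (K ⊔ (P : Subgroup G).subgroupOf N).index ∣ p ^ k := hk ▸ Subgroup.index_dvd_of_le le_sup_left
      have a2 : (K ⊔ (P : Subgroup G).subgroupOf N).index ∣ ((P : Subgroup G).subgroupOf N).index :=
        Subgroup.index_dvd_of_le le_sup_right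
      have a3 : ¬ p ∣ ((P : Subgroup G).subgroupOf N).index := by
        intro h
        apply P.not_dvd_index
        have : (P : Subgroup G).relIndex N ∣ (P : Subgroup G).index := Subgroup.relIndex_dvd_index_of_le hPN
        exact h.trans this
      exact Nat.eq_one_of_dvd_coprimes (Nat.Coprime.pow_left k ((Nat.Prime.coprime_iff_not_dvd hp.out).2 a3)) a1 a2
    have hgm : (⟨g, hg⟩ : N) ∈ K ⊔ (P : Subgroup G).subgroupOf N := by rw [hsup]; trivial
    obtain ⟨κ, hκ, x, hx, e⟩ := Subgroup.mem_sup_of_normal_right.1 hgm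
    have e' : (κ : G) * (x : G) = g := congrArg Subtype.val e
    rintro _ ⟨z, hz, rfl⟩
    have hxz : π (x : G) * π z = π z * π (x : G) := by
      have h3 : π ⁅(x : G), z⁆ = 1 := by
        rw [← MonoidHom.mem_ker, hker]; exact h1 _ hx _ hz
      rw [map_commutatorElement, commutatorElement_eq_one_iff_mul_comm] at h3
      exact h3
    have hκz : (κ : G) * z = z * κ := by
      have := Subgroup.mem_centralizer_iff.1 (hcen hκ) ⟨z, hPN hz⟩ (show z ∈ (P : Subgroup G) from hz)
      exact (congrArg Subtype.val this).symm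
    rw [← e', map_mul]
    calc π z * (π (κ : G) * π (x : G)) = (π z * π (κ : G)) * π (x : G) := by rw [mul_assoc]
      _ = (π (κ : G) * π z) * π (x : G) := by rw [← map_mul, ← hκz, map_mul]
      _ = π (κ : G) * (π z * π (x : G)) := by rw [mul_assoc]
      _ = _ := by rw [← hxz, mul_assoc]
  -- M = preimage of the complement
  obtain ⟨k, hk⟩ := hnpc_iff_pPrimeCore.1 hq
  set M := (pPrimeCore p (G ⧸ Q)).comap π with hM
  haveI hMn : M.Normal := (inferInstance : (pPrimeCore p (G ⧸ Q)).Normal).comap π
  have hMidx : M.index = p ^ k := by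
    rw [hM, Subgroup.index_comap_of_surjective _ hπs, hk]
  have hMP : M ⊓ (P : Subgroup G) ≤ Q := by
    rintro x ⟨hxM, hxP⟩
    rw [← hker, MonoidHom.mem_ker]
    have h3 : π x ∈ pPrimeCore p (G ⧸ Q) := hxM
    have h4 : (orderOf (π x)).Coprime p :=
      Nat.Coprime.coprime_dvd_left (Subgroup.orderOf_dvd_natCard _ h3) (CfsgLib.Cores.pPrimeCore_coprime p)
    obtain ⟨j, hj⟩ := P.isPGroup' ⟨x, hxP⟩
    have h5 : x ^ p ^ j = 1 := congrArg Subtype.val hj
    have h6 : orderOf (π x) ∣ p ^ j := orderOf_dvd_of_pow_eq_one (by rw [← map_pow, h5, map_one])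
    exact orderOf_eq_one_iff.1 (Nat.eq_one_of_dvd_coprimes (Nat.Coprime.pow_right j h4) dvd_rfl h6)
  exact hnpc_of_normal_index hMn hMidx (Cfsg.Agent.S0081.result P M (hMP.trans h2))

/-- Let G be a finite group with Sylow p-subgroup P such that N_G(P) has a normal p-complement. Then N_G(Q) has a normal p-complement for every subgroup Q with [P, P] ≤ Q ≤ Φ(P). -/
theorem result {G : Type*} [Group G] [Finite G] {p : ℕ} [Fact p.Prime] (P : Sylow p G) (hN : Cfsg.HasNormalPComplement p ↥(Subgroup.normalizer ((P : Subgroup G) : Set G))) (Q : Subgroup G) (h1 : (commutator ↥(P : Subgroup G)).map (P : Subgroup G).subtype ≤ Q) (h2 : Q ≤ (frattini ↥(P : Subgroup G)).map (P : Subgroup G).subtype) : Cfsg.HasNormalPComplement p ↥(Subgroup.normalizer (Q : Set G)) := by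
  have hp : p.Prime := Fact.out
  set H := Subgroup.normalizer (Q : Set G) with hH
  have hPn : (P : Subgroup G) ≤ H := by
    rw [le_nz]
    intro x hx q hq
    have hqP : q ∈ (P : Subgroup G) := by
      obtain ⟨y, -, rfl⟩ := h2 hq
      exact y.2
    have e : x * q * x⁻¹ = ⁅x, q⁆ * q := by rw [commutatorElement_def]; group
    rw [e]
    refine mul_mem (h1 ?_) hq
    rw [Subgroup.map_subtype_commutator]
    exact Subgroup.commutator_mem_commutator hx hqP
  have hQP : Q ≤ (P : Subgroup G) := h2.trans (Subgroup.map_subtype_le _)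
  have hQH : Q ≤ H := Subgroup.le_normalizer
  haveI : (Q.subgroupOf H).Normal := normal_subgroupOf hQH le_rfl
  set PH : Sylow p H := P.subtype hPn with hPH
  have hPHc : (PH : Subgroup H) = (P : Subgroup G).subgroupOf H := rfl
  apply core PH (Q.subgroupOf H)
  · intro x hx y hy
    rw [Subgroup.mem_subgroupOf]
    apply h1
    rw [Subgroup.map_subtype_commutator]
    exact Subgroup.commutator_mem_commutator (H₁ := (P : Subgroup G)) (H₂ := (P : Subgroup G)) hx hy
  · exact Subgroup.comap_mono hQP
  · rw [CfsgLib.HHMin.map_frattini hp PH.isPGroup']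
    have h3 : Q ≤ phi p (P : Subgroup G) := by
      rw [← CfsgLib.HHMin.map_frattini hp P.isPGroup']; exact h2
    have h4 : (phi p (PH : Subgroup H)).map H.subtype = phi p (P : Subgroup G) := by
      rw [phi, phi, Subgroup.map_sup, Subgroup.map_commutator, MonoidHom.map_closure, hPHc,
        subgroupOf_map hPn]
      congr 2
      ext y
      constructor
      · rintro ⟨_, ⟨x, hx, rfl⟩, rfl⟩
        exact ⟨x, hx, rfl⟩
      · rintro ⟨x, hx, rfl⟩
        exact ⟨(⟨x, hPn hx⟩ : H) ^ p, ⟨_, hx, rfl⟩, rfl⟩
    intro x hx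
    have h5 : (x : G) ∈ (phi p (PH : Subgroup H)).map H.subtype := by
      rw [h4]; exact h3 hx
    obtain ⟨y, hy, e⟩ := h5
    have : y = x := Subtype.ext e
    rw [← this]; exact hy
  · let f : ↥(Subgroup.normalizer ((PH : Subgroup H) : Set H)) →* ↥(Subgroup.normalizer ((P : Subgroup G) : Set G)) :=
      (H.subtype.comp (Subgroup.normalizer ((PH : Subgroup H) : Set H)).subtype).codRestrict _ (by
        intro x
        rw [Subgroup.mem_normalizer_iff]
        intro y
        change y ∈ (P : Subgroup G) ↔ (x : H) * y * ((x : H) : G)⁻¹ ∈ (P : Subgroup G)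
        have h3 := Subgroup.mem_normalizer_iff.1 x.2
        constructor
        · intro hy
          exact (h3 ⟨y, hPn hy⟩).1 hy
        · intro hy
          have h4 : y ∈ H := by
            have h5 := H.mul_mem (H.mul_mem (H.inv_mem (x : H).2) (hPn hy)) (x : H).2
            simpa [mul_assoc] using h5
          exact (h3 ⟨y, h4⟩).2 hy)
    apply hnpc_of_injective f _ hN
    intro a b hab
    have : ((f a : ↥(Subgroup.normalizer ((P : Subgroup G) : Set G))) : G) = ((f b : ↥(Subgroup.normalizer ((P : Subgroup G) : Set G))) : G) := by rw [hab]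
    exact Subtype.ext (Subtype.ext this)


end Cfsg.Agent.S3838
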