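import Cfsg.Statements.S3839
import Cfsg.Agent.LibFusionH12
import Cfsg.Agent.LibNpc9
import Cfsg.Agent.S0072

set_option autoImplicit false
open Cfsg

namespace Cfsg.Agent.S3839



open Subgroup CfsgLib.FusionH12 CfsgLib.Npc9

universe u
variable {p : ℕ} [hp : Fact p.Prime]

/-- local hypothesis -/
def Loc (p : ℕ) {G : Type u} [Group G] (D : Subgroup G) : Prop :=
  ∀ U : Subgroup G, U ≤ D → D ⊓ centralizer (U : Set G) ≤ U →
    HasNormalPComplement p ↥(normalizer (U : Set G))

theorem hnpc_map {G H : Type u} [Group G] [Finite G] [Group H] [Finite H] (f : G →* H)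
    (N : Subgroup G) (h : HasNormalPComplement p N) : HasNormalPComplement p (N.map f) :=
  hnpc_of_surjective (f.subgroupMap N) (f.subgroupMap_surjective N) h

theorem nrm_le_nrm_inf {G : Type u} [Group G] {S D : Subgroup G} (hD : IsStronglyClosed D S)
    {Q : Subgroup G} (hQ : Q ≤ S) : normalizer (Q : Set G) ≤ normalizer ((Q ⊓ D : Subgroup G) : Set G) := by
  rw [CfsgLib.BGPi.le_nz]
  intro x hx y hy
  have h1 : x * y * x⁻¹ ∈ Q := (Subgroup.mem_normalizer_iff.1 hx y).1 hy.1
  exact ⟨h1, hD.2 y hy.2 x (hQ h1)⟩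

theorem sub_step {n : ℕ} {b : Prop}
    (ih : ∀ (H : Type u) [Group H] [Finite H] (S D : Subgroup H), Nat.card H < n → SylIn p S ⊤ →
      IsStronglyClosed D S → (b → D = S) → Loc p D → HasNormalPComplement p H)
    {G : Type u} [Group G] [Finite G] (hn : Nat.card G = n) {S D : Subgroup G}
    (hD : IsStronglyClosed D S) (hb : b → D = S) (hL : Loc p D)
    {U H : Subgroup G} (hU : U ≤ D) (hH : H ≤ normalizer (U : Set G))
    (hC : D ⊓ centralizer (U : Set G) ≤ H) (hSH : SylIn p (S ⊓ H) H) (hne : H ≠ ⊤) :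
    HasNormalPComplement p H := by
  refine ih H (S.subgroupOf H) (D.subgroupOf H) ?_ ?_ ?_ ?_ ?_
  · rw [← hn]
    exact lt_of_le_of_ne (Subgroup.card_le_card_group H) fun h => hne (Subgroup.eq_top_of_card_eq H h)
  · obtain ⟨P, hP⟩ := hSH.toSylow
    have : S.subgroupOf H = P := by rw [hP, Subgroup.inf_subgroupOf_right]
    rw [this]
    exact SylIn.ofSylow P
  · refine ⟨Subgroup.comap_mono hD.1, ?_⟩
    intro x hx g hg
    exact hD.2 x hx g hg
  · intro h; rw [hb h]
  · intro V hV hVc
    set V' := V.map H.subtype with hV'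
    have hV'D : V' ≤ D := by
      rintro _ ⟨v, hv, rfl⟩
      exact hV hv
    have h1 : HasNormalPComplement p ↥(normalizer ((V' ⊔ U : Subgroup G) : Set G)) := by
      refine hL _ (sup_le hV'D hU) ?_
      intro c hc
      have hcU : c ∈ centralizer (U : Set G) :=
        Subgroup.centralizer_le (SetLike.coe_subset_coe.2 (le_sup_right : U ≤ V' ⊔ U)) hc.2
      have hcH : c ∈ H := hC ⟨hc.1, hcU⟩
      have h2 : (⟨c, hcH⟩ : H) ∈ V := by
        refine hVc ⟨hc.1, ?_⟩
        show (⟨c, hcH⟩ : H) ∈ centralizer (V : Set H)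
        rw [Subgroup.mem_centralizer_iff]
        intro v hv
        apply Subtype.ext
        have h3 : (v : G) ∈ V' := ⟨v, hv, rfl⟩
        exact Subgroup.mem_centralizer_iff.1 hc.2 v (le_sup_left (a := V') h3)
      exact le_sup_left (a := V') ⟨_, h2, rfl⟩
    have h2 : (normalizer (V : Set H)).map H.subtype ≤ normalizer ((V' ⊔ U : Subgroup G) : Set G) := by
      apply CfsgLib.BGPi.le_nz_sup
      · rw [CfsgLib.BGPi.le_nz]
        rintro _ ⟨x, hx, rfl⟩ _ ⟨v, hv, rfl⟩
        exact ⟨x * v * x⁻¹, (Subgroup.mem_normalizer_iff.1 hx v).1 hv, rfl⟩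
      · rintro _ ⟨x, hx, rfl⟩
        exact hH x.2
    have h3 := hnpc_subgroup_le h2 h1
    exact (hnpc_equiv (Subgroup.equivMapOfInjective _ _ H.subtype_injective)).2 h3

theorem index_pow {G : Type u} [Group G] [Finite G] {S D : Subgroup G} (hS : SylIn p S ⊤)
    (hD : IsStronglyClosed D S) (hL : Loc p D) {U : Subgroup G} (hU : U ≤ D) [hUn : U.Normal] :
    ∃ k, (centralizer (U : Set G)).index = p ^ k := by
  set C := centralizer (U : Set G) with hCd
  haveI hCn : C.Normal := by rw [hCd]; infer_instance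
  have hSC : SylIn p (S ⊓ C) C := hS.inf_normal le_top (by rw [Subgroup.normalizer_eq_top])
  set W := U ⊔ (D ⊓ C) with hW
  have hWD : W ≤ D := sup_le hU inf_le_left
  set N := normalizer (W : Set G) with hN
  have hNp : HasNormalPComplement p N := by
    refine hL W hWD ?_
    intro c hc
    exact le_sup_right (a := U) ⟨hc.1, Subgroup.centralizer_le (SetLike.coe_subset_coe.2 (le_sup_left : U ≤ W)) hc.2⟩
  have hNS : normalizer ((S ⊓ C : Subgroup G) : Set G) ≤ N := by
    apply CfsgLib.BGPi.le_nz_sup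
    · rw [Subgroup.normalizer_eq_top U]; exact le_top
    · have := nrm_le_nrm_inf hD (Q := S ⊓ C) inf_le_left
      have e : S ⊓ C ⊓ D = D ⊓ C := by
        rw [inf_right_comm, inf_of_le_right hD.1]
      rwa [e] at this
  have hG : ∀ x : G, ∃ c ∈ C, c * x ∈ N := by
    intro x
    have h1 : SylIn p (cj x (S ⊓ C)) C := by
      have := hSC.cj x
      rwa [cj_of_normal x C] at this
    obtain ⟨a, haC, ha⟩ := hSC.exists_conj h1
    refine ⟨a, haC, hNS ?_⟩
    rw [mem_nrm]
    rw [← cj_mul] at ha
    exact ha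
  let f : N →* G ⧸ C := (QuotientGroup.mk' C).comp N.subtype
  have hf : Function.Surjective f := by
    intro y
    obtain ⟨x, rfl⟩ := QuotientGroup.mk_surjective y
    obtain ⟨c, hc, hx⟩ := hG x
    refine ⟨⟨c * x, hx⟩, ?_⟩
    show (QuotientGroup.mk (c * x) : G ⧸ C) = QuotientGroup.mk x
    rw [QuotientGroup.mk_mul, (QuotientGroup.eq_one_iff c).2 hc, one_mul]
  haveI hWn : (W.subgroupOf N).Normal := Subgroup.normal_in_normalizer
  have hWp : IsPGroup p (W.subgroupOf N) :=
    (hS.pg.to_le (hWD.trans hD.1)).comap_subtype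
  have hker : pPrimeCore p N ≤ f.ker := by
    intro x hx
    have h1 := pPrimeCore_centralizes hWp hx
    rw [MonoidHom.mem_ker]
    show (QuotientGroup.mk (x : G) : G ⧸ C) = 1
    rw [QuotientGroup.eq_one_iff, hCd, Subgroup.mem_centralizer_iff]
    intro u hu
    have huW : u ∈ W := le_sup_left (a := U) hu
    have h2 : (⟨u, Subgroup.le_normalizer huW⟩ : N) ∈ (W.subgroupOf N : Set N) := huW
    have h3 := Subgroup.mem_centralizer_iff.1 h1 _ h2
    exact congrArg Subtype.val h3
  obtain ⟨k, hk⟩ := hnpc_iff_pPrimeCore.1 hNp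
  have h4 : f.ker.index ∣ p ^ k := hk ▸ Subgroup.index_dvd_of_le hker
  have h5 : f.ker.index = C.index := by
    rw [Subgroup.index_ker, MonoidHom.range_eq_top.2 hf, Subgroup.card_top]; rfl
  rw [h5] at h4
  obtain ⟨m, _, hm⟩ := (Nat.dvd_prime_pow hp.out).1 h4
  exact ⟨m, hm⟩

theorem central_step {n : ℕ} {b : Prop}
    (ih : ∀ (H : Type u) [Group H] [Finite H] (S D : Subgroup H), Nat.card H < n → SylIn p S ⊤ →
      IsStronglyClosed D S → (b → D = S) → Loc p D → HasNormalPComplement p H)
    {G : Type u} [Group G] [Finite G] (hn : Nat.card G = n) {S D : Subgroup G} (hS : SylIn p S ⊤)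
    (hD : IsStronglyClosed D S) (hb : b → D = S) (hL : Loc p D)
    {U : Subgroup G} (hU : U ≤ D) (hU1 : U ≠ ⊥) [hUn : U.Normal] (hC : centralizer (U : Set G) = ⊤) :
    HasNormalPComplement p G := by
  set π := QuotientGroup.mk' U with hπ
  have hπs : Function.Surjective π := QuotientGroup.mk'_surjective U
  have hUS : U ≤ S := hU.trans hD.1
  have hup : ∀ T : Subgroup G, U ≤ T → ∀ x, π x ∈ T.map π → x ∈ T := by
    rintro T hT x ⟨t, ht, hx⟩
    have h1 : t⁻¹ * x ∈ U := by
      rw [← QuotientGroup.eq_one_iff]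
      show π (t⁻¹ * x) = 1
      rw [map_mul, map_inv, hx, inv_mul_cancel]
    have := T.mul_mem ht (hT h1)
    rwa [mul_inv_cancel_left] at this
  have hq : HasNormalPComplement p (G ⧸ U) := by
    refine ih (G ⧸ U) (S.map π) (D.map π) ?_ ?_ ?_ ?_ ?_
    · rw [← hn]
      have h1 := Subgroup.card_eq_card_quotient_mul_card_subgroup U
      have h2 : 1 < Nat.card U := (Subgroup.one_lt_card_iff_ne_bot U).2 hU1
      have h3 : 0 < Nat.card (G ⧸ U) := Nat.card_pos
      rw [h1]; exact lt_mul_of_one_lt_right h3 h2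
    · refine ⟨le_top, hS.pg.map _, ?_⟩
      rw [Subgroup.relIndex_top_right]
      intro h
      apply hS.idx
      rw [Subgroup.relIndex_top_right]
      exact h.trans (Subgroup.index_map_dvd S hπs)
    · refine ⟨Subgroup.map_mono hD.1, ?_⟩
      rintro _ ⟨d, hd, rfl⟩ g hg
      obtain ⟨g, rfl⟩ := hπs g
      rw [← map_inv, ← map_mul, ← map_mul] at hg ⊢
      exact ⟨_, hD.2 d hd g (hup S hUS _ hg), rfl⟩
    · intro h; rw [hb h]
    · intro V hV hVc
      have h1 : HasNormalPComplement p ↥(normalizer ((V.comap π : Subgroup G) : Set G)) := by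
        refine hL _ ?_ ?_
        · intro v hv
          exact hup D hU v (hV hv)
        · intro c hc
          refine hVc ⟨⟨c, hc.1, rfl⟩, ?_⟩
          show π c ∈ centralizer (V : Set (G ⧸ U))
          rw [Subgroup.mem_centralizer_iff]
          intro v hv
          obtain ⟨v, rfl⟩ := hπs v
          have := Subgroup.mem_centralizer_iff.1 hc.2 v hv
          show π v * π c = π c * π v
          rw [← map_mul, this, map_mul]
      have h2 : (normalizer (V : Set (G ⧸ U))) = (normalizer ((V.comap π : Subgroup G) : Set G)).map π := by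
        rw [← Subgroup.comap_normalizer_eq_of_surjective V hπs,
          Subgroup.map_comap_eq_self_of_surjective hπs]
      rw [h2]
      exact hnpc_map π _ h1
  -- lift through the central subgroup
  obtain ⟨k, hk⟩ := hnpc_iff_pPrimeCore.1 hq
  set K := (pPrimeCore p (G ⧸ U)).comap π with hK
  haveI hKn : K.Normal := by rw [hK]; infer_instance
  have hKi : K.index = p ^ k := by rw [hK, Subgroup.index_comap_of_surjective _ hπs, hk]
  refine hnpc_of_normal_index hKn hKi ?_
  have hUK : U ≤ K := by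
    intro u hu
    rw [hK, Subgroup.mem_comap]
    have : π u = 1 := (QuotientGroup.eq_one_iff u).2 hu
    rw [this]; exact one_mem _
  have hidx : (U.subgroupOf K).index = Nat.card (pPrimeCore p (G ⧸ U)) := by
    show U.relIndex K = _
    have h1 : U = π.ker := (QuotientGroup.ker_mk' U).symm
    conv_lhs => rw [h1]
    rw [Subgroup.relIndex_ker, hK, Subgroup.map_comap_eq_self_of_surjective hπs]
  have hUp : IsPGroup p (U.subgroupOf K) := (hS.pg.to_le hUS).comap_subtype
  have hnd : ¬ p ∣ (U.subgroupOf K).index := by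
    rw [hidx, ← Nat.Prime.coprime_iff_not_dvd hp.out]
    exact (CfsgLib.Cores.pPrimeCore_coprime p).symm
  refine hnpc_of_central (hUp.toSylow hnd) ?_
  intro x _
  rw [Subgroup.mem_centralizer_iff]
  intro u hu
  have hu' : (u : G) ∈ U := hu
  have hx : (x : G) ∈ centralizer (U : Set G) := by rw [hC]; exact Subgroup.mem_top _
  exact Subtype.ext (Subgroup.mem_centralizer_iff.1 hx _ hu')

theorem step {n : ℕ} {b : Prop}
    (ih : ∀ (H : Type u) [Group H] [Finite H] (S D : Subgroup H), Nat.card H < n → SylIn p S ⊤ →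
      IsStronglyClosed D S → (b → D = S) → Loc p D → HasNormalPComplement p H)
    {G : Type u} [Group G] [Finite G] (hn : Nat.card G = n) {S D : Subgroup G} (hS : SylIn p S ⊤)
    (hD : IsStronglyClosed D S) (hb : b → D = S) (hL : Loc p D) :
    HasNormalPComplement p G ∨ ∀ U ≤ D, U ≠ ⊥ → HasNormalPComplement p ↥(normalizer (U : Set G)) := by
  by_cases hx : ∃ U ≤ D, U ≠ ⊥ ∧ U.Normal
  · left
    obtain ⟨U, hU, hU1, hUn⟩ := hx
    by_cases hC : centralizer (U : Set G) = ⊤
    · exact central_step ih hn hS hD hb hL hU hU1 hC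
    · obtain ⟨k, hk⟩ := index_pow hS hD hL hU
      refine hnpc_of_normal_index inferInstance hk ?_
      refine sub_step ih hn hD hb hL hU ?_ inf_le_right ?_ hC
      · rw [Subgroup.normalizer_eq_top]; exact le_top
      · exact hS.inf_normal le_top (by rw [Subgroup.normalizer_eq_top])
  · right
    intro U hU hU1
    have hUp : IsPGroup p U := hS.pg.to_le (hU.trans hD.1)
    obtain ⟨T, hUT, hT⟩ := SylIn.exists_ge hUp (Subgroup.le_normalizer (H := U))
    obtain ⟨a, -, ha⟩ := hS.exists_conj_le hT.pg le_top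
    have hU' : cj a U ≤ D := by
      rw [cj_le']
      intro u hu
      exact hD.2 u (hU hu) a (ha (conj_mem_cj (hUT hu)))
    have h1 : SylIn p (cj a T) (normalizer ((cj a U : Subgroup G) : Set G)) := by
      have := hT.cj a
      rwa [cj_normalizer] at this
    have h2 : S ⊓ normalizer ((cj a U : Subgroup G) : Set G) = cj a T :=
      h1.eq_of_le (hS.pg.to_le inf_le_left) inf_le_right (le_inf ha h1.le)
    have hnt : normalizer ((cj a U : Subgroup G) : Set G) ≠ ⊤ := by
      intro h
      exact hx ⟨cj a U, hU', fun h' => hU1 (cj_eq_bot.1 h'), Subgroup.normalizer_eq_top_iff.1 h⟩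
    have h3 : HasNormalPComplement p ↥(normalizer ((cj a U : Subgroup G) : Set G)) := by
      refine sub_step ih hn hD hb hL hU' le_rfl ?_ ?_ hnt
      · exact inf_le_right.trans (Subgroup.centralizer_le_normalizer _)
      · rw [h2]; exact h1
    rw [← cj_normalizer] at h3
    exact (hnpc_equiv (Subgroup.equivMapOfInjective _ _ (MulAut.conj a).injective)).2 h3

theorem T1 (n : ℕ) : ∀ (G : Type u) [Group G] [Finite G] (S D : Subgroup G), Nat.card G = n →
    SylIn p S ⊤ → IsStronglyClosed D S → (True → D = S) → Loc p D → HasNormalPComplement p G := by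
  induction n using Nat.strong_induction_on with
  | _ n ih =>
  intro G _ _ S D hn hS hD hb hL
  rcases step (b := True) (fun H _ _ S' D' h1 h2 h3 h4 h5 => ih _ h1 H S' D' rfl h2 h3 h4 h5)
    hn hS hD hb hL with h | h
  · exact h
  · rw [Cfsg.Agent.S0072.result p]
    intro Q hQ hQ1
    obtain ⟨a, -, ha⟩ := hS.exists_conj_le hQ le_top
    have h1 := h (cj a Q) (by rw [hb trivial]; exact ha) (fun h' => hQ1 (cj_eq_bot.1 h'))
    rw [← cj_normalizer] at h1
    exact (hnpc_equiv (Subgroup.equivMapOfInjective _ _ (MulAut.conj a).injective)).2 h1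

theorem sc_self {G : Type u} [Group G] (S : Subgroup G) : IsStronglyClosed S S :=
  ⟨le_rfl, fun _ _ _ h => h⟩

theorem T2 (n : ℕ) : ∀ (G : Type u) [Group G] [Finite G] (S D : Subgroup G), Nat.card G = n →
    SylIn p S ⊤ → IsStronglyClosed D S → (False → D = S) → Loc p D → HasNormalPComplement p G := by
  induction n using Nat.strong_induction_on with
  | _ n ih =>
  intro G _ _ S D hn hS hD hb hL
  rcases step (b := False) (fun H _ _ S' D' h1 h2 h3 h4 h5 => ih _ h1 H S' D' rfl h2 h3 h4 h5)
    hn hS hD hb hL with h | h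
  · exact h
  · by_cases hD1 : D = ⊥
    · have := hL ⊥ bot_le (by rw [hD1]; exact inf_le_left)
      have e : normalizer (((⊥ : Subgroup G)) : Set G) = ⊤ := Subgroup.normalizer_eq_top _
      rw [e] at this
      exact (hnpc_equiv Subgroup.topEquiv).1 this
    refine T1 _ G S S rfl hS (sc_self S) (fun _ => rfl) ?_
    intro Q hQ hQc
    have hQD : Q ⊓ D ≠ ⊥ := by
      intro hbot
      have hnle : ¬ D ≤ Q := by
        intro hle
        rw [inf_of_le_right hle] at hbot
        exact hD1 hbot
      have hlt : Q < Q ⊔ D := lt_of_le_of_ne le_sup_left (fun he => hnle (he ▸ le_sup_right))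
      have hTp : IsPGroup p ↥(Q ⊔ D) := hS.pg.to_le (sup_le hQ hD.1)
      have h1 := lt_nrm_inf hTp hlt
      obtain ⟨x, hx, hxQ⟩ := SetLike.exists_of_lt h1
      have hSD : S ≤ normalizer (D : Set G) := by
        rw [CfsgLib.BGPi.le_nz]
        intro s hs d hd
        exact hD.2 d hd s (S.mul_mem (S.mul_mem hs (hD.1 hd)) (S.inv_mem hs))
      have hx1 : x ∈ Q ⊔ D := hx.1
      have hx2 : x ∈ normalizer (Q : Set G) := hx.2
      rw [CfsgLib.BGPi.mem_sup_of_nz (hQ.trans hSD)] at hx1
      obtain ⟨q, hq, d, hd, rfl⟩ := hx1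
      have hdN : d ∈ normalizer (Q : Set G) := by
        have := (normalizer (Q : Set G)).mul_mem (inv_mem (Subgroup.le_normalizer hq)) hx2
        rwa [inv_mul_cancel_left] at this
      have hdQ : d ∉ Q := fun h' => hxQ (Q.mul_mem hq h')
      apply hdQ
      apply hQc
      refine ⟨hD.1 hd, ?_⟩
      show d ∈ centralizer (Q : Set G)
      rw [Subgroup.mem_centralizer_iff]
      intro y hy
      have h2 : d * y * d⁻¹ * y⁻¹ ∈ Q := Q.mul_mem ((Subgroup.mem_normalizer_iff.1 hdN y).1 hy) (Q.inv_mem hy)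
      have h3 : d * y * d⁻¹ * y⁻¹ ∈ D := by
        have := (Subgroup.mem_normalizer_iff.1 (hSD (hQ hy)) d⁻¹).1 (D.inv_mem hd)
        have := D.mul_mem hd this
        simpa [mul_assoc] using this
      have h4 : d * y * d⁻¹ * y⁻¹ ∈ Q ⊓ D := ⟨h2, h3⟩
      rw [hbot, Subgroup.mem_bot, mul_inv_eq_one, mul_inv_eq_iff_eq_mul] at h4
      exact h4.symm
    exact hnpc_subgroup_le (nrm_le_nrm_inf hD hQ) (h _ inf_le_right hQD)

/-- A Frobenius normal p-complement criterion relative to a strongly closed subgroup. Let G be a finite group, S a Sylow p-subgroup and D a subgroup of S strongly closed in S with respect to G. Then G has a normal p-complement if and only if N_G(U) has a normal p-complement for every subgroup U of D with C_D(U) ≤ U. -/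
theorem result {G : Type*} [Group G] [Finite G] {p : ℕ} [Fact p.Prime] (S : Sylow p G) (D : Subgroup G) (hD : Cfsg.IsStronglyClosed D (S : Subgroup G)) : Cfsg.HasNormalPComplement p G ↔ ∀ U : Subgroup G, U ≤ D → D ⊓ Subgroup.centralizer (U : Set G) ≤ U → Cfsg.HasNormalPComplement p ↥(Subgroup.normalizer (U : Set G)) := by
  constructor
  · intro h U _ _
    exact CfsgLib.Npc9.hnpc_subgroup _ h
  · intro h
    exact T2 _ G (S : Subgroup G) D rfl (CfsgLib.FusionH12.SylIn.ofSylow S) hD (fun h => h.elim) h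

end Cfsg.Agent.S3839
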