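import Cfsg.Statements.S3857
import Cfsg.Agent.LibFgGK2

set_option autoImplicit false
open Cfsg

namespace Cfsg.Agent.S3857

set_option linter.style.haveILetI false
set_option linter.unusedSectionVars false
set_option linter.unusedVariables false

/-- A finite solvable group whose prime graph (prime divisors of the order, two distinct primes joined when there is an element of order their product) is disconnected is a Frobenius group or a 2-Frobenius group (it has normal subgroups H < K with K a Frobenius group with kernel H and G/H a Frobenius group with kernel K/H). -/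
theorem result {G : Type*} [Group G] [Finite G] (hsol : Group.IsSolvable G)
    (hdisc : (∃ A : Set ℕ, (∃ a ∈ A, a.Prime ∧ a ∣ Nat.card G) ∧ (∃ b ∉ A, b.Prime ∧ b ∣ Nat.card G) ∧
      ∀ a ∈ A, ∀ b ∉ A, a.Prime → b.Prime → a ∣ Nat.card G → b ∣ Nat.card G → ¬ ∃ g : G, orderOf g = a * b)) :
    (∃ C : Subgroup G, Cfsg.IsFrobeniusComplement C) ∨
    (∃ (H K : Subgroup G) (_ : H.Normal), K.Normal ∧ H < K ∧
      (∃ C : Subgroup ↥K, Cfsg.IsFrobeniusComplement C ∧ Cfsg.frobeniusKernel C = (H.subgroupOf K : Set ↥K)) ∧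
      (∃ C : Subgroup (G ⧸ H), Cfsg.IsFrobeniusComplement C ∧ Cfsg.frobeniusKernel C = (K.map (QuotientGroup.mk' H) : Set (G ⧸ H)))) := by
  obtain ⟨A, ⟨a, haA, ha, haG⟩, ⟨b, hbA, hb, hbG⟩, hsep⟩ := hdisc
  have hS : CfsgLib.FgGK.Sep A G := by
    intro p q hp hq hpA hqA g hg
    have hd1 : p ∣ Nat.card G := (Dvd.intro q rfl).trans (hg ▸ orderOf_dvd_natCard g)
    have hd2 : q ∣ Nat.card G := (Dvd.intro_left p rfl).trans (hg ▸ orderOf_dvd_natCard g)
    exact hsep p hpA q hqA hp hq hd1 hd2 ⟨g, hg⟩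
  have hnt : (⊤ : Subgroup G) ≠ ⊥ := by
    intro h
    have h1 : Nat.card G = 1 := by rw [← Subgroup.card_top, h, Subgroup.card_bot]
    rw [h1] at haG
    exact ha.one_lt.ne' (Nat.dvd_one.mp haG)
  obtain ⟨M, p, hp, hM, -, -, -, hMp⟩ := CfsgLib.SolvMin.exists_minNormal_pgroup_of_solvable (⊤ : Subgroup G) hnt
  have hMn : M.Normal := hM.1
  have hMne : M ≠ ⊥ := hM.2.1
  have hpi : ∀ τ : Set ℕ, p ∈ τ → Cfsg.piCore τ G ≠ ⊥ := by
    intro τ hpτ hbot
    apply hMne
    rw [eq_bot_iff, ← hbot]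
    apply CfsgLib.BGPi.le_piCore hMn
    intro q hq hqd
    have : Fact p.Prime := ⟨hp⟩
    obtain ⟨n, hn⟩ := IsPGroup.iff_card.mp hMp
    rw [hn] at hqd
    rw [(Nat.prime_dvd_prime_iff_eq hq hp).mp (hq.dvd_of_dvd_pow hqd)]
    exact hpτ
  by_cases hpA : p ∈ A
  · exact CfsgLib.FgGK.main hS (hpi A hpA) hb hbA hbG
  · exact CfsgLib.FgGK.main hS.compl (hpi Aᶜ hpA) ha (fun h => h haA) haG

end Cfsg.Agent.S3857
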