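import Cfsg.Statements.S3859
import Cfsg.Agent.LibFusionH12
import Cfsg.Agent.LibBGPi

set_option autoImplicit false
open Cfsg

namespace Cfsg.Agent.S3859



open Subgroup

theorem not_normal {G : Type*} [Group G] [Finite G] (T : Subgroup G) [T.Normal] (hT : IsSimpleGroup T) (hna : ¬ IsMulCommutative T)
    {r : ℕ} [Fact r.Prime] (R : Sylow r G) (hR0 : (R : Subgroup G) ⊓ T ≠ ⊥) :
    ¬ ((R : Subgroup G) ⊓ T).Normal := by
  intro hn
  have h1 : (((R : Subgroup G) ⊓ T).subgroupOf T).Normal := hn.subgroupOf T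
  rcases h1.eq_bot_or_eq_top with h2 | h2
  · apply hR0
    rw [Subgroup.subgroupOf_eq_bot] at h2
    have := h2.le_bot
    rw [inf_assoc, inf_idem] at this
    exact le_bot_iff.1 this
  · rw [Subgroup.subgroupOf_eq_top] at h2
    have h3 : IsPGroup r T := R.2.to_le (h2.trans inf_le_left)
    have h4 : Group.IsNilpotent T := h3.isNilpotent
    haveI : Group.IsSolvable T := inferInstance
    apply hna
    have h5 := IsSimpleGroup.comm_iff_isSolvable (G := T).2 this
    exact ⟨⟨h5⟩⟩

theorem frat {G : Type*} [Group G] [Finite G] (T : Subgroup G) [hTn : T.Normal]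
    {r : ℕ} [Fact r.Prime] (R : Sylow r G) : T ⊔ normalizer (((R : Subgroup G) ⊓ T : Subgroup G) : Set G) = ⊤ := by
  have hS := CfsgLib.FusionH12.SylIn.ofSylow R
  have h1 : CfsgLib.FusionH12.SylIn r ((R : Subgroup G) ⊓ T) T := hS.inf_normal le_top (by rw [Subgroup.normalizer_eq_top])
  rw [eq_top_iff]
  intro x _
  have h2 : CfsgLib.FusionH12.SylIn r (CfsgLib.FusionH12.cj x ((R : Subgroup G) ⊓ T)) T := by
    have := h1.cj x
    rwa [CfsgLib.FusionH12.cj_of_normal x T] at this
  obtain ⟨a, haT, ha⟩ := h1.exists_conj h2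
  have h3 : a * x ∈ normalizer (((R : Subgroup G) ⊓ T : Subgroup G) : Set G) := by
    rw [CfsgLib.FusionH12.mem_nrm]
    rw [← CfsgLib.FusionH12.cj_mul] at ha
    exact ha
  have := (T ⊔ normalizer (((R : Subgroup G) ⊓ T : Subgroup G) : Set G)).mul_mem
    (Subgroup.mem_sup_left (T.inv_mem haT)) (Subgroup.mem_sup_right h3)
  rwa [inv_mul_cancel_left] at this

/-- Let G be a finite group with a normal non-abelian simple subgroup T whose centralizer is trivial (G almost simple with socle T), r a prime and R a Sylow r-subgroup of G meeting T nontrivially. If R lies in exactly one maximal subgroup of G, then G/T is an r-group. -/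
theorem result {G : Type*} [Group G] [Finite G] (T : Subgroup G) [T.Normal] (hT : IsSimpleGroup T) (hna : ¬ IsMulCommutative T)
    (hC : Subgroup.centralizer (T : Set G) = ⊥) {r : ℕ} [Fact r.Prime] (R : Sylow r G) (hR0 : (R : Subgroup G) ⊓ T ≠ ⊥)
    (huniq : ∃! M : Subgroup G, IsCoatom M ∧ (R : Subgroup G) ≤ M) : IsPGroup r (G ⧸ T) := by
  obtain ⟨M, ⟨hM, hRM⟩, huM⟩ := huniq
  have hnn := not_normal T hT hna R hR0
  have hNt : normalizer (((R : Subgroup G) ⊓ T : Subgroup G) : Set G) ≠ ⊤ := fun h =>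
    hnn (Subgroup.normalizer_eq_top_iff.1 h)
  have hRN : (R : Subgroup G) ≤ normalizer (((R : Subgroup G) ⊓ T : Subgroup G) : Set G) := by
    apply CfsgLib.BGPi.le_nz_inf Subgroup.le_normalizer
    rw [Subgroup.normalizer_eq_top]; exact le_top
  have key : ∀ H : Subgroup G, H ≠ ⊤ → (R : Subgroup G) ≤ H → H ≤ M := by
    intro H hH hRH
    obtain ⟨M', hM', hHM'⟩ := (eq_top_or_exists_le_coatom H).resolve_left hH
    rw [← huM M' ⟨hM', hRH.trans hHM'⟩]
    exact hHM'
  have hNM := key _ hNt hRN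
  have hTR : T ⊔ (R : Subgroup G) = ⊤ := by
    by_contra h
    have h1 := key _ h le_sup_right
    apply hM.1
    rw [eq_top_iff, ← frat T R]
    exact sup_le (le_sup_left.trans h1) hNM
  have h1 : Function.Surjective ((QuotientGroup.mk' T).comp (R : Subgroup G).subtype) := by
    intro y
    obtain ⟨x, rfl⟩ := QuotientGroup.mk_surjective y
    have hx : x ∈ T ⊔ (R : Subgroup G) := by rw [hTR]; exact Subgroup.mem_top x
    obtain ⟨t, ht, s, hs, rfl⟩ := Subgroup.mem_sup_of_normal_left.1 hx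
    refine ⟨⟨s, hs⟩, ?_⟩
    show (QuotientGroup.mk s : G ⧸ T) = QuotientGroup.mk (t * s)
    rw [QuotientGroup.mk_mul, (QuotientGroup.eq_one_iff t).2 ht, one_mul]
  exact R.2.of_surjective _ h1

end Cfsg.Agent.S3859
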