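import Cfsg.Statements.S3858
import Cfsg.Agent.S3859
import Cfsg.Agent.LibFus9

set_option autoImplicit false
open Cfsg

namespace Cfsg.Agent.S3858

/-- Let G be a finite group with a normal non-abelian simple subgroup T whose centralizer is trivial (G almost simple with socle T), r a prime and R a Sylow r-subgroup of G meeting T nontrivially. Then R lies in exactly one maximal subgroup of G if and only if G has exactly one conjugacy class of maximal subgroups whose index is prime to r. -/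
theorem result {G : Type*} [Group G] [Finite G] (T : Subgroup G) [T.Normal] (hT : IsSimpleGroup T) (hna : ¬ IsMulCommutative T)
    (hC : Subgroup.centralizer (T : Set G) = ⊥) {r : ℕ} [Fact r.Prime] (R : Sylow r G) (hR0 : (R : Subgroup G) ⊓ T ≠ ⊥) :
    (∃! M : Subgroup G, IsCoatom M ∧ (R : Subgroup G) ≤ M) ↔
      ((∃ M : Subgroup G, IsCoatom M ∧ ¬ r ∣ M.index) ∧
        ∀ M₁ M₂ : Subgroup G, IsCoatom M₁ → ¬ r ∣ M₁.index → IsCoatom M₂ → ¬ r ∣ M₂.index → ∃ g : G, M₂ = M₁.map (MulAut.conj g).toMonoidHom) := by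
  have hnn := Cfsg.Agent.S3859.not_normal T hT hna R hR0
  have hidx : ∀ M : Subgroup G, (R : Subgroup G) ≤ M → ¬ r ∣ M.index := by
    intro M hM h
    exact R.not_dvd_index (h.trans (Subgroup.index_dvd_of_le hM))
  have hcj : ∀ M : Subgroup G, ¬ r ∣ M.index → ∃ g : G, (R : Subgroup G) ≤ M.map (MulAut.conj g).toMonoidHom := by
    intro M hM
    obtain ⟨g, hg⟩ := CfsgLib.Fus9.exists_conj_mem_of_not_dvd_index R.2 hM
    refine ⟨g⁻¹, ?_⟩
    intro x hx
    have := hg ⟨x, hx, rfl⟩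
    exact ⟨_, this, by simp [mul_assoc]⟩
  have hco : ∀ (M : Subgroup G) (g : G), IsCoatom M → IsCoatom (M.map (MulAut.conj g).toMonoidHom) := by
    intro M g hM
    exact (OrderIso.isCoatom_iff (MulAut.conj g).mapSubgroup M).2 hM
  have hmm : ∀ (M : Subgroup G) (a b : G), (M.map (MulAut.conj b).toMonoidHom).map (MulAut.conj a).toMonoidHom
      = M.map (MulAut.conj (a * b)).toMonoidHom := by
    intro M a b
    rw [Subgroup.map_map]; congr 1; ext y; simp
  have hm1 : ∀ (M : Subgroup G), M.map (MulAut.conj (1 : G)).toMonoidHom = M := by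
    intro M; rw [map_one]; ext y; simp
  constructor
  · rintro ⟨M, ⟨hM, hRM⟩, hu⟩
    refine ⟨⟨M, hM, hidx M hRM⟩, ?_⟩
    intro M1 M2 h1 h1' h2 h2'
    obtain ⟨a, ha⟩ := hcj M1 h1'
    obtain ⟨b, hb⟩ := hcj M2 h2'
    have e1 := hu _ ⟨hco M1 a h1, ha⟩
    have e2 := hu _ ⟨hco M2 b h2, hb⟩
    refine ⟨b⁻¹ * a, ?_⟩
    rw [← hmm, e1, ← e2, hmm, inv_mul_cancel, hm1]
  · rintro ⟨⟨M, hM, hMi⟩, hcl⟩
    -- a maximal subgroup over the normalizer of R
    have hNt : Subgroup.normalizer ((R : Subgroup G) : Set G) ≠ ⊤ := by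
      intro h
      have : (R : Subgroup G).Normal := Subgroup.normalizer_eq_top_iff.1 h
      exact hnn inferInstance
    obtain ⟨M', hM', hNM'⟩ := (eq_top_or_exists_le_coatom _).resolve_left hNt
    have hRM' : (R : Subgroup G) ≤ M' := Subgroup.le_normalizer.trans hNM'
    refine ⟨M', ⟨hM', hRM'⟩, ?_⟩
    rintro M1 ⟨hM1, hRM1⟩
    obtain ⟨g, hg⟩ := hcl M' M1 hM' (hidx _ hRM') hM1 (hidx _ hRM1)
    -- R and R^(g⁻¹) are Sylow in M'
    have h1 : ((R : Subgroup G).map (MulAut.conj g⁻¹).toMonoidHom) ≤ M' := by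
      have h2 := Subgroup.map_mono (f := (MulAut.conj g⁻¹).toMonoidHom) (hg ▸ hRM1 : (R : Subgroup G) ≤ M'.map (MulAut.conj g).toMonoidHom)
      rwa [hmm, inv_mul_cancel, hm1] at h2
    have hS : CfsgLib.FusionH12.SylIn r (R : Subgroup G) M' :=
      (CfsgLib.FusionH12.SylIn.ofSylow R).mono hRM' le_top
    obtain ⟨a, haM, ha⟩ := hS.exists_conj_le (P := CfsgLib.FusionH12.cj g⁻¹ (R : Subgroup G))
      (CfsgLib.FusionH12.isPGroup_cj R.2) h1
    have h3 : a * g⁻¹ ∈ Subgroup.normalizer ((R : Subgroup G) : Set G) := by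
      rw [CfsgLib.FusionH12.mem_nrm]
      rw [← CfsgLib.FusionH12.cj_mul] at ha
      exact Subgroup.eq_of_le_of_card_ge ha (by rw [CfsgLib.FusionH12.card_cj])
    have h4 : g ∈ M' := by
      have h5 := hNM' h3
      have h6 := M'.mul_mem (M'.inv_mem haM) h5
      rw [inv_mul_cancel_left] at h6
      have := M'.inv_mem h6
      rwa [inv_inv] at this
    rw [hg]
    exact CfsgLib.FusionH12.cj_of_mem h4

end Cfsg.Agent.S3858
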