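import Cfsg.Statements.S3862
import Cfsg.Agent.LibHHMin
import Cfsg.Agent.S0071

set_option autoImplicit false
open Cfsg

namespace Cfsg.Agent.S3862

open Cfsg CfsgLib.HHMin CfsgLib.BGPi
open scoped commutatorElement

universe u
variable {X : Type u} [Group X] [Finite X]

/-- every element of a minimal `Q` is inverted -/
theorem real_of_min {Q : Subgroup X} {y : X} (hyQ : y ∈ 𝓝(Q)) (hy : (orderOf y).Coprime 2)
    (hQ : IsPGroup 2 Q) (hQA : ⁅Q, Subgroup.zpowers y⁆ = Q) (hne : Q ≠ ⊥)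
    (hZ : Q ⊓ 𝓒(Q) = phi 2 Q) (hexp : ∀ z ∈ phi 2 Q, z ^ 2 = 1)
    (hcen : ∀ z ∈ phi 2 Q, y * z = z * y) (u : X) (hu : u ∈ Q) :
    ∃ v ∈ Q, v * u * v⁻¹ = u⁻¹ := by
  have hA : Subgroup.zpowers y ≤ 𝓝(Q) := Subgroup.zpowers_le.2 hyQ
  have hphi := phi_le 2 Q
  have hcomm : ∀ a ∈ Q, ∀ b ∈ Q, ⁅a, b⁆ ∈ phi 2 Q := fun a ha b hb =>
    comm_le_phi 2 Q (Subgroup.commutator_mem_commutator ha hb)
  have hz0 : ∀ z ∈ phi 2 Q, ∀ b ∈ Q, z * b = b * z := by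
    intro z hz b hb
    rw [← hZ] at hz
    exact (mem_cz.1 hz.2 b hb).symm
  have hconj : ∀ k : ℕ, ∀ b ∈ Q, y ^ k * b * (y ^ k)⁻¹ ∈ Q := fun k b hb =>
    le_nz.1 hA _ (Subgroup.npow_mem_zpowers y k) b hb
  have hcenk : ∀ k : ℕ, ∀ z ∈ phi 2 Q, y ^ k * z * (y ^ k)⁻¹ = z := by
    intro k z hz
    have : Commute (y ^ k) z := Commute.pow_left (hcen z hz) k
    rw [this.eq, mul_inv_cancel_right]
  set S : Set X := {s | ∃ v ∈ Q, s = ⁅v, u⁆} with hS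
  have hSphi : ∀ s ∈ S, s ∈ phi 2 Q := by
    rintro s ⟨v, hv, rfl⟩; exact hcomm v hv u hu
  have hSmul : ∀ s ∈ S, ∀ t ∈ S, s * t ∈ S := by
    rintro s ⟨v, hv, rfl⟩ t ⟨w, hw, rfl⟩
    refine ⟨v * w, mul_mem hv hw, ?_⟩
    have e : ⁅v * w, u⁆ = (v * ⁅w, u⁆ * v⁻¹) * ⁅v, u⁆ := by
      simp only [commutatorElement_def]; group
    rw [e, ← hz0 _ (hcomm w hw u hu) v hv, mul_inv_cancel_right]
    exact hz0 _ (hcomm v hv u hu) _ (hphi (hcomm w hw u hu))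
  have hSone : (1 : X) ∈ S := ⟨1, one_mem _, by simp⟩
  have hSinv : ∀ s ∈ S, s⁻¹ ∈ S := by
    intro s hs
    have h1 := hexp s (hSphi s hs)
    have h2 : s⁻¹ = s := by
      rw [inv_eq_iff_mul_eq_one, ← pow_two, h1]
    rw [h2]; exact hs
  -- commutators with conjugates of u
  have hSk : ∀ k : ℕ, ∀ v ∈ Q, ⁅v, y ^ k * u * (y ^ k)⁻¹⁆ ∈ S := by
    intro k v hv
    have hv' : (y ^ k)⁻¹ * v * y ^ k ∈ Q := by
      have := le_nz.1 hA _ (inv_mem (Subgroup.npow_mem_zpowers y k)) v hv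
      simpa using this
    refine ⟨(y ^ k)⁻¹ * v * y ^ k, hv', ?_⟩
    have e : ⁅v, y ^ k * u * (y ^ k)⁻¹⁆ = y ^ k * ⁅(y ^ k)⁻¹ * v * y ^ k, u⁆ * (y ^ k)⁻¹ := by
      simp only [commutatorElement_def]; group
    rw [e, hcenk k _ (hcomm _ hv' u hu)]
  set x : ℕ → X := fun k => (u * y) ^ k * (y ^ k)⁻¹ with hx
  have hx1 : ∀ k, x (k + 1) = x k * (y ^ k * u * (y ^ k)⁻¹) := by
    intro k
    simp only [hx]
    rw [pow_succ (u * y) k, pow_succ y k]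
    group
  have hxQ : ∀ k, x k ∈ Q := by
    intro k
    induction k with
    | zero => simp [hx]
    | succ k ih => rw [hx1]; exact mul_mem ih (hconj k u hu)
  have hu2 : u ^ 2 ∈ phi 2 Q := pow_mem_phi hu
  have hsq : ∀ k, ∃ s ∈ S, x k ^ 2 = (u ^ 2) ^ k * s := by
    intro k
    induction k with
    | zero => exact ⟨1, hSone, by simp [hx]⟩
    | succ k ih =>
      obtain ⟨s, hs, e⟩ := ih
      refine ⟨s * ⁅(x k)⁻¹, y ^ k * u * (y ^ k)⁻¹⁆, hSmul s hs _ (hSk k _ (inv_mem (hxQ k))), ?_⟩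
      set w := y ^ k * u * (y ^ k)⁻¹ with hw
      have hwQ : w ∈ Q := hconj k u hu
      have hw2 : w ^ 2 = u ^ 2 := by rw [hw, conj_pow, hcenk k _ hu2]
      have e1 : (x k * w) ^ 2 = x k ^ 2 * ⁅(x k)⁻¹, w⁆ * w ^ 2 := by
        simp only [commutatorElement_def, pow_two]; group
      rw [hx1, e1, e, hw2, pow_succ (u ^ 2) k]
      have h1 : ⁅(x k)⁻¹, w⁆ * u ^ 2 = u ^ 2 * ⁅(x k)⁻¹, w⁆ :=
        hz0 _ (hcomm _ (inv_mem (hxQ k)) w hwQ) _ (hphi hu2)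
      have h2 : s * u ^ 2 = u ^ 2 * s := hz0 _ (hSphi s hs) _ (hphi hu2)
      calc (u ^ 2) ^ k * s * ⁅(x k)⁻¹, w⁆ * u ^ 2 = (u ^ 2) ^ k * s * (⁅(x k)⁻¹, w⁆ * u ^ 2) := by group
        _ = (u ^ 2) ^ k * (s * u ^ 2) * ⁅(x k)⁻¹, w⁆ := by rw [h1]; group
        _ = _ := by rw [h2]; simp only [mul_assoc]
  -- the full product is in phi
  set n := orderOf y with hn
  have hxn : x n = (u * y) ^ n := by
    simp only [hx]
    rw [pow_orderOf_eq_one, inv_one, mul_one]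
  have hyx : ∀ k : ℕ, y ^ k * x n * (y ^ k)⁻¹ * (x n)⁻¹ ∈ phi 2 Q := by
    intro k
    induction k with
    | zero => simp
    | succ k ih =>
      have e1 : y * x n * y⁻¹ * (x n)⁻¹ = ⁅u⁻¹, x n⁆ := by
        rw [hxn, commutatorElement_def]
        have h2 : ∀ w : X, y = u⁻¹ * w → y * w ^ n * y⁻¹ = u⁻¹ * w ^ n * u := by
          intro w hw
          rw [hw]; group
        have h2 := h2 (u * y) (by group)
        rw [h2, inv_inv]
      have h3 : y * x n * y⁻¹ * (x n)⁻¹ ∈ phi 2 Q := by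
        rw [e1]; exact hcomm _ (inv_mem hu) _ (hxQ n)
      have e2 : y ^ (k + 1) * x n * (y ^ (k + 1))⁻¹ * (x n)⁻¹ =
          (y ^ k * (y * x n * y⁻¹ * (x n)⁻¹) * (y ^ k)⁻¹) * (y ^ k * x n * (y ^ k)⁻¹ * (x n)⁻¹) := by
        rw [pow_succ]; group
      rw [e2, hcenk k _ h3]
      exact mul_mem h3 ih
  have hxphi : x n ∈ phi 2 Q := by
    apply fix_mem Nat.prime_two hQ hA (by rwa [Nat.card_zpowers]) hQA hphi (comm_le_phi 2 Q) _ (hxQ n)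
    intro a ha
    obtain ⟨k, rfl⟩ := (mem_powers_iff_mem_zpowers.2 ha)
    exact hyx k
  obtain ⟨s, hs, e⟩ := hsq n
  rw [hexp _ hxphi] at e
  have hodd : Odd n := Nat.coprime_two_right.1 hy
  obtain ⟨m, hm⟩ := hodd
  have hu4 : (u ^ 2) ^ 2 = 1 := hexp _ hu2
  have hun : (u ^ 2) ^ n = u ^ 2 := by
    rw [hm, pow_add, pow_mul, hu4, one_pow, one_mul, pow_one]
  rw [hun] at e
  have hus : u ^ 2 ∈ S := by
    have : u ^ 2 = s⁻¹ := eq_inv_of_mul_eq_one_left e.symm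
    rw [this]; exact hSinv s hs
  obtain ⟨v, hv, e2⟩ := hus
  refine ⟨v, hv, ?_⟩
  rw [commutatorElement_def] at e2
  have h5 : v * u * v⁻¹ = u ^ 2 * u := by rw [e2]; group
  rw [h5]
  have h6 : u ^ 2 * u * u = 1 := by
    calc u ^ 2 * u * u = (u ^ 2) ^ 2 := by group
      _ = 1 := hu4
  exact eq_inv_of_mul_eq_one_left h6

theorem main (h : ∀ x : X, (∃ j : ℕ, orderOf x = 2 ^ j) → IsConj x x⁻¹ → x ∈ Subgroup.center X)
    (Q : Subgroup X) (hQ : IsPGroup 2 Q) (y : X) (hyQ : y ∈ 𝓝(Q)) (hy : (orderOf y).Coprime 2) :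
    y ∈ 𝓒(Q) := by
  classical
  by_contra hcon
  set A := Subgroup.zpowers y with hA
  have hAQ : A ≤ 𝓝(Q) := Subgroup.zpowers_le.2 hyQ
  have hne : ⁅Q, A⁆ ≠ ⊥ := by
    intro h0
    apply hcon
    rw [comm_eq_bot_iff] at h0
    exact (le_cz_comm.1 h0) (Subgroup.mem_zpowers y)
  obtain ⟨P, hP⟩ := Set.Finite.exists_minimal (s := {P : Subgroup X | P ≤ Q ∧ A ≤ 𝓝(P) ∧ ⁅P, A⁆ ≠ ⊥})
    (Set.toFinite _) ⟨Q, le_rfl, hAQ, hne⟩
  obtain ⟨⟨hPQ, hAP, hPA⟩, hmin⟩ := hP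
  have hPp : IsPGroup 2 P := hQ.to_le hPQ
  have hcoA : (Nat.card A).Coprime 2 := by rwa [hA, Nat.card_zpowers]
  have hmin' : ∀ U : Subgroup X, U < P → A ≤ 𝓝(U) → ⁅U, A⁆ = ⊥ := by
    intro U hU hAU
    by_contra h1
    exact not_le_of_gt hU (hmin ⟨hU.le.trans hPQ, hAU, h1⟩ hU.le)
  obtain ⟨h1, h2, h3, -⟩ := reduction Nat.prime_two A A P hPp hAP le_rfl Subgroup.le_normalizer hcoA hPA hmin'
  have hord : ∀ u ∈ P, ∃ j : ℕ, orderOf u = 2 ^ j := by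
    intro u hu
    obtain ⟨j, hj⟩ := (IsPGroup.iff_orderOf.1 hPp) ⟨u, hu⟩
    exact ⟨j, by rw [← hj, Subgroup.orderOf_mk]⟩
  have hcent : P ≤ Subgroup.center X := by
    intro u hu
    apply h u (hord u hu)
    rcases h2 with h2 | ⟨hZ, -, hexp⟩
    · have h4 : u ^ 2 = 1 := h2.2 u hu
      have h5 : u⁻¹ = u := by
        rw [inv_eq_iff_mul_eq_one, ← pow_two, h4]
      rw [h5]
    · have hPb : P ≠ ⊥ := by
        rintro rfl
        apply hPA; simp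
      have hphi := phi_lt Nat.prime_two hPp hPb
      have h6 : ⁅phi 2 P, A⁆ = ⊥ := hmin' _ hphi (hAP.trans (nz_le_nz_phi 2 P))
      obtain ⟨v, hv, e⟩ := real_of_min (hAP (Subgroup.mem_zpowers y)) hy hPp h1 hPb hZ hexp
        (fun z hz => (mem_cz.1 (comm_eq_bot_iff.1 h6 hz)) y (Subgroup.mem_zpowers y)) u hu
      rw [isConj_iff]
      exact ⟨v, e⟩
  apply hPA
  rw [comm_eq_bot_iff]
  exact hcent.trans (Subgroup.center_le_centralizer _)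

/-- If every 2-element of the finite group G that is conjugate to its inverse lies in the centre of G, then G has a normal 2-complement. -/
theorem result {G : Type*} [Group G] [Finite G] (h : ∀ x : G, (∃ j : ℕ, orderOf x = 2 ^ j) → IsConj x x⁻¹ → x ∈ Subgroup.center G) : Cfsg.HasNormalPComplement 2 G := by
  obtain ⟨P⟩ : Nonempty (Sylow 2 G) := inferInstance
  refine ⟨P, ?_⟩
  rw [Cfsg.Agent.S0071.result P]
  intro Q hQP g hg hgo
  exact main h Q (P.isPGroup'.to_le hQP) g hg hgo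


end Cfsg.Agent.S3862
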