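import Cfsg.Statements.S3867
import Cfsg.Agent.LibH7Hall

set_option autoImplicit false
open Cfsg

namespace Cfsg.Agent.S3867



open Subgroup

theorem card_sylow_surj {H H' : Type*} [Group H] [Finite H] [Group H'] {p : ℕ} [Fact p.Prime]
    (f : H →* H') (hf : Function.Surjective f) (hk : IsPGroup p f.ker) :
    Nat.card (Sylow p H') = Nat.card (Sylow p H) := by
  have hkP : ∀ P : Sylow p H, f.ker ≤ (P : Subgroup H) := by
    intro P
    have h1 : IsPGroup p ((P : Subgroup H) ⊔ f.ker : Subgroup H) := P.isPGroup'.to_sup_of_normal_right hk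
    have h2 := P.is_maximal' h1 le_sup_left
    exact le_sup_right.trans h2.le
  haveI : Finite H' := Finite.of_surjective f hf
  symm
  apply Nat.card_congr
  refine Equiv.ofBijective (fun P => P.mapSurjective hf) ⟨?_, Sylow.mapSurjective_surjective hf p⟩
  intro P Q hPQ
  have h1 : (P : Subgroup H).map f = (Q : Subgroup H).map f :=
    congrArg (fun S : Sylow p H' => (S : Subgroup H')) hPQ
  apply Sylow.ext
  rw [← sup_eq_left.2 (hkP P), ← sup_eq_left.2 (hkP Q), ← Subgroup.comap_map_eq, ← Subgroup.comap_map_eq, h1]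

/-- Let M and N be nontrivial normal subgroups of the finite group G with M ⊓ N trivial, and let p be a prime. Writing n(X) for the number of Sylow p-subgroups of a group X, one has n(G) · n(G/MN) = n(G/M) · n(G/N). -/
theorem result {G : Type*} [Group G] [Finite G] (p : ℕ) [Fact p.Prime] (M N : Subgroup G) [M.Normal] [N.Normal] (hM : M ≠ ⊥) (hN : N ≠ ⊥) (hMN : M ⊓ N = ⊥) : Nat.card (Sylow p G) * Nat.card (Sylow p (G ⧸ (M ⊔ N))) = Nat.card (Sylow p (G ⧸ M)) * Nat.card (Sylow p (G ⧸ N)) := by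
  obtain ⟨P⟩ : Nonempty (Sylow p G) := inferInstance
  have e1 := CfsgLib.H7Hall.card_sylow_step M P
  have hπ : Function.Surjective (QuotientGroup.mk' N) := QuotientGroup.mk'_surjective N
  set K' := (M ⊔ N).map (QuotientGroup.mk' N) with hK'
  haveI hKn : K'.Normal := Subgroup.Normal.map (inferInstance : (M ⊔ N).Normal) _ hπ
  have e2 := CfsgLib.H7Hall.card_sylow_step K' (P.mapSurjective hπ)
  have e3 : Nat.card (Sylow p ((G ⧸ N) ⧸ K')) = Nat.card (Sylow p (G ⧸ (M ⊔ N))) := by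
    symm
    refine card_sylow_surj (QuotientGroup.quotientQuotientEquivQuotient N (M ⊔ N) le_sup_right : ((G ⧸ N) ⧸ K') ≃* (G ⧸ (M ⊔ N))).toMonoidHom (MulEquiv.surjective _) ?_
    rw [show MonoidHom.ker ((QuotientGroup.quotientQuotientEquivQuotient N (M ⊔ N) le_sup_right : ((G ⧸ N) ⧸ K') ≃* (G ⧸ (M ⊔ N))).toMonoidHom) = ⊥ from (MonoidHom.ker_eq_bot_iff _).2 (MulEquiv.injective _)]
    exact IsPGroup.of_bot
  have e4 : Nat.card (Sylow p (((P.mapSurjective hπ : Sylow p (G ⧸ N)) : Subgroup (G ⧸ N)) ⊔ K' : Subgroup (G ⧸ N))) = Nat.card (Sylow p ((P : Subgroup G) ⊔ M : Subgroup G)) := by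
    have h5 : (((P.mapSurjective hπ : Sylow p (G ⧸ N)) : Subgroup (G ⧸ N)) ⊔ K' : Subgroup (G ⧸ N)) = ((P : Subgroup G) ⊔ M).map (QuotientGroup.mk' N) := by
      rw [hK', Sylow.coe_mapSurjective, Subgroup.map_sup, Subgroup.map_sup, (Subgroup.map_eq_bot_iff N).2 (by rw [QuotientGroup.ker_mk']), sup_bot_eq]
    rw [h5]
    refine card_sylow_surj ((QuotientGroup.mk' N).subgroupMap ((P : Subgroup G) ⊔ M)) (MonoidHom.subgroupMap_surjective _ _) ?_
    -- the kernel is a p-group
    intro x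
    have hx : (x.1 : G) ∈ N := by
      have := x.2
      rw [MonoidHom.mem_ker] at this
      have h6 := congrArg Subtype.val this
      exact (QuotientGroup.eq_one_iff _).1 h6
    obtain ⟨a, ha, b, hb, hab⟩ := Subgroup.mem_sup_of_normal_right.1 x.1.2
    obtain ⟨k, hk⟩ := P.isPGroup' ⟨a, ha⟩
    have hk' : a ^ p ^ k = 1 := congrArg Subtype.val hk
    refine ⟨k, ?_⟩
    apply Subtype.ext
    apply Subtype.ext
    show (x.1 : G) ^ p ^ k = 1
    have h7 : (x.1 : G) ^ p ^ k ∈ M := by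
      rw [← QuotientGroup.eq_one_iff, QuotientGroup.mk_pow, ← hab, QuotientGroup.mk_mul, (QuotientGroup.eq_one_iff b).2 hb, mul_one, ← QuotientGroup.mk_pow, hk', QuotientGroup.mk_one]
    have h8 : (x.1 : G) ^ p ^ k ∈ M ⊓ N := ⟨h7, pow_mem hx _⟩
    rw [hMN] at h8
    exact Subgroup.mem_bot.1 h8
  rw [e1, e2, e3, e4]
  ring

end Cfsg.Agent.S3867
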