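import Cfsg.Statements.S3878
import Cfsg.Agent.LibEPi

set_option autoImplicit false
open Cfsg

namespace Cfsg.Agent.S3878

/-- For a set of primes π the following are equivalent: every finite group has a Hall π-subgroup; in every finite group the maximal π-subgroups are pairwise conjugate; π contains at most one prime or contains every prime. -/
theorem result (π : Set ℕ) :
    ((∀ (G : Type) [Group G] [Finite G], Cfsg.IsEPiGroup π G) ↔
      ((∀ p q : ℕ, p.Prime → q.Prime → p ∈ π → q ∈ π → p = q) ∨ ∀ p : ℕ, p.Prime → p ∈ π)) ∧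
    ((∀ (G : Type) [Group G] [Finite G], Cfsg.IsDPiGroup π G) ↔
      ((∀ p q : ℕ, p.Prime → q.Prime → p ∈ π → q ∈ π → p = q) ∨ ∀ p : ℕ, p.Prime → p ∈ π)) := by

  classical
  -- existence of Hall subgroups forces the arithmetic condition
  have hA : (∀ (G : Type) [Group G] [Finite G], Cfsg.IsEPiGroup π G) →
      ((∀ p q : ℕ, p.Prime → q.Prime → p ∈ π → q ∈ π → p = q) ∨ ∀ p : ℕ, p.Prime → p ∈ π) := by
    intro hE
    by_contra hcon
    push Not at hcon
    obtain ⟨⟨p₁, q₁, hp₁, hq₁, hp₁π, hq₁π, hne⟩, r, hr, hrπ⟩ := hcon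
    obtain ⟨p, q, hp, hq, hpπ, hqπ, hlt⟩ : ∃ p q : ℕ, p.Prime ∧ q.Prime ∧ p ∈ π ∧ q ∈ π ∧ p < q := by
      rcases lt_or_gt_of_ne hne with h | h
      · exact ⟨p₁, q₁, hp₁, hq₁, hp₁π, hq₁π, h⟩
      · exact ⟨q₁, p₁, hq₁, hp₁, hq₁π, hp₁π, h⟩
    set k := p + r + 5 with hk
    have hbig : k < q ^ k := Nat.lt_pow_self hq.one_lt
    haveI : NeZero p := ⟨hp.ne_zero⟩
    obtain ⟨H, hH⟩ := hE (Equiv.Perm (CfsgLib.EPi.Om (q ^ k / p) p (q ^ k % p)))
    exact CfsgLib.EPi.main hp hq hr hlt hpπ hqπ hrπ (q ^ k / p) (q ^ k % p) k (Nat.mod_lt _ hp.pos)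
      (Nat.div_add_mod' (q ^ k) p) (by omega) (by omega) (by omega) H hH
  -- conjugacy of maximal `π`-subgroups gives Hall subgroups
  have hB : (∀ (G : Type) [Group G] [Finite G], Cfsg.IsDPiGroup π G) → (∀ (G : Type) [Group G] [Finite G], Cfsg.IsEPiGroup π G) := by
    intro hD G _ _
    have hmax : ∀ K : Subgroup G, Cfsg.IsPiSubgroup π K → ∃ M : Subgroup G, K ≤ M ∧ Maximal (Cfsg.IsPiSubgroup π) M := by
      intro K hK
      obtain ⟨M, hM1, hM2⟩ := Set.Finite.exists_le_maximal (s := {K : Subgroup G | Cfsg.IsPiSubgroup π K}) (Set.toFinite _) hK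
      exact ⟨M, hM1, hM2⟩
    obtain ⟨H, -, hH⟩ := hmax ⊥ (by
      intro p hp hd
      rw [Subgroup.card_bot] at hd
      exact absurd hd hp.not_dvd_one)
    refine ⟨H, hH.prop, ?_⟩
    intro p hp hpπ hd
    haveI : Fact p.Prime := ⟨hp⟩
    obtain ⟨P⟩ : Nonempty (Sylow p G) := inferInstance
    obtain ⟨M, hPM, hM⟩ := hmax (P : Subgroup G) (by
      intro r hr hd
      obtain ⟨j, hj⟩ := IsPGroup.iff_card.1 P.isPGroup'
      rw [hj] at hd
      have := (Nat.prime_dvd_prime_iff_eq hr hp).1 (hr.dvd_of_dvd_pow hd)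
      rwa [this])
    obtain ⟨g, hg⟩ := hD G H M hH hM
    have h1 : Nat.card M = Nat.card H := by
      rw [hg]
      exact Subgroup.card_map_of_injective (MulAut.conj g).injective
    have h2 : M.index = H.index := by
      have h3 := M.card_mul_index
      have h4 := H.card_mul_index
      rw [h1, ← h4] at h3
      exact Nat.eq_of_mul_eq_mul_left Nat.card_pos h3
    rw [← h2] at hd
    exact P.not_dvd_index (hd.trans (Subgroup.index_dvd_of_le hPM))
  -- the arithmetic condition gives conjugacy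
  have hC : ((∀ p q : ℕ, p.Prime → q.Prime → p ∈ π → q ∈ π → p = q) ∨ ∀ p : ℕ, p.Prime → p ∈ π) →
      (∀ (G : Type) [Group G] [Finite G], Cfsg.IsDPiGroup π G) := by
    intro h G _ _ H K hH hK
    rcases h with h | h
    · by_cases hex : ∃ p : ℕ, p.Prime ∧ p ∈ π
      · obtain ⟨p, hp, hpπ⟩ := hex
        haveI : Fact p.Prime := ⟨hp⟩
        have hpi : ∀ K : Subgroup G, Cfsg.IsPiSubgroup π K ↔ IsPGroup p K := by
          intro K
          constructor
          · intro hK
            rw [IsPGroup.iff_card]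
            exact ⟨_, Nat.eq_prime_pow_of_unique_prime_dvd Nat.card_pos.ne' (fun {d} hd hdK =>
              h d p hd hp (hK d hd hdK) hpπ)⟩
          · intro hK r hr hd
            obtain ⟨j, hj⟩ := IsPGroup.iff_card.1 hK
            rw [hj] at hd
            have := (Nat.prime_dvd_prime_iff_eq hr hp).1 (hr.dvd_of_dvd_pow hd)
            rwa [this]
        have hsyl : ∀ K : Subgroup G, Maximal (Cfsg.IsPiSubgroup π) K → ∃ S : Sylow p G, (S : Subgroup G) = K := by
          intro K hK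
          refine ⟨⟨K, (hpi K).1 hK.prop, fun {Q} hQ hKQ => ?_⟩, rfl⟩
          exact (hK.eq_of_le ((hpi Q).2 hQ) hKQ).symm
        obtain ⟨S, hS⟩ := hsyl H hH
        obtain ⟨T, hT⟩ := hsyl K hK
        obtain ⟨g, hg⟩ := MulAction.exists_smul_eq G S T
        refine ⟨g, ?_⟩
        rw [← hS, ← hT, ← hg]
        rfl
      · push Not at hex
        have hbot : ∀ K : Subgroup G, Cfsg.IsPiSubgroup π K → K = ⊥ := by
          intro K hK
          rw [← Subgroup.card_eq_one]
          by_contra hne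
          obtain ⟨r, hr, hd⟩ := Nat.exists_prime_and_dvd hne
          exact hex r hr (hK r hr hd)
        refine ⟨1, ?_⟩
        rw [hbot H hH.prop, hbot K hK.prop, Subgroup.map_bot]
    · have htop : ∀ K : Subgroup G, Maximal (Cfsg.IsPiSubgroup π) K → K = ⊤ := by
        intro K hK
        exact hK.eq_of_le (fun p hp _ => h p hp) le_top
      refine ⟨1, ?_⟩
      rw [htop H hH, htop K hK, ← MonoidHom.range_eq_map]
      exact (MonoidHom.range_eq_top.2 (MulAut.conj (1 : G)).surjective).symm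
  exact ⟨⟨hA, fun h => hB (hC h)⟩, ⟨fun h => hA (hB h), hC⟩⟩


end Cfsg.Agent.S3878
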