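import Cfsg.Statements.S3883
import Cfsg.Agent.LibMetacD

set_option autoImplicit false
open Cfsg

namespace Cfsg.Agent.S3883

open CfsgLib.MetacA CfsgLib.MetacB CfsgLib.MetacC CfsgLib.MetacD
open scoped commutatorElement

/-- Let p be an odd prime and G a finite metacyclic p-group (G has a cyclic normal subgroup with cyclic quotient). Suppose G is non-abelian. Then an element g of G lies outside the Frattini subgroup if and only if its centralizer C_G(g) is abelian. -/
theorem result {G : Type*} [Group G] [Finite G] {p : ℕ} [Fact p.Prime] (hp : p ≠ 2) (hG : IsPGroup p G) (hmc : Cfsg.IsMetacyclic G) (hna : ¬ IsMulCommutative G) (g : G) :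
    g ∉ frattini G ↔ IsMulCommutative ↥(Subgroup.centralizer ({g} : Set G)) := by
  have h := twoGen_of_metacyclic (Fact.out : p.Prime) hp hG hmc
  obtain ⟨N, n, hN, hn, hle, hidx⟩ := exists_exponents h.cd
  have hn0 : 1 ≤ n := by
    by_contra h0
    have h1 : n = 0 := by omega
    rw [h1, pow_zero, Subgroup.card_eq_one] at hn
    apply hna
    refine ⟨⟨fun x y => ?_⟩⟩
    have h2 : ⁅x, y⁆ ∈ commutator G := h.cd.comm_mem x y
    rw [hn, Subgroup.mem_bot, commutatorElement_eq_one_iff_mul_comm] at h2
    exact h2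
  rw [mem_frattini_iff' h hn hn0 g, h.comm_iff, hidx]
  obtain ⟨k, hk⟩ := index_eq_pow h.cd.pgroup (Subgroup.centralizer ({g} : Set G))
  have h1 := Subgroup.card_mul_index (Subgroup.centralizer ({g} : Set G))
  obtain ⟨j, hj⟩ := IsPGroup.iff_card.1 (h.cd.pgroup.to_subgroup (Subgroup.centralizer ({g} : Set G)))
  rw [hk, hj, hN, ← pow_add] at h1
  have h2 := Nat.pow_right_injective h.cd.hp.two_le h1
  have h2' : j + k = N := h2
  rw [hk, hj, Nat.pow_le_pow_iff_right h.cd.hp.one_lt, Nat.pow_le_pow_iff_right h.cd.hp.one_lt]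
  have h3 : k ≤ n := by
    have h4 := index_centralizer_le (g := g) (D := commutator G) (fun x => h.cd.comm_mem g x)
    rw [hk, hn, Nat.pow_le_pow_iff_right h.cd.hp.one_lt] at h4
    exact h4
  omega

end Cfsg.Agent.S3883
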