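import Cfsg.Statements.S3884
import Cfsg.Agent.LibMetacC

set_option autoImplicit false
set_option linter.style.haveILetI false
open Cfsg

namespace Cfsg.Agent.S3884

open CfsgLib.MetacA CfsgLib.MetacB CfsgLib.MetacC CfsgLib.SolvBasic
open scoped commutatorElement

/-- `(a^i g)^m` when `g a g⁻¹ = a^u` -/
theorem mul_pow_conj {G : Type*} [Group G] {a g : G} {u : ℤ} (h : g * a * g⁻¹ = a ^ u) (i : ℤ) (m : ℕ) :
    (a ^ i * g) ^ m = a ^ (i * ∑ k ∈ Finset.range m, u ^ k) * g ^ m := by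
  have hg : ∀ j : ℤ, g * a ^ j = a ^ (u * j) * g := by
    intro j
    have h1 : g * a ^ j * g⁻¹ = a ^ (u * j) := by rw [← conj_zpow, h, ← zpow_mul]
    rw [← h1]; group
  induction m with
  | zero => simp
  | succ m ih =>
    rw [pow_succ', ih]
    calc a ^ i * g * (a ^ (i * ∑ k ∈ Finset.range m, u ^ k) * g ^ m)
        = a ^ i * (g * a ^ (i * ∑ k ∈ Finset.range m, u ^ k)) * g ^ m := by group
      _ = a ^ i * (a ^ (u * (i * ∑ k ∈ Finset.range m, u ^ k)) * g) * g ^ m := by rw [hg]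
      _ = a ^ (i + u * (i * ∑ k ∈ Finset.range m, u ^ k)) * (g * g ^ m) := by rw [zpow_add]; group
      _ = _ := by
        rw [← pow_succ', Finset.sum_range_succ']
        congr 2
        have h2 : ∑ k ∈ Finset.range m, u ^ (k + 1) = u * ∑ k ∈ Finset.range m, u ^ k := by
          rw [Finset.mul_sum]
          apply Finset.sum_congr rfl
          intro k _
          rw [pow_succ]; ring
        rw [h2]; ring

/-- `∑_{k < p^t} (1+p w)^k = p^t (1 + p z)` -/
theorem geom_sum_pow {p : ℕ} (hp : p.Prime) (hp2 : p ≠ 2) (w : ℤ) (t : ℕ) :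
    ∃ z : ℤ, ∑ i ∈ Finset.range (p ^ t), (1 + p * w) ^ i = p ^ t * (1 + p * z) := by
  induction t generalizing w with
  | zero => exact ⟨0, by simp⟩
  | succ t ih =>
    -- sum over p^t blocks of size p
    obtain ⟨z, hz⟩ := geom_sum_odd hp hp2 w
    have hpw : ∃ w' : ℤ, (1 + (p : ℤ) * w) ^ p = 1 + p * w' := by
      have h1 : (p : ℤ) ∣ (1 + (p : ℤ) * w) ^ p - 1 := by
        have h2 := sub_dvd_pow_sub_pow (1 + (p : ℤ) * w) 1 p
        rw [one_pow] at h2
        refine dvd_trans ?_ h2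
        exact ⟨w, by ring⟩
      obtain ⟨w', hw'⟩ := h1
      exact ⟨w', by linarith⟩
    obtain ⟨w', hw'⟩ := hpw
    obtain ⟨z', hz'⟩ := ih w'
    refine ⟨z + z' + p * z * z', ?_⟩
    have h3 : ∑ i ∈ Finset.range (p ^ (t + 1)), (1 + (p : ℤ) * w) ^ i =
        (∑ i ∈ Finset.range (p ^ t), ((1 + (p : ℤ) * w) ^ p) ^ i) * ∑ i ∈ Finset.range p, (1 + (p : ℤ) * w) ^ i := by
      rw [pow_succ]
      generalize p ^ t = m
      induction m with
      | zero => simp
      | succ m ihm =>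
        rw [Nat.succ_mul, Finset.sum_range_add, ihm, Finset.sum_range_succ, add_mul]
        congr 1
        rw [Finset.mul_sum]
        apply Finset.sum_congr rfl
        intro i _
        rw [← pow_mul, ← pow_add, mul_comm p m]
    rw [h3, hw', hz', hz, pow_succ]
    ring

theorem exists_inv {p : ℕ} (z : ℤ) (m : ℕ) : ∃ α β : ℤ, α * (1 + p * z) + β * (p : ℤ) ^ m = 1 := by
  have h : IsCoprime (1 + (p : ℤ) * z) ((p : ℤ) ^ m) := IsCoprime.pow_right ⟨1, -z, by ring⟩
  obtain ⟨α, β, h⟩ := h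
  exact ⟨α, β, h⟩

/-- Let p be an odd prime and G a finite metacyclic p-group (G has a cyclic normal subgroup with cyclic quotient). Then G is the product of two cyclic subgroups with trivial intersection: there are cyclic subgroups A and B with A ∩ B = 1 and |A| · |B| = |G|. -/
theorem result {G : Type*} [Group G] [Finite G] {p : ℕ} [Fact p.Prime] (hp : p ≠ 2) (hG : IsPGroup p G) (hmc : Cfsg.IsMetacyclic G) : ∃ A B : Subgroup G, IsCyclic ↥A ∧ IsCyclic ↥B ∧ A ⊓ B = ⊥ ∧ Nat.card ↥A * Nat.card ↥B = Nat.card G := by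
  have hpp : p.Prime := Fact.out
  obtain ⟨N, hN, hNc, hqc⟩ := hmc
  obtain ⟨⟨a, ha⟩, hagen⟩ := IsCyclic.exists_generator (α := N)
  obtain ⟨q, hbgen⟩ := IsCyclic.exists_generator (α := G ⧸ N)
  obtain ⟨b, rfl⟩ := QuotientGroup.mk'_surjective N q
  have hNa : N = Subgroup.zpowers a := by
    apply le_antisymm
    · intro x hx
      obtain ⟨k, hk⟩ := Subgroup.mem_zpowers_iff.1 (hagen ⟨x, hx⟩)
      exact Subgroup.mem_zpowers_iff.2 ⟨k, congrArg Subtype.val hk⟩
    · exact Subgroup.zpowers_le.2 ha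
  obtain ⟨m, hm⟩ : ∃ m, orderOf a = p ^ m := by
    obtain ⟨j, hj⟩ := hG a
    obtain ⟨i, _, hi⟩ := (Nat.dvd_prime_pow hpp).1 (orderOf_dvd_of_pow_eq_one hj)
    exact ⟨i, hi⟩
  obtain ⟨r, hr⟩ : ∃ r, Nat.card (G ⧸ N) = p ^ r := IsPGroup.iff_card.1 (hG.to_quotient N)
  have hcardG : Nat.card G = p ^ (m + r) := by
    rw [Subgroup.card_eq_card_quotient_mul_card_subgroup N, hr, hNa, Nat.card_zpowers, hm, ← pow_add, add_comm]
  have hordb : orderOf (QuotientGroup.mk' N b) = p ^ r := by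
    rw [← hr, ← orderOf_eq_card_of_forall_mem_zpowers hbgen]
  have hbN : ∀ j : ℕ, b ^ j ∈ N → p ^ r ∣ j := by
    intro j hj
    rw [← hordb, orderOf_dvd_iff_pow_eq_one, ← map_pow, ← MonoidHom.mem_ker, QuotientGroup.ker_mk']
    exact hj
  have hbr : b ^ p ^ r ∈ N := by
    rw [← QuotientGroup.ker_mk' N, MonoidHom.mem_ker, map_pow, ← hordb, pow_orderOf_eq_one]
  obtain ⟨e, he0, he⟩ : ∃ e : ℕ, e ≠ 0 ∧ b ^ p ^ r = a ^ e := by
    rw [hNa] at hbr
    obtain ⟨e, he⟩ := (mem_powers_iff_mem_zpowers.2 hbr : b ^ p ^ r ∈ Submonoid.powers a)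
    refine ⟨e + orderOf a, by have := orderOf_pos a; omega, ?_⟩
    rw [pow_add, pow_orderOf_eq_one, mul_one]
    exact he.symm
  obtain ⟨t, v, hv, htv⟩ := Nat.exists_eq_pow_mul_and_not_dvd he0 p hpp.ne_one
  have hapow : ∀ k : ℤ, ((p : ℤ) ^ m) ∣ k → a ^ k = 1 := by
    intro k hk
    rw [← orderOf_dvd_iff_zpow_eq_one, hm]
    exact_mod_cast hk
  by_cases hcase : t < r ∧ t < m
  · -- second case
    obtain ⟨htr, htm⟩ := hcase
    obtain ⟨c, hc⟩ : ∃ c, c = b ^ p ^ (r - t) := ⟨_, rfl⟩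
    obtain ⟨w, hw⟩ := exists_conj_eq hG hNc c ha
    have hcb : ∀ k : ℕ, c ^ k ∈ Subgroup.zpowers b := by
      intro k
      rw [hc, ← pow_mul]
      exact Subgroup.npow_mem_zpowers b _
    obtain ⟨z, hz⟩ := geom_sum_pow hpp hp w t
    obtain ⟨α, β, hαβ⟩ := exists_inv (p := p) z m
    obtain ⟨y, hy⟩ : ∃ y, y = a ^ (-(v : ℤ) * α) * c := ⟨_, rfl⟩
    have hypow : ∀ k : ℕ, y ^ k = a ^ (-(v : ℤ) * α * ∑ i ∈ Finset.range k, (1 + (p : ℤ) * w) ^ i) * c ^ k := by
      intro k
      rw [hy]; exact mul_pow_conj hw _ k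
    have hyt : y ^ p ^ t = 1 := by
      rw [hypow, hz, hc, ← pow_mul, ← pow_add, show r - t + t = r by omega, he, ← zpow_natCast a e, ← zpow_add]
      apply hapow
      refine ⟨(p : ℤ) ^ t * v * β, ?_⟩
      rw [htv]
      push_cast
      linear_combination (-(v : ℤ) * (p : ℤ) ^ t) * hαβ
    -- intersection
    have hbNe : ∀ x ∈ Subgroup.zpowers b, x ∈ N → ∃ k : ℤ, x = a ^ ((p : ℤ) ^ t * k) := by
      intro x hx hxN
      obtain ⟨j, hj⟩ := (mem_powers_iff_mem_zpowers.2 hx : x ∈ Submonoid.powers b)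
      have hj' : b ^ j = x := hj
      obtain ⟨l, hl⟩ := hbN j (by rw [hj']; exact hxN)
      refine ⟨v * l, ?_⟩
      rw [← hj', hl, pow_mul, he, htv, ← pow_mul, ← zpow_natCast]
      congr 1
      push_cast
      ring
    have hαv : ¬ (p : ℤ) ∣ -(v : ℤ) * α := by
      intro hd
      rcases (Nat.prime_iff_prime_int.1 hpp).dvd_or_dvd hd with h1 | h1
      · apply hv
        have := (dvd_neg (α := ℤ)).1 h1
        exact_mod_cast this
      · have h2 : (p : ℤ) ∣ 1 := by
          rw [← hαβ]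
          refine dvd_add (dvd_mul_of_dvd_left h1 _) (dvd_mul_of_dvd_right (dvd_pow_self _ (by omega)) _)
        have h3 : p ∣ 1 := by exact_mod_cast h2
        exact hpp.one_lt.ne' (Nat.dvd_one.1 h3)
    have hyb : ∀ k : ℕ, y ^ p ^ k ∈ Subgroup.zpowers b → t ≤ k := by
      intro k hk
      obtain ⟨zk, hzk⟩ := geom_sum_pow hpp hp w k
      have h1 : y ^ p ^ k * (c ^ p ^ k)⁻¹ ∈ Subgroup.zpowers b := mul_mem hk (inv_mem (hcb _))
      rw [hypow, mul_inv_cancel_right, hzk] at h1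
      obtain ⟨l, hl⟩ := hbNe _ h1 (N.zpow_mem ha _)
      have h2 : a ^ (-(v : ℤ) * α * ((p : ℤ) ^ k * (1 + p * zk)) - (p : ℤ) ^ t * l) = 1 := by
        rw [zpow_sub, hl, mul_inv_cancel]
      rw [← orderOf_dvd_iff_zpow_eq_one, hm] at h2
      by_contra hlt
      have hlt' : k < t := by omega
      have h3 : ((p : ℤ) ^ (k + 1)) ∣ -(v : ℤ) * α * ((p : ℤ) ^ k * (1 + p * zk)) := by
        have h4 : ((p : ℤ) ^ (k + 1)) ∣ -(v : ℤ) * α * ((p : ℤ) ^ k * (1 + p * zk)) - (p : ℤ) ^ t * l := by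
          refine dvd_trans ?_ h2
          push_cast
          exact pow_dvd_pow _ (by omega)
        have h5 : ((p : ℤ) ^ (k + 1)) ∣ (p : ℤ) ^ t * l := dvd_mul_of_dvd_left (pow_dvd_pow _ (by omega)) _
        have := dvd_add h4 h5
        rwa [sub_add_cancel] at this
      have h6 : (p : ℤ) ^ k * (p : ℤ) ∣ (p : ℤ) ^ k * (-(v : ℤ) * α * (1 + p * zk)) := by
        rw [← pow_succ]
        have e : (p : ℤ) ^ k * (-(v : ℤ) * α * (1 + p * zk)) = -(v : ℤ) * α * ((p : ℤ) ^ k * (1 + p * zk)) := by ring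
        rw [e]; exact h3
      have h7 : (p : ℤ) ∣ -(v : ℤ) * α * (1 + p * zk) :=
        (mul_dvd_mul_iff_left (pow_ne_zero k (by exact_mod_cast hpp.ne_zero))).1 h6
      rcases (Nat.prime_iff_prime_int.1 hpp).dvd_or_dvd h7 with h8 | h8
      · exact hαv h8
      · have h9 : (p : ℤ) ∣ 1 := by
          have := dvd_sub h8 (dvd_mul_right (p : ℤ) zk)
          rwa [add_sub_cancel_right] at this
        have h10 : p ∣ 1 := by exact_mod_cast h9
        exact hpp.one_lt.ne' (Nat.dvd_one.1 h10)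
    have hyord : orderOf y ∣ p ^ t := orderOf_dvd_of_pow_eq_one hyt
    have hrel : ∃ k, (Subgroup.zpowers b).relIndex (Subgroup.zpowers y) = p ^ k := by
      have h1 : (Subgroup.zpowers b).relIndex (Subgroup.zpowers y) ∣ p ^ t := by
        refine (Subgroup.relIndex_dvd_card _ _).trans ?_
        rw [Nat.card_zpowers]; exact hyord
      obtain ⟨k, _, hk⟩ := (Nat.dvd_prime_pow hpp).1 h1
      exact ⟨k, hk⟩
    obtain ⟨k, hk⟩ := hrel
    have hkt : t ≤ k := by
      apply hyb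
      have h2 := Subgroup.pow_index_mem ((Subgroup.zpowers b).subgroupOf (Subgroup.zpowers y)) (⟨y, Subgroup.mem_zpowers y⟩ : Subgroup.zpowers y)
      rw [Subgroup.mem_subgroupOf] at h2
      have h3 : ((Subgroup.zpowers b).subgroupOf (Subgroup.zpowers y)).index = p ^ k := hk
      rw [h3] at h2
      exact h2
    have hcy : Nat.card (Subgroup.zpowers b ⊓ Subgroup.zpowers y : Subgroup G) * p ^ k = orderOf y := by
      have h1 := Subgroup.card_mul_index ((Subgroup.zpowers b).subgroupOf (Subgroup.zpowers y))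
      have h3 : ((Subgroup.zpowers b).subgroupOf (Subgroup.zpowers y)).index = p ^ k := hk
      rw [h3, Nat.card_zpowers, ← Subgroup.inf_subgroupOf_right, card_subgroupOf inf_le_right] at h1
      exact h1
    have hyle : orderOf y ≤ p ^ t := Nat.le_of_dvd (pow_pos hpp.pos t) hyord
    have hpk : p ^ t ≤ p ^ k := Nat.pow_le_pow_right hpp.pos hkt
    have hc1 : Nat.card (Subgroup.zpowers b ⊓ Subgroup.zpowers y : Subgroup G) = 1 := by
      have hpos : 0 < Nat.card (Subgroup.zpowers b ⊓ Subgroup.zpowers y : Subgroup G) := Nat.card_pos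
      have hpp' : 0 < p ^ k := pow_pos hpp.pos k
      by_contra hne
      have h2 : 2 ≤ Nat.card (Subgroup.zpowers b ⊓ Subgroup.zpowers y : Subgroup G) := by omega
      have : 2 * p ^ k ≤ orderOf y := by rw [← hcy]; exact Nat.mul_le_mul_right _ h2
      omega
    have hyo : orderOf y = p ^ t := by
      rw [hc1, one_mul] at hcy
      omega
    have hbo : orderOf b = p ^ (r + (m - t)) := by
      have h1 : orderOf (b ^ p ^ r) = p ^ (m - t) := by
        rw [he, orderOf_pow, hm, htv]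
        have h2 : (p ^ m).gcd (p ^ t * v) = p ^ t := by
          have h3 : p ^ m = p ^ t * p ^ (m - t) := by rw [← pow_add]; congr 1; omega
          rw [h3, Nat.gcd_mul_left]
          have h4 : (p ^ (m - t)).gcd v = 1 := Nat.Coprime.pow_left _ ((hpp.coprime_iff_not_dvd).2 hv)
          rw [h4, mul_one]
        rw [h2, Nat.pow_div htm.le hpp.pos]
      have h2 : p ^ r ∣ orderOf b := hbN _ (by rw [pow_orderOf_eq_one]; exact N.one_mem)
      rw [orderOf_pow_of_dvd (pow_pos hpp.pos r).ne' h2] at h1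
      rw [pow_add, ← h1, Nat.mul_div_cancel' h2]
    refine ⟨Subgroup.zpowers b, Subgroup.zpowers y, inferInstance, inferInstance, Subgroup.card_eq_one.1 hc1, ?_⟩
    rw [Nat.card_zpowers, Nat.card_zpowers, hbo, hyo, hcardG, ← pow_add]
    congr 1
    omega
  · -- first case
    obtain ⟨e', he'⟩ : ∃ e' : ℤ, b ^ p ^ r = a ^ ((p : ℤ) ^ r * e') := by
      by_cases htr : t < r
      · have htm : m ≤ t := by omega
        refine ⟨0, ?_⟩
        rw [he, mul_zero, zpow_zero, ← orderOf_dvd_iff_pow_eq_one, hm, htv]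
        exact Dvd.dvd.mul_right (Nat.pow_dvd_pow p htm) v
      · refine ⟨(p : ℤ) ^ (t - r) * v, ?_⟩
        rw [he, htv, ← zpow_natCast]
        congr 1
        push_cast
        rw [← mul_assoc, ← pow_add, show r + (t - r) = t by omega]
    obtain ⟨w, hw⟩ := exists_conj_eq hG hNc b ha
    obtain ⟨z, hz⟩ := geom_sum_pow hpp hp w r
    obtain ⟨α, β, hαβ⟩ := exists_inv (p := p) z m
    obtain ⟨y, hy⟩ : ∃ y, y = a ^ (-e' * α) * b := ⟨_, rfl⟩
    have hyr : y ^ p ^ r = 1 := by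
      rw [hy, mul_pow_conj hw, hz, he', ← zpow_add]
      apply hapow
      refine ⟨(p : ℤ) ^ r * e' * β, ?_⟩
      linear_combination (-e' * (p : ℤ) ^ r) * hαβ
    have hmk : QuotientGroup.mk' N y = QuotientGroup.mk' N b := by
      rw [hy, map_mul]
      have : QuotientGroup.mk' N (a ^ (-e' * α)) = 1 := by
        rw [← MonoidHom.mem_ker, QuotientGroup.ker_mk']
        exact N.zpow_mem ha _
      rw [this, one_mul]
    have hinf : N ⊓ Subgroup.zpowers y = ⊥ := by
      rw [eq_bot_iff]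
      rintro x ⟨hxN, hxy⟩
      rw [Subgroup.mem_bot]
      obtain ⟨j, hj⟩ := (mem_powers_iff_mem_zpowers.2 hxy : x ∈ Submonoid.powers y)
      have hj' : y ^ j = x := hj
      have h1 : QuotientGroup.mk' N b ^ j = 1 := by
        rw [← hmk, ← map_pow, ← MonoidHom.mem_ker, QuotientGroup.ker_mk', hj']
        exact hxN
      rw [← orderOf_dvd_iff_pow_eq_one, hordb] at h1
      obtain ⟨l, hl⟩ := h1
      rw [← hj', hl, pow_mul, hyr, one_pow]
    have hyo : orderOf y = p ^ r := by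
      apply Nat.dvd_antisymm (orderOf_dvd_of_pow_eq_one hyr)
      rw [← hordb, ← hmk]
      exact orderOf_map_dvd _ y
    refine ⟨N, Subgroup.zpowers y, hNc, inferInstance, hinf, ?_⟩
    rw [Nat.card_zpowers, hyo, hcardG, hNa, Nat.card_zpowers, hm, ← pow_add]

end Cfsg.Agent.S3884
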