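import Cfsg.Statements.S3886
import Cfsg.Agent.LibMetacE

set_option autoImplicit false
open Cfsg

namespace Cfsg.Agent.S3886

open CfsgLib.MetacA CfsgLib.MetacB CfsgLib.MetacC CfsgLib.MetacE

/-- Let p be an odd prime and G a finite metacyclic p-group (G has a cyclic normal subgroup with cyclic quotient). Then the largest value of |R| · |Z(R)| over subgroups R of G is |G : G'|², and the subgroups attaining it (the centrally large subgroups) are exactly the non-abelian subgroups together with the maximal abelian subgroups of G. -/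
theorem result {G : Type*} [Group G] [Finite G] {p : ℕ} [Fact p.Prime] (hp : p ≠ 2) (hG : IsPGroup p G) (hmc : Cfsg.IsMetacyclic G) : Cfsg.maxCentralProduct G = (commutator G).index ^ 2 ∧
    ∀ R : Subgroup G, Cfsg.IsCentrallyLarge R ↔ (¬ IsMulCommutative ↥R ∨ Maximal (fun K : Subgroup G => IsMulCommutative ↥K) R) := by
  have h := twoGen_of_metacyclic (Fact.out : p.Prime) hp hG hmc
  obtain ⟨N, n, hN, hn, hle, hidx⟩ := exists_exponents h.cd
  have hone : 1 < p := h.cd.hp.one_lt
  -- the central product
  have key : ∀ R : Subgroup G, ∃ d, d ≤ N ∧ Nat.card R = p ^ (N - d) ∧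
      Nat.card R * Nat.card (Subgroup.center R) * p ^ (2 * (n - d)) = p ^ (2 * (N - d)) := by
    intro R
    obtain ⟨j, hj⟩ := IsPGroup.iff_card.1 (h.cd.pgroup.to_subgroup R)
    have hjN : j ≤ N := by
      have := Subgroup.card_subgroup_dvd_card R
      rw [hj, hN] at this
      exact (Nat.pow_dvd_pow_iff_le_right hone).1 this
    have hR : Nat.card R = p ^ (N - (N - j)) := by rw [hj]; congr 1; omega
    refine ⟨N - j, by omega, hR, ?_⟩
    have h1 := h.card_commutator hN hn (N - j) R (by omega) hR
    have h2 := Subgroup.card_mul_index (Subgroup.center R)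
    rw [h.center_index, h1, ← pow_mul] at h2
    rw [mul_assoc, mul_comm 2 (n - (N - j)), h2, hR, ← pow_add]
    congr 1
    omega
  have hval : ∀ R : Subgroup G, Nat.card R * Nat.card (Subgroup.center R) ≤ (commutator G).index ^ 2 ∧
      (Nat.card R * Nat.card (Subgroup.center R) = (commutator G).index ^ 2 ↔ p ^ (N - n) ≤ Nat.card R) := by
    intro R
    obtain ⟨d, hd, hR, hk⟩ := key R
    rw [hidx, ← pow_mul]
    by_cases hdn : d ≤ n
    · have h1 : Nat.card R * Nat.card (Subgroup.center R) = p ^ ((N - n) * 2) := by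
        rw [show 2 * (N - d) = (N - n) * 2 + 2 * (n - d) by omega, pow_add] at hk
        exact Nat.eq_of_mul_eq_mul_right (pow_pos h.cd.hp.pos _) hk
      rw [h1]
      refine ⟨le_rfl, ?_⟩
      rw [hR]
      constructor
      · intro _; exact Nat.pow_le_pow_right h.cd.hp.pos (by omega)
      · intro _; rfl
    · have h0 : n - d = 0 := by omega
      rw [h0, mul_zero, pow_zero, mul_one] at hk
      rw [hk, hR, Nat.pow_le_pow_iff_right hone, Nat.pow_le_pow_iff_right hone]
      refine ⟨by omega, ?_⟩
      constructor
      · intro h1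
        have := Nat.pow_right_injective h.cd.hp.two_le h1
        omega
      · intro h1; omega
  have hmax : Cfsg.maxCentralProduct G = (commutator G).index ^ 2 := by
    rw [Cfsg.maxCentralProduct]
    apply IsGreatest.csSup_eq
    constructor
    · exact ⟨⊤, (hval ⊤).2.2 (by rw [Subgroup.card_top, hN]; exact Nat.pow_le_pow_right h.cd.hp.pos (by omega))⟩
    · rintro k ⟨R, rfl⟩
      exact (hval R).1
  refine ⟨hmax, fun R => ?_⟩
  rw [Cfsg.IsCentrallyLarge, hmax, (hval R).2, h.maximal_iff, h.comm_iff, hidx]
  omega

end Cfsg.Agent.S3886
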