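import Cfsg.Statements.S3895
import Cfsg.Agent.LibKPi

set_option autoImplicit false
open Cfsg

namespace Cfsg.Agent.S3895

/-- Let G be a finite group with Sylow 2-subgroup P, and write k₂(G) for the number of conjugacy classes of G consisting of 2-elements (elements of 2-power order, the identity included). Then k₂(G) > |P|/2 if and only if G has a normal 2-complement and P has more than |P|/2 conjugacy classes. -/
theorem result {G : Type*} [Group G] [Finite G] (P : Sylow 2 G) :
    Nat.card ↥(P : Subgroup G) < 2 * Nat.card {c : ConjClasses G // ∀ x ∈ c.carrier, ∃ k : ℕ, orderOf x = 2 ^ k} ↔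
      Cfsg.HasNormalPComplement 2 G ∧ Nat.card ↥(P : Subgroup G) < 2 * Nat.card (ConjClasses ↥(P : Subgroup G)) := by

  classical
  haveI : Fact (Nat.Prime 2) := ⟨Nat.prime_two⟩
  have hcl : Nat.card {c : ConjClasses G // ∀ x ∈ c.carrier, ∃ k : ℕ, orderOf x = 2 ^ k} = CfsgLib.KPi.kpi {2} G := by
    rw [← CfsgLib.KPi.card_classes]
    apply Nat.card_congr
    apply Equiv.subtypeEquivRight
    intro c
    constructor
    · intro h x hx
      exact (CfsgLib.KPi.PE_iff_pow Nat.prime_two x).2 (h x hx)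
    · intro h x hx
      exact (CfsgLib.KPi.PE_iff_pow Nat.prime_two x).1 (h x hx)
  rw [hcl]
  have hle : CfsgLib.KPi.kpi {2} G ≤ Nat.card (ConjClasses ↥(P : Subgroup G)) := by
    rw [CfsgLib.KPi.kpi_sylow P]
    have h1 : (ConjClasses.mk '' (P : Set G)) = (ConjClasses.map (P : Subgroup G).subtype) '' Set.univ := by
      ext c
      constructor
      · rintro ⟨x, hx, rfl⟩
        exact ⟨ConjClasses.mk ⟨x, hx⟩, trivial, rfl⟩
      · rintro ⟨c', -, rfl⟩
        obtain ⟨x, rfl⟩ := ConjClasses.exists_rep c'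
        exact ⟨x, x.2, rfl⟩
    rw [h1]
    calc _ ≤ (Set.univ : Set (ConjClasses ↥(P : Subgroup G))).ncard := Set.ncard_image_le (Set.toFinite _)
      _ = _ := Set.ncard_univ _
  constructor
  · intro h
    exact ⟨CfsgLib.KPi.two_main _ G rfl P h, h.trans_le (Nat.mul_le_mul_left 2 hle)⟩
  · rintro ⟨hn, h⟩
    refine h.trans_le (Nat.mul_le_mul_left 2 ?_)
    -- fusion is controlled by `P`
    set N := pPrimeCore 2 G with hN
    haveI : N.Normal := inferInstance
    obtain ⟨k, hk⟩ := CfsgLib.Npc9.hnpc_iff_pPrimeCore.1 hn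
    have hco : (Nat.card N).Coprime 2 := CfsgLib.Cores.pPrimeCore_coprime 2
    obtain ⟨l, hl⟩ := IsPGroup.iff_card.1 P.isPGroup'
    have hdisj : N ⊓ (P : Subgroup G) = ⊥ := by
      apply (Subgroup.disjoint_of_coprime_natCard (H := N) (K := (P : Subgroup G)) ?_).eq_bot
      rw [hl]
      exact Nat.Coprime.pow_right l hco
    have hNP : N ⊔ (P : Subgroup G) = ⊤ := by
      rw [← Subgroup.index_eq_one]
      have h1 : (N ⊔ (P : Subgroup G)).index ∣ 2 ^ k := by rw [← hk]; exact Subgroup.index_dvd_of_le le_sup_left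
      obtain ⟨m, -, hm⟩ := (Nat.dvd_prime_pow Nat.prime_two).1 h1
      rcases Nat.eq_zero_or_pos m with h0 | h0
      · rw [hm, h0, pow_zero]
      · exfalso
        have h2 : 2 ∣ (N ⊔ (P : Subgroup G)).index := by rw [hm]; exact dvd_pow_self 2 h0.ne'
        exact P.not_dvd_index (h2.trans (Subgroup.index_dvd_of_le le_sup_right))
    have hfus : ∀ x ∈ (P : Subgroup G), ∀ y ∈ (P : Subgroup G), IsConj x y → ∃ u ∈ (P : Subgroup G), u * x * u⁻¹ = y := by
      intro x hx y hy hxy
      obtain ⟨g, hg⟩ := isConj_iff.1 hxy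
      have h1 : g ∈ N ⊔ (P : Subgroup G) := hNP ▸ Subgroup.mem_top g
      rw [Subgroup.mem_sup_of_normal_left] at h1
      obtain ⟨n, hn', u, hu, rfl⟩ := h1
      refine ⟨u, hu, ?_⟩
      have h2 : (u * x * u⁻¹) * y⁻¹ ∈ N := by
        rw [← QuotientGroup.eq_one_iff]
        have h3 : QuotientGroup.mk' N n = 1 := (QuotientGroup.eq_one_iff n).2 hn'
        show QuotientGroup.mk' N _ = 1
        rw [← hg]
        simp only [map_mul, map_inv, h3]
        group
      have h4 : (u * x * u⁻¹) * y⁻¹ ∈ N ⊓ (P : Subgroup G) :=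
        Subgroup.mem_inf.2 ⟨h2, Subgroup.mul_mem _ (Subgroup.mul_mem _ (Subgroup.mul_mem _ hu hx) (Subgroup.inv_mem _ hu))
          (Subgroup.inv_mem _ hy)⟩
      rw [hdisj, Subgroup.mem_bot] at h4
      exact mul_inv_eq_one.1 h4
    rw [CfsgLib.KPi.kpi_sylow P]
    have h1 : Function.Injective (ConjClasses.map (P : Subgroup G).subtype) := by
      intro c d hcd
      obtain ⟨x, rfl⟩ := ConjClasses.exists_rep c
      obtain ⟨y, rfl⟩ := ConjClasses.exists_rep d
      have h2 : ConjClasses.mk (x : G) = ConjClasses.mk (y : G) := hcd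
      rw [ConjClasses.mk_eq_mk_iff_isConj] at h2
      obtain ⟨u, hu, hxy⟩ := hfus x x.2 y y.2 h2
      exact ConjClasses.mk_eq_mk_iff_isConj.2 (isConj_iff.2 ⟨⟨u, hu⟩, Subtype.ext hxy⟩)
    rw [← Set.ncard_univ]
    apply Set.ncard_le_ncard_of_injOn (ConjClasses.map (P : Subgroup G).subtype) _ h1.injOn (Set.toFinite _)
    intro c _
    obtain ⟨x, rfl⟩ := ConjClasses.exists_rep c
    exact ⟨x, x.2, rfl⟩


end Cfsg.Agent.S3895
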