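import Cfsg.Statements.S3897
import Cfsg.Agent.LibPClasses

set_option autoImplicit false
open Cfsg

namespace Cfsg.Agent.S3897

/-- Let p be an odd prime and G a finite group with Sylow p-subgroup P, and write k_p(G) for the number of conjugacy classes of G consisting of p-elements (elements of p-power order, the identity included). Then k_p(G) > (p + 1)|P|/(2p) if and only if G has a normal p-complement and P is abelian. -/
theorem result {G : Type*} [Group G] [Finite G] {p : ℕ} [Fact p.Prime] (hp : p ≠ 2) (P : Sylow p G) :
    (p + 1) * Nat.card ↥(P : Subgroup G) < 2 * p * Nat.card {c : ConjClasses G // ∀ x ∈ c.carrier, ∃ k : ℕ, orderOf x = p ^ k} ↔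
      Cfsg.HasNormalPComplement p G ∧ IsMulCommutative ↥(P : Subgroup G) := by
  constructor
  · intro h
    exact CfsgLib.PClasses.main_forward P h
  · rintro ⟨⟨Q, N, hN, hc⟩, hab⟩
    -- N is a complement to P too
    have hcP : N.IsComplement' (P : Subgroup G) := by
      have hQN := hc.card_mul
      have hPQ : Nat.card (P : Subgroup G) = Nat.card (Q : Subgroup G) := by
        rw [P.card_eq_multiplicity, Q.card_eq_multiplicity]
      apply Subgroup.isComplement'_of_coprime
      · rw [hPQ]; exact hQN
      · have h1 : ¬ p ∣ Nat.card N := by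
          rw [← hc.index_eq_card]
          exact Q.not_dvd_index
        obtain ⟨n, hn⟩ := IsPGroup.iff_card.1 P.isPGroup'
        rw [hn]
        exact Nat.Coprime.pow_right _ ((Nat.Prime.coprime_iff_not_dvd Fact.out).2 h1).symm
    have hinj : Function.Injective (CfsgLib.PClasses.toKP P) := by
      intro x y hxy
      have h1 : ConjClasses.mk (x : G) = ConjClasses.mk (y : G) := congrArg Subtype.val hxy
      rw [ConjClasses.mk_eq_mk_iff_isConj, isConj_iff] at h1
      obtain ⟨g, hg⟩ := h1
      obtain ⟨s, hs, hs'⟩ := CfsgLib.PClasses.conj_of_complement N (P : Subgroup G) hcP x.2 y.2 hg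
      have h2 : s * x = x * s := by
        have := hab.is_comm.comm (⟨s, hs⟩ : (P : Subgroup G)) x
        exact congrArg Subtype.val this
      apply Subtype.ext
      rw [← hs', h2]; group
    have h1 : Nat.card (P : Subgroup G) ≤ Nat.card (CfsgLib.PClasses.KP p G) :=
      Nat.card_le_card_of_injective _ hinj
    have hp1 : 1 < p := (Fact.out : p.Prime).one_lt
    have hpos : 0 < Nat.card (P : Subgroup G) := Nat.card_pos
    calc (p + 1) * Nat.card ↥(P : Subgroup G) < 2 * p * Nat.card (P : Subgroup G) := by
          apply Nat.mul_lt_mul_of_pos_right _ hpos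
          omega
      _ ≤ _ := Nat.mul_le_mul_left _ h1

end Cfsg.Agent.S3897
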