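import Cfsg.Statements.S3898
import Cfsg.Agent.LibKPi2

set_option autoImplicit false
open Cfsg

namespace Cfsg.Agent.S3898

/-- Let π be a finite set of primes containing 2 and G a finite group. Write k_π(G) for the number of conjugacy classes of G consisting of π-elements (elements all of whose order's prime divisors lie in π) and |G|_π for the π-part of the order of G. If k_π(G) > |G|_π/2, then G has a normal π-complement (a normal subgroup of order prime to π whose index is a π-number) and an abelian Hall subgroup for the set of odd primes in π. -/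
theorem result {G : Type*} [Group G] [Finite G] (π : Finset ℕ) (hπ : ∀ r ∈ π, r.Prime) (h2 : 2 ∈ π)
    (hk : π.prod (fun r => r ^ (Nat.card G).factorization r) < 2 * Nat.card {c : ConjClasses G // ∀ x ∈ c.carrier, ∀ r : ℕ, r.Prime → r ∣ orderOf x → r ∈ π}) :
    (∃ N : Subgroup G, N.Normal ∧ (∀ r : ℕ, r.Prime → r ∣ Nat.card ↥N → r ∉ π) ∧ ∀ r : ℕ, r.Prime → r ∣ N.index → r ∈ π) ∧ ∃ H : Subgroup G, Cfsg.IsPiHall ((↑π : Set ℕ) \ {2}) H ∧ IsMulCommutative ↥H := by

  classical
  haveI : Fact (Nat.Prime 2) := ⟨Nat.prime_two⟩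
  have hcl : Nat.card {c : ConjClasses G // ∀ x ∈ c.carrier, ∀ r : ℕ, r.Prime → r ∣ orderOf x → r ∈ π} =
      CfsgLib.KPi.kpi (π : Set ℕ) G := by
    rw [← CfsgLib.KPi.card_classes]
    apply Nat.card_congr
    apply Equiv.subtypeEquivRight
    intro c
    exact Iff.rfl
  rw [hcl] at hk
  have hprime : ∀ r ∈ π, r ^ (Nat.card G).factorization r < 2 * CfsgLib.KPi.kpi {r} G := fun r hr =>
    CfsgLib.KPi2.prime_of_pi π hπ hr G hk
  -- normal 2-complement
  have hn2 : HasNormalPComplement 2 G := by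
    obtain ⟨P⟩ : Nonempty (Sylow 2 G) := inferInstance
    apply CfsgLib.KPi.two_main _ G rfl P
    rw [P.card_eq_multiplicity]
    exact hprime 2 h2
  obtain ⟨k, hk2⟩ := CfsgLib.Npc9.hnpc_iff_pPrimeCore.1 hn2
  set K := pPrimeCore 2 G with hK
  haveI hKn : K.Normal := inferInstance
  have hKc : (Nat.card K).Coprime 2 := CfsgLib.Cores.pPrimeCore_coprime 2
  have hKodd : Odd (Nat.card K) := by rwa [Nat.coprime_comm, Nat.coprime_two_left] at hKc
  have hKmem : ∀ x : G, (orderOf x).Coprime 2 → x ∈ K := fun x hx => CfsgLib.Npc9.mem_pPrimeCore_of_coprime hn2 hx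
  -- the odd primes
  have hodd : ∀ r ∈ π, r ≠ 2 → HasNormalPComplement r K ∧ ∀ x y : K, x * y * x⁻¹ * y⁻¹ ∈ pPrimeCore r K := by
    intro r hr hr2
    haveI : Fact r.Prime := ⟨hπ r hr⟩
    have hrp := hπ r hr
    obtain ⟨R⟩ : Nonempty (Sylow r K) := inferInstance
    have h1 : CfsgLib.KPi.kpi {r} G ≤ CfsgLib.KPi.kpi {r} K := by
      rw [CfsgLib.KPi.kpi, CfsgLib.KPi.kpi]
      have h2 : ConjClasses.mk '' {x : G | CfsgLib.KPi.PE {r} x} ⊆
          (ConjClasses.map K.subtype) '' (ConjClasses.mk '' {x : K | CfsgLib.KPi.PE {r} x}) := by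
        rintro _ ⟨x, hx, rfl⟩
        have hxK : x ∈ K := by
          apply hKmem
          obtain ⟨j, hj⟩ := (CfsgLib.KPi.PE_iff_pow hrp x).1 hx
          rw [hj]
          exact Nat.Coprime.pow_left j ((Nat.coprime_primes hrp Nat.prime_two).2 hr2)
        refine ⟨ConjClasses.mk ⟨x, hxK⟩, ⟨⟨x, hxK⟩, ?_, rfl⟩, rfl⟩
        intro s hs hd
        rw [Subgroup.orderOf_mk] at hd
        exact hx s hs hd
      calc _ ≤ _ := Set.ncard_le_ncard h2 (Set.toFinite _)
        _ ≤ _ := Set.ncard_image_le (Set.toFinite _)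
    have h3 : (Nat.card G).factorization r = (Nat.card K).factorization r := by
      rw [← K.card_mul_index, Nat.factorization_mul Nat.card_pos.ne' (by rw [hk2]; positivity), hk2, Finsupp.add_apply,
        Nat.prime_two.factorization_pow, Finsupp.single_apply, if_neg (Ne.symm hr2), add_zero]
    have h4 : Nat.card (R : Subgroup K) < 2 * CfsgLib.KPi.kpi {r} K := by
      rw [R.card_eq_multiplicity, ← h3]
      exact (hprime r hr).trans_le (Nat.mul_le_mul_left 2 h1)
    have h5 := CfsgLib.KPi2.odd_main hKodd R h4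
    have h6 := CfsgLib.Npc9.hnpc_of_central R h5
    refine ⟨h6, ?_⟩
    obtain ⟨j, hj⟩ := CfsgLib.Npc9.hnpc_iff_pPrimeCore.1 h6
    set C := pPrimeCore r K with hC
    haveI : C.Normal := inferInstance
    have hCR : C ⊔ (R : Subgroup K) = ⊤ := by
      rw [← Subgroup.index_eq_one]
      have h1 : (C ⊔ (R : Subgroup K)).index ∣ r ^ j := by rw [← hj]; exact Subgroup.index_dvd_of_le le_sup_left
      obtain ⟨m, -, hm⟩ := (Nat.dvd_prime_pow hrp).1 h1
      rcases Nat.eq_zero_or_pos m with h0 | h0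
      · rw [hm, h0, pow_zero]
      · exfalso
        have h2 : r ∣ (C ⊔ (R : Subgroup K)).index := by rw [hm]; exact dvd_pow_self r h0.ne'
        exact R.not_dvd_index (h2.trans (Subgroup.index_dvd_of_le le_sup_right))
    have hdec : ∀ x : K, ∃ u ∈ (R : Subgroup K), QuotientGroup.mk' C x = QuotientGroup.mk' C u := by
      intro x
      have h1 : x ∈ C ⊔ (R : Subgroup K) := hCR ▸ Subgroup.mem_top x
      rw [Subgroup.mem_sup_of_normal_left] at h1
      obtain ⟨n, hn', u, hu, rfl⟩ := h1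
      refine ⟨u, hu, ?_⟩
      have h2 : QuotientGroup.mk' C n = 1 := (QuotientGroup.eq_one_iff n).2 hn'
      rw [map_mul, h2, one_mul]
    intro x y
    obtain ⟨u, hu, hxu⟩ := hdec x
    obtain ⟨v, hv, hyv⟩ := hdec y
    rw [← QuotientGroup.eq_one_iff]
    show QuotientGroup.mk' C _ = 1
    have h7 : u * v = v * u := by
      have := Subgroup.mem_centralizer_iff.1 (h5 (Subgroup.le_normalizer hu)) v hv
      exact this.symm
    rw [map_mul, map_mul, map_mul, map_inv, map_inv, hxu, hyv, ← map_mul, h7, map_mul]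
    group
  -- the complement
  set N : Subgroup G := K ⊓ ⨅ r ∈ π.erase 2, (pPrimeCore r K).map K.subtype with hN
  have hNK : N ≤ K := inf_le_left
  have hNr : ∀ r ∈ π, r ≠ 2 → N ≤ (pPrimeCore r K).map K.subtype := by
    intro r hr hr2
    exact inf_le_right.trans (iInf₂_le r (Finset.mem_erase.2 ⟨hr2, hr⟩))
  haveI hNn : N.Normal := by
    have h1 : (⨅ r ∈ π.erase 2, (pPrimeCore r K).map K.subtype).Normal := by
      apply Subgroup.normal_iInf_normal
      intro r
      apply Subgroup.normal_iInf_normal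
      intro _
      infer_instance
    exact Subgroup.normal_inf_normal _ _
  have hNcard : ∀ r : ℕ, r.Prime → r ∣ Nat.card N → r ∉ π := by
    intro r hrp hd hr
    by_cases hr2 : r = 2
    · subst hr2
      have h1 : 2 ∣ Nat.card K := hd.trans (Subgroup.card_dvd_of_le hNK)
      exact hKodd.not_two_dvd_nat h1
    · haveI : Fact r.Prime := ⟨hrp⟩
      have h1 : Nat.card N ∣ Nat.card (pPrimeCore r K) := by
        rw [← Subgroup.card_map_of_injective K.subtype_injective (K := pPrimeCore r K)]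
        exact Subgroup.card_dvd_of_le (hNr r hr hr2)
      have h2 : (Nat.card (pPrimeCore r K)).Coprime r := CfsgLib.Cores.pPrimeCore_coprime r
      exact hrp.one_lt.ne' (Nat.dvd_one.1 (h2 ▸ Nat.dvd_gcd (hd.trans h1) dvd_rfl))
  have hNidx : ∀ s : ℕ, s.Prime → s ∣ N.index → s ∈ π := by
    intro s hs hd
    by_contra hsπ
    haveI : Fact s.Prime := ⟨hs⟩
    obtain ⟨S⟩ : Nonempty (Sylow s G) := inferInstance
    have hSN : (S : Subgroup G) ≤ N := by
      intro x hx
      obtain ⟨j, hj⟩ := IsPGroup.iff_orderOf.1 S.isPGroup' ⟨x, hx⟩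
      rw [Subgroup.orderOf_mk] at hj
      have hs2 : s ≠ 2 := fun h => hsπ (h ▸ h2)
      have hxK : x ∈ K := by
        apply hKmem
        rw [hj]
        exact Nat.Coprime.pow_left j ((Nat.coprime_primes hs Nat.prime_two).2 hs2)
      refine Subgroup.mem_inf.2 ⟨hxK, ?_⟩
      rw [Subgroup.mem_iInf]
      intro r
      rw [Subgroup.mem_iInf]
      intro hr
      rw [Finset.mem_erase] at hr
      haveI : Fact r.Prime := ⟨hπ r hr.2⟩
      refine ⟨⟨x, hxK⟩, ?_, rfl⟩
      apply CfsgLib.Npc9.mem_pPrimeCore_of_coprime (hodd r hr.2 hr.1).1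
      rw [Subgroup.orderOf_mk, hj]
      exact Nat.Coprime.pow_left j ((Nat.coprime_primes hs (hπ r hr.2)).2 (fun h => hsπ (h ▸ hr.2)))
    exact S.not_dvd_index (hd.trans (Subgroup.index_dvd_of_le hSN))
  refine ⟨⟨N, hNn, hNcard, hNidx⟩, ?_⟩
  -- the Hall subgroup
  set N' := N.subgroupOf K with hN'
  have hN'card : Nat.card N' = Nat.card N := Nat.card_congr (Subgroup.subgroupOfEquivOfLe hNK).toEquiv
  have hN'idx : N'.index ∣ N.index := Subgroup.relIndex_dvd_index_of_normal N K
  have hcop : (Nat.card N').Coprime N'.index := by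
    rw [hN'card]
    apply Nat.Coprime.symm
    apply Nat.Coprime.coprime_dvd_left hN'idx
    by_contra hne
    obtain ⟨s, hs, hd⟩ := Nat.exists_prime_and_dvd (n := Nat.gcd N.index (Nat.card N)) hne
    exact hNcard s hs (hd.trans (Nat.gcd_dvd_right _ _)) (hNidx s hs (hd.trans (Nat.gcd_dvd_left _ _)))
  obtain ⟨H', hH'⟩ := Subgroup.exists_right_complement'_of_coprime hcop
  have hH'card : Nat.card H' = N'.index := hH'.symm.index_eq_card.symm
  have hH'idx : H'.index = Nat.card N' := hH'.index_eq_card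
  refine ⟨H'.map K.subtype, ⟨?_, ?_⟩, ?_⟩
  · intro s hs hd
    rw [Subgroup.card_map_of_injective K.subtype_injective] at hd
    refine ⟨hNidx s hs (hd.trans (hH'card ▸ hN'idx)), ?_⟩
    intro h
    have h3 : s = 2 := h
    subst h3
    exact hKodd.not_two_dvd_nat (hd.trans (Subgroup.card_subgroup_dvd_card H'))
  · rintro s hs ⟨hsπ, hs2⟩ hd
    have hs2' : s ≠ 2 := hs2
    have h3 : (H'.map K.subtype).index = Nat.card N * 2 ^ k := by
      rw [← Subgroup.relIndex_mul_index (Subgroup.map_subtype_le H'), hk2, Subgroup.relIndex, Subgroup.subgroupOf,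
        Subgroup.comap_map_eq_self_of_injective K.subtype_injective, hH'idx, hN'card]
    rw [h3] at hd
    rcases (Nat.Prime.dvd_mul hs).1 hd with h4 | h4
    · exact hNcard s hs h4 hsπ
    · exact hs2' ((Nat.prime_dvd_prime_iff_eq hs Nat.prime_two).1 (hs.dvd_of_dvd_pow h4))
  · constructor
    constructor
    rintro ⟨_, x, hx, rfl⟩ ⟨_, y, hy, rfl⟩
    have h3 : x * y * x⁻¹ * y⁻¹ ∈ N' := by
      rw [hN', Subgroup.mem_subgroupOf]
      refine Subgroup.mem_inf.2 ⟨(x * y * x⁻¹ * y⁻¹).2, ?_⟩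
      rw [Subgroup.mem_iInf]
      intro r
      rw [Subgroup.mem_iInf]
      intro hr
      rw [Finset.mem_erase] at hr
      exact ⟨_, (hodd r hr.2 hr.1).2 x y, rfl⟩
    have h4 : x * y * x⁻¹ * y⁻¹ ∈ N' ⊓ H' := Subgroup.mem_inf.2 ⟨h3, Subgroup.mul_mem _ (Subgroup.mul_mem _
      (Subgroup.mul_mem _ hx hy) (Subgroup.inv_mem _ hx)) (Subgroup.inv_mem _ hy)⟩
    rw [hH'.disjoint.eq_bot, Subgroup.mem_bot] at h4
    have h5 : x * y = y * x := by
      calc x * y = (x * y * x⁻¹ * y⁻¹) * (y * x) := by group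
        _ = _ := by rw [h4, one_mul]
    exact Subtype.ext (congrArg (Subtype.val : K → G) h5)


end Cfsg.Agent.S3898
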