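import Cfsg.Statements.S3899
import Cfsg.Agent.LibPiClasses

set_option autoImplicit false
set_option linter.style.haveILetI false
open Cfsg

namespace Cfsg.Agent.S3899

/-- Let π be a finite non-empty set of odd primes with smallest member p and G a finite group. Write k_π(G) for the number of conjugacy classes of G consisting of π-elements (elements all of whose order's prime divisors lie in π) and |G|_π for the π-part of the order of G. If k_π(G) > (p + 1)|G|_π/(2p), then G has a normal π-complement and an abelian Hall π-subgroup. -/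
theorem result {G : Type*} [Group G] [Finite G] (π : Finset ℕ) (hπ : ∀ r ∈ π, r.Prime) (h2 : 2 ∉ π) (p : ℕ) (hp : p ∈ π)
    (hmin : ∀ r ∈ π, p ≤ r) (hk : (p + 1) * π.prod (fun r => r ^ (Nat.card G).factorization r) < 2 * p * Nat.card {c : ConjClasses G // ∀ x ∈ c.carrier, ∀ r : ℕ, r.Prime → r ∣ orderOf x → r ∈ π}) :
    (∃ N : Subgroup G, N.Normal ∧ (∀ r : ℕ, r.Prime → r ∣ Nat.card ↥N → r ∉ π) ∧ ∀ r : ℕ, r.Prime → r ∣ N.index → r ∈ π) ∧ ∃ H : Subgroup G, Cfsg.IsPiHall (↑π : Set ℕ) H ∧ IsMulCommutative ↥H := by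
  classical
  have hq : ∀ q ∈ π, Cfsg.HasNormalPComplement q G ∧ ∀ P : Sylow q G, IsMulCommutative (P : Subgroup G) := by
    intro q hqπ
    haveI : Fact q.Prime := ⟨hπ q hqπ⟩
    have h1 := CfsgLib.PiClasses.card_KPi_le_of_mem (G := G) π hπ hqπ
    have h3 := CfsgLib.PiClasses.piPart_eq_mul hqπ (Nat.card G)
    have hR := CfsgLib.PiClasses.piPart_pos (π := π.erase q) (fun r hr => hπ r (Finset.mem_of_mem_erase hr)) (Nat.card G)
    set R := CfsgLib.PiClasses.piPart (π.erase q) (Nat.card G) with hRdef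
    set k := Nat.card (CfsgLib.PClasses.KP q G) with hkdef
    set Q := q ^ (Nat.card G).factorization q with hQdef
    have h4 : (p + 1) * (Q * R) < 2 * p * (k * R) := by
      rw [← h3]
      refine lt_of_lt_of_le hk ?_
      exact Nat.mul_le_mul_left _ h1
    have h5 : (p + 1) * Q < 2 * p * k := by
      have : ((p + 1) * Q) * R < (2 * p * k) * R := by
        calc ((p + 1) * Q) * R = (p + 1) * (Q * R) := by ring
          _ < 2 * p * (k * R) := h4
          _ = _ := by ring
      exact lt_of_mul_lt_mul_right this (Nat.zero_le _)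
    have hpq := hmin q hqπ
    have hppos := (hπ p hp).pos
    have h6 : (q + 1) * Q < 2 * q * k := by
      have h7 : p * ((q + 1) * Q) < p * (2 * q * k) := by
        calc p * ((q + 1) * Q) = (p * q + p) * Q := by ring
          _ ≤ (p * q + q) * Q := Nat.mul_le_mul_right _ (by omega)
          _ = q * ((p + 1) * Q) := by ring
          _ < q * (2 * p * k) := Nat.mul_lt_mul_of_pos_left h5 (hπ q hqπ).pos
          _ = p * (2 * q * k) := by ring
      exact lt_of_mul_lt_mul_left h7 (Nat.zero_le _)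
    refine ⟨?_, fun P => ?_⟩
    · obtain ⟨P⟩ := (inferInstance : Nonempty (Sylow q G))
      refine (CfsgLib.PClasses.main_forward P ?_).1
      rw [P.card_eq_multiplicity]
      exact h6
    · refine (CfsgLib.PClasses.main_forward P ?_).2
      rw [P.card_eq_multiplicity]
      exact h6
  obtain ⟨M, N, hN, hNM, hM, hc1, hc2⟩ := CfsgLib.PiClasses.exists_normal_pi_complement π hπ (fun q hqπ => (hq q hqπ).1)
  refine ⟨⟨N, hN, hc1, hc2⟩, ?_⟩
  have hcop : (Nat.card N).Coprime N.index := by
    rw [Nat.coprime_iff_gcd_eq_one]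
    by_contra hne
    obtain ⟨r, hr, hrd⟩ := Nat.exists_prime_and_dvd hne
    exact hc1 r hr (hrd.trans (Nat.gcd_dvd_left _ _)) (hc2 r hr (hrd.trans (Nat.gcd_dvd_right _ _)))
  obtain ⟨H, hH⟩ := Subgroup.exists_right_complement'_of_coprime hcop
  refine ⟨H, ⟨?_, ?_⟩, ?_⟩
  · intro r hr hrd
    rw [← hH.symm.index_eq_card] at hrd
    exact hc2 r hr hrd
  · intro r hr hrπ hrd
    rw [hH.index_eq_card] at hrd
    exact hc1 r hr hrd hrπ
  · refine ⟨⟨fun x y => ?_⟩⟩
    have h1 : (x : G) * y * (x : G)⁻¹ * (y : G)⁻¹ ∈ N := by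
      rw [hNM]
      simp only [Subgroup.mem_iInf]
      intro q hqπ
      obtain ⟨hMn, P, hP⟩ := hM q hqπ
      haveI := hMn
      exact CfsgLib.PiClasses.commutator_mem (M q) (P : Subgroup G) hP ((hq q hqπ).2 P) x y
    have h2 : (x : G) * y * (x : G)⁻¹ * (y : G)⁻¹ ∈ N ⊓ H :=
      Subgroup.mem_inf.2 ⟨h1, (x * y * x⁻¹ * y⁻¹ : H).2⟩
    rw [hH.disjoint.eq_bot, Subgroup.mem_bot] at h2
    apply Subtype.ext
    have h3 : (x : G) * y = y * x := by
      have := congrArg (fun t => t * (y : G) * x) h2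
      simpa [mul_assoc] using this
    exact h3

end Cfsg.Agent.S3899
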