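import Cfsg.Statements.S3903

set_option autoImplicit false
open Cfsg

namespace Cfsg.Agent.S3903

variable {G : Type*} [Group G] [Finite G]

/-- if p-group fails, there is an element of prime order `q ≠ p`. -/
theorem exists_prime_order_of_not_pgroup {p : ℕ} (hp : p.Prime) (H : Subgroup G) (h : ¬ IsPGroup p H) :
    ∃ (q : ℕ) (c : G), q.Prime ∧ q ≠ p ∧ c ∈ H ∧ orderOf c = q := by
  classical
  haveI : Fact p.Prime := ⟨hp⟩
  have h1 : ¬ (Nat.card H).primeFactors ⊆ {p} := by
    intro hs
    apply h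
    have hc : Nat.card H = p ^ (Nat.card H).factorization p := by
      conv_lhs => rw [← Nat.prod_factorization_pow_eq_self (n := Nat.card H) (Nat.card_pos.ne')]
      rw [Finsupp.prod, Nat.support_factorization]
      rcases Finset.subset_singleton_iff.1 hs with h0 | h0
      · rw [h0, Finset.prod_empty]
        rw [Nat.factorization_eq_zero_of_not_dvd, pow_zero]
        intro hd
        have : p ∈ (Nat.card H).primeFactors := Nat.mem_primeFactors.2 ⟨hp, hd, Nat.card_pos.ne'⟩
        rw [h0] at this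
        simp at this
      · rw [h0, Finset.prod_singleton]
    exact IsPGroup.of_card hc
  rw [Finset.not_subset] at h1
  obtain ⟨q, hq, hqp⟩ := h1
  have hqpr := Nat.prime_of_mem_primeFactors hq
  haveI : Fact q.Prime := ⟨hqpr⟩
  obtain ⟨c, hc⟩ := exists_prime_orderOf_dvd_card' (G := H) q (Nat.dvd_of_mem_primeFactors hq)
  refine ⟨q, c, hqpr, by simpa using hqp, c.2, by rw [← hc]; exact Subgroup.orderOf_coe c⟩

theorem solvable_of_pgroup {K : Type*} [Group K] [Finite K] {p : ℕ} (hp : p.Prime) (h : IsPGroup p K) :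
    Group.IsSolvable K := by
  haveI : Fact p.Prime := ⟨hp⟩
  haveI := h.isNilpotent
  infer_instance

/-- Statement S3903 -/
theorem result {G : Type*} [Group G] [Finite G] (N : Subgroup G) [N.Normal] (hN : N ≠ ⊤)
    (h : ∀ x : G, x ∉ N → IsPrimePow (orderOf x) ∧ IsCoatom (Subgroup.centralizer ({x} : Set G))) : Group.IsSolvable ↥N := by
  classical
  obtain ⟨x0, hx0⟩ : ∃ x, x ∉ N := by
    by_contra hcon
    push_neg at hcon
    exact hN (by rw [eq_top_iff]; intro x _; exact hcon x)
  obtain ⟨⟨p, k, hp', hk, hpk⟩, hco0⟩ := h x0 hx0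
  have hp : p.Prime := hp'.nat_prime
  haveI : Fact p.Prime := ⟨hp⟩
  -- Lemma A
  have A : ∀ x : G, x ∉ N → (∃ j, orderOf x = p ^ j) → IsPGroup p (Subgroup.centralizer ({x} : Set G)) := by
    rintro x hx ⟨j, hj⟩
    by_contra hcon
    obtain ⟨q, c, hq, hqp, hc, hco⟩ := exists_prime_order_of_not_pgroup hp _ hcon
    have hcomm : Commute x c := by
      have := Subgroup.mem_centralizer_singleton_iff.1 hc
      exact this.symm
    have hj0 : 0 < j := by
      rcases Nat.eq_zero_or_pos j with h0 | h0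
      · subst h0
        rw [pow_zero, orderOf_eq_one_iff] at hj
        exact absurd (hj ▸ N.one_mem) hx
      · exact h0
    have hcop : (orderOf x).Coprime (orderOf c) := by
      rw [hj, hco]
      exact Nat.Coprime.pow_left _ ((Nat.coprime_primes hp hq).2 (Ne.symm hqp))
    have hord : orderOf (x * c) = p ^ j * q := by
      rw [hcomm.orderOf_mul_eq_mul_orderOf_of_coprime hcop, hj, hco]
    have hxc : x * c ∉ N := by
      intro hmem
      have h1 : (x * c) ^ q = x ^ q := by
        rw [hcomm.mul_pow, ← hco, pow_orderOf_eq_one, mul_one]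
      have h2 : x ^ q ∈ N := h1 ▸ N.pow_mem hmem q
      have h3 : x ∈ Subgroup.zpowers (x ^ q) := by
        rw [← hco]
        have := (Nat.Coprime.symm hcop)
        obtain ⟨m, hm⟩ := exists_pow_eq_self_of_coprime this
        exact ⟨m, by simpa using hm⟩
      obtain ⟨m, hm⟩ := h3
      exact hx (hm ▸ N.zpow_mem h2 m)
    obtain ⟨r, s, hr, hs, hrs⟩ := (h _ hxc).1
    rw [hord] at hrs
    have hr' := hr.nat_prime
    have h1 : p ∣ r ^ s := hrs ▸ Dvd.dvd.mul_right (dvd_pow_self p hj0.ne') q
    have h2 : q ∣ r ^ s := hrs ▸ Dvd.intro_left _ rfl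
    have h3 := (Nat.prime_dvd_prime_iff_eq hp hr').1 (hp.dvd_of_dvd_pow h1)
    have h4 := (Nat.prime_dvd_prime_iff_eq hq hr').1 (hq.dvd_of_dvd_pow h2)
    exact hqp (h4.trans h3.symm)
  by_cases hGp : IsPGroup p G
  · exact solvable_of_pgroup hp (hGp.to_subgroup N)
  -- centralizers which are p-groups are Sylow subgroups
  have B : ∀ x : G, x ∉ N → IsPGroup p (Subgroup.centralizer ({x} : Set G)) →
      ∃ P : Sylow p G, (P : Subgroup G) = Subgroup.centralizer ({x} : Set G) := by
    intro x hx hxp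
    obtain ⟨P, hP⟩ := hxp.exists_le_sylow
    refine ⟨P, ?_⟩
    rcases (h x hx).2.le_iff.1 hP with h1 | h1
    · exfalso
      apply hGp
      intro g
      have := P.isPGroup' ⟨g, h1 ▸ Subgroup.mem_top g⟩
      obtain ⟨j, hj⟩ := this
      exact ⟨j, by simpa using congrArg Subtype.val hj⟩
    · exact h1
  have hC0 := A x0 hx0 ⟨k, hpk.symm⟩
  obtain ⟨S, hS⟩ := B x0 hx0 hC0
  have hScoatom : IsCoatom (S : Subgroup G) := hS ▸ hco0
  by_cases hNS : N ≤ S
  · exact solvable_of_pgroup hp (S.isPGroup'.to_le hNS)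
  have hsup : N ⊔ (S : Subgroup G) = ⊤ := by
    rcases hScoatom.le_iff.1 (le_sup_right : (S : Subgroup G) ≤ N ⊔ S) with h1 | h1
    · exact h1
    · exact absurd (h1 ▸ le_sup_left) hNS
  -- every element outside N is a p-element; p'-elements lie in N
  have hquot : ∀ g : G, ∃ j, g ^ p ^ j ∈ N := by
    intro g
    have hg : g ∈ N ⊔ (S : Subgroup G) := hsup ▸ Subgroup.mem_top g
    rw [Subgroup.mem_sup_of_normal_left] at hg
    obtain ⟨n, hn, s, hs, rfl⟩ := hg
    obtain ⟨j, hj⟩ := S.isPGroup' ⟨s, hs⟩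
    refine ⟨j, ?_⟩
    rw [← QuotientGroup.eq_one_iff]
    have h1 : ((n * s : G) : G ⧸ N) = (s : G ⧸ N) := by
      rw [QuotientGroup.mk_mul, (QuotientGroup.eq_one_iff n).2 hn, one_mul]
    have h2 : s ^ p ^ j = 1 := by simpa using congrArg Subtype.val hj
    rw [QuotientGroup.mk_pow, h1, ← QuotientGroup.mk_pow, h2, QuotientGroup.mk_one]
  have hp'N : ∀ g : G, (orderOf g).Coprime p → g ∈ N := by
    intro g hg
    obtain ⟨j, hj⟩ := hquot g
    obtain ⟨m, hm⟩ := exists_pow_eq_self_of_coprime (x := g) (n := p ^ j) (Nat.Coprime.pow_left _ hg.symm)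
    rw [← hm]
    exact N.pow_mem hj m
  have C : ∀ x : G, x ∉ N → ∃ j, orderOf x = p ^ j := by
    intro x hx
    obtain ⟨r, s, hr, hs, hrs⟩ := (h x hx).1
    by_cases hrp : r = p
    · exact ⟨s, by rw [← hrs, hrp]⟩
    · exfalso
      apply hx
      apply hp'N
      rw [← hrs]
      exact Nat.Coprime.pow_left _ ((Nat.coprime_primes hr.nat_prime hp).2 hrp)
  have D : ∀ x : G, x ∉ N → ∃ P : Sylow p G, (P : Subgroup G) = Subgroup.centralizer ({x} : Set G) :=
    fun x hx => B x hx (A x hx (C x hx))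
  -- normalizers of p-subgroups not inside N are p-groups
  have E : ∀ D : Subgroup G, IsPGroup p D → ¬ D ≤ N → IsPGroup p (Subgroup.normalizer (D : Set G)) := by
    intro D hD hDN
    by_contra hcon
    obtain ⟨q, c, hq, hqp, hc, hco⟩ := exists_prime_order_of_not_pgroup hp _ hcon
    haveI : Fact q.Prime := ⟨hq⟩
    have hcN : c ∈ N := hp'N c (by rw [hco]; exact (Nat.coprime_primes hq hp).2 hqp)
    obtain ⟨d, hdD, hdN⟩ := SetLike.not_le_iff_exists.1 hDN
    -- action of zpowers c on coset d (D ∩ N)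
    let X : Set G := {y | y ∈ D ∧ y * d⁻¹ ∈ N}
    have hXc : ∀ g ∈ Subgroup.zpowers c, ∀ y ∈ X, g * y * g⁻¹ ∈ X := by
      intro g hg y hy
      have hgN : g ∈ N := (Subgroup.zpowers_le.2 hcN) hg
      have hgn : g ∈ Subgroup.normalizer (D : Set G) := (Subgroup.zpowers_le.2 hc) hg
      refine ⟨(Subgroup.mem_normalizer_iff.1 hgn y).1 hy.1, ?_⟩
      have h1 : g * y * g⁻¹ * d⁻¹ = g * ((y * g⁻¹ * y⁻¹) * (y * d⁻¹)) := by group
      rw [h1]
      exact N.mul_mem hgN (N.mul_mem ((‹N.Normal›).conj_mem _ (N.inv_mem hgN) y) hy.2)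
    letI act : MulAction (Subgroup.zpowers c) X :=
      { smul := fun g y => ⟨g * y * g⁻¹, hXc g g.2 y y.2⟩
        one_smul := fun y => by
          apply Subtype.ext
          change (1 : G) * y * (1 : G)⁻¹ = y
          simp
        mul_smul := fun g g' y => by
          apply Subtype.ext
          change ((g * g' : Subgroup.zpowers c) : G) * y * ((g * g' : Subgroup.zpowers c) : G)⁻¹ = g * (g' * y * (g' : G)⁻¹) * (g : G)⁻¹
          simp [mul_assoc] }
    have hXcard : Nat.card X = Nat.card (D ⊓ N : Subgroup G) := by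
      apply Nat.card_congr
      refine ⟨fun y => ⟨y * d⁻¹, D.mul_mem y.2.1 (D.inv_mem hdD), y.2.2⟩, fun z => ⟨z * d, D.mul_mem z.2.1 hdD, by simpa using z.2.2⟩, ?_, ?_⟩
      · intro y; simp
      · intro z; simp
    have hpp : IsPGroup q (Subgroup.zpowers c) := by
      apply IsPGroup.of_card (n := 1)
      rw [Nat.card_zpowers, hco, pow_one]
    have hnd : ¬ q ∣ Nat.card X := by
      rw [hXcard]
      obtain ⟨n, hn⟩ := (IsPGroup.iff_card.1 (hD.to_le (inf_le_left : D ⊓ N ≤ D)))
      rw [hn]
      intro hd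
      exact hqp ((Nat.prime_dvd_prime_iff_eq hq hp).1 (hq.dvd_of_dvd_pow hd))
    haveI : Finite X := inferInstance
    obtain ⟨y, hy⟩ := hpp.nonempty_fixed_point_of_prime_not_dvd_card X hnd
    have hyc : c * y * c⁻¹ = y := by
      have := hy ⟨c, Subgroup.mem_zpowers c⟩
      exact congrArg Subtype.val this
    have hyN : (y : G) ∉ N := by
      intro hyN
      apply hdN
      have := N.mul_mem (N.inv_mem y.2.2) hyN
      simpa using this
    have hcy : c ∈ Subgroup.centralizer ({(y : G)} : Set G) := by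
      rw [Subgroup.mem_centralizer_singleton_iff]
      rw [mul_inv_eq_iff_eq_mul] at hyc
      exact hyc
    obtain ⟨j, hj⟩ := IsPGroup.iff_orderOf.1 (A y hyN (C y hyN)) ⟨c, hcy⟩
    rw [Subgroup.orderOf_mk, hco] at hj
    have : q ∣ p ^ j := by rw [← hj]
    exact hqp ((Nat.prime_dvd_prime_iff_eq hq hp).1 (hq.dvd_of_dvd_pow this))
  -- uniqueness of Sylow
  have F : ∀ P Q : Sylow p G, ¬ ((P : Subgroup G) ⊓ (Q : Subgroup G) ≤ N) → P = Q := by
    by_contra hcon
    push_neg at hcon
    obtain ⟨P, Q, hPQ, hne⟩ := hcon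
    -- choose maximal
    let T : Set (Sylow p G × Sylow p G) := {t | ¬ ((t.1 : Subgroup G) ⊓ (t.2 : Subgroup G) ≤ N) ∧ t.1 ≠ t.2}
    have hT : T.Nonempty := ⟨(P, Q), hPQ, hne⟩
    haveI : Finite (Sylow p G) := inferInstance
    obtain ⟨t, ht, hmax⟩ := T.toFinite.exists_maximalFor (fun t => Nat.card ((t.1 : Subgroup G) ⊓ (t.2 : Subgroup G) : Subgroup G)) T hT
    obtain ⟨P, Q⟩ := t
    obtain ⟨hPQ, hne⟩ := ht
    dsimp only at hPQ hne hmax
    set D : Subgroup G := (P : Subgroup G) ⊓ (Q : Subgroup G) with hDdef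
    have hDp : IsPGroup p D := P.isPGroup'.to_le inf_le_left
    obtain ⟨U, hU⟩ := (E D hDp hPQ).exists_le_sylow
    have key : ∀ R : Sylow p G, D < R → R = U := by
      intro R hR
      by_contra hRU
      have h1 : D < (R : Subgroup G) ⊓ Subgroup.normalizer (D : Set G) := by
        haveI := R.isPGroup'.isNilpotent
        have hnc := Group.normalizerCondition_of_isNilpotent (G := (R : Subgroup G))
        have h2 : (D.subgroupOf R) < ⊤ := by
          rw [lt_top_iff_ne_top]
          intro h3
          rw [Subgroup.subgroupOf_eq_top] at h3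
          exact absurd h3 (not_le_of_gt hR)
        have h3 := hnc _ h2
        refine lt_of_le_of_ne (le_inf hR.le Subgroup.le_normalizer) ?_
        intro h4
        apply h3.ne
        apply le_antisymm h3.le
        intro y hy
        rw [Subgroup.mem_subgroupOf, h4]
        refine ⟨y.2, ?_⟩
        change (y : G) ∈ Subgroup.normalizer (D : Set G)
        rw [Subgroup.mem_normalizer_iff] at hy ⊢
        intro z
        constructor
        · intro hz
          have := (hy ⟨z, hR.le hz⟩).1 (by rw [Subgroup.mem_subgroupOf]; exact hz)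
          exact this
        · intro hz
          have hz' : z ∈ (R : Subgroup G) := by
            have h5 := hR.le hz
            have h6 : z = (y : G)⁻¹ * (y * z * (y : G)⁻¹) * y := by group
            rw [h6]
            exact mul_mem (mul_mem (inv_mem y.2) h5) y.2
          have := (hy ⟨z, hz'⟩).2 (by rw [Subgroup.mem_subgroupOf]; exact hz)
          exact this
      have h2 : D < (R : Subgroup G) ⊓ U := lt_of_lt_of_le h1 (inf_le_inf_left _ hU)
      have h3 : (R, U) ∈ T := by
        refine ⟨fun h4 => hPQ (h2.le.trans h4), hRU⟩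
      have h4 := hmax h3 (by
        dsimp only
        exact Subgroup.card_le_of_le h2.le)
      dsimp only at h4
      have h5 : D = (R : Subgroup G) ⊓ U := by
        apply Subgroup.eq_of_le_of_card_ge h2.le h4
      exact h2.ne h5
    have hDP : D < P := by
      refine lt_of_le_of_ne inf_le_left ?_
      intro h1
      apply hne
      have h2 : (P : Subgroup G) ≤ Q := h1 ▸ inf_le_right
      exact Sylow.ext (P.is_maximal' Q.isPGroup' h2).symm
    have hDQ : D < Q := by
      refine lt_of_le_of_ne inf_le_right ?_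
      intro h1
      apply hne
      have h2 : (Q : Subgroup G) ≤ P := h1 ▸ inf_le_left
      exact Sylow.ext (Q.is_maximal' P.isPGroup' h2)
    exact hne ((key P hDP).trans (key Q hDQ).symm)
  have hx0S : x0 ∈ (S : Subgroup G) := by
    rw [hS, Subgroup.mem_centralizer_singleton_iff]
  have hcent : ∀ y ∈ (S : Subgroup G), y ∉ N → ∀ s ∈ (S : Subgroup G), s * y = y * s := by
    intro y hy hyN s hs
    obtain ⟨P, hP⟩ := D y hyN
    have hPS : P = S := by
      apply F
      intro hle
      apply hyN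
      apply hle
      refine ⟨?_, hy⟩
      rw [hP]
      exact Subgroup.mem_centralizer_singleton_iff.2 rfl
    rw [← hPS, hP, Subgroup.mem_centralizer_singleton_iff] at hs
    exact hs
  have hSab : ∀ s ∈ (S : Subgroup G), ∀ t ∈ (S : Subgroup G), s * t = t * s := by
    intro s hs t ht
    by_cases htN : t ∈ N
    · have h1 : t * x0 ∉ N := fun h2 => hx0 (by simpa using N.mul_mem (N.inv_mem htN) h2)
      have h3 := hcent (t * x0) (mul_mem ht hx0S) h1 s hs
      have h4 := hcent x0 hx0S hx0 s hs
      rw [← mul_assoc] at h3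
      have h5 : t * x0 * s = t * s * x0 := by rw [mul_assoc, ← h4, mul_assoc]
      rw [h5] at h3
      exact mul_right_cancel h3
    · exact hcent t ht htN s hs
  have hSN : ¬ (S : Subgroup G) ≤ N := fun h1 => hx0 (h1 hx0S)
  have hNorm : Subgroup.normalizer ((S : Subgroup G) : Set G) = S := by
    have h1 := E S S.isPGroup' hSN
    exact S.is_maximal' h1 Subgroup.le_normalizer
  have hBurn : Subgroup.normalizer ((S : Subgroup G) : Set G) ≤ Subgroup.centralizer ((S : Subgroup G) : Set G) := by
    rw [hNorm]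
    intro s hs
    rw [Subgroup.mem_centralizer_iff]
    intro t ht
    exact hSab t ht s hs
  have hcompl := MonoidHom.ker_transferSylow_isComplement' S hBurn
  have hKp := MonoidHom.not_dvd_card_ker_transferSylow S hBurn
  set K : Subgroup G := (MonoidHom.transferSylow S hBurn).ker with hK
  -- now show G solvable
  suffices hsol : Group.IsSolvable G by infer_instance
  by_cases hK1 : K = ⊥
  · exfalso
    apply hGp
    rw [hK1] at hcompl
    have : (S : Subgroup G) = ⊤ := Subgroup.isComplement'_bot_left.1 hcompl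
    intro g
    obtain ⟨j, hj⟩ := S.isPGroup' ⟨g, this ▸ Subgroup.mem_top g⟩
    exact ⟨j, by simpa using congrArg Subtype.val hj⟩
  have hK1' : Nat.card K ≠ 1 := fun h1 => hK1 (Subgroup.card_eq_one.1 h1)
  obtain ⟨q, hq, hqK⟩ := Nat.exists_prime_and_dvd hK1'
  haveI : Fact q.Prime := ⟨hq⟩
  have hqp : q ≠ p := fun h1 => hKp (h1 ▸ hqK)
  obtain ⟨Q⟩ := (inferInstance : Nonempty (Sylow q K))
  have hfrat := Sylow.normalizer_sup_eq_top Q
  set NQ := Subgroup.normalizer (((Q : Subgroup K).map K.subtype : Subgroup G) : Set G) with hNQ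
  have hidx : NQ.index ∣ Nat.card K := by
    have h1 : K.index = K.relIndex NQ := by
      rw [← Subgroup.relIndex_sup_right, hfrat, Subgroup.relIndex_top_right]
    obtain ⟨m, hm⟩ : K.index ∣ Nat.card NQ := h1 ▸ Subgroup.relIndex_dvd_card K NQ
    have h2 := Subgroup.card_mul_index NQ
    have h3 := Subgroup.index_mul_card K
    rw [hm, ← h3, mul_assoc] at h2
    have h4 := Nat.eq_of_mul_eq_mul_left (Nat.pos_of_ne_zero Subgroup.index_ne_zero_of_finite) h2
    exact ⟨m, by rw [← h4, mul_comm]⟩
  have hpidx : ¬ p ∣ NQ.index := fun h1 => hKp (h1.trans hidx)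
  obtain ⟨R⟩ := (inferInstance : Nonempty (Sylow p NQ))
  have hRcard : Nat.card ((R : Subgroup NQ).map NQ.subtype) = p ^ (Nat.card G).factorization p := by
    rw [Subgroup.card_map_of_injective (Subgroup.subtype_injective _), R.card_eq_multiplicity]
    congr 1
    rw [← Subgroup.card_mul_index NQ, Nat.factorization_mul Nat.card_pos.ne' Subgroup.index_ne_zero_of_finite]
    rw [Finsupp.add_apply, Nat.factorization_eq_zero_of_not_dvd hpidx, add_zero]
  let R' : Sylow p G := Sylow.ofCard _ hRcard
  have hR'co : IsCoatom (R' : Subgroup G) := by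
    obtain ⟨g, hg⟩ := MulAction.exists_smul_eq G S R'
    rw [← hg, Sylow.coe_subgroup_smul]
    exact (OrderIso.isCoatom_iff ((MulAut.conj g).mapSubgroup) (S : Subgroup G)).2 hScoatom
  have hR'le : (R' : Subgroup G) ≤ NQ := by
    change (R : Subgroup NQ).map NQ.subtype ≤ NQ
    exact Subgroup.map_subtype_le _
  have hNQtop : NQ = ⊤ := by
    rcases hR'co.le_iff.1 hR'le with h1 | h1
    · exact h1
    · exfalso
      -- Q ≤ NQ = R' is a p-group
      have h2 : (Q : Subgroup K).map K.subtype ≤ (R' : Subgroup G) := by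
        rw [← h1]; exact Subgroup.le_normalizer
      have h3 : IsPGroup q ((Q : Subgroup K).map K.subtype) := Q.isPGroup'.map _
      have h4 : IsPGroup p ((Q : Subgroup K).map K.subtype) := R'.isPGroup'.to_le h2
      have h5 := IsPGroup.disjoint_of_ne q p hqp _ _ h3 h4
      rw [disjoint_self] at h5
      have h6 : (Q : Subgroup K) = ⊥ := (Subgroup.map_eq_bot_iff_of_injective _ (Subgroup.subtype_injective _)).1 h5
      exact Q.ne_bot_of_dvd_card hqK h6
  have hQn : ((Q : Subgroup K).map K.subtype).Normal := Subgroup.normalizer_eq_top_iff.1 hNQtop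
  have hQS : ((Q : Subgroup K).map K.subtype) ⊔ (S : Subgroup G) = ⊤ := by
    rcases hScoatom.le_iff.1 (le_sup_right : (S : Subgroup G) ≤ ((Q : Subgroup K).map K.subtype) ⊔ S) with h1 | h1
    · exact h1
    · exfalso
      have h2 : (Q : Subgroup K).map K.subtype ≤ (S : Subgroup G) := h1 ▸ le_sup_left
      have h3 : IsPGroup q ((Q : Subgroup K).map K.subtype) := Q.isPGroup'.map _
      have h4 : IsPGroup p ((Q : Subgroup K).map K.subtype) := S.isPGroup'.to_le h2
      have h5 := IsPGroup.disjoint_of_ne q p hqp _ _ h3 h4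
      rw [disjoint_self] at h5
      have h6 : (Q : Subgroup K) = ⊥ := (Subgroup.map_eq_bot_iff_of_injective _ (Subgroup.subtype_injective _)).1 h5
      exact Q.ne_bot_of_dvd_card hqK h6
  haveI := hQn
  rw [Group.isSolvable_iff_subgroup_quotient ((Q : Subgroup K).map K.subtype)]
  refine ⟨solvable_of_pgroup hq (Q.isPGroup'.map _), ?_⟩
  haveI : Group.IsSolvable (S : Subgroup G) := solvable_of_pgroup hp S.isPGroup'
  refine Group.isSolvable_of_surjective (f := (QuotientGroup.mk' ((Q : Subgroup K).map K.subtype)).comp (S : Subgroup G).subtype) ?_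
  intro y
  obtain ⟨g, rfl⟩ := QuotientGroup.mk'_surjective _ y
  have hg : g ∈ ((Q : Subgroup K).map K.subtype) ⊔ (S : Subgroup G) := hQS ▸ Subgroup.mem_top g
  rw [Subgroup.mem_sup_of_normal_left] at hg
  obtain ⟨n, hn, s, hs, rfl⟩ := hg
  refine ⟨⟨s, hs⟩, ?_⟩
  have : (QuotientGroup.mk' ((Q : Subgroup K).map K.subtype)) n = 1 := (QuotientGroup.eq_one_iff n).2 hn
  rw [map_mul, this, one_mul]
  rfl

end Cfsg.Agent.S3903
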