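import Cfsg.Statements.S3904
import Cfsg.Agent.LibFgCM

set_option autoImplicit false
open Cfsg

namespace Cfsg.Agent.S3904

set_option linter.style.haveILetI false
set_option linter.unusedSectionVars false
set_option linter.unusedVariables false

/-- Let G be a non-abelian finite group in which the centralizer of every non-central element is a maximal subgroup. Then G/Z(G) is either an elementary abelian p-group for some prime p, or a minimal non-abelian group (non-abelian with all proper subgroups abelian) of order p^a · q for distinct primes p, q with a normal Sylow p-subgroup. -/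
theorem result {G : Type*} [Group G] [Finite G] (hna : ¬ IsMulCommutative G)
    (h : ∀ x : G, x ∉ Subgroup.center G → IsCoatom (Subgroup.centralizer ({x} : Set G))) :
    (∃ p : ℕ, p.Prime ∧ Cfsg.IsElementaryAbelian p (⊤ : Subgroup (G ⧸ Subgroup.center G))) ∨
    (¬ IsMulCommutative (G ⧸ Subgroup.center G) ∧ (∀ H : Subgroup (G ⧸ Subgroup.center G), H ≠ ⊤ → IsMulCommutative ↥H) ∧
      ∃ p q a : ℕ, p.Prime ∧ q.Prime ∧ p ≠ q ∧ Nat.card (G ⧸ Subgroup.center G) = p ^ a * q ∧
        ∀ P : Subgroup (G ⧸ Subgroup.center G), Nat.card ↥P = p ^ a → P.Normal) := by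
  have hCM : CfsgLib.FgCM.CM G := h
  have hna' : ¬ ∀ a b : G, a * b = b * a := fun hab => hna ⟨⟨hab⟩⟩
  by_cases hall : ∀ x : G, x ∉ Subgroup.center G → (CfsgLib.FgCM.C x).Normal
  · exact Or.inl (CfsgLib.FgCM.case_normal hCM hna' hall)
  · push Not at hall
    obtain ⟨x, hx, hxn⟩ := hall
    right
    apply CfsgLib.FgCM.case_ab hCM hx hxn
    by_contra hcon
    exact CfsgLib.FgCM.case_nonab hCM hx hxn hcon

end Cfsg.Agent.S3904
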