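import Cfsg.Statements.S3908
import Cfsg.Agent.LibPCyc2
import Cfsg.Agent.LibFgBas2

set_option autoImplicit false
open Cfsg

namespace Cfsg.Agent.S3908

set_option linter.style.haveILetI false
set_option linter.unusedSectionVars false
set_option linter.unusedVariables false

open Subgroup

/-- if a `p`-group has a subgroup of type `(p,p)` and property, all elements have order dividing `p` -/
theorem exp_of_elem {G : Type*} [Group G] [Finite G] (hB : ∀ A B : Subgroup G, IsMulCommutative ↥A → IsMulCommutative ↥B → Nat.card ↥A = Nat.card ↥B → ∃ g : G, B = A.map (MulAut.conj g).toMonoidHom)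
    {p : ℕ} [hp : Fact p.Prime] (P : Subgroup G) (hP : IsPGroup p P) (E : Subgroup G) (hE : IsMulCommutative E)
    (hE2 : Nat.card E = p ^ 2) (hE3 : ∀ e ∈ E, e ^ p = 1) : ∀ x ∈ P, x ^ p = 1 := by
  intro x hx
  by_contra hne
  obtain ⟨k, hk⟩ := CfsgLib.FgBas.orderOf_eq_pow hP hx
  have hk2 : 2 ≤ k := by
    by_contra h
    have : k ≤ 1 := by omega
    apply hne
    rw [← orderOf_dvd_iff_pow_eq_one, hk]
    calc p ^ k ∣ p ^ 1 := pow_dvd_pow p this
      _ = p := pow_one p
  obtain ⟨y, hy⟩ : ∃ y : G, orderOf y = p ^ 2 := by
    refine ⟨x ^ (p ^ (k - 2)), ?_⟩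
    rw [orderOf_pow' x (pow_ne_zero _ hp.out.ne_zero), hk, Nat.gcd_eq_right (pow_dvd_pow p (by omega)),
      Nat.pow_div (by omega) hp.out.pos]
    congr 1
    omega
  obtain ⟨g, hg⟩ := hB E (zpowers y) hE inferInstance (by rw [Nat.card_zpowers, hy, hE2])
  have h1 : y ∈ E.map (MulAut.conj g).toMonoidHom := by rw [← hg]; exact mem_zpowers y
  obtain ⟨e, he, hey⟩ := h1
  have h2 : y ^ p = 1 := by
    rw [← hey, ← map_pow, hE3 e he, map_one]
  have h3 := orderOf_dvd_of_pow_eq_one h2
  rw [hy] at h3
  have h4 := Nat.le_of_dvd hp.out.pos h3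
  have h5 : p < p ^ 2 := by
    rw [pow_two]; exact lt_mul_of_one_lt_left hp.out.pos hp.out.one_lt
  omega


/-- Let G be a finite group in which any two abelian subgroups of the same order are conjugate. Then a Sylow 2-subgroup of G is cyclic, elementary abelian or generalized quaternion, and for an odd prime p a Sylow p-subgroup of G is cyclic or has exponent dividing p. -/
theorem result {G : Type*} [Group G] [Finite G] (hB : ∀ A B : Subgroup G, IsMulCommutative ↥A → IsMulCommutative ↥B → Nat.card ↥A = Nat.card ↥B → ∃ g : G, B = A.map (MulAut.conj g).toMonoidHom) :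
    (∀ P : Sylow 2 G, IsCyclic ↥(P : Subgroup G) ∨ Cfsg.IsElementaryAbelian 2 (P : Subgroup G) ∨ ∃ k : ℕ, Nonempty (↥(P : Subgroup G) ≃* QuaternionGroup (2 ^ k))) ∧
    ∀ (p : ℕ) [Fact p.Prime], p ≠ 2 → ∀ P : Sylow p G, IsCyclic ↥(P : Subgroup G) ∨ ∀ x ∈ (P : Subgroup G), x ^ p = 1 := by
  constructor
  · intro P
    haveI : Fact (Nat.Prime 2) := ⟨Nat.prime_two⟩
    by_cases huniq : ∀ H K : Subgroup ↥(P : Subgroup G), Nat.card H = 2 → Nat.card K = 2 → H = K
    · rcases CfsgLib.PCyc.cyclic_or_quaternion P.isPGroup' huniq with h | h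
      · exact Or.inl h
      · exact Or.inr (Or.inr h)
    · right; left
      push Not at huniq
      obtain ⟨H, K, hH, hK, hne⟩ := huniq
      -- central involution
      haveI : Nontrivial ↥(P : Subgroup G) := by
        by_contra hn
        rw [not_nontrivial_iff_subsingleton] at hn
        exact hne (Subsingleton.elim _ _)
      have hc := P.isPGroup'.bot_lt_center
      obtain ⟨z, hz⟩ : ∃ z : center ↥(P : Subgroup G), orderOf z = 2 := by
        apply exists_prime_orderOf_dvd_card'
        obtain ⟨j, hj⟩ := IsPGroup.iff_card.mp (P.isPGroup'.to_subgroup (center ↥(P : Subgroup G)))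
        rw [hj]
        refine dvd_pow_self 2 ?_
        rintro rfl
        rw [pow_zero] at hj
        exact hc.ne' (Subgroup.card_eq_one.mp hj)
      have hz2 : orderOf (z : ↥(P : Subgroup G)) = 2 := by rw [Subgroup.orderOf_coe, hz]
      obtain ⟨t, ht, htz⟩ : ∃ t : ↥(P : Subgroup G), orderOf t = 2 ∧ t ≠ z := by
        have hcase : H ≠ zpowers (z : ↥(P : Subgroup G)) ∨ K ≠ zpowers (z : ↥(P : Subgroup G)) := by
          by_contra hcon
          push Not at hcon
          exact hne (hcon.1.trans hcon.2.symm)
        have gen : ∀ L : Subgroup ↥(P : Subgroup G), Nat.card L = 2 → L ≠ zpowers (z : ↥(P : Subgroup G)) →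
            ∃ t : ↥(P : Subgroup G), orderOf t = 2 ∧ t ≠ z := by
          intro L hL hLz
          obtain ⟨t, ht⟩ := exists_prime_orderOf_dvd_card' (G := L) 2 (by rw [hL])
          have ht2 : orderOf (t : ↥(P : Subgroup G)) = 2 := by rw [Subgroup.orderOf_coe, ht]
          refine ⟨t, ht2, ?_⟩
          intro htz
          apply hLz
          symm
          apply Subgroup.eq_of_le_of_card_ge
          · rw [zpowers_le, ← htz]; exact t.2
          · rw [hL, Nat.card_zpowers, hz2]
        rcases hcase with h | h
        · exact gen H hH h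
        · exact gen K hK h
      have hcomm : Commute t z := (mem_center_iff.mp z.2 t)
      -- the four-group
      let A : Subgroup ↥(P : Subgroup G) := closure {t, (z : ↥(P : Subgroup G))}
      have hA : IsMulCommutative A := by
        apply Subgroup.isMulCommutative_closure
        rintro x (rfl | rfl) y (rfl | rfl)
        · rfl
        · exact hcomm.eq
        · exact hcomm.eq.symm
        · rfl
      have hnc : ¬ IsCyclic A := by
        intro hcyc
        classical
        haveI := Fintype.ofFinite A
        have h1 := IsCyclic.card_pow_eq_one_le (α := A) (n := 2) (by norm_num)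
        have htA : t ∈ A := subset_closure (Or.inl rfl)
        have hzA : (z : ↥(P : Subgroup G)) ∈ A := subset_closure (Or.inr rfl)
        have h2 : ({1, ⟨t, htA⟩, ⟨z, hzA⟩} : Finset A) ⊆ Finset.univ.filter (fun a : A => a ^ 2 = 1) := by
          intro a ha
          rw [Finset.mem_insert, Finset.mem_insert, Finset.mem_singleton] at ha
          rw [Finset.mem_filter]
          refine ⟨Finset.mem_univ _, ?_⟩
          rcases ha with rfl | rfl | rfl
          · exact one_pow 2
          · apply Subtype.ext; exact orderOf_dvd_iff_pow_eq_one.mp ht.dvd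
          · apply Subtype.ext; exact orderOf_dvd_iff_pow_eq_one.mp hz2.dvd
        have h3 := Finset.card_le_card h2
        have ht1 : t ≠ 1 := by rintro rfl; rw [orderOf_one] at ht; norm_num at ht
        have hz1 : (z : ↥(P : Subgroup G)) ≠ 1 := by intro h; rw [h, orderOf_one] at hz2; norm_num at hz2
        rw [Finset.card_insert_of_notMem, Finset.card_insert_of_notMem, Finset.card_singleton] at h3
        · omega
        · rw [Finset.mem_singleton]; exact fun h => htz (congrArg Subtype.val h)
        · rw [Finset.mem_insert, Finset.mem_singleton]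
          rintro (h | h)
          · exact ht1 (congrArg Subtype.val h).symm
          · exact hz1 (congrArg Subtype.val h).symm
      obtain ⟨B, hBA, hB2, hBe⟩ := CfsgLib.PCyc.exists_elem_of_not_isCyclic Nat.prime_two A (P.isPGroup'.to_subgroup A) hA hnc
      have hBc : IsMulCommutative B := by
        constructor; constructor
        intro a b
        have h4 := hA.is_comm.comm (⟨(a : ↥(P : Subgroup G)), hBA a.2⟩ : A) (⟨(b : ↥(P : Subgroup G)), hBA b.2⟩ : A)
        exact Subtype.ext (congrArg (fun x : A => (x : ↥(P : Subgroup G))) h4)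
      have hexp := exp_of_elem hB (P : Subgroup G) P.isPGroup' (B.map (P : Subgroup G).subtype) inferInstance
        (by rw [card_map_of_injective (subtype_injective _), hB2]) (by
          rintro _ ⟨e, he, rfl⟩
          rw [← map_pow, hBe e he, map_one])
      refine ⟨?_, hexp⟩
      constructor; constructor
      intro a b
      have hexp' : ∀ a : ↥(P : Subgroup G), a * a = 1 := fun a => by
        apply Subtype.ext
        have := hexp a a.2
        rw [pow_two] at this
        exact this
      have h1 : ∀ a : ↥(P : Subgroup G), a⁻¹ = a := fun a => inv_eq_of_mul_eq_one_left (hexp' a)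
      calc a * b = (a * b)⁻¹ := (h1 _).symm
        _ = b⁻¹ * a⁻¹ := mul_inv_rev _ _
        _ = b * a := by rw [h1, h1]
  · intro p hpf hp2 P
    by_cases hcyc : IsCyclic ↥(P : Subgroup G)
    · exact Or.inl hcyc
    · right
      obtain ⟨A, -, hAc, hAe, hA2⟩ := CfsgLib.PCyc.exists_normal_elem Fact.out hp2 P.isPGroup' hcyc
      haveI := hAc
      exact exp_of_elem hB (P : Subgroup G) P.isPGroup' (A.map (P : Subgroup G).subtype) inferInstance
        (by rw [card_map_of_injective (subtype_injective _), hA2]) (by
          rintro _ ⟨e, he, rfl⟩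
          rw [← map_pow, hAe e he, map_one])

end Cfsg.Agent.S3908
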