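import Cfsg.Statements.S3909
import Cfsg.Agent.LibFgBas2

set_option autoImplicit false
open Cfsg

namespace Cfsg.Agent.S3909

set_option linter.style.haveILetI false
set_option linter.unusedSectionVars false
set_option linter.unusedVariables false

open Subgroup CfsgLib.FgBas

/-- Let G be a finite group in which any two abelian subgroups of the same order are conjugate. Let M be a normal subgroup of G. If M contains an element of the same order as a ∈ G, then a ∈ M; and if M is elementary abelian of order p^t with p prime and t ≥ 2, then M is the unique Sylow p-subgroup of G. -/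
theorem result {G : Type*} [Group G] [Finite G] (hB : ∀ A B : Subgroup G, IsMulCommutative ↥A → IsMulCommutative ↥B → Nat.card ↥A = Nat.card ↥B → ∃ g : G, B = A.map (MulAut.conj g).toMonoidHom) (M : Subgroup G) [M.Normal] :
    (∀ a : G, (∃ m ∈ M, orderOf m = orderOf a) → a ∈ M) ∧
    ∀ (p t : ℕ) [Fact p.Prime], 2 ≤ t → Nat.card ↥M = p ^ t → Cfsg.IsElementaryAbelian p M → ∀ P : Sylow p G, (P : Subgroup G) = M := by
  classical
  have h1 : ∀ a : G, (∃ m ∈ M, orderOf m = orderOf a) → a ∈ M := by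
    rintro a ⟨m, hm, hma⟩
    obtain ⟨g, hg⟩ := hB (zpowers m) (zpowers a) inferInstance inferInstance (by
      rw [Nat.card_zpowers, Nat.card_zpowers, hma])
    have h1 : a ∈ (zpowers m).map (MulAut.conj g).toMonoidHom := hg ▸ mem_zpowers a
    obtain ⟨z, hz, hza⟩ := h1
    have h2 : g * z * g⁻¹ = a := hza
    rw [← h2]
    exact Subgroup.Normal.conj_mem inferInstance z ((zpowers_le.mpr hm) hz) g
  refine ⟨h1, ?_⟩
  intro p t hp ht hMc hMe P
  have hMp : IsPGroup p M := IsPGroup.of_card hMc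
  have hMP : M ≤ (P : Subgroup G) := by
    obtain ⟨g, hg⟩ := exists_conj_le P hMp
    intro x hx
    have h2 := hg (g⁻¹ * x * g) (by
      have := Subgroup.Normal.conj_mem (H := M) inferInstance x hx g⁻¹
      rwa [inv_inv] at this)
    have h3 : g * (g⁻¹ * x * g) * g⁻¹ = x := by group
    rwa [h3] at h2
  by_contra hne
  obtain ⟨x, hxP, hxM⟩ := SetLike.exists_of_lt (lt_of_le_of_ne hMP (Ne.symm hne))
  -- an element of order p in M
  obtain ⟨m, hm⟩ := exists_prime_orderOf_dvd_card' (G := M) p (by rw [hMc]; exact dvd_pow_self p (by omega))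
  have hm' : orderOf (m : G) = p := by rw [← hm]; exact Subgroup.orderOf_coe m
  obtain ⟨k, hk⟩ := orderOf_eq_pow P.isPGroup' hxP
  have hk2 : 2 ≤ k := by
    by_contra hlt
    have : k = 0 ∨ k = 1 := by omega
    rcases this with rfl | rfl
    · rw [pow_zero, orderOf_eq_one_iff] at hk
      exact hxM (hk ▸ one_mem M)
    · rw [pow_one] at hk
      exact hxM (h1 x ⟨m, m.2, by rw [hm', hk]⟩)
  have h2 : orderOf (x ^ (p ^ (k - 2))) = p ^ 2 := by
    rw [orderOf_pow, hk, Nat.gcd_eq_right (pow_dvd_pow p (Nat.sub_le k 2)), Nat.pow_div (Nat.sub_le k 2) hp.out.pos]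
    congr 1; omega
  -- subgroup of order p^2 of M
  obtain ⟨K, hK⟩ := Sylow.exists_subgroup_card_pow_prime (G := M) p (n := 2) (by rw [hMc]; exact pow_dvd_pow p ht)
  have hMc' := hMe.1
  have hKab : IsMulCommutative (K.map M.subtype) := by
    refine ⟨⟨?_⟩⟩
    rintro ⟨_, a, ha, rfl⟩ ⟨_, b, hb, rfl⟩
    apply Subtype.ext
    change (a : G) * (b : G) = (b : G) * (a : G)
    exact congrArg Subtype.val (hMc'.is_comm.comm a b)
  obtain ⟨g, hg⟩ := hB (K.map M.subtype) (zpowers (x ^ (p ^ (k - 2)))) hKab inferInstance (by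
    rw [card_map_of_injective M.subtype_injective, hK, Nat.card_zpowers, h2])
  have h3 : x ^ (p ^ (k - 2)) ∈ (K.map M.subtype).map (MulAut.conj g).toMonoidHom := hg ▸ mem_zpowers _
  obtain ⟨z, ⟨z', hz', rfl⟩, hzx⟩ := h3
  have h4 : g * (z' : G) * g⁻¹ = x ^ (p ^ (k - 2)) := hzx
  have h5 : (x ^ (p ^ (k - 2))) ^ p = 1 := by
    rw [← h4, conj_pow, hMe.2 _ z'.2]; group
  have h6 := orderOf_dvd_of_pow_eq_one h5
  rw [h2] at h6
  have h7 := (Nat.pow_dvd_pow_iff_le_right hp.out.one_lt (k := 2) (l := 1)).mp (by rwa [pow_one])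
  omega

end Cfsg.Agent.S3909
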