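import Cfsg.Statements.S3910
import Cfsg.Agent.LibFgBas2

set_option autoImplicit false
open Cfsg

namespace Cfsg.Agent.S3910

set_option linter.style.haveILetI false
set_option linter.unusedSectionVars false
set_option linter.unusedVariables false

open Subgroup CfsgLib.FgBas

/-- A finite nilpotent group in which any two abelian subgroups of the same order are conjugate is cyclic. -/
theorem result {G : Type*} [Group G] [Finite G] (hB : ∀ A B : Subgroup G, IsMulCommutative ↥A → IsMulCommutative ↥B → Nat.card ↥A = Nat.card ↥B → ∃ g : G, B = A.map (MulAut.conj g).toMonoidHom) (hnil : Group.IsNilpotent G) : IsCyclic G := by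
  classical
  -- all Sylow subgroups are normal
  have hnorm : ∀ (q : ℕ) [Fact q.Prime] (S : Sylow q G), (S : Subgroup G).Normal := fun q _ S => by
    have := (Group.isNilpotent_of_finite_tfae (G := G)).out 0 3 |>.mp hnil
    exact this q ‹_› S
  -- conjugation of cyclic subgroups
  have hcyc : ∀ x y : G, orderOf x = orderOf y → ∃ g : G, g⁻¹ * x * g ∈ zpowers y := by
    intro x y hxy
    obtain ⟨g, hg⟩ := hB (zpowers y) (zpowers x) inferInstance inferInstance (by
      rw [Nat.card_zpowers, Nat.card_zpowers, hxy])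
    have h1 : x ∈ (zpowers y).map (MulAut.conj g).toMonoidHom := hg ▸ mem_zpowers x
    obtain ⟨z, hz, hzx⟩ := h1
    refine ⟨g, ?_⟩
    have h2 : g * z * g⁻¹ = x := hzx
    have h3 : g⁻¹ * x * g = z := by rw [← h2]; group
    rw [h3]; exact hz
  have hsyl : ∀ (p : ℕ) [Fact p.Prime] (P : Sylow p G), IsCyclic (P : Subgroup G) := by
    intro p hp P
    by_contra hnc
    haveI hPn := hnorm p P
    have hPp := P.isPGroup'
    haveI : Group.IsNilpotent (P : Subgroup G) := hPp.isNilpotent
    -- conj by g on P equals conj by an element of P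
    have hconjP : ∀ (g : G) (M : Subgroup (P : Subgroup G)), M.Normal → ∀ y : (P : Subgroup G), y ∈ M → ∀ x : (P : Subgroup G),
        g⁻¹ * (x : G) * g = (y : G) → x ∈ M := by
      intro g M hM y hy x hxy
      obtain ⟨a, b, ha, hb, hab, hba, hk, hbp⟩ := CfsgLib.FgElt.exists_p_decomp hp.out g
      have haP : a ∈ (P : Subgroup G) := mem_of_normal P hPn hk
      have hbx : b * (y : G) = y * b := by
        obtain ⟨k, hk⟩ := orderOf_eq_pow hPp y.2
        haveI : Group.IsNilpotent (⊤ : Subgroup G) := (Group.isNilpotent_congr (topEquiv (G := G))).mpr hnil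
        exact CfsgLib.FgElt.commute_of_nilpotent (N := ⊤) inferInstance (mem_top _) (mem_top _) (by
          rw [hk]; exact Nat.Coprime.pow_right _ hbp)
      have h1 : (x : G) = a * y * a⁻¹ := by
        have h2 : (x : G) = g * y * g⁻¹ := by rw [← hxy]; group
        rw [h2, ← hab]
        calc a * b * (y : G) * (a * b)⁻¹ = a * (b * y) * b⁻¹ * a⁻¹ := by group
          _ = a * y * a⁻¹ := by rw [hbx]; group
      have h3 : x = (⟨a, haP⟩ : (P : Subgroup G)) * y * (⟨a, haP⟩ : (P : Subgroup G))⁻¹ := Subtype.ext h1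
      rw [h3]; exact hM.conj_mem y hy _
    have hco : ∀ H : Subgroup (P : Subgroup G), H ≠ ⊤ → ∃ M, IsCoatom M ∧ H ≤ M := by
      intro H hH
      rcases eq_top_or_exists_le_coatom H with h1 | h1
      · exact absurd h1 hH
      · exact h1
    have hzne : ∀ x : (P : Subgroup G), zpowers x ≠ ⊤ := by
      intro x hx
      exact hnc ⟨x, fun y => by
        have : y ∈ zpowers x := by rw [hx]; exact mem_top y
        exact this⟩
    obtain ⟨M1, hM1, -⟩ := hco ⊥ (by rw [← zpowers_one_eq_bot]; exact hzne 1)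
    obtain ⟨x, -, hx1⟩ := SetLike.exists_of_lt (lt_top_iff_ne_top.mpr hM1.1)
    obtain ⟨M2, hM2, hxM2⟩ := hco (zpowers x) (hzne x)
    have hx2 : x ∈ M2 := hxM2 (mem_zpowers x)
    have hM1n : M1.Normal := NormalizerCondition.normal_of_coatom M1 Group.normalizerCondition_of_isNilpotent hM1
    have hM2n : M2.Normal := NormalizerCondition.normal_of_coatom M2 Group.normalizerCondition_of_isNilpotent hM2
    have hle : ¬ M1 ≤ M2 := by
      intro h
      rcases hM1.le_iff.mp h with h1 | h1
      · exact hM2.1 h1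
      · exact hx1 (h1 ▸ hx2)
    obtain ⟨y, hy1, hy2⟩ := SetLike.not_le_iff_exists.mp hle
    obtain ⟨a, ha⟩ := IsPGroup.iff_orderOf.mp hPp x
    obtain ⟨b, hb⟩ := IsPGroup.iff_orderOf.mp hPp y
    rcases le_total a b with h | h
    · -- x conj to a power of y
      have h1 : orderOf (y ^ (p ^ (b - a))) = p ^ a := by
        rw [orderOf_pow, hb, Nat.gcd_eq_right (pow_dvd_pow p (Nat.sub_le b a)), Nat.pow_div (Nat.sub_le b a) hp.out.pos]
        congr 1; omega
      obtain ⟨g, hg⟩ := hcyc (x : G) ((y ^ (p ^ (b - a)) : (P : Subgroup G)) : G) (by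
        rw [Subgroup.orderOf_coe, Subgroup.orderOf_coe, ha, h1])
      obtain ⟨k, hk⟩ := mem_zpowers_iff.mp hg
      apply hx1
      refine hconjP g M1 hM1n ((y ^ (p ^ (b - a))) ^ k) (zpow_mem (pow_mem hy1 _) k) x ?_
      rw [← hk]; rfl
    · have h1 : orderOf (x ^ (p ^ (a - b))) = p ^ b := by
        rw [orderOf_pow, ha, Nat.gcd_eq_right (pow_dvd_pow p (Nat.sub_le a b)), Nat.pow_div (Nat.sub_le a b) hp.out.pos]
        congr 1; omega
      obtain ⟨g, hg⟩ := hcyc (y : G) ((x ^ (p ^ (a - b)) : (P : Subgroup G)) : G) (by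
        rw [Subgroup.orderOf_coe, Subgroup.orderOf_coe, hb, h1])
      obtain ⟨k, hk⟩ := mem_zpowers_iff.mp hg
      apply hy2
      refine hconjP g M2 hM2n ((x ^ (p ^ (a - b))) ^ k) (zpow_mem (pow_mem hx2 _) k) y ?_
      rw [← hk]; rfl
  haveI : IsZGroup G := ⟨fun p hp P => by haveI : Fact p.Prime := ⟨hp⟩; exact hsyl p P⟩
  infer_instance

end Cfsg.Agent.S3910
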