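import Cfsg.Statements.S3917
import Cfsg.Agent.LibSolvCoprime3

set_option autoImplicit false
open Cfsg

namespace Cfsg.Agent.S3917

set_option linter.style.haveILetI false
set_option linter.unusedSectionVars false
set_option linter.unusedVariables false

open Subgroup

/-- Say that a group has self-centralizing non-cyclic subgroups when every non-cyclic subgroup H satisfies C_G(H) ≤ H. A finite abelian group with self-centralizing non-cyclic subgroups is cyclic or elementary abelian of order p² for a prime p. -/
theorem result {G : Type*} [CommGroup G] [Finite G] (hX : (∀ H : Subgroup G, ¬ IsCyclic ↥H → Subgroup.centralizer (H : Set G) ≤ H)) :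
    IsCyclic G ∨ ∃ p : ℕ, p.Prime ∧ Nat.card G = p ^ 2 ∧ Monoid.exponent G = p := by
  classical
  by_cases hc : IsCyclic G
  · exact Or.inl hc
  right
  obtain ⟨r, B, hr, hB, hBe⟩ := CfsgLib.SolvCoprime.exists_sq_of_not_isCyclic (A := G) mul_comm hc
  have hBnc : ¬ IsCyclic B := by
    intro h
    obtain ⟨b, hb⟩ := h.exists_ofOrder_eq_natCard
    have h1 : orderOf b ∣ r := orderOf_dvd_of_pow_eq_one (Subtype.ext (hBe b b.2))
    rw [hb, hB] at h1
    have h2 := Nat.le_of_dvd hr.pos h1
    have h3 : r * 1 < r * r := Nat.mul_lt_mul_of_pos_left hr.one_lt hr.pos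
    rw [pow_two] at h2
    omega
  have h1 := hX B hBnc
  have h2 : B = ⊤ := by
    rw [eq_top_iff]
    refine le_trans ?_ h1
    intro x _
    rw [mem_centralizer_iff]
    intro y _
    exact mul_comm y x
  refine ⟨r, hr, ?_, ?_⟩
  · rw [← hB, h2]; exact (Subgroup.card_top).symm
  · have h3 : Monoid.exponent G ∣ r := Monoid.exponent_dvd_of_forall_pow_eq_one (fun g => hBe g (h2 ▸ mem_top g))
    rcases (Nat.dvd_prime hr).mp h3 with h | h
    · exfalso
      apply hc
      rw [Monoid.exp_eq_one_iff] at h
      infer_instance
    · exact h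

end Cfsg.Agent.S3917
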