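import Cfsg.Statements.S3918
import Cfsg.Agent.LibPCyc
import Cfsg.Agent.LibSolvMisc

set_option autoImplicit false
open Cfsg

namespace Cfsg.Agent.S3918

set_option linter.style.haveILetI false
set_option linter.unusedSectionVars false
set_option linter.unusedVariables false

open Subgroup

/-- Say that a group has self-centralizing non-cyclic subgroups when every non-cyclic subgroup H satisfies C_G(H) ≤ H. For an odd prime p, a finite non-abelian p-group has self-centralizing non-cyclic subgroups if and only if it has order p³. -/
theorem result {G : Type*} [Group G] [Finite G] {p : ℕ} [Fact p.Prime] (hp : p ≠ 2) (hG : IsPGroup p G) (hna : ¬ IsMulCommutative G) :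
    (∀ H : Subgroup G, ¬ IsCyclic ↥H → Subgroup.centralizer (H : Set G) ≤ H) ↔ Nat.card G = p ^ 3 := by
  classical
  have hpp := Fact.out (p := p.Prime)
  obtain ⟨n, hn⟩ := IsPGroup.iff_card.mp hG
  have hcomm_of_sq : ∀ H : Subgroup G, Nat.card H = p ^ 2 → IsMulCommutative H := by
    intro H hH
    refine ⟨⟨fun a b => ?_⟩⟩
    letI := IsPGroup.commGroupOfCardEqPrimeSq hH
    exact mul_comm a b
  constructor
  · intro hX
    have hnc : ¬ IsCyclic G := by
      intro h
      apply hna
      letI : CommGroup G := IsCyclic.commGroup
      exact ⟨⟨fun a b => mul_comm a b⟩⟩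
    obtain ⟨A, hAn, hAc, hAe, hAcard⟩ := CfsgLib.PCyc.exists_normal_elem hpp hp hG hnc
    have hAnc : ¬ IsCyclic A := by
      intro h
      obtain ⟨b, hb⟩ := h.exists_ofOrder_eq_natCard
      have h1 : orderOf b ∣ p := orderOf_dvd_of_pow_eq_one (Subtype.ext (hAe b b.2))
      rw [hb, hAcard] at h1
      have h2 := Nat.le_of_dvd hpp.pos h1
      have h3 : p * 1 < p * p := Nat.mul_lt_mul_of_pos_left hpp.one_lt hpp.pos
      rw [pow_two] at h2
      omega
    have h1 := hX A hAnc
    have h2 := CfsgLib.SolvMisc.index_centralizer_normal_le hpp hG 2 A hAn hAcard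
    have h3 : centralizer (A : Set G) = A := by
      apply le_antisymm h1
      intro x hx
      rw [mem_centralizer_iff]
      intro y hy
      exact congrArg Subtype.val (hAc.is_comm.comm (⟨y, hy⟩ : A) ⟨x, hx⟩)
    rw [h3] at h2
    have h4 : Nat.card G ≤ p ^ 3 := by
      rw [← card_mul_index A, hAcard]
      calc p ^ 2 * A.index ≤ p ^ 2 * p ^ (2 * (2 - 1) / 2) := Nat.mul_le_mul_left _ h2
        _ = p ^ 3 := by norm_num; ring
    rw [hn] at h4 ⊢
    have h5 : n ≤ 3 := (Nat.pow_le_pow_iff_right hpp.one_lt).mp h4
    have h6 : ¬ n ≤ 2 := by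
      intro h7
      apply hna
      rcases (show n = 0 ∨ n = 1 ∨ n = 2 by omega) with rfl | rfl | rfl
      · rw [pow_zero] at hn
        haveI := (Nat.card_eq_one_iff_unique.mp hn).1
        exact ⟨⟨fun a b => Subsingleton.elim _ _⟩⟩
      · rw [pow_one] at hn
        haveI : Fact (Nat.card G).Prime := ⟨hn ▸ hpp⟩
        haveI := isCyclic_of_prime_card (α := G) (p := Nat.card G) rfl
        letI : CommGroup G := IsCyclic.commGroup
        exact ⟨⟨fun a b => mul_comm a b⟩⟩
      · refine ⟨⟨fun a b => ?_⟩⟩
        letI := IsPGroup.commGroupOfCardEqPrimeSq hn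
        exact mul_comm a b
    have h8 : n = 3 := by omega
    rw [h8]
  · intro h3 H hH
    -- card of center is p
    have hHc : Nat.card H ∣ p ^ 3 := h3 ▸ card_subgroup_dvd_card H
    obtain ⟨k, hk, hHk⟩ := (Nat.dvd_prime_pow hpp).mp hHc
    have hk2 : 2 ≤ k := by
      by_contra hlt
      apply hH
      rcases (show k = 0 ∨ k = 1 by omega) with rfl | rfl
      · rw [pow_zero] at hHk
        haveI := (Nat.card_eq_one_iff_unique.mp hHk).1
        infer_instance
      · rw [pow_one] at hHk
        exact isCyclic_of_prime_card hHk
    rcases (show k = 3 ∨ k = 2 by omega) with rfl | rfl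
    · have : H = ⊤ := Subgroup.eq_top_of_card_eq H (by rw [hHk, h3])
      rw [this]; exact le_top
    · have hHab := hcomm_of_sq H hHk
      have hle : H ≤ centralizer (H : Set G) := by
        intro x hx
        rw [mem_centralizer_iff]
        intro y hy
        exact congrArg Subtype.val (hHab.is_comm.comm (⟨y, hy⟩ : H) ⟨x, hx⟩)
      by_contra hcon
      -- then centralizer is everything
      have hlt : H < centralizer (H : Set G) := lt_of_le_not_ge hle hcon
      have hcard : Nat.card (centralizer (H : Set G)) = p ^ 3 := by
        obtain ⟨l, hl, hCl⟩ := (Nat.dvd_prime_pow hpp).mp (h3 ▸ card_subgroup_dvd_card (centralizer (H : Set G)))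
        have h4 : Nat.card H < Nat.card (centralizer (H : Set G)) := by
          have h5 := card_dvd_of_le hle
          refine lt_of_le_of_ne (Nat.le_of_dvd Nat.card_pos h5) ?_
          intro h6
          exact hlt.ne (Subgroup.eq_of_le_of_card_ge hle h6.ge)
        rw [hHk, hCl] at h4
        have h5 := (Nat.pow_lt_pow_iff_right hpp.one_lt).mp h4
        rw [hCl, show l = 3 by omega]
      have htop : centralizer (H : Set G) = ⊤ := Subgroup.eq_top_of_card_eq _ (by rw [hcard, h3])
      have hHZ : H ≤ center G := by
        rw [centralizer_eq_top_iff_subset] at htop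
        exact htop
      -- G / Z is cyclic
      apply hna
      have h5 : (center G).index ∣ p := by
        have h6 : (center G).index ∣ H.index := index_dvd_of_le hHZ
        have h7 : H.index = p := by
          have := card_mul_index H
          rw [hHk, h3] at this
          have h8 : p ^ 2 * H.index = p ^ 2 * p := by rw [this]; ring
          exact Nat.eq_of_mul_eq_mul_left (pow_pos hpp.pos 2) h8
        rwa [h7] at h6
      have hcyc : IsCyclic (G ⧸ center G) := by
        rcases (Nat.dvd_prime hpp).mp h5 with h | h
        · have : Subsingleton (G ⧸ center G) := (Nat.card_eq_one_iff_unique.mp (by rw [← index_eq_card]; exact h)).1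
          infer_instance
        · exact isCyclic_of_prime_card (p := p) (by rw [← index_eq_card]; exact h)
      refine ⟨⟨fun a b => ?_⟩⟩
      exact (MonoidHom.isMulCommutative_of_isCyclic_of_ker_le_center (QuotientGroup.mk' (center G)) (by simp)).is_comm.comm a b

end Cfsg.Agent.S3918
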