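import Cfsg.Statements.S3920
import Cfsg.Agent.LibH6ZGroup

set_option autoImplicit false
open Cfsg

namespace Cfsg.Agent.S3920

set_option linter.style.haveILetI false
set_option linter.unusedSectionVars false
set_option linter.unusedVariables false

open Subgroup DihedralGroup

/-- Say that a group has self-centralizing non-cyclic subgroups when every non-cyclic subgroup H satisfies C_G(H) ≤ H. For n ≥ 3, the dihedral group of order 2n has self-centralizing non-cyclic subgroups if and only if n is odd or a power of 2. -/
theorem result (n : ℕ) (hn : 3 ≤ n) : (∀ H : Subgroup (DihedralGroup n), ¬ IsCyclic ↥H → Subgroup.centralizer (H : Set (DihedralGroup n)) ≤ H) ↔ (Odd n ∨ ∃ k : ℕ, n = 2 ^ k) := by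
  haveI : NeZero n := ⟨by omega⟩
  constructor
  · intro h
    by_contra hcon
    push Not at hcon
    obtain ⟨hodd, hpow⟩ := hcon
    -- n = 2^a * m, m odd, m ≥ 3, a ≥ 1
    obtain ⟨a, m, hm, hnm⟩ := Nat.exists_eq_two_pow_mul_odd (n := n) (by omega)
    have ha : 1 ≤ a := by
      by_contra hlt
      have : a = 0 := by omega
      subst this
      apply hodd
      rw [hnm]; simpa using hm
    have hm3 : 3 ≤ m := by
      obtain ⟨k, hk⟩ := hm
      rcases Nat.eq_zero_or_pos k with rfl | hk0
      · exfalso
        exact hpow a (by rw [hnm, hk]; ring)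
      · omega
    obtain ⟨b, rfl⟩ : ∃ b, a = b + 1 := ⟨a - 1, by omega⟩
    -- z = r (2^b * m)
    let H : Subgroup (DihedralGroup n) := closure {r (2 ^ (b + 1) : ZMod n), sr 0}
    have hr : (r (2 ^ (b + 1) : ZMod n) : DihedralGroup n) ∈ H := subset_closure (by simp)
    have hs : (sr 0 : DihedralGroup n) ∈ H := subset_closure (by simp)
    have hna : ¬ IsCyclic H := by
      intro hc
      letI : CommGroup H := IsCyclic.commGroup
      have h1 := congrArg Subtype.val (mul_comm (⟨_, hr⟩ : H) ⟨_, hs⟩)
      change (r (2 ^ (b + 1) : ZMod n) : DihedralGroup n) * sr 0 = sr 0 * r (2 ^ (b + 1) : ZMod n) at h1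
      rw [r_mul_sr, sr_mul_r] at h1
      have h2 := sr.inj h1
      have h3 : ((2 ^ (b + 2) : ℕ) : ZMod n) = 0 := by
        push_cast
        linear_combination -h2
      rw [ZMod.natCast_eq_zero_iff, hnm] at h3
      have h4 : m ∣ 2 ^ (b + 2) := (Dvd.intro_left _ rfl).trans h3
      have h5 : Nat.Coprime m (2 ^ (b + 2)) := Nat.Coprime.pow_right _ (Nat.coprime_two_right.mpr hm)
      have := Nat.eq_one_of_dvd_coprimes h5 dvd_rfl h4
      omega
    have h1 := h H hna
    have hz : (r (2 ^ b * m : ZMod n) : DihedralGroup n) ∈ H := by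
      apply h1
      rw [mem_centralizer_iff]
      have key : ∀ x : DihedralGroup n, x * r (2 ^ b * m : ZMod n) = r (2 ^ b * m : ZMod n) * x := by
        have h0 : (2 ^ b * m : ZMod n) + (2 ^ b * m : ZMod n) = 0 := by
          have h2 : ((2 ^ (b + 1) * m : ℕ) : ZMod n) = 0 := by
            rw [ZMod.natCast_eq_zero_iff, hnm]
          push_cast at h2
          linear_combination h2
        rintro (i | i)
        · rw [r_mul_r, r_mul_r, add_comm]
        · rw [sr_mul_r, r_mul_sr]; congr 1
          linear_combination h0
      intro x _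
      exact key x
    -- H lies in multiples of 2^(b+1)
    have hdvd : 2 ^ (b + 1) ∣ n := ⟨m, hnm⟩
    let f := ZMod.castHom hdvd (ZMod (2 ^ (b + 1)))
    let φ : DihedralGroup n → ZMod (2 ^ (b + 1)) := fun x => match x with
      | r i => f i
      | sr i => f i
    have hφr : ∀ i, φ (r i) = f i := fun i => rfl
    have hφs : ∀ i, φ (sr i) = f i := fun i => rfl
    have key : ∀ x ∈ H, φ x = 0 := by
      intro x hx
      refine Subgroup.closure_induction (p := fun x _ => φ x = 0) ?_ ?_ ?_ ?_ hx
      · rintro y (rfl | rfl)
        · rw [hφr, map_pow]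
          have h2 : f 2 = ((2 : ℕ) : ZMod (2 ^ (b + 1))) := by
            have : (2 : ZMod n) = ((2 : ℕ) : ZMod n) := by norm_num
            rw [this]; exact map_natCast f 2
          rw [h2, ← Nat.cast_pow, ZMod.natCast_self]
        · rw [hφs, map_zero]
      · exact map_zero f
      · rintro (a | a) (b' | b') _ _ ha hb
        · rw [r_mul_r, hφr, map_add]
          rw [hφr] at ha hb
          rw [ha, hb, add_zero]
        · rw [r_mul_sr, hφs, map_sub]
          rw [hφr] at ha; rw [hφs] at hb
          rw [ha, hb, sub_zero]
        · rw [sr_mul_r, hφs, map_add]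
          rw [hφs] at ha; rw [hφr] at hb
          rw [ha, hb, add_zero]
        · rw [sr_mul_sr, hφr, map_sub]
          rw [hφs] at ha hb
          rw [ha, hb, sub_zero]
      · rintro (a | a) _ ha
        · rw [inv_r, hφr, map_neg]
          rw [hφr] at ha; rw [ha, neg_zero]
        · rw [inv_sr]; exact ha
    have h3 := key _ hz
    rw [hφr] at h3
    have h4 : f (2 ^ b * m : ZMod n) = ((2 ^ b * m : ℕ) : ZMod (2 ^ (b + 1))) := by
      have : (2 ^ b * m : ZMod n) = ((2 ^ b * m : ℕ) : ZMod n) := by push_cast; ring
      rw [this]; exact map_natCast f _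
    rw [h4, ZMod.natCast_eq_zero_iff, pow_succ] at h3
    have h5 : 2 ∣ m := Nat.dvd_of_mul_dvd_mul_left (by positivity) h3
    obtain ⟨k, hk⟩ := hm
    omega
  · intro h H hnc
    -- H contains a reflection
    have hsr : ∃ i, (sr i : DihedralGroup n) ∈ H := by
      by_contra hcon
      push Not at hcon
      apply hnc
      have hle : H ≤ zpowers (r 1 : DihedralGroup n) := by
        rintro (i | i) hi
        · rw [mem_zpowers_iff]
          refine ⟨(i.val : ℤ), ?_⟩
          rw [zpow_natCast, r_one_pow, ZMod.natCast_zmod_val]
        · exact absurd hi (hcon i)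
      exact isCyclic_of_injective (inclusion hle) (inclusion_injective hle)
    obtain ⟨i, hi⟩ := hsr
    have hrot : ∃ j, (r j : DihedralGroup n) ∈ H ∧ j ≠ 0 := by
      by_contra hcon
      push Not at hcon
      apply hnc
      refine ⟨⟨sr i, hi⟩, ?_⟩
      rintro ⟨x, hx⟩
      rcases x with a | a
      · refine ⟨0, ?_⟩
        apply Subtype.ext
        change (sr i : DihedralGroup n) ^ (0 : ℤ) = r a
        rw [hcon a hx]; rfl
      · refine ⟨1, ?_⟩
        have h1 : (r (a - i) : DihedralGroup n) ∈ H := by
          have := mul_mem hi hx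
          rwa [sr_mul_sr] at this
        have h2 := hcon _ h1
        have h3 : a = i := sub_eq_zero.mp h2
        subst h3
        exact zpow_one _
    obtain ⟨j, hj, hj0⟩ := hrot
    intro x hx
    rw [mem_centralizer_iff] at hx
    have hx1 := hx _ hi
    have hx2 := hx _ hj
    -- rotation in the centralizer satisfies 2 c = 0
    have hrotc : ∀ c : ZMod n, c + c = 0 → (r c : DihedralGroup n) ∈ H := by
      intro c hc
      rcases h with hodd | ⟨k, hk⟩
      · have hc0 : c = 0 := by
          obtain ⟨l, hl⟩ := hodd
          have h8 : ((2 * l + 1 : ℕ) : ZMod n) = 0 := by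
            rw [← hl]; exact ZMod.natCast_self n
          push_cast at h8
          linear_combination c * h8 - (l : ZMod n) * hc
        rw [hc0]; exact one_mem H
      · -- n = 2^k : c is 0 or the unique involution, which is a power of r j
        by_cases hc0 : c = 0
        · rw [hc0]; exact one_mem H
        have hpg : IsPGroup 2 (zpowers (r 1 : DihedralGroup n)) := by
          refine IsPGroup.of_card (n := k) ?_
          rw [Nat.card_zpowers, orderOf_r_one, hk]
        -- element r j has order 2^(s+1); its 2^s power has order 2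
        have hmem : ∀ i : ZMod n, (r i : DihedralGroup n) ∈ zpowers (r 1 : DihedralGroup n) := by
          intro i
          rw [mem_zpowers_iff]
          exact ⟨(i.val : ℤ), by rw [zpow_natCast, r_one_pow, ZMod.natCast_zmod_val]⟩
        obtain ⟨s, hs⟩ := (IsPGroup.iff_orderOf.mp hpg) ⟨r j, hmem j⟩
        rw [Subgroup.orderOf_mk] at hs
        have hs0 : s ≠ 0 := by
          rintro rfl
          rw [pow_zero, orderOf_eq_one_iff, one_def] at hs
          exact hj0 (r.inj hs)
        obtain ⟨t, rfl⟩ := Nat.exists_eq_succ_of_ne_zero hs0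
        have h2 : orderOf ((r j : DihedralGroup n) ^ (2 ^ t)) = 2 := by
          rw [orderOf_pow, hs, Nat.succ_eq_add_one, Nat.gcd_eq_right (pow_dvd_pow 2 (by omega)), Nat.pow_div (by omega) (by norm_num)]
          have : t + 1 - t = 1 := by omega
          rw [this, pow_one]
        have h3 : orderOf (r c : DihedralGroup n) = 2 := by
          apply orderOf_eq_prime
          · rw [pow_two, r_mul_r, hc]; rfl
          · intro h4; rw [one_def] at h4; exact hc0 (r.inj h4)
        -- in a cyclic group unique subgroup of order 2
        have h4 : (⟨r c, hmem c⟩ : zpowers (r 1 : DihedralGroup n)) ∈ zpowers ((⟨r j, hmem j⟩ : zpowers (r 1 : DihedralGroup n)) ^ (2 ^ t)) := by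
          apply CfsgLib.H6.mem_zpowers_of_cyclic Nat.prime_two
          · rw [Subgroup.orderOf_mk, h3]
          · rw [← Subgroup.orderOf_coe]; exact h2
        have h7 : (r c : DihedralGroup n) ∈ zpowers (r j : DihedralGroup n) := by
          obtain ⟨l, hl⟩ := mem_zpowers_iff.mp h4
          have h8 := congrArg Subtype.val hl
          rw [mem_zpowers_iff]
          refine ⟨(2 ^ t : ℕ) * l, ?_⟩
          rw [zpow_mul, zpow_natCast]
          exact h8
        exact (zpowers_le.mpr hj) h7
    rcases x with c | c
    · apply hrotc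
      have h1 : sr (i + c) = (sr (i - c) : DihedralGroup n) := by
        rw [← sr_mul_r, ← r_mul_sr]; exact hx1
      have h2 := sr.inj h1
      linear_combination h2
    · have h1 : (r (c - i) : DihedralGroup n) ∈ H := by
        apply hrotc
        have h2 : (r (c - i) : DihedralGroup n) = r (i - c) := by
          rw [← sr_mul_sr, ← sr_mul_sr]; exact hx1
        have h3 := r.inj h2
        linear_combination h3
      have h4 : (sr c : DihedralGroup n) = sr i * r (c - i) := by
        rw [sr_mul_r]; congr 1; ring
      rw [h4]; exact mul_mem hi h1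

end Cfsg.Agent.S3920
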