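import Cfsg.Statements.S3927
import Cfsg.Agent.LibFgEngel

set_option autoImplicit false
set_option linter.style.haveILetI false
open Cfsg

namespace Cfsg.Agent.S3927

open CfsgLib.FgEngel

/-- Let G be a finite group and α an automorphism of G with [G, α] = G, that is, the elements g·α(g)⁻¹ generate G. Then for every k ≥ 1 the iterated commutators [g, α, …, α] with k entries α — the values of the k-th iterate of the map c ↦ c·α(c)⁻¹ — also generate G. -/
theorem result {G : Type*} [Group G] [Finite G] (α : MulAut G) (hG : Subgroup.closure (Set.range (fun c : G => c * (α c)⁻¹)) = ⊤) (k : ℕ) (hk : 1 ≤ k) :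
    Subgroup.closure (Set.range ((fun c : G => c * (α c)⁻¹)^[k])) = ⊤ := by
  classical
  obtain ⟨k, rfl⟩ : ∃ j, k = j + 1 := ⟨k - 1, by omega⟩
  set c : G → G := fun c : G => c * (α c)⁻¹ with hc
  haveI hfin : Finite (MulAut G) := inferInstance
  set B : Subgroup (MulAut G) := Subgroup.zpowers α with hB
  let Γ := G ⋊[B.subtype] B
  haveI : Finite Γ := Finite.of_equiv _ (SemidirectProduct.equivProd (φ := B.subtype)).symm
  let αB : B := ⟨α, Subgroup.mem_zpowers α⟩
  let a : Γ := SemidirectProduct.inr αB
  have hact : ∀ g : G, a * SemidirectProduct.inl g * a⁻¹ = (SemidirectProduct.inl (α g) : Γ) := by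
    intro g
    have := (SemidirectProduct.inl_aut (φ := B.subtype) αB g)
    rw [show (B.subtype αB) g = α g from rfl] at this
    rw [this]
    simp [a]
  have hcomm : ∀ g : G, (SemidirectProduct.inl g : Γ) * a * (SemidirectProduct.inl g)⁻¹ =
      SemidirectProduct.inl (c g) * a := by
    intro g
    have h1 := hact g
    have h2 : a * (SemidirectProduct.inl g)⁻¹ = (SemidirectProduct.inl (α g) : Γ)⁻¹ * a := by
      rw [← h1, mul_inv_rev, mul_inv_rev, inv_inv]
      simp only [mul_assoc, inv_mul_cancel, mul_one]
    rw [mul_assoc, h2, hc, ← mul_assoc, ← map_inv, ← map_mul]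
  -- normal closure
  have hNC : Subgroup.normalClosure {a} = (⊤ : Subgroup Γ) := by
    set N := Subgroup.normalClosure ({a} : Set Γ) with hN
    have haN : a ∈ N := Subgroup.subset_normalClosure rfl
    have h1 : ∀ g : G, (SemidirectProduct.inl (c g) : Γ) ∈ N := by
      intro g
      have h2 : (SemidirectProduct.inl g : Γ) * a * (SemidirectProduct.inl g)⁻¹ ∈ N :=
        Subgroup.normalClosure_normal.conj_mem _ haN _
      rw [hcomm] at h2
      have := mul_mem h2 (inv_mem haN)
      rwa [mul_assoc, mul_inv_cancel, mul_one] at this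
    have h2 : ∀ g : G, (SemidirectProduct.inl g : Γ) ∈ N := by
      intro g
      have h3 : Subgroup.closure (Set.range c) ≤ N.comap (SemidirectProduct.inl (φ := B.subtype)) := by
        rw [Subgroup.closure_le]
        rintro _ ⟨x, rfl⟩
        exact h1 x
      rw [hG] at h3
      exact h3 trivial
    have h3 : ∀ b : B, (SemidirectProduct.inr b : Γ) ∈ N := by
      rintro ⟨b, hb⟩
      obtain ⟨j, rfl⟩ := Subgroup.mem_zpowers_iff.1 hb
      have : (SemidirectProduct.inr (⟨α ^ j, hb⟩ : B) : Γ) = a ^ j := by
        rw [← map_zpow]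
        congr 1
      rw [this]
      exact zpow_mem haN _
    rw [eq_top_iff]
    intro x _
    rw [← SemidirectProduct.inl_left_mul_inr_right x]
    exact mul_mem (h2 _) (h3 _)
  have hD := closure_D _ Γ rfl a hNC k
  -- description of D
  have hDk : ∀ j, D a j ⊆ {x : Γ | ∃ g : G, x = SemidirectProduct.inl (c^[j + 1] g) * a} := by
    intro j
    induction j with
    | zero =>
      rintro _ ⟨x, rfl⟩
      refine ⟨x.left, ?_⟩
      have h1 : (SemidirectProduct.inr x.right : Γ) * a = a * SemidirectProduct.inr x.right := by
        have : Commute x.right αB := by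
          obtain ⟨j, hj⟩ := Subgroup.mem_zpowers_iff.1 x.right.2
          apply Subtype.ext
          show (x.right : MulAut G) * α = α * (x.right : MulAut G)
          rw [← hj]
          exact (Commute.zpow_left (Commute.refl α) j).eq
        show (SemidirectProduct.inr x.right : Γ) * SemidirectProduct.inr αB = SemidirectProduct.inr αB * SemidirectProduct.inr x.right
        rw [← map_mul, ← map_mul, this.eq]
      have h2 : x * a * x⁻¹ = SemidirectProduct.inl x.left * a * (SemidirectProduct.inl x.left)⁻¹ := by
        conv_lhs => rw [← SemidirectProduct.inl_left_mul_inr_right x]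
        rw [mul_inv_rev, mul_assoc (SemidirectProduct.inl x.left), h1]
        simp only [mul_assoc, mul_inv_cancel_left]
      show x * a * x⁻¹ = _
      rw [h2, hcomm]
      rfl
    | succ j ih =>
      rw [D_succ]
      rintro _ ⟨x, hx, rfl⟩
      obtain ⟨g, rfl⟩ := ih hx
      refine ⟨g, ?_⟩
      have h3 : (SemidirectProduct.inl (c^[j + 1] g) * a) * a * (SemidirectProduct.inl (c^[j + 1] g) * a)⁻¹ =
          (SemidirectProduct.inl (c^[j + 1] g) : Γ) * a * (SemidirectProduct.inl (c^[j + 1] g))⁻¹ := by
        rw [mul_inv_rev]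
        simp only [mul_assoc, mul_inv_cancel_left]
      show (SemidirectProduct.inl (c^[j + 1] g) * a) * a * (SemidirectProduct.inl (c^[j + 1] g) * a)⁻¹ = _
      rw [h3, hcomm, ← Function.iterate_succ_apply' c]
  -- the subgroup
  set H : Subgroup G := Subgroup.closure (Set.range (c^[k + 1])) with hH
  have hcα : ∀ j (g : G), α (c^[j] g) = c^[j] (α g) := by
    intro j
    induction j with
    | zero => intro g; rfl
    | succ j ih =>
      intro g
      rw [Function.iterate_succ_apply, Function.iterate_succ_apply, ih]
      simp [hc]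
  have hα : ∀ b ∈ B, ∀ h ∈ H, b h ∈ H := by
    have h1 : H.map (α : G ≃* G).toMonoidHom ≤ H := by
      rw [hH, MonoidHom.map_closure]
      apply Subgroup.closure_mono
      rintro _ ⟨_, ⟨g, rfl⟩, rfl⟩
      exact ⟨α g, (hcα _ _).symm⟩
    intro b hb h hh
    have : b ∈ Submonoid.powers α := by
      exact mem_powers_iff_mem_zpowers.2 hb
    obtain ⟨j, rfl⟩ := this
    clear hb
    induction j generalizing h with
    | zero => simpa using hh
    | succ j ih =>
      simp only [pow_succ, MulAut.mul_apply] at ih ⊢
      exact ih _ (h1 ⟨h, hh, rfl⟩)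
  let S : Subgroup Γ :=
    { carrier := {x | x.left ∈ H}
      mul_mem' := by
        intro x y hx hy
        show (x * y).left ∈ H
        rw [SemidirectProduct.mul_left]
        exact mul_mem hx (hα _ x.right.2 _ hy)
      one_mem' := by
        show (1 : Γ).left ∈ H
        rw [SemidirectProduct.one_left]
        exact one_mem _
      inv_mem' := by
        intro x hx
        show (x⁻¹).left ∈ H
        rw [SemidirectProduct.inv_left]
        exact hα _ (x.right⁻¹).2 _ (inv_mem hx) }
  have hS : Subgroup.closure (D a k) ≤ S := by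
    rw [Subgroup.closure_le]
    intro x hx
    obtain ⟨g, rfl⟩ := hDk k hx
    show (SemidirectProduct.inl (c^[k + 1] g) * a : Γ).left ∈ H
    rw [SemidirectProduct.mul_left]
    simp only [SemidirectProduct.left_inl, SemidirectProduct.right_inl, map_one]
    have : a.left = 1 := SemidirectProduct.left_inr _
    rw [this]
    simp only [map_one, mul_one]
    exact Subgroup.subset_closure ⟨g, rfl⟩
  rw [hD] at hS
  rw [eq_top_iff]
  intro g _
  have : (SemidirectProduct.inl g : Γ) ∈ S := hS trivial
  have h' : (SemidirectProduct.inl g : Γ).left ∈ H := this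
  rwa [SemidirectProduct.left_inl] at h'

end Cfsg.Agent.S3927
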