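import Cfsg.Statements.S3933
import Cfsg.Agent.LibFgSyl
import Cfsg.Agent.S0144

set_option autoImplicit false
open Cfsg

namespace Cfsg.Agent.S3933

set_option linter.style.haveILetI false

universe u
open Subgroup CfsgLib.FgSyl

theorem solvable_of_isPGroup {G : Type u} [Group G] [Finite G] {p : ℕ} [Fact p.Prime] (h : IsPGroup p G) :
    Group.IsSolvable G := by
  haveI := h.isNilpotent
  infer_instance

theorem ppow_of_two {n r s : ℕ} (hn : n ≠ 0) (hrs : r ≠ s)
    (h : ∀ t : ℕ, t.Prime → t ∣ n → t = r ∨ t = s) : n = r ^ n.factorization r * s ^ n.factorization s := by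
  conv_lhs => rw [← Nat.prod_factorization_pow_eq_self hn]
  rw [Finsupp.prod_of_support_subset _ (s := {r, s}) _ _ (by simp)]
  · rw [Finset.prod_pair hrs]
  · intro t ht
    rw [Nat.support_factorization] at ht
    have := h t (Nat.prime_of_mem_primeFactors ht) (Nat.dvd_of_mem_primeFactors ht)
    simpa using this

/-- the key step for simple groups. -/
theorem step {G : Type u} [Group G] [Finite G] [IsSimpleGroup G] {r t u v a c : ℕ} [hr : Fact r.Prime]
    [ht : Fact t.Prime] (htd : t ∣ Nat.card G) (hv : v.Prime) (hu : u.Prime) (ha : a ≠ 0)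
    (hrv : Nat.card (Sylow r G) = v ^ a) (htu : Nat.card (Sylow t G) = u ^ c) : v = t ∨ v = u := by
  by_contra hne
  push Not at hne
  obtain ⟨R⟩ := (inferInstance : Nonempty (Sylow r G))
  set M := normalizer (R : Set G) with hM
  have hMi : M.index = v ^ a := by rw [← hrv, R.card_eq_index_normalizer]
  have h1 : ¬ t ∣ M.index := by
    rw [hMi]
    intro hd
    exact hne.1 ((Nat.prime_dvd_prime_iff_eq ht.out hv).mp (ht.out.dvd_of_dvd_pow hd)).symm
  obtain ⟨T, hT⟩ := exists_sylow_le (p := t) h1
  have h2 : M.index.Coprime (Nat.card (Sylow t G)) := by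
    rw [hMi, htu]
    exact Nat.Coprime.pow _ _ ((Nat.coprime_primes hv hu).mpr hne.2)
  have h3 := le_normalCore_of_all T (all_sylow_le h2 T hT)
  have h4 : M.normalCore ≠ ⊥ := by
    intro hb
    rw [hb, le_bot_iff] at h3
    have h5 := T.card_eq_multiplicity
    have h6 : Nat.card T = 1 := by
      change Nat.card (T : Subgroup G) = 1
      rw [h3, card_bot]
    rw [h6] at h5
    have h7 := Nat.Prime.factorization_pos_of_dvd ht.out Nat.card_pos.ne' htd
    exact (Nat.one_lt_pow h7.ne' ht.out.one_lt).ne h5
  rcases (inferInstance : M.normalCore.Normal).eq_bot_or_eq_top with h5 | h5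
  · exact h4 h5
  · have h6 : M = ⊤ := top_le_iff.mp (h5 ▸ M.normalCore_le)
    rw [h6, index_top] at hMi
    exact (Nat.one_lt_pow ha hv.one_lt).ne hMi

theorem main (n : ℕ) : ∀ (G : Type u) [Group G] [Finite G], Nat.card G ≤ n →
    (∀ (r : ℕ) [Fact r.Prime], Nat.card (Sylow r G) = 1 ∨ IsPrimePow (Nat.card (Sylow r G))) →
    Group.IsSolvable G := by
  induction n with
  | zero =>
    intro G _ _ hn
    have : 0 < Nat.card G := Nat.card_pos
    omega
  | succ n ih =>
    intro G _ _ hn h
    by_contra hns
    haveI : Nontrivial G := by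
      by_contra hnt
      rw [not_nontrivial_iff_subsingleton] at hnt
      exact hns inferInstance
    have hdvd : ∀ {m k : ℕ}, m ∣ k → k ≠ 0 → (k = 1 ∨ IsPrimePow k) → (m = 1 ∨ IsPrimePow m) := by
      intro m k hmk hk0 hk
      by_cases hm : m = 1
      · exact Or.inl hm
      · right
        rcases hk with hk | hk
        · exact absurd (Nat.dvd_one.mp (hk ▸ hmk)) hm
        · exact hk.dvd hmk hm
    -- G is simple
    have hsimple : ∀ N : Subgroup G, N.Normal → N = ⊥ ∨ N = ⊤ := by
      intro N hN
      by_contra hne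
      push Not at hne
      apply hns
      have hc : Nat.card N * Nat.card (G ⧸ N) = Nat.card G := card_mul_index N
      have h1 : 1 < Nat.card N := (one_lt_card_iff_ne_bot N).mpr hne.1
      have h2 : 1 < Nat.card (G ⧸ N) := one_lt_index_of_ne_top hne.2
      have hN' : Group.IsSolvable N := ih N (by nlinarith) fun r hr =>
        hdvd (card_sylow_normal_dvd N) Nat.card_pos.ne' (h r)
      have hQ : Group.IsSolvable (G ⧸ N) := ih (G ⧸ N) (by nlinarith) fun r hr =>
        hdvd (card_sylow_quotient_dvd N) Nat.card_pos.ne' (h r)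
      exact Group.isSolvable_of_ker_le_range N.subtype (QuotientGroup.mk' N) (by simp)
    haveI : IsSimpleGroup G := ⟨hsimple⟩
    -- the prime of the number of Sylow subgroups
    have hσ : ∀ r : ℕ, r.Prime → r ∣ Nat.card G → ∃ s : ℕ, s.Prime ∧ s ≠ r ∧ s ∣ Nat.card G ∧
        ∃ a, a ≠ 0 ∧ Nat.card (Sylow r G) = s ^ a := by
      intro r hr hrd
      haveI : Fact r.Prime := ⟨hr⟩
      rcases h r with h1 | h1
      · exfalso
        obtain ⟨R⟩ := (inferInstance : Nonempty (Sylow r G))
        haveI : Subsingleton (Sylow r G) := (Nat.card_eq_one_iff_unique.mp h1).1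
        haveI := R.characteristic_of_subsingleton
        rcases hsimple (R : Subgroup G) inferInstance with h2 | h2
        · have h5 := R.card_eq_multiplicity
          have h6 : Nat.card R = 1 := by
            change Nat.card (R : Subgroup G) = 1
            rw [h2, card_bot]
          rw [h6] at h5
          have h7 := Nat.Prime.factorization_pos_of_dvd hr Nat.card_pos.ne' hrd
          exact (Nat.one_lt_pow h7.ne' hr.one_lt).ne h5
        · apply hns
          have h3 := R.isPGroup'
          rw [h2] at h3
          exact solvable_of_isPGroup (h3.of_equiv topEquiv)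
      · rw [isPrimePow_nat_iff] at h1
        obtain ⟨s, a, hs, ha, hsa⟩ := h1
        refine ⟨s, hs, ?_, ?_, a, ha.ne', hsa.symm⟩
        · rintro rfl
          obtain ⟨R⟩ := (inferInstance : Nonempty (Sylow s G))
          exact R.not_dvd_index (dvd_trans (by rw [← hsa]; exact dvd_pow_self s ha.ne') R.card_dvd_index)
        · obtain ⟨R⟩ := (inferInstance : Nonempty (Sylow r G))
          exact dvd_trans (by rw [← hsa]; exact dvd_pow_self s ha.ne')
            (R.card_dvd_index.trans (index_dvd_card _))
    obtain ⟨r, hr, hrd⟩ := Nat.exists_prime_and_dvd (Finite.one_lt_card (α := G)).ne'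
    haveI : Fact r.Prime := ⟨hr⟩
    obtain ⟨s, hs, hsr, hsd, a, ha, hra⟩ := hσ r hr hrd
    haveI : Fact s.Prime := ⟨hs⟩
    obtain ⟨r', hr', hrs', hrd', b, hb, hsb⟩ := hσ s hs hsd
    have h1 : r' = r := by
      rcases step (r := s) (t := r) hrd hr' hs hb hsb hra with h2 | h2
      · exact h2
      · exact absurd h2 hrs'
    subst h1
    have h2 : ∀ t : ℕ, t.Prime → t ∣ Nat.card G → t = r' ∨ t = s := by
      intro t ht htd
      haveI : Fact t.Prime := ⟨ht⟩
      obtain ⟨w, hw, hwt, hwd, c, hc, htc⟩ := hσ t ht htd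
      rcases step (r := r') (t := t) htd hs hw ha hra htc with h3 | h3
      · exact Or.inr h3.symm
      · rcases step (r := s) (t := t) htd hr' hw hb hsb htc with h4 | h4
        · exact Or.inl h4.symm
        · exact absurd (h3.trans h4.symm) hsr
    exact hns (Cfsg.Agent.S0144.result r' s _ _ hr hs (ppow_of_two Nat.card_pos.ne' hsr.symm h2))

/-- If for every prime r the number of Sylow r-subgroups of the finite group G is a prime power or 1, then G is solvable. -/
theorem result {G : Type*} [Group G] [Finite G] (h : ∀ (r : ℕ) [Fact r.Prime], Nat.card (Sylow r G) = 1 ∨ IsPrimePow (Nat.card (Sylow r G))) :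
    Group.IsSolvable G := by
  exact main (Nat.card G) G le_rfl h

end Cfsg.Agent.S3933
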