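import Cfsg.Statements.S3937
import Cfsg.Agent.LibFgEngel
import Cfsg.Agent.LibComp
import Cfsg.Agent.LibCores

set_option autoImplicit false
set_option linter.style.haveILetI false
open Cfsg

namespace Cfsg.Agent.S3937

open CfsgLib.FgEngel CfsgLib.FgSub

theorem foldl_replicate {G : Type*} [Group G] (g : G) (n : ℕ) (x : G) :
    (List.replicate n g).foldl (fun a b => a * b * a⁻¹ * b⁻¹) x =
      (fun a => a * g * a⁻¹ * g⁻¹)^[n] x := by
  induction n generalizing x with
  | zero => rfl
  | succ n ih =>
    rw [List.replicate_succ, List.foldl_cons, ih, Function.iterate_succ_apply]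

theorem isSubnormal_of_SN {G : Type*} [Group G] {H : Subgroup G} (h : SN H ⊤) : H.IsSubnormal := by
  induction h using Relation.ReflTransGen.head_induction_on with
  | refl => exact Subgroup.IsSubnormal.top
  | @head K L h1 _ ih =>
    exact Subgroup.IsSubnormal.step K L h1.1 ih
      ((Subgroup.normal_subgroupOf_iff_le_normalizer h1.1).2 h1.2)

/-- Baer's characterization of the Fitting subgroup: in a finite group G, an element g lies in the Fitting subgroup if and only if g is a left Engel element, that is, for every x there is n with [x, g, g, …, g] = 1 (n entries g, [a, b] = aba⁻¹b⁻¹). -/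
theorem result {G : Type*} [Group G] [Finite G] (g : G) :
    g ∈ Cfsg.fittingSubgroup G ↔ ∀ x : G, ∃ n : ℕ, (List.replicate n g).foldl (fun a b => a * b * a⁻¹ * b⁻¹) x = 1 := by
  simp only [foldl_replicate]
  set e : G → G := fun a => a * g * a⁻¹ * g⁻¹ with he
  constructor
  · intro hg x
    have hnil : Group.IsNilpotent (fittingSubgroup G) := CfsgLib.Cores.fittingSubgroup_isNilpotent
    rw [Subgroup.nilpotent_iff_lowerCentralSeries] at hnil
    obtain ⟨n, hn⟩ := hnil
    haveI : (fittingSubgroup G).Normal := CfsgLib.Cores.fittingSubgroup_normal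
    have key : ∀ k, ∃ y : fittingSubgroup G, (y : G) = e^[k + 1] x ∧
        y ∈ (⊤ : Subgroup (fittingSubgroup G)).lowerCentralSeries k := by
      intro k
      induction k with
      | zero =>
        refine ⟨⟨e x, ?_⟩, rfl, trivial⟩
        exact mul_mem (Subgroup.Normal.conj_mem inferInstance _ hg _) (inv_mem hg)
      | succ k ih =>
        obtain ⟨y, hy, hy'⟩ := ih
        refine ⟨y * ⟨g, hg⟩ * y⁻¹ * ⟨g, hg⟩⁻¹, ?_, ?_⟩
        · rw [Function.iterate_succ_apply', ← hy]
          rfl
        · rw [Subgroup.lowerCentralSeries_succ]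
          exact Subgroup.commutator_mem_commutator hy' (Subgroup.mem_top (⟨g, hg⟩ : fittingSubgroup G))
    obtain ⟨y, hy, hy'⟩ := key n
    refine ⟨n + 1, ?_⟩
    rw [← hy]
    rw [hn, Subgroup.mem_bot] at hy'
    rw [hy']; rfl
  · intro h
    set A : Subgroup G := Subgroup.zpowers g with hA
    set H : Subgroup G := snc A ⊤ with hH
    have hAH : A ≤ H := le_snc _ _
    have hgH : g ∈ H := hAH (Subgroup.mem_zpowers g)
    have h1 : snc A H = H := snc_snc le_top
    have h2 := (ncl_eq_iff_normalClosure hAH).1 ((snc_eq_self_iff hAH).1 h1)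
    have h4 : A.subgroupOf H = Subgroup.zpowers (⟨g, hgH⟩ : H) := by
      ext x
      rw [Subgroup.mem_subgroupOf, hA, Subgroup.mem_zpowers_iff, Subgroup.mem_zpowers_iff]
      constructor
      · rintro ⟨j, hj⟩
        exact ⟨j, Subtype.ext (by simpa using hj)⟩
      · rintro ⟨j, hj⟩
        exact ⟨j, by rw [← hj]; simp⟩
    rw [h4, normalClosure_zpowers] at h2
    have h5 : ∀ k, Subgroup.closure (D (⟨g, hgH⟩ : H) k) = ⊤ := closure_D _ H rfl _ h2
    -- large k
    have hone : e 1 = 1 := by simp [he]
    have hstab : ∀ n m x, e^[n] x = 1 → e^[n + m] x = 1 := by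
      intro n m x hx
      rw [add_comm, Function.iterate_add_apply, hx]
      induction m with
      | zero => rfl
      | succ m ih => rw [Function.iterate_succ_apply', ih, hone]
    choose f hf using h
    haveI : Fintype G := Fintype.ofFinite G
    obtain ⟨N, hN⟩ : ∃ N, ∀ x, e^[N] x = 1 := by
      refine ⟨Finset.univ.sup f, fun x => ?_⟩
      have h6 : f x ≤ Finset.univ.sup f := Finset.le_sup (Finset.mem_univ x)
      obtain ⟨m, hm⟩ := Nat.exists_eq_add_of_le h6
      rw [hm]
      exact hstab _ _ _ (hf x)
    have hD : ∀ k, ∀ d ∈ D (⟨g, hgH⟩ : H) k, ∃ x : G, (d : G) = e^[k + 1] x * g := by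
      intro k
      induction k with
      | zero =>
        rintro _ ⟨x, rfl⟩
        exact ⟨x, by simp [he]⟩
      | succ k ih =>
        rintro _ ⟨d, hd, rfl⟩
        obtain ⟨x, hx⟩ := ih d hd
        refine ⟨x, ?_⟩
        rw [Function.iterate_succ_apply']
        set y : G := e^[k + 1] x with hy
        rw [he]
        simp only [Subgroup.coe_mul, hx, InvMemClass.coe_inv]
        simp only [mul_inv_rev, mul_assoc, inv_mul_cancel, mul_one, mul_inv_cancel_left]
    have h7 : H ≤ A := by
      have h8 : Subgroup.closure (D (⟨g, hgH⟩ : H) N) ≤ A.subgroupOf H := by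
        rw [Subgroup.closure_le]
        intro d hd
        obtain ⟨x, hx⟩ := hD N d hd
        show (d : G) ∈ A
        rw [hx, Function.iterate_succ_apply', hN, hone, one_mul]
        exact Subgroup.mem_zpowers g
      rw [h5 N] at h8
      intro x hx
      exact h8 (show (⟨x, hx⟩ : H) ∈ (⊤ : Subgroup H) from trivial)
    have h9 : SN A ⊤ := by
      have h10 : SN H ⊤ := snc_sn le_top
      rwa [le_antisymm h7 hAH] at h10
    have h11 : Group.IsNilpotent A := by
      haveI : IsMulCommutative A := by rw [hA]; infer_instance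
      open scoped IsMulCommutative in
      exact (inferInstance : Group.IsNilpotent A)
    exact CfsgLib.Comp.le_fitting_of_subnormal_nilpotent (isSubnormal_of_SN h9) h11
      (Subgroup.mem_zpowers g)

end Cfsg.Agent.S3937
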