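import Cfsg.Statements.S3939
import Cfsg.Agent.LibFgElt
import Cfsg.Agent.LibSolvFitting
import Cfsg.Agent.LibSolvNilp

set_option autoImplicit false
open Cfsg

namespace Cfsg.Agent.S3939

set_option linter.style.haveILetI false

universe u
open Subgroup hiding upperCentralSeries comap_upperCentralSeries_quotient_center subset_closure upperCentralSeries_mono

theorem map_pair {G H : Type*} [Group G] [Group H] (f : G →* H) (x g : G) :
    (closure ({x, g} : Set G)).map f = closure ({f x, f g} : Set H) := by
  rw [MonoidHom.map_closure, Set.image_pair]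

/-- the easy direction -/
theorem easy (n : ℕ) : ∀ (G : Type u) [Group G] (g : G), g ∈ Subgroup.upperCentralSeries G n →
    ∀ x : G, Group.IsNilpotent ↥(closure ({x, g} : Set G)) := by
  induction n with
  | zero =>
    intro G _ g hg x
    have hg1 : g = 1 := by simpa using hg
    have h1 : closure ({x, g} : Set G) = zpowers x := by
      apply le_antisymm
      · rw [closure_le]
        rintro y (rfl | hy)
        · exact mem_zpowers y
        · rw [Set.mem_singleton_iff] at hy
          rw [hy, hg1]
          exact one_mem _
      · rw [zpowers_le]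
        exact Subgroup.subset_closure (Set.mem_insert _ _)
    rw [h1]
    haveI : Std.Commutative (α := zpowers x) (· * ·) := ⟨fun a b => by
      obtain ⟨a, ha⟩ := a
      obtain ⟨b, hb⟩ := b
      obtain ⟨i, rfl⟩ := mem_zpowers_iff.mp ha
      obtain ⟨j, rfl⟩ := mem_zpowers_iff.mp hb
      exact Subtype.ext (by simp only [MulMemClass.mk_mul_mk, ← zpow_add, add_comm])⟩
    exact Subgroup.isNilpotent_of_ker_le_center (1 : zpowers x →* Unit) (fun a _ => by
      rw [mem_center_iff]; intro b; exact Std.Commutative.comm b a)
  | succ n ih =>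
    intro G _ g hg x
    rw [← Subgroup.comap_upperCentralSeries_quotient_center] at hg
    have h1 := ih (G ⧸ center G) (QuotientGroup.mk' _ g) hg (QuotientGroup.mk' _ x)
    set H := closure ({x, g} : Set G) with hH
    let f : H →* G ⧸ center G := (QuotientGroup.mk' (center G)).comp H.subtype
    have h2 : f.range = closure ({QuotientGroup.mk' (center G) x, QuotientGroup.mk' (center G) g} : Set _) := by
      rw [← map_pair, MonoidHom.range_comp, Subgroup.range_subtype]
    haveI : Group.IsNilpotent f.range := by rw [h2]; exact h1
    refine Subgroup.isNilpotent_of_ker_le_center f.rangeRestrict ?_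
    rw [MonoidHom.ker_rangeRestrict]
    intro y hy
    rw [MonoidHom.mem_ker] at hy
    have h3 : (y : G) ∈ center G := by
      rw [← QuotientGroup.eq_one_iff]
      exact hy
    rw [mem_center_iff] at h3 ⊢
    intro z
    exact Subtype.ext (h3 z)

theorem nil_of_pow {G : Type*} [Group G] {g g' : G} (hg : g' ∈ zpowers g)
    (h : ∀ x : G, Group.IsNilpotent ↥(closure ({x, g} : Set G))) (x : G) :
    Group.IsNilpotent ↥(closure ({x, g'} : Set G)) := by
  have h1 : closure ({x, g'} : Set G) ≤ closure ({x, g} : Set G) := by
    rw [closure_le]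
    rintro y (rfl | hy)
    · exact Subgroup.subset_closure (Set.mem_insert _ _)
    · rw [Set.mem_singleton_iff] at hy
      have h2 : zpowers g ≤ closure ({x, g} : Set G) :=
        zpowers_le.mpr (Subgroup.subset_closure (Set.mem_insert_of_mem _ rfl))
      rw [hy]
      exact h2 hg
  haveI := h x
  exact Group.nilpotent_of_mulEquiv (subgroupOfEquivOfLe h1)

/-- centerless case. -/
theorem centerless {G : Type u} [Group G] [Finite G] (g : G) (hg : g ≠ 1)
    (h : ∀ x : G, Group.IsNilpotent ↥(closure ({x, g} : Set G))) : center G ≠ ⊥ := by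
  have h1 : orderOf g ≠ 1 := fun h => hg (orderOf_eq_one_iff.mp h)
  obtain ⟨p, hp, hpd⟩ := Nat.exists_prime_and_dvd h1
  haveI : Fact p.Prime := ⟨hp⟩
  set g' := g ^ (orderOf g / p) with hg'
  have hg'p : orderOf g' = p := orderOf_pow_orderOf_div (orderOf_pos g).ne' hpd
  have hg'h := nil_of_pow (g' := g') (npow_mem_zpowers g _) h
  -- the subgroup generated by p'-elements
  let S : Set G := {x | (orderOf x).Coprime p}
  have hcomm : ∀ x ∈ S, g' * x = x * g' := by
    intro x hx
    refine CfsgLib.FgElt.commute_of_nilpotent (hg'h x) (Subgroup.subset_closure (Set.mem_insert_of_mem _ rfl))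
      (Subgroup.subset_closure (Set.mem_insert _ _)) ?_
    rw [hg'p]
    exact Nat.Coprime.symm hx
  set E := closure S with hE
  haveI hEn : E.Normal := by
    constructor
    intro n hn y
    have h2 : (closure S).map (MulAut.conj y).toMonoidHom ≤ closure S := by
      rw [MonoidHom.map_closure, closure_le]
      rintro _ ⟨z, hz, rfl⟩
      apply Subgroup.subset_closure
      change (orderOf _).Coprime p
      have : orderOf ((MulAut.conj y).toMonoidHom z) = orderOf z :=
        orderOf_injective _ (MulAut.conj y).injective z
      rw [this]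
      exact hz
    have := h2 (mem_map_of_mem _ hn)
    simpa using this
  have hD : g' ∈ centralizer (E : Set G) := by
    rw [mem_centralizer_iff]
    intro y hy
    induction hy using closure_induction with
    | mem y hy => exact (hcomm y hy).symm
    | one => simp
    | mul a b _ _ ha hb => rw [mul_assoc, hb, ← mul_assoc, ha, mul_assoc]
    | inv a _ ha =>
      have hc : Commute a g' := ha
      exact hc.inv_left.eq
  haveI hDn : (centralizer (E : Set G)).Normal := inferInstance
  have hgp : IsPGroup p (zpowers g') := IsPGroup.of_card (n := 1) (by rw [Nat.card_zpowers, hg'p, pow_one])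
  obtain ⟨P, hP⟩ := hgp.exists_le_sylow
  have hEP : E ⊔ (P : Subgroup G) = ⊤ := by
    apply CfsgLib.SolvFitting.eq_top_of_forall_sylow_le
    intro q hq
    by_cases hqp : q = p
    · subst hqp
      exact ⟨P, le_sup_right⟩
    · obtain ⟨Q⟩ := (inferInstance : Nonempty (Sylow q G))
      refine ⟨Q, le_trans ?_ le_sup_left⟩
      intro x hx
      apply Subgroup.subset_closure
      obtain ⟨k, hk⟩ := (IsPGroup.iff_orderOf.mp Q.isPGroup') ⟨x, hx⟩
      have : orderOf x = q ^ k := by rw [← hk]; exact (Subgroup.orderOf_mk x hx).symm
      change (orderOf x).Coprime p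
      rw [this]
      exact Nat.Coprime.pow_left _ ((Nat.coprime_primes hq.out hp).mpr hqp)
  -- D ∩ P meets Z(P)
  haveI hPnil : Group.IsNilpotent (P : Subgroup G) := P.isPGroup'.isNilpotent
  let D' : Subgroup (P : Subgroup G) := (centralizer (E : Set G)).subgroupOf P
  haveI : D'.Normal := normal_subgroupOf
  have hD'ne : D' ≠ ⊥ := by
    intro hb
    have h3 : (⟨g', hP (mem_zpowers g')⟩ : (P : Subgroup G)) ∈ D' := by
      rw [mem_subgroupOf]; exact hD
    rw [hb, mem_bot] at h3
    have h4 : g' = 1 := congrArg Subtype.val h3
    rw [h4, orderOf_one] at hg'p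
    exact hp.one_lt.ne hg'p
  have h5 := CfsgLib.SolvNilp.inf_center_ne_bot D' hD'ne
  obtain ⟨z, hz, hz1⟩ := (bot_or_exists_ne_one (D' ⊓ center (P : Subgroup G))).resolve_left h5
  have hzE : E ≤ centralizer ({(z : G)} : Set G) := by
    intro y hy
    rw [mem_centralizer_singleton_iff]
    exact (mem_centralizer_iff.mp (mem_subgroupOf.mp hz.1) y hy)
  have hzP : (P : Subgroup G) ≤ centralizer ({(z : G)} : Set G) := by
    intro y hy
    rw [mem_centralizer_singleton_iff]
    exact congrArg Subtype.val (mem_center_iff.mp hz.2 ⟨y, hy⟩)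
  have hzt : (⊤ : Subgroup G) ≤ centralizer ({(z : G)} : Set G) := by
    rw [← hEP]; exact sup_le hzE hzP
  have h6 : (z : G) ∈ center G := by
    rw [mem_center_iff]
    intro y
    have := hzt (mem_top y)
    rwa [mem_centralizer_singleton_iff] at this
  intro hc
  rw [hc, mem_bot] at h6
  exact hz1 (Subtype.ext h6)

theorem hard (n : ℕ) : ∀ (G : Type u) [Group G] [Finite G], Nat.card G ≤ n → ∀ g : G,
    (∀ x : G, Group.IsNilpotent ↥(closure ({x, g} : Set G))) → ∃ n, g ∈ Subgroup.upperCentralSeries G n := by
  induction n with
  | zero =>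
    intro G _ _ hn
    have : 0 < Nat.card G := Nat.card_pos
    omega
  | succ n ih =>
    intro G _ _ hn g h
    by_cases hg : g = 1
    · exact ⟨0, by rw [hg]; exact one_mem _⟩
    have hZ := centerless g hg h
    obtain ⟨m, hm⟩ := ih (G ⧸ center G) (by
      have h1 : Nat.card (center G) * Nat.card (G ⧸ center G) = Nat.card G := card_mul_index _
      have h2 : 1 < Nat.card (center G) := (one_lt_card_iff_ne_bot _).mpr hZ
      have h3 : 0 < Nat.card (G ⧸ center G) := Nat.card_pos
      nlinarith) (QuotientGroup.mk' _ g) (by
      intro x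
      obtain ⟨x, rfl⟩ := QuotientGroup.mk'_surjective (center G) x
      rw [← map_pair]
      haveI := h x
      exact Group.nilpotent_of_surjective ((QuotientGroup.mk' (center G)).subgroupMap _)
        (MonoidHom.subgroupMap_surjective _ _))
    refine ⟨m + 1, ?_⟩
    have : g ∈ comap (QuotientGroup.mk' (center G)) (Subgroup.upperCentralSeries (G ⧸ center G) m) := hm
    rwa [Subgroup.comap_upperCentralSeries_quotient_center] at this

/-- In a finite group G the set of elements g such that the subgroup generated by g and x is nilpotent for every x ∈ G is exactly the hypercenter of G (the last term of the upper central series). -/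
theorem result {G : Type*} [Group G] [Finite G] (g : G) :
    (∀ x : G, Group.IsNilpotent ↥(Subgroup.closure ({x, g} : Set G))) ↔ g ∈ ⨆ n : ℕ, Subgroup.upperCentralSeries G n := by
  constructor
  · intro h
    obtain ⟨n, hn⟩ := hard (Nat.card G) G le_rfl g h
    exact le_iSup (fun n : ℕ => Subgroup.upperCentralSeries G n) n hn
  · intro h x
    have hd : Directed (· ≤ ·) (fun n : ℕ => Subgroup.upperCentralSeries G n) :=
      (Subgroup.upperCentralSeries_mono G).directed_le
    rw [mem_iSup_of_directed hd] at h
    obtain ⟨n, hn⟩ := h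
    exact easy n G g hn x

end Cfsg.Agent.S3939
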