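import Cfsg.Statements.S3941
-- import your own Cfsg.Agent.* helpers here

set_option autoImplicit false
open Cfsg

namespace Cfsg.Agent.S3941

set_option linter.style.haveILetI false

open Subgroup

theorem mem_normal_sylow {G : Type*} [Group G] [Finite G] {p : ℕ} [Fact p.Prime] (P : Sylow p G)
    (hP : (P : Subgroup G).Normal) {g : G} {k : ℕ} (hg : orderOf g = p ^ k) : g ∈ (P : Subgroup G) := by
  have h1 : IsPGroup p (zpowers g) := by
    apply IsPGroup.of_card (n := k)
    rw [Nat.card_zpowers, hg]
  obtain ⟨Q, hQ⟩ := h1.exists_le_sylow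
  haveI := Sylow.unique_of_normal P hP
  have : Q = P := Subsingleton.elim _ _
  rw [← this]
  exact hQ (mem_zpowers g)

/-- the embedding of `A_m` in `A_{m+1}`. -/
theorem exists_embed (m : ℕ) : ∃ f : alternatingGroup (Fin m) →* alternatingGroup (Fin (m + 1)),
    Function.Injective f := by
  let F := Equiv.Perm.extendDomainHom (finSuccAboveEquiv (Fin.last m))
  have hF : ∀ s : alternatingGroup (Fin m), F s.1 ∈ alternatingGroup (Fin (m + 1)) := by
    intro s
    rw [Equiv.Perm.mem_alternatingGroup]
    have := s.2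
    rw [Equiv.Perm.mem_alternatingGroup] at this
    rw [← this]
    exact Equiv.Perm.sign_extendDomain _ _
  refine ⟨(F.comp (alternatingGroup (Fin m)).subtype).codRestrict _ hF, ?_⟩
  intro a b hab
  apply Subtype.ext
  apply Equiv.Perm.extendDomainHom_injective (finSuccAboveEquiv (Fin.last m))
  exact congrArg Subtype.val hab

theorem card_alt (m : ℕ) (hm : 4 ≤ m) : 2 * Nat.card (alternatingGroup (Fin m)) = m.factorial := by
  haveI : Nontrivial (Fin m) := Fin.nontrivial_iff_two_le.mpr (by omega)
  have := two_mul_nat_card_alternatingGroup (α := Fin m)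
  rw [this, Nat.card_perm, Nat.card_fin]

theorem a4 : ∃ x y : alternatingGroup (Fin 4), x ≠ 1 ∧ x ^ 3 = 1 ∧ y ≠ 1 ∧ y ^ 3 = 1 ∧ (x * y) ≠ 1 ∧
    (x * y) ^ 2 = 1 := by
  refine ⟨⟨Equiv.swap 0 1 * Equiv.swap 1 2, by rw [Equiv.Perm.mem_alternatingGroup]; decide⟩, ⟨Equiv.swap 0 1 * Equiv.swap 1 3, by rw [Equiv.Perm.mem_alternatingGroup]; decide⟩,
    ?_, ?_, ?_, ?_, ?_, ?_⟩ <;> decide

/-- Let n ≥ 5 and p an odd prime with p ≤ n, and suppose that every proper subgroup of the alternating group of degree n whose order is divisible by p has a normal Sylow p-subgroup. Then n = p. -/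
theorem result (n p : ℕ) (hn : 5 ≤ n) [Fact p.Prime] (hp : p ≠ 2) (hpn : p ≤ n)
    (h : ∀ H : Subgroup ↥(alternatingGroup (Fin n)), H ≠ ⊤ → p ∣ Nat.card ↥H → Cfsg.IsPClosed p ↥H) : n = p := by
  by_contra hne
  obtain ⟨m, rfl⟩ : ∃ m, n = m + 1 := ⟨n - 1, by omega⟩
  have hpm : p ≤ m := by omega
  have hm : 4 ≤ m := by omega
  have hpp : p.Prime := Fact.out
  obtain ⟨f, hf⟩ := exists_embed m
  have hcf : Nat.card f.range = Nat.card (alternatingGroup (Fin m)) :=
    (Nat.card_congr (MonoidHom.ofInjective hf).toEquiv).symm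
  have hHtop : f.range ≠ ⊤ := by
    intro htop
    have h1 : Nat.card f.range = Nat.card (alternatingGroup (Fin (m + 1))) := by
      rw [htop, card_top]
    rw [hcf] at h1
    have h2 := card_alt m hm
    have h3 := card_alt (m + 1) (by omega)
    rw [← h1, h2, Nat.factorial_succ] at h3
    have h4 : 0 < m.factorial := Nat.factorial_pos m
    nlinarith
  have hpd : p ∣ Nat.card f.range := by
    rw [hcf]
    have h2 : p ∣ 2 * Nat.card (alternatingGroup (Fin m)) := by
      rw [card_alt m hm]
      exact (Nat.Prime.dvd_factorial hpp).mpr hpm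
    rcases (Nat.Prime.dvd_mul hpp).mp h2 with h3 | h3
    · exact absurd ((Nat.prime_dvd_prime_iff_eq hpp Nat.prime_two).mp h3) hp
    · exact h3
  have hcl := h f.range hHtop hpd
  obtain ⟨P⟩ := (inferInstance : Nonempty (Sylow p f.range))
  have hPn := hcl P
  rcases Nat.lt_or_ge m 5 with hm5 | hm5
  · have hm4 : m = 4 := by omega
    subst hm4
    have hp3 : p = 3 := by
      have h2 := hpp.two_le
      interval_cases p
      · exact absurd rfl hp
      · rfl
      · exact absurd hpp (by norm_num)
    subst hp3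
    obtain ⟨x, y, hx1, hx3, hy1, hy3, hxy1, hxy2⟩ := a4
    have key : ∀ z : alternatingGroup (Fin 4), z ≠ 1 → z ^ 3 = 1 → f.rangeRestrict z ∈ (P : Subgroup f.range) := by
      intro z hz1 hz3
      have h4 : orderOf z = 3 := orderOf_eq_prime hz3 hz1
      refine mem_normal_sylow P hPn (k := 1) ?_
      have h5 : orderOf (f.rangeRestrict z) = orderOf z :=
        orderOf_injective f.rangeRestrict (by
          intro a b hab
          exact hf (congrArg Subtype.val hab)) z
      rw [h5, h4, pow_one]
    have h6 := mul_mem (key x hx1 hx3) (key y hy1 hy3)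
    rw [← map_mul] at h6
    obtain ⟨k, hk⟩ := (IsPGroup.iff_orderOf.mp P.isPGroup') ⟨_, h6⟩
    rw [Subgroup.orderOf_mk] at hk
    have h7 : orderOf (x * y) = 2 := orderOf_eq_prime hxy2 hxy1
    have h8 : orderOf (f.rangeRestrict (x * y)) = orderOf (x * y) :=
      orderOf_injective f.rangeRestrict (by
        intro a b hab
        exact hf (congrArg Subtype.val hab)) _
    rw [h8, h7] at hk
    have h9 : 2 ∣ 3 ^ k := by rw [← hk]
    have := (Nat.prime_dvd_prime_iff_eq Nat.prime_two Nat.prime_three).mp (Nat.prime_two.dvd_of_dvd_pow h9)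
    omega
  · haveI : IsSimpleGroup (alternatingGroup (Fin m)) := alternatingGroup.isSimpleGroup (by simpa using hm5)
    haveI : Nontrivial f.range := by
      rw [← Finite.one_lt_card_iff_nontrivial]
      exact lt_of_lt_of_le hpp.one_lt (Nat.le_of_dvd Nat.card_pos hpd)
    haveI : IsSimpleGroup f.range :=
      IsSimpleGroup.isSimpleGroup_of_surjective f.rangeRestrict f.rangeRestrict_surjective
    rcases hPn.eq_bot_or_eq_top with h1 | h1
    · have h2 := P.card_eq_multiplicity
      have h3 : Nat.card P = 1 := by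
        change Nat.card (P : Subgroup f.range) = 1
        rw [h1, card_bot]
      rw [h3] at h2
      have h4 := Nat.Prime.factorization_pos_of_dvd hpp Nat.card_pos.ne' hpd
      exact (Nat.one_lt_pow h4.ne' hpp.one_lt).ne h2
    · have h2 : Nat.card f.range = p ^ (Nat.card f.range).factorization p := by
        rw [← P.card_eq_multiplicity]
        change _ = Nat.card (P : Subgroup f.range)
        rw [h1, card_top]
      have h3 : 2 ∣ Nat.card f.range := by
        rw [hcf]
        have h4 : 4 ∣ 2 * Nat.card (alternatingGroup (Fin m)) := by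
          rw [card_alt m hm]
          exact Nat.dvd_factorial (by norm_num) hm
        omega
      rw [h2] at h3
      exact hp ((Nat.prime_dvd_prime_iff_eq Nat.prime_two hpp).mp (Nat.prime_two.dvd_of_dvd_pow h3)).symm

end Cfsg.Agent.S3941
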