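import Cfsg.Statements.S3947
import Cfsg.Agent.LibFgZip

set_option autoImplicit false
open Cfsg

namespace Cfsg.Agent.S3947

/-- Let G be a finite group and A a proper subgroup of G whose normal closure is G. Let Y be the join of all proper subgroups H of G that contain A and are generated by their own conjugates of A (the normal closure of A in H is H). Then either Y = G, or A is contained in exactly one maximal subgroup of G. -/
theorem result {G : Type*} [Group G] [Finite G] (A : Subgroup G) (hA : Subgroup.normalClosure (A : Set G) = ⊤) (hAG : A ≠ ⊤) :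
    sSup {H : Subgroup G | A ≤ H ∧ H ≠ ⊤ ∧ Subgroup.normalClosure ((A.subgroupOf H : Subgroup ↥H) : Set ↥H) = ⊤} = ⊤ ∨
      ∃! M : Subgroup G, IsCoatom M ∧ A ≤ M := by
  rw [← CfsgLib.FgZip.Yof_eq]
  by_cases h : CfsgLib.FgZip.Yof A = ⊤
  · exact Or.inl h
  · exact Or.inr (CfsgLib.FgZip.existsUnique_coatom A hAG hA h)

end Cfsg.Agent.S3947
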