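import Cfsg.Statements.S3949
-- import your own Cfsg.Agent.* helpers here

set_option autoImplicit false
open Cfsg

namespace Cfsg.Agent.S3949

theorem inv_iter {G : Type*} [Group G] (α : MulAut G) (c : G) (hc : α c = c⁻¹) (j : ℕ) :
    (fun c : G => c * (α c)⁻¹)^[j] c = c ^ (2 ^ j) := by
  induction j generalizing c with
  | zero => simp
  | succ j ih =>
    rw [Function.iterate_succ_apply]
    have h1 : c * (α c)⁻¹ = c ^ 2 := by rw [hc, inv_inv, pow_two]
    simp only [h1]
    rw [ih (c ^ 2) (by rw [map_pow, hc, inv_pow]), ← pow_mul, pow_succ']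

/-- Let G be a finite group and α an automorphism of G of order 2 such that the elements g·α(g)⁻¹ generate G. Let j be a positive integer such that 2^j divides the order of no element inverted by α. Then the set of values of the j-th iterate of the map c ↦ c·α(c)⁻¹ is exactly the set of elements of odd order inverted by α. -/
theorem result {G : Type*} [Group G] [Finite G] (α : MulAut G) (hα : orderOf α = 2) (hG : Subgroup.closure (Set.range (fun c : G => c * (α c)⁻¹)) = ⊤)
    (j : ℕ) (hj : ∀ g : G, α g = g⁻¹ → ¬ 2 ^ j ∣ orderOf g) :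
    Set.range ((fun c : G => c * (α c)⁻¹)^[j]) = {g : G | Odd (orderOf g) ∧ α g = g⁻¹} := by
  have h2 : ∀ c, α (α c) = c := by
    intro c
    have := pow_orderOf_eq_one α
    rw [hα, pow_two] at this
    have h3 := congrArg (fun f : MulAut G => f c) this
    simpa using h3
  have hinv : ∀ c : G, α (c * (α c)⁻¹) = (c * (α c)⁻¹)⁻¹ := by
    intro c
    rw [map_mul, map_inv, h2, mul_inv_rev, inv_inv]
  have hj0 : j ≠ 0 := by
    rintro rfl
    exact hj 1 (by simp) (by simp)
  obtain ⟨i, rfl⟩ := Nat.exists_eq_succ_of_ne_zero hj0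
  ext g
  constructor
  · rintro ⟨c, rfl⟩
    rw [Function.iterate_succ_apply, inv_iter α _ (hinv c)]
    set d := c * (α c)⁻¹ with hd
    have h4 := hj d (hinv c)
    refine ⟨?_, by rw [map_pow, hinv, inv_pow]⟩
    rw [orderOf_pow' _ (by positivity)]
    have hpos : 0 < orderOf d := orderOf_pos d
    rw [Nat.odd_iff, ← Nat.not_even_iff, even_iff_two_dvd]
    intro h5
    obtain ⟨e, he⟩ : ∃ e, Nat.gcd (orderOf d) (2 ^ i) = 2 ^ e ∧ e ≤ i := by
      obtain ⟨e, h6, h7⟩ := (Nat.dvd_prime_pow Nat.prime_two).mp (Nat.gcd_dvd_right (orderOf d) (2 ^ i))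
      exact ⟨e, h7, h6⟩
    obtain ⟨m, hm⟩ : 2 ^ e ∣ orderOf d := by rw [← he.1]; exact Nat.gcd_dvd_left _ _
    rw [he.1, hm, Nat.mul_div_cancel_left _ (by positivity)] at h5
    have h8 : 2 ^ (e + 1) ∣ orderOf d := by
      rw [hm, pow_succ]; exact mul_dvd_mul_left _ h5
    rcases Nat.lt_or_ge e i with hlt | hge
    · have h9 : 2 ^ (e + 1) ∣ Nat.gcd (orderOf d) (2 ^ i) :=
        Nat.dvd_gcd h8 (pow_dvd_pow 2 hlt)
      rw [he.1] at h9
      have := (Nat.pow_dvd_pow_iff_le_right (by norm_num : 1 < 2)).mp h9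
      omega
    · have : e = i := le_antisymm he.2 hge
      subst this
      exact h4 h8
  · rintro ⟨hodd, hinvg⟩
    have hcop : Nat.Coprime (2 ^ (i + 1)) (orderOf g) :=
      Nat.Coprime.pow_left _ (Nat.coprime_two_left.mpr hodd)
    obtain ⟨x, hx⟩ := exists_pow_eq_self_of_coprime hcop
    refine ⟨g ^ x, ?_⟩
    rw [inv_iter α _ (by rw [map_pow, hinvg, inv_pow]), ← pow_mul, mul_comm, pow_mul]
    exact hx

end Cfsg.Agent.S3949
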