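import Cfsg.Statements.S3982
import Cfsg.Agent.LibFgBas2
import Cfsg.Agent.LibInvol
import Cfsg.Agent.LibCoprime

set_option autoImplicit false
open Cfsg

namespace Cfsg.Agent.S3982

set_option linter.style.haveILetI false
set_option linter.unusedSectionVars false
set_option linter.unusedVariables false

open Subgroup CfsgLib.FgBas

/-- Let p be an odd prime and G a finite group of even order divisible by p in which the centralizer of every non-identity p-element has odd order. If some nontrivial p-subgroup of G has a normalizer of even order, then the normalizer of every Sylow p-subgroup of G has even order. -/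
theorem result {G : Type*} [Group G] [Finite G] (p : ℕ) [Fact p.Prime] (hp2 : p ≠ 2) (hpG : p ∣ Nat.card G) (h2G : 2 ∣ Nat.card G) (hC : ∀ g : G, g ≠ 1 → (∃ k : ℕ, orderOf g = p ^ k) → Odd (Nat.card ↥(Subgroup.centralizer ({g} : Set G)))) (Q : Subgroup G) (hQ : IsPGroup p ↥Q) (hQ1 : Q ≠ ⊥) (hev : Even (Nat.card ↥(Subgroup.normalizer (Q : Set G)))) (P : Sylow p G) : Even (Nat.card ↥(Subgroup.normalizer ((P : Subgroup G) : Set G))) := by
  classical
  have hp := Fact.out (p := p.Prime)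
  haveI : Fact (Nat.Prime 2) := ⟨Nat.prime_two⟩
  -- choose Q maximal
  obtain ⟨Q, hQ', hmax⟩ : ∃ Q : Subgroup G, (IsPGroup p Q ∧ Q ≠ ⊥ ∧ Even (Nat.card ↥(Subgroup.normalizer (Q : Set G)))) ∧
      ∀ R : Subgroup G, (IsPGroup p R ∧ R ≠ ⊥ ∧ Even (Nat.card ↥(Subgroup.normalizer (R : Set G)))) → Q ≤ R → R = Q := by
    have hfin : ({Q : Subgroup G | IsPGroup p Q ∧ Q ≠ ⊥ ∧ Even (Nat.card ↥(Subgroup.normalizer (Q : Set G)))}).Finite := Set.toFinite _
    obtain ⟨Q, hQ⟩ := hfin.exists_maximal ⟨Q, hQ, hQ1, hev⟩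
    exact ⟨Q, hQ.prop, fun R hR hle => (hQ.eq_of_le hR hle).symm⟩
  clear hQ hQ1 hev
  obtain ⟨hQp, hQ1, hev⟩ := hQ'
  obtain ⟨N, hN⟩ : ∃ N, N = normalizer (Q : Set G) := ⟨_, rfl⟩
  obtain ⟨C, hC'⟩ : ∃ C, C = centralizer (Q : Set G) := ⟨_, rfl⟩
  rw [← hN] at hev
  have hCN : C ≤ N := by rw [hC', hN]; exact centralizer_le_normalizer _
  -- C has odd order
  obtain ⟨z, hz⟩ := Subgroup.ne_bot_iff_exists_ne_one.mp hQ1
  have hz1 : (z : G) ≠ 1 := fun h => hz (Subtype.ext h)
  have hCodd : Odd (Nat.card C) := by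
    have h1 := hC z hz1 (orderOf_eq_pow hQp z.2)
    have h2 : C ≤ centralizer ({(z : G)} : Set G) := by
      rw [hC']; exact centralizer_le (Set.singleton_subset_iff.mpr z.2)
    exact Odd.of_dvd_nat h1 (card_dvd_of_le h2)
  -- an involution in N
  obtain ⟨t, ht⟩ := exists_prime_orderOf_dvd_card' (G := N) 2 (even_iff_two_dvd.mp hev)
  have ht2 : orderOf (t : G) = 2 := by rw [← ht]; exact Subgroup.orderOf_coe t
  have htt : (t : G) * t = 1 := by rw [← pow_two, ← ht2, pow_orderOf_eq_one]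
  have htinv : (t : G)⁻¹ = t := by rw [inv_eq_iff_mul_eq_one]; exact htt
  -- no p-element commutes with t
  have hfix : ∀ x : G, (∃ k, orderOf x = p ^ k) → (t : G) * x = x * t → x = 1 := by
    intro x hx hc
    by_contra hx1
    have h1 := hC x hx1 hx
    have h2 : (t : G) ∈ centralizer ({x} : Set G) := CfsgLib.FgClass.mem_centralizer_singleton.mpr hc
    have h3 : orderOf (⟨t, h2⟩ : centralizer ({x} : Set G)) ∣ Nat.card (centralizer ({x} : Set G)) := orderOf_dvd_natCard _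
    rw [Subgroup.orderOf_mk, ht2] at h3
    exact (Nat.not_even_iff_odd.mpr h1) (even_iff_two_dvd.mpr h3)
  -- t inverts Q
  have htQ : ∀ x ∈ Q, (t : G) * x * (t : G)⁻¹ ∈ Q := fun x hx => (mem_normalizer_iff.mp (hN ▸ t.2) x).mp hx
  have hinvert : ∀ s : G, s ∈ N → orderOf s = 2 → ∀ x ∈ Q, s * x * s⁻¹ = x⁻¹ := by
    intro s hsN hs2 x hx
    have hss : s * s = 1 := by rw [← pow_two, ← hs2, pow_orderOf_eq_one]
    have hsinv : s⁻¹ = s := by rw [inv_eq_iff_mul_eq_one]; exact hss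
    have hsQ : ∀ x ∈ Q, s * x * s⁻¹ ∈ Q := fun x hx => (mem_normalizer_iff.mp (hN ▸ hsN) x).mp hx
    have hsfix : ∀ y ∈ Q, s * y = y * s → y = 1 := by
      intro y hy hc
      by_contra hy1
      have h1 := hC y hy1 (orderOf_eq_pow hQp hy)
      have h2 : s ∈ centralizer ({y} : Set G) := CfsgLib.FgClass.mem_centralizer_singleton.mpr hc
      have h3 : orderOf (⟨s, h2⟩ : centralizer ({y} : Set G)) ∣ Nat.card (centralizer ({y} : Set G)) := orderOf_dvd_natCard _
      rw [Subgroup.orderOf_mk, hs2] at h3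
      exact (Nat.not_even_iff_odd.mpr h1) (even_iff_two_dvd.mpr h3)
    -- x ↦ x⁻¹ x^s injective on Q hence surjective
    let f : Q → Q := fun x => ⟨(x : G)⁻¹ * (s * x * s⁻¹), mul_mem (inv_mem x.2) (hsQ _ x.2)⟩
    have hf : Function.Injective f := by
      intro a b hab
      have h1 : (a : G)⁻¹ * (s * a * s⁻¹) = (b : G)⁻¹ * (s * b * s⁻¹) := congrArg Subtype.val hab
      have h2 : (b : G) * (a : G)⁻¹ = 1 := by
        apply hsfix _ (mul_mem b.2 (inv_mem a.2))
        have h3 : (b : G) * (a : G)⁻¹ = (s * b * s⁻¹) * (s * a * s⁻¹)⁻¹ := by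
          have h4 : (b : G) * ((a : G)⁻¹ * (s * a * s⁻¹)) = (s * b * s⁻¹) := by rw [h1]; group
          rw [← h4]; group
        have h5 : s * ((b : G) * (a : G)⁻¹) * s⁻¹ = (b : G) * (a : G)⁻¹ := by
          conv_rhs => rw [h3]
          group
        exact mul_inv_eq_iff_eq_mul.mp h5
      exact Subtype.ext (mul_inv_eq_one.mp h2).symm
    obtain ⟨a, ha⟩ := (Finite.injective_iff_surjective.mp hf) ⟨x, hx⟩
    have h1 : (a : G)⁻¹ * (s * a * s⁻¹) = x := congrArg Subtype.val ha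
    rw [← h1]
    calc s * ((a : G)⁻¹ * (s * a * s⁻¹)) * s⁻¹ = (s * a * s⁻¹)⁻¹ * ((s * s) * a * (s * s)⁻¹) := by group
      _ = ((a : G)⁻¹ * (s * a * s⁻¹))⁻¹ := by rw [hss]; group
  -- every involution of N lies in C t ; elements of N : x t x⁻¹ t⁻¹ ∈ C
  have htcent : ∀ x ∈ N, x * t * x⁻¹ * (t : G)⁻¹ ∈ C := by
    intro x hx
    rw [hC', mem_centralizer_iff]
    intro y hy
    have e1 : ∀ y ∈ Q, (x * t * x⁻¹) * y * (x * t * x⁻¹)⁻¹ = y⁻¹ :=
      hinvert (x * t * x⁻¹) (mul_mem (mul_mem hx t.2) (inv_mem hx)) (by rw [orderOf_conj, ht2])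
    have e2 : ∀ y ∈ Q, (t : G) * y * (t : G)⁻¹ = y⁻¹ := hinvert t t.2 ht2
    have e3 : (t : G)⁻¹ * y * (t : G) = y⁻¹ := by
      have := e2 y hy
      rw [htinv] at this ⊢; exact this
    have e4 : (x * t * x⁻¹ * (t : G)⁻¹) * y * (x * t * x⁻¹ * (t : G)⁻¹)⁻¹ = y := by
      calc (x * t * x⁻¹ * (t : G)⁻¹) * y * (x * t * x⁻¹ * (t : G)⁻¹)⁻¹
          = (x * t * x⁻¹) * ((t : G)⁻¹ * y * (t : G)) * (x * t * x⁻¹)⁻¹ := by group
        _ = (x * t * x⁻¹) * y⁻¹ * (x * t * x⁻¹)⁻¹ := by rw [e3]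
        _ = ((x * t * x⁻¹) * y * (x * t * x⁻¹)⁻¹)⁻¹ := by group
        _ = y := by rw [e1 y hy, inv_inv]
    exact (mul_inv_eq_iff_eq_mul.mp e4).symm
  -- Frattini: every p-element of N lies in C
  have hCnorm : ∀ g ∈ N, ∀ c ∈ C, g * c * g⁻¹ ∈ C := by
    intro g hg c hc
    have hCn : (C.subgroupOf N).Normal := by rw [hC', hN]; infer_instance
    have := hCn.conj_mem ⟨c, hCN hc⟩ (mem_subgroupOf.mpr hc) ⟨g, hg⟩
    exact mem_subgroupOf.mp this
  have hpC : ∀ x ∈ N, (∃ k, orderOf x = p ^ k) → x ∈ C := by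
    intro x hx hxk
    have h1 := htcent x hx
    have hmem : (t : G) * (x * t * x⁻¹) ∈ C := by
      have h2 : (t : G) * (x * t * x⁻¹) = t * (x * t * x⁻¹ * (t : G)⁻¹) * (t : G)⁻¹ * ((t : G) * t) := by group
      rw [h2, htt, mul_one]; exact hCnorm t t.2 _ h1
    obtain ⟨c, hc1, hc2⟩ := CfsgLib.Invol.conj_of_odd ht2 (y := x * t * x⁻¹) (by rw [orderOf_conj, ht2]) (by
      have h3 : orderOf (⟨_, hmem⟩ : C) ∣ Nat.card C := orderOf_dvd_natCard _
      rw [Subgroup.orderOf_mk] at h3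
      exact Odd.of_dvd_nat hCodd h3)
    have hcC : c ∈ C := (zpowers_le.mpr hmem) hc1
    obtain ⟨y, hy⟩ : ∃ y, y = c⁻¹ * x := ⟨_, rfl⟩
    have hyN : y ∈ N := by rw [hy]; exact mul_mem (inv_mem (hCN hcC)) hx
    have hyt : (t : G) * y = y * t := by
      have h4 : y * t * y⁻¹ = t := by
        rw [hy]
        calc c⁻¹ * x * t * (c⁻¹ * x)⁻¹ = c⁻¹ * (x * t * x⁻¹) * c := by group
          _ = t := by rw [← hc2]; group
      exact (mul_inv_eq_iff_eq_mul.mp h4).symm
    obtain ⟨a, b, ha, hb, hab, hba, hk, hbp⟩ := CfsgLib.FgElt.exists_p_decomp hp y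
    have ha1 : a = 1 := hfix a hk (CfsgLib.FgElt.commute_of_mem_zpowers ha hyt.symm).symm
    have hyb : y = b := by rw [← hab, ha1, one_mul]
    -- x ^ m ∈ C where m = orderOf y
    have h5 : x ^ orderOf y ∈ C := by
      have hCn : (C.subgroupOf N).Normal := by rw [hC', hN]; infer_instance
      have h6 : QuotientGroup.mk' (C.subgroupOf N) (⟨x, hx⟩ : N) = QuotientGroup.mk' (C.subgroupOf N) (⟨y, hyN⟩ : N) := by
        rw [QuotientGroup.mk'_apply, QuotientGroup.mk'_apply, QuotientGroup.eq, mem_subgroupOf]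
        change x⁻¹ * y ∈ C
        have h7 : x⁻¹ * y = x⁻¹ * c⁻¹ * x⁻¹⁻¹ := by rw [hy]; group
        rw [h7]; exact hCnorm _ (inv_mem hx) _ (inv_mem hcC)
      have h8 : QuotientGroup.mk' (C.subgroupOf N) ((⟨x, hx⟩ : N) ^ orderOf y) = 1 := by
        rw [map_pow, h6, ← map_pow]
        have : (⟨y, hyN⟩ : N) ^ orderOf y = 1 := Subtype.ext (pow_orderOf_eq_one y)
        rw [this, map_one]
      exact mem_subgroupOf.mp ((QuotientGroup.eq_one_iff _).mp h8)
    apply mem_of_pow_mem h5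
    obtain ⟨k, hk⟩ := hxk
    rw [hk, hyb]
    exact Nat.Coprime.pow_left _ hbp.symm
  have hQN : Q ≤ N := by rw [hN]; exact le_normalizer
  have hQC : Q ≤ C := fun x hx => hpC x (hQN hx) (orderOf_eq_pow hQp hx)
  -- invariant Sylow subgroup
  have htC : zpowers (t : G) ≤ normalizer (C : Set G) := by
    rw [zpowers_le, mem_normalizer_iff_map_conj_eq]
    apply Subgroup.eq_of_le_of_card_ge
    · rintro _ ⟨c, hc, rfl⟩
      exact hCnorm t t.2 c hc
    · rw [card_map_of_injective (MulAut.conj (t : G)).injective]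
  have hsolt : Group.IsSolvable (zpowers (t : G)) := by
    apply CfsgLib.FgClass.solvable_of_prime_card
    rw [Nat.card_zpowers, ht2]; exact Nat.prime_two
  obtain ⟨R, hQR, htR⟩ := CfsgLib.Coprime.exists_invariant_sylow_ge (A := zpowers (t : G)) (K := C) htC
    (by rw [Nat.card_zpowers, ht2]; exact (Nat.coprime_two_left).mpr hCodd) (Or.inl hsolt) p Q hQC hQp
    (by rw [zpowers_le, ← hN]; exact t.2)
  have hRQ : (R : Subgroup C).map C.subtype = Q := by
    apply hmax _ _ hQR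
    refine ⟨R.isPGroup'.map _, ?_, ?_⟩
    · intro h; rw [h] at hQR; exact hQ1 (le_bot_iff.mp hQR)
    · have h1 : (t : G) ∈ normalizer ((R : Subgroup C).map C.subtype : Set G) := htR (mem_zpowers _)
      have h2 : orderOf (⟨t, h1⟩ : normalizer ((R : Subgroup C).map C.subtype : Set G)) ∣ _ := orderOf_dvd_natCard _
      rw [Subgroup.orderOf_mk, ht2] at h2
      exact even_iff_two_dvd.mpr h2
  -- any p-subgroup T with Q ≤ T ≤ N is Q
  have hTQ : ∀ T : Subgroup G, IsPGroup p T → Q ≤ T → T ≤ N → T = Q := by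
    intro T hT hQT hTN
    have hTC : T ≤ C := fun x hx => hpC x (hTN hx) (orderOf_eq_pow hT hx)
    have h1 : IsPGroup p (T.subgroupOf C) := hT.comap_of_injective C.subtype C.subtype_injective
    have h2 : (R : Subgroup C) ≤ T.subgroupOf C := by
      intro r hr
      rw [mem_subgroupOf]
      apply hQT
      rw [← hRQ]; exact ⟨r, hr, rfl⟩
    have h3 := R.is_maximal' h1 h2
    rw [← hRQ, ← h3, subgroupOf_map_subtype, inf_eq_left.mpr hTC]
  -- Q is a Sylow subgroup of G
  obtain ⟨P0, hP0⟩ := hQp.exists_le_sylow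
  have hQP0 : (P0 : Subgroup G) = Q := by
    by_contra hne
    have hP0p := P0.isPGroup'
    haveI : Group.IsNilpotent (P0 : Subgroup G) := hP0p.isNilpotent
    have h1 : Q.subgroupOf (P0 : Subgroup G) < ⊤ := by
      rw [lt_top_iff_ne_top]
      intro h2
      rw [subgroupOf_eq_top] at h2
      exact hne (le_antisymm h2 hP0)
    have h2 := Group.normalizerCondition_of_isNilpotent (G := (P0 : Subgroup G)) (Q.subgroupOf P0) h1
    obtain ⟨r, hr1, hr2⟩ := SetLike.exists_of_lt h2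
    apply hr2
    rw [mem_subgroupOf]
    have h3 : (r : G) ∈ N ⊓ (P0 : Subgroup G) := by
      refine Subgroup.mem_inf.mpr ⟨?_, r.2⟩
      rw [hN, mem_normalizer_iff]
      intro z
      rw [mem_normalizer_iff] at hr1
      constructor
      · intro hz
        exact mem_subgroupOf.mp ((hr1 ⟨z, hP0 hz⟩).mp (mem_subgroupOf.mpr hz))
      · intro hz
        have hzR : z ∈ (P0 : Subgroup G) := by
          have h4 := hP0 hz
          have h5 : z = (r : G)⁻¹ * ((r : G) * z * (r : G)⁻¹) * r := by group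
          rw [h5]; exact mul_mem (mul_mem (inv_mem r.2) h4) r.2
        exact mem_subgroupOf.mp ((hr1 ⟨z, hzR⟩).mpr (mem_subgroupOf.mpr hz))
    rw [hTQ _ (hP0p.to_le inf_le_right) (le_inf hQN hP0) inf_le_left] at h3
    exact h3
  obtain ⟨g, hg⟩ := MulAction.exists_smul_eq G P0 P
  -- normalizer of P is conjugate to that of P0
  have h1 : Nat.card (normalizer ((P : Subgroup G) : Set G)) = Nat.card (normalizer ((P0 : Subgroup G) : Set G)) := by
    have h2 := P.card_eq_index_normalizer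
    have h3 := P0.card_eq_index_normalizer
    have h4 := card_mul_index (normalizer ((P : Subgroup G) : Set G))
    have h5 := card_mul_index (normalizer ((P0 : Subgroup G) : Set G))
    have h6 : (normalizer ((P : Subgroup G) : Set G)).index = (normalizer ((P0 : Subgroup G) : Set G)).index :=
      h2.symm.trans h3
    rw [h6, ← h5] at h4
    exact Nat.eq_of_mul_eq_mul_right (Nat.pos_of_ne_zero index_ne_zero_of_finite) h4
  rw [h1, hQP0, ← hN]; exact hev

end Cfsg.Agent.S3982
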