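import Cfsg.Statements.S3983
import Cfsg.Agent.LibFgBas

set_option autoImplicit false
open scoped Pointwise
open Cfsg

namespace Cfsg.Agent.S3983

set_option linter.style.haveILetI false
set_option linter.unusedSectionVars false
set_option linter.unusedVariables false

open Subgroup CfsgLib.FgBas

/-- Let P be a Sylow p-subgroup of the finite group G that meets each conjugate g P g⁻¹ with g outside N_G(P) trivially, and let U be a subgroup of G of order divisible by p. Then a Sylow p-subgroup Q of U has the same property inside U: Q meets each conjugate u Q u⁻¹ with u ∈ U outside N_U(Q) trivially. -/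
theorem result {G : Type*} [Group G] [Finite G] (p : ℕ) [Fact p.Prime] (P : Sylow p G) (hTI : ∀ g : G, g ∉ Subgroup.normalizer ((P : Subgroup G) : Set G) → (P : Subgroup G) ⊓ (MulAut.conj g • (P : Subgroup G)) = ⊥) (U : Subgroup G) (hU : p ∣ Nat.card ↥U) (Q : Sylow p ↥U) : ∀ u : ↥U, u ∉ Subgroup.normalizer ((Q : Subgroup ↥U) : Set ↥U) → (Q : Subgroup ↥U) ⊓ (MulAut.conj u • (Q : Subgroup ↥U)) = ⊥ := by
  classical
  intro u hu
  -- Q lies in a Sylow subgroup of G
  obtain ⟨R, hR⟩ := Q.exists_comap_subtype_eq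
  obtain ⟨g, hg⟩ := MulAction.exists_smul_eq G P R
  have hQ : ∀ x : U, x ∈ (Q : Subgroup U) ↔ (x : G) ∈ (R : Subgroup G) := by
    intro x
    rw [← hR]; rfl
  by_contra hne
  apply hu
  obtain ⟨x, hx⟩ := Subgroup.ne_bot_iff_exists_ne_one.mp hne
  obtain ⟨hx1, hx2⟩ := Subgroup.mem_inf.mp x.2
  rw [mem_pointwise_smul_iff_inv_smul_mem, ← map_inv, MulAut.smul_def, MulAut.conj_apply, inv_inv] at hx2
  have hx0 : ((x : U) : G) ≠ 1 := fun h => hx (Subtype.ext (Subtype.ext h))
  -- u normalizes R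
  have hPR : ∀ y, y ∈ (R : Subgroup G) ↔ g⁻¹ * y * g ∈ (P : Subgroup G) := by
    intro y; rw [← hg, CfsgLib.FgSyl.mem_smul_iff]
  have huR : (u : G) ∈ normalizer ((R : Subgroup G) : Set G) := by
    have h1 : g⁻¹ * (u : G) * g ∈ normalizer ((P : Subgroup G) : Set G) := by
      by_contra hcon
      have h2 := hTI _ hcon
      have h3 : g⁻¹ * ((x : U) : G) * g ∈ (P : Subgroup G) ⊓ (MulAut.conj (g⁻¹ * (u : G) * g) • (P : Subgroup G)) := by
        refine Subgroup.mem_inf.mpr ⟨(hPR _).mp ((hQ _).mp hx1), ?_⟩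
        rw [mem_pointwise_smul_iff_inv_smul_mem, ← map_inv, MulAut.smul_def, MulAut.conj_apply]
        have h4 := (hPR _).mp ((hQ _).mp hx2)
        have h5 : (g⁻¹ * (u : G) * g)⁻¹ * (g⁻¹ * ((x : U) : G) * g) * (g⁻¹ * (u : G) * g)⁻¹⁻¹ = g⁻¹ * (((u⁻¹ * (x : U) * u : U)) : G) * g := by
          push_cast; group
        rw [h5]; exact h4
      rw [h2, mem_bot] at h3
      apply hx0
      have h6 : ((x : U) : G) = g * (g⁻¹ * ((x : U) : G) * g) * g⁻¹ := by group
      rw [h6, h3]; group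
    rw [mem_normalizer_iff] at h1 ⊢
    intro y
    rw [hPR, hPR, h1]
    have : g⁻¹ * (u : G) * g * (g⁻¹ * y * g) * (g⁻¹ * (u : G) * g)⁻¹ = g⁻¹ * ((u : G) * y * (u : G)⁻¹) * g := by group
    rw [this]
  rw [mem_normalizer_iff]
  intro y
  rw [hQ, hQ, mem_normalizer_iff.mp huR]
  rfl

end Cfsg.Agent.S3983
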