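import Cfsg.Statements.S3984
import Cfsg.Agent.LibFgBas
import Cfsg.Agent.LibFgOT

set_option autoImplicit false
open scoped Pointwise
open Cfsg

namespace Cfsg.Agent.S3984

set_option linter.style.haveILetI false
set_option linter.unusedSectionVars false
set_option linter.unusedVariables false

open Subgroup CfsgLib.FgBas

/-- Let P be a Sylow p-subgroup of the finite group G that meets each conjugate g P g⁻¹ with g outside N_G(P) trivially, and let N be a normal subgroup of G of order prime to p. Then every Sylow p-subgroup Q of G ⧸ N meets each conjugate x Q x⁻¹ with x outside its normalizer trivially. -/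
theorem result {G : Type*} [Group G] [Finite G] (p : ℕ) [Fact p.Prime] (P : Sylow p G) (hTI : ∀ g : G, g ∉ Subgroup.normalizer ((P : Subgroup G) : Set G) → (P : Subgroup G) ⊓ (MulAut.conj g • (P : Subgroup G)) = ⊥) (N : Subgroup G) [N.Normal] (hN : (Nat.card ↥N).Coprime p) (Q : Sylow p (G ⧸ N)) : ∀ x : G ⧸ N, x ∉ Subgroup.normalizer ((Q : Subgroup (G ⧸ N)) : Set (G ⧸ N)) → (Q : Subgroup (G ⧸ N)) ⊓ (MulAut.conj x • (Q : Subgroup (G ⧸ N))) = ⊥ := by
  classical
  -- the lift of Q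
  obtain ⟨g, hg⟩ := MulAction.exists_smul_eq (G ⧸ N) (P.mapSurjective (QuotientGroup.mk'_surjective N)) Q
  obtain ⟨g, rfl⟩ := QuotientGroup.mk'_surjective N g
  obtain ⟨R, hRdef⟩ : ∃ R : Sylow p G, R = g • P := ⟨_, rfl⟩
  have hQ : (Q : Subgroup (G ⧸ N)) = (R : Subgroup G).map (QuotientGroup.mk' N) := by
    rw [← hg]
    ext y
    rw [CfsgLib.FgSyl.mem_smul_iff]
    constructor
    · rintro ⟨z, hz, hzy⟩
      refine ⟨g * z * g⁻¹, ?_, ?_⟩
      · rw [hRdef, SetLike.mem_coe, CfsgLib.FgSyl.mem_smul_iff]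
        have : g⁻¹ * (g * z * g⁻¹) * g = z := by group
        rw [this]; exact hz
      · rw [map_mul, map_mul, hzy, map_inv]; group
    · rintro ⟨z, hz, rfl⟩
      rw [hRdef, SetLike.mem_coe, CfsgLib.FgSyl.mem_smul_iff] at hz
      refine ⟨_, hz, ?_⟩
      rw [map_mul, map_mul, map_inv]
  have hTIR : ∀ h : G, h ∉ Subgroup.normalizer ((R : Subgroup G) : Set G) → ∀ y ∈ (R : Subgroup G), h⁻¹ * y * h ∈ (R : Subgroup G) → y = 1 := by
    intro h hh y hy1 hy2
    have hPR : ∀ y, y ∈ (R : Subgroup G) ↔ g⁻¹ * y * g ∈ (P : Subgroup G) := by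
      intro y; rw [hRdef, CfsgLib.FgSyl.mem_smul_iff]
    have h1 : g⁻¹ * h * g ∉ normalizer ((P : Subgroup G) : Set G) := by
      intro hcon
      apply hh
      rw [mem_normalizer_iff] at hcon ⊢
      intro y
      rw [hPR, hPR, hcon]
      have : g⁻¹ * h * g * (g⁻¹ * y * g) * (g⁻¹ * h * g)⁻¹ = g⁻¹ * (h * y * h⁻¹) * g := by group
      rw [this]
    have h2 := hTI _ h1
    have h3 : g⁻¹ * y * g ∈ (P : Subgroup G) ⊓ (MulAut.conj (g⁻¹ * h * g) • (P : Subgroup G)) := by
      refine Subgroup.mem_inf.mpr ⟨(hPR _).mp hy1, ?_⟩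
      rw [mem_pointwise_smul_iff_inv_smul_mem, ← map_inv, MulAut.smul_def, MulAut.conj_apply]
      have h5 : (g⁻¹ * h * g)⁻¹ * (g⁻¹ * y * g) * (g⁻¹ * h * g)⁻¹⁻¹ = g⁻¹ * (h⁻¹ * y * h) * g := by group
      rw [h5]; exact (hPR _).mp hy2
    rw [h2, mem_bot] at h3
    have h6 : y = g * (g⁻¹ * y * g) * g⁻¹ := by group
    rw [h6, h3]; group
  intro x hx
  obtain ⟨h, rfl⟩ := QuotientGroup.mk'_surjective N x
  by_contra hne
  apply hx
  obtain ⟨y, hy⟩ := Subgroup.ne_bot_iff_exists_ne_one.mp hne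
  obtain ⟨hy1, hy2⟩ := Subgroup.mem_inf.mp y.2
  obtain ⟨y, hy0⟩ := y
  change y ∈ _ at hy1
  change y ∈ _ at hy2
  have hyne : y ≠ 1 := fun h => hy (Subtype.ext h)
  rw [mem_pointwise_smul_iff_inv_smul_mem, ← map_inv, MulAut.smul_def, MulAut.conj_apply, inv_inv] at hy2
  rw [hQ] at hy1 hy2
  obtain ⟨r, hr, hry⟩ := hy1
  obtain ⟨s, hs, hsy⟩ := hy2
  -- H = N ⊔ ⟨r⟩ : its Sylow p-subgroups are conjugate
  -- r ∈ R and h s h⁻¹ ∈ h R h⁻¹ have the same image
  let H : Subgroup G := (zpowers (QuotientGroup.mk' N r)).comap (QuotientGroup.mk' N)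
  have hrH : r ∈ H := mem_comap.mpr (mem_zpowers _)
  have hsH : h * s * h⁻¹ ∈ H := by
    rw [mem_comap, map_mul, map_mul, map_inv, hsy, hry]
    have : (QuotientGroup.mk' N) h * (((QuotientGroup.mk' N) h)⁻¹ * y * (QuotientGroup.mk' N) h) * ((QuotientGroup.mk' N) h)⁻¹ = y := by group
    have e : (QuotientGroup.mk' N) h * (((QuotientGroup.mk' N) h⁻¹) * y * (QuotientGroup.mk' N) h) * ((QuotientGroup.mk' N) h)⁻¹ = y := by
      rw [map_inv]; exact this
    first
      | rw [this]; exact mem_zpowers _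
      | rw [e]; exact mem_zpowers _
  -- `⟨r⟩` is a Sylow p-subgroup of H
  obtain ⟨k, hk⟩ := orderOf_eq_pow R.isPGroup' hr
  have hrN : ∀ t : G, (∃ k, orderOf t = p ^ k) → t ∈ N → t = 1 := by
    rintro t ⟨k, hk⟩ htN
    have h1 : orderOf t ∣ Nat.card N := by
      rw [← Subgroup.orderOf_mk t htN]; exact orderOf_dvd_natCard _
    rw [hk] at h1
    rcases Nat.eq_zero_or_pos k with rfl | hk0
    · rw [pow_zero, orderOf_eq_one_iff] at hk; exact hk
    · exfalso
      have h2 : p ∣ Nat.card N := (dvd_pow_self p hk0.ne').trans h1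
      exact (Nat.Prime.coprime_iff_not_dvd Fact.out).mp hN.symm h2
  have hcardH : Nat.card H = Nat.card N * orderOf r := by
    have h1 : Nat.card H = Nat.card N * Nat.card (zpowers (QuotientGroup.mk' N r)) := by
      have h2 := CfsgLib.FgOT.card_preimage N (fun x => x ∈ zpowers (QuotientGroup.mk' N r))
      exact h2
    have h3 : orderOf (QuotientGroup.mk' N r) = orderOf r := by
      apply Nat.dvd_antisymm (orderOf_map_dvd _ _)
      apply orderOf_dvd_of_pow_eq_one
      apply hrN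
      · exact orderOf_eq_pow R.isPGroup' (pow_mem hr _)
      · apply (QuotientGroup.eq_one_iff _).mp
        change QuotientGroup.mk' N (r ^ _) = 1
        rw [map_pow, pow_orderOf_eq_one]
    rw [h1, Nat.card_zpowers, h3]
  have hcop : (Nat.card N).Coprime p := hN
  let T : Sylow p H := Sylow.ofCard ((zpowers r).subgroupOf H) (by
    rw [Nat.card_congr (Subgroup.subgroupOfEquivOfLe (zpowers_le.mpr hrH)).toEquiv, Nat.card_zpowers, hcardH, hk,
      Nat.factorization_mul Nat.card_pos.ne' (pow_pos (Nat.Prime.pos Fact.out) k).ne', Finsupp.add_apply,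
      Nat.factorization_eq_zero_of_not_dvd ((Nat.Prime.coprime_iff_not_dvd Fact.out).mp hN.symm), zero_add,
      Nat.Prime.factorization_pow Fact.out, Finsupp.single_eq_same])
  obtain ⟨c, hc⟩ := exists_conj_mem T (x := (⟨h * s * h⁻¹, hsH⟩ : H)) (by
    obtain ⟨l, hl⟩ := orderOf_eq_pow R.isPGroup' hs
    exact ⟨l, by rw [Subgroup.orderOf_mk, orderOf_conj, hl]⟩)
  have hc' : (c : G) * (h * s * h⁻¹) * (c : G)⁻¹ ∈ zpowers r := hc
  have hcR : (c : G) * (h * s * h⁻¹) * (c : G)⁻¹ ∈ (R : Subgroup G) := (zpowers_le.mpr hr) hc'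
  have hs1 : s ≠ 1 := by
    rintro rfl
    rw [map_one] at hsy
    apply hyne
    have : y = (QuotientGroup.mk' N) h * (((QuotientGroup.mk' N) h)⁻¹ * y * (QuotientGroup.mk' N) h) * ((QuotientGroup.mk' N) h)⁻¹ := by group
    rw [this]
    first
      | rw [← hsy]; group
      | rw [← map_inv, ← hsy]; group
  -- so c * h normalizes R
  have hch : (c : G) * h ∈ normalizer ((R : Subgroup G) : Set G) := by
    by_contra hcon
    have := hTIR _ hcon _ hcR (by
      have : ((c : G) * h)⁻¹ * ((c : G) * (h * s * h⁻¹) * (c : G)⁻¹) * ((c : G) * h) = s := by group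
      rw [this]; exact hs)
    apply hs1
    have h1 : s = ((c : G) * h)⁻¹ * ((c : G) * (h * s * h⁻¹) * (c : G)⁻¹) * ((c : G) * h) := by group
    rw [h1, this]; group
  -- c ∈ H = N ⟨r⟩, image of c normalizes Q
  have hcQ : QuotientGroup.mk' N (c : G) ∈ normalizer ((Q : Subgroup (G ⧸ N)) : Set (G ⧸ N)) := by
    apply le_normalizer
    have h1 : QuotientGroup.mk' N (c : G) ∈ zpowers (QuotientGroup.mk' N r) := c.2
    have h2 : zpowers (QuotientGroup.mk' N r) ≤ (Q : Subgroup (G ⧸ N)) := by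
      rw [zpowers_le, hQ]; exact mem_map_of_mem _ hr
    exact h2 h1
  have hchQ : QuotientGroup.mk' N ((c : G) * h) ∈ normalizer ((Q : Subgroup (G ⧸ N)) : Set (G ⧸ N)) := by
    rw [mem_normalizer_iff_map_conj_eq] at hch ⊢
    rw [hQ]
    conv_rhs => rw [← hch]
    rw [Subgroup.map_map, Subgroup.map_map]
    congr 1
  have := mul_mem (inv_mem hcQ) hchQ
  rwa [map_mul, inv_mul_cancel_left] at this

end Cfsg.Agent.S3984
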