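import Cfsg.Statements.S3985
import Cfsg.Agent.LibFgBas

set_option autoImplicit false
open scoped Pointwise
open Cfsg

namespace Cfsg.Agent.S3985

set_option linter.style.haveILetI false
set_option linter.unusedSectionVars false
set_option linter.unusedVariables false

open Subgroup CfsgLib.FgBas

/-- Let P be a cyclic Sylow p-subgroup of the finite group G. Then P meets each conjugate g P g⁻¹ with g outside N_G(P) trivially if and only if P is weakly self-centralizing: C_G(x) = C_G(P) for every non-identity x ∈ P. -/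
theorem result {G : Type*} [Group G] [Finite G] (p : ℕ) [Fact p.Prime] (P : Sylow p G) (hcyc : IsCyclic ↥(P : Subgroup G)) : (∀ g : G, g ∉ Subgroup.normalizer ((P : Subgroup G) : Set G) → (P : Subgroup G) ⊓ (MulAut.conj g • (P : Subgroup G)) = ⊥) ↔ ∀ x : G, x ∈ (P : Subgroup G) → x ≠ 1 → Subgroup.centralizer ({x} : Set G) = Subgroup.centralizer ((P : Subgroup G) : Set G) := by
  classical
  have hp := Fact.out (p := p.Prime)
  have hcomm : ∀ x ∈ (P : Subgroup G), ∀ y ∈ (P : Subgroup G), x * y = y * x := by
    intro x hx y hy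
    haveI := hcyc
    letI : CommGroup (P : Subgroup G) := IsCyclic.commGroup
    exact congrArg Subtype.val (mul_comm (⟨x, hx⟩ : (P : Subgroup G)) ⟨y, hy⟩)
  obtain ⟨a, ha⟩ := hcyc.exists_generator
  have ha' : ∀ x ∈ (P : Subgroup G), x ∈ zpowers (a : G) := by
    intro x hx
    obtain ⟨k, hk⟩ := mem_zpowers_iff.mp (ha ⟨x, hx⟩)
    exact mem_zpowers_iff.mpr ⟨k, congrArg Subtype.val hk⟩
  have haP : zpowers (a : G) = (P : Subgroup G) :=
    le_antisymm (zpowers_le.mpr a.2) (fun x hx => ha' x hx)
  constructor
  · intro hTI x hx hx1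
    apply le_antisymm
    · intro g hg
      rw [CfsgLib.FgClass.mem_centralizer_singleton] at hg
      -- g normalizes P
      have hgN : g ∈ normalizer ((P : Subgroup G) : Set G) := by
        by_contra hcon
        have h1 := hTI g hcon
        have h2 : x ∈ (P : Subgroup G) ⊓ (MulAut.conj g • (P : Subgroup G)) := by
          refine Subgroup.mem_inf.mpr ⟨hx, ?_⟩
          rw [mem_pointwise_smul_iff_inv_smul_mem, ← map_inv, MulAut.smul_def, MulAut.conj_apply, inv_inv]
          have : g⁻¹ * x * g = x := by rw [mul_assoc, ← hg, inv_mul_cancel_left]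
          rw [this]; exact hx
        rw [h1, mem_bot] at h2
        exact hx1 h2
      obtain ⟨u, v, hu, hv, huv, hvu, hk, hvp⟩ := CfsgLib.FgElt.exists_p_decomp hp g
      have huN : u ∈ normalizer ((P : Subgroup G) : Set G) := (zpowers_le.mpr hgN) hu
      have hvN : v ∈ normalizer ((P : Subgroup G) : Set G) := (zpowers_le.mpr hgN) hv
      have hvx : v * x = x * v := CfsgLib.FgElt.commute_of_mem_zpowers hv hg
      have huP : u ∈ (P : Subgroup G) := mem_of_mem_normalizer P hk huN
      have huC : u ∈ centralizer ((P : Subgroup G) : Set G) := by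
        rw [mem_centralizer_iff]
        intro y hy; exact hcomm y hy u huP
      have hvC : v ∈ centralizer ((P : Subgroup G) : Set G) := by
        -- v a v⁻¹ = a ^ k
        rw [← haP] at hvN
        obtain ⟨k, hk⟩ := exists_pow_of_mem_normalizer hvN
        -- x = a ^ j
        obtain ⟨n, hn⟩ := orderOf_eq_pow P.isPGroup' a.2
        obtain ⟨j, hj⟩ : ∃ j : ℕ, (a : G) ^ j = x := by
          have := ha' x hx
          rw [mem_zpowers_iff_mem_range_orderOf] at this
          obtain ⟨j, -, hj⟩ := Finset.mem_image.mp this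
          exact ⟨j, hj⟩
        -- a^(jk) = a^j
        have h1 : (a : G) ^ (k * j) = (a : G) ^ j := by
          rw [pow_mul, ← hk, conj_pow, hj, hvx, mul_inv_cancel_right]
        rw [pow_eq_pow_iff_modEq, hn] at h1
        -- k ≡ 1 mod p
        have hk1 : k ≡ 1 [MOD p] := by
          have h2 : (p : ℤ) ^ n ∣ ((k : ℤ) - 1) * j := by
            have h3 := (Nat.modEq_iff_dvd.mp h1.symm)
            push_cast at h3
            have h4 : ((k : ℤ) * j - j) = ((k : ℤ) - 1) * j := by ring
            rwa [h4] at h3
          rw [Nat.ModEq.comm, Nat.modEq_iff_dvd]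
          push_cast
          by_contra hnd
          have h5 : IsCoprime ((p : ℤ) ^ n) ((k : ℤ) - 1) :=
            ((Nat.prime_iff_prime_int.mp hp).coprime_iff_not_dvd.mpr hnd).pow_left
          have h6 : (p : ℤ) ^ n ∣ (j : ℤ) := h5.dvd_of_dvd_mul_left h2
          apply hx1
          rw [← hj]
          apply orderOf_dvd_iff_pow_eq_one.mp
          rw [hn]; exact_mod_cast h6
        -- k^(p^n) ≡ 1 mod p^(n+1)
        have h7 : k ^ (p ^ n) ≡ 1 [MOD p ^ n] := by
          have h8 : ∀ m : ℕ, k ^ (p ^ m) ≡ 1 [MOD p ^ (m + 1)] := by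
            intro m
            rw [Nat.ModEq.comm, Nat.modEq_iff_dvd] at hk1 ⊢
            push_cast at hk1 ⊢
            have := dvd_sub_pow_of_dvd_sub hk1 m
            rwa [one_pow] at this
          exact (h8 n).of_dvd (pow_dvd_pow p (by omega))
        have h9 := conj_pow_eq hk (p ^ n)
        have h10 : (a : G) ^ (k ^ (p ^ n)) = a := by
          conv_rhs => rw [← pow_one (a : G)]
          rw [pow_eq_pow_iff_modEq, hn]; exact h7
        rw [h10] at h9
        have h11 : v ^ (p ^ n) ∈ centralizer ((P : Subgroup G) : Set G) := by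
          rw [mem_centralizer_iff]
          intro y hy
          have h12 : v ^ (p ^ n) * a = a * v ^ (p ^ n) := mul_inv_eq_iff_eq_mul.mp h9
          exact CfsgLib.FgElt.commute_of_mem_zpowers (ha' y hy) h12.symm
        exact mem_of_pow_mem h11 (Nat.Coprime.pow_right _ hvp)
      rw [← huv]; exact mul_mem huC hvC
    · exact centralizer_le (Set.singleton_subset_iff.mpr hx)
  · intro h g hg
    by_contra hne
    apply hg
    obtain ⟨x, hx⟩ := Subgroup.ne_bot_iff_exists_ne_one.mp hne
    obtain ⟨hx1, hx2⟩ := Subgroup.mem_inf.mp x.2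
    rw [mem_pointwise_smul_iff_inv_smul_mem, ← map_inv, MulAut.smul_def, MulAut.conj_apply, inv_inv] at hx2
    have hx0 : (x : G) ≠ 1 := fun h => hx (Subtype.ext h)
    have h1 := h _ hx1 hx0
    have h2 := h _ hx2 (by
      intro h3
      apply hx0
      have : (x : G) = g * (g⁻¹ * x * g) * g⁻¹ := by group
      rw [this, h3]; group)
    -- C(P) is normalized by g
    have h3 : ∀ y, y ∈ centralizer ((P : Subgroup G) : Set G) → g⁻¹ * y * g ∈ centralizer ((P : Subgroup G) : Set G) := by
      intro y hy
      rw [← h2, CfsgLib.FgClass.mem_centralizer_singleton]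
      rw [← h1, CfsgLib.FgClass.mem_centralizer_singleton] at hy
      calc g⁻¹ * y * g * (g⁻¹ * x * g) = g⁻¹ * (y * x) * g := by group
        _ = g⁻¹ * (x * y) * g := by rw [hy]
        _ = _ := by group
    -- so g⁻¹ P g centralizes P; hence is contained in P
    have h4 : ∀ y ∈ (P : Subgroup G), g⁻¹ * y * g ∈ (P : Subgroup G) := by
      intro y hy
      have hyC : y ∈ centralizer ((P : Subgroup G) : Set G) := by
        rw [mem_centralizer_iff]
        intro z hz; exact hcomm z hz y hy
      have h5 := h3 y hyC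
      apply mem_of_mem_normalizer P
      · obtain ⟨k, hk⟩ := orderOf_eq_pow P.isPGroup' hy
        refine ⟨k, ?_⟩
        rw [← hk]
        have := orderOf_conj g⁻¹ y
        rwa [inv_inv] at this
      · exact centralizer_le_normalizer _ h5
    have h6 : g⁻¹ ∈ normalizer ((P : Subgroup G) : Set G) := by
      rw [mem_normalizer_iff_map_conj_eq]
      apply Subgroup.eq_of_le_of_card_ge
      · rintro _ ⟨y, hy, rfl⟩
        have := h4 y hy
        change g⁻¹ * y * g⁻¹⁻¹ ∈ _
        rwa [inv_inv]
      · rw [card_map_of_injective (MulAut.conj g⁻¹).injective]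
    have := inv_mem h6
    rwa [inv_inv] at this

end Cfsg.Agent.S3985
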