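import Cfsg.Statements.S3986
import Cfsg.Agent.LibFgBas2

set_option autoImplicit false
open Cfsg

namespace Cfsg.Agent.S3986

set_option linter.style.haveILetI false
set_option linter.unusedSectionVars false
set_option linter.unusedVariables false

open Subgroup CfsgLib.FgBas

/-- Let p be a prime and G a finite group. Then some Sylow p-subgroup of G is a direct factor of G (it is normal and has a normal complement) if and only if every element of p-power order commutes with every element whose order is a power of a prime other than p. -/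
theorem result {G : Type*} [Group G] [Finite G] (p : ℕ) [Fact p.Prime] : (∃ (P : Sylow p G) (K : Subgroup G), (P : Subgroup G).Normal ∧ K.Normal ∧ (P : Subgroup G) ⊓ K = ⊥ ∧ (P : Subgroup G) ⊔ K = ⊤) ↔ ∀ x y : G, (∃ a : ℕ, orderOf x = p ^ a) → (∃ q b : ℕ, q.Prime ∧ q ≠ p ∧ orderOf y = q ^ b) → x * y = y * x := by
  classical
  have hp := Fact.out (p := p.Prime)
  constructor
  · rintro ⟨P, K, hPn, hKn, hinf, hsup⟩ x y hx ⟨q, b, hq, hqp, hy⟩
    have hxP := mem_of_normal P hPn hx
    have hcomp : IsComplement' (P : Subgroup G) K := isComplement'_of_disjoint_and_mul_eq_univ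
      (disjoint_iff.mpr hinf) (by rw [← Subgroup.mul_normal, hsup]; rfl)
    have hidx : K.index = Nat.card P := hcomp.index_eq_card
    obtain ⟨n, hn⟩ := IsPGroup.iff_card.mp P.isPGroup'
    have hyK : y ∈ K := by
      have h1 : y ^ K.index ∈ K := Subgroup.pow_index_mem K y
      rw [hidx, hn] at h1
      refine mem_of_pow_mem h1 ?_
      rw [hy]
      exact Nat.Coprime.pow _ _ ((Nat.coprime_primes hq hp).mpr hqp)
    exact (commute_of_normal_of_disjoint (P : Subgroup G) K hPn hKn (disjoint_iff.mpr hinf) x y hxP hyK).eq
  · intro h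
    obtain ⟨P⟩ := (inferInstance : Nonempty (Sylow p G))
    have hPn : (P : Subgroup G).Normal := by
      rw [← normalizer_eq_top_iff]
      -- every Sylow subgroup lies in the normalizer
      apply CfsgLib.FgBas.eq_top_of_sylow
      intro q hq Q
      by_cases hqp : q = p
      · subst hqp
        refine ⟨P, le_normalizer⟩
      · refine ⟨Q, fun y hy => ?_⟩
        obtain ⟨b, hb⟩ := orderOf_eq_pow Q.isPGroup' hy
        apply centralizer_le_normalizer
        rw [mem_centralizer_iff]
        intro x hx
        exact h x y (orderOf_eq_pow P.isPGroup' hx) ⟨q, b, hq.out, hqp, hb⟩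
    obtain ⟨K, hK⟩ := Subgroup.exists_right_complement'_of_coprime (N := (P : Subgroup G)) (by
      have := P.card_coprime_index
      exact this)
    have hKc : ∀ x ∈ (P : Subgroup G), ∀ y ∈ K, x * y = y * x := by
      intro x hx
      suffices K ≤ centralizer ({x} : Set G) by
        intro y hy
        exact (CfsgLib.FgClass.mem_centralizer_singleton.mp (this hy)).symm
      apply CfsgLib.FgBas.le_of_forall_primePow
      intro y hy q b hq hb
      rw [CfsgLib.FgClass.mem_centralizer_singleton]
      symm
      by_cases hqp : q = p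
      · subst hqp
        -- y ∈ P ⊓ K
        have h1 : y ∈ (P : Subgroup G) := mem_of_normal P hPn ⟨b, hb⟩
        have h2 : y = 1 := by
          have : y ∈ (P : Subgroup G) ⊓ K := ⟨h1, hy⟩
          rwa [(disjoint_iff.mp hK.disjoint), mem_bot] at this
        rw [h2]; group
      · exact h x y (orderOf_eq_pow P.isPGroup' hx) ⟨q, b, hq, hqp, hb⟩
    have hsup : (P : Subgroup G) ⊔ K = ⊤ := hK.sup_eq_top
    refine ⟨P, K, hPn, ?_, disjoint_iff.mp hK.disjoint, hsup⟩
    rw [← normalizer_eq_top_iff, eq_top_iff, ← hsup]
    refine sup_le (fun x hx => ?_) le_normalizer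
    apply centralizer_le_normalizer
    rw [mem_centralizer_iff]
    intro y hy
    exact (hKc x hx y hy).symm

end Cfsg.Agent.S3986
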