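import Cfsg.Statements.S3987
import Cfsg.Agent.S3986

set_option autoImplicit false
open Cfsg

namespace Cfsg.Agent.S3987

set_option linter.style.haveILetI false
set_option linter.unusedSectionVars false
set_option linter.unusedVariables false

open Subgroup CfsgLib.FgBas

/-- Let p be a prime and G a finite group. Then some Sylow p-subgroup of G is a direct factor of G (normal with a normal complement) if and only if for every element x of p-power order and every element y whose order is a power of a prime other than p, the conjugacy class of x y has as many elements as the product of the sizes of the classes of x and of y. -/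
theorem result {G : Type*} [Group G] [Finite G] (p : ℕ) [Fact p.Prime] : (∃ (P : Sylow p G) (K : Subgroup G), (P : Subgroup G).Normal ∧ K.Normal ∧ (P : Subgroup G) ⊓ K = ⊥ ∧ (P : Subgroup G) ⊔ K = ⊤) ↔ ∀ x y : G, (∃ a : ℕ, orderOf x = p ^ a) → (∃ q b : ℕ, q.Prime ∧ q ≠ p ∧ orderOf y = q ^ b) → (Subgroup.centralizer ({x * y} : Set G)).index = (Subgroup.centralizer ({x} : Set G)).index * (Subgroup.centralizer ({y} : Set G)).index := by
  classical
  have hp := Fact.out (p := p.Prime)
  constructor
  · rintro hex x y hx hy
    have hxy := (Cfsg.Agent.S3986.result p (G := G)).mp hex x y hx hy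
    obtain ⟨P, K, hPn, hKn, hinf, hsup⟩ := hex
    obtain ⟨q, b, hq, hqp, hyb⟩ := hy
    have hxP := mem_of_normal P hPn hx
    have hcomp : IsComplement' (P : Subgroup G) K := isComplement'_of_disjoint_and_mul_eq_univ
      (disjoint_iff.mpr hinf) (by rw [← Subgroup.mul_normal, hsup]; rfl)
    have hidx : K.index = Nat.card P := hcomp.index_eq_card
    have hidx' : (P : Subgroup G).index = Nat.card K := hcomp.symm.index_eq_card
    obtain ⟨n, hn⟩ := IsPGroup.iff_card.mp P.isPGroup'
    have hcomm := commute_of_normal_of_disjoint (P : Subgroup G) K hPn hKn (disjoint_iff.mpr hinf)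
    have hyK : y ∈ K := by
      have h1 : y ^ K.index ∈ K := Subgroup.pow_index_mem K y
      rw [hidx, hn] at h1
      refine mem_of_pow_mem h1 ?_
      rw [hyb]
      exact Nat.Coprime.pow _ _ ((Nat.coprime_primes hq hp).mpr hqp)
    -- index of C(x) divides |P|, of C(y) divides |K|
    have h1 : (centralizer ({x} : Set G)).index ∣ Nat.card P := by
      rw [← hidx]
      apply index_dvd_of_le
      intro k hk
      rw [CfsgLib.FgClass.mem_centralizer_singleton]
      exact (hcomm x k hxP hk).eq.symm
    have h2 : (centralizer ({y} : Set G)).index ∣ Nat.card K := by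
      rw [← hidx']
      apply index_dvd_of_le
      intro k hk
      rw [CfsgLib.FgClass.mem_centralizer_singleton]
      exact (hcomm k y hk hyK).eq
    have h3 : (centralizer ({x * y} : Set G)) = centralizer ({x} : Set G) ⊓ centralizer ({y} : Set G) := by
      apply le_antisymm
      · intro g hg
        rw [CfsgLib.FgClass.mem_centralizer_singleton] at hg
        -- x and y are powers of x y; use orders coprime
        have hco : (orderOf x).Coprime (orderOf y) := by
          obtain ⟨a, ha⟩ := hx
          rw [ha, hyb]
          exact Nat.Coprime.pow _ _ ((Nat.coprime_primes hp hq).mpr (Ne.symm hqp))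
        obtain ⟨k, hk1, hk2⟩ := Nat.chineseRemainder hco 1 0
        have h4 : (x * y) ^ k = x := by
          have : Commute x y := hxy
          rw [this.mul_pow]
          have e1 : x ^ k = x := by
            conv_rhs => rw [← pow_one x]
            exact pow_eq_pow_iff_modEq.mpr hk1
          have e2 : y ^ k = 1 := by
            rw [← pow_zero y]
            exact pow_eq_pow_iff_modEq.mpr hk2
          rw [e1, e2, mul_one]
        have h5 : Commute g x := by
          rw [← h4]; exact (show Commute g (x * y) from hg).pow_right k
        have h6 : Commute g y := by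
          have : y = x⁻¹ * (x * y) := by group
          rw [this]; exact h5.inv_right.mul_right hg
        exact Subgroup.mem_inf.mpr ⟨CfsgLib.FgClass.mem_centralizer_singleton.mpr h5.eq, CfsgLib.FgClass.mem_centralizer_singleton.mpr h6.eq⟩
      · intro g hg
        obtain ⟨hg1, hg2⟩ := Subgroup.mem_inf.mp hg
        rw [CfsgLib.FgClass.mem_centralizer_singleton] at hg1 hg2 ⊢
        rw [← mul_assoc, hg1, mul_assoc, hg2, mul_assoc]
    rw [h3]
    apply Nat.dvd_antisymm
    · have h7 := index_inf_le (H := centralizer ({x} : Set G)) (K := centralizer ({y} : Set G))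
      -- equality via coprimality
      have h8 : (centralizer ({x} : Set G)).index * (centralizer ({y} : Set G)).index ∣
          (centralizer ({x} : Set G) ⊓ centralizer ({y} : Set G)).index := by
        apply Nat.Coprime.mul_dvd_of_dvd_of_dvd
        · have hc : (Nat.card P).Coprime (Nat.card K) := by
            rw [← hidx']; exact P.card_coprime_index
          exact Nat.Coprime.coprime_dvd_left h1 (Nat.Coprime.coprime_dvd_right h2 hc)
        · exact index_dvd_of_le inf_le_left
        · exact index_dvd_of_le inf_le_right
      have h9 : 0 < (centralizer ({x} : Set G) ⊓ centralizer ({y} : Set G)).index := Nat.pos_of_ne_zero index_ne_zero_of_finite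
      rw [Nat.le_antisymm h7 (Nat.le_of_dvd h9 h8)]
    · apply Nat.Coprime.mul_dvd_of_dvd_of_dvd
      · have hc : (Nat.card P).Coprime (Nat.card K) := by
          rw [← hidx']; exact P.card_coprime_index
        exact Nat.Coprime.coprime_dvd_left h1 (Nat.Coprime.coprime_dvd_right h2 hc)
      · exact index_dvd_of_le inf_le_left
      · exact index_dvd_of_le inf_le_right
  · intro h
    apply (Cfsg.Agent.S3986.result p (G := G)).mpr
    intro x y hx hy
    have hidx := h x y hx hy
    -- the map of pairs
    let X : Set G := (ConjClasses.mk x).carrier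
    let Y : Set G := (ConjClasses.mk y).carrier
    have mcar : ∀ a b : G, b ∈ (ConjClasses.mk a).carrier ↔ IsConj a b := by
      intro a b
      rw [ConjClasses.mem_carrier_iff_mk_eq, ConjClasses.mk_eq_mk_iff_isConj]
      exact isConj_comm
    have hXc : X.ncard = (centralizer ({x} : Set G)).index := CfsgLib.FgClass.ncard_carrier x
    have hYc : Y.ncard = (centralizer ({y} : Set G)).index := CfsgLib.FgClass.ncard_carrier y
    have hZc : (ConjClasses.mk (x * y)).carrier.ncard = (centralizer ({x * y} : Set G)).index :=
      CfsgLib.FgClass.ncard_carrier (x * y)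
    let μ : G × G → G := fun a => a.1 * a.2
    have hsub : (ConjClasses.mk (x * y)).carrier ⊆ μ '' (X ×ˢ Y) := by
      intro z hz
      obtain ⟨g, hg⟩ := isConj_iff.mp ((mcar _ _).mp hz)
      refine ⟨(g * x * g⁻¹, g * y * g⁻¹), ⟨(mcar _ _).mpr (isConj_iff.mpr ⟨g, rfl⟩), (mcar _ _).mpr (isConj_iff.mpr ⟨g, rfl⟩)⟩, ?_⟩
      change (g * x * g⁻¹) * (g * y * g⁻¹) = z
      rw [← hg]; group
    have hinj : Set.InjOn μ (X ×ˢ Y) := by
      rw [← Set.ncard_image_iff (Set.toFinite _)]
      apply le_antisymm (Set.ncard_image_le (Set.toFinite _))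
      rw [Set.ncard_prod, hXc, hYc, ← hidx, ← hZc]
      exact Set.ncard_le_ncard hsub (Set.toFinite _)
    -- conjugate by g = x * y
    have h1 : ((x, y) : G × G) = ((x * y) * x * (x * y)⁻¹, (x * y) * y * (x * y)⁻¹) :=
      hinj ⟨(mcar _ _).mpr (IsConj.refl x), (mcar _ _).mpr (IsConj.refl y)⟩
        ⟨(mcar _ _).mpr (isConj_iff.mpr ⟨x * y, rfl⟩), (mcar _ _).mpr (isConj_iff.mpr ⟨x * y, rfl⟩)⟩
        (by change x * y = ((x * y) * x * (x * y)⁻¹) * ((x * y) * y * (x * y)⁻¹); group)
    have h2 : x = (x * y) * x * (x * y)⁻¹ := congrArg Prod.fst h1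
    have h3 : x * (x * y) = x * (y * x) := by
      have h4 : x * (x * y) = (x * y) * x := by
        nth_rewrite 1 [h2]; group
      rw [h4, mul_assoc]
    exact mul_left_cancel h3

end Cfsg.Agent.S3987
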