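import Cfsg.Statements.S4010
import Cfsg.Agent.LibFgDL2

set_option autoImplicit false
open Cfsg

namespace Cfsg.Agent.S4010

set_option linter.style.haveILetI false
set_option linter.unusedSectionVars false
set_option linter.unusedVariables false

/-- Let F be a field, n ≥ 1, and P a finite p-group (p a prime) admitting an injective homomorphism into the general linear group of degree n over F. Then the derived length of P is at most ⌊log₂ n⌋ + 1: that term of the derived series of P is trivial. -/
theorem result {P : Type*} [Group P] [Finite P] (p : ℕ) [Fact p.Prime] (hP : IsPGroup p P) (F : Type*) [Field F] (n : ℕ) (hn : 1 ≤ n) (ρ : P →* Matrix.GeneralLinearGroup (Fin n) F) (hρ : Function.Injective ρ) : derivedSeries P (Nat.log 2 n + 1) = ⊥ := by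
  classical
  have hp : p.Prime := Fact.out
  let K := AlgebraicClosure F
  -- pass to the algebraic closure
  let j : Matrix (Fin n) (Fin n) F →+* Matrix (Fin n) (Fin n) K := (algebraMap F K).mapMatrix
  have hj : Function.Injective j := by
    intro A B h
    ext a b
    have := congrFun (congrFun h a) b
    exact (algebraMap F K).injective this
  let σ : P →* Module.End K (Fin n → K) :=
    ((Matrix.toLinAlgEquiv' : Matrix (Fin n) (Fin n) K ≃ₐ[K] _).toAlgHom.toRingHom.toMonoidHom.comp j.toMonoidHom).comp
      ((Units.coeHom (Matrix (Fin n) (Fin n) F)).comp ρ)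
  have hσ : Function.Injective σ := by
    intro a b h
    apply hρ
    apply Units.ext
    apply hj
    exact (Matrix.toLinAlgEquiv' : Matrix (Fin n) (Fin n) K ≃ₐ[K] _).injective h
  have hdim : Module.finrank K (Fin n → K) = n := by simp
  rw [eq_bot_iff]
  intro g hg
  rw [Subgroup.mem_bot]
  apply hσ
  rw [map_one]
  by_cases hpK : (p : K) = 0
  · haveI : CharP K p := by
      obtain ⟨q, hq⟩ := CharP.exists K
      have h1 := (CharP.cast_eq_zero_iff K q p).mp hpK
      rcases (Nat.dvd_prime hp).mp h1 with h2 | h2
      · exact absurd h2 (CharP.char_ne_one K q)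
      · rw [← h2]; exact hq
    refine CfsgLib.FgDL.main2 p K n P hP (Fin n → K) σ hdim hn g (derivedSeries_antitone P ?_ hg)
    rw [Nat.clog_le_iff_le_pow (by norm_num)]
    exact (Nat.lt_pow_succ_log_self (by norm_num) n).le
  · exact CfsgLib.FgDL.main1 p K hpK n P hP (Fin n → K) σ hdim g hg

end Cfsg.Agent.S4010
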