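import Cfsg.Statements.S4013
import Cfsg.Agent.LibFgBas

set_option autoImplicit false
open Cfsg

namespace Cfsg.Agent.S4013

set_option linter.style.haveILetI false
set_option linter.unusedSectionVars false
set_option linter.unusedVariables false

open Subgroup

/-- Let G be a finite p-group (p prime) and N < M normal subgroups of G such that for some g ∈ M ∖ N the conjugacy class of g is exactly M ∖ N. Then p = 2 and N has index 2 in M. -/
theorem result {G : Type*} [Group G] [Finite G] (p : ℕ) [Fact p.Prime] (hG : IsPGroup p G) (N M : Subgroup G) [N.Normal] [M.Normal] (hNM : N < M) (g : G) (hgM : g ∈ M) (hgN : g ∉ N) (hcl : {h : G | IsConj g h} = (M : Set G) \ (N : Set G)) : p = 2 ∧ N.relIndex M = 2 := by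
  classical
  have hp := Fact.out (p := p.Prime)
  have h0 : (ConjClasses.mk g).carrier = {h : G | IsConj g h} := by
    ext x
    rw [ConjClasses.mem_carrier_iff_mk_eq, ConjClasses.mk_eq_mk_iff_isConj, Set.mem_setOf_eq]
    exact isConj_comm
  have h1 := CfsgLib.FgClass.ncard_carrier g
  rw [h0, hcl, Set.ncard_diff (by exact hNM.le) (Set.toFinite _)] at h1
  have hM : (M : Set G).ncard = Nat.card M := (Nat.card_coe_set_eq _).symm
  have hN : (N : Set G).ncard = Nat.card N := (Nat.card_coe_set_eq _).symm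
  rw [hM, hN] at h1
  obtain ⟨b, hb⟩ := IsPGroup.iff_card.mp (hG.to_subgroup M)
  obtain ⟨a, ha⟩ := IsPGroup.iff_card.mp (hG.to_subgroup N)
  obtain ⟨n, hn⟩ := IsPGroup.iff_card.mp hG
  obtain ⟨c, -, hc⟩ := (Nat.dvd_prime_pow hp).mp (hn ▸ Subgroup.index_dvd_card (Subgroup.centralizer ({g} : Set G)))
  have hlt : Nat.card N < Nat.card M := by
    have := Set.ncard_lt_ncard (s := (N : Set G)) (t := (M : Set G)) (by exact hNM) (Set.toFinite _)
    rwa [hM, hN] at this
  rw [hb, ha, hc] at h1
  rw [ha, hb] at hlt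
  have hab : a < b := (Nat.pow_lt_pow_iff_right hp.one_lt).mp hlt
  have h2 : p ^ b = p ^ a + p ^ c := by omega
  have hca : c = a := by
    rcases lt_trichotomy c a with h | h | h
    · exfalso
      have h3 : p ^ (c + 1) ∣ p ^ c := by
        have h4 : p ^ (c + 1) ∣ p ^ a + p ^ c := h2 ▸ pow_dvd_pow p (by omega)
        exact (Nat.dvd_add_right (pow_dvd_pow p (by omega))).mp h4
      have := (Nat.pow_dvd_pow_iff_le_right hp.one_lt).mp h3
      omega
    · exact h
    · exfalso
      have h3 : p ^ (a + 1) ∣ p ^ a := by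
        have h4 : p ^ (a + 1) ∣ p ^ a + p ^ c := h2 ▸ pow_dvd_pow p (by omega)
        exact (Nat.dvd_add_left (pow_dvd_pow p (by omega))).mp h4
      have := (Nat.pow_dvd_pow_iff_le_right hp.one_lt).mp h3
      omega
  subst hca
  obtain ⟨d, rfl⟩ : ∃ d, b = c + (d + 1) := ⟨b - c - 1, by omega⟩
  have h5 : p ^ (d + 1) = 2 := by
    rw [pow_add] at h2
    have h6 : 0 < p ^ c := pow_pos hp.pos c
    nlinarith
  have h7 : p ∣ 2 := by rw [← h5]; exact dvd_pow_self p (by omega)
  have hp2 : p = 2 := (Nat.prime_dvd_prime_iff_eq hp Nat.prime_two).mp h7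
  refine ⟨hp2, ?_⟩
  have h8 := Subgroup.relIndex_mul_relIndex ⊥ N M bot_le hNM.le
  rw [Subgroup.relIndex_bot_left, Subgroup.relIndex_bot_left, ha, hb, pow_add, h5] at h8
  exact Nat.eq_of_mul_eq_mul_left (pow_pos hp.pos c) h8

end Cfsg.Agent.S4013
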