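import Cfsg.Statements.S4014
import Cfsg.Agent.LibH22Wr6

set_option autoImplicit false
open Cfsg

namespace Cfsg.Agent.S4014
open CfsgLib.H22Wr

/-- Let p be a prime, n ≥ 1, and P a Sylow p-subgroup of the symmetric group on n letters. Then the derived length of P is exactly k = ⌊log_p n⌋ (the largest k with p^k ≤ n): the k-th derived subgroup of P is trivial and, when k ≥ 1, the (k−1)-st is not. -/
theorem result (p : ℕ) [Fact p.Prime] (n : ℕ) (hn : 1 ≤ n) (P : Sylow p (Equiv.Perm (Fin n))) : derivedSeries ↥(P : Subgroup (Equiv.Perm (Fin n))) (Nat.log p n) = ⊥ ∧ (1 ≤ Nat.log p n → derivedSeries ↥(P : Subgroup (Equiv.Perm (Fin n))) (Nat.log p n - 1) ≠ ⊥) := by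
  constructor
  · rw [derivedSeries_eq_bot_iff]
    exact perm_ddn (by omega) _ P.isPGroup'
  · intro hlog
    obtain ⟨κ, hκ, H, hc, hH, hd⟩ := existsP p (Nat.log p n - 1)
    rw [Nat.sub_add_cancel hlog] at hc
    have hle : Nat.card κ ≤ Nat.card (Fin n) := by
      rw [hc, Nat.card_eq_fintype_card, Fintype.card_fin]
      exact Nat.pow_log_le_self p (by omega)
    obtain ⟨ι⟩ : Nonempty (κ ↪ Fin n) := by
      haveI := Fintype.ofFinite κ
      rw [Nat.card_eq_fintype_card, Nat.card_eq_fintype_card] at hle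
      exact Function.Embedding.nonempty_of_card_le hle
    have hinj : Function.Injective (Equiv.Perm.viaEmbeddingHom ι) := Equiv.Perm.viaEmbeddingHom_injective ι
    have hH' : IsPGroup p (H.map (Equiv.Perm.viaEmbeddingHom ι)) := hH.map _
    obtain ⟨R', hR'⟩ := hH'.exists_le_sylow
    intro hcon
    apply hd
    have h2 : dd^[Nat.log p n - 1] (R' : Subgroup (Equiv.Perm (Fin n))) = ⊥ := by
      rw [derivedSeries_eq] at hcon
      have e := P.equiv R'
      have h3 : (dd^[Nat.log p n - 1] (⊤ : Subgroup (P : Subgroup (Equiv.Perm (Fin n))))).map e.toMonoidHom = dd^[Nat.log p n - 1] (⊤ : Subgroup (R' : Subgroup (Equiv.Perm (Fin n)))) := by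
        rw [ddn_map, Subgroup.map_top_of_surjective _ e.surjective]
      rw [hcon, Subgroup.map_bot] at h3
      exact (ddn_top_sub6 _ _).mp h3.symm
    have h1 := ddn_mono hR' (Nat.log p n - 1)
    rw [h2, ← ddn_map, le_bot_iff, Subgroup.map_eq_bot_iff_of_injective _ hinj] at h1
    exact h1

end Cfsg.Agent.S4014
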