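import Cfsg.Statements.S4022
import Cfsg.Agent.LibFgCQ
import Cfsg.Agent.LibFgFpf2

set_option autoImplicit false
open Cfsg

namespace Cfsg.Agent.S4022

set_option linter.style.haveILetI false
set_option linter.unusedSectionVars false
set_option linter.unusedVariables false

open CfsgLib.FgCQ CfsgLib.Cores

universe u

/-- all `q`-subgroups are cyclic -/
def Cyc (q : ℕ) (X : Type u) [Group X] : Prop := ∀ Q : Subgroup X, IsPGroup q Q → IsCyclic Q

theorem Cyc.quot {X : Type u} [Group X] [Finite X] {q : ℕ} [Fact q.Prime] (h : Cyc q X) (N : Subgroup X) [N.Normal] :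
    Cyc q (X ⧸ N) := by
  intro Q hQ
  obtain ⟨R, hR, hRQ, _⟩ := exists_lift hQ
  have := h R hR
  rw [← hRQ]
  exact isCyclic_of_surjective ((QuotientGroup.mk' N).subgroupMap R) (MonoidHom.subgroupMap_surjective _ R)

theorem Cyc.sub {X : Type u} [Group X] [Finite X] {q : ℕ} (h : Cyc q X) (L : Subgroup X) : Cyc q L := by
  intro Q hQ
  have := h (Q.map L.subtype) (hQ.map _)
  exact isCyclic_of_surjective (Q.equivMapOfInjective _ L.subtype_injective).symm (MulEquiv.surjective _)

theorem Cyc.of_sylow {X : Type u} [Group X] [Finite X] {q : ℕ} (h : ∀ P : Sylow q X, IsCyclic P) : Cyc q X := by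
  intro Q hQ
  obtain ⟨P, hP⟩ := hQ.exists_le_sylow
  have := h P
  exact isCyclic_of_injective (Subgroup.inclusion hP) (Subgroup.inclusion_injective hP)

theorem Cyc.le_of_normal {X : Type u} [Group X] [Finite X] {q : ℕ} [hq : Fact q.Prime] (h : Cyc q X)
    {N H : Subgroup X} [N.Normal] (hN : Nat.card N = q) (hH : q ∣ Nat.card H) : N ≤ H := by
  obtain ⟨x, hx⟩ := exists_prime_orderOf_dvd_card' q hH
  have hx' : orderOf (x : X) = q := by rw [Subgroup.orderOf_coe]; exact hx
  have hNp : IsPGroup q N := IsPGroup.of_card (n := 1) (by rw [hN, pow_one])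
  have hxp : IsPGroup q (Subgroup.zpowers (x : X)) := IsPGroup.of_card (n := 1) (by rw [Nat.card_zpowers, hx', pow_one])
  obtain ⟨P, hP⟩ := hxp.exists_le_sylow
  have hNP : N ≤ P := normal_le_sylow inferInstance hNp P
  have hPc := h P P.2
  have h2 : N = Subgroup.zpowers (x : X) := eq_of_card_of_le_cyclic hPc hNP hP (by rw [hN, Nat.card_zpowers, hx'])
  rw [h2, Subgroup.zpowers_le]
  exact x.2

/-- solvable groups: subgroups of equal order with cyclic Sylow subgroups of the group at the relevant primes -/
theorem lemZ (π : ℕ → Prop) (n : ℕ) : ∀ (X : Type u) [Group X] [Finite X], Nat.card X = n → Group.IsSolvable X →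
    (∀ q : ℕ, q.Prime → π q → Cyc q X) → ∀ H K : Subgroup X, Nat.card H = Nat.card K →
    (∀ q : ℕ, q.Prime → q ∣ Nat.card H → π q) → CJ H K := by
  induction n using Nat.strong_induction_on with
  | _ n ih =>
    intro X _ _ hX hs hcyc H K hHK hπ
    rcases subsingleton_or_nontrivial X with hsub | hnt
    · have : H = K := by
        ext x
        rw [Subsingleton.elim x 1]
        exact ⟨fun _ => one_mem _, fun _ => one_mem _⟩
      rw [this]; exact CJ.refl K
    · have htop : (⊤ : Subgroup X) ≠ ⊥ := top_ne_bot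
      obtain ⟨N, hNn, _, hN0, hmin⟩ := exists_minimal_normal (⊤ : Subgroup X) htop
      have hNs : Group.IsSolvable N := inferInstance
      obtain ⟨p, hp, hNc, hNe, hNp⟩ := minimal_normal_elementary N hN0 hmin hNs
      have hpf : Fact p.Prime := ⟨hp⟩
      have hlt : Nat.card (X ⧸ N) < n := by
        rw [← hX, N.card_eq_card_quotient_mul_card_subgroup]
        exact lt_mul_of_one_lt_right Nat.card_pos (Finite.one_lt_card_iff_nontrivial.mpr ((Subgroup.nontrivial_iff_ne_bot N).mpr hN0))
      have hcyc' : ∀ q : ℕ, q.Prime → π q → Cyc q (X ⧸ N) := by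
        intro q hq hπq
        have : Fact q.Prime := ⟨hq⟩
        exact (hcyc q hq hπq).quot N
      obtain ⟨k, hk⟩ := hNp.exists_card_eq
      have hk0 : k ≠ 0 := by
        intro h0
        apply hN0
        apply Subgroup.card_eq_one.mp
        rw [hk, h0, pow_zero]
      by_cases hpH : p ∣ Nat.card H
      · have hpc := hcyc p hp (hπ p hp hpH)
        have hNcy : IsCyclic N := hpc N hNp
        have hNcard : Nat.card N = p := by
          obtain ⟨x, hx⟩ := IsCyclic.exists_ofOrder_eq_natCard (α := N)
          have h1 : orderOf x ∣ p := orderOf_dvd_of_pow_eq_one (Subtype.ext (hNe x x.2))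
          rw [hx] at h1
          rcases (Nat.dvd_prime hp).mp h1 with h2 | h2
          · rw [hk] at h2
            exact absurd ((Nat.pow_eq_one.mp h2).resolve_left hp.one_lt.ne') hk0
          · exact h2
        have hNH : N ≤ H := hpc.le_of_normal hNcard hpH
        have hNK : N ≤ K := hpc.le_of_normal hNcard (hHK ▸ hpH)
        apply CJ.of_quot hNH hNK
        have hcH := card_map_mk_of_le hNH
        have hcK := card_map_mk_of_le hNK
        apply ih _ hlt (X ⧸ N) rfl inferInstance hcyc'
        · apply Nat.eq_of_mul_eq_mul_left (Nat.card_pos (α := N))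
          rw [hcH, hcK, hHK]
        · intro q hq hqd
          apply hπ q hq
          rw [← hcH]; exact hqd.mul_left _
      · have hcop : (Nat.card H).Coprime (Nat.card N) := by
          rw [hk]
          exact (((Nat.Prime.coprime_iff_not_dvd hp).mpr hpH).pow_left k).symm
        apply CJ.of_quot_coprime hNs hcop hHK
        have hcH := card_map_mk_of_coprime hcop
        have hcK := card_map_mk_of_coprime (hHK ▸ hcop)
        apply ih _ hlt (X ⧸ N) rfl inferInstance hcyc'
        · rw [hcH, hcK, hHK]
        · intro q hq hqd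
          apply hπ q hq
          rwa [hcH] at hqd

/-- the hypothesis (D) passes to quotients -/
theorem D_quot {X : Type u} [Group X] [Finite X] {p : ℕ} [Fact p.Prime]
    (hD : ∀ H K : Subgroup X, IsPGroup p H → IsPGroup p K → Nat.card H = Nat.card K → CJ H K)
    (N : Subgroup X) [N.Normal] :
    ∀ H K : Subgroup (X ⧸ N), IsPGroup p H → IsPGroup p K → Nat.card H = Nat.card K → CJ H K := by
  intro H K hH hK hHK
  obtain ⟨A, hA, hAH, hAc⟩ := exists_lift hH
  obtain ⟨B, hB, hBK, hBc⟩ := exists_lift hK
  rw [← hAH, ← hBK]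
  exact (hD A B hA hB (by rw [hAc, hBc, hHK])).map _

theorem card_inf_normal {X : Type u} [Group X] [Finite X] {p : ℕ} [hp : Fact p.Prime]
    (hD : ∀ H K : Subgroup X, IsPGroup p H → IsPGroup p K → Nat.card H = Nat.card K → CJ H K)
    {N : Subgroup X} [N.Normal] {k : ℕ} (hk : Nat.card N = p ^ k) (L : Subgroup X) (hL : ¬ p ^ k ∣ Nat.card L) :
    Nat.card (N ⊓ L : Subgroup X) = p ^ (Nat.card L).factorization p := by
  obtain ⟨S⟩ := (inferInstance : Nonempty (Sylow p L))
  set a := (Nat.card L).factorization p with ha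
  have hak : a < k := by
    by_contra hlt
    exact hL ((hp.out.pow_dvd_iff_le_factorization Nat.card_pos.ne').mpr (not_lt.mp hlt))
  have hS1 : Nat.card ((S : Subgroup L).map L.subtype) = p ^ a := by
    rw [Subgroup.card_map_of_injective L.subtype_injective, S.card_eq_multiplicity]
  obtain ⟨V, hV⟩ := Sylow.exists_subgroup_card_pow_prime p (G := N) (n := a) (by rw [hk]; exact pow_dvd_pow p hak.le)
  have hV1 : Nat.card (V.map N.subtype) = p ^ a := by
    rw [Subgroup.card_map_of_injective N.subtype_injective, hV]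
  have hSN : (S : Subgroup L).map L.subtype ≤ N := by
    obtain ⟨g, hg⟩ := hD (V.map N.subtype) ((S : Subgroup L).map L.subtype) (IsPGroup.of_card hV1) (IsPGroup.of_card hS1)
      (by rw [hV1, hS1])
    rw [hg]
    have h1 := Subgroup.map_mono (f := (MulAut.conj g).toMonoidHom) (Subgroup.map_subtype_le V)
    rwa [normal_map_conj N g] at h1
  have hle : (S : Subgroup L).map L.subtype ≤ N ⊓ L := le_inf hSN (Subgroup.map_subtype_le _)
  have hpg : IsPGroup p (N ⊓ L : Subgroup X) := (IsPGroup.of_card hk).to_le inf_le_left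
  obtain ⟨b, hb⟩ := hpg.exists_card_eq
  have h1 : p ^ a ∣ p ^ b := by
    rw [← hb, ← hS1]; exact Subgroup.card_dvd_of_le hle
  have h2 : p ^ b ∣ Nat.card L := by
    rw [← hb]; exact Subgroup.card_dvd_of_le inf_le_right
  have h3 : b ≤ a := (hp.out.pow_dvd_iff_le_factorization Nat.card_pos.ne').mp h2
  have h4 : a ≤ b := (Nat.pow_dvd_pow_iff_le_right hp.out.one_lt).mp h1
  rw [hb, le_antisymm h3 h4]

theorem caseC {X : Type u} [Group X] [Finite X] [Group.IsSolvable X] {p : ℕ} [hp : Fact p.Prime]
    (hcyc : ∀ q : ℕ, q.Prime → q ≠ p → Cyc q X) {N : Subgroup X} [N.Normal] {H K : Subgroup X}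
    (hHK : Nat.card H = Nat.card K) (hi : N ⊓ H = N ⊓ K)
    (hV : Nat.card (N ⊓ H : Subgroup X) = p ^ (Nat.card H).factorization p) : CJ H K := by
  set V := N ⊓ H with hVdef
  have hVH : V ≤ H := inf_le_right
  have hVK : V ≤ K := hi ▸ inf_le_right
  set L := Subgroup.normalizer (V : Set X) with hL
  have key : ∀ S : Subgroup X, V = N ⊓ S → S ≤ L := by
    intro S hS
    have hVS : V ≤ S := hS ▸ inf_le_right
    refine (Subgroup.normal_subgroupOf_iff_le_normalizer hVS).mp ?_
    rw [hS, Subgroup.inf_subgroupOf_right]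
    infer_instance
  have hHL : H ≤ L := key H rfl
  have hKL : K ≤ L := key K hi
  have hVL : V ≤ L := hVH.trans hHL
  have hVn : (V.subgroupOf L).Normal := Subgroup.normal_in_normalizer
  have hVcard : Nat.card (V.subgroupOf L) = Nat.card V := Nat.card_congr (Subgroup.subgroupOfEquivOfLe hVL).toEquiv
  have hHcard : Nat.card (H.subgroupOf L) = Nat.card H := Nat.card_congr (Subgroup.subgroupOfEquivOfLe hHL).toEquiv
  have hKcard : Nat.card (K.subgroupOf L) = Nat.card K := Nat.card_congr (Subgroup.subgroupOfEquivOfLe hKL).toEquiv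
  have hVH' : V.subgroupOf L ≤ H.subgroupOf L := Subgroup.comap_mono hVH
  have hVK' : V.subgroupOf L ≤ K.subgroupOf L := Subgroup.comap_mono hVK
  have hcH := card_map_mk_of_le hVH'
  have hcK := card_map_mk_of_le hVK'
  have h1 : CJ (H.subgroupOf L) (K.subgroupOf L) := by
    apply CJ.of_quot hVH' hVK'
    apply lemZ (fun q => q ≠ p) _ (L ⧸ V.subgroupOf L) rfl inferInstance
    · intro q hq hqp
      have : Fact q.Prime := ⟨hq⟩
      exact ((hcyc q hq hqp).sub L).quot _
    · apply Nat.eq_of_mul_eq_mul_left (Nat.card_pos (α := V.subgroupOf L))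
      rw [hcH, hcK, hHcard, hKcard, hHK]
    · intro q hq hqd hqp
      subst hqp
      rw [hVcard, hV, hHcard] at hcH
      have h2 : q ^ ((Nat.card H).factorization q + 1) ∣ Nat.card H := by
        conv_rhs => rw [← hcH]
        rw [pow_succ]
        exact Nat.mul_dvd_mul_left _ hqd
      have h3 := (hq.pow_dvd_iff_le_factorization Nat.card_pos.ne').mp h2
      omega
  have h2 := h1.map L.subtype
  rwa [Subgroup.map_subgroupOf_eq_of_le hHL, Subgroup.map_subgroupOf_eq_of_le hKL] at h2

theorem caseR {X : Type u} [Group X] [Finite X] [Group.IsSolvable X] {p : ℕ} [hp : Fact p.Prime]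
    (hD : ∀ H K : Subgroup X, IsPGroup p H → IsPGroup p K → Nat.card H = Nat.card K → CJ H K)
    (hcyc : ∀ q : ℕ, q.Prime → q ≠ p → Cyc q X) {N : Subgroup X} [N.Normal] {k : ℕ} (hk : Nat.card N = p ^ k)
    {H K : Subgroup X} (hHK : Nat.card H = Nat.card K) (hpH : ¬ p ^ k ∣ Nat.card H) : CJ H K := by
  have hH := card_inf_normal hD hk H hpH
  have hK := card_inf_normal hD hk K (hHK ▸ hpH)
  obtain ⟨g, hg⟩ := hD (N ⊓ H) (N ⊓ K) ((IsPGroup.of_card hk).to_le inf_le_left)
    ((IsPGroup.of_card hk).to_le inf_le_left) (by rw [hH, hK, hHK])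
  have hi : N ⊓ H.map (MulAut.conj g).toMonoidHom = N ⊓ K := by
    rw [hg, Subgroup.map_inf_eq _ _ _ (MulAut.conj g).injective, normal_map_conj N]
  refine (CJ.smul H g).trans (caseC hcyc (N := N) ?_ hi ?_)
  · rw [Subgroup.card_map_of_injective (MulAut.conj g).injective, hHK]
  · rw [hi, hK, Subgroup.card_map_of_injective (MulAut.conj g).injective, hHK]

theorem main (r : ℕ) (n : ℕ) : ∀ (X : Type u) [Group X] [Finite X], Nat.card X = n → Group.IsSolvable X →
    (∀ p : ℕ, p.Prime → ∀ H K : Subgroup X, IsPGroup p H → IsPGroup p K → Nat.card H = Nat.card K → CJ H K) →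
    (∀ q : ℕ, q.Prime → q ≠ r → Cyc q X) → ∀ H K : Subgroup X, Nat.card H = Nat.card K → CJ H K := by
  induction n using Nat.strong_induction_on with
  | _ n ih =>
    intro X _ _ hX hs hD hcyc H K hHK
    rcases subsingleton_or_nontrivial X with hsub | hnt
    · have : H = K := by
        ext x
        rw [Subsingleton.elim x 1]
        exact ⟨fun _ => one_mem _, fun _ => one_mem _⟩
      rw [this]; exact CJ.refl K
    · have htop : (⊤ : Subgroup X) ≠ ⊥ := top_ne_bot
      obtain ⟨N, hNn, _, hN0, hmin⟩ := exists_minimal_normal (⊤ : Subgroup X) htop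
      have hNs : Group.IsSolvable N := inferInstance
      obtain ⟨p, hp, hNc, hNe, hNp⟩ := minimal_normal_elementary N hN0 hmin hNs
      have hpf : Fact p.Prime := ⟨hp⟩
      have hlt : Nat.card (X ⧸ N) < n := by
        rw [← hX, N.card_eq_card_quotient_mul_card_subgroup]
        exact lt_mul_of_one_lt_right Nat.card_pos (Finite.one_lt_card_iff_nontrivial.mpr ((Subgroup.nontrivial_iff_ne_bot N).mpr hN0))
      have hcyc' : ∀ q : ℕ, q.Prime → q ≠ r → Cyc q (X ⧸ N) := by
        intro q hq hqr
        have : Fact q.Prime := ⟨hq⟩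
        exact (hcyc q hq hqr).quot N
      have hD' : ∀ p : ℕ, p.Prime → ∀ H K : Subgroup (X ⧸ N), IsPGroup p H → IsPGroup p K →
          Nat.card H = Nat.card K → CJ H K := by
        intro q hq
        have : Fact q.Prime := ⟨hq⟩
        exact D_quot (hD q hq) N
      have IH := ih _ hlt (X ⧸ N) rfl inferInstance hD' hcyc'
      obtain ⟨k, hk⟩ := hNp.exists_card_eq
      have hk0 : k ≠ 0 := by
        intro h0
        apply hN0
        apply Subgroup.card_eq_one.mp
        rw [hk, h0, pow_zero]
      by_cases hpH : p ^ k ∣ Nat.card H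
      · have hle : ∀ L : Subgroup X, p ^ k ∣ Nat.card L → N ≤ L := by
          intro L hL
          obtain ⟨S, hS⟩ := Sylow.exists_subgroup_card_pow_prime p hL
          have hc : Nat.card (S.map L.subtype) = p ^ k := by
            rw [Subgroup.card_map_of_injective L.subtype_injective, hS]
          have h1 := (hD p hp N (S.map L.subtype) hNp (IsPGroup.of_card hc) (by rw [hk, hc])).eq_of_normal
          rw [← h1]
          exact Subgroup.map_subtype_le S
        have hNH := hle H hpH
        have hNK := hle K (hHK ▸ hpH)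
        apply CJ.of_quot hNH hNK
        apply IH
        apply Nat.eq_of_mul_eq_mul_left (Nat.card_pos (α := N))
        rw [card_map_mk_of_le hNH, card_map_mk_of_le hNK, hHK]
      · by_cases hpr : p = r
        · subst hpr
          exact caseR (hD p hp) hcyc hk hHK hpH
        · have hNcy : IsCyclic N := hcyc p hp hpr N hNp
          have hNcard : Nat.card N = p := by
            obtain ⟨x, hx⟩ := IsCyclic.exists_ofOrder_eq_natCard (α := N)
            have h1 : orderOf x ∣ p := orderOf_dvd_of_pow_eq_one (Subtype.ext (hNe x x.2))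
            rw [hx] at h1
            rcases (Nat.dvd_prime hp).mp h1 with h2 | h2
            · rw [hk] at h2
              exact absurd ((Nat.pow_eq_one.mp h2).resolve_left hp.one_lt.ne') hk0
            · exact h2
          have hcop : (Nat.card H).Coprime (Nat.card N) := by
            rw [hNcard]
            rw [← hk, hNcard] at hpH
            exact ((Nat.Prime.coprime_iff_not_dvd hp).mpr hpH).symm
          apply CJ.of_quot_coprime hNs hcop hHK
          apply IH
          rw [card_map_mk_of_coprime hcop, card_map_mk_of_coprime (hHK ▸ hcop), hHK]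

/-- Let G be a finite solvable group in which, for every prime p, any two p-subgroups of the same order are conjugate, and suppose the Sylow p-subgroups of G are cyclic for all primes p with at most one exception. Then any two subgroups of G of the same order are conjugate. -/
theorem result {G : Type*} [Group G] [Finite G]
    [Group.IsSolvable G] (hD : ∀ p : ℕ, p.Prime → ∀ H K : Subgroup G, IsPGroup p H → IsPGroup p K → Nat.card H = Nat.card K →
      ∃ g : G, K = H.map (MulAut.conj g).toMonoidHom)
    (r : ℕ) (hcyc : ∀ p : ℕ, p.Prime → p ≠ r → ∀ P : Sylow p G, IsCyclic P) :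
    ∀ H K : Subgroup G, Nat.card H = Nat.card K → ∃ g : G, K = H.map (MulAut.conj g).toMonoidHom := by
  refine main r _ G rfl inferInstance hD ?_
  intro q hq hqr
  exact Cyc.of_sylow (hcyc q hq hqr)

end Cfsg.Agent.S4022
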