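import Cfsg.Statements.S4023
import Cfsg.Agent.LibPCyc2
import Cfsg.Agent.LibFgFpf2
import Cfsg.Agent.LibFgBas
import Cfsg.Agent.LibLE3

set_option autoImplicit false
open Cfsg

namespace Cfsg.Agent.S4023

set_option linter.style.haveILetI false
set_option linter.unusedSectionVars false
set_option linter.unusedVariables false

open CfsgLib.PCyc
open scoped commutatorElement

universe u

/-- equal order subgroups are isomorphic -/
def IsoProp (P : Type u) [Group P] : Prop :=
  ∀ H K : Subgroup P, Nat.card H = Nat.card K → Nonempty (H ≃* K)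

section
variable {P : Type u} [Group P] [Finite P] {p : ℕ}

theorem IsoProp.of_equiv {P : Type u} [Group P] {Q : Type*} [Group Q] (h : IsoProp P) (e : P ≃* Q) :
    ∀ H K : Subgroup Q, Nat.card H = Nat.card K → Nonempty (H ≃* K) := by
  intro H K hHK
  have e1 : H ≃* H.map e.symm.toMonoidHom := H.equivMapOfInjective _ e.symm.injective
  have e2 : K ≃* K.map e.symm.toMonoidHom := K.equivMapOfInjective _ e.symm.injective
  obtain ⟨f⟩ := h (H.map e.symm.toMonoidHom) (K.map e.symm.toMonoidHom) (by
    rw [← Nat.card_congr e1.toEquiv, ← Nat.card_congr e2.toEquiv, hHK])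
  exact ⟨(e1.trans f).trans e2.symm⟩

omit [Finite P] in
theorem quat_case (h : IsoProp P) {n : ℕ} (e : P ≃* QuaternionGroup (2 ^ n)) :
    IsCyclic P ∨ (∀ a : P, a ^ 2 = 1) ∨ Nonempty (P ≃* QuaternionGroup 2) := by
  rcases Nat.lt_or_ge n 2 with hn | hn
  · interval_cases n
    · left
      have : IsCyclic (QuaternionGroup (2 ^ 0)) := by
        rw [pow_zero]; exact QuaternionGroup.quaternionGroup_one_isCyclic
      exact isCyclic_of_surjective e.symm e.symm.surjective
    · right; right
      exact ⟨e⟩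
  · exfalso
    have h' := h.of_equiv e
    set Q := QuaternionGroup (2 ^ n) with hQ
    have hp : Fact (Nat.Prime 2) := ⟨Nat.prime_two⟩
    have hne : NeZero (2 ^ n) := ⟨by positivity⟩
    have hQcard : Nat.card Q = 2 ^ (n + 2) := by
      rw [Nat.card_eq_fintype_card, QuaternionGroup.card]; ring
    -- cyclic subgroup of order 8
    have ho1 : orderOf (QuaternionGroup.a 1 : Q) = 2 * 2 ^ n := QuaternionGroup.orderOf_a_one
    have h8 : 8 ∣ orderOf (QuaternionGroup.a 1 : Q) := by
      rw [ho1]
      obtain ⟨m, rfl⟩ : ∃ m, n = m + 2 := ⟨n - 2, by omega⟩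
      exact ⟨2 ^ m, by ring⟩
    have hc8 := CfsgLib.FgFpf.orderOf_pow_prime h8
    set c : Q := (QuaternionGroup.a 1 : Q) ^ (orderOf (QuaternionGroup.a 1 : Q) / 8)
    -- subgroup of order 8 containing xa 0
    have hx4 : orderOf (QuaternionGroup.xa 0 : Q) = 4 := QuaternionGroup.orderOf_xa 0
    obtain ⟨K, hK, hKx⟩ := Sylow.exists_subgroup_card_pow_prime_le 2 (n := 2) (m := 3) (G := Q)
      (by rw [hQcard]; exact pow_dvd_pow 2 (by omega)) (Subgroup.zpowers (QuaternionGroup.xa 0 : Q))
      (by rw [Nat.card_zpowers, hx4]; norm_num) (by norm_num)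
    obtain ⟨f⟩ := h' (Subgroup.zpowers c) K (by rw [Nat.card_zpowers, hc8, hK]; norm_num)
    have hxK : (QuaternionGroup.xa 0 : Q) ∈ K := hKx (Subgroup.mem_zpowers _)
    set w : K := f ⟨c, Subgroup.mem_zpowers c⟩ with hw
    have hwo : orderOf (w : Q) = 8 := by
      rw [Subgroup.orderOf_coe, hw, MulEquiv.orderOf_eq, Subgroup.orderOf_mk]; exact hc8
    have hwc : (w : Q) * QuaternionGroup.xa 0 = QuaternionGroup.xa 0 * (w : Q) := by
      have h1 : ∀ a b : Subgroup.zpowers c, a * b = b * a := fun a b => 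
        (inferInstance : IsMulCommutative (Subgroup.zpowers c)).is_comm.comm a b
      have h2 : w * (⟨QuaternionGroup.xa 0, hxK⟩ : K) = (⟨QuaternionGroup.xa 0, hxK⟩ : K) * w := by
        apply f.symm.injective
        rw [map_mul, map_mul, h1]
      exact congrArg Subtype.val h2
    rcases hwv : (w : Q) with i | i
    · rw [hwv] at hwc hwo
      have h1 : (QuaternionGroup.a i : Q) * QuaternionGroup.xa 0 = QuaternionGroup.xa (0 - i) := rfl
      have h2 : (QuaternionGroup.xa 0 : Q) * QuaternionGroup.a i = QuaternionGroup.xa (0 + i) := rfl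
      rw [h1, h2] at hwc
      have h3 : (0 : ZMod (2 * 2 ^ n)) - i = 0 + i := QuaternionGroup.xa.inj hwc
      have h4 : (QuaternionGroup.a i : Q) ^ 2 = 1 := by
        rw [pow_two]
        change (QuaternionGroup.a (i + i) : Q) = QuaternionGroup.a 0
        congr 1
        rw [zero_add, zero_sub] at h3
        nth_rewrite 1 [← h3]
        exact neg_add_cancel i
      have := orderOf_dvd_of_pow_eq_one h4
      rw [hwo] at this
      norm_num at this
    · rw [hwv, QuaternionGroup.orderOf_xa] at hwo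
      norm_num at hwo

theorem case_two (hP : IsPGroup 2 P) (h : IsoProp P) :
    IsCyclic P ∨ (∀ a : P, a ^ 2 = 1) ∨ Nonempty (P ≃* QuaternionGroup 2) := by
  by_cases hsq : ∃ B : Subgroup P, Nat.card B = 4 ∧ ∀ b ∈ B, b ^ 2 = 1
  · right; left
    obtain ⟨B, hB, hBe⟩ := hsq
    intro a
    by_contra ha
    -- an element of order 4
    obtain ⟨k, hk⟩ := (IsPGroup.iff_orderOf.mp hP) a
    have hk2 : 2 ≤ k := by
      by_contra hlt
      apply ha
      have : k ≤ 1 := by omega
      rw [← orderOf_dvd_iff_pow_eq_one, hk]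
      calc 2 ^ k ∣ 2 ^ 1 := pow_dvd_pow 2 this
        _ = 2 := by norm_num
    have h4 : 4 ∣ orderOf a := by
      rw [hk]; exact (pow_dvd_pow 2 hk2 : 2 ^ 2 ∣ 2 ^ k)
    have hb := CfsgLib.FgFpf.orderOf_pow_prime h4
    set b := a ^ (orderOf a / 4)
    obtain ⟨e⟩ := h (Subgroup.zpowers b) B (by rw [Nat.card_zpowers, hb, hB])
    have h1 : (e ⟨b, Subgroup.mem_zpowers b⟩) ^ 2 = 1 := Subtype.ext (by
      rw [Subgroup.coe_pow]; exact hBe _ (e ⟨b, Subgroup.mem_zpowers b⟩).2)
    rw [← map_pow, map_eq_one_iff e e.injective] at h1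
    have h2 : b ^ 2 = 1 := congrArg Subtype.val h1
    have := orderOf_dvd_of_pow_eq_one h2
    rw [hb] at this
    norm_num at this
  · -- no Klein four subgroups
    have huniq : ∀ H K : Subgroup P, Nat.card H = 2 → Nat.card K = 2 → H = K := by
      have hp : Fact (Nat.Prime 2) := ⟨Nat.prime_two⟩
      have key : ∀ z t : P, orderOf z = 2 → orderOf t = 2 → z ∈ Subgroup.center P → t = z := by
        intro z t hz ht hzc
        by_contra hne
        apply hsq
        have hn : (Subgroup.zpowers z).Normal := by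
          refine ⟨fun x hx g => ?_⟩
          obtain ⟨k, rfl⟩ := hx
          have h1 : z ^ k ∈ Subgroup.center P := Subgroup.zpow_mem _ hzc k
          rw [Subgroup.mem_center_iff.mp h1 g, mul_inv_cancel_right]
          exact ⟨k, rfl⟩
        have z2 : z ^ 2 = 1 := by rw [← hz, pow_orderOf_eq_one]
        have t2 : t ^ 2 = 1 := by rw [← ht, pow_orderOf_eq_one]
        have hinf : Subgroup.zpowers z ⊓ Subgroup.zpowers t = ⊥ := by
          by_contra hb
          have h1 : Nat.card (Subgroup.zpowers z ⊓ Subgroup.zpowers t : Subgroup P) = 2 := by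
            have h2 : Nat.card (Subgroup.zpowers z ⊓ Subgroup.zpowers t : Subgroup P) ∣ 2 := by
              refine (Subgroup.card_dvd_of_le inf_le_left).trans (dvd_of_eq ?_)
              rw [Nat.card_zpowers, hz]
            rcases (Nat.dvd_prime Nat.prime_two).mp h2 with h3 | h3
            · exact absurd (Subgroup.card_eq_one.mp h3) hb
            · exact h3
          have h2 := Subgroup.eq_of_le_of_card_ge (inf_le_left : Subgroup.zpowers z ⊓ Subgroup.zpowers t ≤ _) (by
            rw [h1, Nat.card_zpowers, hz])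
          have h3 := Subgroup.eq_of_le_of_card_ge (inf_le_right : Subgroup.zpowers z ⊓ Subgroup.zpowers t ≤ _) (by
            rw [h1, Nat.card_zpowers, ht])
          have h4 : t ∈ Subgroup.zpowers z := by rw [← h2, h3]; exact Subgroup.mem_zpowers t
          classical
          rw [← mem_powers_iff_mem_zpowers, mem_powers_iff_mem_range_orderOf, hz] at h4
          obtain ⟨i, hi, hie⟩ := Finset.mem_image.mp h4
          rw [Finset.mem_range] at hi
          interval_cases i
          · rw [pow_zero] at hie; rw [← hie, orderOf_one] at ht; omega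
          · rw [pow_one] at hie; exact hne hie.symm
        have hcard := CfsgLib.SolvBasic.card_sup_of_normal (Subgroup.zpowers z) (Subgroup.zpowers t)
        rw [hinf, Subgroup.card_bot, mul_one, Nat.card_zpowers, Nat.card_zpowers, hz, ht] at hcard
        refine ⟨Subgroup.zpowers z ⊔ Subgroup.zpowers t, hcard, ?_⟩
        intro b hb
        rw [Subgroup.mem_sup_of_normal_left] at hb
        obtain ⟨_, ⟨i, rfl⟩, _, ⟨j, rfl⟩, rfl⟩ := hb
        have hc : Commute z t := (Subgroup.mem_center_iff.mp hzc t).symm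
        change (z ^ i * t ^ j) ^ 2 = 1
        rw [(hc.zpow_zpow i j).mul_pow, ← zpow_natCast, ← zpow_natCast, ← zpow_mul, ← zpow_mul, mul_comm i, mul_comm j,
          zpow_mul, zpow_mul, zpow_natCast, zpow_natCast, z2, t2, one_zpow, one_zpow, one_mul]
      intro H K hH hK
      obtain ⟨a, ha⟩ := exists_prime_orderOf_dvd_card' (G := H) 2 (by rw [hH])
      obtain ⟨b, hb⟩ := exists_prime_orderOf_dvd_card' (G := K) 2 (by rw [hK])
      rw [← Subgroup.orderOf_coe] at ha hb
      have hnt : Nontrivial P := ⟨(a : P), 1, fun h => by rw [h, orderOf_one] at ha; omega⟩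
      have hZ := hP.center_nontrivial
      have hZ2 : 2 ∣ Nat.card (Subgroup.center P) := by
        obtain ⟨k, hk⟩ := IsPGroup.iff_card.mp (hP.to_subgroup (Subgroup.center P))
        have h1 : 1 < Nat.card (Subgroup.center P) := Finite.one_lt_card
        rw [hk] at h1 ⊢
        rcases Nat.eq_zero_or_pos k with rfl | hk0
        · simp at h1
        · exact dvd_pow_self 2 hk0.ne'
      obtain ⟨z, hz⟩ := exists_prime_orderOf_dvd_card' 2 hZ2
      rw [← Subgroup.orderOf_coe] at hz
      have e1 := key z a hz ha z.2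
      have e2 := key z b hz hb z.2
      have e3 : H = Subgroup.zpowers (z : P) := by
        refine (Subgroup.eq_of_le_of_card_ge ?_ (by rw [Nat.card_zpowers, hz, hH])).symm
        rw [Subgroup.zpowers_le, ← e1]; exact a.2
      have e4 : K = Subgroup.zpowers (z : P) := by
        refine (Subgroup.eq_of_le_of_card_ge ?_ (by rw [Nat.card_zpowers, hz, hK])).symm
        rw [Subgroup.zpowers_le, ← e2]; exact b.2
      rw [e3, e4]
    rcases cyclic_or_quaternion hP huniq with hc | ⟨n, ⟨e⟩⟩
    · exact Or.inl hc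
    · exact quat_case h e

theorem disj_of_prime (hp : p.Prime) {M : Subgroup P} {y : P} (hy : orderOf y = p) (hyM : y ∉ M) :
    M ⊓ Subgroup.zpowers y = ⊥ := by
  by_contra hne
  apply hyM
  have h1 : Nat.card (M ⊓ Subgroup.zpowers y : Subgroup P) = p := by
    have h2 : Nat.card (M ⊓ Subgroup.zpowers y : Subgroup P) ∣ p := by
      refine (Subgroup.card_dvd_of_le inf_le_right).trans (dvd_of_eq ?_)
      rw [Nat.card_zpowers, hy]
    rcases (Nat.dvd_prime hp).mp h2 with h3 | h3
    · exact absurd (Subgroup.card_eq_one.mp h3) hne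
    · exact h3
  have h2 := Subgroup.eq_of_le_of_card_ge (inf_le_right : M ⊓ Subgroup.zpowers y ≤ _) (by
    rw [h1, Nat.card_zpowers, hy])
  have h3 : y ∈ M ⊓ Subgroup.zpowers y := by rw [h2]; exact Subgroup.mem_zpowers y
  exact h3.1

theorem card_sup_zpowers (hp : p.Prime) {M : Subgroup P} {y : P} (hy : orderOf y = p) (hyM : y ∉ M)
    (hn : y ∈ Subgroup.normalizer (M : Set P)) : Nat.card (M ⊔ Subgroup.zpowers y : Subgroup P) = Nat.card M * p := by
  have h := CfsgLib.SolvCoprime.card_sup_of_le_normalizer (N := M) (H := Subgroup.zpowers y) (Subgroup.zpowers_le.mpr hn)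
  rw [disj_of_prime hp hy hyM, Subgroup.card_bot, mul_one, Nat.card_zpowers, hy] at h
  exact h

/-- a nonabelian subgroup of order `p^3` -/
theorem exists_nonab (hp : p.Prime) (hP : IsPGroup p P) (hexp : ∀ a : P, a ^ p = 1) (hnc : ¬ ∀ a b : P, a * b = b * a) :
    ∃ H : Subgroup P, Nat.card H = p ^ 3 ∧ ¬ ∀ a ∈ H, ∀ b ∈ H, a * b = b * a := by
  have hpf : Fact p.Prime := ⟨hp⟩
  have hord : ∀ a : P, a ≠ 1 → orderOf a = p := fun a ha => orderOf_eq_prime (hexp a) ha
  have hntQ : Nontrivial (P ⧸ Subgroup.center P) := by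
    rw [QuotientGroup.nontrivial_iff]
    intro h
    apply hnc
    intro a b
    have : b ∈ Subgroup.center P := by rw [h]; exact Subgroup.mem_top b
    exact Subgroup.mem_center_iff.mp this a
  have hQ : IsPGroup p (P ⧸ Subgroup.center P) := hP.to_quotient _
  have hZ := hQ.center_nontrivial
  obtain ⟨⟨q, hq⟩, hq1⟩ := exists_ne (1 : Subgroup.center (P ⧸ Subgroup.center P))
  obtain ⟨x, rfl⟩ := QuotientGroup.mk'_surjective (Subgroup.center P) q
  have hxZ : x ∉ Subgroup.center P := fun h => hq1 (Subtype.ext ((QuotientGroup.eq_one_iff x).mpr h))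
  obtain ⟨y, hxy⟩ : ∃ y : P, x * y ≠ y * x := by
    by_contra hall
    push Not at hall
    exact hxZ (Subgroup.mem_center_iff.mpr (fun g => (hall g).symm))
  set z := x * y * x⁻¹ * y⁻¹ with hz
  have hzZ : z ∈ Subgroup.center P := by
    rw [← QuotientGroup.eq_one_iff]
    have h1 := Subgroup.mem_center_iff.mp hq (QuotientGroup.mk' (Subgroup.center P) y)
    change QuotientGroup.mk' (Subgroup.center P) z = 1
    rw [hz, map_mul, map_mul, map_mul, map_inv, map_inv, ← h1]
    group
  have hz1 : z ≠ 1 := by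
    intro h
    apply hxy
    have : x * y = z * (y * x) := by rw [hz]; group
    rw [this, h, one_mul]
  have hx1 : x ≠ 1 := by rintro rfl; exact hxZ (one_mem _)
  have hy1 : y ≠ 1 := by rintro rfl; exact hxy (by rw [mul_one, one_mul])
  -- M = ⟨z⟩ ⟨x⟩
  have hxnz : x ∉ Subgroup.zpowers z := by
    rintro ⟨k, hk⟩
    exact hxZ (hk ▸ Subgroup.zpow_mem _ hzZ k)
  have hM := card_sup_zpowers hp (M := Subgroup.zpowers z) (y := x) (hord x hx1) hxnz (by
    rw [Subgroup.mem_normalizer_iff]
    intro w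
    constructor
    · rintro ⟨k, rfl⟩
      have h1 : z ^ k ∈ Subgroup.center P := Subgroup.zpow_mem _ hzZ k
      change x * z ^ k * x⁻¹ ∈ _
      rw [Subgroup.mem_center_iff.mp h1 x, mul_inv_cancel_right]
      exact ⟨k, rfl⟩
    · rintro ⟨k, hk⟩
      have h1 : z ^ k ∈ Subgroup.center P := Subgroup.zpow_mem _ hzZ k
      have h2 : w = z ^ k := by
        have h3 : w = x⁻¹ * (x * w * x⁻¹) * x := by group
        rw [h3, ← hk]
        change x⁻¹ * z ^ k * x = z ^ k
        rw [Subgroup.mem_center_iff.mp h1 x⁻¹, inv_mul_cancel_right]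
      rw [h2]; exact ⟨k, rfl⟩)
  rw [Nat.card_zpowers, hord z hz1] at hM
  set M := Subgroup.zpowers z ⊔ Subgroup.zpowers x with hMdef
  have hzM : z ∈ M := (le_sup_left : Subgroup.zpowers z ≤ M) (Subgroup.mem_zpowers z)
  have hxM : x ∈ M := (le_sup_right : Subgroup.zpowers x ≤ M) (Subgroup.mem_zpowers x)
  have hMcen : ∀ m ∈ M, m * x = x * m := by
    have h1 : M ≤ Subgroup.centralizer {x} := by
      refine sup_le ?_ ?_
      · rw [Subgroup.zpowers_le, Subgroup.mem_centralizer_singleton_iff]
        exact (Subgroup.mem_center_iff.mp hzZ x).symm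
      · rw [Subgroup.zpowers_le, Subgroup.mem_centralizer_singleton_iff]
    intro m hm
    exact Subgroup.mem_centralizer_singleton_iff.mp (h1 hm)
  have hyM : y ∉ M := fun h => hxy (hMcen y h).symm
  have hyN : y ∈ Subgroup.normalizer (M : Set P) := by
    rw [Subgroup.mem_normalizer_iff_map_conj_eq]
    apply Subgroup.eq_of_le_of_card_ge
    · rw [hMdef, Subgroup.map_sup]
      refine sup_le ?_ ?_
      · rw [MonoidHom.map_zpowers, Subgroup.zpowers_le]
        change y * z * y⁻¹ ∈ M
        rw [Subgroup.mem_center_iff.mp hzZ y, mul_inv_cancel_right]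
        exact hzM
      · rw [MonoidHom.map_zpowers, Subgroup.zpowers_le]
        change y * x * y⁻¹ ∈ M
        have h1 : y * x * y⁻¹ = z⁻¹ * x := by
          rw [hz]; group
        rw [h1]
        exact mul_mem (inv_mem hzM) hxM
    · rw [Subgroup.card_map_of_injective (MulAut.conj y).injective]
  have hH := card_sup_zpowers hp (M := M) (y := y) (hord y hy1) hyM hyN
  rw [hM] at hH
  refine ⟨M ⊔ Subgroup.zpowers y, by rw [hH]; ring, ?_⟩
  intro h
  exact hxy (h x ((le_sup_left : M ≤ _) hxM) y ((le_sup_right : Subgroup.zpowers y ≤ _) (Subgroup.mem_zpowers y)))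

/-- an abelian subgroup of order `p^3` -/
theorem exists_ab (hp : p.Prime) (hP : IsPGroup p P) (hexp : ∀ a : P, a ^ p = 1) (hcard : p ^ 4 ∣ Nat.card P)
    {E : Subgroup P} (hEn : E.Normal) (hEc : IsMulCommutative E) (hE : Nat.card E = p ^ 2) :
    ∃ H : Subgroup P, Nat.card H = p ^ 3 ∧ ∀ a ∈ H, ∀ b ∈ H, a * b = b * a := by
  have hpf : Fact p.Prime := ⟨hp⟩
  have hord : ∀ a : P, a ≠ 1 → orderOf a = p := fun a ha => orderOf_eq_prime (hexp a) ha
  -- it is enough to have w centralizing E, not in E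
  suffices hw : ∃ w : P, w ∉ E ∧ ∀ e ∈ E, e * w = w * e by
    obtain ⟨w, hwE, hwc⟩ := hw
    have hw1 : w ≠ 1 := by rintro rfl; exact hwE (one_mem _)
    have hc := card_sup_zpowers hp (hord w hw1) hwE (by
      rw [Subgroup.normalizer_eq_top]; exact Subgroup.mem_top w)
    refine ⟨E ⊔ Subgroup.zpowers w, by rw [hc, hE]; ring, ?_⟩
    have h1 : E ⊔ Subgroup.zpowers w ≤ Subgroup.centralizer ((E ⊔ Subgroup.zpowers w : Subgroup P) : Set P) := by
      have hwC : w ∈ Subgroup.centralizer (E : Set P) := Subgroup.mem_centralizer_iff.mpr (fun e he => hwc e he)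
      refine sup_le ?_ ?_
      · rw [Subgroup.le_centralizer_iff]
        exact sup_le (Subgroup.le_centralizer E) (Subgroup.zpowers_le.mpr hwC)
      · rw [Subgroup.zpowers_le]
        have h2 : E ⊔ Subgroup.zpowers w ≤ Subgroup.centralizer {w} := by
          refine sup_le ?_ ?_
          · intro e he
            rw [Subgroup.mem_centralizer_singleton_iff]
            exact hwc e he
          · rw [Subgroup.zpowers_le, Subgroup.mem_centralizer_singleton_iff]
        rw [Subgroup.mem_centralizer_iff]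
        intro v hv
        exact Subgroup.mem_centralizer_singleton_iff.mp (h2 hv)
    intro a ha b hb
    exact Subgroup.mem_centralizer_iff.mp (h1 hb) a ha
  by_contra hno
  push Not at hno
  have hCle : Subgroup.centralizer (E : Set P) ≤ E := by
    intro w hw
    by_contra hwE
    obtain ⟨e, he, hne⟩ := hno w hwE
    exact hne (Subgroup.mem_centralizer_iff.mp hw e he)
  -- center
  have hZE : Subgroup.center P ≤ E := (Subgroup.center_le_centralizer _).trans hCle
  have hE1 : E ≠ ⊥ := by
    rintro rfl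
    rw [Subgroup.card_bot] at hE
    have := Nat.one_lt_pow (n := 2) (by norm_num) hp.one_lt
    omega
  have hlt := CfsgLib.SolvCoprime.commutator_lt_of_pgroup (hP.to_subgroup E) (P := ⊤) (by
      exact hP.to_subgroup ⊤) (by rw [Subgroup.normalizer_eq_top]) hE1
  have hn : (⁅E, (⊤ : Subgroup P)⁆).Normal := Subgroup.commutator_normal E ⊤
  have hcc : Nat.card (⁅E, (⊤ : Subgroup P)⁆ : Subgroup P) ∣ p ^ 2 := by
    rw [← hE]; exact Subgroup.card_dvd_of_le hlt.le
  obtain ⟨i, hi, hie⟩ := (Nat.dvd_prime_pow hp).mp hcc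
  have hi1 : i ≤ 1 := by
    by_contra hi2
    have : i = 2 := by omega
    subst this
    exact hlt.ne (Subgroup.eq_of_le_of_card_ge hlt.le (by rw [hie, hE]))
  have hle : ⁅E, (⊤ : Subgroup P)⁆ ≤ Subgroup.center P := by
    interval_cases i
    · rw [pow_zero] at hie
      rw [Subgroup.card_eq_one.mp hie]; exact bot_le
    · rw [pow_one] at hie
      exact le_center_of_card_eq hp hP _ hie
  -- E is not central
  have hEnc : ¬ E ≤ Subgroup.center P := by
    intro h
    have h1 : (⊤ : Subgroup P) ≤ E := by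
      refine le_trans ?_ hCle
      intro g _
      rw [Subgroup.mem_centralizer_iff]
      intro e he
      exact (Subgroup.mem_center_iff.mp (h he) g).symm
    have h2 := Subgroup.card_dvd_of_le h1
    rw [Subgroup.card_top, hE] at h2
    have h3 := hcard.trans h2
    rw [Nat.pow_dvd_pow_iff_le_right hp.one_lt] at h3
    omega
  obtain ⟨e, he, hez⟩ := Set.not_subset.mp hEnc
  have he1 : e ≠ 1 := by rintro rfl; exact hez (one_mem _)
  have hcen : ∀ x : P, x * e * x⁻¹ * e⁻¹ ∈ Subgroup.center P ∧ x * e * x⁻¹ * e⁻¹ ∈ ⁅E, (⊤ : Subgroup P)⁆ := by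
    intro x
    have h1 : ⁅x, e⁆ ∈ ⁅E, (⊤ : Subgroup P)⁆ := by
      rw [Subgroup.commutator_comm]
      exact Subgroup.commutator_mem_commutator (Subgroup.mem_top x) he
    rw [commutatorElement_def] at h1
    exact ⟨hle h1, h1⟩
  let f : P →* (⁅E, (⊤ : Subgroup P)⁆ : Subgroup P) :=
    { toFun := fun x => ⟨x * e * x⁻¹ * e⁻¹, (hcen x).2⟩
      map_one' := Subtype.ext (by simp)
      map_mul' := fun x y => Subtype.ext (by
        change x * y * e * (x * y)⁻¹ * e⁻¹ = (x * e * x⁻¹ * e⁻¹) * (y * e * y⁻¹ * e⁻¹)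
        have h1 := Subgroup.mem_center_iff.mp (hcen y).1
        calc x * y * e * (x * y)⁻¹ * e⁻¹ = x * (y * e * y⁻¹ * e⁻¹) * (e * x⁻¹ * e⁻¹) := by group
          _ = (y * e * y⁻¹ * e⁻¹) * x * (e * x⁻¹ * e⁻¹) := by rw [h1 x]
          _ = (y * e * y⁻¹ * e⁻¹) * (x * e * x⁻¹ * e⁻¹) := by group
          _ = _ := (h1 _).symm) }
  have hker : f.ker ≤ Subgroup.centralizer (E : Set P) := by
    intro x hx
    have h1 : x * e * x⁻¹ * e⁻¹ = 1 := congrArg Subtype.val (MonoidHom.mem_ker.mp hx)
    have h2 : x * e = e * x := by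
      have : x * e = (x * e * x⁻¹ * e⁻¹) * (e * x) := by group
      rw [this, h1, one_mul]
    -- E = Z ⊔ ⟨e⟩
    have h3 : E ≤ Subgroup.centralizer {x} := by
      have h4 : E ≤ (E ⊓ Subgroup.center P) ⊔ Subgroup.zpowers e := by
        have hZ1 : E ⊓ Subgroup.center P ≠ ⊥ := by
          intro h0
          rw [inf_of_le_right hZE] at h0
          have hnt : Nontrivial P := ⟨e, 1, he1⟩
          have := hP.center_nontrivial
          exact ((Subgroup.nontrivial_iff_ne_bot _).mp this) h0
        have hle2 : (E ⊓ Subgroup.center P) ⊔ Subgroup.zpowers e ≤ E := sup_le inf_le_left (Subgroup.zpowers_le.mpr he)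
        have hcd := card_sup_zpowers hp (M := E ⊓ Subgroup.center P) (y := e) (hord e he1) (fun h => hez h.2) (by
          have hnn : (E ⊓ Subgroup.center P).Normal := inferInstance
          rw [Subgroup.normalizer_eq_top]; exact Subgroup.mem_top e)
        refine (Subgroup.eq_of_le_of_card_ge hle2 ?_).ge
        rw [hcd, hE, pow_two]
        have h5 : p ≤ Nat.card (E ⊓ Subgroup.center P : Subgroup P) := by
          obtain ⟨j, hj⟩ := IsPGroup.iff_card.mp (hP.to_subgroup (E ⊓ Subgroup.center P))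
          rcases Nat.eq_zero_or_pos j with rfl | hj0
          · rw [pow_zero] at hj
            exact absurd (Subgroup.card_eq_one.mp hj) hZ1
          · rw [hj]; exact Nat.le_self_pow hj0.ne' p
        exact Nat.mul_le_mul_right p h5
      refine h4.trans (sup_le ?_ ?_)
      · intro c hc
        rw [Subgroup.mem_centralizer_singleton_iff]
        exact (Subgroup.mem_center_iff.mp hc.2 x).symm
      · rw [Subgroup.zpowers_le, Subgroup.mem_centralizer_singleton_iff]
        exact h2.symm
    rw [Subgroup.mem_centralizer_iff]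
    intro v hv
    exact Subgroup.mem_centralizer_singleton_iff.mp (h3 hv)
  have h5 := Subgroup.card_mul_index f.ker
  have h6 : f.ker.index ∣ p := by
    rw [Subgroup.index_ker]
    refine (Subgroup.card_subgroup_dvd_card _).trans ?_
    rw [hie]
    interval_cases i
    · rw [pow_zero]; exact one_dvd _
    · rw [pow_one]
  have h7 : Nat.card f.ker ∣ p ^ 2 := by rw [← hE]; exact Subgroup.card_dvd_of_le (hker.trans hCle)
  have h8 : Nat.card P ∣ p ^ 2 * p := by rw [← h5]; exact Nat.mul_dvd_mul h7 h6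
  rw [← pow_succ] at h8
  have h9 := hcard.trans h8
  rw [Nat.pow_dvd_pow_iff_le_right hp.one_lt] at h9
  omega

theorem case_odd (hp : p.Prime) (hp2 : p ≠ 2) (hP : IsPGroup p P) (h : IsoProp P) :
    IsCyclic P ∨ ((∀ a b : P, a * b = b * a) ∧ ∀ a : P, a ^ p = 1) ∨
      ((¬ ∀ a b : P, a * b = b * a) ∧ Nat.card P = p ^ 3 ∧ ∀ a : P, a ^ p = 1) := by
  have hpf : Fact p.Prime := ⟨hp⟩
  by_cases hcyc : IsCyclic P
  · exact Or.inl hcyc
  right
  obtain ⟨E, hEn, hEc, hEe, hE⟩ := exists_normal_elem hp hp2 hP hcyc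
  have hexp : ∀ a : P, a ^ p = 1 := by
    intro a
    by_contra ha
    obtain ⟨k, hk⟩ := (IsPGroup.iff_orderOf.mp hP) a
    have hk2 : 2 ≤ k := by
      by_contra hlt
      apply ha
      have : k ≤ 1 := by omega
      rw [← orderOf_dvd_iff_pow_eq_one, hk]
      calc p ^ k ∣ p ^ 1 := pow_dvd_pow p this
        _ = p := pow_one p
    have h4 : p ^ 2 ∣ orderOf a := by
      rw [hk]; exact pow_dvd_pow p hk2
    have hb := CfsgLib.FgFpf.orderOf_pow_prime h4
    set b := a ^ (orderOf a / p ^ 2)
    obtain ⟨e⟩ := h (Subgroup.zpowers b) E (by rw [Nat.card_zpowers, hb, hE])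
    have h1 : (e ⟨b, Subgroup.mem_zpowers b⟩) ^ p = 1 := Subtype.ext (by
      rw [Subgroup.coe_pow]; exact hEe _ (e ⟨b, Subgroup.mem_zpowers b⟩).2)
    rw [← map_pow, map_eq_one_iff e e.injective] at h1
    have h2 : b ^ p = 1 := congrArg Subtype.val h1
    have := orderOf_dvd_of_pow_eq_one h2
    rw [hb] at this
    nth_rewrite 2 [← pow_one p] at this
    rw [Nat.pow_dvd_pow_iff_le_right hp.one_lt] at this
    omega
  by_cases hc : ∀ a b : P, a * b = b * a
  · exact Or.inl ⟨hc, hexp⟩
  right
  refine ⟨hc, ?_, hexp⟩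
  obtain ⟨H, hH, hHc⟩ := exists_nonab hp hP hexp hc
  obtain ⟨n, hn⟩ := IsPGroup.iff_card.mp hP
  have h3 : 3 ≤ n := by
    have := Subgroup.card_subgroup_dvd_card H
    rw [hH, hn, Nat.pow_dvd_pow_iff_le_right hp.one_lt] at this
    exact this
  by_contra hne
  have h4 : 4 ≤ n := by
    by_contra hlt
    have : n = 3 := by omega
    exact hne (by rw [hn, this])
  obtain ⟨A, hA, hAc⟩ := exists_ab hp hP hexp (by rw [hn]; exact pow_dvd_pow p h4) hEn hEc hE
  obtain ⟨f⟩ := h H A (by rw [hH, hA])
  apply hHc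
  intro a ha b hb
  have h5 : f (⟨a, ha⟩ * ⟨b, hb⟩) = f (⟨b, hb⟩ * ⟨a, ha⟩) := by
    rw [map_mul, map_mul]
    exact Subtype.ext (hAc _ (f ⟨a, ha⟩).2 _ (f ⟨b, hb⟩).2)
  exact congrArg Subtype.val (f.injective h5)

end

/-- Let p be a prime and G a finite group in which any two p-subgroups of the same order are conjugate, with Sylow p-subgroup P. Then P is cyclic, or elementary abelian, or p = 2 and P is a quaternion group of order 8, or p is odd and P is non-abelian of order p³ and exponent p. -/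
theorem result {G : Type*} [Group G] [Finite G]
    {p : ℕ} [Fact p.Prime] (hC : ∀ H K : Subgroup G, IsPGroup p H → IsPGroup p K → Nat.card H = Nat.card K →
      ∃ g : G, K = H.map (MulAut.conj g).toMonoidHom) (P : Sylow p G) :
    IsCyclic P ∨ Cfsg.IsElementaryAbelian p (P : Subgroup G) ∨
      (p = 2 ∧ Nonempty ((P : Subgroup G) ≃* QuaternionGroup 2)) ∨
      (p ≠ 2 ∧ ¬ IsMulCommutative P ∧ Nat.card P = p ^ 3 ∧ Monoid.exponent P = p) := by
  have hpp : p.Prime := Fact.out
  have hiso : IsoProp P := by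
    intro H K hHK
    have e1 : H ≃* H.map (P : Subgroup G).subtype := H.equivMapOfInjective _ (P : Subgroup G).subtype_injective
    have e2 : K ≃* K.map (P : Subgroup G).subtype := K.equivMapOfInjective _ (P : Subgroup G).subtype_injective
    obtain ⟨g, hg⟩ := hC (H.map (P : Subgroup G).subtype) (K.map (P : Subgroup G).subtype)
      ((P.isPGroup'.to_subgroup H).map _) ((P.isPGroup'.to_subgroup K).map _) (by
        rw [← Nat.card_congr e1.toEquiv, ← Nat.card_congr e2.toEquiv, hHK])
    have e3 : H.map (P : Subgroup G).subtype ≃* (H.map (P : Subgroup G).subtype).map (MulAut.conj g).toMonoidHom :=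
      Subgroup.equivMapOfInjective _ _ (MulAut.conj g).injective
    rw [← hg] at e3
    exact ⟨(e1.trans e3).trans e2.symm⟩
  by_cases hp2 : p = 2
  · subst hp2
    rcases case_two P.isPGroup' hiso with h | h | h
    · exact Or.inl h
    · right; left
      refine ⟨⟨⟨fun a b => ?_⟩⟩, fun a ha => congrArg Subtype.val (h ⟨a, ha⟩)⟩
      have e1 : a⁻¹ = a := by rw [inv_eq_iff_mul_eq_one, ← pow_two, h a]
      have e2 : b⁻¹ = b := by rw [inv_eq_iff_mul_eq_one, ← pow_two, h b]
      have e3 : (a * b)⁻¹ = a * b := by rw [inv_eq_iff_mul_eq_one, ← pow_two, h (a * b)]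
      rw [← e3, mul_inv_rev, e1, e2]
    · exact Or.inr (Or.inr (Or.inl ⟨rfl, h⟩))
  · rcases case_odd hpp hp2 P.isPGroup' hiso with h | ⟨h1, h2⟩ | ⟨h1, h2, h3⟩
    · exact Or.inl h
    · right; left
      exact ⟨⟨⟨h1⟩⟩, fun a ha => congrArg Subtype.val (h2 ⟨a, ha⟩)⟩
    · right; right; right
      refine ⟨hp2, fun hc => h1 (fun a b => hc.is_comm.comm a b), h2, ?_⟩
      apply Nat.dvd_antisymm
      · exact Monoid.exponent_dvd_of_forall_pow_eq_one h3
      · have h4 : p ∣ Nat.card P := by rw [h2]; exact dvd_pow_self p (by norm_num)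
        obtain ⟨x, hx⟩ := exists_prime_orderOf_dvd_card' p h4
        exact (dvd_of_eq hx.symm).trans (Monoid.order_dvd_exponent x)

end Cfsg.Agent.S4023
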