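import Cfsg.Statements.S4024
import Cfsg.Agent.S4023
import Cfsg.Agent.LibPSolv19
import Cfsg.Agent.LibCores
import Cfsg.Agent.LibFgBas

set_option autoImplicit false
open Cfsg

namespace Cfsg.Agent.S4024

set_option linter.style.haveILetI false
set_option linter.unusedSectionVars false
set_option linter.unusedVariables false

open CfsgLib.Cores
open scoped commutatorElement

universe u

/-- a normal `p`-section of a normal `p`-solvable subgroup -/
theorem exists_section {G : Type u} [Group G] [Finite G] {p : ℕ} [hp : Fact p.Prime]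
    (H : Subgroup G) [H.Normal] (hsolv : Cfsg.IsPSolvable p H) (hdiv : p ∣ Nat.card H) :
    ∃ K W : Subgroup G, K.Normal ∧ W.Normal ∧ K ≤ W ∧ W ≤ H ∧ ¬ p ∣ Nat.card K ∧
      p ∣ Nat.card W ∧ (∀ x ∈ W, x ^ p ∈ K) ∧ (∀ x ∈ W, ∀ y ∈ W, ⁅x, y⁆ ∈ K) := by
  set K : Subgroup G := Cfsg.pPrimeCore p G ⊓ H with hK
  have hKn : K.Normal := inferInstance
  have hKc : (Nat.card K).Coprime p :=
    Nat.Coprime.of_dvd_left (Subgroup.card_dvd_of_le inf_le_left) (pPrimeCore_coprime p)
  have hKp : ¬ p ∣ Nat.card K := by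
    intro h
    have := Nat.Coprime.eq_one_of_dvd hKc.symm h
    exact hp.out.one_lt.ne' this
  have hqs := QuotientGroup.mk'_surjective K
  set q := QuotientGroup.mk' K with hq
  have hqk : q.ker = K := QuotientGroup.ker_mk' K
  set Hb : Subgroup (G ⧸ K) := H.map q with hHb
  have hHbn : Hb.Normal := Subgroup.Normal.map inferInstance q hqs
  have hcom : Hb.comap q = H := by
    rw [hHb, Subgroup.comap_map_eq, hqk, sup_eq_left.mpr inf_le_right]
  have hHbc : Nat.card H = Nat.card K * Nat.card Hb := by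
    rw [← card_comap_mk K Hb]
    exact congrArg (fun S : Subgroup G => Nat.card S) hcom.symm
  have hpH : p ∣ Nat.card Hb := by
    rw [hHbc] at hdiv
    exact (hp.out.dvd_mul.mp hdiv).resolve_left hKp
  have hcore : Cfsg.pPrimeCore p (G ⧸ K) ⊓ Hb = ⊥ := by
    have h1 : (Cfsg.pPrimeCore p (G ⧸ K) ⊓ Hb).comap q ≤ Cfsg.pPrimeCore p G := by
      apply le_pPrimeCore inferInstance
      rw [card_comap_mk]
      exact Nat.Coprime.mul_left hKc
        (Nat.Coprime.of_dvd_left (Subgroup.card_dvd_of_le inf_le_left) (pPrimeCore_coprime p))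
    have h2 : (Cfsg.pPrimeCore p (G ⧸ K) ⊓ Hb).comap q ≤ H := by
      rw [← hcom]; exact Subgroup.comap_mono inf_le_right
    have h3 := Subgroup.map_mono (f := q) (le_inf h1 h2)
    rw [Subgroup.map_comap_eq_self_of_surjective hqs] at h3
    rw [eq_bot_iff]
    refine h3.trans ?_
    rw [← hK, QuotientGroup.map_mk'_self]
  have hne : Nontrivial Hb := by
    rw [← Finite.one_lt_card_iff_nontrivial]
    exact hp.out.one_lt.trans_le (Nat.le_of_dvd Nat.card_pos hpH)
  have hps : Cfsg.IsPSolvable p Hb := by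
    refine CfsgLib.PSolv19.psolv_of_surj hp.out (q.subgroupMap H) (MonoidHom.subgroupMap_surjective q H) hsolv
  have hcp : Cfsg.pCore p (G ⧸ K) ⊓ Hb ≠ ⊥ := by
    rcases CfsgLib.PSolv19.psolv_core_ne_bot hps with h | h
    · intro h0
      apply h
      rw [← map_pCore_of_normal] at h0
      exact (Subgroup.map_eq_bot_iff_of_injective _ Hb.subtype_injective).mp h0
    · exfalso
      apply h
      rw [← map_pPrimeCore_of_normal] at hcore
      exact (Subgroup.map_eq_bot_iff_of_injective _ Hb.subtype_injective).mp hcore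
  obtain ⟨M, hMn, hMle, hM0, hmin⟩ := exists_minimal_normal (Cfsg.pCore p (G ⧸ K) ⊓ Hb) hcp
  have hMp : IsPGroup p M := (pCore_isPGroup p).to_le (hMle.trans inf_le_left)
  have hMs : Group.IsSolvable M := by
    haveI := hMp.isNilpotent
    infer_instance
  obtain ⟨p', hp', hMc, hMe, hMp'⟩ := minimal_normal_elementary M hM0 hmin hMs
  have hMnt : Nontrivial M := (Subgroup.nontrivial_iff_ne_bot M).mpr hM0
  have hpM : p ∣ Nat.card M := by
    obtain ⟨n, hn, hc⟩ := hMp.nontrivial_iff_card.mp hMnt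
    rw [hc]; exact dvd_pow_self p hn.ne'
  have hpp : p = p' := by
    have : Fact p'.Prime := ⟨hp'⟩
    obtain ⟨n, hn, hc⟩ := hMp'.nontrivial_iff_card.mp hMnt
    rw [hc] at hpM
    exact (Nat.prime_dvd_prime_iff_eq hp.out hp').mp (hp.out.dvd_of_dvd_pow hpM)
  refine ⟨K, M.comap q, hKn, inferInstance, ?_, ?_, hKp, ?_, ?_, ?_⟩
  · intro x hx
    rw [Subgroup.mem_comap, (MonoidHom.mem_ker (f := q)).mp (by rw [hqk]; exact hx)]
    exact one_mem _
  · rw [← hcom]; exact Subgroup.comap_mono (hMle.trans inf_le_right)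
  · rw [card_comap_mk]; exact hpM.mul_left _
  · intro x hx
    rw [← hqk, MonoidHom.mem_ker, map_pow, hpp]
    exact hMe _ hx
  · intro x hx y hy
    rw [← hqk, MonoidHom.mem_ker, map_commutatorElement, commutatorElement_eq_one_iff_mul_comm]
    exact congrArg Subtype.val (hMc.is_comm.comm (⟨q x, hx⟩ : M) ⟨q y, hy⟩)

/-- Let p be an odd prime and G a finite group in which any two p-subgroups of the same order are conjugate, with Sylow p-subgroup P. If H is a normal p-solvable subgroup of G whose order is divisible by p, then P is abelian, and either P ≤ H or P is cyclic. -/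
theorem result {G : Type*} [Group G] [Finite G]
    {p : ℕ} [Fact p.Prime] (hp : p ≠ 2) (hC : ∀ H K : Subgroup G, IsPGroup p H → IsPGroup p K → Nat.card H = Nat.card K →
      ∃ g : G, K = H.map (MulAut.conj g).toMonoidHom) (P : Sylow p G)
    (H : Subgroup G) [H.Normal] (hsolv : Cfsg.IsPSolvable p H) (hdiv : p ∣ Nat.card H) :
    IsMulCommutative P ∧ ((P : Subgroup G) ≤ H ∨ IsCyclic P) := by
  have hpr : p.Prime := Fact.out
  obtain ⟨K, W, hKn, hWn, hKW, hWH, hKp, hWp, hWe, hWc⟩ := exists_section H hsolv hdiv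
  have hx : IsCyclic P ∨ ∀ x ∈ (P : Subgroup G), x ^ p = 1 := by
    rcases Cfsg.Agent.S4023.result hC P with h | h | h | h
    · exact Or.inl h
    · exact Or.inr h.2
    · exact absurd h.1 hp
    · right
      intro x hx
      have := Monoid.pow_exponent_eq_one (⟨x, hx⟩ : (P : Subgroup G))
      rw [h.2.2.2] at this
      exact congrArg Subtype.val this
  rcases hx with h | hexp
  · exact ⟨inferInstance, Or.inr h⟩
  -- the unique subgroup
  have hPK : (P : Subgroup G) ⊓ K = ⊥ := by
    have h1 : IsPGroup p ((P : Subgroup G) ⊓ K : Subgroup G) := P.2.to_le inf_le_left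
    obtain ⟨n, hn⟩ := h1.exists_card_eq
    rcases Nat.eq_zero_or_pos n with h0 | h0
    · rw [h0, pow_zero] at hn
      exact Subgroup.card_eq_one.mp hn
    · exfalso
      apply hKp
      refine (dvd_pow_self p h0.ne').trans ?_
      rw [← hn]
      exact Subgroup.card_dvd_of_le inf_le_right
  set V : Subgroup G := (P : Subgroup G) ⊓ W with hV
  have hVp : IsPGroup p V := P.2.to_le inf_le_left
  have hV0 : V ≠ ⊥ := by
    intro h0
    -- P ∩ W is Sylow in W
    obtain ⟨x, hxo⟩ := exists_prime_orderOf_dvd_card' p hWp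
    have hxo' : orderOf (x : G) = p := by rw [Subgroup.orderOf_coe]; exact hxo
    obtain ⟨g, hg⟩ := CfsgLib.FgBas.exists_conj_mem P (x := (x : G)) ⟨1, by rw [hxo', pow_one]⟩
    have h1 : g * (x : G) * g⁻¹ ∈ V := ⟨hg, hWn.conj_mem _ x.2 g⟩
    rw [h0, Subgroup.mem_bot] at h1
    have h2 : (x : G) = 1 := by
      have : g⁻¹ * (g * (x : G) * g⁻¹) * g = x := by group
      rw [← this, h1]; group
    rw [h2, orderOf_one] at hxo'
    exact hpr.one_lt.ne hxo'
  obtain ⟨k, hk⟩ := hVp.exists_card_eq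
  have hk1 : 1 ≤ k := by
    by_contra hlt
    apply hV0
    apply Subgroup.card_eq_one.mp
    rw [hk, show k = 0 by omega, pow_zero]
  have hPV : (P : Subgroup G) ≤ V := by
    intro x hx
    have hxo : ∃ n ≤ 1, orderOf (⟨x, hx⟩ : P) = p ^ n := by
      refine (Nat.dvd_prime_pow hpr).mp ?_
      rw [Subgroup.orderOf_mk, pow_one]
      exact orderOf_dvd_of_pow_eq_one (hexp x hx)
    obtain ⟨n, hn, hxn⟩ := hxo
    obtain ⟨B, hB, hBx⟩ := Sylow.exists_subgroup_card_pow_prime_le p (n := n) (m := k) (G := P)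
      (by rw [← hk]; exact Subgroup.card_dvd_of_le inf_le_left) (Subgroup.zpowers (⟨x, hx⟩ : P))
      (by rw [Nat.card_zpowers, hxn]) (by omega)
    have hBc : Nat.card (B.map (P : Subgroup G).subtype) = p ^ k := by
      rw [Subgroup.card_map_of_injective (P : Subgroup G).subtype_injective, hB]
    obtain ⟨g, hg⟩ := hC V (B.map (P : Subgroup G).subtype) hVp (IsPGroup.of_card hBc) (by rw [hk, hBc])
    have h1 : x ∈ B.map (P : Subgroup G).subtype := ⟨⟨x, hx⟩, hBx (Subgroup.mem_zpowers _), rfl⟩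
    rw [hg] at h1
    obtain ⟨v, hv, hvx⟩ := h1
    refine ⟨hx, ?_⟩
    rw [← hvx]
    exact hWn.conj_mem v hv.2 g
  refine ⟨⟨⟨fun a b => ?_⟩⟩, Or.inl ((hPV.trans inf_le_right).trans hWH)⟩
  apply Subtype.ext
  have h1 : ⁅(a : G), (b : G)⁆ ∈ (P : Subgroup G) ⊓ K :=
    ⟨by rw [commutatorElement_def]; exact (P : Subgroup G).mul_mem ((P : Subgroup G).mul_mem ((P : Subgroup G).mul_mem a.2 b.2) ((P : Subgroup G).inv_mem a.2)) ((P : Subgroup G).inv_mem b.2), hWc _ (hPV a.2).2 _ (hPV b.2).2⟩
  rw [hPK, Subgroup.mem_bot, commutatorElement_eq_one_iff_mul_comm] at h1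
  exact h1

end Cfsg.Agent.S4024
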