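import Cfsg.Statements.S4028
import Cfsg.Agent.LibFgBas

set_option autoImplicit false
open Cfsg

namespace Cfsg.Agent.S4028

set_option linter.style.haveILetI false
set_option linter.unusedSectionVars false
set_option linter.unusedVariables false

open Subgroup CfsgLib.FgBas

/-- Let G be a finite group with Sylow 2-subgroup P. Then N_G(⟨x⟩) = C_G(x) holds for every 2-element x of G if and only if N_P(⟨y⟩) = C_P(y) holds for every y ∈ P (computed inside P). -/
theorem result {G : Type*} [Group G] [Finite G] (P : Sylow 2 G) :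
    (∀ x : G, (∀ r : ℕ, r.Prime → r ∣ orderOf x → r = 2) →
      Subgroup.normalizer ((Subgroup.zpowers x : Subgroup G) : Set G) ≤ Subgroup.centralizer {x}) ↔
    (∀ y : ↥(P : Subgroup G), Subgroup.normalizer ((Subgroup.zpowers y : Subgroup ↥(P : Subgroup G)) : Set ↥(P : Subgroup G)) ≤
        Subgroup.centralizer {y}) := by
  classical
  haveI : Fact (Nat.Prime 2) := ⟨Nat.prime_two⟩
  constructor
  · intro h y g hg
    have h1 : ∀ r : ℕ, r.Prime → r ∣ orderOf (y : G) → r = 2 := by
      intro r hr hd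
      obtain ⟨k, hk⟩ := orderOf_eq_pow P.isPGroup' y.2
      rw [hk] at hd
      exact (Nat.prime_dvd_prime_iff_eq hr Nat.prime_two).mp (hr.dvd_of_dvd_pow hd)
    obtain ⟨k, hk⟩ := exists_pow_of_mem_normalizer hg
    have h2 : (g : G) * (y : G) * (g : G)⁻¹ = (y : G) ^ k := by
      have := congrArg Subtype.val hk
      exact this
    have h3 := h y h1 (mem_normalizer_of_pow h2)
    rw [CfsgLib.FgClass.mem_centralizer_singleton] at h3 ⊢
    exact Subtype.ext h3
  · intro h x hx g hg
    -- x has 2-power order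
    have hx2 : ∃ k, orderOf x = 2 ^ k := by
      refine ⟨_, Nat.eq_prime_pow_of_unique_prime_dvd (orderOf_pos x).ne' (fun {d} hd hdd => hx d hd hdd)⟩
    obtain ⟨a, b, ha, hb, hab, hba, hk, hb2⟩ := CfsgLib.FgElt.exists_p_decomp Nat.prime_two g
    have haN : a ∈ normalizer (zpowers x : Set G) := (zpowers_le.mpr hg) ha
    have hbN : b ∈ normalizer (zpowers x : Set G) := (zpowers_le.mpr hg) hb
    have haC : a ∈ centralizer ({x} : Set G) := by
      -- ⟨x⟩⟨a⟩ is a 2-group
      obtain ⟨k, hk⟩ := hk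
      obtain ⟨l, hl⟩ := hx2
      have h1 : IsPGroup 2 ↥(zpowers a ⊔ zpowers x) :=
        IsPGroup.to_sup_of_normal_right' (isPGroup_zpowers hk) (isPGroup_zpowers hl) (zpowers_le.mpr haN)
      obtain ⟨c, hc⟩ := exists_conj_le P h1
      have h2 := hc a ((le_sup_left : zpowers a ≤ _) (mem_zpowers a))
      have h3 := hc x ((le_sup_right : zpowers x ≤ _) (mem_zpowers x))
      obtain ⟨m, hm⟩ := exists_pow_of_mem_normalizer haN
      have h4 : (⟨_, h2⟩ : (P : Subgroup G)) * ⟨_, h3⟩ * (⟨_, h2⟩ : (P : Subgroup G))⁻¹ = (⟨_, h3⟩ : (P : Subgroup G)) ^ m := by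
        apply Subtype.ext
        change (c * a * c⁻¹) * (c * x * c⁻¹) * (c * a * c⁻¹)⁻¹ = (c * x * c⁻¹) ^ m
        rw [conj_pow, ← hm]; group
      have h5 := h _ (mem_normalizer_of_pow h4)
      rw [CfsgLib.FgClass.mem_centralizer_singleton] at h5
      have h6 : (c * a * c⁻¹) * (c * x * c⁻¹) = (c * x * c⁻¹) * (c * a * c⁻¹) := congrArg Subtype.val h5
      rw [CfsgLib.FgClass.mem_centralizer_singleton]
      have h7 : c * (a * x) * c⁻¹ = c * (x * a) * c⁻¹ := by
        calc c * (a * x) * c⁻¹ = (c * a * c⁻¹) * (c * x * c⁻¹) := by group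
          _ = _ := h6
          _ = _ := by group
      exact mul_left_cancel (mul_right_cancel h7)
    have hbC : b ∈ centralizer ({x} : Set G) := by
      obtain ⟨l, hl⟩ := hx2
      obtain ⟨m, hm⟩ := exists_pow_of_mem_normalizer hbN
      -- m is odd or x trivial
      rcases Nat.eq_zero_or_pos l with rfl | hl0
      · rw [pow_zero, orderOf_eq_one_iff] at hl
        rw [CfsgLib.FgClass.mem_centralizer_singleton, hl]; group
      have hmodd : m.Coprime (2 ^ l) := by
        have h1 : orderOf (x ^ m) = orderOf x := by rw [← hm]; exact orderOf_conj b x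
        rw [orderOf_pow, hl] at h1
        have h2 : Nat.gcd (2 ^ l) m ∣ 2 ^ l := Nat.gcd_dvd_left _ _
        have h3 : 2 ^ l * Nat.gcd (2 ^ l) m = 2 ^ l := by
          have h6 := Nat.div_mul_cancel h2
          rwa [h1] at h6
        have h4 : Nat.gcd (2 ^ l) m = 1 := by
          have h5 : 0 < 2 ^ l := by positivity
          exact Nat.eq_of_mul_eq_mul_left h5 (by rw [h3, mul_one])
        rw [Nat.gcd_comm] at h4
        exact h4
      have h1 := conj_pow_eq hm (Nat.totient (2 ^ l))
      have h2 : m ^ Nat.totient (2 ^ l) ≡ 1 [MOD 2 ^ l] := Nat.ModEq.pow_totient hmodd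
      have h3 : x ^ (m ^ Nat.totient (2 ^ l)) = x := by
        conv_rhs => rw [← pow_one x]
        rw [pow_eq_pow_iff_modEq, hl]; exact h2
      rw [h3] at h1
      have h4 : b ^ Nat.totient (2 ^ l) ∈ centralizer ({x} : Set G) := by
        rw [CfsgLib.FgClass.mem_centralizer_singleton]
        exact mul_inv_eq_iff_eq_mul.mp h1
      refine mem_of_pow_mem h4 ?_
      rw [Nat.totient_prime_pow Nat.prime_two hl0]
      exact Nat.Coprime.mul_right (Nat.Coprime.pow_right _ hb2) (by simp)
    rw [← hab]; exact mul_mem haC hbC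

end Cfsg.Agent.S4028
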