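import Cfsg.Statements.S4029
import Cfsg.Agent.S0160
import Cfsg.Agent.LibCharBasic3
import Cfsg.Agent.LibExtraH28
import Mathlib.GroupTheory.FiniteAbelian.Duality


set_option autoImplicit false
open Cfsg

namespace Cfsg.Agent.S4029

open Cfsg

theorem real_iff {P : Type*} [Group P] (hirr : ∀ y : P, Subgroup.normalizer ((Subgroup.zpowers y : Subgroup P) : Set P) ≤ Subgroup.centralizer {y})
    (g : P) : IsConj g g⁻¹ ↔ g * g = 1 := by
  constructor
  · intro h
    obtain ⟨c, hc⟩ := isConj_iff.1 h
    have h1 : c ∈ Subgroup.normalizer ((Subgroup.zpowers g : Subgroup P) : Set P) := by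
      rw [Subgroup.mem_normalizer_iff]
      intro x
      have key : ∀ n : ℤ, c * g ^ n * c⁻¹ = g ^ (-n) := by
        intro n
        rw [← conj_zpow, hc, inv_zpow, zpow_neg]
      constructor
      · rintro ⟨n, rfl⟩
        exact ⟨-n, (key n).symm⟩
      · rintro ⟨n, hn⟩
        refine ⟨-n, ?_⟩
        have h2 := key (-n)
        rw [neg_neg] at h2
        have h3 : g ^ n = c * x * c⁻¹ := hn
        rw [h3] at h2
        exact mul_left_cancel (mul_right_cancel h2)
    have h2 := Subgroup.mem_centralizer_singleton_iff.1 (hirr g h1)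
    have h3 : g⁻¹ = g := by
      rw [← hc, h2, mul_inv_cancel_right]
    exact mul_eq_one_iff_inv_eq.2 h3
  · intro h
    have : g⁻¹ = g := mul_eq_one_iff_inv_eq.1 h
    rw [this]

theorem card_le_real {P : Type*} [Group P] [Finite P] (hP : IsPGroup 2 P) :
    Nat.card (P ⧸ frattini P) ≤ Nat.card {χ : Cfsg.IrrCharacter P // ∀ g : P, ((χ : P → ℂ) g).im = 0} := by
  haveI : Fact (Nat.Prime 2) := ⟨Nat.prime_two⟩
  letI : CommGroup (P ⧸ frattini P) := { (inferInstance : Group (P ⧸ frattini P)) with
    mul_comm := by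
      intro x y
      induction x using QuotientGroup.induction_on with | _ x =>
      induction y using QuotientGroup.induction_on with | _ y =>
      have h1 := CfsgLib.ExtraH28.comm_mem_frattini hP x y
      have h2 : ((x * y * x⁻¹ * y⁻¹ : P) : P ⧸ frattini P) = 1 := (QuotientGroup.eq_one_iff _).2 h1
      have h3 : ((x * y : P) : P ⧸ frattini P) = ((x * y * x⁻¹ * y⁻¹ : P) : P ⧸ frattini P) * ((y * x : P) : P ⧸ frattini P) := by
        rw [← QuotientGroup.mk_mul]; congr 1; group
      rw [h2, one_mul] at h3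
      exact h3 }
  have hV : ∀ v : P ⧸ frattini P, v ^ 2 = 1 := by
    intro v
    induction v using QuotientGroup.induction_on with | _ x =>
    exact (QuotientGroup.eq_one_iff _).2 (CfsgLib.ExtraH28.pow_mem_frattini hP x)
  have hC : Nat.card (rootsOfUnity 2 ℂ) = 2 := by
    exact Complex.card_rootsOfUnity 2
  have hc := CfsgLib.ExtraH28.card_hom_elem (V := P ⧸ frattini P) (C := rootsOfUnity 2 ℂ) hV hC
  rw [← hc]
  apply Nat.card_le_card_of_injective (fun f : (P ⧸ frattini P) →* rootsOfUnity 2 ℂ =>
    (⟨⟨fun g => (((rootsOfUnity 2 ℂ).subtype.comp (f.comp (QuotientGroup.mk' (frattini P)))) g : ℂ),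
      CfsgLib.CharBasic.isIrrCharacter_hom _⟩, fun g => by
        show ((((f (g : P ⧸ frattini P)) : rootsOfUnity 2 ℂ) : ℂˣ) : ℂ).im = 0
        have h1 := (mem_rootsOfUnity' 2 _).1 (f (g : P ⧸ frattini P)).2
        generalize ((((f (g : P ⧸ frattini P)) : rootsOfUnity 2 ℂ) : ℂˣ) : ℂ) = z at h1
        rcases (sq_eq_one_iff.1 h1) with rfl | rfl
        · simp
        · simp⟩ : {χ : Cfsg.IrrCharacter P // ∀ g : P, ((χ : P → ℂ) g).im = 0}))
  intro f f' h
  ext v
  exact congrArg (fun χ : {χ : Cfsg.IrrCharacter P // ∀ g : P, ((χ : P → ℂ) g).im = 0} => (χ.1 : P → ℂ) v) h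


/-- Let P be a finite 2-group in which N_P(⟨y⟩) = C_P(y) for every y ∈ P. If s is the number of conjugacy classes of involutions of P, then #(P/Φ(P)) ≤ s + 1; in particular the subgroup generated by the involutions of P has order at least #(P/Φ(P)). -/
theorem result {P : Type*} [Group P] [Finite P] (hP : IsPGroup 2 P)
    (hirr : ∀ y : P, Subgroup.normalizer ((Subgroup.zpowers y : Subgroup P) : Set P) ≤ Subgroup.centralizer {y}) :
    Nat.card (P ⧸ frattini P) ≤ Nat.card {c : ConjClasses P // ∃ y : P, ConjClasses.mk y = c ∧ orderOf y = 2} + 1 ∧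
    Nat.card (P ⧸ frattini P) ≤ Nat.card (Subgroup.closure {y : P | orderOf y = 2}) := by
  have hinv : Nat.card {c : ConjClasses P // ∃ y : P, ConjClasses.mk y = c ∧ orderOf y = 2} + 1 = Nat.card {C : ConjClasses P // ∀ g : P, ConjClasses.mk g = C → IsConj g g⁻¹} := by
    classical
    have e : Option {c : ConjClasses P // ∃ y : P, ConjClasses.mk y = c ∧ orderOf y = 2} ≃ {C : ConjClasses P // ∀ g : P, ConjClasses.mk g = C → IsConj g g⁻¹} := by
      refine Equiv.ofBijective (fun o => match o with
        | none => ⟨ConjClasses.mk 1, fun g hg => by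
            have : g = 1 := by
              rw [ConjClasses.mk_eq_mk_iff_isConj] at hg
              exact isConj_one_left.1 hg
            rw [this, inv_one]⟩
        | some c => ⟨c.1, fun g hg => by
            obtain ⟨y, hy, hy2⟩ := c.2
            rw [← hy, ConjClasses.mk_eq_mk_iff_isConj] at hg
            rw [real_iff hirr]
            obtain ⟨d, rfl⟩ := isConj_iff.1 hg.symm
            have h2 : y * y = 1 := by rw [← sq, ← hy2, pow_orderOf_eq_one]
            calc d * y * d⁻¹ * (d * y * d⁻¹) = d * (y * y) * d⁻¹ := by group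
              _ = 1 := by rw [h2]; group⟩) ⟨?_, ?_⟩
      · rintro (_ | c) (_ | c') h
        · rfl
        · exfalso
          obtain ⟨y, hy, hy2⟩ := c'.2
          have h1 : ConjClasses.mk (1 : P) = c'.1 := congrArg Subtype.val h
          rw [← hy, ConjClasses.mk_eq_mk_iff_isConj] at h1
          have : y = 1 := isConj_one_right.1 h1
          rw [this, orderOf_one] at hy2
          norm_num at hy2
        · exfalso
          obtain ⟨y, hy, hy2⟩ := c.2
          have h1 : c.1 = ConjClasses.mk (1 : P) := congrArg Subtype.val h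
          rw [← hy, ConjClasses.mk_eq_mk_iff_isConj] at h1
          have : y = 1 := isConj_one_left.1 h1
          rw [this, orderOf_one] at hy2
          norm_num at hy2
        · have h1 : c.1 = c'.1 := congrArg (fun z : {C : ConjClasses P // ∀ g : P, ConjClasses.mk g = C → IsConj g g⁻¹} => z.1) h
          rw [Subtype.ext h1]
      · rintro ⟨C, hC⟩
        obtain ⟨g, rfl⟩ := ConjClasses.exists_rep C
        have h1 := (real_iff hirr g).1 (hC g rfl)
        by_cases hg : g = 1
        · refine ⟨none, ?_⟩
          subst hg; rfl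
        · refine ⟨some ⟨ConjClasses.mk g, g, rfl, ?_⟩, rfl⟩
          exact orderOf_eq_prime (by rw [sq]; exact h1) hg
    rw [← Nat.card_congr e, Finite.card_option]
  have h1 : Nat.card (P ⧸ frattini P) ≤ Nat.card {c : ConjClasses P // ∃ y : P, ConjClasses.mk y = c ∧ orderOf y = 2} + 1 := by
    rw [hinv, ← Cfsg.Agent.S0160.result]
    exact card_le_real hP
  refine ⟨h1, h1.trans ?_⟩
  classical
  rw [← Finite.card_option]
  have hrep : ∀ c : {c : ConjClasses P // ∃ y : P, ConjClasses.mk y = c ∧ orderOf y = 2}, ∃ y : P, ConjClasses.mk y = c.1 ∧ orderOf y = 2 := fun c => c.2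
  choose f hf1 hf2 using hrep
  apply Nat.card_le_card_of_injective (fun o => match o with
    | none => (1 : Subgroup.closure {y : P | orderOf y = 2})
    | some c => ⟨f c, Subgroup.subset_closure (hf2 c)⟩)
  rintro (_ | c) (_ | c') h
  · rfl
  · exfalso
    have h2 : (1 : P) = f c' := congrArg Subtype.val h
    have := hf2 c'
    rw [← h2, orderOf_one] at this
    norm_num at this
  · exfalso
    have h2 : f c = (1 : P) := congrArg Subtype.val h
    have := hf2 c
    rw [h2, orderOf_one] at this
    norm_num at this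
  · have h2 : f c = f c' := congrArg Subtype.val h
    have h3 : c.1 = c'.1 := by rw [← hf1 c, ← hf1 c', h2]
    rw [Subtype.ext h3]

end Cfsg.Agent.S4029
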