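import Cfsg.Statements.S4032
import Cfsg.Agent.LibFgBas
import Cfsg.Agent.LibCoprime

set_option autoImplicit false
open Cfsg

namespace Cfsg.Agent.S4032

set_option linter.style.haveILetI false
set_option linter.unusedSectionVars false
set_option linter.unusedVariables false

open Subgroup CfsgLib.FgBas
open scoped Pointwise

/-- Let π be a set of primes and G a finite group in which N_G(⟨x⟩) = C_G(x) for every π-element x. If N is a normal subgroup of G whose order is divisible by no prime of π, then G/N has the same property: N_{G/N}(⟨y⟩) = C_{G/N}(y) for every π-element y of G/N. -/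
theorem result {G : Type*} [Group G] [Finite G] (π : Set ℕ)
    (hirr : ∀ x : G, (∀ r : ℕ, r.Prime → r ∣ orderOf x → r ∈ π) →
      Subgroup.normalizer ((Subgroup.zpowers x : Subgroup G) : Set G) ≤ Subgroup.centralizer {x})
    (N : Subgroup G) [N.Normal] (hN : ∀ r : ℕ, r.Prime → r ∣ Nat.card N → r ∉ π) :
    ∀ y : G ⧸ N, (∀ r : ℕ, r.Prime → r ∣ orderOf y → r ∈ π) →
      Subgroup.normalizer ((Subgroup.zpowers y : Subgroup (G ⧸ N)) : Set (G ⧸ N)) ≤ Subgroup.centralizer {y} := by
  classical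
  intro y hy g hg
  obtain ⟨x0, rfl⟩ := QuotientGroup.mk'_surjective N y
  obtain ⟨g, rfl⟩ := QuotientGroup.mk'_surjective N g
  obtain ⟨a, b, ha, hb, hab, hba, hpa, hpb⟩ := CfsgLib.FgElt.exists_pi_decomp π x0
  -- the image of b is trivial
  have hb1 : QuotientGroup.mk' N b = 1 := by
    rw [← orderOf_eq_one_iff]
    by_contra hne
    obtain ⟨r, hr, hrd⟩ := Nat.exists_prime_and_dvd hne
    apply hpb r hr (hrd.trans (orderOf_map_dvd (QuotientGroup.mk' N) b))
    apply hy r hr
    refine hrd.trans ?_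
    obtain ⟨k, rfl⟩ := mem_zpowers_iff.mp hb
    rw [map_zpow]
    exact orderOf_dvd_of_mem_zpowers (zpow_mem (mem_zpowers _) k)
  have hax : QuotientGroup.mk' N x0 = QuotientGroup.mk' N a := by
    rw [← hab, map_mul, hb1, mul_one]
  rw [hax] at hg ⊢
  -- `⟨a⟩` and its conjugate by `g` are both in `N ⟨a⟩`
  have hcop : (Nat.card (zpowers a)).Coprime (Nat.card N) := by
    apply Nat.Coprime.symm
    apply Nat.coprime_of_dvd
    intro r hr hrN hra
    rw [Nat.card_zpowers] at hra
    exact hN r hr hrN (hpa r hr hra)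
  have hsol : Group.IsSolvable (zpowers a) := by
    apply Group.isSolvable_of_comm
    rintro ⟨u, hu⟩ ⟨v, hv⟩
    apply Subtype.ext
    obtain ⟨i, rfl⟩ := mem_zpowers_iff.mp hu
    obtain ⟨j, rfl⟩ := mem_zpowers_iff.mp hv
    change a ^ i * a ^ j = a ^ j * a ^ i
    rw [← zpow_add, ← zpow_add, add_comm]
  have hle : (zpowers (g * a * g⁻¹)) ≤ N ⊔ zpowers a := by
    rw [zpowers_le]
    have h1 := (mem_normalizer_iff.mp hg _).mp (mem_zpowers (QuotientGroup.mk' N a))
    obtain ⟨k, hk⟩ := mem_zpowers_iff.mp h1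
    have h2 : (QuotientGroup.mk' N) ((g * a * g⁻¹) * (a ^ k)⁻¹) = 1 := by
      rw [map_mul, map_mul, map_mul, map_inv, map_inv, map_zpow, hk]
      simp
    have h3 : (g * a * g⁻¹) * (a ^ k)⁻¹ ∈ N := by
      rw [← QuotientGroup.ker_mk' N]; exact h2
    have h4 : g * a * g⁻¹ = ((g * a * g⁻¹) * (a ^ k)⁻¹) * a ^ k := by group
    rw [h4]
    exact mul_mem (mem_sup_left h3) (mem_sup_right (zpow_mem (mem_zpowers a) k))
  obtain ⟨n, hn, hconj⟩ := CfsgLib.Coprime.sz_conj (N := N) (H := zpowers a) (K := zpowers (g * a * g⁻¹))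
    (by rw [normalizer_eq_top]; exact le_top) hcop (Or.inl hsol) hle (by
      rw [Nat.card_zpowers, Nat.card_zpowers, orderOf_conj])
  -- n⁻¹ g normalizes ⟨a⟩
  have h5 : n⁻¹ * g ∈ normalizer (zpowers a : Set G) := by
    have h6 : n⁻¹ * g * a * (n⁻¹ * g)⁻¹ ∈ zpowers a := by
      have h7 : g * a * g⁻¹ ∈ MulAut.conj n • zpowers a := by rw [hconj]; exact mem_zpowers _
      rw [mem_pointwise_smul_iff_inv_smul_mem] at h7
      have h8 : (MulAut.conj n)⁻¹ • (g * a * g⁻¹) = n⁻¹ * g * a * (n⁻¹ * g)⁻¹ := by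
        rw [← map_inv, MulAut.smul_def, MulAut.conj_apply]; group
      rwa [h8] at h7
    rw [mem_zpowers_iff_mem_range_orderOf] at h6
    obtain ⟨k, -, hk⟩ := Finset.mem_image.mp h6
    exact mem_normalizer_of_pow hk.symm
  have h9 := hirr a hpa h5
  rw [CfsgLib.FgClass.mem_centralizer_singleton] at h9 ⊢
  have h10 : QuotientGroup.mk' N (n⁻¹ * g) = QuotientGroup.mk' N g := by
    rw [map_mul, map_inv]
    have : QuotientGroup.mk' N n = 1 := (QuotientGroup.eq_one_iff n).mpr hn
    rw [this, inv_one, one_mul]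
  rw [← h10, ← map_mul, h9, map_mul]

end Cfsg.Agent.S4032
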