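import Cfsg.Statements.S4034
import Cfsg.Agent.LibFgClass
import Cfsg.Agent.LibCores
import Cfsg.Agent.LibCoprime
import Cfsg.Agent.LibSolvHall
import Cfsg.Agent.S0143

set_option autoImplicit false
open Cfsg

namespace Cfsg.Agent.S4034

set_option linter.style.haveILetI false

universe u v
open Subgroup CfsgLib.FgClass

/-- all `p`-regular classes have `p`-power size -/
def P1 (p : ℕ) (G : Type u) [Group G] : Prop :=
  ∀ x : G, (orderOf x).Coprime p → ∃ k : ℕ, (centralizer ({x} : Set G)).index = p ^ k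

theorem ppow_of_dvd {p m : ℕ} (hp : p.Prime) {k : ℕ} (h : m ∣ p ^ k) : ∃ j : ℕ, m = p ^ j := by
  obtain ⟨j, -, hj⟩ := (Nat.dvd_prime_pow hp).mp h
  exact ⟨j, hj⟩

theorem P1.normal {p : ℕ} (hp : p.Prime) {G : Type u} [Group G] [Finite G] (N : Subgroup G) [N.Normal]
    (h : P1 p G) : P1 p N := by
  intro x hx
  obtain ⟨k, hk⟩ := h (x : G) (by rwa [orderOf_coe])
  exact ppow_of_dvd hp (hk ▸ index_centralizer_normal_dvd N x)

theorem P1.quot {p : ℕ} (hp : p.Prime) {G : Type u} [Group G] [Finite G] (N : Subgroup G) [N.Normal]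
    (h : P1 p G) : P1 p (G ⧸ N) := by
  intro y hy
  obtain ⟨x, rfl, hx⟩ := exists_pRegular_lift hp (QuotientGroup.mk' N) (QuotientGroup.mk'_surjective N) hy
  obtain ⟨k, hk⟩ := h x hx
  exact ppow_of_dvd hp (hk ▸ index_centralizer_mk_dvd N x)

theorem P1.solvable {p : ℕ} (hp : p.Prime) (G : Type u) [Group G] [Finite G] (h : P1 p G) :
    Group.IsSolvable G := by
  refine solvable_induction (fun G _ _ => P1 p G) (fun G _ _ N _ h => P1.normal hp N h)
    (fun G _ _ N _ h => P1.quot hp N h) ?_ G h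
  intro G _ _ _ h
  by_cases hall : ∀ x : G, (orderOf x).Coprime p → x = 1
  · haveI : Fact p.Prime := ⟨hp⟩
    exact solvable_of_isPGroup (isPGroup_of_pRegular hp hall)
  · push Not at hall
    obtain ⟨x, hx, hx1⟩ := hall
    obtain ⟨k, hk⟩ := h x hx
    exact solvable_of_prime_card (Cfsg.Agent.S0143.result p k hp x hx1 hk)

/-- The Fitting subgroup when `O_p = 1`. -/
theorem fitting_coprime {p : ℕ} (hp : p.Prime) (G : Type u) [Group G] [Finite G]
    (h : pCore p G = ⊥) : (Nat.card (fittingSubgroup G)).Coprime p := by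
  haveI : Fact p.Prime := ⟨hp⟩
  rw [Nat.coprime_comm, hp.coprime_iff_not_dvd]
  intro hd
  have h1 := CfsgLib.Cores.not_dvd_relIndex_pCore_of_normal_nilpotent hp (fittingSubgroup G)
    CfsgLib.Cores.fittingSubgroup_isNilpotent
  rw [h, relIndex_bot_left] at h1
  exact h1 hd

theorem mem_fitting {p : ℕ} (hp : p.Prime) (G : Type u) [Group G] [Finite G] (hc : pCore p G = ⊥)
    (h : P1 p G) (x : G) (hx : (orderOf x).Coprime p) :
    x ∈ fittingSubgroup G ∧ fittingSubgroup G ≤ centralizer ({x} : Set G) := by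
  obtain ⟨k, hk⟩ := h x hx
  have h1 : fittingSubgroup G ≤ centralizer ({x} : Set G) := by
    apply normal_le_of_coprime_index
    rw [hk]
    exact Nat.Coprime.pow_right k (fitting_coprime hp G hc)
  refine ⟨?_, h1⟩
  haveI := P1.solvable hp G h
  apply CfsgLib.Cores.centralizer_fittingSubgroup_le
  rw [mem_centralizer_iff]
  intro y hy
  exact mem_centralizer_singleton.mp (h1 hy)

theorem forward {p : ℕ} (hp : p.Prime) (G : Type u) [Group G] [Finite G] (h : P1 p G) :
    ∃ H : Subgroup G, IsMulCommutative H ∧ ¬ p ∣ Nat.card H ∧ ∃ k : ℕ, H.index = p ^ k := by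
  haveI : Fact p.Prime := ⟨hp⟩
  set K := pCore p G with hK
  haveI : K.Normal := inferInstance
  have hcq : pCore p (G ⧸ K) = ⊥ := CfsgLib.Cores.pCore_quotient_pCore p
  have hq : P1 p (G ⧸ K) := P1.quot hp K h
  set F := fittingSubgroup (G ⧸ K) with hF
  have hFcop : (Nat.card F).Coprime p := fitting_coprime hp _ hcq
  have hreg : ∀ x ∈ F, (orderOf x).Coprime p := fun x hx =>
    Nat.Coprime.coprime_dvd_left (by
      have := orderOf_dvd_natCard (⟨x, hx⟩ : F)
      rwa [orderOf_mk] at this) hFcop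
  have hFab : ∀ x ∈ F, ∀ y ∈ F, x * y = y * x := by
    intro x hx y hy
    exact (mem_centralizer_singleton.mp ((mem_fitting hp _ hcq hq y (hreg y hy)).2 hx))
  have hFi : ∃ k : ℕ, F.index = p ^ k := by
    have h1 : IsPGroup p ((G ⧸ K) ⧸ F) := by
      apply isPGroup_of_pRegular hp
      intro y hy
      obtain ⟨x, rfl, hx⟩ := exists_pRegular_lift hp (QuotientGroup.mk' F) (QuotientGroup.mk'_surjective F) hy
      exact (QuotientGroup.eq_one_iff x).mpr (mem_fitting hp _ hcq hq x hx).1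
    exact (IsPGroup.iff_card.mp h1)
  obtain ⟨k, hk⟩ := hFi
  set N := F.comap (QuotientGroup.mk' K) with hN
  have hKN : K ≤ N := by
    intro x hx
    rw [hN, mem_comap]
    have : QuotientGroup.mk' K x = 1 := (QuotientGroup.eq_one_iff x).mpr hx
    rw [this]
    exact one_mem _
  have hKNi : K.relIndex N = Nat.card F := by
    have h1 := CfsgLib.Cores.card_comap_mk K F
    have h2 := CfsgLib.H7.card_mul_relIndex hKN
    rw [← hN, ← h2] at h1
    exact Nat.eq_of_mul_eq_mul_left Nat.card_pos h1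
  have hKp : ∃ m : ℕ, Nat.card K = p ^ m := IsPGroup.iff_card.mp (CfsgLib.Cores.pCore_isPGroup p)
  obtain ⟨m, hm⟩ := hKp
  obtain ⟨H, hHN, hHc, hinf, -⟩ := CfsgLib.Coprime.sz_exists hKN (by
    rw [normalizer_eq_top]; exact le_top) (by
      rw [hKNi, hm]; exact Nat.Coprime.pow_left m hFcop.symm)
  refine ⟨H, ⟨⟨fun a b => ?_⟩⟩, ?_, ?_⟩
  · apply Subtype.ext
    change (a : G) * b = b * a
    have h1 : (a : G) * b * ((b : G) * a)⁻¹ ∈ K ⊓ H := by
      refine mem_inf.mpr ⟨?_, H.mul_mem (H.mul_mem a.2 b.2) (H.inv_mem (H.mul_mem b.2 a.2))⟩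
      rw [← QuotientGroup.eq_one_iff]
      change QuotientGroup.mk' K ((a : G) * b * ((b : G) * a)⁻¹) = 1
      rw [map_mul, map_inv, mul_inv_eq_one, map_mul, map_mul]
      exact hFab _ (hHN a.2) _ (hHN b.2)
    rw [hinf, mem_bot, mul_inv_eq_one] at h1
    exact h1
  · rw [hHc, hKNi]
    exact (hp.coprime_iff_not_dvd).mp hFcop.symm
  · have h1 : H.relIndex N * N.index = H.index := relIndex_mul_index hHN
    have h2 : N.index = p ^ k := by
      rw [hN, index_comap_of_surjective _ (QuotientGroup.mk'_surjective K), hk]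
    have h3 := CfsgLib.H7.card_mul_relIndex hHN
    have h4 := CfsgLib.H7.card_mul_relIndex hKN
    rw [← h4, hHc, mul_comm (Nat.card K)] at h3
    have h5 := Nat.eq_of_mul_eq_mul_left (by rw [hKNi]; exact Nat.card_pos) h3
    exact ⟨m + k, by rw [← h1, h2, h5, hm, pow_add]⟩

/-- abelian `p`-complement -/
def P2 (p : ℕ) (G : Type u) [Group G] : Prop :=
  ∃ H : Subgroup G, (∀ a ∈ H, ∀ b ∈ H, a * b = b * a) ∧ ¬ p ∣ Nat.card H ∧ ∃ k : ℕ, H.index = p ^ k

theorem P2.normal {p : ℕ} (hp : p.Prime) {G : Type u} [Group G] [Finite G] (N : Subgroup G) [N.Normal]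
    (h : P2 p G) : P2 p N := by
  obtain ⟨H, hab, hd, k, hk⟩ := h
  refine ⟨H.subgroupOf N, ?_, ?_, ?_⟩
  · intro a ha b hb
    exact Subtype.ext (hab _ (mem_subgroupOf.mp ha) _ (mem_subgroupOf.mp hb))
  · intro h1
    apply hd
    refine h1.trans ?_
    have h2 : Nat.card (H.subgroupOf N) = Nat.card ((H.subgroupOf N).map N.subtype) :=
      (card_map_of_injective N.subtype_injective).symm
    rw [h2, subgroupOf_map_subtype]
    exact card_dvd_of_le inf_le_left
  · exact ppow_of_dvd hp (hk ▸ CfsgLib.H7.relIndex_dvd_index_of_normal_right H N)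

theorem P2.quot {p : ℕ} (hp : p.Prime) {G : Type u} [Group G] [Finite G] (N : Subgroup G) [N.Normal]
    (h : P2 p G) : P2 p (G ⧸ N) := by
  obtain ⟨H, hab, hd, k, hk⟩ := h
  refine ⟨H.map (QuotientGroup.mk' N), ?_, ?_, ?_⟩
  · rintro _ ⟨a, ha, rfl⟩ _ ⟨b, hb, rfl⟩
    rw [← map_mul, hab a ha b hb, map_mul]
  · intro h1
    exact hd (h1.trans (card_map_dvd _ _))
  · exact ppow_of_dvd hp (hk ▸ index_map_dvd H (QuotientGroup.mk'_surjective N))

theorem P2.solvable {p : ℕ} (hp : p.Prime) (G : Type u) [Group G] [Finite G] (h : P2 p G) :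
    Group.IsSolvable G := by
  refine solvable_induction (fun G _ _ => P2 p G) (fun G _ _ N _ h => P2.normal hp N h)
    (fun G _ _ N _ h => P2.quot hp N h) ?_ G h
  intro G _ _ _ h
  haveI : Fact p.Prime := ⟨hp⟩
  obtain ⟨H, hab, hd, k, hk⟩ := h
  rcases bot_or_exists_ne_one H with hb | ⟨x, hx, hx1⟩
  · rw [hb, index_bot] at hk
    exact solvable_of_isPGroup (IsPGroup.of_card hk)
  · have h1 : H ≤ centralizer ({x} : Set G) := by
      intro y hy
      rw [mem_centralizer_singleton]
      exact hab y hy x hx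
    obtain ⟨j, hj⟩ := ppow_of_dvd hp (hk ▸ index_dvd_of_le h1)
    exact solvable_of_prime_card (Cfsg.Agent.S0143.result p j hp x hx1 hj)

theorem backward {p : ℕ} (hp : p.Prime) (G : Type u) [Group G] [Finite G] (h : P2 p G) : P1 p G := by
  intro x hx
  haveI := P2.solvable hp G h
  obtain ⟨H, hab, hd, k, hk⟩ := h
  have hcard : Nat.card G = Nat.card H * p ^ k := by rw [← hk, card_mul_index]
  have hcop : (Nat.card H).Coprime (p ^ k) :=
    Nat.Coprime.pow_right k ((hp.coprime_iff_not_dvd.mpr hd).symm)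
  have hxd : Nat.card (zpowers x) ∣ Nat.card H := by
    rw [Nat.card_zpowers]
    have h1 : orderOf x ∣ Nat.card H * p ^ k := hcard ▸ orderOf_dvd_natCard x
    exact (Nat.Coprime.pow_right k hx).dvd_of_dvd_mul_right h1
  obtain ⟨g, hg⟩ := CfsgLib.SolvHall.hall_dominance _ G rfl _ _ hcard hcop (zpowers x) H hxd rfl
  have hgx : g * x * g⁻¹ ∈ H := by
    apply hg
    rw [mem_pointwise_smul_iff_inv_smul_mem, MulAut.smul_def, ← map_inv, MulAut.conj_apply, inv_inv]
    convert mem_zpowers x using 1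
    simp [mul_assoc]
  have h1 : H ≤ centralizer ({g * x * g⁻¹} : Set G) := by
    intro y hy
    rw [mem_centralizer_singleton]
    exact hab y hy _ hgx
  have h2 : (centralizer ({g * x * g⁻¹} : Set G)).index = (centralizer ({x} : Set G)).index := by
    rw [← ncard_carrier, ← ncard_carrier]
    congr 2
    rw [ConjClasses.mk_eq_mk_iff_isConj, isConj_comm, isConj_iff]
    exact ⟨g, rfl⟩
  rw [← h2]
  exact ppow_of_dvd hp (hk ▸ index_dvd_of_le h1)

/-- Let G be a finite group and p a prime. Every conjugacy class of p-regular elements of G (elements of order prime to p) has p-power size if and only if G has an abelian p-complement, i.e. an abelian subgroup of order prime to p and p-power index. -/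
theorem result {G : Type*} [Group G] [Finite G] {p : ℕ} (hp : p.Prime) :
    (∀ x : G, (orderOf x).Coprime p → ∃ k : ℕ, (ConjClasses.mk x).carrier.ncard = p ^ k) ↔
    (∃ H : Subgroup G, IsMulCommutative H ∧ ¬ p ∣ Nat.card H ∧ ∃ k : ℕ, H.index = p ^ k) := by
  simp only [ncard_carrier]
  constructor
  · intro h
    exact forward hp G h
  · rintro ⟨H, hab, hd, hk⟩
    refine backward hp G ⟨H, fun a ha b hb => ?_, hd, hk⟩
    exact congrArg Subtype.val (hab.is_comm.comm ⟨a, ha⟩ ⟨b, hb⟩)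

end Cfsg.Agent.S4034
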