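import Cfsg.Statements.S4035
import Cfsg.Agent.LibFgAct
import Cfsg.Agent.LibFgSyl
import Cfsg.Agent.LibFgClass
import Cfsg.Agent.LibH6Conj

set_option autoImplicit false
open Cfsg

namespace Cfsg.Agent.S4035

set_option linter.style.haveILetI false
set_option linter.unusedSectionVars false
set_option linter.unusedVariables false

open Subgroup

/-- Let G be a finite group and p a prime such that p divides the size of no conjugacy class of p-regular elements (elements of order prime to p). Then G is the internal direct product of a Sylow p-subgroup P and a normal subgroup H of order prime to p: P is normal, P ⊓ H = 1 and PH = G. -/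
theorem result {G : Type*} [Group G] [Finite G] {p : ℕ} [Fact p.Prime]
    (h : ∀ x : G, (orderOf x).Coprime p → ¬ p ∣ (ConjClasses.mk x).carrier.ncard) (P : Sylow p G) :
    (P : Subgroup G).Normal ∧ ∃ H : Subgroup G, H.Normal ∧ ¬ p ∣ Nat.card H ∧
      (P : Subgroup G) ⊓ H = ⊥ ∧ (P : Subgroup G) ⊔ H = ⊤ := by
  have hp : p.Prime := Fact.out
  -- for regular elements the centralizer contains a Sylow subgroup
  have hreg : ∀ b : G, (orderOf b).Coprime p → ∃ Q : Sylow p G, (Q : Subgroup G) ≤ centralizer ({b} : Set G) := by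
    intro b hb
    apply CfsgLib.FgSyl.exists_sylow_le
    rw [← CfsgLib.FgClass.ncard_carrier]
    exact h b hb
  have hcov : ∀ g : G, ∃ x : G, x⁻¹ * g * x ∈ (P : Subgroup G) ⊔ centralizer ((P : Subgroup G) : Set G) := by
    intro g
    obtain ⟨a, b, ha, hb, hab, hba, hk, hbp⟩ := CfsgLib.FgElt.exists_p_decomp hp g
    obtain ⟨Q, hQ⟩ := hreg b hbp
    have hcomm : a * b = b * a := by rw [hab, hba]
    have haC : a ∈ centralizer ({b} : Set G) := by
      rw [mem_centralizer_iff]
      rintro y rfl
      exact hcomm.symm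
    obtain ⟨k, hk⟩ := hk
    obtain ⟨c, hc⟩ := CfsgLib.FgBas.exists_conj_mem (Q.subtype hQ) (x := (⟨a, haC⟩ : centralizer ({b} : Set G)))
      ⟨k, by rw [Subgroup.orderOf_mk, hk]⟩
    have hc' : (c : G) * a * (c : G)⁻¹ ∈ (Q : Subgroup G) := hc
    have hcb : (c : G) * b * (c : G)⁻¹ = b := by
      have := mem_centralizer_iff.mp c.2 b rfl
      rw [← this, mul_inv_cancel_right]
    obtain ⟨t, ht⟩ := MulAction.exists_smul_eq G Q P
    have htm : ∀ x, x ∈ (Q : Subgroup G) → t * x * t⁻¹ ∈ (P : Subgroup G) := by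
      intro x hx
      rw [← ht]
      exact Subgroup.smul_mem_pointwise_smul x (MulAut.conj t) (Q : Subgroup G) hx
    have htm' : ∀ x, x ∈ (P : Subgroup G) → t⁻¹ * x * t ∈ (Q : Subgroup G) := by
      intro x hx
      rw [← ht] at hx
      obtain ⟨y, hy, hyx⟩ := hx
      have : t * y * t⁻¹ = x := hyx
      have h2 : t⁻¹ * x * t = y := by rw [← this]; group
      rw [h2]; exact hy
    refine ⟨(t * c)⁻¹, ?_⟩
    have h1 : (t * c)⁻¹⁻¹ * g * (t * c)⁻¹ = (t * (c * a * (c : G)⁻¹) * t⁻¹) * (t * b * t⁻¹) := by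
      have h2 : t * b * t⁻¹ = t * ((c : G) * b * (c : G)⁻¹) * t⁻¹ := by rw [hcb]
      rw [h2, ← hab]; group
    rw [h1]
    refine mul_mem (mem_sup_left (htm _ hc')) (mem_sup_right ?_)
    rw [mem_centralizer_iff]
    intro x hx
    have h3 := mem_centralizer_iff.mp (hQ (htm' x hx)) b rfl
    calc x * (t * b * t⁻¹) = t * ((t⁻¹ * x * t) * b) * t⁻¹ := by group
      _ = t * (b * (t⁻¹ * x * t)) * t⁻¹ := by rw [h3]
      _ = (t * b * t⁻¹) * x := by group
  have htop : (P : Subgroup G) ⊔ centralizer ((P : Subgroup G) : Set G) = ⊤ := by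
    by_contra hne
    obtain ⟨g, hg⟩ := CfsgLib.H6.exists_not_mem_conj _ hne
    obtain ⟨x, hx⟩ := hcov g
    exact hg x hx
  have hPn : (P : Subgroup G).Normal := by
    rw [← normalizer_eq_top_iff, eq_top_iff, ← htop]
    exact sup_le le_normalizer (centralizer_le_normalizer _)
  refine ⟨hPn, ?_⟩
  obtain ⟨H, hH⟩ := exists_right_complement'_of_coprime (N := (P : Subgroup G)) P.card_coprime_index
  have hHc : H ≤ centralizer ((P : Subgroup G) : Set G) := by
    intro x hx
    have hcard : Nat.card H = (P : Subgroup G).index := hH.symm.index_eq_card.symm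
    obtain ⟨Q, hQ⟩ := hreg x (by
      have h1 : orderOf x ∣ (P : Subgroup G).index := by
        have := orderOf_dvd_natCard (⟨x, hx⟩ : H)
        rwa [Subgroup.orderOf_mk, hcard] at this
      exact (Nat.Coprime.coprime_dvd_left h1 ((Nat.Prime.coprime_iff_not_dvd hp).mpr P.not_dvd_index).symm))
    have hPQ : (P : Subgroup G) = (Q : Subgroup G) :=
      Q.is_maximal' P.isPGroup' (CfsgLib.FgBas.le_of_normal P hPn Q.isPGroup')
    rw [← hPQ] at hQ
    rw [mem_centralizer_iff]
    intro y hy
    exact (mem_centralizer_iff.mp (hQ hy) x rfl).symm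
  refine ⟨H, ?_, ?_, disjoint_iff.mp hH.disjoint, hH.sup_eq_top⟩
  · rw [← normalizer_eq_top_iff, eq_top_iff, ← hH.sup_eq_top]
    refine sup_le ?_ le_normalizer
    refine le_trans ?_ (centralizer_le_normalizer _)
    exact le_centralizer_iff.mp hHc
  · have hcard : Nat.card H = (P : Subgroup G).index := hH.symm.index_eq_card.symm
    rw [hcard]; exact P.not_dvd_index

end Cfsg.Agent.S4035
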