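import Cfsg.Statements.S4036
import Cfsg.Agent.EqBase

set_option autoImplicit false
open Cfsg

namespace Cfsg.Agent.S4036

set_option linter.style.haveILetI false
set_option linter.unusedSectionVars false
set_option linter.unusedVariables false

open Subgroup

/-- Let P be a finite abelian p-group and K a group of automorphisms of P (a subgroup of Aut P) whose order is divisible by p. If all non-identity elements of K have the same fixed-point subgroup on P, then K has no non-trivial normal subgroup of order prime to p. -/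
theorem result {P : Type*} [CommGroup P] [Finite P] {p : ℕ}
    [Fact p.Prime] (hP : IsPGroup p P) (K : Subgroup (MulAut P)) (hK : p ∣ Nat.card K)
    (hfix : ∀ x y : MulAut P, x ∈ K → y ∈ K → x ≠ 1 → y ≠ 1 → ∀ v : P, x v = v ↔ y v = v) :
    ∀ N : Subgroup ↥K, N.Normal → ¬ p ∣ Nat.card N → N = ⊥ := by
  classical
  intro N hN hpN
  haveI : Finite (MulAut P) := inferInstance
  haveI := Fintype.ofFinite N
  by_contra hne
  obtain ⟨n0, hn0⟩ := Subgroup.ne_bot_iff_exists_ne_one.mp hne
  obtain ⟨y, hy⟩ := exists_prime_orderOf_dvd_card' p hK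
  have hy1 : (y : MulAut P) ≠ 1 := by
    intro h
    have : y = 1 := Subtype.ext h
    rw [this, orderOf_one] at hy
    exact (Fact.out (p := p.Prime)).one_lt.ne hy
  have hn0' : ((n0 : K) : MulAut P) ≠ 1 := by
    intro h
    exact hn0 (Subtype.ext (Subtype.ext h))
  let ν : P →* P :=
    { toFun := fun v => ∏ n : N, ((n : K) : MulAut P) v
      map_one' := by simp
      map_mul' := by
        intro a b
        rw [← Finset.prod_mul_distrib]
        exact Finset.prod_congr rfl fun n _ => map_mul _ _ _ }
  have hν : ∀ v, ν v = ∏ n : N, ((n : K) : MulAut P) v := fun v => rfl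
  have hright : ∀ (m : N) (v : P), ν (((m : K) : MulAut P) v) = ν v := by
    intro m v
    rw [hν, hν]
    exact Fintype.prod_equiv (Equiv.mulRight m) _ _ (fun n => rfl)
  have hconj : ∀ (g : K) (v : P), ν ((g : MulAut P) v) = (g : MulAut P) (ν v) := by
    intro g v
    rw [hν, hν, map_prod]
    refine Fintype.prod_equiv (MulAut.conjNormal g⁻¹ : MulAut N).toEquiv _ _ (fun n => ?_)
    change ((n : K) : MulAut P) ((g : MulAut P) v) = (g : MulAut P) (((((MulAut.conjNormal g⁻¹ : MulAut N) n : N) : K) : MulAut P) v)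
    have h1 : (((MulAut.conjNormal g⁻¹ : MulAut N) n : N) : K) = g⁻¹ * n * g := by
      rw [MulAut.conjNormal_apply, inv_inv]
    rw [h1]
    change ((n : K) : MulAut P) ((g : MulAut P) v) = ((g : MulAut P) * (((g⁻¹ * n * g : K)) : MulAut P)) v
    have h2 : (g : MulAut P) * (((g⁻¹ * n * g : K)) : MulAut P) = ((n : K) : MulAut P) * (g : MulAut P) := by
      rw [← Subgroup.coe_mul, ← Subgroup.coe_mul]; congr 1; group
    rw [h2]; rfl
  have hfixN : ∀ v : P, ((n0 : K) : MulAut P) v = v → ν v = v ^ Fintype.card N := by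
    intro v hv
    rw [hν]
    have : ∀ n : N, ((n : K) : MulAut P) v = v := by
      intro n
      by_cases h1 : ((n : K) : MulAut P) = 1
      · rw [h1]; rfl
      · exact (hfix _ _ (n0 : K).2 (n : K).2 hn0' h1 v).mp hv
    rw [Finset.prod_congr rfl (fun n _ => this n), Finset.prod_const, Finset.card_univ]
  have hker : ν.ker = ⊥ := by
    by_contra hW
    let W := ν.ker
    have hpW : p ∣ Nat.card W := by
      obtain ⟨k, hk⟩ := IsPGroup.iff_card.mp (hP.to_subgroup W)
      have : 1 < Nat.card W := (Subgroup.one_lt_card_iff_ne_bot W).mpr hW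
      rw [hk] at this ⊢
      exact dvd_pow_self p (by rintro rfl; simp at this)
    letI act : MulAction (zpowers y) W :=
      { smul := fun g w => ⟨((g : K) : MulAut P) w, by
          rw [MonoidHom.mem_ker, hconj, (MonoidHom.mem_ker).mp w.2, map_one]⟩
        one_smul := fun w => Subtype.ext rfl
        mul_smul := fun g h w => Subtype.ext rfl }
    have hYp : IsPGroup p (zpowers y) := IsPGroup.of_card (n := 1) (by rw [Nat.card_zpowers, hy, pow_one])
    have h1fix : (1 : W) ∈ MulAction.fixedPoints (zpowers y) W := by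
      intro g
      exact Subtype.ext (map_one ((g : K) : MulAut P))
    obtain ⟨w, hw, hw1⟩ := hYp.exists_fixed_point_of_prime_dvd_card_of_fixed_point W hpW h1fix
    have hyw : (y : MulAut P) (w : P) = w := congrArg Subtype.val (hw ⟨y, mem_zpowers y⟩)
    have hn0w : ((n0 : K) : MulAut P) (w : P) = w := (hfix _ _ y.2 (n0 : K).2 hy1 hn0' (w : P)).mp hyw
    have h2 := hfixN _ hn0w
    rw [(MonoidHom.mem_ker).mp w.2] at h2
    have h3 : orderOf (w : P) ∣ Fintype.card N := orderOf_dvd_of_pow_eq_one h2.symm
    obtain ⟨k, hk⟩ := (IsPGroup.iff_orderOf.mp hP) (w : P)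
    have h4 : k ≠ 0 := by
      rintro rfl
      rw [pow_zero, orderOf_eq_one_iff] at hk
      exact hw1 (Subtype.ext hk.symm)
    apply hpN
    rw [Nat.card_eq_fintype_card]
    exact (dvd_pow_self p h4).trans (hk ▸ h3)
  apply hn0'
  ext v
  exact ((MonoidHom.ker_eq_bot_iff ν).mp hker) (hright n0 v)

end Cfsg.Agent.S4036
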