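import Cfsg.Statements.S4043
import Cfsg.Agent.LibFgAct
import Cfsg.Agent.LibTransPC
import Cfsg.Agent.LibCoprime

set_option autoImplicit false
open Cfsg

namespace Cfsg.Agent.S4043

set_option linter.style.haveILetI false
set_option linter.unusedSectionVars false
set_option linter.unusedVariables false

open Subgroup Pointwise

theorem core {G : Type*} [Group G] [Finite G] {p : ℕ} [Fact p.Prime] (N : Subgroup G) [N.Normal] (hN : IsPGroup p N)
    (A : Subgroup G) (hA : A.IsComplement' N) (hAp : Cfsg.HasNormalPComplement p A)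
    (hC : ∀ n : G, n ∈ N → (∀ a : G, a ∈ A → a * n * a⁻¹ = n) → n = 1) :
    ∃ K : Subgroup G, K ≤ A ∧ A = normalizer (K : Set G) ∧ ¬ p ∣ Nat.card K ∧ ∃ k, Nat.card A = Nat.card K * p ^ k := by
  rw [CfsgLib.TransPC.hasNPC_iff] at hAp
  obtain ⟨K0, hK0⟩ := hAp
  haveI := hK0.1
  obtain ⟨P0⟩ := (inferInstance : Nonempty (Sylow p A))
  have hcomp := hK0.isComplement' P0
  set K := K0.map A.subtype with hK
  set P := (P0 : Subgroup A).map A.subtype with hP
  have hKA : K ≤ A := map_subtype_le _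
  have hPA : P ≤ A := map_subtype_le _
  have hsup : K ⊔ P = A := by
    rw [hK, hP, ← Subgroup.map_sup, hcomp.sup_eq_top, ← MonoidHom.range_eq_map, range_subtype]
  have hAK : A ≤ normalizer (K : Set G) := by
    intro a ha
    rw [mem_normalizer_iff]
    intro x
    constructor
    · rintro ⟨y, hy, rfl⟩
      exact ⟨⟨a, ha⟩ * y * ⟨a, ha⟩⁻¹, hK0.1.conj_mem y hy _, rfl⟩
    · rintro ⟨y, hy, hyx⟩
      refine ⟨⟨a, ha⟩⁻¹ * y * ⟨a, ha⟩, by simpa using hK0.1.conj_mem y hy (⟨a, ha⟩⁻¹), ?_⟩
      have h1 : ((y : A) : G) = a * x * a⁻¹ := hyx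
      change a⁻¹ * (y : G) * a = x
      rw [h1]; group
  have hcardK : ¬ p ∣ Nat.card K := by
    rw [hK, card_map_of_injective A.subtype_injective]; exact hK0.2.1
  obtain ⟨k, hk⟩ := hK0.2.2
  have hcardA : Nat.card A = Nat.card K * p ^ k := by
    rw [← hk, hK, card_map_of_injective A.subtype_injective, K0.card_mul_index]
  have hNK : N ⊓ K = ⊥ := by
    apply inf_eq_bot_of_coprime
    obtain ⟨j, hj⟩ := IsPGroup.iff_card.mp hN
    rw [hj]
    exact Nat.Coprime.pow_left j ((Nat.Prime.coprime_iff_not_dvd Fact.out).mpr hcardK)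
  refine ⟨K, hKA, ?_, hcardK, k, hcardA⟩
  have hcent : N ⊓ centralizer (K : Set G) = ⊥ := by
    by_contra hne
    have hPp : IsPGroup p P := P0.isPGroup'.map _
    have hPn : P ≤ normalizer ((N ⊓ centralizer (K : Set G) : Subgroup G) : Set G) := by
      intro x hx
      have hxK := hAK (hPA hx)
      rw [mem_normalizer_iff_map_conj_eq]
      apply Subgroup.eq_of_le_of_card_ge
      · rintro _ ⟨c, hc, rfl⟩
        obtain ⟨hc1, hc2⟩ := Subgroup.mem_inf.mp hc
        refine Subgroup.mem_inf.mpr ⟨Normal.conj_mem inferInstance _ hc1 x, ?_⟩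
        rw [mem_centralizer_iff]
        intro y hy
        have h1 : x⁻¹ * y * x ∈ K := by
          have := (mem_normalizer_iff.mp (inv_mem hxK) y).mp hy
          rwa [inv_inv] at this
        have h2 := mem_centralizer_iff.mp hc2 _ h1
        change y * (x * c * x⁻¹) = (x * c * x⁻¹) * y
        calc y * (x * c * x⁻¹) = x * ((x⁻¹ * y * x) * c) * x⁻¹ := by group
          _ = x * (c * (x⁻¹ * y * x)) * x⁻¹ := by rw [h2]
          _ = _ := by group
      · rw [card_map_of_injective (MulAut.conj x).injective]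
    obtain ⟨c, hc, hc1, hcf⟩ := CfsgLib.FgAct.exists_fixed P _ hPp (hN.to_le inf_le_left) hne hPn
    obtain ⟨hcN, hcK⟩ := Subgroup.mem_inf.mp hc
    apply hc1
    apply hC c hcN
    have h3 : A ≤ centralizer ({c} : Set G) := by
      rw [← hsup]
      apply sup_le
      · intro x hx
        rw [mem_centralizer_iff]
        rintro y rfl
        exact (mem_centralizer_iff.mp hcK x hx).symm
      · intro x hx
        rw [mem_centralizer_iff]
        rintro y rfl
        have := hcf x hx
        rw [mul_inv_eq_iff_eq_mul] at this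
        exact this.symm
    intro a ha
    have := mem_centralizer_iff.mp (h3 ha) c rfl
    rw [← this, mul_inv_cancel_right]
  have hnorm : N ⊓ normalizer (K : Set G) = ⊥ := by
    rw [eq_bot_iff, ← hcent]
    intro n hn
    obtain ⟨hn1, hn2⟩ := Subgroup.mem_inf.mp hn
    exact Subgroup.mem_inf.mpr ⟨hn1, CfsgLib.FgAct.centralizes_of_normalizes hNK hn1 hn2⟩
  apply Subgroup.eq_of_le_of_card_ge hAK
  have h1 := CfsgLib.FgAct.card_le_index N _ hnorm
  rw [hA.index_eq_card] at h1
  exact h1


/-- Let G be a finite group that is the semidirect product of a normal p-subgroup N by a subgroup A, and also of N by a subgroup A₁, where p is a prime and A and A₁ both have normal p-complements. If C_N(A) = C_N(A₁) = 1, then A₁ is conjugate to A by an element of N. -/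
theorem result {G : Type*} [Group G] [Finite G] {p : ℕ}
    [Fact p.Prime] (N : Subgroup G) [N.Normal] (hN : IsPGroup p N) (A A₁ : Subgroup G)
    (hA : A.IsComplement' N) (hA₁ : A₁.IsComplement' N)
    (hAp : Cfsg.HasNormalPComplement p A) (hA₁p : Cfsg.HasNormalPComplement p A₁)
    (hC : ∀ n : G, n ∈ N → (∀ a : G, a ∈ A → a * n * a⁻¹ = n) → n = 1)
    (hC₁ : ∀ n : G, n ∈ N → (∀ a : G, a ∈ A₁ → a * n * a⁻¹ = n) → n = 1) :
    ∃ n : G, n ∈ N ∧ A₁ = A.map (MulAut.conj n).toMonoidHom := by
  have hp : p.Prime := Fact.out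
  obtain ⟨K, hKA, hAK, hK, k, hk⟩ := core N hN A hA hAp hC
  obtain ⟨K₁, hKA₁, hAK₁, hK₁, k₁, hk₁⟩ := core N hN A₁ hA₁ hA₁p hC₁
  have hcardA : Nat.card A = Nat.card A₁ := by rw [← hA.index_eq_card, ← hA₁.index_eq_card]
  have hcop : (Nat.card K).Coprime p := ((Nat.Prime.coprime_iff_not_dvd hp).mpr hK).symm
  have hcop₁ : (Nat.card K₁).Coprime p := ((Nat.Prime.coprime_iff_not_dvd hp).mpr hK₁).symm
  have hcardK : Nat.card K₁ = Nat.card K := by
    apply Nat.dvd_antisymm
    · refine (hcop₁.pow_right k).dvd_of_dvd_mul_right ?_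
      rw [← hk, hcardA, hk₁]; exact Dvd.intro _ rfl
    · refine (hcop.pow_right k₁).dvd_of_dvd_mul_right ?_
      rw [← hk₁, ← hcardA, hk]; exact Dvd.intro _ rfl
  obtain ⟨j, hj⟩ := IsPGroup.iff_card.mp hN
  have hcopN : (Nat.card K).Coprime (Nat.card N) := by rw [hj]; exact hcop.pow_right j
  -- `N ⊔ K` is normal of `p`-power index
  have hAn : A ≤ normalizer (K : Set G) := hAK.le
  have hnormal : (N ⊔ K).Normal := by
    rw [← normalizer_eq_top_iff, eq_top_iff, ← hA.sup_eq_top]
    apply sup_le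
    · intro a ha
      rw [mem_normalizer_iff_map_conj_eq, Subgroup.map_sup, mem_normalizer_iff_map_conj_eq.mp (hAn ha)]
      rw [Subgroup.Normal.map_conj_eq]
    · exact le_sup_left.trans le_normalizer
  have hcardsup : Nat.card ↥(N ⊔ K) = Nat.card N * Nat.card K := by
    have h1 := CfsgLib.SolvBasic.card_sup_of_normal N K
    rw [inf_eq_bot_of_coprime hcopN.symm, card_bot, mul_one] at h1
    exact h1
  have hidx : (N ⊔ K).index = p ^ k := by
    have h1 := (N ⊔ K).card_mul_index
    have h2 := N.card_mul_index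
    rw [hA.index_eq_card, hk] at h2
    rw [hcardsup, ← h2, ← mul_assoc] at h1
    exact Nat.eq_of_mul_eq_mul_left (Nat.mul_pos Nat.card_pos Nat.card_pos) h1
  have hK₁le : K₁ ≤ N ⊔ K := by
    intro x hx
    apply CfsgLib.FgAct.mem_of_coprime_index
    rw [hidx]
    apply Nat.Coprime.pow_right
    apply Nat.Coprime.coprime_dvd_left _ hcop₁
    have := orderOf_dvd_natCard (⟨x, hx⟩ : K₁)
    rwa [Subgroup.orderOf_mk] at this
  obtain ⟨n, hn, hnK⟩ := CfsgLib.Coprime.sz_conj (N := N) (H := K) (K := K₁) (by rw [normalizer_eq_top]; exact le_top)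
    hcopN (Or.inr (by
      haveI := hN.isNilpotent
      infer_instance)) hK₁le hcardK
  refine ⟨n, hn, ?_⟩
  symm
  apply Subgroup.eq_of_le_of_card_ge
  · rw [hAK₁]
    rintro _ ⟨a, ha, rfl⟩
    rw [mem_normalizer_iff_map_conj_eq]
    have h1 : (K₁.map (MulAut.conj ((MulAut.conj n).toMonoidHom a)).toMonoidHom) = K₁ := by
      rw [← hnK]
      change (K.map (MulAut.conj n).toMonoidHom).map (MulAut.conj (n * a * n⁻¹)).toMonoidHom = K.map (MulAut.conj n).toMonoidHom
      rw [Subgroup.map_map]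
      have h2 : (MulAut.conj (n * a * n⁻¹)).toMonoidHom.comp (MulAut.conj n).toMonoidHom =
          (MulAut.conj n).toMonoidHom.comp (MulAut.conj a).toMonoidHom := by
        refine MonoidHom.ext (fun x => ?_)
        change (n * a * n⁻¹) * (n * x * n⁻¹) * (n * a * n⁻¹)⁻¹ = n * (a * x * a⁻¹) * n⁻¹
        group
      rw [h2, ← Subgroup.map_map]
      congr 1
      exact mem_normalizer_iff_map_conj_eq.mp (hAn ha)
    exact h1
  · rw [card_map_of_injective (MulAut.conj n).injective]
    exact hcardA.ge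

end Cfsg.Agent.S4043
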