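import Cfsg.Statements.S4051
import Cfsg.Agent.LibFgPi2

set_option autoImplicit false
open Cfsg

namespace Cfsg.Agent.S4051

set_option linter.style.haveILetI false
set_option linter.unusedSectionVars false
set_option linter.unusedVariables false

open Subgroup CfsgLib.FgPi

/-- Let π be a set of primes and G a finite group such that N_G(H)/C_G(H) is a π'-group for every nontrivial π'-subgroup H of G. If K is a normal subgroup of G such that the π-elements of K form a subgroup and the π-elements of G/K form a subgroup, then the π-elements of G form a subgroup. -/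
theorem result {G : Type*} [Group G] [Finite G] (π : Set ℕ)
    (hπ : ∀ p ∈ π, p.Prime) (hhom : (∀ H : Subgroup G, H ≠ ⊥ → (∀ p : ℕ, p.Prime → p ∣ Nat.card ↥H → p ∉ π) →
        ∀ p : ℕ, p.Prime → p ∣ (Subgroup.centralizer (H : Set G)).relIndex (Subgroup.normalizer (H : Set G)) → p ∉ π))
    (K : Subgroup G) [K.Normal]
    (hK : ∃ L : Subgroup ↥K, ∀ x : ↥K, x ∈ L ↔ ∀ p : ℕ, p.Prime → p ∣ orderOf x → p ∈ π)
    (hQ : ∃ L : Subgroup (G ⧸ K), ∀ x : G ⧸ K, x ∈ L ↔ ∀ p : ℕ, p.Prime → p ∣ orderOf x → p ∈ π) :
    (∃ K : Subgroup G, ∀ x : G, x ∈ K ↔ ∀ p : ℕ, p.Prime → p ∣ orderOf x → p ∈ π) := by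
  obtain ⟨L, hL⟩ := hK
  obtain ⟨M, hM⟩ := hQ
  obtain ⟨hLn, hL1, hL2⟩ := of_piElements (π := π) L hL
  obtain ⟨hMn, hM1, hM2⟩ := of_piElements (π := π) M hM
  apply exists_of_sep _ (star_of_hom hhom)
  have hLn' : (L.map K.subtype).Normal := by
    refine ⟨?_⟩
    rintro _ ⟨x, hx, rfl⟩ g
    have hgx : g * (x : G) * g⁻¹ ∈ K := Normal.conj_mem inferInstance _ x.2 g
    refine ⟨⟨g * x * g⁻¹, hgx⟩, ?_, rfl⟩
    rw [SetLike.mem_coe, hL]
    have h1 := (hL x).mp hx
    have h2 : orderOf (⟨g * x * g⁻¹, hgx⟩ : K) = orderOf x := by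
      rw [← Subgroup.orderOf_coe, ← Subgroup.orderOf_coe x]
      exact CfsgLib.FgBas.orderOf_conj g x
    rw [h2]; exact h1
  refine ⟨4, ![⊥, L.map K.subtype, K, M.comap (QuotientGroup.mk' K), ⊤], rfl, rfl, ?_, ?_, ?_⟩
  · have h1 : L.map K.subtype ≤ K := map_subtype_le _
    have h2 : K ≤ M.comap (QuotientGroup.mk' K) := by
      intro x hx
      rw [mem_comap]
      have : QuotientGroup.mk' K x = 1 := (QuotientGroup.eq_one_iff _).mpr hx
      rw [this]; exact one_mem M
    apply Fin.monotone_iff_le_succ.mpr
    intro i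
    fin_cases i
    · exact bot_le
    · exact h1
    · exact h2
    · exact le_top
  · intro i
    fin_cases i
    · exact (inferInstance : (⊥ : Subgroup G).Normal)
    · exact hLn'
    · exact (inferInstance : K.Normal)
    · exact (inferInstance : (M.comap (QuotientGroup.mk' K)).Normal)
    · exact (inferInstance : (⊤ : Subgroup G).Normal)
  · intro i
    fin_cases i
    · left
      change PiN π ((⊥ : Subgroup G).relIndex (L.map K.subtype))
      rw [relIndex_bot_left, card_map_of_injective K.subtype_injective]; exact hL1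
    · right
      change PiN πᶜ ((L.map K.subtype).relIndex K)
      have : (L.map K.subtype).relIndex K = L.index := by
        rw [relIndex, subgroupOf, comap_map_eq_self_of_injective K.subtype_injective]
      rw [this]; exact hL2
    · left
      change PiN π (K.relIndex (M.comap (QuotientGroup.mk' K)))
      have h1 := CfsgLib.SolvBasic.card_comap_mk' K M
      have h2 := CfsgLib.Coprime.card_mul_relIndex (N := K) (L := M.comap (QuotientGroup.mk' K)) (by
        intro x hx
        rw [mem_comap]
        have : QuotientGroup.mk' K x = 1 := (QuotientGroup.eq_one_iff _).mpr hx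
        rw [this]; exact one_mem M)
      rw [h1, mul_comm] at h2
      rw [Nat.eq_of_mul_eq_mul_right Nat.card_pos h2]
      exact hM1
    · right
      change PiN πᶜ ((M.comap (QuotientGroup.mk' K)).relIndex ⊤)
      rw [relIndex_top_right, index_comap_of_surjective _ (QuotientGroup.mk'_surjective K)]
      exact hM2

end Cfsg.Agent.S4051
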