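import Cfsg.Statements.S4056
import Cfsg.Agent.EqBase
import Cfsg.Agent.LibSolvFrat

set_option autoImplicit false
open Cfsg

namespace Cfsg.Agent.S4056

set_option linter.style.haveILetI false
set_option linter.unusedSectionVars false
set_option linter.unusedVariables false

open Subgroup
open scoped commutatorElement

/-- In a finite 2-group of nilpotency class at most 2 and exponent dividing 4, the Frattini subgroup lies in the centre and is elementary abelian. -/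
theorem result {P : Type*} [Group P] [Finite P] (hP : IsPGroup 2 P)
    (hcl : Group.nilpotencyClass P ≤ 2) (hexp : Monoid.exponent P ∣ 4) :
    frattini P ≤ Subgroup.center P ∧ Cfsg.IsElementaryAbelian 2 (frattini P) := by
  classical
  haveI hnil : Group.IsNilpotent P := hP.isNilpotent
  have hx4 : ∀ x : P, x ^ 4 = 1 := fun x => by
    obtain ⟨k, hk⟩ := hexp
    rw [hk, pow_mul, Monoid.pow_exponent_eq_one, one_pow]
  have hc : ∀ x y : P, ⁅x, y⁆ ∈ Subgroup.center P := by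
    intro x y
    have h1 : Subgroup.upperCentralSeries P 2 = ⊤ := by
      have := Subgroup.upperCentralSeries_nilpotencyClass (G := P)
      exact top_le_iff.mp (this ▸ Subgroup.upperCentralSeries_mono P hcl)
    have h2 : x ∈ Subgroup.upperCentralSeries P 2 := by rw [h1]; trivial
    rw [Subgroup.mem_upperCentralSeries_succ_iff] at h2
    have h3 := h2 y
    rwa [Subgroup.upperCentralSeries_one] at h3
  have hcc : ∀ x y z : P, ⁅x, y⁆ * z = z * ⁅x, y⁆ := fun x y z => (Subgroup.mem_center_iff.mp (hc x y) z).symm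
  -- (x y)^2 = x^2 y^2 [y^-1,x^-1] etc.
  have hsq : ∀ x y : P, (x * y) ^ 2 = x ^ 2 * y ^ 2 * ⁅y⁻¹, x⁻¹⁆ := by
    intro x y
    have h1 : y * x = x * y * ⁅y⁻¹, x⁻¹⁆ := by rw [commutatorElement_def]; group
    calc (x * y) ^ 2 = x * (y * x) * y := by rw [pow_two]; group
      _ = x * (x * y * ⁅y⁻¹, x⁻¹⁆) * y := by rw [h1]
      _ = x * x * y * (⁅y⁻¹, x⁻¹⁆ * y) := by group
      _ = x * x * y * (y * ⁅y⁻¹, x⁻¹⁆) := by rw [hcc]
      _ = _ := by rw [pow_two, pow_two]; group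
  -- conj of x by y : y x y^-1 = [y,x] x
  have hbil : ∀ x y : P, ⁅x ^ 2, y⁆ = ⁅x, y⁆ ^ 2 := by
    intro x y
    have h1 : y * x * y⁻¹ = ⁅y, x⁆ * x := by rw [commutatorElement_def]; group
    have h2 : y * x ^ 2 * y⁻¹ = ⁅y, x⁆ ^ 2 * x ^ 2 := by
      calc y * x ^ 2 * y⁻¹ = (y * x * y⁻¹) * (y * x * y⁻¹) := by rw [pow_two]; group
        _ = ⁅y, x⁆ * (x * ⁅y, x⁆) * x := by rw [h1]; group
        _ = ⁅y, x⁆ * (⁅y, x⁆ * x) * x := by rw [← hcc y x x]
        _ = _ := by rw [pow_two, pow_two]; group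
    have h3 : ⁅x ^ 2, y⁆ = x ^ 2 * (y * x ^ 2 * y⁻¹)⁻¹ := by rw [commutatorElement_def]; group
    have h4 : ⁅x, y⁆ = ⁅y, x⁆⁻¹ := (commutatorElement_inv y x).symm
    rw [h3, h2, h4, mul_inv_rev, mul_inv_cancel_left, inv_pow]
  have hcomm2 : ∀ x y : P, ⁅x, y⁆ ^ 2 = 1 := by
    intro x y
    -- x^2 and y^2 commute
    have e0 : ⁅x ^ 2, y ^ 2⁆ = 1 := by
      have h1 : ⁅x ^ 2, y ^ 2⁆ = ⁅x, y ^ 2⁆ ^ 2 := hbil x (y ^ 2)
      have h2 : ⁅x, y ^ 2⁆ = ⁅y ^ 2, x⁆⁻¹ := (commutatorElement_inv _ _).symm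
      have h3 : ⁅y ^ 2, x⁆ = ⁅y, x⁆ ^ 2 := hbil y x
      rw [h1, h2, h3, inv_pow, ← pow_mul, hx4, inv_one]
    have e1 := hsq y⁻¹ x⁻¹
    have e2 : x⁻¹⁻¹ = x := inv_inv x
    have e3 : y⁻¹⁻¹ = y := inv_inv y
    rw [e2, e3] at e1
    have e4 : ((y⁻¹ * x⁻¹) ^ 2) ^ 2 = 1 := by rw [← pow_mul]; exact hx4 _
    rw [e1] at e4
    have hcomm : Commute (y⁻¹ ^ 2) (x⁻¹ ^ 2) := by
      have : Commute (x ^ 2) (y ^ 2) := commutatorElement_eq_one_iff_commute.mp e0
      rw [inv_pow, inv_pow]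
      exact this.symm.inv_inv
    have hcomm' : Commute (y⁻¹ ^ 2 * x⁻¹ ^ 2) ⁅x, y⁆ := (hcc x y _).symm
    rw [hcomm'.mul_pow, hcomm.mul_pow, ← pow_mul, ← pow_mul, hx4, hx4, one_mul, one_mul] at e4
    exact e4
  let K : Subgroup P :=
    { carrier := {x | x ∈ Subgroup.center P ∧ x ^ 2 = 1}
      mul_mem' := by
        rintro a b ⟨ha, ha'⟩ ⟨hb, hb'⟩
        refine ⟨mul_mem ha hb, ?_⟩
        have : Commute a b := (Subgroup.mem_center_iff.mp hb a)
        rw [this.mul_pow, ha', hb', one_mul]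
      one_mem' := ⟨one_mem _, one_pow _⟩
      inv_mem' := by
        rintro a ⟨ha, ha'⟩
        exact ⟨inv_mem ha, by rw [inv_pow, ha', inv_one]⟩ }
  have hKmem : ∀ x, x ∈ K ↔ x ∈ Subgroup.center P ∧ x ^ 2 = 1 := fun x => Iff.rfl
  haveI hKn : K.Normal := ⟨fun n hn g => by
    have h1 := (hKmem n).mp hn
    have h2 : g * n * g⁻¹ = n := by rw [Subgroup.mem_center_iff.mp h1.1 g, mul_inv_cancel_right]
    rw [h2]; exact hn⟩
  have hle : frattini P ≤ K := by
    apply CfsgLib.SolvFrat.frattini_le_of_elementary Nat.prime_two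
    · rw [_root_.commutator_def, Subgroup.commutator_le]
      intro x _ y _
      exact (hKmem _).mpr ⟨hc x y, hcomm2 x y⟩
    · intro x
      refine (hKmem _).mpr ⟨?_, by rw [← pow_mul]; exact hx4 x⟩
      rw [Subgroup.mem_center_iff]
      intro y
      have h1 : ⁅x ^ 2, y⁆ = 1 := by rw [hbil, hcomm2]
      exact (commutatorElement_eq_one_iff_commute.mp h1).eq.symm
  refine ⟨fun x hx => (hle hx).1, ?_, fun a ha => (hle ha).2⟩
  refine ⟨⟨fun a b => Subtype.ext ?_⟩⟩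
  exact Subgroup.mem_center_iff.mp (hle b.2).1 a.1

end Cfsg.Agent.S4056
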