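import Cfsg.Statements.S4058
import Cfsg.Agent.LibCharBasic3
import Cfsg.Agent.LibCharInt2
import Cfsg.Agent.LibSolvFrat
import Cfsg.Agent.S0158
import Cfsg.Agent.S0159

set_option autoImplicit false
open Cfsg

namespace Cfsg.Agent.S4058

set_option linter.style.haveILetI false
set_option linter.unusedSectionVars false

universe u v
open Subgroup CfsgLib.CharBasic

theorem dvd_sum_of_orbits {L : Type u} {X : Type v} [Group L] [Finite L] [MulAction L X] [Fintype X] (f : X → ℤ)
    (hf : ∀ (l : L) x, f (l • x) = f x) (d : ℤ)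
    (hd : ∀ x, d ∣ (Nat.card (MulAction.orbit L x) : ℤ) * f x) : d ∣ ∑ x, f x := by
  classical
  let π : X → Quotient (MulAction.orbitRel L X) := Quotient.mk _
  haveI : Fintype (Quotient (MulAction.orbitRel L X)) := Fintype.ofFinite _
  rw [← Finset.sum_fiberwise Finset.univ π f]
  apply Finset.dvd_sum
  intro q _
  obtain ⟨x, rfl⟩ := Quotient.exists_rep q
  have h1 : ∀ i ∈ Finset.univ.filter (fun i => π i = ⟦x⟧), f i = f x := by
    intro i hi
    have h2 : π i = ⟦x⟧ := (Finset.mem_filter.mp hi).2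
    obtain ⟨l, hl⟩ : i ∈ MulAction.orbit L x := Quotient.exact h2
    rw [← hl]
    exact hf l x
  rw [Finset.sum_congr rfl h1, Finset.sum_const, nsmul_eq_mul]
  have h3 : (Finset.univ.filter (fun i => π i = ⟦x⟧)).card = Nat.card (MulAction.orbit L x) := by
    rw [← Set.ncard_coe_finset, Nat.card_coe_set_eq]
    congr 1
    ext i
    simp only [Finset.coe_filter, Finset.mem_univ, true_and]
    exact ⟨fun h => Quotient.exact h, fun h => Quotient.sound h⟩
  rw [h3]
  exact hd x

section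
variable {G : Type u} [Group G] [Finite G]

/-- the group of linear characters trivial on the Frattini subgroup -/
abbrev Lam (G : Type u) [Group G] : Type u := (G ⧸ frattini G) →* ℂˣ

noncomputable def lf (l : Lam G) : G →* ℂˣ := l.comp (QuotientGroup.mk' (frattini G))

theorem isIrr_tw (l : Lam G) (χ : IrrCharacter G) : IsIrrCharacter G (fun g => (lf l g : ℂ) * (χ : G → ℂ) g) := by
  haveI := Fintype.ofFinite G
  rw [irr_iff_norm_one]
  refine ⟨isCharacter_mul (isCharacter_hom (lf l)) (irr_isCharacter χ.2), ?_⟩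
  have h1 := irr_inner_self χ.2
  have h2 := irr_inner_self (isIrrCharacter_hom (lf l))
  have hn : ∀ g, (lf l g : ℂ) * (starRingEnd ℂ) (lf l g : ℂ) = 1 := by
    intro g
    have h3 := char_inv_eq_conj (isCharacter_hom (lf l)) g
    rw [← h3, ← Units.val_mul, ← map_mul, mul_inv_cancel, map_one, Units.val_one]
  rw [classInner] at h1 ⊢
  rw [← h1]
  congr 1
  refine Finset.sum_congr rfl fun g _ => ?_
  rw [map_mul]
  have := hn g
  calc _ = ((lf l g : ℂ) * (starRingEnd ℂ) (lf l g : ℂ)) * ((χ : G → ℂ) g * (starRingEnd ℂ) ((χ : G → ℂ) g)) := by ring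
    _ = _ := by rw [this, one_mul]

noncomputable instance : MulAction (Lam G) (IrrCharacter G) where
  smul l χ := ⟨fun g => (lf l g : ℂ) * (χ : G → ℂ) g, isIrr_tw l χ⟩
  one_smul χ := by
    apply Subtype.ext
    funext g
    change (lf (1 : Lam G) g : ℂ) * (χ : G → ℂ) g = _
    simp [lf]
  mul_smul l l' χ := by
    apply Subtype.ext
    funext g
    change (lf (l * l') g : ℂ) * (χ : G → ℂ) g = (lf l g : ℂ) * ((lf l' g : ℂ) * (χ : G → ℂ) g)
    simp [lf, mul_assoc]

theorem smul_apply (l : Lam G) (χ : IrrCharacter G) (g : G) :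
    ((l • χ : IrrCharacter G) : G → ℂ) g = (lf l g : ℂ) * (χ : G → ℂ) g := rfl

theorem card_Lam (hG : IsPGroup 2 G) : Nat.card (Lam G) = Nat.card (G ⧸ frattini G) := by
  rw [card_hom]
  have : commutator (G ⧸ frattini G) = ⊥ := by
    rw [commutator_def, ← map_top_of_surjective _ (QuotientGroup.mk'_surjective (frattini G)),
      ← map_commutator, Subgroup.map_eq_bot_iff, QuotientGroup.ker_mk']
    exact CfsgLib.SolvFrat.commutator_le_frattini Nat.prime_two hG
  rw [this, index_bot]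

theorem lf_sq (hG : IsPGroup 2 G) (l : Lam G) (g : G) : lf l (g * g) = 1 := by
  have h1 := CfsgLib.SolvFrat.pow_mem_frattini Nat.prime_two hG g
  rw [pow_two] at h1
  change l (QuotientGroup.mk' (frattini G) (g * g)) = 1
  have h2 : QuotientGroup.mk' (frattini G) (g * g) = 1 := (QuotientGroup.eq_one_iff _).mpr h1
  rw [h2, map_one]

/-- the stabilizer is small -/
theorem card_stab_le (χ : IrrCharacter G) (n : ℕ) (hn : (χ : G → ℂ) 1 = n) :
    Nat.card (MulAction.stabilizer (Lam G) χ) ≤ n ^ 2 := by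
  classical
  haveI := Fintype.ofFinite G
  have hc : IsCharacter G (fun g => (χ : G → ℂ) g * (starRingEnd ℂ) ((χ : G → ℂ) g)) :=
    isCharacter_mul (irr_isCharacter χ.2) (isCharacter_conj (irr_isCharacter χ.2))
  obtain ⟨m, hm, hexp, -⟩ := char_expand hc
  -- each stabilizing linear character occurs
  let φ : MulAction.stabilizer (Lam G) χ → IrrCharacter G := fun l => ⟨fun g => (lf l.1 g : ℂ), isIrrCharacter_hom (lf l.1)⟩
  have hφ : Function.Injective φ := by
    intro l l' h
    have h1 : lf l.1 = lf l'.1 := hom_ext_fun (congrArg Subtype.val h)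
    apply Subtype.ext
    apply MonoidHom.ext
    intro x
    obtain ⟨g, rfl⟩ := QuotientGroup.mk'_surjective (frattini G) x
    exact congrArg (fun f : G →* ℂˣ => f g) h1
  have hmφ : ∀ l, m (φ l) = 1 := by
    intro l
    have h1 := hm (φ l)
    have h2 : classInner (fun g => (χ : G → ℂ) g * (starRingEnd ℂ) ((χ : G → ℂ) g)) (φ l) =
        classInner (χ : G → ℂ) ((l.1 • χ : IrrCharacter G) : G → ℂ) := by
      rw [classInner, classInner]
      congr 1
      refine Finset.sum_congr rfl fun g _ => ?_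
      rw [smul_apply, map_mul]
      change _ * (starRingEnd ℂ) (lf l.1 g : ℂ) = _
      ring
    rw [h2, MulAction.mem_stabilizer_iff.mp l.2, irr_inner_self χ.2] at h1
    exact_mod_cast h1.symm
  have h1 := congrFun hexp 1
  simp only [hn, Complex.conj_natCast, Finset.sum_apply, Pi.smul_apply, smul_eq_mul] at h1
  have hd : ∀ ψ : IrrCharacter G, ∃ d : ℕ, 0 < d ∧ (ψ : G → ℂ) 1 = d := fun ψ => irr_one_nat ψ.2
  choose d hd0 hd using hd
  simp only [hd] at h1
  have h2 : n * n = ∑ ψ : IrrCharacter G, m ψ * d ψ := by exact_mod_cast h1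
  haveI : Fintype (MulAction.stabilizer (Lam G) χ) := Fintype.ofFinite _
  rw [pow_two, h2, Nat.card_eq_fintype_card, ← Finset.card_univ, ← Finset.card_image_of_injective _ hφ,
    Finset.card_eq_sum_ones]
  refine le_trans (Finset.sum_le_sum (fun ψ hψ => ?_)) (Finset.sum_le_sum_of_subset (Finset.subset_univ _))
  obtain ⟨l, -, rfl⟩ := Finset.mem_image.mp hψ
  rw [hmφ, one_mul]
  exact hd0 _

theorem orbit_dvd (hG : IsPGroup 2 G) (k : ℕ) (hgen : 2 ^ (2 * k + 1) ≤ Nat.card (G ⧸ frattini G))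
    (χ : IrrCharacter G) (n : ℕ) (hn : (χ : G → ℂ) 1 = n) :
    2 ^ (k + 1) ∣ Nat.card (MulAction.orbit (Lam G) χ) * n := by
  -- n is a power of 2
  haveI : Fact (Nat.Prime 2) := ⟨Nat.prime_two⟩
  obtain ⟨a, ha⟩ := IsPGroup.iff_card.mp hG
  have hnd : n ∣ 2 ^ a := by
    rw [← ha]
    have h0 : n = charDegree (χ : G → ℂ) := by
      have := CfsgLib.CharInt.irr_one_eq_charDegree χ.2
      rw [hn] at this
      exact_mod_cast this
    rw [h0]
    exact CfsgLib.CharInt2.charDegree_dvd_card χ.2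
  obtain ⟨e, -, he⟩ := (Nat.dvd_prime_pow Nat.prime_two).mp hnd
  have h1 := card_stab_le χ n hn
  have h2 : Nat.card (MulAction.stabilizer (Lam G) χ) * Nat.card (MulAction.orbit (Lam G) χ) =
      Nat.card (G ⧸ frattini G) := by
    rw [← card_Lam hG, ← card_mul_index (MulAction.stabilizer (Lam G) χ), MulAction.index_stabilizer]
    rfl
  obtain ⟨d, hd⟩ := IsPGroup.iff_card.mp (hG.to_quotient (frattini G))
  rw [hd] at h2 hgen
  obtain ⟨s, -, hs⟩ := (Nat.dvd_prime_pow Nat.prime_two).mp (Dvd.intro _ h2)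
  obtain ⟨o, -, ho⟩ := (Nat.dvd_prime_pow Nat.prime_two).mp (Dvd.intro_left _ h2)
  rw [hs, he, ← pow_mul] at h1
  rw [hs, ho, ← pow_add] at h2
  have h3 : s ≤ e * 2 := (Nat.pow_le_pow_iff_right (by norm_num)).mp h1
  have h4 : s + o = d := Nat.pow_right_injective (le_refl 2) h2
  have h5 : 2 * k + 1 ≤ d := (Nat.pow_le_pow_iff_right (by norm_num)).mp hgen
  rw [ho, he, ← pow_add]
  exact pow_dvd_pow 2 (by omega)

end

/-- Let G be a finite 2-group with #(G/Φ(G)) ≥ 2^(2k+1). Then the number of elements x of G with x² = 1 is divisible by 2^(k+1). -/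
theorem result {G : Type*} [Group G] [Finite G] (hG : IsPGroup 2 G) (k : ℕ)
    (hgen : 2 ^ (2 * k + 1) ≤ Nat.card (G ⧸ frattini G)) :
    2 ^ (k + 1) ∣ Nat.card {x : G // x ^ 2 = 1} := by
  classical
  haveI := Fintype.ofFinite G
  -- the Frobenius-Schur data
  have hd : ∀ χ : IrrCharacter G, ∃ d : ℕ, 0 < d ∧ (χ : G → ℂ) 1 = d := fun χ => irr_one_nat χ.2
  choose d hd0 hd using hd
  have hν : ∀ χ : IrrCharacter G, ∃ z : ℤ, (Nat.card G : ℂ)⁻¹ * ∑ s : G, (χ : G → ℂ) (s * s) = z := by
    intro χ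
    obtain ⟨m, ρ, hρ, hχ⟩ := χ.2
    haveI := hρ
    have h1 := (Cfsg.Agent.S0158.result ρ).1
    rw [hχ] at h1
    rcases h1 with h1 | h1 | h1
    · exact ⟨0, by rw [h1]; simp⟩
    · exact ⟨1, by rw [h1]; simp⟩
    · exact ⟨-1, by rw [h1]; simp⟩
  choose ν hν using hν
  have hcount := Cfsg.Agent.S0159.result (G := G)
  rw [finsum_eq_sum_of_fintype] at hcount
  simp only [hν, hd] at hcount
  have hcount' : (Nat.card {s : G // s * s = 1} : ℤ) = ∑ χ : IrrCharacter G, ν χ * d χ := by
    exact_mod_cast hcount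
  have hinvd : ∀ (l : Lam G) (χ : IrrCharacter G), d (l • χ) = d χ := by
    intro l χ
    have h1 := hd (l • χ)
    rw [smul_apply, map_one, Units.val_one, one_mul, hd χ] at h1
    exact_mod_cast h1.symm
  have hinvν : ∀ (l : Lam G) (χ : IrrCharacter G), ν (l • χ) = ν χ := by
    intro l χ
    have h1 := hν (l • χ)
    simp only [smul_apply, lf_sq hG, Units.val_one, one_mul] at h1
    rw [hν χ] at h1
    exact_mod_cast h1.symm
  have hfin : Finite (Lam G) := inferInstance
  have hdvd : ((2 ^ (k + 1) : ℕ) : ℤ) ∣ ∑ χ : IrrCharacter G, ν χ * d χ := by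
    refine dvd_sum_of_orbits (L := Lam G) (fun χ => ν χ * d χ) (fun l χ => by
      simp only [hinvd, hinvν]) _ (fun χ => ?_)
    have h1 := orbit_dvd hG k hgen χ (d χ) (hd χ)
    have h2 : ((2 ^ (k + 1) : ℕ) : ℤ) ∣ ((Nat.card (MulAction.orbit (Lam G) χ) * d χ : ℕ) : ℤ) :=
      Int.natCast_dvd_natCast.mpr h1
    have h3 : (Nat.card (MulAction.orbit (Lam G) χ) : ℤ) * (ν χ * d χ) =
        ((Nat.card (MulAction.orbit (Lam G) χ) * d χ : ℕ) : ℤ) * ν χ := by push_cast; ring
    rw [h3]
    exact Dvd.dvd.mul_right h2 _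
  rw [← hcount'] at hdvd
  have h1 := Int.natCast_dvd_natCast.mp hdvd
  simpa only [pow_two] using h1

end Cfsg.Agent.S4058
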