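import Cfsg.Statements.S4065
import Cfsg.Agent.EqBase
-- import your own Cfsg.Agent.* helpers here

set_option autoImplicit false
set_option linter.all false
open Cfsg

namespace Cfsg.Agent.S4065

theorem comm_of_comm {F : Type*} [Field F] {A B C : Matrix (Fin 2) (Fin 2) F} (hB : ¬ (B 0 1 = 0 ∧ B 1 0 = 0 ∧ B 0 0 = B 1 1))
    (hA : A * B = B * A) (hC : C * B = B * C) : A * C = C * A := by
  have ext2 : ∀ X Y : Matrix (Fin 2) (Fin 2) F, X = Y ↔ X 0 0 = Y 0 0 ∧ X 0 1 = Y 0 1 ∧ X 1 0 = Y 1 0 ∧ X 1 1 = Y 1 1 := by
    intro X Y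
    constructor
    · rintro rfl; exact ⟨rfl, rfl, rfl, rfl⟩
    · rintro ⟨h1, h2, h3, h4⟩
      ext i j
      fin_cases i <;> fin_cases j
      · exact h1
      · exact h2
      · exact h3
      · exact h4
  rw [ext2] at hA hC ⊢
  simp only [Matrix.mul_apply, Fin.sum_univ_two] at hA hC ⊢
  obtain ⟨a1, a2, a3, -⟩ := hA
  obtain ⟨c1, c2, c3, -⟩ := hC
  generalize A 0 0 = p at *
  generalize A 0 1 = q at *
  generalize A 1 0 = r at *
  generalize A 1 1 = s at *
  generalize C 0 0 = p' at *
  generalize C 0 1 = q' at *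
  generalize C 1 0 = r' at *
  generalize C 1 1 = s' at *
  generalize B 0 0 = w at *
  generalize B 0 1 = x at *
  generalize B 1 0 = y at *
  generalize B 1 1 = z at *
  -- u = (q, r, p - s), v = (q', r', p' - s'), b = (x, y, w - z)
  have u1 : q * y = x * r := by linear_combination a1
  have u2 : (p - s) * x = (w - z) * q := by linear_combination a2
  have u3 : (p - s) * y = (w - z) * r := by linear_combination -a3
  have v1 : q' * y = x * r' := by linear_combination c1
  have v2 : (p' - s') * x = (w - z) * q' := by linear_combination c2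
  have v3 : (p' - s') * y = (w - z) * r' := by linear_combination -c3
  have key : q * r' = q' * r ∧ (p - s) * q' = (p' - s') * q ∧ (p - s) * r' = (p' - s') * r := by
    by_cases hx : x = 0
    · by_cases hy : y = 0
      · have hz : w - z ≠ 0 := fun h => hB ⟨hx, hy, sub_eq_zero.mp h⟩
        subst hx hy
        have e1 : q = 0 := by
          have : (w - z) * q = 0 := by rw [← u2]; ring
          exact (mul_eq_zero.mp this).resolve_left hz
        have e2 : r = 0 := by
          have : (w - z) * r = 0 := by rw [← u3]; ring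
          exact (mul_eq_zero.mp this).resolve_left hz
        have e3 : q' = 0 := by
          have : (w - z) * q' = 0 := by rw [← v2]; ring
          exact (mul_eq_zero.mp this).resolve_left hz
        have e4 : r' = 0 := by
          have : (w - z) * r' = 0 := by rw [← v3]; ring
          exact (mul_eq_zero.mp this).resolve_left hz
        subst e1 e2 e3 e4
        refine ⟨by ring, by ring, by ring⟩
      · subst hx
        have e1 : q = 0 := by
          have : q * y = 0 := by rw [u1]; ring
          exact (mul_eq_zero.mp this).resolve_right hy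
        have e2 : q' = 0 := by
          have : q' * y = 0 := by rw [v1]; ring
          exact (mul_eq_zero.mp this).resolve_right hy
        subst e1 e2
        refine ⟨by ring, by ring, ?_⟩
        apply mul_right_cancel₀ hy
        linear_combination r' * u3 - r * v3
    · have k1 : q * r' = q' * r := by
        apply mul_right_cancel₀ hx
        linear_combination -q * v1 + q' * u1
      refine ⟨k1, ?_, ?_⟩ <;> apply mul_right_cancel₀ hx
      · linear_combination q' * u2 - q * v2
      · linear_combination r' * u2 - r * v2 + (w - z) * k1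
  obtain ⟨k1, k2, k3⟩ := key
  refine ⟨?_, ?_, ?_, ?_⟩
  · linear_combination k1
  · linear_combination k2
  · linear_combination -k3
  · linear_combination -k1


theorem sl_center_char2 {F : Type*} [Field F] [CharP F 2] (A : Matrix.SpecialLinearGroup (Fin 2) F) (h : A ∈ Subgroup.center (Matrix.SpecialLinearGroup (Fin 2) F)) : A = 1 := by
  rw [Matrix.SpecialLinearGroup.mem_center_iff] at h
  obtain ⟨r, hr, hA⟩ := h
  rw [Fintype.card_fin] at hr
  have h2 : (2 : F) = 0 := CharTwo.two_eq_zero
  have h1 : (r - 1) ^ 2 = 0 := by linear_combination hr - h2 * (r - 1)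
  have h3 : r = 1 := sub_eq_zero.mp (pow_eq_zero_iff (by norm_num) |>.mp h1)
  apply Subtype.ext
  rw [← hA, h3]
  simp

theorem sl_ct {F : Type*} [Field F] [CharP F 2] {A B C : Matrix.SpecialLinearGroup (Fin 2) F} (hB : B ≠ 1) (hA : A * B = B * A) (hC : C * B = B * C) : A * C = C * A := by
  have hA' : (A : Matrix (Fin 2) (Fin 2) F) * B = B * A := by
    rw [← Matrix.SpecialLinearGroup.coe_mul, hA, Matrix.SpecialLinearGroup.coe_mul]
  have hC' : (C : Matrix (Fin 2) (Fin 2) F) * B = B * C := by
    rw [← Matrix.SpecialLinearGroup.coe_mul, hC, Matrix.SpecialLinearGroup.coe_mul]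
  have h1 := comm_of_comm (A := (A : Matrix (Fin 2) (Fin 2) F)) (B := (B : Matrix (Fin 2) (Fin 2) F)) (C := (C : Matrix (Fin 2) (Fin 2) F)) (by
    rintro ⟨h1, h2, h3⟩
    apply hB
    have h4 := B.2
    rw [Matrix.det_fin_two] at h4
    have h5 : (B : Matrix (Fin 2) (Fin 2) F) 0 0 ^ 2 = 1 := by
      rw [h1, h2, ← h3] at h4
      linear_combination h4
    have h2' : (2 : F) = 0 := CharTwo.two_eq_zero
    have h6 : ((B : Matrix (Fin 2) (Fin 2) F) 0 0 - 1) ^ 2 = 0 := by linear_combination h5 - h2' * ((B : Matrix (Fin 2) (Fin 2) F) 0 0 - 1)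
    have h7 : (B : Matrix (Fin 2) (Fin 2) F) 0 0 = 1 := sub_eq_zero.mp (pow_eq_zero_iff (by norm_num) |>.mp h6)
    apply Subtype.ext
    ext i j
    fin_cases i <;> fin_cases j
    · exact h7
    · exact h1
    · exact h2
    · exact h3 ▸ h7) hA' hC'
  apply Subtype.ext
  rw [Matrix.SpecialLinearGroup.coe_mul, Matrix.SpecialLinearGroup.coe_mul, h1]

theorem psl_ct {F : Type*} [Field F] [CharP F 2] {a b c : Matrix.ProjectiveSpecialLinearGroup (Fin 2) F} (hb : b ≠ 1) (hab : a * b = b * a) (hcb : c * b = b * c) : a * c = c * a := by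
  obtain ⟨A, rfl⟩ := QuotientGroup.mk_surjective a
  obtain ⟨B, rfl⟩ := QuotientGroup.mk_surjective b
  obtain ⟨C, rfl⟩ := QuotientGroup.mk_surjective c
  have key : ∀ X Y : Matrix.SpecialLinearGroup (Fin 2) F, ((X : Matrix.ProjectiveSpecialLinearGroup (Fin 2) F) = Y) → X = Y := by
    intro X Y h
    rw [QuotientGroup.eq] at h
    have := sl_center_char2 _ h
    exact inv_mul_eq_one.mp this
  have hB : B ≠ 1 := by rintro rfl; exact hb rfl
  have h1 : A * B = B * A := key _ _ hab
  have h2 : C * B = B * C := key _ _ hcb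
  have h3 := sl_ct hB h1 h2
  exact congrArg (fun X : Matrix.SpecialLinearGroup (Fin 2) F => (X : Matrix.ProjectiveSpecialLinearGroup (Fin 2) F)) h3



/-- Let F be a finite field with 2ⁿ elements, n ≥ 2. In PSL₂(F) the centralizer of every element meets each of its conjugates by elements outside its normalizer trivially. -/
theorem result (n : ℕ) (hn : 2 ≤ n)
    (x : Matrix.ProjectiveSpecialLinearGroup (Fin 2) (GaloisField 2 n)) :
    Cfsg.IsTISubset (Subgroup.centralizer ({x} : Set (Matrix.ProjectiveSpecialLinearGroup (Fin 2) (GaloisField 2 n))) :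
      Set (Matrix.ProjectiveSpecialLinearGroup (Fin 2) (GaloisField 2 n))) := by
  intro g hg y hy hgy
  by_contra hy1
  apply hg
  have hy' : y * x = x * y := (Subgroup.mem_centralizer_singleton_iff.mp hy)
  have hgy' : (g * y * g⁻¹) * x = x * (g * y * g⁻¹) := (Subgroup.mem_centralizer_singleton_iff.mp hgy)
  have hz1 : g * y * g⁻¹ ≠ 1 := fun h => hy1 (conj_eq_one_iff.mp h)
  by_cases hx : x = 1
  · subst hx
    rw [Subgroup.mem_normalizer_iff]
    intro w
    simp [Subgroup.mem_centralizer_singleton_iff]
  -- all commuting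
  have key : ∀ w, w * x = x * w ↔ w * y = y * w := by
    intro w
    constructor
    · intro hw
      exact psl_ct hx hw hy'
    · intro hw
      exact psl_ct hy1 hw hy'.symm
  have key2 : ∀ w, w * x = x * w ↔ w * (g * y * g⁻¹) = (g * y * g⁻¹) * w := by
    intro w
    constructor
    · intro hw
      exact psl_ct hx hw hgy'
    · intro hw
      exact psl_ct hz1 hw hgy'.symm
  rw [Subgroup.mem_normalizer_iff]
  intro w
  rw [Subgroup.mem_centralizer_singleton_iff, Subgroup.mem_centralizer_singleton_iff, key w, key2 (g * w * g⁻¹)]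
  constructor
  · intro h
    have : g * w * g⁻¹ * (g * y * g⁻¹) = g * (w * y) * g⁻¹ := by group
    rw [this, h]; group
  · intro h
    have h1 : g * (w * y) * g⁻¹ = g * (y * w) * g⁻¹ := by
      have h2 : g * (w * y) * g⁻¹ = g * w * g⁻¹ * (g * y * g⁻¹) := by group
      rw [h2, h]; group
    exact mul_left_cancel (mul_right_cancel h1)

end Cfsg.Agent.S4065
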