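import Cfsg.Statements.S4066
import Cfsg.Agent.LibFgBas

set_option autoImplicit false
open Cfsg

namespace Cfsg.Agent.S4066

set_option linter.style.haveILetI false
set_option linter.unusedSectionVars false
set_option linter.unusedVariables false

open Subgroup CfsgLib.FgBas

/-- Let G be a finite group in which the centralizer of every element meets each of its conjugates by elements outside its normalizer trivially. Then any two distinct Sylow p-subgroups of G, for any prime p, intersect trivially. -/
theorem result {G : Type*} [Group G] [Finite G] (hTI : ∀ x : G, Cfsg.IsTISubset (Subgroup.centralizer ({x} : Set G) : Set G))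
    {p : ℕ} [Fact p.Prime] (P Q : Sylow p G) (hPQ : P ≠ Q) : (P : Subgroup G) ⊓ (Q : Subgroup G) = ⊥ := by
  classical
  by_contra hne
  -- (1) conjugation claim
  have mc : ∀ {a b : G}, b ∈ centralizer ({a} : Set G) ↔ b * a = a * b := fun {a b} => CfsgLib.FgClass.mem_centralizer_singleton
  have claim : ∀ x z : G, x ≠ 1 → x * z = z * x → ∀ g : G, g * x = x * g →
      g ∈ normalizer (centralizer ({z} : Set G) : Set G) := by
    intro x z hx hxz g hg
    by_contra hgn
    have h1 := hTI z g hgn x (mc.mpr hxz) (by rw [hg, mul_inv_cancel_right]; exact mc.mpr hxz)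
    exact hx h1
  -- (2) centralizers of nonidentity elements are nilpotent
  have hnil : ∀ z : G, z ≠ 1 → Group.IsNilpotent (centralizer ({z} : Set G)) := by
    intro z hz
    let C := centralizer ({z} : Set G)
    -- any two elements of coprime order commute: every element lies in an abelian normal subgroup
    -- the centralizer in C of y is normal in C
    have hn : ∀ y : C, (centralizer ({y} : Set C)).Normal := by
      intro y
      refine ⟨fun a ha g => ?_⟩
      have hzC : ∀ c : C, (c : G) * z = z * c := fun c => mc.mp c.2
      have h1 : (g : G) ∈ normalizer (centralizer ({(y : G)} : Set G) : Set G) :=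
        claim z y hz (hzC y).symm g (hzC g)
      have h2 : (a : G) ∈ centralizer ({(y : G)} : Set G) := by
        rw [mc]; exact congrArg Subtype.val (CfsgLib.FgClass.mem_centralizer_singleton.mp ha)
      have h3 := (mem_normalizer_iff.mp h1 a).mp h2
      rw [CfsgLib.FgClass.mem_centralizer_singleton]
      apply Subtype.ext
      exact mc.mp h3
    -- Sylow subgroups are normal
    have hstep : ∀ (q : ℕ) [Fact q.Prime] (S : Sylow q C), (S : Subgroup C).Normal := by
      intro q hq S
      -- every q-element y lies in an abelian normal subgroup, hence in a normal q-subgroup, hence in S^g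
      have hyS : ∀ y : C, (∃ k, orderOf y = q ^ k) → y ∈ (S : Subgroup C) := by
        intro y hy
        let A : Subgroup C := normalClosure {y}
        have hA1 : A ≤ centralizer ({y} : Set C) := by
          haveI := hn y
          exact normalClosure_le_normal (by
            rw [Set.singleton_subset_iff]
            exact CfsgLib.FgClass.mem_centralizer_singleton.mpr rfl)
        have hA2 : A ≤ centralizer (A : Set C) := by
          have h5 : y ∈ centralizer (A : Set C) := by
            rw [mem_centralizer_iff]
            intro a ha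
            exact CfsgLib.FgClass.mem_centralizer_singleton.mp (hA1 ha)
          haveI : (centralizer (A : Set C)).Normal := inferInstance
          exact normalClosure_le_normal (Set.singleton_subset_iff.mpr h5)
        have hAab : ∀ a ∈ A, ∀ b ∈ A, a * b = b * a := by
          intro a ha b hb
          exact (mem_centralizer_iff.mp (hA2 ha) b hb).symm
        -- A is a q-group
        have hAq : IsPGroup q A := by
          have h6 : A = closure (Group.conjugatesOfSet {y}) := rfl
          let Q : Subgroup C :=
            { carrier := {a | a ∈ A ∧ ∃ k : ℕ, a ^ (q ^ k) = 1}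
              mul_mem' := by
                rintro a b ⟨ha, k, hk⟩ ⟨hb, l, hl⟩
                refine ⟨mul_mem ha hb, k + l, ?_⟩
                have hc : Commute a b := hAab a ha b hb
                rw [hc.mul_pow, pow_add, pow_mul, hk, one_pow, one_mul, mul_comm, pow_mul, hl, one_pow]
              one_mem' := ⟨one_mem _, 0, by simp⟩
              inv_mem' := by
                rintro a ⟨ha, k, hk⟩
                exact ⟨inv_mem ha, k, by rw [inv_pow, hk, inv_one]⟩ }
          have hQ : A ≤ Q := by
            haveI : Q.Normal := ⟨by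
              rintro a ⟨ha, k, hk⟩ g
              exact ⟨(normalClosure_normal (s := {y})).conj_mem a ha g, k, by rw [conj_pow, hk, mul_one, mul_inv_cancel]⟩⟩
            apply normalClosure_le_normal
            rw [Set.singleton_subset_iff]
            obtain ⟨k, hk⟩ := hy
            exact ⟨subset_normalClosure rfl, k, by rw [← hk, pow_orderOf_eq_one]⟩
          intro a
          obtain ⟨k, hk⟩ := (hQ a.2).2
          exact ⟨k, Subtype.ext hk⟩
        -- a normal q-subgroup lies in S
        obtain ⟨g, hg⟩ := exists_conj_le S hAq
        have h7 : g⁻¹ * y * g ∈ A := by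
          have := (normalClosure_normal (s := {y})).conj_mem y (subset_normalClosure rfl) g⁻¹
          rwa [inv_inv] at this
        have h8 := hg _ h7
        have h9 : g * (g⁻¹ * y * g) * g⁻¹ = y := by group
        rwa [h9] at h8
      refine ⟨fun a ha g => ?_⟩
      apply hyS
      obtain ⟨k, hk⟩ := orderOf_eq_pow S.isPGroup' ha
      refine ⟨k, ?_⟩
      rw [← hk]
      exact orderOf_conj g a
    exact (Group.isNilpotent_of_finite_tfae (G := C)).out 3 0 |>.mp (by intro q hq S; exact hstep q S)
  -- (3)
  obtain ⟨x, hx⟩ := Subgroup.ne_bot_iff_exists_ne_one.mp hne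
  have hxP : (x : G) ∈ (P : Subgroup G) := (Subgroup.mem_inf.mp x.2).1
  have hxQ : (x : G) ∈ (Q : Subgroup G) := (Subgroup.mem_inf.mp x.2).2
  have hx1 : (x : G) ≠ 1 := fun h => hx (Subtype.ext h)
  have hcen : ∀ R : Sylow p G, (x : G) ∈ (R : Subgroup G) → ∃ z : G, z ≠ 1 ∧ z ∈ (R : Subgroup G) ∧ ∀ r ∈ (R : Subgroup G), r * z = z * r := by
    intro R hR
    haveI : Nontrivial (R : Subgroup G) := ⟨⟨⟨x, hR⟩, 1, fun h => hx1 (congrArg Subtype.val h)⟩⟩
    haveI := R.isPGroup'.center_nontrivial
    obtain ⟨z, hz⟩ := exists_ne (1 : center (R : Subgroup G))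
    refine ⟨z, fun h => hz (Subtype.ext (Subtype.ext h)), (z : (R : Subgroup G)).2, fun r hr => ?_⟩
    exact congrArg Subtype.val (mem_center_iff.mp z.2 ⟨r, hr⟩)
  obtain ⟨z, hz1, hzP, hz⟩ := hcen P hxP
  obtain ⟨w, hw1, hwQ, hw⟩ := hcen Q hxQ
  -- a Sylow subgroup centralizing z is normalized by the normalizer of C(z)
  have hkey : ∀ (R : Sylow p G) (z : G), z ≠ 1 → (R : Subgroup G) ≤ centralizer ({z} : Set G) →
      normalizer (centralizer ({z} : Set G) : Set G) ≤ normalizer ((R : Subgroup G) : Set G) := by
    intro R z hz1 hRz g hg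
    let C := centralizer ({z} : Set G)
    haveI := hnil z hz1
    let R' : Sylow p C := R.subtype hRz
    have hR' : (R' : Subgroup C).Normal := by
      have := (Group.isNilpotent_of_finite_tfae (G := C)).out 0 3 |>.mp (hnil z hz1)
      exact this p ‹_› R'
    rw [mem_normalizer_iff_map_conj_eq]
    apply Subgroup.eq_of_le_of_card_ge
    · rintro _ ⟨r, hr, rfl⟩
      change g * r * g⁻¹ ∈ (R : Subgroup G)
      have h1 : g * r * g⁻¹ ∈ C := (mem_normalizer_iff.mp hg r).mp (hRz hr)
      obtain ⟨k, hk⟩ := orderOf_eq_pow R.isPGroup' hr
      have h2 := mem_of_normal R' hR' (x := ⟨_, h1⟩) ⟨k, by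
        rw [Subgroup.orderOf_mk, ← hk]; exact orderOf_conj g r⟩
      simpa [R', Sylow.coe_subtype, mem_subgroupOf] using h2
    · rw [card_map_of_injective (MulAut.conj g).injective]
  have hPz : (P : Subgroup G) ≤ centralizer ({z} : Set G) := fun r hr => mc.mpr (hz r hr)
  have hQw : (Q : Subgroup G) ≤ centralizer ({w} : Set G) := fun r hr => mc.mpr (hw r hr)
  -- w normalizes P so lies in P
  have hwN : w ∈ normalizer ((P : Subgroup G) : Set G) :=
    hkey P z hz1 hPz (claim x z hx1 (hz x hxP) w (hw x hxQ).symm)
  have hwP : w ∈ (P : Subgroup G) := mem_of_mem_normalizer P (orderOf_eq_pow Q.isPGroup' hwQ) hwN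
  have hQN : (Q : Subgroup G) ≤ normalizer ((P : Subgroup G) : Set G) := by
    intro r hr
    exact hkey P z hz1 hPz (claim w z hw1 (hz w hwP) r (hw r hr))
  have h1 := le_of_le_normalizer P Q.isPGroup' hQN
  exact hPQ (Sylow.ext (Q.is_maximal' P.isPGroup' h1))

end Cfsg.Agent.S4066
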