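import Cfsg.Statements.S4072
import Cfsg.Agent.LibTransPC
import Cfsg.Agent.LibCoprime2
import Cfsg.Agent.LibFgFpf2
import Cfsg.Agent.LibFgBas
import Cfsg.Agent.LibLE3

set_option autoImplicit false
open Cfsg

namespace Cfsg.Agent.S4072

set_option linter.style.haveILetI false
set_option linter.unusedSectionVars false
set_option linter.unusedVariables false

open CfsgLib.TransPC

universe u

section
variable {G : Type u} [Group G] [Finite G]
  (hS : ∀ H : Subgroup G, ¬ IsMulCommutative H → Subgroup.normalizer (H : Set G) = H)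
include hS

theorem normal_comm {N : Subgroup G} (hN : N.Normal) (h : N ≠ ⊤) : IsMulCommutative N := by
  by_contra hc
  have := hS N hc
  rw [Subgroup.normalizer_eq_top] at this
  exact h this.symm

theorem solvable_of_npc {p : ℕ} (hp : p.Prime) (hpG : p ∣ Nat.card G) {K : Subgroup G} (hK : IsNPC p K) :
    Group.IsSolvable G := by
  have : Fact p.Prime := ⟨hp⟩
  have hKn := hK.1
  have hK1 : K ≠ ⊤ := by
    rintro rfl
    apply hK.2.1
    rwa [Subgroup.card_top]
  have hc := normal_comm hS hKn hK1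
  obtain ⟨k, hk⟩ := hK.2.2
  have h1 : IsPGroup p (G ⧸ K) := IsPGroup.of_card hk
  have := h1.isNilpotent
  rw [Group.isSolvable_iff_subgroup_quotient K]
  exact ⟨Group.isSolvable_of_comm (fun a b => hc.is_comm.comm a b), inferInstance⟩

theorem central_case (hns : ¬ Group.IsSolvable G) {N : Subgroup G} (hN : N ≤ Subgroup.center G) : N = ⊥ := by
  by_contra hne
  obtain ⟨n, hn⟩ := (Subgroup.ne_bot_iff_exists_ne_one).mp hne
  obtain ⟨p, hp, hpn⟩ := Nat.exists_prime_and_dvd (n := orderOf n) (fun h => hn (orderOf_eq_one_iff.mp h))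
  have : Fact p.Prime := ⟨hp⟩
  have hpN : p ∣ Nat.card N := hpn.trans (orderOf_dvd_natCard n)
  have hpG : p ∣ Nat.card G := hpN.trans (Subgroup.card_subgroup_dvd_card N)
  obtain ⟨z, hz⟩ := exists_prime_orderOf_dvd_card' p hpN
  rw [← Subgroup.orderOf_coe] at hz
  obtain ⟨P⟩ := (inferInstance : Nonempty (Sylow p G))
  have hnf : ¬ ∀ Q : Subgroup G, Q ≤ (P : Subgroup G) →
      ∀ g ∈ Subgroup.normalizer (Q : Set G), Nat.Coprime (orderOf g) p →
        g ∈ Subgroup.centralizer (Q : Set G) := by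
    intro h
    obtain ⟨K, hK⟩ := (frobenius_iff P).mpr h
    exact hns (solvable_of_npc hS hp hpG hK)
  push Not at hnf
  obtain ⟨Q, hQP, g, hg, hgo, hgc⟩ := hnf
  have hQp : IsPGroup p Q := P.isPGroup'.to_le hQP
  have hQc : IsMulCommutative Q := by
    by_contra hc
    rw [hS Q hc] at hg
    apply hgc
    have : g = 1 := by
      obtain ⟨k, hk⟩ := CfsgLib.FgBas.orderOf_eq_pow hQp hg
      rcases Nat.eq_zero_or_pos k with rfl | hk0
      · rw [pow_zero] at hk; exact orderOf_eq_one_iff.mp hk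
      · exfalso
        rw [hk] at hgo
        have := Nat.Coprime.eq_one_of_dvd hgo.symm (dvd_pow_self p hk0.ne')
        exact hp.one_lt.ne' this
    rw [this]; exact one_mem _
  set B := Subgroup.zpowers g with hB
  have hBQ : B ≤ Subgroup.normalizer (Q : Set G) := Subgroup.zpowers_le.mpr hg
  have hcop : (Nat.card B).Coprime (Nat.card Q) := by
    obtain ⟨k, hk⟩ := IsPGroup.iff_card.mp hQp
    rw [hk, Nat.card_zpowers]
    exact Nat.Coprime.pow_right k hgo
  set A := ⁅Q, B⁆ with hA
  have hAB : A ⊓ Subgroup.centralizer (B : Set G) = ⊥ := CfsgLib.Coprime2.commutator_inf_centralizer hBQ hcop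
  have hAQ : A ≤ Q := CfsgLib.Coprime.commutator_le_of_le_normalizer hBQ
  have hBA : B ≤ Subgroup.normalizer (A : Set G) := CfsgLib.LE.le_normalizer_commutator hBQ Subgroup.le_normalizer
  have hmem : ∀ x ∈ A ⊔ B, ∃ a ∈ A, ∃ b ∈ B, a * b = x := fun x hx =>
    (CfsgLib.LE.mem_sup_of_le_normalizer' hBA).mp hx
  have hHc : ¬ IsMulCommutative (A ⊔ B : Subgroup G) := by
    intro hc
    apply hgc
    have h1 : A ≤ A ⊓ Subgroup.centralizer (B : Set G) := by
      refine le_inf le_rfl ?_
      intro a ha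
      rw [Subgroup.mem_centralizer_iff]
      intro b hb
      exact congrArg Subtype.val (hc.is_comm.comm (⟨b, (le_sup_right : B ≤ A ⊔ B) hb⟩ : (A ⊔ B : Subgroup G))
        ⟨a, (le_sup_left : A ≤ A ⊔ B) ha⟩)
    rw [hAB] at h1
    have h2 : ⁅Q, B⁆ = ⊥ := le_bot_iff.mp h1
    rw [Subgroup.commutator_eq_bot_iff_le_centralizer] at h2
    have h3 := Subgroup.le_centralizer_iff.mp h2
    exact h3 (Subgroup.mem_zpowers g)
  have hnorm := hS _ hHc
  have hzc : (z : G) ∈ Subgroup.center G := hN z.2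
  have hzH : (z : G) ∈ A ⊔ B := by
    rw [← hnorm]
    exact Subgroup.center_le_normalizer _ hzc
  obtain ⟨a, ha, b, hb, hab⟩ := hmem _ hzH
  have hb1 : b = 1 := by
    have h1 : b = a⁻¹ * z := by rw [← hab]; group
    have hao : ∃ k, orderOf a⁻¹ = p ^ k := CfsgLib.FgBas.orderOf_eq_pow hQp (Q.inv_mem (hAQ ha))
    obtain ⟨k, hk⟩ := hao
    have h2 : Commute a⁻¹ (z : G) := Subgroup.mem_center_iff.mp hzc a⁻¹
    have h3 : b ^ p ^ (k + 1) = 1 := by
      rw [h1, h2.mul_pow]
      have e1 : (a⁻¹) ^ p ^ (k + 1) = 1 := by rw [pow_succ, pow_mul, ← hk, pow_orderOf_eq_one, one_pow]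
      have e2 : (z : G) ^ p ^ (k + 1) = 1 := by rw [pow_succ', pow_mul, ← hz, pow_orderOf_eq_one, one_pow]
      rw [e1, e2, one_mul]
    have h4 := orderOf_dvd_of_pow_eq_one h3
    have h5 : orderOf b ∣ orderOf g := by
      have := Subgroup.orderOf_dvd_natCard B hb
      rwa [Nat.card_zpowers] at this
    have h6 : orderOf b ∣ 1 := by
      have h7 : Nat.Coprime (p ^ (k + 1)) (orderOf g) := Nat.Coprime.pow_left _ hgo.symm
      rw [← h7]
      exact Nat.dvd_gcd h4 h5
    exact orderOf_eq_one_iff.mp (Nat.dvd_one.mp h6)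
  have hza : (z : G) ∈ A := by rw [← hab, hb1, mul_one]; exact ha
  have hz1 : (z : G) ∈ A ⊓ Subgroup.centralizer (B : Set G) := by
    refine ⟨hza, ?_⟩
    exact Subgroup.mem_centralizer_iff.mpr (fun b _ => Subgroup.mem_center_iff.mp hzc b)
  rw [hAB, Subgroup.mem_bot] at hz1
  rw [hz1, orderOf_one] at hz
  exact hp.one_lt.ne hz
end

/-- A finite group in which every non-abelian subgroup is self-normalizing is solvable or simple. -/
theorem result {G : Type*} [Group G] [Finite G] (hS : ∀ H : Subgroup G, ¬ IsMulCommutative H → Subgroup.normalizer (H : Set G) = H) :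
    Group.IsSolvable G ∨ IsSimpleGroup G := by
  classical
  by_cases hns : Group.IsSolvable G
  · exact Or.inl hns
  right
  have hnt : Nontrivial G := by
    by_contra h
    rw [not_nontrivial_iff_subsingleton] at h
    exact hns inferInstance
  refine { eq_bot_or_eq_top_of_normal := ?_ }
  intro N hN
  by_contra hcon
  push Not at hcon
  -- a maximal normal subgroup above N
  obtain ⟨M, ⟨hMn, hMt, hNM⟩, hMmax⟩ : ∃ M : Subgroup G, (M.Normal ∧ M ≠ ⊤ ∧ N ≤ M) ∧
      ∀ M' : Subgroup G, (M'.Normal ∧ M' ≠ ⊤ ∧ N ≤ M') → M ≤ M' → M' ≤ M := by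
    obtain ⟨M, h1, h2⟩ := (Set.toFinite {M : Subgroup G | M.Normal ∧ M ≠ ⊤ ∧ N ≤ M}).exists_maximal ⟨N, hN, hcon.2, le_rfl⟩
    exact ⟨M, h1, fun M' hM' hle => h2 hM' hle⟩
  have hMc := normal_comm hS hMn hMt
  have hMle : M ≤ Subgroup.centralizer (M : Set G) := Subgroup.le_centralizer M
  have hCM : Subgroup.centralizer (M : Set G) = M := by
    apply le_antisymm _ hMle
    refine hMmax _ ⟨inferInstance, ?_, hNM.trans hMle⟩ hMle
    intro htop
    apply hcon.1
    apply central_case hS hns
    refine hNM.trans ?_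
    intro m hm
    rw [Subgroup.mem_center_iff]
    intro g
    have : g ∈ Subgroup.centralizer (M : Set G) := by rw [htop]; exact Subgroup.mem_top g
    exact (Subgroup.mem_centralizer_iff.mp this m hm).symm
  -- nontrivial subgroups of `G ⧸ M` are self-normalizing
  have hSQ : ∀ H : Subgroup (G ⧸ M), H ≠ ⊥ → Subgroup.normalizer (H : Set (G ⧸ M)) = H := by
    intro H hH
    set H' := H.comap (QuotientGroup.mk' M) with hH'
    have hMH' : M ≤ H' := by
      intro m hm
      rw [hH', Subgroup.mem_comap]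
      have : QuotientGroup.mk' M m = 1 := (QuotientGroup.eq_one_iff m).mpr hm
      rw [this]; exact one_mem _
    have hnc : ¬ IsMulCommutative H' := by
      intro hc
      apply hH
      have h1 : H' ≤ Subgroup.centralizer (M : Set G) := by
        intro x hx
        rw [Subgroup.mem_centralizer_iff]
        intro m hm
        exact congrArg Subtype.val (hc.is_comm.comm (⟨m, hMH' hm⟩ : H') ⟨x, hx⟩)
      rw [hCM] at h1
      rw [eq_bot_iff]
      intro y hy
      obtain ⟨x, rfl⟩ := QuotientGroup.mk'_surjective M y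
      exact (QuotientGroup.eq_one_iff x).mpr (h1 hy)
    have h2 := hS H' hnc
    apply le_antisymm _ Subgroup.le_normalizer
    intro y hy
    obtain ⟨x, rfl⟩ := QuotientGroup.mk'_surjective M y
    have h3 : x ∈ Subgroup.normalizer (H' : Set G) := by
      rw [Subgroup.mem_normalizer_iff] at hy ⊢
      intro h
      rw [hH', Subgroup.mem_comap, Subgroup.mem_comap, map_mul, map_mul, map_inv]
      exact hy _
    rw [h2] at h3
    exact h3
  have hntQ : Nontrivial (G ⧸ M) := QuotientGroup.nontrivial_iff.mpr hMt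
  obtain ⟨r, hr, hrd⟩ := Nat.exists_prime_and_dvd (n := Nat.card (G ⧸ M)) (Finite.one_lt_card).ne'
  have : Fact r.Prime := ⟨hr⟩
  obtain ⟨P⟩ := (inferInstance : Nonempty (Sylow r (G ⧸ M)))
  obtain ⟨K, hK⟩ := (frobenius_iff P).mpr (by
    intro Q hQP g hg hgo
    by_cases hQ : Q = ⊥
    · rw [hQ, Subgroup.mem_centralizer_iff]
      intro h hh
      rw [SetLike.mem_coe, Subgroup.mem_bot] at hh
      rw [hh, one_mul, mul_one]
    · rw [hSQ Q hQ] at hg
      have : g = 1 := by
        obtain ⟨k, hk⟩ := CfsgLib.FgBas.orderOf_eq_pow (P.isPGroup'.to_le hQP) hg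
        rcases Nat.eq_zero_or_pos k with rfl | hk0
        · rw [pow_zero] at hk; exact orderOf_eq_one_iff.mp hk
        · exfalso
          rw [hk] at hgo
          have := Nat.Coprime.eq_one_of_dvd hgo.symm (dvd_pow_self r hk0.ne')
          exact hr.one_lt.ne' this
      rw [this]; exact one_mem _)
  have hKn := hK.1
  have hKbot : K = ⊥ := by
    by_contra hne
    have := hSQ K hne
    rw [Subgroup.normalizer_eq_top] at this
    apply hK.2.1
    rw [← this, Subgroup.card_top]
    exact hrd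
  obtain ⟨k, hk⟩ := hK.2.2
  rw [hKbot, Subgroup.index_bot] at hk
  have h1 : IsPGroup r (G ⧸ M) := IsPGroup.of_card hk
  have := h1.isNilpotent
  apply hns
  rw [Group.isSolvable_iff_subgroup_quotient M]
  exact ⟨Group.isSolvable_of_comm (fun a b => hMc.is_comm.comm a b), inferInstance⟩

end Cfsg.Agent.S4072
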