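import Cfsg.Statements.S4074
import Cfsg.Agent.EqBase

set_option autoImplicit false
open Cfsg

namespace Cfsg.Agent.S4074

set_option linter.style.haveILetI false
set_option linter.unusedSectionVars false
set_option linter.unusedVariables false

open Subgroup DihedralGroup

/-- For n > 2, every non-abelian subgroup of the dihedral group of order 2n is self-normalizing if and only if n = 4 or n is odd. -/
theorem result (n : ℕ) (hn : 2 < n) :
    (∀ H : Subgroup (DihedralGroup n), ¬ IsMulCommutative H → Subgroup.normalizer (H : Set (DihedralGroup n)) = H) ↔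
    (n = 4 ∨ Odd n) := by
  haveI : NeZero n := ⟨by omega⟩
  constructor
  · intro h
    by_contra hcon
    push Not at hcon
    obtain ⟨h4, hodd⟩ := hcon
    have heven : Even n := Nat.not_odd_iff_even.mp hodd
    obtain ⟨k, hk⟩ := heven
    have hk3 : 3 ≤ k := by omega
    -- H = ⟨r^2, s⟩, as the kernel-like subset
    let H : Subgroup (DihedralGroup n) := closure {r 2, sr 0}
    have h2n : (2 : ZMod n) ≠ 0 := by
      intro h0
      have := (ZMod.natCast_eq_zero_iff 2 n).mp (by exact_mod_cast h0)
      exact absurd (Nat.le_of_dvd (by norm_num) this) (by omega)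
    have h4n : (4 : ZMod n) ≠ 0 := by
      intro h0
      have := (ZMod.natCast_eq_zero_iff 4 n).mp (by exact_mod_cast h0)
      exact absurd (Nat.le_of_dvd (by norm_num) this) (by omega)
    have hr : (r 2 : DihedralGroup n) ∈ H := subset_closure (by simp)
    have hs : (sr 0 : DihedralGroup n) ∈ H := subset_closure (by simp)
    have hna : ¬ IsMulCommutative H := by
      intro hc
      have h1 := congrArg Subtype.val (hc.is_comm.comm (⟨_, hr⟩ : H) ⟨_, hs⟩)
      change (r 2 : DihedralGroup n) * sr 0 = sr 0 * r 2 at h1
      rw [r_mul_sr, sr_mul_r] at h1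
      have h2 := sr.inj h1
      apply h4n
      have : (4 : ZMod n) = (0 + 2) - (0 - 2) := by ring
      rw [this, h2, sub_self]
    have hN := h H hna
    -- `r 1` normalizes `H`
    have h1 : (r 1 : DihedralGroup n) ∈ normalizer (H : Set (DihedralGroup n)) := by
      rw [mem_normalizer_iff_map_conj_eq]
      apply Subgroup.eq_of_le_of_card_ge
      · rw [MonoidHom.map_closure, closure_le]
        rintro x ⟨y, hy, rfl⟩
        rcases hy with rfl | rfl
        · change r 1 * r 2 * (r 1)⁻¹ ∈ H
          have : (r 1 * r 2 * (r 1)⁻¹ : DihedralGroup n) = r 2 := by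
            rw [inv_r, r_mul_r, r_mul_r]; congr 1; ring
          rw [this]; exact hr
        · change r 1 * sr 0 * (r 1)⁻¹ ∈ H
          have : (r 1 * sr 0 * (r 1)⁻¹ : DihedralGroup n) = sr 0 * (r 2)⁻¹ := by
            rw [inv_r, inv_r, r_mul_sr, sr_mul_r, sr_mul_r]; congr 1; ring
          rw [this]; exact mul_mem hs (inv_mem hr)
      · rw [card_map_of_injective (MulAut.conj (r 1 : DihedralGroup n)).injective]
    rw [hN] at h1
    -- parity: H lies in the subgroup of even elements
    let f : ZMod n → ZMod 2 := ZMod.castHom (show 2 ∣ n from ⟨k, by omega⟩) (ZMod 2)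
    have hf1 : f 1 = 1 := map_one _
    have hf2 : f 2 = 0 := by
      have : (2 : ZMod n) = 1 + 1 := by norm_num
      change (ZMod.castHom (show 2 ∣ n from ⟨k, by omega⟩) (ZMod 2)) 2 = 0
      rw [this, map_add, map_one]; decide
    let φ : DihedralGroup n → ZMod 2 := fun x => match x with
      | r i => f i
      | sr i => f i
    have key : ∀ x ∈ H, φ x = 0 := by
      intro x hx
      refine Subgroup.closure_induction (p := fun x _ => φ x = 0) ?_ ?_ ?_ ?_ hx
      · rintro y (rfl | rfl)
        · exact hf2
        · exact map_zero (ZMod.castHom (show 2 ∣ n from ⟨k, by omega⟩) (ZMod 2))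
      · exact map_zero (ZMod.castHom (show 2 ∣ n from ⟨k, by omega⟩) (ZMod 2))
      · rintro (a | a) (b | b) _ _ ha hb
        · change (ZMod.castHom (show 2 ∣ n from ⟨k, by omega⟩) (ZMod 2)) (a + b) = 0
          rw [map_add]; exact (by rw [show (ZMod.castHom (show 2 ∣ n from ⟨k, by omega⟩) (ZMod 2)) a = 0 from ha, show (ZMod.castHom (show 2 ∣ n from ⟨k, by omega⟩) (ZMod 2)) b = 0 from hb, add_zero])
        · change (ZMod.castHom (show 2 ∣ n from ⟨k, by omega⟩) (ZMod 2)) (b - a) = 0
          rw [map_sub]; exact (by rw [show (ZMod.castHom (show 2 ∣ n from ⟨k, by omega⟩) (ZMod 2)) a = 0 from ha, show (ZMod.castHom (show 2 ∣ n from ⟨k, by omega⟩) (ZMod 2)) b = 0 from hb, sub_zero])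
        · change (ZMod.castHom (show 2 ∣ n from ⟨k, by omega⟩) (ZMod 2)) (a + b) = 0
          rw [map_add]; exact (by rw [show (ZMod.castHom (show 2 ∣ n from ⟨k, by omega⟩) (ZMod 2)) a = 0 from ha, show (ZMod.castHom (show 2 ∣ n from ⟨k, by omega⟩) (ZMod 2)) b = 0 from hb, add_zero])
        · change (ZMod.castHom (show 2 ∣ n from ⟨k, by omega⟩) (ZMod 2)) (b - a) = 0
          rw [map_sub]; exact (by rw [show (ZMod.castHom (show 2 ∣ n from ⟨k, by omega⟩) (ZMod 2)) a = 0 from ha, show (ZMod.castHom (show 2 ∣ n from ⟨k, by omega⟩) (ZMod 2)) b = 0 from hb, sub_zero])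
      · rintro (a | a) _ ha
        · change (ZMod.castHom (show 2 ∣ n from ⟨k, by omega⟩) (ZMod 2)) (-a) = 0
          rw [map_neg]; exact (by rw [show (ZMod.castHom (show 2 ∣ n from ⟨k, by omega⟩) (ZMod 2)) a = 0 from ha, neg_zero])
        · exact ha
    have h3 := key _ h1
    change f 1 = 0 at h3
    rw [hf1] at h3
    exact absurd h3 (by decide)
  · intro h H hna
    -- a nonabelian subgroup contains a reflection and a rotation of order > 2
    have hsr : ∃ i, (sr i : DihedralGroup n) ∈ H := by
      by_contra hcon
      push Not at hcon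
      apply hna
      refine ⟨⟨?_⟩⟩
      rintro ⟨a | a, ha⟩ ⟨b | b, hb⟩
      · apply Subtype.ext
        change r a * r b = r b * r a
        rw [r_mul_r, r_mul_r, add_comm]
      · exact absurd hb (hcon b)
      · exact absurd ha (hcon a)
      · exact absurd ha (hcon a)
    obtain ⟨i, hi⟩ := hsr
    have hrot : ∃ j, (r j : DihedralGroup n) ∈ H ∧ 2 * j ≠ 0 := by
      by_contra hcon
      push Not at hcon
      apply hna
      have hex : ∀ x ∈ H, x * x = 1 := by
        rintro (a | a) ha
        · rw [r_mul_r, ← two_mul, hcon a ha]; rfl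
        · rw [sr_mul_sr, sub_self]; rfl
      refine ⟨⟨?_⟩⟩
      rintro ⟨a, ha⟩ ⟨b, hb⟩
      apply Subtype.ext
      change a * b = b * a
      have h1 := hex _ ha
      have h2 := hex _ hb
      have h3 := hex _ (mul_mem ha hb)
      have h4 : b * a = (a * a) * (b * a) * (b * b) := by rw [h1, h2, one_mul, mul_one]
      have h5 : (a * a) * (b * a) * (b * b) = a * ((a * b) * (a * b)) * b := by group
      rw [h4, h5, h3, mul_one]
    obtain ⟨j, hj, hj2⟩ := hrot
    apply le_antisymm _ le_normalizer
    intro x hx
    -- enough: rotations in the normalizer lie in H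
    have hmain : ∀ m : ZMod n, (r m : DihedralGroup n) ∈ normalizer (H : Set (DihedralGroup n)) → (r m : DihedralGroup n) ∈ H := by
      intro m hm
      have h1 := (mem_normalizer_iff.mp hm (sr i)).mp hi
      have h2 : (r m * sr i * (r m)⁻¹ : DihedralGroup n) = sr i * r (-(2 * m)) := by
        rw [inv_r, r_mul_sr, sr_mul_r, sr_mul_r]; congr 1; ring
      rw [h2] at h1
      have h3 : (r (-(2 * m)) : DihedralGroup n) ∈ H := by
        have := mul_mem (inv_mem hi) h1
        rwa [inv_mul_cancel_left] at this
      rcases h with h4 | hodd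
      · -- n = 4
        subst h4
        -- j = 1 or 3
        have hj' : j = 1 ∨ j = 3 := by
          have : ∀ j : ZMod 4, 2 * j ≠ 0 → j = 1 ∨ j = 3 := by decide
          exact this j hj2
        have h5 : (r 1 : DihedralGroup 4) ∈ H := by
          rcases hj' with rfl | rfl
          · exact hj
          · have := inv_mem hj
            rw [inv_r] at this
            exact this
        have h6 : (r m : DihedralGroup 4) = (r 1) ^ m.val := by
          rw [r_one_pow, ZMod.natCast_zmod_val]
        rw [h6]; exact pow_mem h5 _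
      · obtain ⟨l, hl⟩ := hodd
        -- m = (-(2m)) * l  since 2l+1 = 0
        have h5 : (r m : DihedralGroup n) = (r (-(2 * m))) ^ l := by
          rw [r_pow]
          congr 1
          have h8 : ((2 * l + 1 : ℕ) : ZMod n) = 0 := by
            rw [← hl]; exact ZMod.natCast_self n
          push_cast at h8
          linear_combination (m) * h8
        rw [h5]; exact pow_mem h3 _
    rcases x with m | m
    · exact hmain m hx
    · have h1 : (r (m - i) : DihedralGroup n) ∈ normalizer (H : Set (DihedralGroup n)) := by
        have h2 : (sr i * sr m : DihedralGroup n) = r (m - i) := sr_mul_sr _ _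
        rw [← h2]; exact mul_mem (le_normalizer hi) hx
      have h3 := hmain _ h1
      have h4 : (sr m : DihedralGroup n) = sr i * r (m - i) := by
        rw [sr_mul_r]; congr 1; ring
      rw [h4]; exact mul_mem hi h3

end Cfsg.Agent.S4074
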