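import Cfsg.Statements.S4075
import Cfsg.Agent.LibFgBas2

set_option autoImplicit false
open Cfsg

namespace Cfsg.Agent.S4075

set_option linter.style.haveILetI false
set_option linter.unusedSectionVars false
set_option linter.unusedVariables false

open Subgroup CfsgLib.FgBas

/-- Let G be a finite nilpotent group. Every non-abelian subgroup of G is self-normalizing if and only if G is abelian or G is a minimal non-abelian p-group for some prime p (non-abelian of prime-power order with every proper subgroup abelian). -/
theorem result {G : Type*} [Group G] [Finite G]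
    [Group.IsNilpotent G] :
    (∀ H : Subgroup G, ¬ IsMulCommutative H → Subgroup.normalizer (H : Set G) = H) ↔
    (IsMulCommutative G ∨ (IsPrimePow (Nat.card G) ∧ ¬ IsMulCommutative G ∧ ∀ H : Subgroup G, H ≠ ⊤ → IsMulCommutative H)) := by
  classical
  constructor
  · intro h
    by_cases hc : IsMulCommutative G
    · exact Or.inl hc
    right
    have hprop : ∀ H : Subgroup G, H ≠ ⊤ → IsMulCommutative H := by
      intro H hH
      by_contra hna
      have h1 := h H hna
      have h2 := Group.normalizerCondition_of_isNilpotent (G := G) H (lt_top_iff_ne_top.mpr hH)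
      rw [h1] at h2
      exact lt_irrefl _ h2
    refine ⟨?_, hc, hprop⟩
    by_contra hpp
    apply hc
    -- all Sylow subgroups are proper, hence commutative
    have hS : ∀ (p : ℕ) [Fact p.Prime] (P : Sylow p G), IsMulCommutative (P : Subgroup G) := by
      intro p hp P
      apply hprop
      intro htop
      have h1 : IsPGroup p G := by
        have h2 := P.isPGroup'
        rw [htop] at h2
        exact h2.of_equiv topEquiv
      obtain ⟨n, hn⟩ := IsPGroup.iff_card.mp h1
      rcases Nat.eq_zero_or_pos n with rfl | hn0
      · rw [pow_zero] at hn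
        haveI := (Nat.card_eq_one_iff_unique.mp hn).1
        exact hc ⟨⟨fun a b => Subsingleton.elim _ _⟩⟩
      · exact hpp (hn ▸ (hp.out.isPrimePow.pow hn0.ne'))
    obtain ⟨e⟩ := (Group.isNilpotent_of_finite_tfae (G := G)).out 0 4 |>.mp ‹_›
    refine ⟨⟨fun a b => ?_⟩⟩
    apply e.symm.injective
    rw [map_mul, map_mul]
    funext p P
    haveI : Fact (p : ℕ).Prime := ⟨Nat.prime_of_mem_primeFactors p.2⟩
    exact (hS p P).is_comm.comm _ _
  · rintro (hc | ⟨-, -, hprop⟩) H hH
    · exact absurd (⟨⟨fun a b => Subtype.ext (hc.is_comm.comm (a : G) b)⟩⟩ : IsMulCommutative H) hH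
    · have h1 : H = ⊤ := by
        by_contra hne
        exact hH (hprop H hne)
      rw [h1]
      exact top_le_iff.mp le_normalizer

end Cfsg.Agent.S4075
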