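import Cfsg.Statements.S4080
import Mathlib

set_option autoImplicit false
open Cfsg

namespace Cfsg.Agent.S4080

theorem zmod_aux1 {p : ℕ} (hp : p.Prime) (x : ZMod (p ^ 2)) (hx : ZMod.castHom (Dvd.intro_left p (by ring) : p ∣ p ^ 2) (ZMod p) x = 0) :
    ∃ y : ZMod (p ^ 2), x = (p : ZMod (p ^ 2)) * y := by
  haveI : NeZero (p ^ 2) := ⟨pow_ne_zero 2 hp.ne_zero⟩
  have h1 : ((x.val : ℕ) : ZMod p) = 0 := by
    have h2 : ZMod.castHom (Dvd.intro_left p (by ring) : p ∣ p ^ 2) (ZMod p) ((x.val : ℕ) : ZMod (p ^ 2)) = 0 := by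
      rw [ZMod.natCast_zmod_val]; exact hx
    rwa [map_natCast] at h2
  rw [ZMod.natCast_eq_zero_iff] at h1
  obtain ⟨c, hc⟩ := h1
  refine ⟨(c : ZMod (p ^ 2)), ?_⟩
  rw [← ZMod.natCast_zmod_val x, hc]
  push_cast
  rfl

theorem zmod_aux2 {p : ℕ} (hp : p.Prime) (x : ZMod (p ^ 2)) (hx : (p : ZMod (p ^ 2)) * x = 0) :
    ∃ y : ZMod (p ^ 2), x = (p : ZMod (p ^ 2)) * y := by
  haveI : NeZero (p ^ 2) := ⟨pow_ne_zero 2 hp.ne_zero⟩
  have h1 : ((p * x.val : ℕ) : ZMod (p ^ 2)) = 0 := by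
    push_cast
    rw [ZMod.natCast_zmod_val]; exact hx
  rw [ZMod.natCast_eq_zero_iff] at h1
  have h1' : p * p ∣ p * x.val := (pow_two p) ▸ h1
  have h2 : p ∣ x.val := Nat.dvd_of_mul_dvd_mul_left hp.pos h1'
  obtain ⟨c, hc⟩ := h2
  refine ⟨(c : ZMod (p ^ 2)), ?_⟩
  rw [← ZMod.natCast_zmod_val x, hc]
  push_cast
  rfl

theorem mat_aux {p : ℕ} [Fact p.Prime] (B : Matrix (Fin 2) (Fin 2) (ZMod p)) (h : B ^ p = 0) : B ^ 2 = 0 := by
  have h1 : IsNilpotent B := ⟨p, h⟩
  have h2 := Matrix.isNilpotent_charpoly_sub_pow_of_isNilpotent h1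
  have h3 : B.charpoly = Polynomial.X ^ 2 := by
    have := h2.eq_zero
    rw [sub_eq_zero] at this
    simpa using this
  have h4 := Matrix.aeval_self_charpoly B
  rw [h3] at h4
  simpa using h4

theorem pow_aux {p : ℕ} [Fact p.Prime] (hp : 3 < p) (A : Matrix (Fin 2) (Fin 2) (ZMod (p ^ 2))) (hA : A ^ p = 1) :
    (p : Matrix (Fin 2) (Fin 2) (ZMod (p ^ 2))) * (A - 1) = 0 := by
  have hpp : p.Prime := Fact.out
  set N := A - 1 with hN
  let c := ZMod.castHom (Dvd.intro_left p (by ring) : p ∣ p ^ 2) (ZMod p)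
  have hpsq : (p : Matrix (Fin 2) (Fin 2) (ZMod (p ^ 2))) * p = 0 := by
    rw [← Nat.cast_mul, ← pow_two]
    have : ((p ^ 2 : ℕ) : ZMod (p ^ 2)) = 0 := ZMod.natCast_self _
    ext i j
    rw [Matrix.natCast_apply]
    split_ifs
    · exact this
    · exact Nat.cast_zero
  obtain ⟨M, hM⟩ : ∃ M : Matrix (Fin 2) (Fin 2) (ZMod (p ^ 2)), N ^ 2 = (p : Matrix (Fin 2) (Fin 2) (ZMod (p ^ 2))) * M := by
    have h1 : (c.mapMatrix N) ^ p = 0 := by
      have e1 : c.mapMatrix N = c.mapMatrix A - 1 := by rw [hN, map_sub, map_one]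
      rw [e1, sub_pow_char_of_commute p (Commute.one_right _), ← map_pow, hA, map_one, one_pow, sub_self]
    have h2 := mat_aux _ h1
    rw [← map_pow] at h2
    have h3 : ∀ i j, ∃ y : ZMod (p ^ 2), (N ^ 2) i j = (p : ZMod (p ^ 2)) * y := by
      intro i j
      apply zmod_aux1 hpp
      exact congrFun (congrFun h2 i) j
    choose M hM using h3
    refine ⟨Matrix.of M, ?_⟩
    ext i j
    have h5 : (p : Matrix (Fin 2) (Fin 2) (ZMod (p ^ 2))) * Matrix.of M = p • Matrix.of M := (nsmul_eq_mul _ _).symm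
    rw [h5, Matrix.smul_apply, hM i j, nsmul_eq_mul, Matrix.of_apply]
  have hcomm : Commute (p : Matrix (Fin 2) (Fin 2) (ZMod (p ^ 2))) M := Nat.cast_commute _ _
  have hpN2 : (p : Matrix (Fin 2) (Fin 2) (ZMod (p ^ 2))) * N ^ 2 = 0 := by
    rw [hM, ← mul_assoc, hpsq, zero_mul]
  have hN4 : N ^ 4 = 0 := by
    have : N ^ 4 = N ^ 2 * N ^ 2 := by rw [← pow_add]
    rw [this]
    nth_rewrite 1 [hM]
    rw [hcomm.eq, mul_assoc, hpN2, mul_zero]
  have hA1 : A = N + 1 := by rw [hN]; abel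
  rw [hA1, (Commute.one_right N).add_pow] at hA
  have hterm : ∀ k ∈ Finset.range (p + 1), k ≠ 0 → k ≠ 1 → N ^ k * 1 ^ (p - k) * (p.choose k : Matrix (Fin 2) (Fin 2) (ZMod (p ^ 2))) = 0 := by
    intro k hk hk0 hk1
    rw [Finset.mem_range] at hk
    rw [one_pow, mul_one]
    rcases Nat.lt_or_ge k p with hkp | hkp
    · obtain ⟨d, hd⟩ := hpp.dvd_choose_self hk0 hkp
      rw [hd, Nat.cast_mul, ← mul_assoc]
      have : N ^ k = N ^ (k - 2) * N ^ 2 := by rw [← pow_add]; congr 1; omega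
      rw [this, mul_assoc (N ^ (k - 2)), ← (Nat.cast_commute p (N ^ 2)).eq, hpN2, mul_zero, zero_mul]
    · have hk' : k = 4 + (k - 4) := by omega
      rw [hk', pow_add, hN4, zero_mul, zero_mul]
  have hsum : ∑ k ∈ Finset.range (p + 1), N ^ k * 1 ^ (p - k) * (p.choose k : Matrix (Fin 2) (Fin 2) (ZMod (p ^ 2)))
      = 1 + N * p := by
    have hsub : ({0, 1} : Finset ℕ) ⊆ Finset.range (p + 1) := by
      intro x hx
      simp only [Finset.mem_insert, Finset.mem_singleton] at hx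
      rw [Finset.mem_range]; omega
    rw [← Finset.sum_subset hsub (fun k hk hk' => by
      simp only [Finset.mem_insert, Finset.mem_singleton, not_or] at hk'
      exact hterm k hk hk'.1 hk'.2)]
    rw [Finset.sum_pair (by norm_num)]
    simp
  rw [hsum] at hA
  have h5 : N * p = 0 := by
    have := congrArg (fun z => z - 1) hA
    simpa using this
  rw [(Nat.cast_commute p N).eq, h5]

/-- Let p > 3 be a prime and L the direct product of two cyclic groups of order p². Every automorphism of L of order p fixes every element of order p of L. -/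
theorem result {p : ℕ} [Fact p.Prime] (hp : 3 < p)
    (a : MulAut (Multiplicative (ZMod (p ^ 2) × ZMod (p ^ 2)))) (ha : orderOf a = p)
    (x : Multiplicative (ZMod (p ^ 2) × ZMod (p ^ 2))) (hx : orderOf x = p) : a x = x := by
  classical
  have hpp : p.Prime := Fact.out
  let f0 : (ZMod (p ^ 2) × ZMod (p ^ 2)) →+ (ZMod (p ^ 2) × ZMod (p ^ 2)) :=
    (AddEquiv.toMultiplicative.symm a).toAddMonoidHom
  let φ : Module.End (ZMod (p ^ 2)) (ZMod (p ^ 2) × ZMod (p ^ 2)) := f0.toZModLinearMap (p ^ 2)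
  have hφ : ∀ v, φ v = Multiplicative.toAdd (a (Multiplicative.ofAdd v)) := fun v => rfl
  have hpow : ∀ n : ℕ, ∀ v, (φ ^ n) v = Multiplicative.toAdd ((a ^ n) (Multiplicative.ofAdd v)) := by
    intro n
    induction n with
    | zero => intro v; rfl
    | succ n ih =>
      intro v
      have e1 : φ ^ (n + 1) = φ * φ ^ n := pow_succ' φ n
      have e2 : a ^ (n + 1) = a * a ^ n := pow_succ' a n
      rw [e1, e2]
      show φ ((φ ^ n) v) = _
      rw [ih, hφ]
      rfl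
  have hφp : φ ^ p = 1 := by
    apply LinearMap.ext
    intro v
    have e1 : a ^ p = 1 := by
      have := pow_orderOf_eq_one a
      rwa [ha] at this
    rw [hpow, e1]
    rfl
  let e := LinearMap.toMatrixAlgEquiv (Module.Basis.finTwoProd (ZMod (p ^ 2)))
  have hA : (e φ) ^ p = 1 := by rw [← map_pow, hφp, map_one]
  have h1 := pow_aux hp (e φ) hA
  have h2 : (p : Module.End (ZMod (p ^ 2)) (ZMod (p ^ 2) × ZMod (p ^ 2))) * (φ - 1) = 0 := by
    apply e.injective
    rw [map_mul, map_natCast, map_sub, map_one, map_zero]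
    exact h1
  have h3 : (p : ℕ) • Multiplicative.toAdd x = 0 := by
    have : x ^ p = 1 := by
      have := pow_orderOf_eq_one x
      rwa [hx] at this
    exact congrArg Multiplicative.toAdd this
  obtain ⟨y, hy⟩ : ∃ y, Multiplicative.toAdd x = (p : ℕ) • y := by
    have h4 := congrArg Prod.fst h3
    have h5 := congrArg Prod.snd h3
    rw [Prod.smul_fst, nsmul_eq_mul] at h4
    rw [Prod.smul_snd, nsmul_eq_mul] at h5
    obtain ⟨y1, hy1⟩ := zmod_aux2 hpp _ h4
    obtain ⟨y2, hy2⟩ := zmod_aux2 hpp _ h5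
    refine ⟨(y1, y2), ?_⟩
    apply Prod.ext
    · rw [hy1, Prod.smul_fst, nsmul_eq_mul]
    · rw [hy2, Prod.smul_snd, nsmul_eq_mul]
  have h6 := LinearMap.congr_fun h2 y
  have h7 : (p : ℕ) • (φ y - y) = 0 := by
    rw [← nsmul_eq_mul] at h6
    exact h6
  apply Multiplicative.toAdd.injective
  have h8 : φ (Multiplicative.toAdd x) = Multiplicative.toAdd x := by
    rw [hy, map_nsmul]
    rw [smul_sub, sub_eq_zero] at h7
    exact h7
  exact h8

end Cfsg.Agent.S4080
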