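import Cfsg.Statements.S4081
import Mathlib
import Cfsg.Agent.LibH7Aut3d
import Cfsg.Agent.S0144

set_option autoImplicit false
open Cfsg

namespace Cfsg.Agent.S4081

open scoped commutatorElement in
open Subgroup in
theorem exists_D {G : Type*} [Group G] [Finite G] (hs : Group.IsSolvable G) (hn : Nat.card G ≠ 1) :
    ∃ D : Subgroup G, D ≠ ⊥ ∧ (∀ φ : MulAut G, ∀ x ∈ D, φ x ∈ D) ∧ ∀ x ∈ D, ∀ y ∈ D, x * y = y * x := by
  classical
  have h := hs.solvable
  have hk := Nat.find_spec h
  set k := Nat.find h with hkd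
  have hk0 : k ≠ 0 := by
    intro h0
    rw [h0, derivedSeries_zero] at hk
    apply hn
    have := Subgroup.card_top (G := G)
    rw [hk, Subgroup.card_bot] at this
    exact this.symm
  obtain ⟨j, hj⟩ := Nat.exists_eq_succ_of_ne_zero hk0
  have hjn : derivedSeries G j ≠ ⊥ := Nat.find_min h (by omega)
  refine ⟨derivedSeries G j, hjn, ?_, ?_⟩
  · intro φ x hx
    exact map_derivedSeries_le_derivedSeries φ.toMonoidHom j (mem_map_of_mem _ hx)
  · intro x hx y hy
    rw [hj, Nat.succ_eq_add_one, derivedSeries_succ] at hk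
    have : ⁅x, y⁆ ∈ ⁅derivedSeries G j, derivedSeries G j⁆ := commutator_mem_commutator hx hy
    rw [hk, mem_bot] at this
    exact commutatorElement_eq_one_iff_mul_comm.mp this

theorem quot_eq {G : Type*} [Group G] (a b : G) :
    (Quotient.mk'' a : MulAction.orbitRel.Quotient (MulAut G) G) = Quotient.mk'' b ↔ ∃ φ : MulAut G, φ b = a := by
  rw [Quotient.eq'']
  exact MulAction.orbitRel_apply

theorem fwd {G : Type*} [Group G] [Finite G] (hnpp : ¬ IsPrimePow (Nat.card G)) (hnt : Nat.card G ≠ 1)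
    (h3 : Nat.card (MulAction.orbitRel.Quotient (MulAut G) G) = 3) :
    ∃ (p q n : ℕ) (_ : Fact p.Prime) (_ : Fact q.Prime), p ≠ q ∧ 1 ≤ n ∧ Nat.card G = p ^ n * q ∧
      (∀ P : Sylow p G, (P : Subgroup G).Normal ∧ Cfsg.IsElementaryAbelian p (P : Subgroup G)) ∧
      orderOf (p : ZMod q) = q - 1 ∧
      ∀ x y : G, orderOf x = q → orderOf y = p → x * y * x⁻¹ ≠ y := by
  classical
  obtain ⟨p, hp, hpd⟩ := Nat.exists_prime_and_dvd hnt
  obtain ⟨q, hq, hqd, hpq⟩ : ∃ q, q.Prime ∧ q ∣ Nat.card G ∧ p ≠ q := by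
    by_contra hcon
    push Not at hcon
    apply hnpp
    rw [isPrimePow_nat_iff_bounded]
    have h1 : ∀ {r : ℕ}, r.Prime → r ∣ Nat.card G → r = p := fun {r} hr hrd => (hcon r hr hrd).symm
    have h2 := Nat.eq_prime_pow_of_unique_prime_dvd (Nat.card_pos (α := G)).ne' h1
    have h0 : (Nat.card G).primeFactorsList.length ≠ 0 := by
      intro h0
      rw [h0, pow_zero] at h2
      exact hnt h2
    rw [← isPrimePow_nat_iff_bounded, h2]
    exact hp.isPrimePow.pow h0
  haveI : Fact p.Prime := ⟨hp⟩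
  haveI : Fact q.Prime := ⟨hq⟩
  obtain ⟨a, ha⟩ := exists_prime_orderOf_dvd_card' (G := G) p hpd
  obtain ⟨b, hb⟩ := exists_prime_orderOf_dvd_card' (G := G) q hqd
  haveI : Finite (MulAction.orbitRel.Quotient (MulAut G) G) := Quotient.finite _
  let f : Fin 3 → MulAction.orbitRel.Quotient (MulAut G) G := ![Quotient.mk'' 1, Quotient.mk'' a, Quotient.mk'' b]
  have hne : ∀ x y : G, orderOf x ≠ orderOf y →
      (Quotient.mk'' x : MulAction.orbitRel.Quotient (MulAut G) G) ≠ Quotient.mk'' y := by
    intro x y hxy h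
    rw [quot_eq] at h
    obtain ⟨φ, rfl⟩ := h
    exact hxy (MulEquiv.orderOf_eq φ y)
  have h1a : orderOf (1 : G) ≠ orderOf a := by rw [orderOf_one, ha]; exact hp.one_lt.ne
  have h1b : orderOf (1 : G) ≠ orderOf b := by rw [orderOf_one, hb]; exact hq.one_lt.ne
  have hab : orderOf a ≠ orderOf b := by rw [ha, hb]; exact hpq
  have hinj : Function.Injective f := by
    intro i j hij
    fin_cases i <;> fin_cases j <;> simp [f] at hij ⊢
    · exact hne _ _ h1a hij
    · exact hne _ _ h1b hij
    · exact hne _ _ h1a.symm hij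
    · exact hne _ _ hab hij
    · exact hne _ _ h1b.symm hij
    · exact hne _ _ hab.symm hij
  have hbij : Function.Bijective f := by
    apply hinj.bijective_of_nat_card_le
    rw [h3, Nat.card_eq_fintype_card, Fintype.card_fin]
  have hcases : ∀ g : G, g = 1 ∨ (∃ φ : MulAut G, φ a = g) ∨ (∃ φ : MulAut G, φ b = g) := by
    intro g
    obtain ⟨i, hi⟩ := hbij.2 (Quotient.mk'' g)
    fin_cases i
    · left
      have h1 : (Quotient.mk'' g : MulAction.orbitRel.Quotient (MulAut G) G) = Quotient.mk'' 1 := hi.symm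
      rw [quot_eq] at h1
      obtain ⟨φ, hφ⟩ := h1
      rw [← hφ, map_one]
    · right; left
      have h1 : (Quotient.mk'' g : MulAction.orbitRel.Quotient (MulAut G) G) = Quotient.mk'' a := hi.symm
      rwa [quot_eq] at h1
    · right; right
      have h1 : (Quotient.mk'' g : MulAction.orbitRel.Quotient (MulAut G) G) = Quotient.mk'' b := hi.symm
      rwa [quot_eq] at h1
  have hord : ∀ g : G, g ≠ 1 → orderOf g = p ∨ orderOf g = q := by
    intro g hg
    rcases hcases g with h | ⟨φ, h⟩ | ⟨φ, h⟩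
    · exact absurd h hg
    · left; rw [← h, MulEquiv.orderOf_eq, ha]
    · right; rw [← h, MulEquiv.orderOf_eq, hb]
  have htp : ∀ x y : G, orderOf x = p → orderOf y = p → ∃ φ : MulAut G, φ x = y := by
    have key : ∀ x : G, orderOf x = p → ∃ φ : MulAut G, φ a = x := by
      intro x hx
      rcases hcases x with h | h | ⟨φ, h⟩
      · rw [h, orderOf_one] at hx; exact absurd hx hp.one_lt.ne
      · exact h
      · rw [← h, MulEquiv.orderOf_eq, hb] at hx; exact absurd hx.symm hpq
    intro x y hx hy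
    obtain ⟨φ, h⟩ := key x hx
    obtain ⟨ψ, h'⟩ := key y hy
    refine ⟨φ.symm.trans ψ, ?_⟩
    show ψ (φ.symm x) = y
    rw [← h, MulEquiv.symm_apply_apply, h']
  have htq : ∀ x y : G, orderOf x = q → orderOf y = q → ∃ φ : MulAut G, φ x = y := by
    have key : ∀ x : G, orderOf x = q → ∃ φ : MulAut G, φ b = x := by
      intro x hx
      rcases hcases x with h | ⟨φ, h⟩ | h
      · rw [h, orderOf_one] at hx; exact absurd hx hq.one_lt.ne
      · rw [← h, MulEquiv.orderOf_eq, ha] at hx; exact absurd hx hpq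
      · exact h
    intro x y hx hy
    obtain ⟨φ, h⟩ := key x hx
    obtain ⟨ψ, h'⟩ := key y hy
    refine ⟨φ.symm.trans ψ, ?_⟩
    show ψ (φ.symm x) = y
    rw [← h, MulEquiv.symm_apply_apply, h']
  have hpr : ∀ r : ℕ, r.Prime → r ∣ Nat.card G → r = p ∨ r = q := by
    intro r hr hrd
    haveI : Fact r.Prime := ⟨hr⟩
    obtain ⟨c, hc⟩ := exists_prime_orderOf_dvd_card' (G := G) r hrd
    have hc1 : c ≠ 1 := by rintro rfl; rw [orderOf_one] at hc; exact hr.one_lt.ne hc
    rcases hord c hc1 with h | h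
    · left; rw [← hc, h]
    · right; rw [← hc, h]
  have hsol : Group.IsSolvable G := by
    have h1 : ∃ i j : ℕ, Nat.card G = p ^ i * q ^ j := by
      refine ⟨(Nat.card G).factorization p, (Nat.card G).factorization q, ?_⟩
      conv_lhs => rw [← Nat.prod_factorization_pow_eq_self (Nat.card_pos (α := G)).ne']
      rw [Finsupp.prod_of_support_subset (s := {p, q})]
      · rw [Finset.prod_pair hpq]
      · intro r hr
        rw [Nat.support_factorization, Nat.mem_primeFactors] at hr
        rw [Finset.mem_insert, Finset.mem_singleton]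
        exact hpr r hr.1 hr.2.1
      · intro i _; exact pow_zero i
    obtain ⟨i, j, hij⟩ := h1
    exact Cfsg.Agent.S0144.result p q i j hp hq hij
  obtain ⟨D, hD0, hDch, hDc⟩ := exists_D hsol hnt
  obtain ⟨x0, hx0, hx01⟩ := D.ne_bot_iff_exists_ne_one.mp hD0 |>.elim (fun x hx => ⟨(x : G), x.2, fun h => hx (Subtype.ext h)⟩ :
    ∀ x : D, x ≠ 1 → ∃ x0 : G, x0 ∈ D ∧ x0 ≠ 1)
  rcases hord x0 hx01 with h | h
  · obtain ⟨n, h1, h2, h3, h4, h5⟩ := CfsgLib.H7Aut3.forward_core p q hpq hord htp htq hpd hqd hpr D hDch hDc x0 hx0 h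
    exact ⟨p, q, n, ⟨hp⟩, ⟨hq⟩, hpq, h1, h2, h3, h4, h5⟩
  · obtain ⟨n, h1, h2, h3, h4, h5⟩ := CfsgLib.H7Aut3.forward_core q p hpq.symm (fun g hg => (hord g hg).symm) htq htp hqd hpd
      (fun r hr hrd => (hpr r hr hrd).symm) D hDch hDc x0 hx0 h
    exact ⟨q, p, n, ⟨hq⟩, ⟨hp⟩, hpq.symm, h1, h2, h3, h4, h5⟩

/-- Let G be a finite group whose order is not a prime power. Then the automorphism group of G has exactly three orbits on G if and only if there are distinct primes p, q with #G = pⁿ·q (n ≥ 1) such that G has a normal elementary abelian Sylow p-subgroup P, p is a primitive root modulo q (the multiplicative order of p mod q is q − 1), and every element of order q of G acts on P without non-identity fixed points. -/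
theorem result {G : Type*} [Group G] [Finite G] (hnpp : ¬ IsPrimePow (Nat.card G)) (hnt : Nat.card G ≠ 1) :
    Nat.card (MulAction.orbitRel.Quotient (MulAut G) G) = 3 ↔
    ∃ (p q n : ℕ) (_ : Fact p.Prime) (_ : Fact q.Prime), p ≠ q ∧ 1 ≤ n ∧ Nat.card G = p ^ n * q ∧
      (∀ P : Sylow p G, (P : Subgroup G).Normal ∧ Cfsg.IsElementaryAbelian p (P : Subgroup G)) ∧
      orderOf (p : ZMod q) = q - 1 ∧
      ∀ x y : G, orderOf x = q → orderOf y = p → x * y * x⁻¹ ≠ y := by
  classical
  constructor
  · intro h3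
    exact fwd hnpp hnt h3
  · rintro ⟨p, q, n, hp, hq, hpq, hn1, hcard, hP, hprim, hfp⟩
    obtain ⟨hord, htp, htq⟩ := CfsgLib.H7Aut3.backward_core p q n hpq hcard hP hprim hfp
    obtain ⟨a, ha⟩ := exists_prime_orderOf_dvd_card' (G := G) p
      (by rw [hcard]; exact (dvd_pow_self p (by omega)).mul_right q)
    obtain ⟨b, hb⟩ := exists_prime_orderOf_dvd_card' (G := G) q (by rw [hcard]; exact dvd_mul_left _ _)
    haveI : Finite (MulAction.orbitRel.Quotient (MulAut G) G) := Quotient.finite _
    let f : Fin 3 → MulAction.orbitRel.Quotient (MulAut G) G := ![Quotient.mk'' 1, Quotient.mk'' a, Quotient.mk'' b]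
    have hne : ∀ x y : G, orderOf x ≠ orderOf y →
        (Quotient.mk'' x : MulAction.orbitRel.Quotient (MulAut G) G) ≠ Quotient.mk'' y := by
      intro x y hxy h
      rw [quot_eq] at h
      obtain ⟨φ, rfl⟩ := h
      exact hxy (MulEquiv.orderOf_eq φ y)
    have h1a : orderOf (1 : G) ≠ orderOf a := by rw [orderOf_one, ha]; exact hp.out.one_lt.ne
    have h1b : orderOf (1 : G) ≠ orderOf b := by rw [orderOf_one, hb]; exact hq.out.one_lt.ne
    have hab : orderOf a ≠ orderOf b := by rw [ha, hb]; exact hpq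
    have hinj : Function.Injective f := by
      intro i j hij
      fin_cases i <;> fin_cases j <;> simp [f] at hij ⊢
      · exact hne _ _ h1a hij
      · exact hne _ _ h1b hij
      · exact hne _ _ h1a.symm hij
      · exact hne _ _ hab hij
      · exact hne _ _ h1b.symm hij
      · exact hne _ _ hab.symm hij
    have hsurj : Function.Surjective f := by
      intro x
      induction x using Quotient.inductionOn' with
      | h g =>
        by_cases hg : g = 1
        · exact ⟨0, by rw [hg]; rfl⟩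
        rcases hord g hg with h | h
        · refine ⟨1, ?_⟩
          show (Quotient.mk'' a : MulAction.orbitRel.Quotient (MulAut G) G) = Quotient.mk'' g
          rw [quot_eq]
          exact htp g a h ha
        · refine ⟨2, ?_⟩
          show (Quotient.mk'' b : MulAction.orbitRel.Quotient (MulAut G) G) = Quotient.mk'' g
          rw [quot_eq]
          exact htq g b h hb
    rw [← Nat.card_congr (Equiv.ofBijective f ⟨hinj, hsurj⟩), Nat.card_eq_fintype_card, Fintype.card_fin]

end Cfsg.Agent.S4081
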