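import Cfsg.Statements.S4082
import Cfsg.Agent.LibFgCD
import Cfsg.Agent.LibTransPC

set_option autoImplicit false
open Cfsg

namespace Cfsg.Agent.S4082

set_option linter.style.haveILetI false
set_option linter.unusedSectionVars false
set_option linter.unusedVariables false

open CfsgLib.FgCD in
theorem fwd {G : Type*} [Group G] [Finite G] {p : ℕ} [hpf : Fact p.Prime] (hp : p ≠ 2) (P : Sylow p G)
    (hall : ∀ H : Subgroup G, (∀ S : Sylow p ↥H, (S : Subgroup ↥H).Normal) →
        (∀ (S : Sylow p ↥H) [(S : Subgroup ↥H).Normal], IsCyclic (↥H ⧸ (S : Subgroup ↥H))) →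
        IsCyclic H ∨ (∃ n : ℕ, Nonempty (H ≃* DihedralGroup (p ^ n)))) {A : Subgroup G} (hA : IsPGroup p A) {x : G}
    (hx : x ∈ Subgroup.normalizer (A : Set G)) (hxC : x ∉ Subgroup.centralizer (A : Set G)) :
    x * x = 1 ∧ x ≠ 1 ∧ ∀ a ∈ A, x * a * x⁻¹ = a⁻¹ := by
  obtain ⟨h1, h2⟩ := sylow_of_ext hA hx
  have h3 := hall _ h1 h2
  obtain ⟨H, hH⟩ : ∃ H, H = A ⊔ Subgroup.zpowers x := ⟨_, rfl⟩
  rw [← hH] at h3
  have hAH : A ≤ H := by rw [hH]; exact le_sup_left
  have hxH : x ∈ H := by rw [hH]; exact (le_sup_right : Subgroup.zpowers x ≤ A ⊔ Subgroup.zpowers x) (Subgroup.mem_zpowers x)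
  have hodd : ∀ a ∈ A, Odd (orderOf a) := by
    intro a ha
    obtain ⟨k, hk⟩ := IsPGroup.iff_orderOf.mp hA ⟨a, ha⟩
    rw [Subgroup.orderOf_mk] at hk
    rw [hk]
    exact (hpf.out.odd_of_ne_two hp).pow
  obtain ⟨y, hy, hxy⟩ : ∃ y ∈ A, x * y ≠ y * x := by
    by_contra hcon
    push Not at hcon
    apply hxC
    rw [Subgroup.mem_centralizer_iff]
    intro y hy
    exact (hcon y hy).symm
  rcases h3 with h3 | ⟨n, ⟨e⟩⟩
  · exfalso
    apply hxy
    have := h3.isMulCommutative.is_comm.comm (⟨x, hxH⟩ : H) ⟨y, hAH hy⟩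
    exact congrArg Subtype.val this
  · obtain ⟨ha, hb, hc⟩ := dihedral_elt e (x := ⟨x, hxH⟩) (y := ⟨y, hAH hy⟩)
      (by rw [Subgroup.orderOf_mk]; exact hodd y hy) (fun h => hxy (congrArg Subtype.val h))
    refine ⟨congrArg Subtype.val ha, fun h => hb (Subtype.ext h), fun a ha => ?_⟩
    have h4 := hc ⟨a, hAH ha⟩ (by rw [Subgroup.orderOf_mk]; exact hodd a ha)
    exact congrArg Subtype.val h4

theorem cyclic_p {G : Type*} [Group G] [Finite G] {p : ℕ} [hpf : Fact p.Prime] (P : Sylow p G) (hP : IsCyclic P)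
    {S : Subgroup G} (hS : IsPGroup p S) : IsCyclic S := by
  obtain ⟨T, hT⟩ := hS.exists_le_sylow
  have e : P ≃* T := Sylow.equiv P T
  haveI : IsCyclic T := isCyclic_of_surjective e e.surjective
  exact isCyclic_of_injective (Subgroup.inclusion hT) (Subgroup.inclusion_injective hT)

open CfsgLib.FgCD in
theorem bwd1 {G : Type*} [Group G] [Finite G] {p : ℕ} [hpf : Fact p.Prime] (P : Sylow p G) (hP : IsCyclic P)
    (hNC : Subgroup.normalizer ((P : Subgroup G) : Set G) = Subgroup.centralizer ((P : Subgroup G) : Set G))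
    (H : Subgroup G) (S : Sylow p H) [hSn : (S : Subgroup H).Normal] (hQ : IsCyclic (H ⧸ (S : Subgroup H))) : IsCyclic H := by
  have h1 := MonoidHom.ker_transferSylow_isComplement' P hNC.le
  have h2 := CfsgLib.TransPC.IsNPC.of_isComplement' P (MonoidHom.normal_ker _) h1
  have h3 := h2.subgroupOf H
  have h4 := h3.isComplement' S
  have h5 := h3.1
  have hScyc : IsCyclic (S : Subgroup H) := by
    have hmap : IsCyclic ((S : Subgroup H).map H.subtype) := cyclic_p P hP (S.isPGroup'.map _)
    have e := (S : Subgroup H).equivMapOfInjective H.subtype H.subtype_injective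
    exact isCyclic_of_injective e.toMonoidHom e.injective
  obtain ⟨K, hK⟩ : ∃ K, K = (MonoidHom.transferSylow P hNC.le).ker.subgroupOf H := ⟨_, rfl⟩
  rw [← hK] at h3 h4 h5
  apply isCyclic_of_central (S : Subgroup H) hScyc hQ
  · intro y hy
    rw [Subgroup.mem_center_iff]
    intro h
    obtain ⟨⟨k, s⟩, hks⟩ := h4.2 h
    have hks' : (k : H) * s = h := hks
    have e1 : (s : H) * y = y * s := by
      have := hScyc.isMulCommutative.is_comm.comm (⟨(s : H), s.2⟩ : (S : Subgroup H)) ⟨y, hy⟩
      exact congrArg Subtype.val this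
    have e2 : (k : H) * y = y * k := by
      have h6 : (k : H) * y * (k : H)⁻¹ * y⁻¹ ∈ K ⊓ (S : Subgroup H) := by
        refine Subgroup.mem_inf.mpr ⟨?_, ?_⟩
        · have := h5.conj_mem _ (inv_mem k.2) y
          have h7 := mul_mem k.2 this
          convert h7 using 1
          group
        · exact mul_mem (hSn.conj_mem y hy k) (inv_mem hy)
      rw [h4.disjoint.eq_bot, Subgroup.mem_bot, mul_inv_eq_one, mul_inv_eq_iff_eq_mul] at h6
      exact h6
    rw [← hks', mul_assoc, e1, ← mul_assoc, e2, mul_assoc]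
  · exact Sylow.card_coprime_index S

open CfsgLib.FgCD in
theorem bwd2 {G : Type*} [Group G] [Finite G] {p : ℕ} [hpf : Fact p.Prime] (P : Sylow p G) (hP : IsCyclic P)
    (hall : ∀ Q : Subgroup G, Nat.card Q = p →
      (∀ a b : G, a ∈ Subgroup.centralizer (Q : Set G) → b ∈ Subgroup.centralizer (Q : Set G) → a * b = b * a) ∧
      ∀ x : G, x ∈ Subgroup.normalizer (Q : Set G) → x ∉ Subgroup.centralizer (Q : Set G) →
            x * x = 1 ∧ ∀ c : G, c ∈ Subgroup.centralizer (Q : Set G) → x * c * x⁻¹ = c⁻¹)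
    (H : Subgroup G) (S : Sylow p H) [hSn : (S : Subgroup H).Normal] (hQ : IsCyclic (H ⧸ (S : Subgroup H))) :
    IsCyclic H ∨ (∃ n : ℕ, Nonempty (H ≃* DihedralGroup (p ^ n))) := by
  have hScyc : IsCyclic (S : Subgroup H) := by
    have hmap : IsCyclic ((S : Subgroup H).map H.subtype) := cyclic_p P hP (S.isPGroup'.map _)
    have e := (S : Subgroup H).equivMapOfInjective H.subtype H.subtype_injective
    exact isCyclic_of_injective e.toMonoidHom e.injective
  by_cases hS1 : (S : Subgroup H) = ⊥
  · left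
    exact isCyclic_of_central (S : Subgroup H) hScyc hQ (by rw [hS1]; exact bot_le) (Sylow.card_coprime_index S)
  obtain ⟨s, hs⟩ := hScyc.exists_generator
  obtain ⟨n, hn⟩ := IsPGroup.iff_card.mp S.isPGroup'
  have hn0 : n ≠ 0 := by
    rintro rfl
    apply hS1
    rw [pow_zero] at hn
    exact Subgroup.eq_bot_of_card_eq _ hn
  have hos : orderOf ((s : H) : G) = p ^ n := by
    rw [Subgroup.orderOf_coe, Subgroup.orderOf_coe, orderOf_eq_card_of_forall_mem_zpowers hs]
    exact hn
  obtain ⟨Q, hQdef⟩ : ∃ Q, Q = Subgroup.zpowers (((s : H) : G) ^ (p ^ (n - 1))) := ⟨_, rfl⟩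
  have hQcard : Nat.card Q = p := by
    rw [hQdef, Nat.card_zpowers, orderOf_pow_of_dvd (pow_ne_zero _ hpf.out.ne_zero) (by
      rw [hos]; exact pow_dvd_pow p (by omega)), hos, Nat.pow_div (by omega) hpf.out.pos]
    have : n - (n - 1) = 1 := by omega
    rw [this, pow_one]
  have hHN : H ≤ Subgroup.normalizer (Q : Set G) := by
    have key : ∀ h : H, ∀ y ∈ Q, (h : G) * y * (h : G)⁻¹ ∈ Q := by
      intro h y hy
      have h1 := hSn.conj_mem s s.2 h
      obtain ⟨j, hj⟩ := Subgroup.mem_zpowers_iff.mp (hs ⟨_, h1⟩)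
      have h2 : ((s : H) : G) ^ j = (h : G) * s * (h : G)⁻¹ := by
        have := congrArg (fun z : (S : Subgroup H) => ((z : H) : G)) hj
        simpa using this
      rw [hQdef] at hy ⊢
      obtain ⟨i, hi⟩ := Subgroup.mem_zpowers_iff.mp hy
      refine Subgroup.mem_zpowers_iff.mpr ⟨i * j, ?_⟩
      rw [← hi, ← conj_zpow, ← conj_pow, ← h2, ← zpow_natCast, ← zpow_natCast, ← zpow_mul, ← zpow_mul, ← zpow_mul]
      congr 1
      ring
    intro h hh
    rw [Subgroup.mem_normalizer_iff]
    intro y
    constructor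
    · exact key ⟨h, hh⟩ y
    · intro hy
      have := key ⟨h⁻¹, inv_mem hh⟩ _ hy
      have e : (h⁻¹ : G) * (h * y * h⁻¹) * (h⁻¹ : G)⁻¹ = y := by group
      rwa [show ((⟨h⁻¹, inv_mem hh⟩ : H) : G) = h⁻¹ from rfl, e] at this
  obtain ⟨hab, hinv⟩ := hall Q hQcard
  have hSC : ∀ y : H, y ∈ (S : Subgroup H) → (y : G) ∈ Subgroup.centralizer (Q : Set G) := by
    intro y hy
    rw [Subgroup.mem_centralizer_iff]
    intro z hz
    rw [hQdef] at hz
    obtain ⟨i, hi⟩ := Subgroup.mem_zpowers_iff.mp hz
    have h1 : ((s : H) : G) * (y : G) = y * ((s : H) : G) := by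
      have := hScyc.isMulCommutative.is_comm.comm s (⟨y, hy⟩ : (S : Subgroup H))
      exact congrArg (fun z : (S : Subgroup H) => ((z : H) : G)) this
    have h2 : Commute (((s : H) : G)) (y : G) := h1
    rw [← hi]
    exact ((h2.pow_left _).zpow_left i)
  by_cases hHC : H ≤ Subgroup.centralizer (Q : Set G)
  · left
    exact isCyclic_of_comm (S : Subgroup H) hScyc hQ (fun a b => Subtype.ext (hab a b (hHC a.2) (hHC b.2)))
      (Sylow.card_coprime_index S)
  · right
    refine dihedral_of S hScyc hQ ((Subgroup.centralizer (Q : Set G)).subgroupOf H) (fun y hy => hSC y hy) ?_ ?_ ?_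
    · intro h
      apply hHC
      intro x hx
      have : (⟨x, hx⟩ : H) ∈ (Subgroup.centralizer (Q : Set G)).subgroupOf H := by rw [h]; trivial
      exact this
    · intro x hx
      exact Subtype.ext (hinv x (hHN x.2) hx).1
    · intro x hx c hc
      exact Subtype.ext ((hinv x (hHN x.2) hx).2 c hc)

/-- Let p be an odd prime and G a finite group with Sylow p-subgroup P. Say that G has restricted p-by-cyclic subgroups when every subgroup H of G whose Sylow p-subgroup is normal in H with cyclic quotient is itself cyclic or dihedral of order 2pⁿ for some n. Then G has restricted p-by-cyclic subgroups if and only if P is cyclic and one of the following holds: (1) N_G(P) = C_G(P); or (2) N_G(P)/C_G(P) has order 2 and, for the subgroup Q of order p of P, the centralizer C_G(Q) is abelian and every element of N_G(Q) outside C_G(Q) is an involution inverting every element of C_G(Q). -/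
theorem result {G : Type*} [Group G] [Finite G] {p : ℕ}
    [Fact p.Prime] (hp : p ≠ 2) (P : Sylow p G) :
    (∀ H : Subgroup G, (∀ S : Sylow p ↥H, (S : Subgroup ↥H).Normal) →
        (∀ (S : Sylow p ↥H) [(S : Subgroup ↥H).Normal], IsCyclic (↥H ⧸ (S : Subgroup ↥H))) →
        IsCyclic H ∨ (∃ n : ℕ, Nonempty (H ≃* DihedralGroup (p ^ n)))) ↔
    (IsCyclic P ∧
      (Subgroup.normalizer ((P : Subgroup G) : Set G) = Subgroup.centralizer ((P : Subgroup G) : Set G) ∨
       ((Subgroup.centralizer ((P : Subgroup G) : Set G)).relIndex (Subgroup.normalizer ((P : Subgroup G) : Set G)) = 2 ∧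
        ∀ Q : Subgroup G, Q ≤ P → Nat.card Q = p →
          IsMulCommutative ↥(Subgroup.centralizer (Q : Set G)) ∧
          ∀ x : G, x ∈ Subgroup.normalizer (Q : Set G) → x ∉ Subgroup.centralizer (Q : Set G) →
            orderOf x = 2 ∧ ∀ c : G, c ∈ Subgroup.centralizer (Q : Set G) → x * c * x⁻¹ = c⁻¹))) := by
  constructor
  · intro hall
    have hPcyc : IsCyclic P := by
      have h1 := hall (P : Subgroup G) (fun S => by
        have : (S : Subgroup (P : Subgroup G)) = ⊤ := by
          have := S.isPGroup'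
          have h2 := S.3 (Q := ⊤) (P.isPGroup'.to_subgroup ⊤) le_top
          exact h2.symm
        rw [this]; infer_instance) (fun S _ => by
        have : (S : Subgroup (P : Subgroup G)) = ⊤ := by
          have h2 := S.3 (Q := ⊤) (P.isPGroup'.to_subgroup ⊤) le_top
          exact h2.symm
        haveI : Subsingleton ((P : Subgroup G) ⧸ (S : Subgroup (P : Subgroup G))) := by
          rw [this]; exact QuotientGroup.subsingleton_quotient_top
        infer_instance)
      rcases h1 with h1 | ⟨n, ⟨e⟩⟩
      · exact h1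
      · exfalso
        have h2 : Nat.card (P : Subgroup G) = 2 * p ^ n := by
          rw [Nat.card_congr e.toEquiv, DihedralGroup.nat_card]
        obtain ⟨k, hk⟩ := IsPGroup.iff_card.mp P.isPGroup'
        have h3 : 2 ∣ p ^ k := by
          rw [← hk]; exact ⟨p ^ n, h2⟩
        have h4 := Nat.prime_two.dvd_of_dvd_pow h3
        exact hp ((Nat.prime_dvd_prime_iff_eq Nat.prime_two (Fact.out : p.Prime)).mp h4).symm
    refine ⟨hPcyc, ?_⟩
    by_cases hNC : Subgroup.normalizer ((P : Subgroup G) : Set G) = Subgroup.centralizer ((P : Subgroup G) : Set G)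
    · exact Or.inl hNC
    right
    have hCN : Subgroup.centralizer ((P : Subgroup G) : Set G) ≤ Subgroup.normalizer ((P : Subgroup G) : Set G) :=
      Subgroup.centralizer_le_normalizer _
    obtain ⟨x, hx, hxC⟩ : ∃ x, x ∈ Subgroup.normalizer ((P : Subgroup G) : Set G) ∧ x ∉ Subgroup.centralizer ((P : Subgroup G) : Set G) := by
      by_contra hcon
      push Not at hcon
      exact hNC (le_antisymm hcon hCN)
    obtain ⟨hx2, hx1, hxinv⟩ := fwd hp P hall P.isPGroup' hx hxC
    have hodd : ∀ a ∈ (P : Subgroup G), a * a = 1 → a = 1 := by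
      intro a ha h
      obtain ⟨k, hk⟩ := IsPGroup.iff_orderOf.mp P.isPGroup' ⟨a, ha⟩
      rw [Subgroup.orderOf_mk] at hk
      have h1 : orderOf a ∣ 2 := orderOf_dvd_of_pow_eq_one (by rw [pow_two]; exact h)
      have h2 : Odd (orderOf a) := by
        rw [hk]; exact ((Fact.out : p.Prime).odd_of_ne_two hp).pow
      rcases (Nat.dvd_prime Nat.prime_two).mp h1 with h3 | h3
      · exact orderOf_eq_one_iff.mp h3
      · rw [h3] at h2; exact absurd h2 (by decide)
    refine ⟨?_, ?_⟩
    · rw [Subgroup.relIndex, Subgroup.index_eq_two_iff]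
      refine ⟨⟨x, hx⟩, fun b => ?_⟩
      rw [Subgroup.mem_subgroupOf, Subgroup.mem_subgroupOf]
      by_cases hb : (b : G) ∈ Subgroup.centralizer ((P : Subgroup G) : Set G)
      · right
        refine ⟨hb, fun h => hxC ?_⟩
        have := mul_mem (inv_mem hb) h
        rwa [Subgroup.coe_mul, inv_mul_cancel_left] at this
      · left
        refine ⟨?_, hb⟩
        obtain ⟨-, -, hbinv⟩ := fwd hp P hall P.isPGroup' b.2 hb
        rw [Subgroup.mem_centralizer_iff]
        intro y hy
        have h1 := hxinv y hy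
        have h2 := hbinv y⁻¹ (inv_mem hy)
        rw [inv_inv] at h2
        have h3 : ((b : G) * x) * y = y * ((b : G) * x) := by
          have h4 : (b : G) * (x * y * x⁻¹) * (b : G)⁻¹ = y := by rw [h1, h2]
          have h5 : ((b : G) * x) * y * ((b : G) * x)⁻¹ = y := by
            calc ((b : G) * x) * y * ((b : G) * x)⁻¹ = (b : G) * (x * y * x⁻¹) * (b : G)⁻¹ := by group
              _ = y := h4
          rwa [mul_inv_eq_iff_eq_mul] at h5
        exact h3.symm
    · intro Q hQP hQcard
      have hQp : IsPGroup p Q := P.isPGroup'.to_le hQP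
      have hinvQ : ∀ x : G, x ∈ Subgroup.normalizer (Q : Set G) → x ∉ Subgroup.centralizer (Q : Set G) →
            orderOf x = 2 ∧ ∀ c : G, c ∈ Subgroup.centralizer (Q : Set G) → x * c * x⁻¹ = c⁻¹ := by
        intro y hy hyC
        obtain ⟨hy2, hy1, hyinv⟩ := fwd hp P hall hQp hy hyC
        refine ⟨orderOf_eq_prime (by rw [pow_two]; exact hy2) hy1, fun c hc => ?_⟩
        have hyc : y * c ∈ Subgroup.normalizer (Q : Set G) := mul_mem hy (Subgroup.centralizer_le_normalizer _ hc)
        have hycC : y * c ∉ Subgroup.centralizer (Q : Set G) := by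
          intro h
          apply hyC
          have := mul_mem h (inv_mem hc)
          rwa [mul_inv_cancel_right] at this
        obtain ⟨h3, -, -⟩ := fwd hp P hall hQp hyc hycC
        have h4 : y⁻¹ = y := by rw [inv_eq_iff_mul_eq_one]; exact hy2
        rw [h4, eq_inv_iff_mul_eq_one, ← h3]
        group
      refine ⟨?_, hinvQ⟩
      have hxN : x ∈ Subgroup.normalizer (Q : Set G) := by
        rw [Subgroup.mem_normalizer_iff]
        intro y
        constructor
        · intro hy
          rw [hxinv y (hQP hy)]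
          exact inv_mem hy
        · intro hy
          have h1 := hxinv _ (hQP hy)
          have h2 : x * (x * y * x⁻¹) * x⁻¹ = y := by
            have h4 : x⁻¹ = x := by rw [inv_eq_iff_mul_eq_one]; exact hx2
            rw [h4]
            calc x * (x * y * x) * x = (x * x) * y * (x * x) := by group
              _ = y := by rw [hx2]; group
          rw [h2] at h1
          rw [h1]
          exact inv_mem hy
      have hxQ : x ∉ Subgroup.centralizer (Q : Set G) := by
        intro h
        have h1 : Q ≠ ⊥ := by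
          rintro rfl
          rw [Subgroup.card_bot] at hQcard
          exact (Fact.out : p.Prime).one_lt.ne hQcard
        obtain ⟨y, hy⟩ := (Subgroup.ne_bot_iff_exists_ne_one).mp h1
        apply hy
        apply Subtype.ext
        apply hodd y (hQP y.2)
        have h2 := hxinv y (hQP y.2)
        have h3 : x * (y : G) * x⁻¹ = y := by
          rw [mul_inv_eq_iff_eq_mul]
          exact (Subgroup.mem_centralizer_iff.mp h y y.2).symm
        rw [h3] at h2
        rw [mul_eq_one_iff_eq_inv]
        exact h2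
      refine ⟨⟨fun a b => Subtype.ext ?_⟩⟩
      have h1 := (hinvQ x hxN hxQ).2 (a * b : G) (mul_mem a.2 b.2)
      have h2 := (hinvQ x hxN hxQ).2 a a.2
      have h3 := (hinvQ x hxN hxQ).2 b b.2
      have h4 : x * ((a : G) * b) * x⁻¹ = (x * a * x⁻¹) * (x * b * x⁻¹) := by group
      rw [h4, h2, h3, ← mul_inv_rev] at h1
      exact (inv_injective h1).symm
  · rintro ⟨hP, hcase⟩ H hSn hSQ
    obtain ⟨S⟩ := (inferInstance : Nonempty (Sylow p H))
    haveI := hSn S
    rcases hcase with hNC | ⟨-, hall⟩
    · exact Or.inl (bwd1 P hP hNC H S (hSQ S))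
    · refine bwd2 P hP ?_ H S (hSQ S)
      intro Q hQ
      have hQp : IsPGroup p Q := IsPGroup.of_card (n := 1) (by rw [hQ, pow_one])
      obtain ⟨T, hT⟩ := hQp.exists_le_sylow
      obtain ⟨g, hg⟩ := MulAction.exists_smul_eq G T P
      -- conjugate Q into P
      have hQ' : Q.map (MulAut.conj g).toMonoidHom ≤ P := by
        rintro _ ⟨y, hy, rfl⟩
        rw [← hg, CfsgLib.FgSyl.mem_smul_iff]
        have : g⁻¹ * (g * y * g⁻¹) * g = y := by group
        change g⁻¹ * (g * y * g⁻¹) * g ∈ _
        rw [this]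
        exact hT hy
      have hcQ' : Nat.card (Q.map (MulAut.conj g).toMonoidHom) = p := by
        rw [Subgroup.card_map_of_injective (MulAut.conj g).injective, hQ]
      obtain ⟨h1, h2⟩ := hall _ hQ' hcQ'
      have hC : ∀ a, a ∈ Subgroup.centralizer (Q : Set G) ↔ g * a * g⁻¹ ∈ Subgroup.centralizer ((Q.map (MulAut.conj g).toMonoidHom : Subgroup G) : Set G) := by
        intro a
        rw [Subgroup.mem_centralizer_iff, Subgroup.mem_centralizer_iff]
        constructor
        · rintro h _ ⟨y, hy, rfl⟩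
          change (g * y * g⁻¹) * (g * a * g⁻¹) = (g * a * g⁻¹) * (g * y * g⁻¹)
          have h3 := h y hy
          calc (g * y * g⁻¹) * (g * a * g⁻¹) = g * (y * a) * g⁻¹ := by group
            _ = g * (a * y) * g⁻¹ := by rw [h3]
            _ = _ := by group
        · intro h y hy
          have h3 : (g * y * g⁻¹) * (g * a * g⁻¹) = (g * a * g⁻¹) * (g * y * g⁻¹) := h _ ⟨y, hy, rfl⟩
          have h4 : g * (y * a) * g⁻¹ = g * (a * y) * g⁻¹ := by
            calc g * (y * a) * g⁻¹ = (g * y * g⁻¹) * (g * a * g⁻¹) := by group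
              _ = (g * a * g⁻¹) * (g * y * g⁻¹) := h3
              _ = _ := by group
          exact mul_left_cancel (mul_right_cancel h4)
      have hN : ∀ x, x ∈ Subgroup.normalizer (Q : Set G) → g * x * g⁻¹ ∈ Subgroup.normalizer ((Q.map (MulAut.conj g).toMonoidHom : Subgroup G) : Set G) := by
        intro x hx
        rw [Subgroup.mem_normalizer_iff] at hx ⊢
        intro z
        have e : ∀ z, z ∈ (Q.map (MulAut.conj g).toMonoidHom) ↔ g⁻¹ * z * g ∈ Q := by
          intro z
          constructor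
          · rintro ⟨y, hy, rfl⟩
            change g⁻¹ * (g * y * g⁻¹) * g ∈ Q
            have : g⁻¹ * (g * y * g⁻¹) * g = y := by group
            rw [this]; exact hy
          · intro h
            refine ⟨_, h, ?_⟩
            change g * (g⁻¹ * z * g) * g⁻¹ = z
            group
        rw [e, e, hx]
        have : x * (g⁻¹ * z * g) * x⁻¹ = g⁻¹ * (g * x * g⁻¹ * z * (g * x * g⁻¹)⁻¹) * g := by group
        rw [this]
      refine ⟨fun a b ha hb => ?_, fun x hx hxC => ?_⟩
      · have h3 := h1.is_comm.comm ⟨_, (hC a).mp ha⟩ ⟨_, (hC b).mp hb⟩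
        have h4 : (g * a * g⁻¹) * (g * b * g⁻¹) = (g * b * g⁻¹) * (g * a * g⁻¹) := congrArg Subtype.val h3
        have h5 : g * (a * b) * g⁻¹ = g * (b * a) * g⁻¹ := by
          calc g * (a * b) * g⁻¹ = (g * a * g⁻¹) * (g * b * g⁻¹) := by group
            _ = _ := h4
            _ = _ := by group
        exact mul_left_cancel (mul_right_cancel h5)
      · obtain ⟨h3, h4⟩ := h2 _ (hN x hx) (fun h => hxC ((hC x).mpr h))
        constructor
        · have h5 := pow_orderOf_eq_one (g * x * g⁻¹)
          rw [h3, pow_two] at h5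
          have h6 : g * (x * x) * g⁻¹ = 1 := by rw [← h5]; group
          have h7 : g * (x * x) * g⁻¹ = g * 1 * g⁻¹ := by rw [h6]; group
          exact mul_left_cancel (mul_right_cancel h7)
        · intro c hc
          have h5 := h4 _ ((hC c).mp hc)
          have h6 : g * (x * c * x⁻¹) * g⁻¹ = g * c⁻¹ * g⁻¹ := by
            calc g * (x * c * x⁻¹) * g⁻¹ = g * x * g⁻¹ * (g * c * g⁻¹) * (g * x * g⁻¹)⁻¹ := by group
              _ = _ := h5
              _ = _ := by group
          exact mul_left_cancel (mul_right_cancel h6)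

end Cfsg.Agent.S4082
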