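import Cfsg.Statements.S4083
import Cfsg.Agent.LibFgCD2

set_option autoImplicit false
open Cfsg

namespace Cfsg.Agent.S4083

set_option linter.style.haveILetI false
set_option linter.unusedSectionVars false
set_option linter.unusedVariables false

theorem a4_noncomm : ∃ a b : alternatingGroup (Fin 4), a * b ≠ b * a := by decide +kernel

/-- Let G be a finite group with Sylow 2-subgroup P. Every subgroup H of G whose Sylow 2-subgroup is normal in H with cyclic quotient is cyclic, dihedral of 2-power order, or isomorphic to the alternating group of degree 4, if and only if either P is cyclic, or P is dihedral (of order at least 4) and every elementary abelian subgroup K of order 4 of P satisfies C_G(K) = K. -/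
theorem result {G : Type*} [Group G] [Finite G] (P : Sylow 2 G) :
    (∀ H : Subgroup G, (∀ S : Sylow 2 ↥H, (S : Subgroup ↥H).Normal) →
        (∀ (S : Sylow 2 ↥H) [(S : Subgroup ↥H).Normal], IsCyclic (↥H ⧸ (S : Subgroup ↥H))) →
        IsCyclic H ∨ (∃ n : ℕ, Nonempty (H ≃* DihedralGroup (2 ^ n))) ∨ Nonempty (H ≃* alternatingGroup (Fin 4))) ↔
    (IsCyclic P ∨
      ((∃ n : ℕ, 1 ≤ n ∧ Nonempty ((P : Subgroup G) ≃* DihedralGroup (2 ^ n))) ∧
        ∀ K : Subgroup G, K ≤ P → Nat.card K = 4 → (∀ k ∈ K, k ^ 2 = 1) → Subgroup.centralizer (K : Set G) = K)) := by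
  haveI : Fact (Nat.Prime 2) := ⟨Nat.prime_two⟩
  constructor
  · intro hall
    have hPtop : ∀ S : Sylow 2 (P : Subgroup G), (S : Subgroup (P : Subgroup G)) = ⊤ := by
      intro S
      have h2 := S.3 (Q := ⊤) (P.isPGroup'.to_subgroup ⊤) le_top
      exact h2.symm
    have h1 := hall (P : Subgroup G) (fun S => by rw [hPtop S]; infer_instance) (fun S _ => by
        haveI : Subsingleton ((P : Subgroup G) ⧸ (S : Subgroup (P : Subgroup G))) := by
          rw [hPtop S]; exact QuotientGroup.subsingleton_quotient_top
        infer_instance)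
    rcases h1 with h1 | ⟨n, ⟨e⟩⟩ | ⟨⟨e⟩⟩
    · exact Or.inl h1
    · rcases Nat.eq_zero_or_pos n with h0 | h0
      · left
        have h2 : Nat.card (P : Subgroup G) = 2 := by
          rw [Nat.card_congr e.toEquiv, DihedralGroup.nat_card, h0]; norm_num
        exact isCyclic_of_prime_card h2
      right
      refine ⟨⟨n, h0, ⟨e⟩⟩, ?_⟩
      intro K hKP hKc hKe
      apply le_antisymm
      · intro c hc
        have hKp : IsPGroup 2 K := P.isPGroup'.to_le hKP
        have hKK : K ≤ Subgroup.centralizer (K : Set G) := by
          intro x hx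
          rw [Subgroup.mem_centralizer_iff]
          intro y hy
          have e1 : x⁻¹ = x := by rw [inv_eq_iff_mul_eq_one, ← pow_two]; exact hKe x hx
          have e2 : y⁻¹ = y := by rw [inv_eq_iff_mul_eq_one, ← pow_two]; exact hKe y hy
          have e3 : (x * y)⁻¹ = x * y := by rw [inv_eq_iff_mul_eq_one, ← pow_two]; exact hKe _ (mul_mem hx hy)
          rw [← e3, mul_inv_rev, e1, e2]
        obtain ⟨h1, h2⟩ := CfsgLib.FgCD.sylow_of_ext (p := 2) hKp (Subgroup.centralizer_le_normalizer _ hc)
        have h3 := hall _ h1 h2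
        obtain ⟨H, hH⟩ : ∃ H, H = K ⊔ Subgroup.zpowers c := ⟨_, rfl⟩
        have hHH : H ≤ Subgroup.centralizer (H : Set G) := by
          have hZK : Subgroup.zpowers c ≤ Subgroup.centralizer (K : Set G) := Subgroup.zpowers_le.mpr hc
          have hKZ : K ≤ Subgroup.centralizer (Subgroup.zpowers c : Set G) := Subgroup.le_centralizer_iff.mp hZK
          have hZZ : Subgroup.zpowers c ≤ Subgroup.centralizer (Subgroup.zpowers c : Set G) := by
            intro x hx
            rw [Subgroup.mem_centralizer_iff]
            intro y hy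
            obtain ⟨i, rfl⟩ := Subgroup.mem_zpowers_iff.mp hx
            obtain ⟨j, rfl⟩ := Subgroup.mem_zpowers_iff.mp hy
            rw [← zpow_add, ← zpow_add, add_comm]
          rw [hH]
          refine sup_le (Subgroup.le_centralizer_iff.mp (sup_le hKK hZK)) (Subgroup.le_centralizer_iff.mp (sup_le hKZ hZZ))
        have hcomm : ∀ x y : H, x * y = y * x := fun x y =>
          Subtype.ext (Subgroup.mem_centralizer_iff.mp (hHH y.2) x x.2)
        rw [← hH] at h3
        have hKH : K ≤ H := by rw [hH]; exact le_sup_left
        have hcH : c ∈ H := by rw [hH]; exact (le_sup_right : Subgroup.zpowers c ≤ K ⊔ Subgroup.zpowers c) (Subgroup.mem_zpowers c)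
        rcases h3 with h3 | ⟨m, ⟨f⟩⟩ | ⟨⟨f⟩⟩
        · exfalso
          have h4 : IsCyclic K := isCyclic_of_injective (Subgroup.inclusion hKH) (Subgroup.inclusion_injective hKH)
          obtain ⟨g, hg⟩ := h4.exists_generator
          have h5 := orderOf_eq_card_of_forall_mem_zpowers hg
          rw [hKc] at h5
          have h6 : orderOf g ∣ 2 := orderOf_dvd_of_pow_eq_one (Subtype.ext (hKe g g.2))
          rw [h5] at h6
          exact absurd h6 (by decide)
        · -- dihedral abelian
          have h4 : (2 ^ m : ℕ) ∣ 2 := by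
            have h5 := hcomm (f.symm (DihedralGroup.r 1)) (f.symm (DihedralGroup.sr 0))
            rw [← map_mul, ← map_mul] at h5
            have h6 := f.symm.injective h5
            rw [DihedralGroup.r_mul_sr, DihedralGroup.sr_mul_r] at h6
            have h7 : (0 - 1 : ZMod (2 ^ m)) = 0 + 1 := DihedralGroup.sr.inj h6
            have h8 : ((2 : ℕ) : ZMod (2 ^ m)) = 0 := by
              have : ((2 : ℕ) : ZMod (2 ^ m)) = (0 + 1) - (0 - 1) := by push_cast; ring
              rw [this, h7, sub_self]
            exact (ZMod.natCast_eq_zero_iff _ _).mp h8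
          have h9 : Nat.card H ≤ 4 := by
            rw [Nat.card_congr f.toEquiv, DihedralGroup.nat_card]
            have := Nat.le_of_dvd (by norm_num) h4
            omega
          have h10 : K = H := Subgroup.eq_of_le_of_card_ge hKH (by rw [hKc]; exact h9)
          rw [h10]; exact hcH
        · exfalso
          obtain ⟨a, b, hab⟩ := a4_noncomm
          apply hab
          have h5 := hcomm (f.symm a) (f.symm b)
          rw [← map_mul, ← map_mul] at h5
          exact f.symm.injective h5
      · intro x hx
        rw [Subgroup.mem_centralizer_iff]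
        intro y hy
        have e1 : x⁻¹ = x := by rw [inv_eq_iff_mul_eq_one, ← pow_two]; exact hKe x hx
        have e2 : y⁻¹ = y := by rw [inv_eq_iff_mul_eq_one, ← pow_two]; exact hKe y hy
        have e3 : (x * y)⁻¹ = x * y := by rw [inv_eq_iff_mul_eq_one, ← pow_two]; exact hKe _ (mul_mem hx hy)
        rw [← e3, mul_inv_rev, e1, e2]
    · exfalso
      have h2 : Nat.card (P : Subgroup G) = 12 := by
        rw [Nat.card_congr e.toEquiv, Nat.card_eq_fintype_card]
        decide
      obtain ⟨k, hk⟩ := IsPGroup.iff_card.mp P.isPGroup'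
      have h3 : 3 ∣ 2 ^ k := by
        rw [← hk]; exact ⟨4, h2⟩
      have h4 := Nat.prime_three.dvd_of_dvd_pow h3
      exact absurd h4 (by decide)
  · intro hcase H hSn hSQ
    obtain ⟨S⟩ := (inferInstance : Nonempty (Sylow 2 H))
    haveI := hSn S
    have hQ := hSQ S
    have hSp : IsPGroup 2 ((S : Subgroup H).map H.subtype) := S.isPGroup'.map _
    have e := (S : Subgroup H).equivMapOfInjective H.subtype H.subtype_injective
    rcases hcase with hP | ⟨⟨n, hn, ⟨f⟩⟩, hK⟩
    · left
      have hmap : IsCyclic ((S : Subgroup H).map H.subtype) := CfsgLib.FgCD2.cyclic_p P hP hSp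
      have hScyc : IsCyclic (S : Subgroup H) := isCyclic_of_injective e.toMonoidHom e.injective
      exact CfsgLib.FgCD2.isCyclic_two S hScyc hQ
    · have hSC := CfsgLib.FgCD2.selfCent_of P hK
      apply CfsgLib.FgCD2.main2 (CfsgLib.FgCD2.selfCent_subgroup hSC H) S hQ
      rcases CfsgLib.FgCD2.cyc_or_dih (by positivity) P f hSp with h | ⟨a, b, h⟩
      · left
        exact isCyclic_of_injective e.toMonoidHom e.injective
      · right
        exact CfsgLib.FgCD2.dih_map H.subtype H.subtype_injective h

end Cfsg.Agent.S4083
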