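import Cfsg.Statements.S4084
import Mathlib

set_option autoImplicit false
open Cfsg

namespace Cfsg.Agent.S4084

theorem main {G H : Type*} [Group G] [Finite G] [Group H] [Finite H] {p q : ℕ} (hp : p.Prime) (hq : q.Prime)
    (hpq : p ≠ q) (e : G ≃ H)
    (he : ∀ x y : G, Commute x y ↔ Commute (e x) (e y)) (hex : ∃ g : G, orderOf g = p * q) :
    ∃ h : H, orderOf h = p * q := by
    classical
    obtain ⟨g, hg⟩ := hex
    -- a maximal commuting set containing g
    have hfin : (Set.univ : Set (Set G)).Finite := Set.toFinite _
    obtain ⟨A, hgA, hA⟩ := (Set.toFinite {A : Set G | ∀ x ∈ A, ∀ y ∈ A, Commute x y}).exists_le_maximal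
      (a := ({g} : Set G)) (by
        intro x hx y hy
        rw [Set.mem_singleton_iff] at hx hy
        rw [hx, hy])
    have hgA' : g ∈ A := hgA rfl
    have hAc : ∀ x ∈ A, ∀ y ∈ A, Commute x y := hA.1
    -- anything commuting with all of A lies in A
    have hAmax : ∀ x : G, (∀ y ∈ A, Commute x y) → x ∈ A := by
      intro x hx
      have h1 : insert x A ≤ A := hA.2 (by
        rintro a (rfl | ha) b (rfl | hb)
        · exact Commute.refl _
        · exact hx b hb
        · exact (hx a ha).symm
        · exact hAc a ha b hb) (Set.subset_insert x A)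
      exact h1 (Set.mem_insert x A)
    -- A is a subgroup
    let SA : Subgroup G :=
      { carrier := A
        mul_mem' := fun {a b} ha hb => hAmax _ (fun y hy => (hAc a ha y hy).mul_left (hAc b hb y hy))
        one_mem' := hAmax _ (fun y _ => Commute.one_left y)
        inv_mem' := fun {a} ha => hAmax _ (fun y hy => (hAc a ha y hy).inv_left) }
    let B : Set H := e '' A
    have hBc : ∀ x ∈ B, ∀ y ∈ B, Commute x y := by
      rintro _ ⟨a, ha, rfl⟩ _ ⟨b, hb, rfl⟩
      exact (he a b).mp (hAc a ha b hb)
    have hBmax : ∀ x : H, (∀ y ∈ B, Commute x y) → x ∈ B := by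
      intro x hx
      refine ⟨e.symm x, hAmax _ (fun y hy => ?_), by simp⟩
      rw [he, Equiv.apply_symm_apply]
      exact hx _ ⟨y, hy, rfl⟩
    let SB : Subgroup H :=
      { carrier := B
        mul_mem' := fun {a b} ha hb => hBmax _ (fun y hy => (hBc a ha y hy).mul_left (hBc b hb y hy))
        one_mem' := hBmax _ (fun y _ => Commute.one_left y)
        inv_mem' := fun {a} ha => hBmax _ (fun y hy => (hBc a ha y hy).inv_left) }
    have hcard : Nat.card SA = Nat.card SB := Nat.card_congr (Equiv.Set.image e A e.injective)
    have hpq' : p * q ∣ Nat.card SB := by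
      rw [← hcard, ← hg]
      exact Subgroup.orderOf_dvd_natCard SA hgA'
    have := Fact.mk hp
    have := Fact.mk hq
    obtain ⟨a, ha⟩ := exists_prime_orderOf_dvd_card' (G := SB) p ((dvd_mul_right p q).trans hpq')
    obtain ⟨b, hb⟩ := exists_prime_orderOf_dvd_card' (G := SB) q ((dvd_mul_left q p).trans hpq')
    refine ⟨(a : H) * b, ?_⟩
    have hc : Commute (a : H) b := hBc a a.2 b b.2
    have ha' : orderOf (a : H) = p := by rw [Subgroup.orderOf_coe]; exact ha
    have hb' : orderOf (b : H) = q := by rw [Subgroup.orderOf_coe]; exact hb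
    rw [hc.orderOf_mul_eq_mul_orderOf_of_coprime, ha', hb']
    rw [ha', hb']
    exact (Nat.coprime_primes hp hq).mpr hpq

/-- Let G and H be finite groups whose commuting graphs are isomorphic: there is a bijection e : G → H with x, y commuting exactly when e(x), e(y) commute. Then G and H have the same prime graph: for distinct primes p, q, G has an element of order pq if and only if H does (and #G = #H, so the prime divisors agree). -/
theorem result {G H : Type*} [Group G] [Finite G] [Group H] [Finite H] (e : G ≃ H)
    (he : ∀ x y : G, Commute x y ↔ Commute (e x) (e y))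
    {p q : ℕ} (hp : p.Prime) (hq : q.Prime) (hpq : p ≠ q) :
    (∃ g : G, orderOf g = p * q) ↔ (∃ h : H, orderOf h = p * q) := by
  classical
  refine ⟨main hp hq hpq e he, ?_⟩
  apply main hp hq hpq e.symm
  intro x y
  rw [he]
  simp

end Cfsg.Agent.S4084
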