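import Cfsg.Statements.S4085
import Cfsg.Agent.EqBase

set_option autoImplicit false
open Cfsg

namespace Cfsg.Agent.S4085

open Subgroup

/-- comparability in the power graph -/
def cmp {G : Type*} [Group G] (x y : G) : Prop := x ∈ zpowers y ∨ y ∈ zpowers x

section
variable {G : Type*} [Group G]

lemma cmp_symm {x y : G} (h : cmp x y) : cmp y x := h.symm

lemma cmp_self (x : G) : cmp x x := Or.inl (mem_zpowers x)

lemma cmp_one (x : G) : cmp 1 x := Or.inl (one_mem _)

lemma cmp_congr {x x' y : G} (h : zpowers x = zpowers x') : cmp x y ↔ cmp x' y := by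
  have h1 : x ∈ zpowers y ↔ x' ∈ zpowers y := by
    rw [← zpowers_le, ← zpowers_le, h]
  unfold cmp
  rw [h1, h]

variable [Finite G]

lemma exists_pow {z x : G} (hx : x ∈ zpowers z) : ∃ a : ℕ, z ^ a = x := by
  classical
  obtain ⟨a, -, ha⟩ := Finset.mem_image.mp (mem_zpowers_iff_mem_range_orderOf.mp hx)
  exact ⟨a, ha⟩

lemma mem_of_dvd {z x x' : G} (hx : x ∈ zpowers z) (hx' : x' ∈ zpowers z) (h : orderOf x ∣ orderOf x') :
    x ∈ zpowers x' := by
  obtain ⟨a, rfl⟩ := exists_pow hx
  obtain ⟨b, rfl⟩ := exists_pow hx'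
  have hn : 0 < orderOf z := orderOf_pos z
  rw [orderOf_pow, orderOf_pow] at h
  set n := orderOf z with hn_def
  have hga : n.gcd a ∣ n := Nat.gcd_dvd_left _ _
  have hgb : n.gcd b ∣ n := Nat.gcd_dvd_left _ _
  have h1 : n.gcd b ∣ n.gcd a := by
    obtain ⟨c, hc⟩ := h
    have ga : 0 < n.gcd a := Nat.gcd_pos_of_pos_left _ hn
    have gb : 0 < n.gcd b := Nat.gcd_pos_of_pos_left _ hn
    refine ⟨c, ?_⟩
    have e1 : n / n.gcd a * n.gcd a = n := Nat.div_mul_cancel hga
    have e2 : n / n.gcd b * n.gcd b = n := Nat.div_mul_cancel hgb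
    have pa : 0 < n / n.gcd a := Nat.div_pos (Nat.le_of_dvd hn hga) ga
    have : n / n.gcd a * (n.gcd b * c) = n / n.gcd a * n.gcd a := by
      rw [e1]
      calc n / n.gcd a * (n.gcd b * c) = (n / n.gcd a * c) * n.gcd b := by ring
        _ = n / n.gcd b * n.gcd b := by rw [← hc]
        _ = n := e2
    exact (Nat.eq_of_mul_eq_mul_left pa this).symm
  have h2 : n.gcd b ∣ a := h1.trans (Nat.gcd_dvd_right _ _)
  have h3 : z ^ (n.gcd b) ∈ zpowers (z ^ b) := by
    have e := Nat.gcd_eq_gcd_ab n b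
    have : z ^ ((n.gcd b : ℕ) : ℤ) = (z ^ b) ^ (Nat.gcdB n b) := by
      rw [e, zpow_add, zpow_mul, zpow_natCast, pow_orderOf_eq_one, one_zpow, one_mul, zpow_mul, zpow_natCast]
    rw [zpow_natCast] at this
    rw [this]
    exact zpow_mem (mem_zpowers _) _
  obtain ⟨c, rfl⟩ := h2
  rw [pow_mul]
  exact pow_mem h3 _

lemma dvd_of_mem {x x' : G} (h : x ∈ zpowers x') : orderOf x ∣ orderOf x' := orderOf_dvd_of_mem_zpowers h

lemma exists_order {z : G} {c : ℕ} (hc : c ∣ orderOf z) : ∃ x ∈ zpowers z, orderOf x = c := by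
  obtain ⟨d, hd⟩ := hc
  have hn : 0 < orderOf z := orderOf_pos z
  have hd0 : d ≠ 0 := by rintro rfl; omega
  have hc0 : c ≠ 0 := by rintro rfl; rw [zero_mul] at hd; omega
  refine ⟨z ^ d, pow_mem (mem_zpowers _) _, ?_⟩
  rw [orderOf_pow, hd, Nat.gcd_eq_right (Dvd.intro_left _ rfl)]
  exact Nat.mul_div_cancel _ (Nat.pos_of_ne_zero hd0)

end

lemma nt1 {n d : ℕ} (hd : d ∣ n) (hdn : d ≠ n) :
    ∃ r k, r.Prime ∧ r ^ k ∣ n ∧ ¬ r ^ k ∣ d ∧ k ≠ 0 := by
  by_contra hcon
  push Not at hcon
  apply hdn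
  apply Nat.dvd_antisymm hd
  rw [Nat.dvd_iff_prime_pow_dvd_dvd]
  intro r k hr hk
  by_contra h
  have := hcon r k hr hk h
  subst this
  simp at h

lemma not_dvd_pow {p r k : ℕ} (hp : p.Prime) (hr : r.Prime) (h : p ≠ r) : ¬ p ∣ r ^ k := fun h1 =>
  h ((Nat.prime_dvd_prime_iff_eq hp hr).mp (hp.dvd_of_dvd_pow h1))

section
variable {G : Type*} [Group G] [Finite G] {p q : ℕ}

lemma conn {z : G} (hp : p.Prime) (hq : q.Prime) (hpq : p ≠ q)
    {xp xq : G} (hxp : xp ∈ zpowers z) (hxq : xq ∈ zpowers z) (op : orderOf xp = p) (oq : orderOf xq = q)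
    (col : G → Prop)
    (hcol : ∀ x ∈ zpowers z, ∀ x' ∈ zpowers z, ¬ cmp x x' → col x → col x')
    {x : G} (hx : x ∈ zpowers z) (hx1 : x ≠ 1) (hxz : zpowers x ≠ zpowers z) : col x ↔ col xp := by
  have hiff : ∀ x ∈ zpowers z, ∀ x' ∈ zpowers z, ¬ cmp x x' → (col x ↔ col x') := fun x hx x' hx' h =>
    ⟨hcol x hx x' hx' h, hcol x' hx' x hx (fun h' => h (cmp_symm h'))⟩
  have A : ∀ x ∈ zpowers z, x ≠ 1 → ¬ p ∣ orderOf x → (col x ↔ col xp) := by
    intro x hx hx1 hpx
    refine hiff x hx xp hxp ?_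
    rintro (h | h)
    · have := dvd_of_mem h
      rw [op] at this
      rcases (Nat.dvd_prime hp).mp this with h | h
      · exact hx1 (orderOf_eq_one_iff.mp h)
      · exact hpx (by rw [h])
    · have := dvd_of_mem h
      rw [op] at this
      exact hpx this
  have B : ∀ x ∈ zpowers z, x ≠ 1 → ¬ q ∣ orderOf x → (col x ↔ col xq) := by
    intro x hx hx1 hpx
    refine hiff x hx xq hxq ?_
    rintro (h | h)
    · have := dvd_of_mem h
      rw [oq] at this
      rcases (Nat.dvd_prime hq).mp this with h | h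
      · exact hx1 (orderOf_eq_one_iff.mp h)
      · exact hpx (by rw [h])
    · have := dvd_of_mem h
      rw [oq] at this
      exact hpx this
  have hq1 : xq ≠ 1 := by rintro rfl; rw [orderOf_one] at oq; exact hq.one_lt.ne oq
  have C : col xq ↔ col xp := A xq hxq hq1 (by
    rw [oq]; exact fun h => hpq ((Nat.prime_dvd_prime_iff_eq hp hq).mp h))
  by_cases h1 : p ∣ orderOf x
  swap
  · exact A x hx hx1 h1
  by_cases h2 : q ∣ orderOf x
  swap
  · exact (B x hx hx1 h2).trans C
  have hne : orderOf x ≠ orderOf z := by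
    intro h
    apply hxz
    apply Subgroup.eq_of_le_of_card_ge
    · rw [zpowers_le]; exact hx
    · rw [Nat.card_zpowers, Nat.card_zpowers, h]
  obtain ⟨r, k, hr, hrn, hrd, hk⟩ := nt1 (dvd_of_mem hx) hne
  obtain ⟨x', hx', ox'⟩ := exists_order hrn
  have hx'1 : x' ≠ 1 := by
    rintro rfl
    rw [orderOf_one] at ox'
    rw [← ox'] at hrd
    exact hrd (one_dvd _)
  have hc : col x ↔ col x' := by
    refine hiff x hx x' hx' ?_
    rintro (h | h)
    · have := dvd_of_mem h
      rw [ox'] at this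
      have e1 := (Nat.prime_dvd_prime_iff_eq hp hr).mp (hp.dvd_of_dvd_pow (h1.trans this))
      have e2 := (Nat.prime_dvd_prime_iff_eq hq hr).mp (hq.dvd_of_dvd_pow (h2.trans this))
      exact hpq (e1.trans e2.symm)
    · have := dvd_of_mem h
      rw [ox'] at this
      exact hrd this
  rw [hc]
  by_cases hrp : p = r
  · subst hrp
    refine (B x' hx' hx'1 ?_).trans C
    rw [ox']
    exact not_dvd_pow hq hp (Ne.symm hpq)
  · refine A x' hx' hx'1 ?_
    rw [ox']
    exact not_dvd_pow hp hr hrp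

/-- elements with the same closed neighbourhood as an element of order `p` -/
lemma twin {z : G} (hp : p.Prime) (hq : q.Prime) (hpq : p ≠ q)
    {xp xq : G} (hxp : xp ∈ zpowers z) (hxq : xq ∈ zpowers z) (op : orderOf xp = p) (oq : orderOf xq = q)
    (G1 : ∀ y, cmp z y → y ∈ zpowers z)
    {x : G} (hx : ∀ t, cmp x t ↔ cmp xp t) : x ≠ 1 ∧ x ∈ zpowers xp := by
  have hn : ¬ cmp xp xq := by
    rintro (h | h)
    · have := dvd_of_mem h
      rw [op, oq] at this
      exact hpq ((Nat.prime_dvd_prime_iff_eq hp hq).mp this)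
    · have := dvd_of_mem h
      rw [op, oq] at this
      exact hpq ((Nat.prime_dvd_prime_iff_eq hq hp).mp this).symm
  have hx1 : x ≠ 1 := by
    rintro rfl
    exact hn ((hx xq).mp (cmp_one _))
  refine ⟨hx1, ?_⟩
  have hxz : x ∈ zpowers z := G1 x (cmp_symm ((hx z).mpr (Or.inl hxp)))
  rcases (hx x).mp (cmp_self x) with h | h
  swap
  · exact h
  have hpc : p ∣ orderOf x := op ▸ dvd_of_mem h
  have hqc : ¬ q ∣ orderOf x := by
    intro h'
    exact hn ((hx xq).mp (Or.inr (mem_of_dvd hxq hxz (by rw [oq]; exact h'))))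
  have hcop : p.Coprime q := (Nat.coprime_primes hp hq).mpr hpq
  have hpqn : p * q ∣ orderOf z := hcop.mul_dvd_of_dvd_of_dvd (op ▸ dvd_of_mem hxp) (oq ▸ dvd_of_mem hxq)
  obtain ⟨s, hs, os⟩ := exists_order hpqn
  have h1 : cmp xp s := Or.inl (mem_of_dvd hxp hs (by rw [op, os]; exact Dvd.intro _ rfl))
  rcases (hx s).mpr h1 with h2 | h2
  · have h3 := dvd_of_mem h2
    rw [os] at h3
    have h4 : orderOf x ∣ p := by
      refine Nat.Coprime.dvd_of_dvd_mul_right ?_ h3
      exact ((Nat.Prime.coprime_iff_not_dvd hq).mpr hqc).symm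
    exact mem_of_dvd hxz hxp (by rw [op]; exact h4)
  · exfalso
    have h3 := dvd_of_mem h2
    rw [os] at h3
    exact hqc ((Dvd.intro_left _ rfl).trans h3)

lemma card_gen (y : G) : Nat.card {t : G // zpowers t = zpowers y} = Nat.totient (orderOf y) := by
  classical
  haveI : Fintype (zpowers y) := Fintype.ofFinite _
  have h := IsCyclic.card_orderOf_eq_totient (α := zpowers y) (d := orderOf y)
    (by rw [← Nat.card_eq_fintype_card, Nat.card_zpowers])
  rw [← h, ← Fintype.card_subtype, ← Nat.card_eq_fintype_card]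
  refine Nat.card_congr ⟨fun t => ⟨⟨t.1, ?_⟩, ?_⟩, fun t => ⟨t.1.1, ?_⟩, fun _ => rfl, fun _ => rfl⟩
  · exact (SetLike.ext_iff.mp t.2 t.1).mp (mem_zpowers _)
  · rw [orderOf_mk, ← Nat.card_zpowers, t.2, Nat.card_zpowers]
  · apply Subgroup.eq_of_le_of_card_ge
    · rw [zpowers_le]; exact t.1.2
    · rw [Nat.card_zpowers, Nat.card_zpowers, orderOf_coe, t.2]

end

lemma arith {r k p q : ℕ} (hr : r.Prime) (hk : k ≠ 0) (hp : p.Prime) (hq : q.Prime) (hpq : p ≠ q)
    (h1 : Nat.totient (r ^ k) ≤ p - 1) (h2 : Nat.totient (r ^ k) ≤ q - 1)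
    (h3 : 1 + (p - 1) * (q - 1) ≤ r ^ k) : False := by
  rw [Nat.totient_prime_pow hr (Nat.pos_of_ne_zero hk)] at h1 h2
  obtain ⟨j, rfl⟩ := Nat.exists_eq_succ_of_ne_zero hk
  rw [Nat.succ_sub_one] at h1 h2
  obtain ⟨r', rfl⟩ : ∃ r', r = r' + 2 := ⟨r - 2, by have := hr.two_le; omega⟩
  obtain ⟨p', rfl⟩ : ∃ p', p = p' + 1 := ⟨p - 1, by have := hp.two_le; omega⟩
  obtain ⟨q', rfl⟩ : ∃ q', q = q' + 1 := ⟨q - 1, by have := hq.two_le; omega⟩
  rw [pow_succ] at h3
  have hb : 1 ≤ (r' + 2) ^ j := Nat.one_le_pow _ _ (by omega)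
  simp only [Nat.add_sub_cancel] at h1 h2 h3
  have e : r' + 2 - 1 = r' + 1 := rfl
  rw [e] at h1 h2
  set b := (r' + 2) ^ j with hbdef
  set a := b * (r' + 1) with ha
  have h4 : b * (r' + 2) ≤ 2 * a := by rw [ha]; nlinarith
  have ha1 : 1 ≤ a := by rw [ha]; nlinarith
  have h5 : a * (a + 1) ≤ p' * q' := by
    rcases lt_or_gt_of_ne (show p' ≠ q' by intro h; exact hpq (by rw [h])) with h | h
    · exact Nat.mul_le_mul h1 (by omega)
    · rw [mul_comm]
      exact Nat.mul_le_mul (by omega) h2
  nlinarith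

section
variable {G H : Type*} [Group G] [Finite G] [Group H] [Finite H] {p q : ℕ}

lemma key1 (e : G ≃ H) (he : ∀ x y : G, cmp x y ↔ cmp (e x) (e y))
    (hp : p.Prime) (hq : q.Prime) (hpq : p ≠ q) {z : G} (hpqz : p * q ∣ orderOf z)
    (G1 : ∀ y, cmp z y → y ∈ zpowers z) (hw1 : e z ≠ 1) : ∀ y, cmp (e z) y → y ∈ zpowers (e z) := by
  classical
  have hpn : p ∣ orderOf z := (Dvd.intro _ rfl).trans hpqz
  have hqn : q ∣ orderOf z := (Dvd.intro_left _ rfl).trans hpqz
  obtain ⟨xp, hxp, op⟩ := exists_order hpn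
  obtain ⟨xq, hxq, oq⟩ := exists_order hqn
  have hnc : ¬ cmp xp xq := by
    rintro (h | h)
    · have := dvd_of_mem h
      rw [op, oq] at this
      exact hpq ((Nat.prime_dvd_prime_iff_eq hp hq).mp this)
    · have := dvd_of_mem h
      rw [op, oq] at this
      exact hpq ((Nat.prime_dvd_prime_iff_eq hq hp).mp this).symm
  have hxp1 : xp ≠ 1 := by rintro rfl; rw [orderOf_one] at op; exact hp.one_lt.ne op
  have hxq1 : xq ≠ 1 := by rintro rfl; rw [orderOf_one] at oq; exact hq.one_lt.ne oq
  have hxpz : zpowers xp ≠ zpowers z := by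
    intro h
    apply hnc
    right
    rw [h]; exact hxq
  have hxqz : zpowers xq ≠ zpowers z := by
    intro h
    apply hnc
    left
    rw [h]; exact hxp
  -- dominating elements
  have G2 : ∀ u : G, (∀ y ∈ zpowers z, cmp u y) → u ∈ zpowers z ∧ (u = 1 ∨ zpowers u = zpowers z) := by
    intro u hu
    have huz : u ∈ zpowers z := G1 u (cmp_symm (hu z (mem_zpowers z)))
    refine ⟨huz, ?_⟩
    by_contra hcon
    push Not at hcon
    obtain ⟨hu1, huz'⟩ := hcon
    have hcol := fun {x : G} => conn (x := x) hp hq hpq hxp hxq op oq (fun x => x = u) (by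
      intro x hx x' hx' hc he'
      exfalso
      have he'' : x = u := he'
      rw [he''] at hc
      exact hc (hu x' hx'))
    have h1 := (hcol huz hu1 huz').mp rfl
    have h2 := (hcol hxq hxq1 hxqz).mpr h1
    exact hnc (by rw [h1, h2]; exact cmp_self u)
  set w := e z with hw
  have Nw : ∀ y : H, cmp w y ↔ e.symm y ∈ zpowers z := by
    intro y
    have := he z (e.symm y)
    rw [e.apply_symm_apply] at this
    rw [← this]
    exact ⟨fun h => G1 _ h, fun h => Or.inr h⟩
  have he' : ∀ x y : H, cmp x y ↔ cmp (e.symm x) (e.symm y) := by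
    intro x y
    rw [he, e.apply_symm_apply, e.apply_symm_apply]
  have Dom : ∀ u : H, (∀ y, cmp w y → cmp u y) → e.symm u = 1 ∨ zpowers (e.symm u) = zpowers z := by
    intro u hu
    refine (G2 (e.symm u) ?_).2
    intro y hy
    have h1 : cmp w (e y) := by rw [Nw, e.symm_apply_apply]; exact hy
    have h2 := hu _ h1
    rw [he', e.symm_apply_apply] at h2
    exact h2
  have Dom' : ∀ u : H, (e.symm u = 1 ∨ zpowers (e.symm u) = zpowers z) → (∀ y, cmp w y → cmp u y) := by
    intro u hu y hy
    rw [he']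
    rcases hu with h | h
    · rw [h]; exact cmp_one _
    · rw [cmp_congr h]
      exact Or.inr ((Nw y).mp hy)
  have H1 : ∀ u : H, u ≠ 1 → (∀ y, cmp w y → cmp u y) → ∀ y, cmp u y → cmp w y := by
    intro u hu1 hu y hy
    rcases Dom u hu with h | h
    · have hs := Dom 1 (fun y _ => cmp_one y)
      rcases hs with hs | hs
      · exfalso
        apply hu1
        rw [← hs] at h
        exact e.symm.injective h
      · have : ∀ y, cmp z y := fun y => by
          rw [← cmp_congr hs]
          have := (he' 1 (e y)).mp (cmp_one _)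
          rwa [e.symm_apply_apply] at this
        have := (he z (e.symm y)).mp (this _)
        rwa [e.apply_symm_apply] at this
    · rw [he', cmp_congr h] at hy
      rw [he', hw, e.symm_apply_apply]
      exact hy
  by_contra hcon
  push Not at hcon
  obtain ⟨y0, hwy0, hy0w⟩ := hcon
  have hwy0' : w ∈ zpowers y0 := by
    rcases hwy0 with h | h
    · exact h
    · exact absurd h hy0w
  have hcol := fun {x : G} => conn (x := x) hp hq hpq hxp hxq op oq (fun x => w ∈ zpowers (e x) ∧ e x ∉ zpowers w) (by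
    rintro x hx x' hx' hc ⟨h1, h2⟩
    have hx'w : cmp w (e x') := by rw [Nw, e.symm_apply_apply]; exact hx'
    by_cases h3 : e x' ∈ zpowers w
    · exfalso
      apply hc
      rw [he]
      exact Or.inr (by rw [← zpowers_le] at h1 h3 ⊢; exact h3.trans h1)
    · refine ⟨?_, h3⟩
      rcases hx'w with h | h
      · exact h
      · exact absurd h h3)
  by_cases hcase : w ∈ zpowers (e xp) ∧ e xp ∉ zpowers w
  swap
  · -- case 1
    have hy0D : ∀ y, cmp w y → cmp y0 y := by
      apply Dom'
      by_contra hcon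
      push Not at hcon
      have hy0z : e.symm y0 ∈ zpowers z := by rw [← Nw]; exact hwy0
      have := (hcol hy0z hcon.1 hcon.2).mp (by rw [e.apply_symm_apply]; exact ⟨hwy0', hy0w⟩)
      exact hcase this
    have hy01 : y0 ≠ 1 := by
      rintro rfl
      rw [zpowers_one_eq_bot, mem_bot] at hwy0'
      exact hw1 hwy0'
    have hback := H1 y0 hy01 hy0D
    have hne : orderOf w ≠ orderOf y0 := by
      intro h
      apply hy0w
      have : zpowers w = zpowers y0 := by
        apply Subgroup.eq_of_le_of_card_ge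
        · rw [zpowers_le]; exact hwy0'
        · rw [Nat.card_zpowers, Nat.card_zpowers, h]
      rw [this]; exact mem_zpowers _
    obtain ⟨r, k, hr, hrn, hrd, hk⟩ := nt1 (dvd_of_mem hwy0') hne
    obtain ⟨y', hy', oy'⟩ := exists_order hrn
    have hwr : orderOf w ∣ r ^ k := by
      rcases hback y' (Or.inr hy') with h | h
      · rw [← oy']; exact dvd_of_mem h
      · exact absurd (oy' ▸ dvd_of_mem h) hrd
    have hin : ∀ x ∈ zpowers z, x ≠ 1 → zpowers x ≠ zpowers z → e x ∈ zpowers w := by
      intro x hx hx1 hxz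
      by_contra h
      apply hcase
      apply (hcol hx hx1 hxz).mp
      have hx'w : cmp w (e x) := by rw [Nw, e.symm_apply_apply]; exact hx
      refine ⟨?_, h⟩
      rcases hx'w with h' | h'
      · exact h'
      · exact absurd h' h
    have h1 := hin xp hxp hxp1 hxpz
    have h2 := hin xq hxq hxq1 hxqz
    apply hnc
    rw [he]
    obtain ⟨i, -, hi⟩ := (Nat.dvd_prime_pow hr).mp ((dvd_of_mem h1).trans hwr)
    obtain ⟨j, -, hj⟩ := (Nat.dvd_prime_pow hr).mp ((dvd_of_mem h2).trans hwr)
    rcases le_total i j with h | h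
    · exact Or.inl (mem_of_dvd h1 h2 (by rw [hi, hj]; exact pow_dvd_pow _ h))
    · exact Or.inr (mem_of_dvd h2 h1 (by rw [hi, hj]; exact pow_dvd_pow _ h))
  · -- case 2
    have hup : ∀ x ∈ zpowers z, x ≠ 1 → zpowers x ≠ zpowers z → w ∈ zpowers (e x) ∧ e x ∉ zpowers w :=
      fun x hx hx1 hxz => (hcol hx hx1 hxz).mpr hcase
    have hD : ∀ y ∈ zpowers w, ∀ y', cmp w y' → cmp y y' := by
      intro y hy
      apply Dom'
      by_contra hcon
      push Not at hcon
      have hyz : e.symm y ∈ zpowers z := by rw [← Nw]; exact Or.inr hy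
      have := (hup _ hyz hcon.1 hcon.2).2
      rw [e.apply_symm_apply] at this
      exact this hy
    obtain ⟨r, hr, hrw⟩ := Nat.exists_prime_and_dvd (n := orderOf w) (by
      intro h; exact hw1 (orderOf_eq_one_iff.mp h))
    obtain ⟨u, huw, ou⟩ := exists_order hrw
    have hu1 : u ≠ 1 := by rintro rfl; rw [orderOf_one] at ou; exact hr.one_lt.ne ou
    have hu2 := H1 u hu1 (hD u huw)
    -- dominating elements of the neighbourhood are r-elements
    have hDr : ∀ v : H, v ≠ 1 → (∀ y, cmp w y → cmp v y) → ∃ k, k ≠ 0 ∧ orderOf v = r ^ k := by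
      intro v hv1 hv
      have hv2 := H1 v hv1 hv
      have hov : orderOf v ≠ 0 := (orderOf_pos v).ne'
      have := Nat.eq_prime_pow_of_unique_prime_dvd hov (p := r) (by
        intro s hs hsv
        obtain ⟨v', hv', ov'⟩ := exists_order hsv
        have h1 : cmp u v' := hD u huw _ (hv2 v' (Or.inr hv'))
        rcases h1 with h | h
        · have := dvd_of_mem h
          rw [ou, ov'] at this
          exact ((Nat.prime_dvd_prime_iff_eq hr hs).mp this).symm
        · have := dvd_of_mem h
          rw [ou, ov'] at this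
          exact (Nat.prime_dvd_prime_iff_eq hs hr).mp this)
      refine ⟨_, ?_, this⟩
      intro h
      rw [h, pow_zero] at this
      exact hv1 (orderOf_eq_one_iff.mp this)
    -- choose the largest one
    let DS := {v : H // v ≠ 1 ∧ ∀ y, cmp w y → cmp v y}
    haveI : Nonempty DS := ⟨⟨w, hw1, fun y h => h⟩⟩
    obtain ⟨⟨w0, hw01, hw0D⟩, hmax⟩ := Finite.exists_max (fun v : DS => orderOf v.1)
    obtain ⟨k, hk0, ow0⟩ := hDr w0 hw01 hw0D
    have hw0' := H1 w0 hw01 hw0D
    have hsub : ∀ v : H, (∀ y, cmp w y → cmp v y) → v ∈ zpowers w0 := by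
      intro v hv
      by_cases hv1 : v = 1
      · rw [hv1]; exact one_mem _
      have hv2 := H1 v hv1 hv
      have h1 : cmp w0 v := hw0D v (hv2 v (cmp_self v))
      rcases h1 with h | h
      swap
      · exact h
      have h2 := hmax ⟨v, hv1, hv⟩
      have h3 : zpowers w0 = zpowers v := by
        apply Subgroup.eq_of_le_of_card_ge
        · rw [zpowers_le]; exact h
        · rw [Nat.card_zpowers, Nat.card_zpowers]; exact h2
      rw [h3]; exact mem_zpowers _
    -- counting
    have hcard1 : 1 + Nat.totient (orderOf z) ≤ r ^ k := by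
      rw [← ow0, ← Nat.card_zpowers w0, ← card_gen z]
      have : Nat.card (Option {t : G // zpowers t = zpowers z}) = 1 + Nat.card {t : G // zpowers t = zpowers z} := by
        rw [Finite.card_option, add_comm]
      rw [← this]
      refine Nat.card_le_card_of_injective
        (fun o : Option {t : G // zpowers t = zpowers z} => (match o with
          | none => ⟨e 1, hsub _ (Dom' _ (Or.inl (e.symm_apply_apply _)))⟩
          | some t => ⟨e t.1, hsub _ (Dom' _ (Or.inr (by rw [e.symm_apply_apply]; exact t.2)))⟩ : zpowers w0)) ?_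
      have hz1 : z ≠ 1 := by
        rintro rfl
        rw [zpowers_one_eq_bot, mem_bot] at hxp
        exact hxp1 hxp
      have hne : ∀ t : G, zpowers t = zpowers z → t ≠ 1 := by
        rintro t ht rfl
        rw [zpowers_one_eq_bot, eq_comm, zpowers_eq_bot] at ht
        exact hz1 ht
      rintro (_ | t) (_ | t') h
      · rfl
      · exfalso
        have := e.injective (Subtype.ext_iff.mp h)
        exact hne _ t'.2 this.symm
      · exfalso
        have := e.injective (Subtype.ext_iff.mp h)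
        exact hne _ t.2 this
      · have := e.injective (Subtype.ext_iff.mp h)
        rw [Subtype.ext this]
    have htot : (p - 1) * (q - 1) ≤ Nat.totient (orderOf z) := by
      have h1 := Nat.totient_dvd_of_dvd hpqz
      rw [Nat.totient_mul ((Nat.coprime_primes hp hq).mpr hpq), Nat.totient_prime hp, Nat.totient_prime hq] at h1
      exact Nat.le_of_dvd (Nat.totient_pos.mpr (orderOf_pos z)) h1
    have hbound : ∀ (p q : ℕ), p.Prime → q.Prime → p ≠ q → ∀ xp ∈ zpowers z, ∀ xq ∈ zpowers z,
        orderOf xp = p → orderOf xq = q → ¬ cmp xp xq → xp ≠ 1 → zpowers xp ≠ zpowers z →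
        Nat.totient (r ^ k) ≤ p - 1 := by
      intro p q hp hq hpq xp hxp xq hxq op oq hnc hxp1 hxpz
      have hup' := hup xp hxp hxp1 hxpz
      have h0 : w0 ∈ zpowers (e xp) := by
        have h1 : cmp w0 (e xp) := hw0D _ (by rw [Nw, e.symm_apply_apply]; exact hxp)
        rcases h1 with h | h
        · exact h
        · exfalso
          -- e xp is a power of w0 hence dominates
          have h2 : ∀ y, cmp w y → cmp (e xp) y := by
            intro y hy
            rcases hw0D y hy with h3 | h3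
            · exact Or.inl (by rw [← zpowers_le] at h h3 ⊢; exact h.trans h3)
            · have o1 := dvd_of_mem h
              have o2 := dvd_of_mem h3
              rw [ow0] at o1 o2
              obtain ⟨i, -, hi⟩ := (Nat.dvd_prime_pow hr).mp o1
              obtain ⟨j, -, hj⟩ := (Nat.dvd_prime_pow hr).mp o2
              rcases le_total i j with h' | h'
              · exact Or.inl (mem_of_dvd h h3 (by rw [hi, hj]; exact pow_dvd_pow _ h'))
              · exact Or.inr (mem_of_dvd h3 h (by rw [hi, hj]; exact pow_dvd_pow _ h'))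
          rcases Dom _ h2 with h4 | h4
          · rw [e.symm_apply_apply] at h4
            exact hxp1 h4
          · rw [e.symm_apply_apply] at h4
            exact hxpz h4
      have h1 : Nat.totient (r ^ k) ≤ Nat.totient (orderOf (e xp)) := by
        rw [← ow0]
        exact Nat.le_of_dvd (Nat.totient_pos.mpr (orderOf_pos _)) (Nat.totient_dvd_of_dvd (dvd_of_mem h0))
      refine h1.trans ?_
      rw [← card_gen (e xp), ← op, ← Nat.card_zpowers xp]
      have h2 : Nat.card {x : zpowers xp // x ≠ 1} = Nat.card (zpowers xp) - 1 := by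
        haveI : Fintype (zpowers xp) := Fintype.ofFinite _
        rw [Nat.card_eq_fintype_card, Nat.card_eq_fintype_card, Fintype.card_subtype_compl]
        simp
      rw [← h2]
      have h3 : ∀ t : {t : H // zpowers t = zpowers (e xp)}, ∀ s, cmp (e.symm t.1) s ↔ cmp xp s := by
        intro t s
        rw [he xp s, ← cmp_congr t.2, he', e.symm_apply_apply]
      refine Nat.card_le_card_of_injective
        (fun t : {t : H // zpowers t = zpowers (e xp)} =>
          (⟨⟨e.symm t.1, (twin hp hq hpq hxp hxq op oq G1 (h3 t)).2⟩, fun h =>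
            (twin hp hq hpq hxp hxq op oq G1 (h3 t)).1 (Subtype.ext_iff.mp h)⟩ : {x : zpowers xp // x ≠ 1})) ?_
      intro t t' h
      have h4 : e.symm t.1 = e.symm t'.1 := Subtype.ext_iff.mp (Subtype.ext_iff.mp h)
      exact Subtype.ext (e.symm.injective h4)
    have b1 := hbound p q hp hq hpq xp hxp xq hxq op oq hnc hxp1 hxpz
    have b2 := hbound q p hq hp (Ne.symm hpq) xq hxq xp hxp oq op (fun h => hnc (cmp_symm h)) hxq1 hxqz
    exact arith hr hk0 hp hq hpq b1 b2 (by omega)

lemma key2 (e : G ≃ H) (he : ∀ x y : G, cmp x y ↔ cmp (e x) (e y))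
    (hp : p.Prime) (hq : q.Prime) (hpq : p ≠ q) (hg : ∃ g : G, orderOf g = p * q) :
    ∃ h : H, orderOf h = p * q := by
  obtain ⟨g, og⟩ := hg
  let S := {z : G // g ∈ zpowers z}
  haveI : Nonempty S := ⟨⟨g, mem_zpowers g⟩⟩
  obtain ⟨⟨z0, hz0⟩, hmax⟩ := Finite.exists_max (fun v : S => orderOf v.1)
  have hpq0 : p * q ∣ orderOf z0 := og ▸ dvd_of_mem hz0
  have h6 : 2 < orderOf z0 := by
    have h1 := Nat.le_of_dvd (orderOf_pos z0) hpq0
    have h2 := hp.two_le
    have h3 := hq.two_le
    have : 2 * 2 ≤ p * q := Nat.mul_le_mul h2 h3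
    omega
  obtain ⟨z, hzz, hz1⟩ : ∃ z : G, zpowers z = zpowers z0 ∧ e z ≠ 1 := by
    by_cases h : e z0 = 1
    · refine ⟨z0⁻¹, zpowers_inv, ?_⟩
      intro h'
      have h1 := e.injective (h'.trans h.symm)
      have h2 : z0 ^ 2 = 1 := by
        rw [pow_two]
        nth_rewrite 1 [← h1]
        exact inv_mul_cancel _
      have := Nat.le_of_dvd (by norm_num) (orderOf_dvd_of_pow_eq_one h2)
      omega
    · exact ⟨z0, rfl, h⟩
  have hgz : g ∈ zpowers z := hzz ▸ hz0
  have hpqz : p * q ∣ orderOf z := og ▸ dvd_of_mem hgz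
  have ozz : orderOf z = orderOf z0 := by rw [← Nat.card_zpowers, hzz, Nat.card_zpowers]
  have G1 : ∀ y, cmp z y → y ∈ zpowers z := by
    intro y hy
    rcases hy with h | h
    · have hgy : g ∈ zpowers y := by
        rw [← zpowers_le] at h hgz ⊢
        exact hgz.trans h
      have h2 := hmax ⟨y, hgy⟩
      have h3 : zpowers z = zpowers y := by
        apply Subgroup.eq_of_le_of_card_ge
        · rw [zpowers_le]; exact h
        · rw [Nat.card_zpowers, Nat.card_zpowers, ozz]; exact h2
      rw [h3]; exact mem_zpowers _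
    · exact h
  have H := key1 e he hp hq hpq hpqz G1 hz1
  have hcard : orderOf (e z) = orderOf z := by
    rw [← Nat.card_zpowers, ← Nat.card_zpowers]
    refine Nat.card_congr ⟨fun y => ⟨e.symm y.1, ?_⟩, fun x => ⟨e x.1, ?_⟩, ?_, ?_⟩
    · apply G1
      have h := (he z (e.symm y.1)).mpr (by rw [e.apply_symm_apply]; exact Or.inr y.2)
      exact h
    · exact H _ ((he z x.1).mp (Or.inr x.2))
    · intro y; simp
    · intro x; simp
  obtain ⟨h, -, oh⟩ := exists_order (z := e z) (c := p * q) (by rw [hcard]; exact hpqz)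
  exact ⟨h, oh⟩

end


/-- Let G and H be finite groups whose power graphs are isomorphic: there is a bijection e : G → H such that, for all x, y, one of x, y is a power of the other exactly when one of e(x), e(y) is a power of the other. Then G and H have the same prime graph: for distinct primes p, q, G has an element of order pq if and only if H does. -/
theorem result {G H : Type*} [Group G] [Finite G] [Group H] [Finite H] (e : G ≃ H)
    (he : ∀ x y : G, (x ∈ Subgroup.zpowers y ∨ y ∈ Subgroup.zpowers x) ↔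
      (e x ∈ Subgroup.zpowers (e y) ∨ e y ∈ Subgroup.zpowers (e x)))
    {p q : ℕ} (hp : p.Prime) (hq : q.Prime) (hpq : p ≠ q) :
    (∃ g : G, orderOf g = p * q) ↔ (∃ h : H, orderOf h = p * q) := by
  constructor
  · exact key2 e he hp hq hpq
  · refine key2 e.symm ?_ hp hq hpq
    intro x y
    have := he (e.symm x) (e.symm y)
    rw [e.apply_symm_apply, e.apply_symm_apply] at this
    exact this.symm

end Cfsg.Agent.S4085
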