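import Cfsg.Statements.S4086
import Mathlib

set_option autoImplicit false
open Cfsg

namespace Cfsg.Agent.S4086

/-- For a finite group G the following are equivalent: every non-identity element has prime-power order; whenever two elements generate a cyclic subgroup, one of them is a power of the other (the enhanced power graph of G coincides with its power graph). -/
theorem result {G : Type*} [Group G] [Finite G] :
    (∀ g : G, g ≠ 1 → IsPrimePow (orderOf g)) ↔
    (∀ x y : G, IsCyclic ↥(Subgroup.closure ({x, y} : Set G)) → (x ∈ Subgroup.zpowers y ∨ y ∈ Subgroup.zpowers x)) := by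
  classical
  have := Fintype.ofFinite G
  constructor
  · intro h x y hcyc
    -- a generator of ⟨x,y⟩
    obtain ⟨⟨z, hz⟩, hgen⟩ := hcyc.exists_generator
    set K := Subgroup.closure ({x, y} : Set G) with hK
    have hx : x ∈ K := Subgroup.subset_closure (by simp)
    have hy : y ∈ K := Subgroup.subset_closure (by simp)
    have hxz : x ∈ Subgroup.zpowers z := by
      obtain ⟨k, hk⟩ := Subgroup.mem_zpowers_iff.mp (hgen ⟨x, hx⟩)
      exact ⟨k, congrArg Subtype.val hk⟩
    have hyz : y ∈ Subgroup.zpowers z := by
      obtain ⟨k, hk⟩ := Subgroup.mem_zpowers_iff.mp (hgen ⟨y, hy⟩)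
      exact ⟨k, congrArg Subtype.val hk⟩
    by_cases hz1 : z = 1
    · left
      rw [hz1, Subgroup.zpowers_one_eq_bot, Subgroup.mem_bot] at hxz
      rw [hxz]; exact one_mem _
    · obtain ⟨p, k, hp, hk, hzo⟩ := (isPrimePow_nat_iff _).mp (h z hz1)
      have hxo : orderOf x ∣ p ^ k := by rw [hzo]; exact orderOf_dvd_of_mem_zpowers hxz
      have hyo : orderOf y ∣ p ^ k := by rw [hzo]; exact orderOf_dvd_of_mem_zpowers hyz
      obtain ⟨i, hi, hi2⟩ := (Nat.dvd_prime_pow hp).mp hxo
      obtain ⟨j, hj, hj2⟩ := (Nat.dvd_prime_pow hp).mp hyo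
      -- in a cyclic group subgroups are determined by order
      have key : ∀ a b : G, a ∈ Subgroup.zpowers z → b ∈ Subgroup.zpowers z → orderOf a ∣ orderOf b →
          a ∈ Subgroup.zpowers b := by
        intro a b ha hb hab
        let a' : Subgroup.zpowers z := ⟨a, ha⟩
        let b' : Subgroup.zpowers z := ⟨b, hb⟩
        have h1 : a' ∈ Subgroup.zpowers b' := by
          have hcard := IsCyclic.card_pow_eq_one_le (α := Subgroup.zpowers z) (n := orderOf b') (orderOf_pos b')
          have hsub : (Finset.univ.filter (fun c : Subgroup.zpowers z => c ∈ Subgroup.zpowers b')) ⊆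
              (Finset.univ.filter (fun c : Subgroup.zpowers z => c ^ orderOf b' = 1)) := by
            intro c hc
            rw [Finset.mem_filter] at hc ⊢
            refine ⟨hc.1, ?_⟩
            rw [← orderOf_dvd_iff_pow_eq_one]
            exact orderOf_dvd_of_mem_zpowers hc.2
          have hcard2 : (Finset.univ.filter (fun c : Subgroup.zpowers z => c ∈ Subgroup.zpowers b')).card = orderOf b' := by
            rw [← Nat.card_zpowers, Nat.card_eq_fintype_card, Fintype.card_subtype]
          have heq := Finset.eq_of_subset_of_card_le hsub (by rw [hcard2]; exact hcard)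
          have ha' : a' ∈ (Finset.univ.filter (fun c : Subgroup.zpowers z => c ^ orderOf b' = 1)) := by
            rw [Finset.mem_filter]
            refine ⟨Finset.mem_univ _, ?_⟩
            rw [← orderOf_dvd_iff_pow_eq_one, Subgroup.orderOf_mk, Subgroup.orderOf_mk]
            exact hab
          rw [← heq, Finset.mem_filter] at ha'
          exact ha'.2
        obtain ⟨k, hk⟩ := Subgroup.mem_zpowers_iff.mp h1
        exact ⟨k, congrArg Subtype.val hk⟩
      rcases le_total i j with hij | hij
      · left
        apply key x y hxz hyz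
        rw [hi2, hj2]; exact pow_dvd_pow p hij
      · right
        apply key y x hyz hxz
        rw [hi2, hj2]; exact pow_dvd_pow p hij
  · intro h g hg
    by_contra hnpp
    -- two distinct primes p, q dividing the order
    obtain ⟨p, hp, hpd⟩ := Nat.exists_prime_and_dvd (n := orderOf g) (by rwa [Ne, orderOf_eq_one_iff])
    have hq : ∃ q, q.Prime ∧ q ∣ orderOf g ∧ q ≠ p := by
      by_contra hno
      push Not at hno
      apply hnpp
      have h1 : orderOf g = p ^ (orderOf g).primeFactorsList.length :=
        Nat.eq_prime_pow_of_unique_prime_dvd (orderOf_pos g).ne' (fun {d} hd hdd => hno d hd hdd)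
      rw [isPrimePow_nat_iff]
      refine ⟨p, _, hp, ?_, h1.symm⟩
      apply Nat.pos_of_ne_zero
      intro h0
      rw [h0, pow_zero, orderOf_eq_one_iff] at h1
      exact hg h1
    obtain ⟨q, hq, hqd, hqp⟩ := hq
    have hord : ∀ r : ℕ, r.Prime → r ∣ orderOf g → orderOf (g ^ (orderOf g / r)) = r := by
      intro r hr hrd
      rw [orderOf_pow_of_dvd (Nat.div_pos (Nat.le_of_dvd (orderOf_pos g) hrd) hr.pos).ne' (Nat.div_dvd_of_dvd hrd)]
      exact Nat.div_div_self hrd (orderOf_pos g).ne'
    have hx := hord p hp hpd
    have hy := hord q hq hqd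
    have hcyc : IsCyclic ↥(Subgroup.closure ({g ^ (orderOf g / p), g ^ (orderOf g / q)} : Set G)) := by
      have hle : Subgroup.closure ({g ^ (orderOf g / p), g ^ (orderOf g / q)} : Set G) ≤ Subgroup.zpowers g := by
        rw [Subgroup.closure_le]
        rintro z (rfl | rfl)
        · exact Subgroup.npow_mem_zpowers g _
        · exact Subgroup.npow_mem_zpowers g _
      exact Subgroup.isCyclic_of_le hle
    rcases h _ _ hcyc with h1 | h1
    · have := orderOf_dvd_of_mem_zpowers h1
      rw [hx, hy] at this
      exact hqp ((Nat.prime_dvd_prime_iff_eq hp hq).mp this).symm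
    · have := orderOf_dvd_of_mem_zpowers h1
      rw [hx, hy] at this
      exact hqp ((Nat.prime_dvd_prime_iff_eq hq hp).mp this)

end Cfsg.Agent.S4086
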