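import Cfsg.Statements.S4088
import Mathlib
import Cfsg.Agent.LibSubnorH12

set_option autoImplicit false
open Cfsg CfsgLib.SubnorH12

namespace Cfsg.Agent.S4088

/-- Let G be a finite group, p a prime dividing the order of G, H a p-subgroup of G and P a Sylow p-subgroup of G. Call the subnormalizer of H the set of elements g of G such that H is subnormal in the subgroup generated by H and g. Then the number of elements of the subnormalizer of H equals the number of Sylow p-subgroups of G containing H times the order of N_G(P), and also equals the number of conjugates of H contained in P times the order of N_G(H). -/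
theorem result {G : Type*} [Group G] [Finite G] (p : ℕ) [Fact p.Prime]
    (hp : p ∣ Nat.card G) (H : Subgroup G) (hH : IsPGroup p H) (P : Sylow p G) :
    Nat.card {g : G // ((H).subgroupOf (H ⊔ Subgroup.zpowers g)).IsSubnormal} =
        Nat.card {Q : Sylow p G // H ≤ (Q : Subgroup G)} * Nat.card (Subgroup.normalizer ((P : Subgroup G) : Set G)) ∧
    Nat.card {g : G // ((H).subgroupOf (H ⊔ Subgroup.zpowers g)).IsSubnormal} =
        Nat.card {K : Subgroup G // K ≤ (P : Subgroup G) ∧ ∃ g : G, K = H.map (MulAut.conj g).toMonoidHom} *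
          Nat.card (Subgroup.normalizer (H : Set G)) := by
  classical
  haveI := Fintype.ofFinite G
  have h1 : Nat.card {g : G // ((H).subgroupOf (H ⊔ Subgroup.zpowers g)).IsSubnormal} =
      Nat.card {g : G // ∃ T : Subgroup G, IsPGroup p T ∧ H ≤ T ∧ g ∈ Subgroup.normalizer (T : Set G)} :=
    Nat.card_congr (Equiv.subtypeEquivRight (fun g => Cfsg.Agent.S4089.key H hH g))
  have hmaxsyl : ∀ R : Subgroup G, IsMaxP p ⊤ R ↔ ∃ Q : Sylow p G, (Q : Subgroup G) = R := by
    intro R
    constructor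
    · rintro ⟨-, h2, h3⟩
      obtain ⟨Q, hQ⟩ := h2.exists_le_sylow
      refine ⟨Q, ?_⟩
      by_contra hne
      exact h3 Q (lt_of_le_of_ne hQ (Ne.symm hne)) le_top Q.isPGroup'
    · rintro ⟨Q, rfl⟩
      refine ⟨le_top, Q.isPGroup', ?_⟩
      intro R' h2 _ h3
      exact h2.ne (Q.is_maximal' h3 h2.le).symm
  have hN : ∀ Q : Sylow p G, Nat.card (Subgroup.normalizer ((Q : Subgroup G) : Set G)) = Nat.card (Subgroup.normalizer ((P : Subgroup G) : Set G)) := by
    intro Q
    have e1 := Subgroup.card_mul_index (Subgroup.normalizer ((Q : Subgroup G) : Set G))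
    have e2 := Subgroup.card_mul_index (Subgroup.normalizer ((P : Subgroup G) : Set G))
    have e3 : Nat.card (Sylow p G) = (Subgroup.normalizer ((Q : Subgroup G) : Set G)).index := Q.card_eq_index_normalizer
    have e4 : Nat.card (Sylow p G) = (Subgroup.normalizer ((P : Subgroup G) : Set G)).index := P.card_eq_index_normalizer
    rw [← e3] at e1
    rw [← e4] at e2
    have hpos : 0 < Nat.card (Sylow p G) := Nat.card_pos
    exact Nat.eq_of_mul_eq_mul_right hpos (e1.trans e2.symm)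
  have hcount : Nat.card {g : G // ((H).subgroupOf (H ⊔ Subgroup.zpowers g)).IsSubnormal} =
      Nat.card {Q : Sylow p G // H ≤ (Q : Subgroup G)} * Nat.card (Subgroup.normalizer ((P : Subgroup G) : Set G)) := by
    rw [h1, main_count H hH]
    rw [Finset.sum_congr rfl (g := fun _ => Nat.card (Subgroup.normalizer ((P : Subgroup G) : Set G)))]
    · rw [Finset.sum_const, smul_eq_mul]
      congr 1
      have h3 : Nat.card {Q : Sylow p G // H ≤ (Q : Subgroup G)} = Nat.card {R : Subgroup G // IsMaxP p ⊤ R ∧ H ≤ R} := by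
        refine Nat.card_congr (Equiv.ofBijective (fun Q => ⟨Q.1, (hmaxsyl _).2 ⟨Q.1, rfl⟩, Q.2⟩) ⟨?_, ?_⟩)
        · intro Q Q' h
          exact Subtype.ext (Sylow.ext (congrArg Subtype.val h))
        · rintro ⟨R, hR, hHR⟩
          obtain ⟨Q, hQ⟩ := (hmaxsyl R).1 hR
          exact ⟨⟨Q, by rw [hQ]; exact hHR⟩, Subtype.ext hQ⟩
      rw [h3, Nat.card_eq_fintype_card, Fintype.card_subtype]
    · intro R hR
      rw [Finset.mem_filter] at hR
      obtain ⟨Q, rfl⟩ := (hmaxsyl R).1 hR.2.1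
      exact hN Q
  refine ⟨hcount, ?_⟩
  rw [hcount]
  have h2 := card_conj (P : Subgroup G) (fun Y => H ≤ Y)
  have h3 := card_conj H (fun Y => Y ≤ (P : Subgroup G))
  rw [← h3]
  have h4 : Nat.card {Q : Sylow p G // H ≤ (Q : Subgroup G)} =
      Nat.card {Y : Subgroup G // H ≤ Y ∧ ∃ g : G, Y = (P : Subgroup G).map (MulAut.conj g).toMonoidHom} := by
    refine Nat.card_congr (Equiv.ofBijective (fun Q => ⟨Q.1, Q.2, ?_⟩) ⟨?_, ?_⟩)
    · obtain ⟨m, -, hm⟩ := max_conj ((hmaxsyl _).2 ⟨P, rfl⟩) ((hmaxsyl _).2 ⟨Q.1, rfl⟩)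
      exact ⟨m, hm⟩
    · intro Q Q' h
      exact Subtype.ext (Sylow.ext (congrArg Subtype.val h))
    · rintro ⟨R, hHR, g, hg⟩
      have h5 := max_conj' ((hmaxsyl _).2 ⟨P, rfl⟩) (Subgroup.mem_top g)
      rw [← hg] at h5
      obtain ⟨Q, hQ⟩ := (hmaxsyl R).1 h5
      exact ⟨⟨Q, by rw [hQ]; exact hHR⟩, Subtype.ext hQ⟩
  rw [h4, ← h2]
  refine Nat.card_congr (Equiv.subtypeEquiv (Equiv.inv G) ?_)
  intro g
  constructor
  · intro h x hx
    obtain ⟨y, hy, rfl⟩ := hx
    obtain ⟨z, hz, hzy⟩ := h hy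
    have h5 : g * z * g⁻¹ = y := hzy
    show g⁻¹ * y * g⁻¹⁻¹ ∈ (P : Subgroup G)
    rw [← h5]
    have : g⁻¹ * (g * z * g⁻¹) * g⁻¹⁻¹ = z := by group
    rw [this]; exact hz
  · intro h x hx
    refine ⟨g⁻¹ * x * g, ?_, ?_⟩
    · have h5 : g⁻¹ * x * g⁻¹⁻¹ ∈ (P : Subgroup G) := h ⟨x, hx, rfl⟩
      rw [inv_inv] at h5
      exact h5
    · show g * (g⁻¹ * x * g) * g⁻¹ = x
      group

end Cfsg.Agent.S4088
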