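import Cfsg.Statements.S4089
import Mathlib
import Cfsg.Agent.LibFusionH12
import Cfsg.Agent.LibH2Misc
import Cfsg.Agent.LibH2Subn
import Cfsg.Agent.LibCores

set_option autoImplicit false
open Cfsg

namespace Cfsg.Agent.S4089

open CfsgLib.FusionH12 in
theorem key {G : Type*} [Group G] [Finite G] {p : ℕ} [Fact p.Prime] (H : Subgroup G)
    (hH : IsPGroup p H) (g : G) :
    ((H).subgroupOf (H ⊔ Subgroup.zpowers g)).IsSubnormal ↔
      ∃ T : Subgroup G, IsPGroup p T ∧ H ≤ T ∧ g ∈ Subgroup.normalizer (T : Set G) := by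
  obtain ⟨L, hL⟩ : ∃ L, L = H ⊔ Subgroup.zpowers g := ⟨_, rfl⟩
  rw [← hL]
  have hHL : H ≤ L := hL ▸ le_sup_left
  have hgL : g ∈ L := hL ▸ (le_sup_right (a := H) (Subgroup.mem_zpowers g))
  constructor
  · intro h
    have h1 : H.subgroupOf L ≤ Cfsg.pCore p L :=
      CfsgLib.H2Misc.subnormal_isPGroup_le_pCore h (hH.comap_subtype)
    refine ⟨(Cfsg.pCore p L).map L.subtype, (CfsgLib.Cores.pCore_isPGroup p).map _, ?_, ?_⟩
    · intro x hx
      exact ⟨⟨x, hHL hx⟩, h1 hx, rfl⟩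
    · refine Subgroup.mem_normalizer_fintype ?_
      rintro _ ⟨y, hy, rfl⟩
      have hn : (Cfsg.pCore p L).Normal := inferInstance
      exact ⟨⟨g, hgL⟩ * y * ⟨g, hgL⟩⁻¹, hn.conj_mem y hy _, rfl⟩
  · rintro ⟨T, hT, hHT, hg⟩
    have hLN : L ≤ Subgroup.normalizer (T : Set G) := by
      rw [hL]
      refine sup_le (hHT.trans Subgroup.le_normalizer) ?_
      rw [Subgroup.zpowers_le]; exact hg
    have hn : (T.subgroupOf L).Normal := Subgroup.normal_subgroupOf_of_le_normalizer hLN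
    refine Subgroup.IsSubnormal.trans (K := T.subgroupOf L) ?_ ?_ hn.isSubnormal
    · exact Subgroup.comap_mono hHT
    · have : Group.IsNilpotent (T.subgroupOf L) :=
        (hT.comap_subtype : IsPGroup p (T.subgroupOf L)).isNilpotent
      exact CfsgLib.H2Subn.isSubnormal_of_isNilpotent _

theorem map_normal_le_normalizer {G : Type*} [Group G] (L : Subgroup G) (K : Subgroup L)
    [hK : K.Normal] : L ≤ Subgroup.normalizer (K.map L.subtype : Set G) := by
  intro g hg
  rw [Subgroup.mem_normalizer_iff]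
  intro x
  constructor
  · rintro ⟨y, hy, rfl⟩
    exact ⟨⟨g, hg⟩ * y * ⟨g, hg⟩⁻¹, hK.conj_mem y hy _, rfl⟩
  · rintro ⟨y, hy, hyx⟩
    refine ⟨⟨g, hg⟩⁻¹ * y * ⟨g, hg⟩, by simpa using hK.conj_mem y hy ⟨g, hg⟩⁻¹, ?_⟩
    have : (y : G) = g * x * g⁻¹ := hyx
    simp [this, mul_assoc]

theorem exists_radical {G : Type*} [Group G] [Finite G] {p : ℕ} [Fact p.Prime] (H : Subgroup G)
    (g : G) (h : ∃ T : Subgroup G, IsPGroup p T ∧ H ≤ T ∧ g ∈ Subgroup.normalizer (T : Set G)) :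
    ∃ R : Subgroup G, H ≤ R ∧ (Cfsg.pCore p (Subgroup.normalizer (R : Set G))).map
      (Subgroup.normalizer (R : Set G)).subtype = R ∧ g ∈ Subgroup.normalizer (R : Set G) := by
  obtain ⟨R, ⟨hR1, hR2, hR3⟩, hmax⟩ := (Set.toFinite {T : Subgroup G | IsPGroup p T ∧ H ≤ T ∧
    g ∈ Subgroup.normalizer (T : Set G)}).exists_maximal h
  refine ⟨R, hR2, ?_, hR3⟩
  obtain ⟨R', hR'⟩ : ∃ R', R' = (Cfsg.pCore p (Subgroup.normalizer (R : Set G))).map
      (Subgroup.normalizer (R : Set G)).subtype := ⟨_, rfl⟩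
  have h1 : R ≤ R' := by
    intro x hx
    rw [hR']
    have hn : (R.subgroupOf (Subgroup.normalizer (R : Set G))).Normal :=
      Subgroup.normal_in_normalizer
    have h2 : R.subgroupOf (Subgroup.normalizer (R : Set G)) ≤
        Cfsg.pCore p (Subgroup.normalizer (R : Set G)) :=
      CfsgLib.Cores.le_pCore hn (hR1.comap_subtype)
    exact ⟨⟨x, Subgroup.le_normalizer hx⟩, h2 hx, rfl⟩
  have h2 : R' ≤ R := by
    refine hmax ⟨?_, hR2.trans h1, ?_⟩ h1
    · rw [hR']; exact (CfsgLib.Cores.pCore_isPGroup p).map _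
    · rw [hR']
      exact map_normal_le_normalizer _ _ hR3
  rw [← hR']
  exact le_antisymm h2 h1

open CfsgLib.FusionH12 in
theorem radical_closed {G : Type*} [Group G] [Finite G] {p : ℕ} [Fact p.Prime]
    (R : Subgroup G) (hR : (Cfsg.pCore p (Subgroup.normalizer (R : Set G))).map
      (Subgroup.normalizer (R : Set G)).subtype = R) :
    sInf {K : Subgroup G | ∃ Q : Sylow p G, R ≤ (Q : Subgroup G) ∧ K = (Q : Subgroup G)} ≤ R := by
  have hRp : IsPGroup p R := by rw [← hR]; exact (CfsgLib.Cores.pCore_isPGroup p).map _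
  obtain ⟨C, hC⟩ : ∃ C, C = sInf {K : Subgroup G | ∃ Q : Sylow p G, R ≤ (Q : Subgroup G) ∧
    K = (Q : Subgroup G)} := ⟨_, rfl⟩
  rw [← hC]
  have hRC : R ≤ C := by
    rw [hC]; refine le_sInf ?_
    rintro _ ⟨Q, hQ, rfl⟩
    exact hQ
  obtain ⟨Q0, hQ0⟩ := hRp.exists_le_sylow
  have hCp : IsPGroup p C := by
    refine Q0.2.to_le ?_
    rw [hC]
    exact sInf_le ⟨Q0, hQ0, rfl⟩
  have hNC : Subgroup.normalizer (R : Set G) ≤ Subgroup.normalizer (C : Set G) := by
    intro g hg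
    refine Subgroup.mem_normalizer_fintype ?_
    intro x hx
    rw [SetLike.mem_coe, hC, Subgroup.mem_sInf]
    rintro _ ⟨Q, hQ, rfl⟩
    -- the conjugate of `Q`
    have h1 := (SylIn.ofSylow Q).cj g⁻¹
    rw [cj_top] at h1
    obtain ⟨Q', hQ'⟩ := h1.exists_sylow_coe
    have h2 : R ≤ (Q' : Subgroup G) := by
      rw [hQ', ← cj_of_mem_nrm (inv_mem hg)]
      exact cj_mono hQ
    have h3 : x ∈ (Q' : Subgroup G) := by
      have : C ≤ (Q' : Subgroup G) := by rw [hC]; exact sInf_le ⟨Q', h2, rfl⟩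
      exact this hx
    rw [hQ', mem_cj] at h3
    simpa using h3
  by_contra hne
  have hlt : R < C := lt_of_le_of_ne hRC (fun h => hne (h ▸ le_rfl))
  have h1 := lt_nrm_inf hCp hlt
  refine absurd h1 (not_lt_of_ge ?_)
  -- `C ⊓ N(R)` is a normal `p`-subgroup of `N(R)`
  have hn : ((C ⊓ Subgroup.normalizer (R : Set G)).subgroupOf
      (Subgroup.normalizer (R : Set G))).Normal := by
    apply Subgroup.normal_subgroupOf_of_le_normalizer
    exact (le_inf hNC Subgroup.le_normalizer).trans Subgroup.inf_normalizer_le_normalizer_inf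
  have h2 := CfsgLib.Cores.le_pCore (p := p) hn ((hCp.to_le inf_le_left).comap_subtype)
  intro x hx
  rw [← hR]
  exact ⟨⟨x, hx.2⟩, h2 hx, rfl⟩

/-- Let G be a finite group, p a prime and H a p-subgroup of G. Then the set of elements g of G such that H is subnormal in the subgroup generated by H and g is the union of the normalizers N_G(R) over the subgroups R of G containing H with R = O_p(N_G(R)); and this set does not change when H is replaced by the intersection of all Sylow p-subgroups of G containing H. -/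
theorem result {G : Type*} [Group G] [Finite G] (p : ℕ) [Fact p.Prime]
    (H : Subgroup G) (hH : IsPGroup p H) :
    {g : G | ((H).subgroupOf (H ⊔ Subgroup.zpowers g)).IsSubnormal} =
      {g : G | ∃ R : Subgroup G, H ≤ R ∧ (Cfsg.pCore p (Subgroup.normalizer (R : Set G))).map (Subgroup.normalizer (R : Set G)).subtype = R ∧ g ∈ Subgroup.normalizer (R : Set G)} ∧
    ∀ g : G, (((H).subgroupOf (H ⊔ Subgroup.zpowers g)).IsSubnormal ↔
      (((sInf {K : Subgroup G | ∃ Q : Sylow p G, H ≤ (Q : Subgroup G) ∧ K = (Q : Subgroup G)})).subgroupOf ((sInf {K : Subgroup G | ∃ Q : Sylow p G, H ≤ (Q : Subgroup G) ∧ K = (Q : Subgroup G)}) ⊔ Subgroup.zpowers g)).IsSubnormal) := by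
  have hfirst : ∀ (H : Subgroup G), IsPGroup p H → ∀ g : G,
      ((H).subgroupOf (H ⊔ Subgroup.zpowers g)).IsSubnormal ↔
      ∃ R : Subgroup G, H ≤ R ∧ (Cfsg.pCore p (Subgroup.normalizer (R : Set G))).map
        (Subgroup.normalizer (R : Set G)).subtype = R ∧ g ∈ Subgroup.normalizer (R : Set G) := by
    intro H hH g
    rw [key H hH g]
    constructor
    · exact exists_radical H g
    · rintro ⟨R, h1, h2, h3⟩
      refine ⟨R, ?_, h1, h3⟩
      rw [← h2]; exact (CfsgLib.Cores.pCore_isPGroup p).map _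
  refine ⟨?_, ?_⟩
  · ext g
    exact hfirst H hH g
  · intro g
    obtain ⟨C, hC⟩ : ∃ C, C = sInf {K : Subgroup G | ∃ Q : Sylow p G, H ≤ (Q : Subgroup G) ∧
      K = (Q : Subgroup G)} := ⟨_, rfl⟩
    obtain ⟨Q0, hQ0⟩ := hH.exists_le_sylow
    have hCp : IsPGroup p C := by
      refine Q0.2.to_le ?_
      rw [hC]
      exact sInf_le ⟨Q0, hQ0, rfl⟩
    have hHC : H ≤ C := by
      rw [hC]; refine le_sInf ?_
      rintro _ ⟨Q, hQ, rfl⟩
      exact hQ
    rw [← hC, hfirst H hH g, hfirst C hCp g]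
    constructor
    · rintro ⟨R, h1, h2, h3⟩
      refine ⟨R, ?_, h2, h3⟩
      refine le_trans ?_ (radical_closed R h2)
      rw [hC]
      refine le_sInf ?_
      rintro _ ⟨Q, hQ, rfl⟩
      exact sInf_le ⟨Q, h1.trans hQ, rfl⟩
    · rintro ⟨R, h1, h2, h3⟩
      exact ⟨R, hHC.trans h1, h2, h3⟩

end Cfsg.Agent.S4089
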