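import Cfsg.Statements.S4090
import Cfsg.Agent.LibH2JJ1
import Cfsg.Agent.LibH2Subn
import Cfsg.Agent.LibComp

set_option autoImplicit false
open scoped BigOperators
open Cfsg

namespace Cfsg.Agent.S4090

open Subgroup Cfsg CfsgLib.H2JJ
open scoped Pointwise

variable {G : Type*} [Group G] [Finite G] {p : ℕ} [hp : Fact p.Prime]

theorem sub_iff {H : Subgroup G} (hH : IsPGroup p H) (g : G) :
    (H.subgroupOf (H ⊔ zpowers g)).IsSubnormal ↔ Cd p H g := by
  set L := H ⊔ zpowers g with hL
  have hHL : H ≤ L := le_sup_left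
  have hgL : g ∈ L := mem_sup_right (mem_zpowers g)
  constructor
  · intro h
    have h1 : H.subgroupOf L ≤ pCore p L := CfsgLib.Comp.le_pCore_of_subnormal h (hH.comap_subtype)
    refine ⟨(pCore p L).map L.subtype, (CfsgLib.Cores.pCore_isPGroup p : IsPGroup p (pCore p L)).map _, ?_, ?_⟩
    · intro x hx
      exact ⟨⟨x, hHL hx⟩, h1 (mem_subgroupOf.mpr hx), rfl⟩
    · apply nmf
      rintro _ ⟨x, hx, rfl⟩
      exact ⟨⟨g, hgL⟩ * x * ⟨g, hgL⟩⁻¹, (inferInstance : (pCore p L).Normal).conj_mem x hx ⟨g, hgL⟩, rfl⟩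
  · rintro ⟨X, hX, hHX, hg⟩
    have hLX : L ≤ normalizer (X : Set G) := sup_le (hHX.trans le_normalizer) (by rw [zpowers_le]; exact hg)
    have hXn : (X.subgroupOf L).Normal := by
      constructor
      intro x hx l
      rw [mem_subgroupOf] at hx ⊢
      exact nmf' (hLX l.2) hx
    have hXp : IsPGroup p (X.subgroupOf L) := hX.comap_subtype
    haveI : Group.IsNilpotent (X.subgroupOf L) := hXp.isNilpotent
    have hle : H.subgroupOf L ≤ X.subgroupOf L := fun x hx => hHX hx
    exact IsSubnormal.trans hle (CfsgLib.H2Subn.isSubnormal_of_isNilpotent _) hXn.isSubnormal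

section
variable {A B : Type*} [Group A] [Group B] [Finite A] [Finite B]

theorem card_ker {α : G →* A} (hα : Function.Surjective α) (π : A →* B) :
    Nat.card π.ker = α.ker.relIndex (π.comp α).ker := by
  have h1 : Nat.card (π.comp α).ker = Nat.card π.ker * Nat.card α.ker := by
    apply cnt' α (P := fun g => g ∈ (π.comp α).ker) (P' := fun q => q ∈ π.ker) (fun g hg => hg)
    intro q hq
    rw [← fiber_ker hα q]
    exact Nat.card_congr (Equiv.subtypeEquivRight (fun g => ⟨fun h => h.1, fun h => ⟨h, by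
      show π (α g) = 1
      rw [h]; exact hq⟩⟩))
  have hle : α.ker ≤ (π.comp α).ker := fun g hg => by
    rw [MonoidHom.mem_ker] at hg ⊢
    rw [MonoidHom.comp_apply, hg, map_one]
  have h2 := relIndex_mul_index hle
  have h3 := (π.comp α).ker.card_mul_index
  have h4 := α.ker.card_mul_index
  rw [← h2, ← h3, ← mul_assoc] at h4
  have h5 := Nat.eq_of_mul_eq_mul_right (Nat.pos_of_ne_zero (index_ne_zero_of_finite (H := (π.comp α).ker))) h4
  rw [h1, mul_comm] at h5
  exact (Nat.eq_of_mul_eq_mul_right Nat.card_pos h5).symm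

theorem step_p {α : G →* A} (hα : Function.Surjective α) {π : A →* B} (hπ : Function.Surjective π)
    (h : ∃ m : ℕ, α.ker.relIndex (π.comp α).ker = p ^ m) (H : Subgroup G) :
    Nat.card {q // Cd p (H.map α) q} = Nat.card {q // Cd p (H.map (π.comp α)) q} * α.ker.relIndex (π.comp α).ker := by
  obtain ⟨m, hm⟩ := h
  have h1 : IsPGroup p π.ker := IsPGroup.of_card (n := m) (by rw [card_ker hα π, hm])
  rw [count_p hπ h1 (H.map α), map_map, card_ker hα π]

theorem step_p' {α : G →* A} (hα : Function.Surjective α) {π : A →* B} (hπ : Function.Surjective π)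
    (h : (α.ker.relIndex (π.comp α).ker).Coprime p) {H : Subgroup G} (hH : IsPGroup p H) :
    Nat.card {q // Cd p (H.map α) q} = Nat.card {q // Cd p (H.map (π.comp α)) q} *
      (Nat.card {u : G // u ∈ (π.comp α).ker ∧ ∀ h ∈ H, h * u * h⁻¹ * u⁻¹ ∈ α.ker} / Nat.card α.ker) := by
  have h1 : (Nat.card π.ker).Coprime p := by rw [card_ker hα π]; exact h
  rw [count_p' hπ h1 (hH.map α), map_map]
  congr 1
  symm
  apply Nat.div_eq_of_eq_mul_left Nat.card_pos
  apply cnt' α (P' := fun q => q ∈ π.ker ⊓ centralizer (H.map α : Set A))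
  · rintro g ⟨hg1, hg2⟩
    refine mem_inf.mpr ⟨hg1, mem_centralizer_iff.mpr ?_⟩
    rintro _ ⟨h, hh, rfl⟩
    have h2 := hg2 h hh
    rw [MonoidHom.mem_ker, map_mul, map_mul, map_mul, map_inv, map_inv, mul_inv_eq_one, mul_inv_eq_iff_eq_mul] at h2
    exact h2
  · intro q hq
    rw [← fiber_ker hα q]
    refine Nat.card_congr (Equiv.subtypeEquivRight (fun g => ⟨fun h => h.1, fun h => ⟨h, ?_, ?_⟩⟩))
    · show π (α g) = 1
      rw [h]; exact (mem_inf.mp hq).1
    · intro k hk
      have h2 := mem_centralizer_iff.mp (mem_inf.mp hq).2 (α k) ⟨k, hk, rfl⟩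
      rw [MonoidHom.mem_ker, map_mul, map_mul, map_mul, map_inv, map_inv, h, mul_inv_eq_one, mul_inv_eq_iff_eq_mul]
      exact h2
end

noncomputable def tau (p : ℕ) (H N : Subgroup G) [N.Normal] : ℕ :=
  Nat.card {q : G ⧸ N // Cd p (H.map (QuotientGroup.mk' N)) q}

open Classical in
noncomputable def cc (p : ℕ) (H N M : Subgroup G) : ℕ :=
  if (N.relIndex M).Coprime p then
    Nat.card {u : G // u ∈ M ∧ ∀ h ∈ H, h * u * h⁻¹ * u⁻¹ ∈ N} / Nat.card N
  else N.relIndex M

theorem stepQ {H : Subgroup G} (hH : IsPGroup p H) (N M : Subgroup G) [N.Normal] [M.Normal] (hNM : N ≤ M)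
    (h : (∃ m : ℕ, N.relIndex M = p ^ m) ∨ (N.relIndex M).Coprime p) : tau p H N = tau p H M * cc p H N M := by
  have hα := QuotientGroup.mk'_surjective N
  let π : G ⧸ N →* G ⧸ M := QuotientGroup.map N M (MonoidHom.id G) hNM
  have hcomp : π.comp (QuotientGroup.mk' N) = QuotientGroup.mk' M := by ext g; rfl
  have hπ : Function.Surjective π := by
    intro q
    obtain ⟨g, rfl⟩ := QuotientGroup.mk'_surjective M q
    exact ⟨QuotientGroup.mk' N g, rfl⟩
  unfold tau cc
  by_cases hc : (N.relIndex M).Coprime p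
  · rw [if_pos hc]
    have h1 := step_p' (p := p) hα hπ (by rw [hcomp, QuotientGroup.ker_mk', QuotientGroup.ker_mk']; exact hc) hH
    rw [hcomp, QuotientGroup.ker_mk', QuotientGroup.ker_mk'] at h1
    exact h1
  · rw [if_neg hc]
    have h1 := step_p (p := p) hα hπ (by rw [hcomp, QuotientGroup.ker_mk', QuotientGroup.ker_mk']; exact h.resolve_right hc) H
    rw [hcomp, QuotientGroup.ker_mk', QuotientGroup.ker_mk'] at h1
    exact h1

theorem tau_bot {H : Subgroup G} : Nat.card {g : G // Cd p H g} = tau p H (⊥ : Subgroup G) := by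
  have h1 := count_p (p := p) (QuotientGroup.mk'_surjective (⊥ : Subgroup G)) (by rw [QuotientGroup.ker_mk']; exact IsPGroup.of_bot) H
  rw [QuotientGroup.ker_mk', card_bot, mul_one] at h1
  exact h1

theorem tau_top {H : Subgroup G} : tau p H (⊤ : Subgroup G) = 1 := by
  unfold tau
  haveI : Subsingleton (G ⧸ (⊤ : Subgroup G)) := QuotientGroup.subsingleton_quotient_top
  rw [Nat.card_eq_one_iff_unique]
  refine ⟨inferInstance, ⟨⟨1, ⊥, IsPGroup.of_bot, ?_, ?_⟩⟩⟩
  · intro x _
    rw [mem_bot]; exact Subsingleton.elim _ _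
  · exact one_mem _


/-- Let G be a finite p-solvable group, H a p-subgroup of G and P a Sylow p-subgroup, and fix a chain of normal subgroups 1 = M₀ ≤ M₁ ≤ ⋯ ≤ Mₙ = G of G each of whose factors is a p-group or a p'-group. Then the number of elements g of G such that H is subnormal in the subgroup generated by H and g equals the order of P times the product, over the factors Mᵢ₊₁/Mᵢ of order prime to p, of the order of the centralizer of H in Mᵢ₊₁/Mᵢ (counted as the number of u ∈ Mᵢ₊₁ with [h, u] ∈ Mᵢ for all h ∈ H, divided by the order of Mᵢ). -/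
theorem result {G : Type*} [Group G] [Finite G] (p : ℕ) [Fact p.Prime]
    (hG : Cfsg.IsPSolvable p G) (H : Subgroup G) (hH : IsPGroup p H) (P : Sylow p G)
    (n : ℕ) (M : Fin (n + 1) → Subgroup G) (h0 : M 0 = ⊥) (hn : M (Fin.last n) = ⊤) (hmono : Monotone M)
    (hnormal : ∀ i, (M i).Normal)
    (hfac : ∀ i : Fin n, (∃ m : ℕ, (M i.castSucc).relIndex (M i.succ) = p ^ m) ∨ ((M i.castSucc).relIndex (M i.succ)).Coprime p) :
    Nat.card {g : G // ((H).subgroupOf (H ⊔ Subgroup.zpowers g)).IsSubnormal} =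
      Nat.card (P : Subgroup G) *
        ∏ i : Fin n, (if ((M i.castSucc).relIndex (M i.succ)).Coprime p then
          Nat.card {u : G // u ∈ M i.succ ∧ ∀ h ∈ H, h * u * h⁻¹ * u⁻¹ ∈ M i.castSucc} / Nat.card (M i.castSucc)
          else 1) := by
  classical
  have h1 : Nat.card {g : G // ((H).subgroupOf (H ⊔ Subgroup.zpowers g)).IsSubnormal} = Nat.card {g : G // Cd p H g} :=
    Nat.card_congr (Equiv.subtypeEquivRight (fun g => sub_iff hH g))
  rw [h1, tau_bot]
  let M' : ℕ → Subgroup G := fun i => if h : i < n + 1 then M ⟨i, h⟩ else ⊤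
  have hM'1 : ∀ i : Fin n, M' i = M i.castSucc := fun i => dif_pos (by omega)
  have hM'2 : ∀ i : Fin n, M' (i + 1) = M i.succ := fun i => dif_pos (by omega)
  haveI hM'n : ∀ i, (M' i).Normal := by
    intro i
    by_cases h : i < n + 1
    · have : M' i = M ⟨i, h⟩ := dif_pos h
      rw [this]; exact hnormal _
    · have : M' i = ⊤ := dif_neg h
      rw [this]; infer_instance
  have hM'0 : M' 0 = ⊥ := by
    rw [← h0]; exact dif_pos (by omega)
  have hM'l : M' n = ⊤ := by
    rw [← hn]; exact dif_pos (by omega)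
  have hle : ∀ i < n, M' i ≤ M' (i + 1) := by
    intro i hi
    have h2 := hM'1 ⟨i, hi⟩
    have h3 := hM'2 ⟨i, hi⟩
    simp only at h2 h3
    rw [h2, h3]
    exact hmono (Fin.castSucc_lt_succ).le
  have hfac' : ∀ i < n, (∃ m : ℕ, (M' i).relIndex (M' (i + 1)) = p ^ m) ∨ ((M' i).relIndex (M' (i + 1))).Coprime p := by
    intro i hi
    have h2 := hM'1 ⟨i, hi⟩
    have h3 := hM'2 ⟨i, hi⟩
    simp only at h2 h3
    rw [h2, h3]
    exact hfac ⟨i, hi⟩
  have key : ∀ k ≤ n, tau p H (M' 0) = (∏ i ∈ Finset.range k, cc p H (M' i) (M' (i + 1))) * tau p H (M' k) := by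
    intro k
    induction k with
    | zero => intro _; rw [Finset.prod_range_zero, one_mul]
    | succ k ih =>
      intro hk
      rw [ih (by omega), Finset.prod_range_succ, stepQ hH (M' k) (M' (k + 1)) (hle k (by omega)) (hfac' k (by omega))]
      ring
  have hcardk : ∀ k ≤ n, Nat.card (M' k) = ∏ i ∈ Finset.range k, (M' i).relIndex (M' (i + 1)) := by
    intro k
    induction k with
    | zero => intro _; rw [Finset.prod_range_zero, hM'0, card_bot]
    | succ k ih =>
      intro hk
      rw [Finset.prod_range_succ, ← ih (by omega)]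
      have h2 := relIndex_mul_index (hle k (by omega))
      have h3 := (M' (k + 1)).card_mul_index
      have h4 := (M' k).card_mul_index
      rw [← h2, ← h3, ← mul_assoc] at h4
      exact (Nat.eq_of_mul_eq_mul_right (Nat.pos_of_ne_zero (index_ne_zero_of_finite (H := M' (k + 1)))) h4).symm
  have htop : tau p H (M' n) = 1 := by
    have : ∀ (N : Subgroup G) [N.Normal], N = ⊤ → tau p H N = 1 := by
      rintro N _ rfl; exact tau_top
    exact this _ hM'l
  have hbot : tau p H (⊥ : Subgroup G) = tau p H (M' 0) := by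
    have : ∀ (N : Subgroup G) [N.Normal], N = ⊥ → tau p H (⊥ : Subgroup G) = tau p H N := by
      rintro N _ rfl; rfl
    exact this _ hM'0
  rw [hbot, key n le_rfl, htop, mul_one]
  -- split the product
  let cop : ℕ → Prop := fun i => ((M' i).relIndex (M' (i + 1))).Coprime p
  have hsplit : ∏ i ∈ Finset.range n, cc p H (M' i) (M' (i + 1)) =
      (∏ i ∈ Finset.range n, (if cop i then 1 else (M' i).relIndex (M' (i + 1)))) *
      ∏ i ∈ Finset.range n, (if cop i then Nat.card {u : G // u ∈ M' (i + 1) ∧ ∀ h ∈ H, h * u * h⁻¹ * u⁻¹ ∈ M' i} / Nat.card (M' i) else 1) := by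
    rw [← Finset.prod_mul_distrib]
    refine Finset.prod_congr rfl (fun i _ => ?_)
    unfold cc
    by_cases h : cop i
    · rw [if_pos h, if_pos h, if_pos h, one_mul]
    · rw [if_neg h, if_neg h, if_neg h, mul_one]
  have hsplit2 : Nat.card G = (∏ i ∈ Finset.range n, (if cop i then 1 else (M' i).relIndex (M' (i + 1)))) *
      ∏ i ∈ Finset.range n, (if cop i then (M' i).relIndex (M' (i + 1)) else 1) := by
    have h2 := hcardk n le_rfl
    rw [hM'l, card_top] at h2
    rw [h2, ← Finset.prod_mul_distrib]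
    refine Finset.prod_congr rfl (fun i _ => ?_)
    by_cases h : cop i
    · rw [if_pos h, if_pos h, one_mul]
    · rw [if_neg h, if_neg h, mul_one]
  have hP : Nat.card (P : Subgroup G) = ∏ i ∈ Finset.range n, (if cop i then 1 else (M' i).relIndex (M' (i + 1))) := by
    obtain ⟨s, hs⟩ : ∃ s, ∏ i ∈ Finset.range n, (if cop i then 1 else (M' i).relIndex (M' (i + 1))) = p ^ s := by
      have : ∀ k ≤ n, ∃ s, ∏ i ∈ Finset.range k, (if cop i then 1 else (M' i).relIndex (M' (i + 1))) = p ^ s := by
        intro k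
        induction k with
        | zero => intro _; exact ⟨0, rfl⟩
        | succ k ih =>
          intro hk
          obtain ⟨s, hs⟩ := ih (by omega)
          rw [Finset.prod_range_succ, hs]
          by_cases h : cop k
          · rw [if_pos h, mul_one]; exact ⟨s, rfl⟩
          · rw [if_neg h]
            obtain ⟨m, hm⟩ := (hfac' k (by omega)).resolve_right h
            exact ⟨s + m, by rw [hm, pow_add]⟩
      exact this n le_rfl
    have hb : (∏ i ∈ Finset.range n, (if cop i then (M' i).relIndex (M' (i + 1)) else 1)).Coprime p := by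
      apply Nat.Coprime.prod_left
      intro i _
      by_cases h : cop i
      · rw [if_pos h]; exact h
      · rw [if_neg h]; exact Nat.coprime_one_left p
    have hb0 : (∏ i ∈ Finset.range n, (if cop i then (M' i).relIndex (M' (i + 1)) else 1)) ≠ 0 := by
      intro h
      rw [h, mul_zero] at hsplit2
      exact Nat.card_pos.ne' hsplit2
    have hpp : p.Prime := Fact.out
    rw [hs, P.card_eq_multiplicity, hsplit2, hs, Nat.factorization_mul (pow_pos hpp.pos s).ne' hb0, Finsupp.add_apply,
      hpp.factorization_pow, Finsupp.single_eq_same, Nat.factorization_eq_zero_of_not_dvd, add_zero]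
    intro h
    exact hpp.one_lt.ne' (Nat.eq_one_of_dvd_coprimes hb h dvd_rfl)
  rw [hsplit, ← hP, Finset.prod_range]
  congr 1
  refine Finset.prod_congr rfl (fun i _ => ?_)
  show (if ((M' i).relIndex (M' (i + 1))).Coprime p then _ else 1) = _
  rw [hM'1, hM'2]

end Cfsg.Agent.S4090
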