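import Cfsg.Statements.S4092
import Mathlib

set_option autoImplicit false
open Cfsg

namespace Cfsg.Agent.S4092

open Subgroup in
open scoped Pointwise in
theorem aux {G : Type*} [Group G] [Finite G] (p : ℕ) [Fact p.Prime]
    (P : Sylow p G) (hP : ¬ (P : Subgroup G).Normal) :
    ∃ D : Subgroup G, ∃ R : Sylow p G, D < R ∧ (∀ R S : Sylow p G, D ≤ R → D ≤ S → R ≠ S → (R : Subgroup G) ⊓ S = D) ∧
      p + 1 ≤ Nat.card {R : Sylow p G // D ≤ R} := by
  classical
  have hpp : p.Prime := Fact.out
  -- two distinct Sylow subgroups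
  have hns : ¬ Subsingleton (Sylow p G) := by
    intro h
    exact hP (Sylow.normal_of_subsingleton P)
  rw [not_subsingleton_iff_nontrivial] at hns
  obtain ⟨R0, S0, hRS0⟩ := hns
  -- maximal intersection
  obtain ⟨⟨R, S⟩, hRS, hmax⟩ : ∃ z : Sylow p G × Sylow p G, z.1 ≠ z.2 ∧ ∀ w : Sylow p G × Sylow p G, w.1 ≠ w.2 →
      Nat.card ((w.1 : Subgroup G) ⊓ w.2 : Subgroup G) ≤ Nat.card ((z.1 : Subgroup G) ⊓ z.2 : Subgroup G) := by
    obtain ⟨z, hz, hz'⟩ := Set.Finite.exists_maximalFor
      (fun w : Sylow p G × Sylow p G => Nat.card ((w.1 : Subgroup G) ⊓ w.2 : Subgroup G))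
      {w : Sylow p G × Sylow p G | w.1 ≠ w.2} (Set.toFinite _) ⟨(R0, S0), hRS0⟩
    refine ⟨z, hz, fun w hw => ?_⟩
    by_contra hlt
    push Not at hlt
    exact absurd (hz' hw hlt.le) (not_le.mpr hlt)
  simp only at hRS hmax
  set D : Subgroup G := (R : Subgroup G) ⊓ S with hD
  have hDR : D < R := by
    refine lt_of_le_of_ne inf_le_left ?_
    intro h
    apply hRS
    have h1 : (R : Subgroup G) ≤ S := by rw [← h]; exact inf_le_right
    have := R.3 S.2 h1
    exact Sylow.ext this.symm
  have hpair : ∀ R S : Sylow p G, D ≤ R → D ≤ S → R ≠ S → (R : Subgroup G) ⊓ S = D := by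
    intro R' S' h1 h2 h3
    symm
    exact Subgroup.eq_of_le_of_card_ge (le_inf h1 h2) (hmax (R', S') h3)
  refine ⟨D, R, hDR, hpair, ?_⟩
  -- the normalizer grows
  let T : Subgroup G := (R : Subgroup G) ⊓ normalizer (D : Set G)
  have hDT : D < T := by
    haveI : Group.IsNilpotent (R : Subgroup G) := R.2.isNilpotent
    have hlt : D.subgroupOf (R : Subgroup G) < ⊤ := by
      rw [lt_top_iff_ne_top, Ne, subgroupOf_eq_top]
      exact not_le_of_gt hDR
    have := Group.normalizerCondition_of_isNilpotent _ hlt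
    obtain ⟨t, ht1, ht2⟩ := SetLike.exists_of_lt this
    refine lt_of_le_of_ne (le_inf hDR.le le_normalizer) ?_
    intro hEq
    apply ht2
    rw [mem_subgroupOf, hEq]
    refine mem_inf.mpr ⟨t.2, ?_⟩
    rw [mem_normalizer_iff] at ht1 ⊢
    intro g
    constructor
    · intro hg
      have := (ht1 ⟨g, hDR.le hg⟩).1 (by rwa [mem_subgroupOf])
      rwa [mem_subgroupOf] at this
    · intro hg
      have hgR : g ∈ (R : Subgroup G) := by
        have h := hDR.le hg
        have h' := mul_mem (mul_mem (inv_mem t.2) h) t.2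
        have e : (t : G)⁻¹ * ((t : G) * g * (t : G)⁻¹) * (t : G) = g := by group
        rwa [e] at h'
      have := (ht1 ⟨g, hgR⟩).2 (by rw [mem_subgroupOf]; exact hg)
      rwa [mem_subgroupOf] at this
  -- action of T on the set
  let X : SubMulAction T (Sylow p G) :=
    { carrier := {R' | D ≤ R'}
      smul_mem' := by
        intro t R' hR'
        show D ≤ ((t : G) • R' : Sylow p G)
        intro d hd
        have ht : (t : G) ∈ normalizer (D : Set G) := (mem_inf.mp t.2).2
        have h1 : (t : G)⁻¹ * d * (t : G) ∈ D := by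
          have := (mem_normalizer_iff.mp (inv_mem ht) d).1 hd
          simpa using this
        have h2 := hR' h1
        rw [Sylow.smul_def]
        refine ⟨_, h2, ?_⟩
        show (t : G) * ((t : G)⁻¹ * d * (t : G)) * (t : G)⁻¹ = d
        group }
  have hXcard : Nat.card X = Nat.card {R : Sylow p G // D ≤ R} := rfl
  have hTp : IsPGroup p T := R.2.to_le inf_le_left
  have hmod := hTp.card_modEq_card_fixedPoints X
  have hfix : Nat.card (MulAction.fixedPoints T X) = 1 := by
    rw [Nat.card_eq_one_iff_unique]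
    have hR : (⟨R, hDR.le⟩ : X) ∈ MulAction.fixedPoints T X := by
      intro t
      apply Subtype.ext
      show ((t : G) • R : Sylow p G) = R
      have : R ∈ MulAction.fixedPoints T (Sylow p G) :=
        (hTp.sylow_mem_fixedPoints_iff).mpr inf_le_left
      exact this t
    refine ⟨⟨?_⟩, ⟨⟨_, hR⟩⟩⟩
    have huniq : ∀ z : MulAction.fixedPoints T X, ((z : X) : Sylow p G) = R := by
      rintro ⟨⟨R', hR'⟩, hz⟩
      have hf : R' ∈ MulAction.fixedPoints T (Sylow p G) := by
        intro t
        have := hz t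
        exact congrArg Subtype.val this
      have hle : T ≤ R' := (hTp.sylow_mem_fixedPoints_iff).mp hf
      by_contra hne
      have h1 := hmax (R', R) hne
      have h2 : T ≤ (R' : Subgroup G) ⊓ R := le_inf hle inf_le_left
      have h3 : Nat.card T ≤ Nat.card D := le_trans (Subgroup.card_le_of_le h2) h1
      exact absurd (Subgroup.eq_of_le_of_card_ge hDT.le h3) hDT.ne
    intro a b
    apply Subtype.ext
    apply Subtype.ext
    rw [huniq a, huniq b]
  rw [hfix] at hmod
  have h2 : 2 ≤ Nat.card X := by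
    haveI : Nontrivial X := ⟨⟨⟨R, hDR.le⟩, ⟨S, (inf_le_right : (R : Subgroup G) ⊓ S ≤ S)⟩, fun h => hRS (congrArg Subtype.val h)⟩⟩
    exact Finite.one_lt_card
  rw [← hXcard]
  by_contra hlt
  push Not at hlt
  have h3 : p ∣ Nat.card X - 1 := (Nat.modEq_iff_dvd' (by omega)).mp hmod.symm
  have := Nat.le_of_dvd (by omega) h3
  omega

/-- Let G be a finite group, p a prime and P a Sylow p-subgroup of G that is not normal in G. Then G has at least p·#P elements of p-power order (the identity included). -/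
theorem result {G : Type*} [Group G] [Finite G] (p : ℕ) [Fact p.Prime]
    (P : Sylow p G) (hP : ¬ (P : Subgroup G).Normal) :
    p * Nat.card (P : Subgroup G) ≤ Nat.card {g : G // ∃ k : ℕ, orderOf g = p ^ k} := by
  classical
  have hpp : p.Prime := Fact.out
  obtain ⟨D, R, hDR, hpair, hcount⟩ := aux p P hP
  have hcardS : ∀ S : Sylow p G, Nat.card (S : Subgroup G) = Nat.card (P : Subgroup G) := by
    intro S; exact Nat.card_congr (S.equiv P).toEquiv
  have hpel : ∀ S : Sylow p G, ∀ g ∈ (S : Subgroup G), ∃ k : ℕ, orderOf g = p ^ k := by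
    intro S g hg
    obtain ⟨k, hk⟩ := (IsPGroup.iff_orderOf.mp S.2) ⟨g, hg⟩
    exact ⟨k, by rw [← hk, Subgroup.orderOf_mk]⟩
  -- injection
  let X := {R : Sylow p G // D ≤ R}
  have hD1 : ∀ S : X, Nat.card {g : ((S : Sylow p G) : Subgroup G) // (g : G) ∉ D} + Nat.card D = Nat.card (P : Subgroup G) := by
    intro S
    rw [← hcardS S]
    have h1 := Nat.card_congr (Equiv.sumCompl (fun g : ((S : Sylow p G) : Subgroup G) => (g : G) ∈ D))
    rw [Nat.card_sum] at h1
    have h2 : Nat.card {g : ((S : Sylow p G) : Subgroup G) // (g : G) ∈ D} = Nat.card D := by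
      apply Nat.card_congr
      exact ⟨fun g => ⟨g.1.1, g.2⟩, fun d => ⟨⟨d.1, S.2 d.2⟩, d.2⟩, fun _ => rfl, fun _ => rfl⟩
    omega
  have hinj : Nat.card ((Σ S : X, {g : ((S : Sylow p G) : Subgroup G) // (g : G) ∉ D}) ⊕ D) ≤
      Nat.card {g : G // ∃ k : ℕ, orderOf g = p ^ k} := by
    apply Nat.card_le_card_of_injective (fun z : (Σ S : X, {g : ((S : Sylow p G) : Subgroup G) // (g : G) ∉ D}) ⊕ D =>
      (Sum.elim (fun z : (Σ S : X, {g : ((S : Sylow p G) : Subgroup G) // (g : G) ∉ D}) =>
          (⟨((z.2.1 : ((z.1 : Sylow p G) : Subgroup G)) : G), hpel z.1.1 _ z.2.1.2⟩ : {g : G // ∃ k : ℕ, orderOf g = p ^ k}))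
        (fun d : D => (⟨(d : G), hpel R _ (hDR.le d.2)⟩ : {g : G // ∃ k : ℕ, orderOf g = p ^ k})) z))
    intro z w hzw
    rcases z with ⟨S, g, hg⟩ | d <;> rcases w with ⟨S', g', hg'⟩ | d'
    · have he : (g : G) = g' := congrArg Subtype.val hzw
      have hSS : S = S' := by
        by_contra hne
        have hne' : (S : Sylow p G) ≠ S' := fun h => hne (Subtype.ext h)
        have := hpair S S' S.2 S'.2 hne'
        apply hg
        have hm : (g : G) ∈ ((S : Sylow p G) : Subgroup G) ⊓ ((S' : Sylow p G) : Subgroup G) :=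
          Subgroup.mem_inf.mpr ⟨g.2, he ▸ g'.2⟩
        exact (le_of_eq this) hm
      subst hSS
      have : g = g' := Subtype.ext he
      subst this
      rfl
    · exfalso
      have he : (g : G) = d' := congrArg Subtype.val hzw
      exact hg (he ▸ d'.2)
    · exfalso
      have he : (d : G) = g' := congrArg Subtype.val hzw
      exact hg' (he ▸ d.2)
    · have he : ((d : D) : G) = ((d' : D) : G) := congrArg (fun z : {g : G // ∃ k : ℕ, orderOf g = p ^ k} => (z : G)) hzw
      exact congrArg Sum.inr (Subtype.ext he)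
  refine le_trans ?_ hinj
  haveI : Fintype X := Fintype.ofFinite _
  rw [Nat.card_sum, Nat.card_sigma]
  have hDle : p * Nat.card D ≤ Nat.card (P : Subgroup G) := by
    rw [← hcardS R]
    have h1 := Subgroup.card_dvd_of_le hDR.le
    obtain ⟨k, hk⟩ := IsPGroup.iff_card.mp (R.2.to_le hDR.le)
    obtain ⟨m, hm⟩ := IsPGroup.iff_card.mp R.2
    have hlt : Nat.card D < Nat.card (R : Subgroup G) := by
      by_contra hge
      push Not at hge
      exact absurd (Subgroup.eq_of_le_of_card_ge hDR.le hge) hDR.ne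
    rw [hk, hm] at *
    have hkm : k < m := (Nat.pow_lt_pow_iff_right hpp.one_lt).mp hlt
    calc p * p ^ k = p ^ (k + 1) := by rw [pow_succ]; ring
      _ ≤ p ^ m := Nat.pow_le_pow_right hpp.pos hkm
  have hsum : ∀ S : X, Nat.card {g : ((S : Sylow p G) : Subgroup G) // (g : G) ∉ D} = Nat.card (P : Subgroup G) - Nat.card D := by
    intro S
    have := hD1 S
    omega
  rw [Finset.sum_congr rfl (fun S _ => hsum S), Finset.sum_const, smul_eq_mul, Finset.card_univ, ← Nat.card_eq_fintype_card]
  have hXR := hD1 ⟨R, hDR.le⟩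
  have hpos : 0 < Nat.card D := Nat.card_pos
  have h5 : (p + 1) * (Nat.card (P : Subgroup G) - Nat.card D) ≤ Nat.card X * (Nat.card (P : Subgroup G) - Nat.card D) :=
    Nat.mul_le_mul_right _ hcount
  refine le_trans ?_ (Nat.add_le_add_right h5 _)
  obtain ⟨e, he⟩ : ∃ e, Nat.card (P : Subgroup G) = Nat.card D + e := ⟨_, (by omega : _ = Nat.card D + (Nat.card (P : Subgroup G) - Nat.card D))⟩
  rw [he] at hDle ⊢
  rw [Nat.add_sub_cancel_left]
  nlinarith

end Cfsg.Agent.S4092
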