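import Cfsg.Statements.S4093
import Mathlib

set_option autoImplicit false
open scoped BigOperators
open Cfsg

namespace Cfsg.Agent.S4093

/-- Let G be a finite group with a normal subgroup N complementing a Sylow p-subgroup P (a normal p-complement). Then the number of elements of G of p-power order equals the sum over x ∈ P of the index of C_N(x) in N. -/
theorem result {G : Type*} [Group G] [Finite G] (p : ℕ) [Fact p.Prime]
    (P : Sylow p G) (N : Subgroup G) [N.Normal] (hNP : N.IsComplement' (P : Subgroup G)) :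
    Nat.card {g : G // ∃ k : ℕ, orderOf g = p ^ k} =
      ∑ᶠ x : (P : Subgroup G), Nat.card N / Nat.card ↥(N ⊓ Subgroup.centralizer ({(x : G)} : Set G)) := by
  classical
  have hpp : p.Prime := Fact.out
  haveI : Fintype (P : Subgroup G) := Fintype.ofFinite _
  rw [finsum_eq_sum_of_fintype]
  letI act : MulAction N G := MulAction.compHom G ((MulAut.conj : G →* MulAut G).comp N.subtype)
  have hsmul : ∀ (n : N) (g : G), n • g = (n : G) * g * (n : G)⁻¹ := fun n g => rfl
  have horb : ∀ x : G, Nat.card N / Nat.card ↥(N ⊓ Subgroup.centralizer ({x} : Set G)) = Nat.card (MulAction.orbit N x) := by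
    intro x
    haveI : Fintype N := Fintype.ofFinite _
    haveI : Fintype (MulAction.orbit N x) := Fintype.ofFinite _
    haveI : Fintype (MulAction.stabilizer N x) := Fintype.ofFinite _
    have h1 := MulAction.card_orbit_mul_card_stabilizer_eq_card_group N x
    have h2 : Nat.card (MulAction.stabilizer N x) = Nat.card ↥(N ⊓ Subgroup.centralizer ({x} : Set G)) := by
      apply Nat.card_congr
      refine ⟨fun n => ⟨n.1.1, ?_⟩, fun n => ⟨⟨n.1, (Subgroup.mem_inf.mp n.2).1⟩, ?_⟩, fun _ => rfl, fun _ => rfl⟩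
      · refine Subgroup.mem_inf.mpr ⟨n.1.2, ?_⟩
        rw [Subgroup.mem_centralizer_singleton_iff]
        have := n.2
        rw [MulAction.mem_stabilizer_iff, hsmul] at this
        rw [mul_inv_eq_iff_eq_mul] at this
        exact this
      · rw [MulAction.mem_stabilizer_iff, hsmul]
        have := (Subgroup.mem_inf.mp n.2).2
        rw [Subgroup.mem_centralizer_singleton_iff] at this
        rw [mul_inv_eq_iff_eq_mul]
        exact this
    rw [← Nat.card_eq_fintype_card, ← Nat.card_eq_fintype_card, ← Nat.card_eq_fintype_card] at h1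
    rw [← h2, ← h1]
    exact Nat.mul_div_cancel _ Nat.card_pos
  rw [Finset.sum_congr rfl (fun (x : (P : Subgroup G)) _ => horb (x : G)), ← Nat.card_sigma]
  symm
  have hpel : ∀ g ∈ (P : Subgroup G), ∃ k : ℕ, orderOf g = p ^ k := by
    intro g hg
    obtain ⟨k, hk⟩ := (IsPGroup.iff_orderOf.mp P.2) ⟨g, hg⟩
    exact ⟨k, by rw [← hk, Subgroup.orderOf_mk]⟩
  have hpel2 : ∀ x : (P : Subgroup G), ∀ o : MulAction.orbit N (x : G), ∃ k : ℕ, orderOf (o : G) = p ^ k := by
    rintro x ⟨o, n, rfl⟩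
    obtain ⟨k, hk⟩ := hpel x x.2
    refine ⟨k, ?_⟩
    show orderOf ((n : G) * (x : G) * (n : G)⁻¹) = p ^ k
    rw [← hk]
    exact (MulEquiv.orderOf_eq (MulAut.conj (n : G)) (x : G))
  have hdisj : ∀ x ∈ (P : Subgroup G), x ∈ N → x = 1 := by
    intro x hx hxN
    have := hNP.disjoint
    rw [Subgroup.disjoint_def] at this
    exact this hxN hx
  apply Nat.card_eq_of_bijective (fun z : (Σ x : (P : Subgroup G), MulAction.orbit N (x : G)) =>
    (⟨(z.2 : G), hpel2 z.1 z.2⟩ : {g : G // ∃ k : ℕ, orderOf g = p ^ k}))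
  constructor
  · rintro ⟨x, o, n, rfl⟩ ⟨x', o', n', rfl⟩ h
    have he : (n : G) * (x : G) * (n : G)⁻¹ = (n' : G) * (x' : G) * (n' : G)⁻¹ := congrArg Subtype.val h
    have hq : (QuotientGroup.mk (x : G) : G ⧸ N) = QuotientGroup.mk (x' : G) := by
      have e1 : ∀ (n : N) (x : G), (QuotientGroup.mk ((n : G) * x * (n : G)⁻¹) : G ⧸ N) = QuotientGroup.mk x := by
        intro n x
        have hn : (QuotientGroup.mk (n : G) : G ⧸ N) = 1 := (QuotientGroup.eq_one_iff _).mpr n.2
        rw [QuotientGroup.mk_mul, QuotientGroup.mk_mul, QuotientGroup.mk_inv, hn, one_mul, inv_one, mul_one]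
      rw [← e1 n x, he, e1]
    have hxx : x = x' := by
      rw [QuotientGroup.eq] at hq
      have := hdisj _ (mul_mem (inv_mem x.2) x'.2) hq
      apply Subtype.ext
      exact (inv_mul_eq_one.mp this)
    subst hxx
    have hgo : (⟨(fun m => m • (x : G)) n, ⟨n, rfl⟩⟩ : MulAction.orbit N (x : G)) = ⟨(fun m => m • (x : G)) n', ⟨n', rfl⟩⟩ :=
      Subtype.ext he
    rw [hgo]
  · rintro ⟨g, k, hk⟩
    have hz : IsPGroup p (Subgroup.zpowers g) := IsPGroup.of_card (n := k) (by rw [Nat.card_zpowers, hk])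
    obtain ⟨S, hS⟩ := hz.exists_le_sylow
    obtain ⟨h, hh⟩ := MulAction.exists_smul_eq G P S
    have hgS : g ∈ (S : Subgroup G) := hS (Subgroup.mem_zpowers g)
    rw [← hh, Sylow.smul_def] at hgS
    obtain ⟨m, hm, hmg⟩ := hgS
    have hmg' : h * m * h⁻¹ = g := hmg
    obtain ⟨⟨n, v⟩, hnv⟩ := (hNP.2 h)
    have hnv' : (n : G) * (v : G) = h := hnv
    refine ⟨⟨⟨(v : G) * m * (v : G)⁻¹, mul_mem (mul_mem v.2 hm) (inv_mem v.2)⟩, ⟨g, n, ?_⟩⟩, rfl⟩
    show (n : G) * ((v : G) * m * (v : G)⁻¹) * (n : G)⁻¹ = g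
    rw [← hmg', ← hnv']
    group

end Cfsg.Agent.S4093
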