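import Cfsg.Statements.S4097
import Mathlib
import Cfsg.Agent.LibFrob6c
import Cfsg.Agent.LibCoprime
import Cfsg.Agent.LibComp2

set_option autoImplicit false
open Cfsg

namespace Cfsg.Agent.S4097

open scoped Pointwise

theorem solvable_comap {G : Type*} [Group G] {N : Subgroup G} [N.Normal] (hN : Group.IsSolvable N)
    {S : Subgroup (G ⧸ N)} (hS : Group.IsSolvable S) :
    Group.IsSolvable (S.comap (QuotientGroup.mk' N)) := by
  have hle : N ≤ S.comap (QuotientGroup.mk' N) := by
    intro x hx
    rw [Subgroup.mem_comap, QuotientGroup.mk'_apply, (QuotientGroup.eq_one_iff x).mpr hx]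
    exact one_mem _
  let f : N →* S.comap (QuotientGroup.mk' N) := Subgroup.inclusion hle
  let g : S.comap (QuotientGroup.mk' N) →* S :=
    ((QuotientGroup.mk' N).comp (Subgroup.subtype _)).codRestrict S (fun x => x.2)
  have := hN
  have := hS
  apply Group.isSolvable_of_ker_le_range f g
  intro x hx
  rw [MonoidHom.mem_ker] at hx
  have h1 : ((x : G) : G ⧸ N) = 1 := congrArg Subtype.val hx
  exact ⟨⟨x, (QuotientGroup.eq_one_iff _).mp h1⟩, rfl⟩

theorem main : ∀ (n : ℕ) (G : Type*) [Group G] [Finite G] (A : Subgroup G), Nat.card G = n → Group.IsSolvable A →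
    (∀ S : Subgroup G, A ≤ S → Group.IsSolvable S → ∀ a ∈ A, ∀ s ∈ S, a * s = s * a) →
    ∀ a ∈ A, ∀ g : G, a * g = g * a := by
  intro n
  induction n using Nat.strong_induction_on with
  | _ n ih =>
  intro G _ _ A hn hA hc
  by_contra hno
  -- proper subgroups containing A centralize A
  have hprop : ∀ M : Subgroup G, A ≤ M → M ≠ ⊤ → M ≤ Subgroup.centralizer (A : Set G) := by
    intro M hAM hM m hm
    have hlt : Nat.card M < n := by
      rw [← hn]
      exact lt_of_le_of_ne (Subgroup.card_le_card_group M) (fun h => hM (Subgroup.eq_top_of_card_eq _ h))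
    have h1 := ih _ hlt M (A.subgroupOf M) rfl
      (by
        have := hA
        exact Group.isSolvable_of_isSolvable_injective (f := (Subgroup.subgroupOfEquivOfLe hAM).toMonoidHom)
          (Subgroup.subgroupOfEquivOfLe hAM).injective)
      (by
        intro S hAS hS a ha s hs
        have h2 := hc (S.map M.subtype) (by
            intro x hx
            exact ⟨⟨x, hAM hx⟩, hAS (by rw [Subgroup.mem_subgroupOf]; exact hx), rfl⟩)
          (by
            have := hS
            exact Group.isSolvable_of_surjective (f := M.subtype.subgroupMap S) (M.subtype.subgroupMap_surjective S))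
          a (by rw [Subgroup.mem_subgroupOf] at ha; exact ha) s ⟨s, hs, rfl⟩
        exact Subtype.ext h2)
    rw [Subgroup.mem_centralizer_iff]
    intro a ha
    have h3 := h1 ⟨a, hAM ha⟩ (by rw [Subgroup.mem_subgroupOf]; exact ha) ⟨m, hm⟩
    exact congrArg Subtype.val h3
  -- no solvable normal subgroups
  have hsn : ∀ N : Subgroup G, N.Normal → Group.IsSolvable N → N = ⊥ := by
    intro N hN hNs
    by_contra hN1
    apply hno
    have hlt : Nat.card (G ⧸ N) < n := by
      have h1 := Subgroup.card_mul_index N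
      rw [hn] at h1
      have h2 : 1 < Nat.card N := by rwa [Subgroup.one_lt_card_iff_ne_bot]
      have h3 : 0 < N.index := Nat.pos_of_ne_zero Subgroup.index_ne_zero_of_finite
      show N.index < n
      nlinarith
    have h1 := ih _ hlt (G ⧸ N) (A.map (QuotientGroup.mk' N)) rfl
      (by
        have := hA
        exact Group.isSolvable_of_surjective (f := (QuotientGroup.mk' N).subgroupMap A)
          ((QuotientGroup.mk' N).subgroupMap_surjective A))
      (by
        intro S hAS hS a ha s hs
        obtain ⟨a, ha, rfl⟩ := ha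
        obtain ⟨s, rfl⟩ := QuotientGroup.mk'_surjective N s
        have h2 := hc (S.comap (QuotientGroup.mk' N)) (by
          intro x hx
          rw [Subgroup.mem_comap]
          exact hAS ⟨x, hx, rfl⟩) (solvable_comap hNs hS) a ha s hs
        rw [← map_mul, ← map_mul, h2])
    have hAN : (A ⊔ N).Normal := by
      refine ⟨fun x hx g => ?_⟩
      obtain ⟨a, ha, y, hy, rfl⟩ := Subgroup.mem_sup_of_normal_right.mp hx
      have h2 := h1 a ⟨a, ha, rfl⟩ (g : G ⧸ N)
      have h3 : ((a * g : G) : G ⧸ N) = ((g * a : G) : G ⧸ N) := h2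
      rw [QuotientGroup.eq] at h3
      have h4 : g * (a * y) * g⁻¹ = a * ((a⁻¹ * g * a * g⁻¹) * (g * y * g⁻¹)) := by group
      rw [h4]
      apply Subgroup.mul_mem_sup ha
      apply N.mul_mem _ (hN.conj_mem y hy g)
      have h5 := hN.conj_mem _ h3 g
      have h6 : a⁻¹ * g * a * g⁻¹ = g * ((a * g)⁻¹ * (g * a)) * g⁻¹ → True := fun _ => trivial
      have h7 := hN.conj_mem _ (N.inv_mem h3) (a⁻¹ * g * a * g⁻¹)
      have h8 : (a * g)⁻¹ * (g * a) = g⁻¹ * (a⁻¹ * g * a * g⁻¹) * g := by group
      rw [h8] at h5
      have h9 : g * (g⁻¹ * (a⁻¹ * g * a * g⁻¹) * g) * g⁻¹ = a⁻¹ * g * a * g⁻¹ := by group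
      rw [h9] at h5
      exact h5
    have hANs : Group.IsSolvable (A ⊔ N : Subgroup G) :=
      CfsgLib.Comp2.solvable_sup hA hNs (by rw [Subgroup.normalizer_eq_top]; exact le_top)
    intro a ha g
    have hgs : Group.IsSolvable (Subgroup.zpowers g) := by infer_instance
    have hS : Group.IsSolvable (Subgroup.zpowers g ⊔ (A ⊔ N) : Subgroup G) :=
      CfsgLib.Comp2.solvable_sup hgs hANs (by rw [Subgroup.normalizer_eq_top]; exact le_top)
    exact hc _ (le_sup_left.trans le_sup_right) hS a ha g (Subgroup.mem_sup_left (Subgroup.mem_zpowers g))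
  have hA1 : A ≠ ⊥ := by
    rintro rfl
    apply hno
    intro a ha g
    rw [Subgroup.mem_bot] at ha
    rw [ha, one_mul, mul_one]
  have hAc : ∀ a ∈ A, ∀ b ∈ A, a * b = b * a := hc A le_rfl hA
  set C : Subgroup G := Subgroup.centralizer (A : Set G) with hC
  have hAC : A ≤ C := by
    intro a ha
    rw [hC, Subgroup.mem_centralizer_iff]
    intro b hb
    exact hAc b hb a ha
  have hC1 : C ≠ ⊤ := by
    intro h
    apply hno
    intro a ha g
    have : g ∈ C := by rw [h]; trivial
    rw [hC, Subgroup.mem_centralizer_iff] at this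
    exact this a ha
  have hZ : ∀ x : G, (∀ g : G, x * g = g * x) → x = 1 := by
    intro x hx
    have h1 := hsn (Subgroup.center G) inferInstance (Group.isSolvable_of_comm (fun a b => Subtype.ext (Subgroup.mem_center_iff.mp b.2 a)))
    have h2 : x ∈ Subgroup.center G := by
      rw [Subgroup.mem_center_iff]
      intro g; exact (hx g).symm
    rwa [h1, Subgroup.mem_bot] at h2
  -- C is malnormal
  have hCm : CfsgLib.Frob6.Mal C := by
    intro g x hx hxg hx1
    -- centralizer of x is proper, contained in C
    have hcx : Subgroup.centralizer ({x} : Set G) ≠ ⊤ := by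
      intro h
      apply hx1
      apply hZ
      intro y
      have : y ∈ Subgroup.centralizer ({x} : Set G) := by rw [h]; trivial
      rw [Subgroup.mem_centralizer_singleton_iff] at this
      exact this.symm
    have h1 : A ≤ Subgroup.centralizer ({x} : Set G) := by
      intro a ha
      rw [Subgroup.mem_centralizer_singleton_iff]
      rw [hC, Subgroup.mem_centralizer_iff] at hx
      exact hx a ha
    have h2 := hprop _ h1 hcx
    -- conjugate of A by g centralizes x
    have h3 : ∀ a ∈ A, g * a * g⁻¹ ∈ C := by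
      intro a ha
      apply h2
      rw [Subgroup.mem_centralizer_singleton_iff]
      rw [hC, Subgroup.mem_centralizer_iff] at hxg
      have h4 := hxg a ha
      calc g * a * g⁻¹ * x = g * (a * (g⁻¹ * x * g)) * g⁻¹ := by group
        _ = g * ((g⁻¹ * x * g) * a) * g⁻¹ := by rw [h4]
        _ = x * (g * a * g⁻¹) := by group
    -- conj g⁻¹ C contains A
    have h4 : A ≤ MulAut.conj g⁻¹ • C := by
      intro a ha
      rw [CfsgLib.Frob6.mem_conj, inv_inv]
      exact h3 a ha
    have h5 : MulAut.conj g⁻¹ • C ≠ ⊤ := by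
      intro h
      apply hC1
      apply Subgroup.eq_top_of_card_eq
      rw [Nat.card_congr (Subgroup.equivSMul (MulAut.conj g⁻¹) C).toEquiv, h, Subgroup.card_top]
    have h6 := hprop _ h4 h5
    have h7 : MulAut.conj g⁻¹ • C = C := by
      apply Subgroup.eq_of_le_of_card_ge h6
      rw [← Nat.card_congr (Subgroup.equivSMul (MulAut.conj g⁻¹) C).toEquiv]
    have h8 : g ∈ Subgroup.normalizer (C : Set G) := by
      have := CfsgLib.Coprime.mem_normalizer_of_conj_smul_eq h7
      simpa using (Subgroup.normalizer (C : Set G)).inv_mem this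
    by_cases hnt : Subgroup.normalizer (C : Set G) = ⊤
    · exfalso
      have hCn : C.Normal := Subgroup.normalizer_eq_top_iff.mp hnt
      have hZn : ((Subgroup.center C).map C.subtype).Normal := inferInstance
      have hZs0 : Group.IsSolvable (Subgroup.center C) := Group.isSolvable_of_comm (fun a b => Subtype.ext (Subgroup.mem_center_iff.mp b.2 a))
      have hZs : Group.IsSolvable ((Subgroup.center C).map C.subtype : Subgroup G) :=
        Group.isSolvable_of_surjective (f := C.subtype.subgroupMap (Subgroup.center C))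
          (C.subtype.subgroupMap_surjective _)
      have h9 := hsn _ hZn hZs
      apply hA1
      rw [eq_bot_iff, ← h9]
      intro a ha
      refine ⟨⟨a, hAC ha⟩, ?_, rfl⟩
      show (⟨a, hAC ha⟩ : C) ∈ Subgroup.center C
      rw [Subgroup.mem_center_iff]
      rintro ⟨c, hcC⟩
      rw [hC, Subgroup.mem_centralizer_iff] at hcC
      exact Subtype.ext (hcC a ha).symm
    · exact hprop _ (hAC.trans Subgroup.le_normalizer) hnt h8
  have hCb : C ≠ ⊥ := fun h => hA1 (by rw [eq_bot_iff, ← h]; exact hAC)
  obtain ⟨K, hK, hKn, hKc⟩ := CfsgLib.Frob6.frobenius_kernel C (CfsgLib.Frob6.mal_iff.mp hCm)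
  have hKC : K ⊓ C = ⊥ := disjoint_iff.mp hKc.disjoint
  have hK1 : Nat.card K ≠ 1 := by
    intro h
    apply hC1
    have h1 := hKc.card_mul_card
    rw [h, one_mul] at h1
    exact Subgroup.eq_top_of_card_eq _ h1
  have hco : (Nat.card C).Coprime (Nat.card K) := by
    have h1 := CfsgLib.Frob6.index_coprime C (CfsgLib.Frob6.mal_iff.mp hCm)
    rwa [hKc.index_eq_card] at h1
  have hcoA : (Nat.card A).Coprime (Nat.card K) := hco.coprime_dvd_left (Subgroup.card_dvd_of_le hAC)
  obtain ⟨p, hp, hpd⟩ := Nat.exists_prime_and_dvd hK1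
  have := Fact.mk hp
  obtain ⟨P, hP⟩ := CfsgLib.Coprime.exists_invariant_sylow (A := A) (K := K)
    (by rw [Subgroup.normalizer_eq_top]; exact le_top) hcoA (Or.inl hA) p
  have hPs : Group.IsSolvable ((P : Subgroup K).map K.subtype : Subgroup G) := by
    have h1 : IsPGroup p ((P : Subgroup K).map K.subtype : Subgroup G) := P.isPGroup'.map _
    have : Group.IsNilpotent ((P : Subgroup K).map K.subtype : Subgroup G) := h1.isNilpotent
    infer_instance
  have hAP := CfsgLib.Comp2.solvable_sup hA hPs hP
  have hP1 := Sylow.ne_bot_of_dvd_card P hpd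
  obtain ⟨x, hx, hx1⟩ := (Subgroup.bot_or_exists_ne_one (P : Subgroup K)).resolve_left hP1
  obtain ⟨a, ha, ha1⟩ := (Subgroup.bot_or_exists_ne_one A).resolve_left hA1
  have h1 := hc _ le_sup_left hAP a ha x (Subgroup.mem_sup_right ⟨x, hx, rfl⟩)
  exact hx1 (Subtype.ext (CfsgLib.Frob6.fpf_on_kernel hCm hKC (hAC ha) ha1 x.2 h1))


/-- Let A be a solvable subgroup of a finite group G such that A lies in the centre of every solvable subgroup of G containing A. Then A lies in the centre of G. -/
theorem result {G : Type*} [Group G] [Finite G]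
    (A : Subgroup G) (hA : Group.IsSolvable A)
    (hc : ∀ S : Subgroup G, A ≤ S → Group.IsSolvable S → ∀ a ∈ A, ∀ s ∈ S, a * s = s * a) : A ≤ Subgroup.center G := by
  intro a ha
  rw [Subgroup.mem_center_iff]
  intro g
  exact (main _ G A rfl hA hc a ha g).symm

end Cfsg.Agent.S4097
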