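import Cfsg.Statements.S4106
import Mathlib
import Cfsg.Agent.LibH6PiCount2

set_option autoImplicit false
open Cfsg

namespace Cfsg.Agent.S4106

open CfsgLib.H6


/-- Let G be a finite group, π a set of primes and m the π-part of the order of G. Then the number of conjugacy classes of G consisting of π-elements (elements whose order is divisible only by primes in π) is at most m. -/
theorem result {G : Type*} [Group G] [Finite G]
    (π : Set ℕ) (hπ : ∀ q ∈ π, q.Prime)
    (m : ℕ) (hm : m ∣ Nat.card G) (hmπ : ∀ q : ℕ, q.Prime → q ∣ m → q ∈ π)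
    (hm' : ∀ q ∈ π, ¬ q ∣ Nat.card G / m) :
    Nat.card {C : ConjClasses G // ∀ q : ℕ, q.Prime → (∃ g : G, ConjClasses.mk g = C ∧ q ∣ orderOf g) → q ∈ π} ≤ m := by
  classical
  set S := (Nat.card G).primeFactors.filter (· ∈ π) with hSdef
  have hG0 : Nat.card G ≠ 0 := Nat.card_pos.ne'
  have hm0 : m ≠ 0 := by rintro rfl; exact hG0 (Nat.eq_zero_of_zero_dvd hm)
  obtain ⟨k, hk⟩ := hm
  have hk0 : k ≠ 0 := by rintro rfl; rw [mul_zero] at hk; exact hG0 hk
  have hdiv : Nat.card G / m = k := by rw [hk]; exact Nat.mul_div_cancel_left k (Nat.pos_of_ne_zero hm0)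
  rw [hdiv] at hm'
  have hSprime : ∀ p ∈ S, p.Prime := fun p hp => Nat.prime_of_mem_primeFactors (Finset.mem_filter.mp hp).1
  have h1 := card_piClass_finset_le S hSprime G
  have h2 : Nat.card (PiClass π G) ≤ Nat.card (PiClass (S : Set ℕ) G) := by
    apply Nat.card_le_card_of_injective (fun C : PiClass π G => (⟨C.1, by
      intro q hq hd
      have h3 := C.2 q hq hd
      obtain ⟨g, hg, hd'⟩ := hd
      rw [Finset.mem_coe, Finset.mem_filter, Nat.mem_primeFactors]
      exact ⟨⟨hq, hd'.trans (orderOf_dvd_natCard g), hG0⟩, h3⟩⟩ : PiClass (S : Set ℕ) G))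
    intro a b hab
    exact Subtype.ext (congrArg (fun z : PiClass (S : Set ℕ) G => z.1) hab)
  have h3 : ∏ p ∈ S, p ^ (Nat.card G).factorization p = m := by
    have hSm : S = m.primeFactors := by
      ext p
      rw [Finset.mem_filter, Nat.mem_primeFactors, Nat.mem_primeFactors]
      constructor
      · rintro ⟨⟨hp, hpG, -⟩, hpπ⟩
        refine ⟨hp, ?_, hm0⟩
        rw [hk] at hpG
        rcases (Nat.Prime.dvd_mul hp).mp hpG with h | h
        · exact h
        · exact absurd h (hm' p hpπ)
      · rintro ⟨hp, hpm, -⟩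
        exact ⟨⟨hp, by rw [hk]; exact hpm.mul_right k, hG0⟩, hmπ p hp hpm⟩
    have h4 : ∀ p ∈ S, p ^ (Nat.card G).factorization p = p ^ m.factorization p := by
      intro p hp
      have hpπ := (Finset.mem_filter.mp hp).2
      rw [hk, Nat.factorization_mul hm0 hk0]
      simp [Nat.factorization_eq_zero_of_not_dvd (hm' p hpπ)]
    rw [Finset.prod_congr rfl h4, hSm]
    exact Nat.factorization_prod_pow_eq_self hm0
  rw [h3] at h1
  exact h2.trans h1

end Cfsg.Agent.S4106
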