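import Cfsg.Statements.S4107
import Mathlib
import Cfsg.Agent.LibH6EqOrd

set_option autoImplicit false
open Cfsg

namespace Cfsg.Agent.S4107

/-- Let G be a finite group and N a proper non-trivial normal subgroup such that for every x outside N all elements of the coset xN have the same order as x. Then N ≤ F(G) or F(G) ≤ N, where F(G) is the Fitting subgroup; and if N is properly contained in F(G) then F(G) has prime-power order. -/
theorem result {G : Type*} [Group G] [Finite G] (N : Subgroup G) [N.Normal] (hN1 : N ≠ ⊥) (hN2 : N ≠ ⊤)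
    (heq : ∀ x : G, x ∉ N → ∀ n ∈ N, orderOf (x * n) = orderOf x) :
    (N ≤ Cfsg.fittingSubgroup G ∨ Cfsg.fittingSubgroup G ≤ N) ∧
    (N < Cfsg.fittingSubgroup G → IsPrimePow (Nat.card (Cfsg.fittingSubgroup G))) := by
  classical
  rcases CfsgLib.H6.eqord_fitting N hN1 heq with h | ⟨p, hp, hNp, hle, hFp⟩
  · exact ⟨Or.inr h, fun hlt => absurd (lt_of_lt_of_le hlt h) (lt_irrefl _)⟩
  · refine ⟨Or.inl hle, fun _ => ?_⟩
    haveI : Fact p.Prime := ⟨hp⟩
    obtain ⟨k, hk⟩ := IsPGroup.iff_card.mp hFp
    rw [hk]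
    refine hp.isPrimePow.pow ?_
    rintro rfl
    rw [pow_zero, Subgroup.card_eq_one] at hk
    apply hN1
    rw [eq_bot_iff, ← hk]
    exact hle

end Cfsg.Agent.S4107
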