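import Cfsg.Statements.S4108
import Mathlib
import Cfsg.Agent.LibH6FrobSup

set_option autoImplicit false
open Cfsg

namespace Cfsg.Agent.S4108

/-- Let G be a finite group, p a prime and N a proper non-trivial normal p-subgroup such that for every x outside N all elements of the coset xN have the same order as x. Then every non-trivial subgroup H of G of order prime to p acts fixed-point-freely on N: NH is a Frobenius group with complement H and kernel N. -/
theorem result {G : Type*} [Group G] [Finite G] (N : Subgroup G) [N.Normal] (hN1 : N ≠ ⊥) (hN2 : N ≠ ⊤)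
    (heq : ∀ x : G, x ∉ N → ∀ n ∈ N, orderOf (x * n) = orderOf x)
    (p : ℕ) [Fact p.Prime] (hNp : IsPGroup p N) :
    ∀ H : Subgroup G, H ≠ ⊥ → (Nat.card H).Coprime p →
      Cfsg.IsFrobeniusComplement (H.subgroupOf (N ⊔ H)) ∧ Cfsg.frobeniusKernel (H.subgroupOf (N ⊔ H)) = (N.subgroupOf (N ⊔ H) : Set ↥(N ⊔ H)) := by
  classical
  intro H hH hcop
  have hpp : p.Prime := Fact.out
  have hd : N ⊓ H = ⊥ := by
    rw [← Subgroup.card_eq_one]
    obtain ⟨k, hk⟩ := IsPGroup.iff_card.mp (hNp.to_le (inf_le_left : N ⊓ H ≤ N))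
    have h1 : Nat.card ↥(N ⊓ H) ∣ Nat.card H := Subgroup.card_dvd_of_le inf_le_right
    have h2 : (Nat.card H).Coprime (p ^ k) := Nat.Coprime.pow_right _ hcop
    rw [hk] at h1 ⊢
    exact Nat.dvd_one.mp (h2 ▸ Nat.dvd_gcd h1 (dvd_refl _))
  apply CfsgLib.H6.frob_sup N H (le_top.trans (Subgroup.normalizer_eq_top_iff.mpr inferInstance).ge) hd hN1 hH
  intro h hh hh1 k hk hc
  by_contra hk1
  have hhN : h ∉ N := by
    intro hN
    have : h ∈ N ⊓ H := Subgroup.mem_inf.mpr ⟨hN, hh⟩
    rw [hd, Subgroup.mem_bot] at this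
    exact hh1 this
  have h1 := heq h hhN k hk
  obtain ⟨j, hj⟩ := (IsPGroup.iff_orderOf.mp hNp) ⟨k, hk⟩
  rw [Subgroup.orderOf_mk] at hj
  have h2 : (orderOf h).Coprime (orderOf k) := by
    rw [hj]
    apply Nat.Coprime.pow_right
    apply Nat.Coprime.coprime_dvd_left _ hcop
    rw [← Subgroup.orderOf_mk h hh]
    exact orderOf_dvd_natCard _
  have h3 := (show Commute h k from hc).orderOf_mul_eq_mul_orderOf_of_coprime h2
  rw [h1] at h3
  have h4 : orderOf k = 1 := by
    have hpos := orderOf_pos h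
    have : orderOf h * 1 = orderOf h * orderOf k := by rw [mul_one]; exact h3
    exact (Nat.eq_of_mul_eq_mul_left hpos this).symm
  exact hk1 (orderOf_eq_one_iff.mp h4)

end Cfsg.Agent.S4108
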