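import Cfsg.Statements.S4112
import Mathlib
import Cfsg.Agent.LibH2Misc
import Cfsg.Agent.LibH6Basic
import Cfsg.Agent.LibH6Pi

set_option autoImplicit false
open Cfsg

namespace Cfsg.Agent.S4112

open Subgroup in
theorem exists_supplement {G : Type*} [Group G] [Finite G] (N : Subgroup G) [N.Normal] :
    ∃ H : Subgroup G, H ⊔ N = ⊤ ∧ ∀ p : ℕ, p.Prime → p ∣ Nat.card H → p ∣ N.index := by
  classical
  obtain ⟨H, hH, hmin⟩ : ∃ H : Subgroup G, H ⊔ N = ⊤ ∧ ∀ K : Subgroup G, K ≤ H → K ⊔ N = ⊤ → K = H := by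
    obtain ⟨H, hH, hm⟩ := Set.Finite.exists_minimalFor (fun K : Subgroup G => Nat.card K)
      {K : Subgroup G | K ⊔ N = ⊤} (Set.toFinite _) ⟨⊤, by simp⟩
    refine ⟨H, hH, fun K hK hKN => ?_⟩
    exact Subgroup.eq_of_le_of_card_ge hK (hm hKN (Subgroup.card_le_of_le hK))
  refine ⟨H, hH, ?_⟩
  intro p hp hpH
  by_contra hpN
  haveI := Fact.mk hp
  let L : Subgroup H := N.subgroupOf H
  haveI : L.Normal := inferInstanceAs (N.subgroupOf H).Normal
  have hL : L.index = N.index := by
    have h1 : N.relIndex (H ⊔ N) = N.relIndex H := by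
      rw [Subgroup.relIndex_sup_right]
    rw [hH, Subgroup.relIndex_top_right] at h1
    exact h1.symm
  obtain S : Sylow p H := default
  have hSL : (S : Subgroup H) ≤ L := by
    intro s hs
    rw [← QuotientGroup.eq_one_iff]
    obtain ⟨k, hk⟩ := (IsPGroup.iff_orderOf.mp S.2) ⟨s, hs⟩
    rw [Subgroup.orderOf_mk] at hk
    have h1 : orderOf (QuotientGroup.mk s : H ⧸ L) ∣ p ^ k := by
      rw [← hk]; exact orderOf_map_dvd (QuotientGroup.mk' L) s
    have h2 : orderOf (QuotientGroup.mk s : H ⧸ L) ∣ N.index := by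
      rw [← hL, Subgroup.index]; exact orderOf_dvd_natCard _
    have h3 : (p ^ k).Coprime N.index := Nat.Coprime.pow_left _ ((Nat.Prime.coprime_iff_not_dvd hp).mpr hpN)
    rw [← orderOf_eq_one_iff]
    exact Nat.dvd_one.mp (h3 ▸ Nat.dvd_gcd h1 h2)
  -- transfer
  have htrans : ∀ K : Subgroup H, K ⊔ L = ⊤ → K = ⊤ := by
    intro K hK
    have h1 : K.map H.subtype = H := by
      apply hmin _ (Subgroup.map_subtype_le K)
      have h2 : (K ⊔ L).map H.subtype = H := by
        rw [hK, ← MonoidHom.range_eq_map, Subgroup.range_subtype]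
      rw [Subgroup.map_sup] at h2
      rw [eq_top_iff, ← hH]
      refine sup_le ?_ le_sup_right
      refine le_trans (le_of_eq h2.symm) ?_
      refine sup_le le_sup_left ?_
      refine le_trans ?_ le_sup_right
      rintro _ ⟨x, hx, rfl⟩
      exact hx
    rw [eq_top_iff]
    intro x _
    have : (x : G) ∈ K.map H.subtype := by rw [h1]; exact x.2
    obtain ⟨y, hy, hyx⟩ := this
    have : y = x := Subtype.ext hyx
    exact this ▸ hy
  have hnorm : normalizer ((S : Subgroup H) : Set H) = ⊤ := htrans _ (Sylow.normalizer_sup_eq_top' S hSL)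
  haveI : (S : Subgroup H).Normal := Subgroup.normalizer_eq_top_iff.mp hnorm
  obtain ⟨K, hK⟩ := Subgroup.exists_right_complement'_of_coprime (N := (S : Subgroup H)) S.card_coprime_index
  have hKtop : K = ⊤ := by
    apply htrans
    rw [eq_top_iff, ← hK.sup_eq_top, sup_comm]
    exact sup_le_sup_left hSL K
  have hSbot : (S : Subgroup H) = ⊥ := by
    rw [hKtop] at hK
    exact Subgroup.isComplement'_top_right.mp hK
  have h1 : p ∣ Nat.card (S : Subgroup H) := S.dvd_card_of_dvd_card hpH
  rw [hSbot, Subgroup.card_bot] at h1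
  exact hp.one_lt.ne' (Nat.dvd_one.mp h1)

/-- Let G be a finite group and M ≤ N non-trivial proper normal subgroups such that for every g outside N the conjugacy class of g is a union of cosets of M (equivalently gm is conjugate to g for every m ∈ M). Then (1) and (2) below are equivalent, and they imply (3): (1) every g outside N acts fixed-point-freely on M, that is C_G(x) ≤ N for every x ∈ M, x ≠ 1; (2) the index of N in G is coprime to the order of M; (3) there is a subgroup H of G with HN = G and H ∩ M = 1. -/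
theorem result {G : Type*} [Group G] [Finite G] (N M : Subgroup G) [N.Normal] [M.Normal] (hMN : M ≤ N) (hM1 : M ≠ ⊥) (hN2 : N ≠ ⊤)
    (hcam : ∀ g : G, g ∉ N → ∀ m ∈ M, ∃ x : G, x * g * x⁻¹ = g * m) :
    ((∀ x ∈ M, x ≠ 1 → Subgroup.centralizer ({x} : Set G) ≤ N) ↔ N.index.Coprime (Nat.card M)) ∧
    ((∀ x ∈ M, x ≠ 1 → Subgroup.centralizer ({x} : Set G) ≤ N) → ∃ H : Subgroup G, H ⊔ N = ⊤ ∧ H ⊓ M = ⊥) := by
  classical
  have h12 : (∀ x ∈ M, x ≠ 1 → Subgroup.centralizer ({x} : Set G) ≤ N) → N.index.Coprime (Nat.card M) := by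
    intro h1
    by_contra hnc
    obtain ⟨p, hp, hpN, hpM⟩ := Nat.Prime.not_coprime_iff_dvd.mp hnc
    haveI := Fact.mk hp
    obtain P : Sylow p G := default
    have hPN : ¬ (P : Subgroup G) ≤ N := fun hle => P.not_dvd_index (hpN.trans (Subgroup.index_dvd_of_le hle))
    obtain ⟨Q, hQ⟩ := CfsgLib.H2Misc.exists_sylow_inf_normal P M
    have hne : (P : Subgroup G) ⊓ M ≠ ⊥ := by
      intro hbot
      have h2 : p ∣ Nat.card (Q : Subgroup M) := Q.dvd_card_of_dvd_card hpM
      rw [hQ] at h2
      have h3 : (P : Subgroup G).subgroupOf M = ⊥ := by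
        rw [Subgroup.subgroupOf_eq_bot, disjoint_iff]
        exact hbot
      rw [h3, Subgroup.card_bot] at h2
      exact hp.one_lt.ne' (Nat.dvd_one.mp h2)
    obtain ⟨z, hz, hz1, hzc⟩ := CfsgLib.H6.exists_central_of_pgroup (K := (P : Subgroup G)) (H := (P : Subgroup G) ⊓ M) P.2
      inf_le_left (by
        intro x hx
        rw [Subgroup.mem_normalizer_iff]
        intro y
        constructor
        · intro hy
          rcases Subgroup.mem_inf.mp hy with ⟨hy1, hy2⟩
          exact Subgroup.mem_inf.mpr ⟨mul_mem (mul_mem hx hy1) (inv_mem hx), Subgroup.Normal.conj_mem inferInstance _ hy2 x⟩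
        · intro hy
          rcases Subgroup.mem_inf.mp hy with ⟨hy1, hy2⟩
          have e : y = x⁻¹ * (x * y * x⁻¹) * x⁻¹⁻¹ := by group
          rw [e]
          exact Subgroup.mem_inf.mpr ⟨mul_mem (mul_mem (inv_mem hx) hy1) (inv_mem (inv_mem hx)),
            Subgroup.Normal.conj_mem inferInstance _ hy2 x⁻¹⟩) hne
    apply hPN
    intro k hk
    apply h1 z (Subgroup.mem_inf.mp hz).2 hz1
    rw [Subgroup.mem_centralizer_singleton_iff]
    exact hzc k hk
  refine ⟨⟨h12, ?_⟩, ?_⟩
  · intro hcop x hx hx1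
    by_contra hnle
    obtain ⟨g, hg, hgN⟩ := Set.not_subset.mp hnle
    have hg' : g ∈ Subgroup.centralizer ({x} : Set G) := hg
    rw [Subgroup.mem_centralizer_singleton_iff] at hg'
    -- g^m with m = |M|-part
    obtain ⟨n, hn1, hn2⟩ : ∃ n : ℕ, g ^ n ∉ N ∧ (orderOf (g ^ n)).Coprime (orderOf x) := by
      -- order of g = a * b, a composed of primes dividing |M|, b coprime to |M|
      obtain ⟨a, b, hab, ha, hb⟩ := CfsgLib.H6.exists_pi_factor {q | q ∣ Nat.card M} (orderOf g) (orderOf_pos g)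
      refine ⟨a, ?_, ?_⟩
      · intro hmem
        -- image of g has order dividing a and N.index
        apply hgN
        have h1 : (QuotientGroup.mk g : G ⧸ N) ^ a = 1 := by
          rw [← QuotientGroup.mk_pow, QuotientGroup.eq_one_iff]
          exact hmem
        have h2 : orderOf (QuotientGroup.mk g : G ⧸ N) ∣ a := orderOf_dvd_of_pow_eq_one h1
        have h3 : orderOf (QuotientGroup.mk g : G ⧸ N) ∣ N.index := orderOf_dvd_natCard _
        rw [SetLike.mem_coe, ← QuotientGroup.eq_one_iff, ← orderOf_eq_one_iff]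
        by_contra hne
        obtain ⟨q, hq, hqd⟩ := Nat.exists_prime_and_dvd hne
        have h4 : q ∣ Nat.card M := ha q hq (hqd.trans h2)
        have h5 : q ∣ N.index := hqd.trans h3
        exact hq.one_lt.ne' (Nat.dvd_one.mp (hcop ▸ Nat.dvd_gcd h5 h4))
      · have h1 : orderOf (g ^ a) ∣ b := by
          apply orderOf_dvd_of_pow_eq_one
          rw [← pow_mul, ← hab, pow_orderOf_eq_one]
        apply Nat.Coprime.coprime_dvd_left h1
        rw [Nat.coprime_iff_gcd_eq_one]
        by_contra hne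
        obtain ⟨q, hq, hqd⟩ := Nat.exists_prime_and_dvd hne
        have h2 : q ∣ b := hqd.trans (Nat.gcd_dvd_left _ _)
        have h3 : q ∣ orderOf x := hqd.trans (Nat.gcd_dvd_right _ _)
        have h4 : q ∣ Nat.card M := h3.trans (by
          rw [← Subgroup.orderOf_mk x hx]
          exact orderOf_dvd_natCard _)
        exact hb q hq h2 h4
    obtain ⟨y, hy⟩ := hcam (g ^ n) hn1 x hx
    have hc : Commute (g ^ n) x := (show Commute g x from hg').pow_left n
    have h1 := hc.orderOf_mul_eq_mul_orderOf_of_coprime hn2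
    rw [← hy] at h1
    have h2 : orderOf (y * g ^ n * y⁻¹) = orderOf (g ^ n) := MulEquiv.orderOf_eq (MulAut.conj y) (g ^ n)
    rw [h2] at h1
    have h3 : orderOf x = 1 := by
      have hpos := orderOf_pos (g ^ n)
      have : orderOf (g ^ n) * 1 = orderOf (g ^ n) * orderOf x := by rw [mul_one]; exact h1
      exact (Nat.eq_of_mul_eq_mul_left hpos this).symm
    exact hx1 (orderOf_eq_one_iff.mp h3)
  · intro h1
    have hcop := h12 h1
    obtain ⟨H, hH, hHp⟩ := exists_supplement N
    refine ⟨H, hH, ?_⟩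
    rw [← Subgroup.card_eq_one]
    by_contra hne
    obtain ⟨q, hq, hqd⟩ := Nat.exists_prime_and_dvd hne
    have h2 : q ∣ N.index := hHp q hq (hqd.trans (Subgroup.card_dvd_of_le inf_le_left))
    have h3 : q ∣ Nat.card M := hqd.trans (Subgroup.card_dvd_of_le inf_le_right)
    exact hq.one_lt.ne' (Nat.dvd_one.mp (hcop ▸ Nat.dvd_gcd h2 h3))

end Cfsg.Agent.S4112
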