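import Cfsg.Statements.S4115
import Mathlib
import Cfsg.Agent.LibH6TI
import Cfsg.Agent.LibFrob6d
import Cfsg.Agent.S0039
import Cfsg.Agent.LibCoprime
import Cfsg.Agent.LibSolvCoprime3

set_option autoImplicit false
universe u
open Cfsg

namespace Cfsg.Agent.S4115

open scoped Pointwise
open Subgroup

theorem exists_noncentral {G : Type*} [Group G] [Finite G] {H M : Subgroup G}
    (hTI : Cfsg.IsTISubset (H : Set G)) (hHall : (Nat.card H).Coprime H.index)
    (hM : M.Normal) (hc : IsComplement' M H) (hnn : ¬ H.Normal) :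
    ∃ (p : ℕ) (_ : Fact p.Prime) (R : Subgroup G), R ≤ M ∧ IsPGroup p R ∧ H ≤ normalizer (R : Set G) ∧
      ¬ R ≤ centralizer (H : Set G) := by
  by_contra hno
  push Not at hno
  apply hnn
  have hle : M ≤ centralizer (H : Set G) := by
    have h1 : M ⊓ centralizer (H : Set G) = M := by
      apply eq_of_le_of_card_ge inf_le_left
      apply Nat.le_of_dvd Nat.card_pos
      rw [← Nat.factorization_prime_le_iff_dvd Nat.card_pos.ne' Nat.card_pos.ne']
      intro p hp
      have := Fact.mk hp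
      obtain ⟨P, hP⟩ := CfsgLib.H6.exists_invariant_sylow_TI hTI hHall hM hc p
      have h2 := hno p this _ (map_subtype_le (P : Subgroup M)) (P.isPGroup'.map _) hP
      have h3 : Nat.card P ∣ Nat.card (M ⊓ centralizer (H : Set G) : Subgroup G) := by
        have h4 : Nat.card ((P : Subgroup M).map M.subtype : Subgroup G) = Nat.card P :=
          card_map_of_injective M.subtype_injective
        rw [← h4]
        exact card_dvd_of_le (le_inf (map_subtype_le _) h2)
      rw [P.card_eq_multiplicity] at h3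
      exact (Nat.Prime.pow_dvd_iff_le_factorization hp Nat.card_pos.ne').mp h3
    rw [← h1]; exact inf_le_right
  rw [← normalizer_eq_top_iff, eq_top_iff]
  intro g _
  obtain ⟨⟨m, h⟩, hmh⟩ := hc.2 g
  have hmh' : (m : G) * h = g := hmh
  rw [← hmh']
  apply mul_mem _ (le_normalizer h.2)
  exact (centralizer_le_normalizer _) (hle m.2)

theorem part2 {G : Type u} [Group G] [Finite G] {H M : Subgroup G}
    (hTI : Cfsg.IsTISubset (H : Set G)) (hHall : (Nat.card H).Coprime H.index)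
    (hM : M.Normal) (hc : IsComplement' M H) (hnn : ¬ H.Normal) :
    ∃ (F : Type u) (_ : Group F) (_ : Finite F) (C : Subgroup F), Cfsg.IsFrobeniusComplement C ∧ Nonempty (H ≃* C) := by
  classical
  obtain ⟨p, hp, R, hRM, hRp, hHR, hRC⟩ := exists_noncentral hTI hHall hM hc hnn
  have hMH : M ⊓ H = ⊥ := disjoint_iff.mp hc.disjoint
  have hH1 : H ≠ ⊥ := by
    rintro rfl
    exact hnn inferInstance
  set R₀ : Subgroup G := R ⊓ centralizer (H : Set G) with hR₀
  have hHR₀ : H ≤ normalizer (R₀ : Set G) := by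
    refine le_trans ?_ (centralizer_le_normalizer _)
    intro h hh
    rw [mem_centralizer_iff]
    intro r hr
    have h1 := (mem_inf.mp hr).2
    rw [mem_centralizer_iff] at h1
    exact (h1 h hh).symm
  -- normalizer growth
  obtain ⟨w₀, hw₀R, hw₀n, hw₀⟩ : ∃ w ∈ R, w ∈ normalizer (R₀ : Set G) ∧ w ∉ R₀ := by
    have hRn : Group.IsNilpotent R := hRp.isNilpotent
    have hnc := Group.normalizerCondition_of_isNilpotent (G := R)
    have hlt : R₀.subgroupOf R < ⊤ := by
      rw [lt_top_iff_ne_top]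
      intro h
      rw [subgroupOf_eq_top] at h
      exact hRC (h.trans inf_le_right)
    have h1 := hnc _ hlt
    obtain ⟨x, hx1, hx2⟩ := SetLike.exists_of_lt h1
    refine ⟨x, x.2, ?_, hx2⟩
    rw [mem_normalizer_iff] at hx1 ⊢
    intro y
    constructor
    · intro hy
      have hyR : y ∈ R := (mem_inf.mp hy).1
      exact (hx1 ⟨y, hyR⟩).mp hy
    · intro hy
      have hyR : (x : G) * y * (x : G)⁻¹ ∈ R := (mem_inf.mp hy).1
      have hyR' : y ∈ R := by
        have := R.mul_mem (R.mul_mem (R.inv_mem x.2) hyR) x.2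
        have e : (x : G)⁻¹ * ((x : G) * y * (x : G)⁻¹) * x = y := by group
        rwa [e] at this
      exact (hx1 ⟨y, hyR'⟩).mpr hy
  set W : Subgroup G := R ⊓ normalizer (R₀ : Set G) with hW
  have hw₀W : w₀ ∈ W := mem_inf.mpr ⟨hw₀R, hw₀n⟩
  have hR₀W : R₀ ≤ W := le_inf inf_le_left le_normalizer
  have hHW : H ≤ normalizer (W : Set G) :=
    le_trans (le_inf hHR (hHR₀.trans le_normalizer)) inf_normalizer_le_normalizer_inf
  set L : Subgroup G := W ⊔ H with hL
  have hHL : H ≤ L := le_sup_right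
  have hWL : W ≤ L := le_sup_left
  have hLR₀ : L ≤ normalizer (R₀ : Set G) := sup_le inf_le_right hHR₀
  have hLW : L ≤ normalizer (W : Set G) := sup_le le_normalizer hHW
  have hN₀ : (R₀.subgroupOf L).Normal := (normal_subgroupOf_iff_le_normalizer (hR₀W.trans hWL)).mpr hLR₀
  let f : H →* (L ⧸ R₀.subgroupOf L) := (QuotientGroup.mk' _).comp (inclusion hHL)
  let g : W →* (L ⧸ R₀.subgroupOf L) := (QuotientGroup.mk' _).comp (inclusion hWL)
  have hR₀M : R₀ ≤ M := inf_le_left.trans hRM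
  have hWM : W ≤ M := inf_le_left.trans hRM
  have hfi : Function.Injective f := by
    rw [injective_iff_map_eq_one]
    intro h hh
    have h1 : (h : G) ∈ R₀ := (QuotientGroup.eq_one_iff (N := R₀.subgroupOf L) (inclusion hHL h)).mp hh
    have h2 : (h : G) ∈ M ⊓ H := mem_inf.mpr ⟨hR₀M h1, h.2⟩
    rw [hMH, mem_bot] at h2
    exact Subtype.ext h2
  have hVn : g.range.Normal := by
    refine ⟨?_⟩
    rintro _ ⟨w, rfl⟩ y
    obtain ⟨⟨l, hl⟩, rfl⟩ := QuotientGroup.mk_surjective y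
    exact ⟨⟨l * w * l⁻¹, (mem_normalizer_iff.mp (hLW hl) w).mp w.2⟩, rfl⟩
  have hcompl : IsComplement' g.range f.range := by
    apply isComplement'_of_disjoint_and_mul_eq_univ
    · rw [disjoint_iff, eq_bot_iff]
      intro y hy
      rw [mem_inf] at hy
      obtain ⟨⟨w, rfl⟩, ⟨h, hh⟩⟩ := hy
      have h1 : (⟨w, hWL w.2⟩ : L)⁻¹ * ⟨h, hHL h.2⟩ ∈ R₀.subgroupOf L := by
        rw [← QuotientGroup.eq]
        exact hh.symm
      have h2 : (w : G)⁻¹ * h ∈ R₀ := h1
      have h3 : (h : G) ∈ M ⊓ H := by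
        rw [mem_inf]
        refine ⟨?_, h.2⟩
        have := M.mul_mem (hWM w.2) (hR₀M h2)
        simpa using this
      rw [hMH, mem_bot] at h3
      have h4 : h = 1 := Subtype.ext h3
      rw [mem_bot, ← hh, h4, map_one]
    · rw [Set.eq_univ_iff_forall]
      intro y
      obtain ⟨⟨l, hl⟩, rfl⟩ := QuotientGroup.mk_surjective y
      have hl' := hl
      rw [hL, CfsgLib.SolvCoprime.mem_sup_iff_of_le_normalizer hHW] at hl'
      obtain ⟨w, hw, h, hh, rfl⟩ := hl'
      exact ⟨g ⟨w, hw⟩, ⟨_, rfl⟩, f ⟨h, hh⟩, ⟨_, rfl⟩, rfl⟩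
  have hV1 : g.range ≠ ⊥ := by
    intro h
    have h1 : g ⟨w₀, hw₀W⟩ ∈ g.range := ⟨_, rfl⟩
    rw [h, mem_bot] at h1
    exact hw₀ ((QuotientGroup.eq_one_iff (N := R₀.subgroupOf L) (inclusion hWL ⟨w₀, hw₀W⟩)).mp h1)
  have hC1 : f.range ≠ ⊥ := by
    intro h
    obtain ⟨x, hx, hx1⟩ := (Subgroup.bot_or_exists_ne_one H).resolve_left hH1
    have h1 : f ⟨x, hx⟩ ∈ f.range := ⟨_, rfl⟩
    rw [h, mem_bot] at h1
    have h2 : (⟨x, hx⟩ : H) = 1 := hfi (by rw [h1, map_one])
    exact hx1 (congrArg Subtype.val h2)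
  refine ⟨L ⧸ R₀.subgroupOf L, inferInstance, inferInstance, f.range, ?_, ⟨MonoidHom.ofInjective hfi⟩⟩
  rw [Cfsg.Agent.S0039.result g.range f.range hcompl hV1 hC1]
  rintro _ ⟨h, rfl⟩ hh1
  rw [eq_bot_iff]
  intro v hv
  rw [mem_inf, mem_centralizer_singleton_iff] at hv
  obtain ⟨⟨w, rfl⟩, hcomm⟩ := hv
  have hh1' : (h : G) ≠ 1 := by
    intro h1
    apply hh1
    have : h = 1 := Subtype.ext h1
    rw [this, map_one]
  have hcoM : (Nat.card H).Coprime (Nat.card M) := by rw [← hc.index_eq_card]; exact hHall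
  have hz : zpowers (h : G) ≤ H := by rw [zpowers_le]; exact h.2
  obtain ⟨c, hcW, hcw⟩ := CfsgLib.Coprime.exists_fixed_in_coset (A := zpowers (h : G)) (K := W) (N := R₀)
    (hz.trans hHW) ((hcoM.coprime_dvd_left (card_dvd_of_le hz)).coprime_dvd_right (card_dvd_of_le hWM))
    (Or.inl (Group.isSolvable_of_comm (fun a b => by
      obtain ⟨a, ⟨i, rfl⟩⟩ := a
      obtain ⟨b, ⟨j, rfl⟩⟩ := b
      apply Subtype.ext
      show (h : G) ^ i * (h : G) ^ j = (h : G) ^ j * (h : G) ^ i
      rw [← zpow_add, ← zpow_add, add_comm])))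
    hR₀W (hz.trans hHR₀) w.2 (inf_le_right (a := R) w.2) (by
      rintro _ ⟨i, rfl⟩
      have h1 : Commute (f h) (g w) := hcomm.symm
      have h2 := (h1.zpow_left i).eq
      rw [← map_zpow] at h2
      have h3 : (⟨h ^ i, hHL (H.zpow_mem h.2 i)⟩ * ⟨w, hWL w.2⟩ : L)⁻¹ * (⟨w, hWL w.2⟩ * ⟨h ^ i, hHL (H.zpow_mem h.2 i)⟩ : L) ∈ R₀.subgroupOf L := by
        rw [← QuotientGroup.eq]
        exact h2
      have h4 : ((h : G) ^ i * w)⁻¹ * (w * (h : G) ^ i) ∈ R₀ := h3
      have h5 := (mem_normalizer_iff.mp (hLR₀ (L.mul_mem (hWL w.2) (hHL (H.zpow_mem h.2 i)))) _).mp (R₀.inv_mem h4)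
      have e : (w : G) * (h : G) ^ i * (((h : G) ^ i * w)⁻¹ * (w * (h : G) ^ i))⁻¹ * ((w : G) * (h : G) ^ i)⁻¹ =
          (h : G) ^ i * w * ((h : G) ^ i)⁻¹ * (w : G)⁻¹ := by group
      rw [e] at h5
      exact h5)
  rw [mem_inf, mem_centralizer_iff] at hcW
  have hcR₀ : c ∈ R₀ := by
    rw [hR₀, mem_inf]
    refine ⟨(mem_inf.mp hcW.1).1, ?_⟩
    exact CfsgLib.H6.centralizer_eq_of_TI hTI hM hMH h.2 hh1' (hWM hcW.1) (hcW.2 h (mem_zpowers _)).symm
  have hwR₀ : (w : G) ∈ R₀ := by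
    have h6 := R₀.mul_mem hcR₀ (R₀.inv_mem hcw)
    have e : c * ((w : G)⁻¹ * c)⁻¹ = w := by group
    rwa [e] at h6
  rw [mem_bot]
  exact (QuotientGroup.eq_one_iff (N := R₀.subgroupOf L) (inclusion hWL w)).mpr hwR₀


/-- Let G be a finite group and H a subgroup that meets each of its conjugates by elements outside N_G(H) trivially and whose order is coprime to its index in N_G(H). Then H has a normal complement in N_G(H) if and only if H has a normal complement in G. Moreover, if H is not normal in G and has a normal complement in N_G(H), then H is isomorphic to a Frobenius complement of some finite Frobenius group. -/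
theorem result {G : Type u} [Group G] [Finite G] (H : Subgroup G)
    (hTI : Cfsg.IsTISubset (H : Set G)) (hHall : (Nat.card H).Coprime (H.subgroupOf (Subgroup.normalizer (H : Set G))).index) :
    ((∃ K : Subgroup (Subgroup.normalizer (H : Set G)), K.Normal ∧ K.IsComplement' (H.subgroupOf (Subgroup.normalizer (H : Set G)))) ↔
      (∃ N : Subgroup G, N.Normal ∧ N.IsComplement' H)) ∧
    (¬ H.Normal → (∃ K : Subgroup (Subgroup.normalizer (H : Set G)), K.Normal ∧ K.IsComplement' (H.subgroupOf (Subgroup.normalizer (H : Set G)))) →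
      ∃ (F : Type u) (_ : Group F) (_ : Finite F) (C : Subgroup F), Cfsg.IsFrobeniusComplement C ∧ Nonempty (H ≃* C)) := by
  have hHallG := CfsgLib.H6.hall_of_TI hTI hHall
  refine ⟨⟨?_, ?_⟩, ?_⟩
  · rintro ⟨K, hK, hKc⟩
    exact CfsgLib.H6.ti_normal_complement hTI hHall K hK hKc
  · rintro ⟨M, hM, hMc⟩
    have hHN : H ≤ Subgroup.normalizer (H : Set G) := Subgroup.le_normalizer
    refine ⟨M.subgroupOf _, inferInstance, ?_⟩
    apply isComplement'_of_disjoint_and_mul_eq_univ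
    · rw [disjoint_iff, eq_bot_iff]
      intro x hx
      rw [mem_inf] at hx
      have h1 : (x : G) ∈ M ⊓ H := mem_inf.mpr ⟨hx.1, hx.2⟩
      rw [disjoint_iff.mp hMc.disjoint, mem_bot] at h1
      rw [mem_bot]
      exact Subtype.ext h1
    · rw [Set.eq_univ_iff_forall]
      intro x
      obtain ⟨⟨m, h⟩, hmh⟩ := hMc.2 (x : G)
      have hmh' : (m : G) * h = x := hmh
      have hm : (m : G) ∈ Subgroup.normalizer (H : Set G) := by
        have : (m : G) = x * (h : G)⁻¹ := by rw [← hmh']; group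
        rw [this]
        exact mul_mem x.2 (inv_mem (hHN h.2))
      exact ⟨⟨m, hm⟩, m.2, ⟨h, hHN h.2⟩, h.2, Subtype.ext hmh'⟩
  · rintro hnn ⟨K, hK, hKc⟩
    obtain ⟨M, hM, hMc⟩ := CfsgLib.H6.ti_normal_complement hTI hHall K hK hKc
    exact part2 hTI hHallG hM hMc hnn

end Cfsg.Agent.S4115
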