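import Cfsg.Statements.S4117
import Mathlib
import Cfsg.Agent.LibH6ZGroup

set_option autoImplicit false
open Cfsg

namespace Cfsg.Agent.S4117

open scoped commutatorElement

theorem main {Γ : Type*} [Group Γ] [Finite Γ] {G A : Type*} [Group G] [Finite G] [Group A] [Finite A]
    [MulDistribMulAction A G] (i : G →* Γ) (j : A →* Γ) (hi : Function.Injective i) 
    (hij : ∀ a g, j a * i g * (j a)⁻¹ = i (a • g)) (hcj : (Nat.card j.range).Coprime (Nat.card i.range))
    (hz : IsZGroup G) :
    (Nat.card (MulAction.fixedPoints A G : Set G)).Coprime (Nat.card G / Nat.card (MulAction.fixedPoints A G : Set G)) ∧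
    IsCyclic (Subgroup.closure {y : G | ∃ (a : A) (g : G), y = g⁻¹ * a • g}) ∧
    (Subgroup.closure {y : G | ∃ (a : A) (g : G), y = g⁻¹ * a • g}).Normal ∧
    (Subgroup.closure {y : G | ∃ (a : A) (g : G), y = g⁻¹ * a • g} : Set G) ∩ MulAction.fixedPoints A G = {1} ∧
    Subgroup.closure {y : G | ∃ (a : A) (g : G), y = g⁻¹ * a • g} ⊔ Subgroup.closure (MulAction.fixedPoints A G) = ⊤ := by
  classical
  set H : Subgroup Γ := i.range with hH
  set B : Subgroup Γ := j.range with hB
  have hBH : B ≤ Subgroup.normalizer (H : Set Γ) := by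
    rintro _ ⟨a, rfl⟩
    rw [Subgroup.mem_normalizer_iff]
    intro y
    constructor
    · rintro ⟨g, rfl⟩
      exact ⟨a • g, (hij a g).symm⟩
    · rintro ⟨g, hg⟩
      refine ⟨a⁻¹ • g, ?_⟩
      rw [← hij a⁻¹ g, map_inv, inv_inv, hg]
      group
  have hHz : IsZGroup H := IsZGroup.of_surjective (f := i.rangeRestrict) i.rangeRestrict_surjective
  obtain ⟨h1, h2, h3, h4⟩ := CfsgLib.H6.zgroup_coprime hBH hcj
  set S : Subgroup G := Subgroup.closure {y : G | ∃ (a : A) (g : G), y = g⁻¹ * a • g} with hS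
  have hSR : S.map i = ⁅H, B⁆ := by
    rw [hS, MonoidHom.map_closure, Subgroup.commutator_def]
    congr 1
    ext y
    constructor
    · rintro ⟨_, ⟨a, g, rfl⟩, rfl⟩
      refine ⟨i g⁻¹, ⟨g⁻¹, rfl⟩, j a, ⟨a, rfl⟩, ?_⟩
      rw [commutatorElement_def, map_mul, ← hij, map_inv, inv_inv]
      group
    · rintro ⟨_, ⟨g, rfl⟩, _, ⟨a, rfl⟩, rfl⟩
      refine ⟨g * a • g⁻¹, ⟨a, g⁻¹, by rw [inv_inv]⟩, ?_⟩
      rw [commutatorElement_def, map_mul, ← hij, map_inv]
      group
  let F : Subgroup G := 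
    { carrier := MulAction.fixedPoints A G
      one_mem' := fun a => smul_one a
      mul_mem' := fun {x y} hx hy a => by
        show a • (x * y) = x * y
        rw [smul_mul', hx a, hy a]
      inv_mem' := fun {x} hx a => by
        show a • x⁻¹ = x⁻¹
        rw [smul_inv', hx a] }
  have hFmem : ∀ x, x ∈ F ↔ x ∈ MulAction.fixedPoints A G := fun x => Iff.rfl
  have hFC : F.map i = H ⊓ Subgroup.centralizer (B : Set Γ) := by
    ext y
    rw [Subgroup.mem_inf, Subgroup.mem_centralizer_iff]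
    constructor
    · rintro ⟨x, hx, rfl⟩
      refine ⟨⟨x, rfl⟩, ?_⟩
      rintro _ ⟨a, rfl⟩
      have h5 := hij a x
      rw [hx a] at h5
      exact mul_inv_eq_iff_eq_mul.mp h5
    · rintro ⟨⟨x, rfl⟩, hx⟩
      refine ⟨x, ?_, rfl⟩
      intro a
      apply hi
      rw [← hij a x]
      exact mul_inv_eq_iff_eq_mul.mpr (hx (j a) ⟨a, rfl⟩)
  have hHR : H ≤ Subgroup.normalizer ((⁅H, B⁆ : Subgroup Γ) : Set Γ) := Subgroup.normalizer_commutator_ge_left H B
  have hcardF : Nat.card (MulAction.fixedPoints A G : Set G) = Nat.card (H ⊓ Subgroup.centralizer (B : Set Γ) : Subgroup Γ) := by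
    rw [← hFC, Subgroup.card_map_of_injective hi]
    rfl
  have hcardG : Nat.card (⁅H, B⁆ : Subgroup Γ) * Nat.card (H ⊓ Subgroup.centralizer (B : Set Γ) : Subgroup Γ) = Nat.card G := by
    have h5 := CfsgLib.Coprime.card_sup_mul_card_inf (N := ⁅H, B⁆) (H := H ⊓ Subgroup.centralizer (B : Set Γ))
      (inf_le_left.trans hHR)
    have h6 : (H ⊓ Subgroup.centralizer (B : Set Γ)) ⊓ ⁅H, B⁆ = ⊥ := by
      rw [eq_bot_iff, ← h2]
      exact le_inf inf_le_right (inf_le_left.trans inf_le_right)
    rw [sup_comm, h4, h6, Subgroup.card_bot, mul_one] at h5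
    have h7 : Nat.card H = Nat.card G := (Nat.card_congr (MonoidHom.ofInjective hi).toEquiv).symm
    rw [← h7, h5, mul_comm]
  refine ⟨?_, ?_, ?_, ?_, ?_⟩
  · rw [hcardF, ← hcardG, Nat.mul_div_cancel _ Nat.card_pos]
    exact h3.symm
  · rw [← hSR] at h1
    exact isCyclic_of_injective (i.subgroupMap S) (by
      intro x y hxy
      exact Subtype.ext (hi (congrArg Subtype.val hxy)))
  · refine ⟨fun s hs g => ?_⟩
    have h5 : i s ∈ ⁅H, B⁆ := by rw [← hSR]; exact ⟨s, hs, rfl⟩
    have h6 := (Subgroup.mem_normalizer_iff.mp (hHR ⟨g, rfl⟩) (i s)).mp h5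
    rw [← hSR] at h6
    obtain ⟨t, ht, ht2⟩ := h6
    have : t = g * s * g⁻¹ := by
      apply hi
      rw [ht2]; simp
    rw [← this]; exact ht
  · ext x
    constructor
    · rintro ⟨hx1, hx2⟩
      have h5 : i x ∈ ⁅H, B⁆ ⊓ Subgroup.centralizer (B : Set Γ) := by
        rw [Subgroup.mem_inf]
        constructor
        · rw [← hSR]; exact ⟨x, hx1, rfl⟩
        · have : i x ∈ H ⊓ Subgroup.centralizer (B : Set Γ) := by rw [← hFC]; exact ⟨x, hx2, rfl⟩
          exact (Subgroup.mem_inf.mp this).2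
      rw [h2, Subgroup.mem_bot] at h5
      rw [Set.mem_singleton_iff]
      apply hi
      rw [h5, map_one]
    · intro hx
      rw [Set.mem_singleton_iff] at hx
      rw [hx]
      exact ⟨S.one_mem, F.one_mem⟩
  · rw [eq_top_iff]
    intro g _
    have h5 : i g ∈ ⁅H, B⁆ ⊔ (H ⊓ Subgroup.centralizer (B : Set Γ)) := by rw [h4]; exact ⟨g, rfl⟩
    rw [← hSR, ← hFC, ← Subgroup.map_sup] at h5
    obtain ⟨t, ht, ht2⟩ := h5
    have : t = g := hi ht2
    rw [← this]
    have h6 : F ≤ Subgroup.closure (MulAction.fixedPoints A G) := Subgroup.subset_closure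
    exact (sup_le_sup_left h6 S) ht


/-- Let A be a finite group acting on the finite group G by automorphisms with the orders of A and G coprime, and suppose every Sylow subgroup of G is cyclic. Then the fixed-point subgroup C_G(A) is a Hall subgroup of G (its order is coprime to its index), the subgroup [G, A] generated by the elements g⁻¹·a(g) is cyclic and normal with [G, A] ∩ C_G(A) = 1 and [G, A]·C_G(A) = G. -/
theorem result {G A : Type*} [Group G] [Finite G] [Group A] [Finite A]
    [MulDistribMulAction A G] (hcop : (Nat.card A).Coprime (Nat.card G))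
    (hcyc : ∀ (p : ℕ) [Fact p.Prime] (P : Sylow p G), IsCyclic (P : Subgroup G)) :
    (Nat.card (MulAction.fixedPoints A G : Set G)).Coprime (Nat.card G / Nat.card (MulAction.fixedPoints A G : Set G)) ∧
    IsCyclic (Subgroup.closure {y : G | ∃ (a : A) (g : G), y = g⁻¹ * a • g}) ∧
    (Subgroup.closure {y : G | ∃ (a : A) (g : G), y = g⁻¹ * a • g}).Normal ∧
    (Subgroup.closure {y : G | ∃ (a : A) (g : G), y = g⁻¹ * a • g} : Set G) ∩ MulAction.fixedPoints A G = {1} ∧
    Subgroup.closure {y : G | ∃ (a : A) (g : G), y = g⁻¹ * a • g} ⊔ Subgroup.closure (MulAction.fixedPoints A G) = ⊤ := by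
  have hz : IsZGroup G := ⟨fun p hp P => by
    have := Fact.mk hp
    exact hcyc p P⟩
  have hfin : Finite (G ⋊[MulDistribMulAction.toMulAut A G] A) :=
    Finite.of_equiv (G × A) (SemidirectProduct.equivProd).symm
  refine main (Γ := G ⋊[MulDistribMulAction.toMulAut A G] A) SemidirectProduct.inl SemidirectProduct.inr
    SemidirectProduct.inl_injective ?_ ?_ hz
  · intro a g
    rw [← map_inv]
    exact (SemidirectProduct.inl_aut (φ := MulDistribMulAction.toMulAut A G) a g).symm
  · rw [← Nat.card_congr (MonoidHom.ofInjective (SemidirectProduct.inl_injective (φ := MulDistribMulAction.toMulAut A G))).toEquiv,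
      ← Nat.card_congr (MonoidHom.ofInjective (SemidirectProduct.inr_injective (φ := MulDistribMulAction.toMulAut A G))).toEquiv]
    exact hcop

end Cfsg.Agent.S4117
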