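import Cfsg.Statements.S4126
import Mathlib
import Cfsg.Agent.LibH6CritDet
import Cfsg.Agent.LibTransPC
import Cfsg.Agent.LibCores

set_option autoImplicit false
open Cfsg

namespace Cfsg.Agent.S4126

/-- Let G be a finite group and p a prime. Suppose every element of order p, and when p = 2 also every element of order 4, has a conjugacy class of p-power size. Then G has a normal p-complement. -/
theorem result {G : Type*} [Group G] [Finite G] (p : ℕ) [Fact p.Prime]
    (h : ∀ x : G, (orderOf x = p ∨ (p = 2 ∧ orderOf x = 4)) → ∃ a : ℕ, (Subgroup.centralizer ({x} : Set G)).index = p ^ a) :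
    Cfsg.HasNormalPComplement p G := by
  classical
  have hp : p.Prime := Fact.out
  -- elements of order dividing `omExp p` have `p`-power class size
  have hcl : ∀ x : G, x ^ CfsgLib.H6.omExp p = 1 →
      ∃ a : ℕ, (Subgroup.centralizer ({x} : Set G)).index = p ^ a := by
    intro x hx
    by_cases hx1 : x = 1
    · refine ⟨0, ?_⟩
      rw [pow_zero, Subgroup.index_eq_one, hx1]
      ext g; simp [Subgroup.mem_centralizer_singleton_iff]
    have h1 : orderOf x ∣ CfsgLib.H6.omExp p := orderOf_dvd_of_pow_eq_one hx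
    have h2 : orderOf x ≠ 1 := by rwa [Ne, orderOf_eq_one_iff]
    apply h
    unfold CfsgLib.H6.omExp at h1
    split_ifs at h1 with hp2
    · subst hp2
      obtain ⟨k, hk, hk2⟩ := (Nat.dvd_prime_pow Nat.prime_two (m := 2)).mp h1
      interval_cases k
      · exact absurd hk2 h2
      · left; simpa using hk2
      · right; exact ⟨rfl, by simpa using hk2⟩
    · left
      exact ((Nat.dvd_prime hp).mp h1).resolve_left h2
  -- the p-core and its critical subgroup
  obtain ⟨P⟩ := (inferInstance : Nonempty (Sylow p G))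
  obtain ⟨K, hK⟩ : ∃ K, K = Cfsg.pCore p G := ⟨_, rfl⟩
  have hKn : K.Normal := by rw [hK]; infer_instance
  have hKp : IsPGroup p K := by rw [hK]; exact CfsgLib.Cores.pCore_isPGroup p
  have hKP : K ≤ (P : Subgroup G) := CfsgLib.Cores.normal_le_sylow hKn hKp P
  obtain ⟨H, hH, -, hHZ, hC, hHp⟩ := CfsgLib.SolvCrit.exists_critical hp hKp
  obtain ⟨D, hD⟩ : ∃ D, D = CfsgLib.H6.critOmega hp hHZ hHp := ⟨_, rfl⟩
  have hDc : D.Characteristic := by rw [hD]; exact CfsgLib.H6.critOmega_char hp hH hHZ hHp
  have hDn : (D.map K.subtype).Normal := ConjAct.normal_of_characteristic_of_normal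
  have hDm : ∀ x : K, x ∈ D ↔ x ∈ H ∧ x ^ CfsgLib.H6.omExp p = 1 := by
    intro x; rw [hD]; rfl
  have hcent : ∀ y : G, (orderOf y).Coprime p → ∀ x ∈ K, y * x = x * y := by
    intro y hy
    have h1 := CfsgLib.H6.centralizes_of_pclass P _ (D.map K.subtype) rfl hDn
      ((Subgroup.map_subtype_le D).trans hKP) (by
        rintro _ ⟨x, hx, rfl⟩
        apply hcl
        have := ((hDm x).mp hx).2
        exact congrArg Subtype.val this) y hy
    have h2 : (MulAut.conjNormal y : MulAut K) = 1 := by
      refine CfsgLib.H6.crit_detect hp hKp hH hHZ hC hHp _ ?_ ?_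
      · exact Nat.Coprime.coprime_dvd_left (orderOf_map_dvd _ y) hy
      · intro x hx hx1
        apply Subtype.ext
        rw [MulAut.conjNormal_apply]
        have h3 := h1 x ⟨x, (hDm x).mpr ⟨hx, hx1⟩, rfl⟩
        rw [h3, mul_inv_cancel_right]
    intro x hx
    have h3 : (MulAut.conjNormal y : MulAut K) ⟨x, hx⟩ = ⟨x, hx⟩ := by rw [h2]; rfl
    have h4 := congrArg Subtype.val h3
    rw [MulAut.conjNormal_apply] at h4
    exact mul_inv_eq_iff_eq_mul.mp h4
  rw [CfsgLib.TransPC.hasNPC_iff, CfsgLib.TransPC.frobenius_iff P]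
  intro Q hQP g hg ho
  have hQp : IsPGroup p Q := P.2.to_le hQP
  have h2 : Q.normalizerMonoidHom ⟨g, hg⟩ = 1 := by
    refine CfsgLib.H6.aut_eq_one_of_fix_omExp hp hQp _ ?_ ?_
    · refine Nat.Coprime.coprime_dvd_left (orderOf_map_dvd _ _) ?_
      rwa [Subgroup.orderOf_mk]
    · intro x hx
      have hx' : (x : G) ^ CfsgLib.H6.omExp p = 1 := congrArg Subtype.val hx
      obtain ⟨a, ha⟩ := hcl x hx'
      have h3 : IsPGroup p (Subgroup.normalClosure ({(x : G)} : Set G)) := by
        refine CfsgLib.H6.normalClosure_isPGroup_of_index p (x : G) ?_ a ha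
        obtain ⟨k, hk⟩ := (IsPGroup.iff_orderOf.mp hQp) x
        exact ⟨k, by rw [← hk, Subgroup.orderOf_coe]⟩
      have h4 : (x : G) ∈ K := by
        rw [hK]
        exact CfsgLib.Cores.le_pCore inferInstance h3
          (Subgroup.subset_normalClosure (Set.mem_singleton _))
      have h5 := hcent g ho x h4
      apply Subtype.ext
      show g * (x : G) * g⁻¹ = x
      rw [h5, mul_inv_cancel_right]
  rw [Subgroup.mem_centralizer_iff]
  intro x hx
  have h3 : Q.normalizerMonoidHom ⟨g, hg⟩ ⟨x, hx⟩ = ⟨x, hx⟩ := by rw [h2]; rfl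
  have h4 : g * x * g⁻¹ = x := congrArg Subtype.val h3
  exact (mul_inv_eq_iff_eq_mul.mp h4).symm

end Cfsg.Agent.S4126
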