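import Cfsg.Statements.S4127
import Mathlib
import Cfsg.Agent.LibH6PSplit
import Cfsg.Agent.LibAxB9
import Cfsg.Agent.LibCores

set_option autoImplicit false
open Cfsg

namespace Cfsg.Agent.S4127

open Subgroup in
/-- a `p`-element whose class has `p`-power size lies in every Sylow `p`-subgroup, hence in `O_p(G)`. -/
theorem mem_pCore_of_index {G : Type*} [Group G] [Finite G] (p : ℕ) [Fact p.Prime] (x : G)
    (hx : ∃ k : ℕ, orderOf x = p ^ k) (a : ℕ) (h : (centralizer ({x} : Set G)).index = p ^ a) : x ∈ pCore p G :=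
  CfsgLib.Cores.le_pCore inferInstance (CfsgLib.H6.normalClosure_isPGroup_of_index p x hx a h)
    (subset_normalClosure (Set.mem_singleton x))

/-- Let G be a finite group, p a prime and p^a the largest power of p dividing the size of any conjugacy class of G. If some element of p-power order has a conjugacy class of size exactly p^a, then G has a normal p-complement. -/
theorem result {G : Type*} [Group G] [Finite G] (p : ℕ) [Fact p.Prime]
    (a : ℕ) (hmax : ∀ y : G, ¬ p ^ (a + 1) ∣ (Subgroup.centralizer ({y} : Set G)).index)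
    (hx : ∃ x : G, (∃ k : ℕ, orderOf x = p ^ k) ∧ (Subgroup.centralizer ({x} : Set G)).index = p ^ a) :
    Cfsg.HasNormalPComplement p G := by
  classical
  have hpp : p.Prime := Fact.out
  obtain ⟨x, hxo, hxi⟩ := hx
  have hxU := mem_pCore_of_index p x hxo a hxi
  set C : Subgroup G := Subgroup.centralizer ({x} : Set G) with hC
  obtain ⟨k, hk⟩ := hxo
  have hxC : x ∈ C := CfsgLib.H6.self_mem_cent x
  -- p'-elements of C
  have hprime : ∀ y : C, (orderOf y).Coprime p → ¬ p ∣ (Subgroup.centralizer ({y} : Set C)).index := by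
    intro y hy hdvd
    have hyo : orderOf (y : G) = orderOf y := Subgroup.orderOf_coe y
    have hcomm : x * (y : G) = (y : G) * x := (CfsgLib.H6.mem_cent.mp y.2).symm
    have hco : (orderOf x).Coprime (orderOf (y : G)) := by
      rw [hk, hyo]
      exact Nat.Coprime.pow_left _ hy.symm
    have h1 := CfsgLib.H6.cent_mul_of_coprime hcomm hco
    have h2 : (Subgroup.centralizer ({y} : Set C)) = (Subgroup.centralizer ({(y : G)} : Set G)).subgroupOf C := by
      ext z
      rw [Subgroup.mem_subgroupOf, Subgroup.mem_centralizer_singleton_iff, Subgroup.mem_centralizer_singleton_iff]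
      exact ⟨fun h => congrArg Subtype.val h, fun h => Subtype.ext h⟩
    apply hmax (x * (y : G))
    rw [h1, inf_comm, ← Subgroup.relIndex_mul_index (inf_le_right : Subgroup.centralizer ({(y : G)} : Set G) ⊓ C ≤ C),
      Subgroup.inf_relIndex_right, hxi, pow_succ, mul_comm]
    rw [h2] at hdvd
    exact Nat.mul_dvd_mul_right hdvd _
  obtain P0 : Sylow p C := default
  obtain ⟨K, hKn, hKc, hKP⟩ := CfsgLib.H6.pprime_split p hprime P0
  have hKcard : (Nat.card K).Coprime p := by
    have h1 := hKc.index_eq_card
    rw [← h1]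
    exact ((Nat.Prime.coprime_iff_not_dvd hpp).mpr P0.not_dvd_index).symm
  -- all p'-elements of C are in K
  have hpK : ∀ y : C, (orderOf y).Coprime p → y ∈ K := by
    intro y hy
    rw [← QuotientGroup.eq_one_iff, ← orderOf_eq_one_iff]
    have h1 : orderOf (QuotientGroup.mk y : C ⧸ K) ∣ orderOf y := orderOf_map_dvd (QuotientGroup.mk' K) y
    have h2 : orderOf (QuotientGroup.mk y : C ⧸ K) ∣ Nat.card (P0 : Subgroup C) := by
      rw [← hKc.symm.index_eq_card]
      exact orderOf_dvd_natCard _
    obtain ⟨j, hj⟩ := IsPGroup.iff_card.mp P0.2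
    rw [hj] at h2
    have h3 : (orderOf y).Coprime (p ^ j) := Nat.Coprime.pow_right _ hy
    exact Nat.dvd_one.mp (h3 ▸ Nat.dvd_gcd h1 h2)
  -- K centralizes U
  set U := Cfsg.pCore p G with hU
  haveI hUn : U.Normal := inferInstance
  have hKU : ∀ y ∈ K, (y : G) ∈ Subgroup.centralizer (U : Set G) := by
    intro y hyK
    have hyco : (orderOf y).Coprime p := by
      apply Nat.Coprime.coprime_dvd_left _ hKcard
      rw [← Subgroup.orderOf_mk y hyK]
      exact orderOf_dvd_natCard _
    have h1 := CfsgLib.AxB9.thompson_AxB (G := G) (p := p) (A := Subgroup.zpowers x) (B := Subgroup.zpowers (y : G))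
      (IsPGroup.of_card (n := k) (by rw [Nat.card_zpowers, hk])) (by
        rw [Nat.card_zpowers, Subgroup.orderOf_coe]; exact hyco) (by
        rw [Subgroup.commutator_eq_bot_iff_le_centralizer, Subgroup.zpowers_le, Subgroup.mem_centralizer_iff]
        intro h hh
        obtain ⟨i, rfl⟩ := Subgroup.mem_zpowers_iff.mp hh
        have : Commute (y : G) x := CfsgLib.H6.mem_cent.mp y.2
        exact (this.zpow_left i).eq)
      _ U rfl (CfsgLib.Cores.pCore_isPGroup p)
      (by rw [Subgroup.normalizer_eq_top_iff.mpr hUn]; exact le_top)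
      (by rw [Subgroup.normalizer_eq_top_iff.mpr hUn]; exact le_top) (by
        rw [Subgroup.commutator_eq_bot_iff_le_centralizer]
        intro u hu
        rw [Subgroup.mem_inf] at hu
        have huC : u ∈ C := by
          rw [hC, Subgroup.mem_centralizer_singleton_iff]
          exact ((Subgroup.mem_centralizer_iff.mp hu.2) x (Subgroup.mem_zpowers x)).symm
        rw [Subgroup.mem_centralizer_iff]
        intro h hh
        obtain ⟨i, rfl⟩ := Subgroup.mem_zpowers_iff.mp hh
        -- u lies in P0
        have huP : (⟨u, huC⟩ : C) ∈ (P0 : Subgroup C) := by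
          have hUC : IsPGroup p (U.subgroupOf C) := (CfsgLib.Cores.pCore_isPGroup (G := G) p).comap_subtype
          exact CfsgLib.Cores.normal_le_sylow inferInstance hUC P0 (by rw [Subgroup.mem_subgroupOf]; exact hu.1)
        have h5 : Commute y ⟨u, huC⟩ := hKP y hyK _ huP
        have h6 : Commute (y : G) u := congrArg Subtype.val h5
        exact (h6.zpow_left i).eq)
    rw [Subgroup.mem_centralizer_iff]
    intro u hu
    rw [Subgroup.commutator_eq_bot_iff_le_centralizer] at h1
    exact ((Subgroup.mem_centralizer_iff.mp (h1 hu)) (y : G) (Subgroup.mem_zpowers _)).symm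
  have hNC : Subgroup.centralizer (U : Set G) ≤ C := by
    intro g hg
    rw [hC, Subgroup.mem_centralizer_singleton_iff]
    exact ((Subgroup.mem_centralizer_iff.mp hg) x hxU).symm
  let K' : Subgroup G := K.map C.subtype
  have hK'n : K'.Normal := by
    constructor
    rintro _ ⟨y, hy, rfl⟩ g
    have h1 : g * (y : G) * g⁻¹ ∈ Subgroup.centralizer (U : Set G) :=
      Subgroup.Normal.conj_mem Subgroup.normal_centralizer _ (hKU y hy) g
    have h2 := hNC h1
    refine ⟨⟨g * (y : G) * g⁻¹, h2⟩, hpK _ ?_, rfl⟩
    rw [Subgroup.orderOf_mk]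
    have h3 : orderOf (g * (y : G) * g⁻¹) = orderOf (y : G) := MulEquiv.orderOf_eq (MulAut.conj g) (y : G)
    rw [h3, Subgroup.orderOf_coe]
    apply Nat.Coprime.coprime_dvd_left _ hKcard
    rw [← Subgroup.orderOf_mk y hy]
    exact orderOf_dvd_natCard _
  have hK'card : Nat.card K' = Nat.card K := Subgroup.card_map_of_injective C.subtype_injective
  obtain ⟨j, hj⟩ := IsPGroup.iff_card.mp P0.2
  have hGcard : Nat.card G = Nat.card K' * p ^ (a + j) := by
    have h1 := hKc.card_mul_card
    have h2 := Subgroup.card_mul_index C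
    rw [hxi] at h2
    rw [← h2, ← h1, hK'card, hj, pow_add]
    ring
  obtain P : Sylow p G := default
  have hPcard : Nat.card (P : Subgroup G) = p ^ (a + j) := by
    rw [P.card_eq_multiplicity, hGcard, Nat.factorization_mul Nat.card_pos.ne' (pow_pos hpp.pos _).ne', Finsupp.add_apply,
      Nat.Prime.factorization_pow hpp, Finsupp.single_eq_same,
      Nat.factorization_eq_zero_of_not_dvd, zero_add]
    intro h
    rw [hK'card] at h
    exact (Nat.Prime.coprime_iff_not_dvd hpp).mp hKcard.symm h
  refine ⟨P, K', hK'n, ?_⟩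
  apply Subgroup.isComplement'_of_coprime
  · rw [hPcard, ← hGcard]
  · rw [hPcard, hK'card]
    exact Nat.Coprime.pow_right _ hKcard

end Cfsg.Agent.S4127
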