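import Cfsg.Statements.S4134
import Cfsg.Agent.LibFgTwoSz

set_option autoImplicit false
open Cfsg

namespace Cfsg.Agent.S4134

set_option linter.style.haveILetI false
set_option linter.unusedSectionVars false
set_option linter.unusedVariables false

/-- Let G be a finite group whose conjugacy classes have exactly two sizes, 1 and n > 1. Then n is a power of a prime p and G is the direct product of a p-group and an abelian group of order prime to p: its Sylow p-subgroup P is normal with an abelian normal complement centralizing it; moreover P has an abelian normal subgroup A with P/A of exponent dividing p. -/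
theorem result {G : Type*} [Group G] [Finite G] (n : ℕ) (hn : 1 < n)
    (h : ∀ x : G, (Subgroup.centralizer ({x} : Set G)).index = 1 ∨ (Subgroup.centralizer ({x} : Set G)).index = n) (hex : ∃ x : G, (Subgroup.centralizer ({x} : Set G)).index = n) :
    ∃ (p : ℕ) (_ : Fact p.Prime) (a : ℕ), n = p ^ a ∧ ∀ P : Sylow p G, (P : Subgroup G).Normal ∧
      (∃ N : Subgroup G, N.Normal ∧ N.IsComplement' (P : Subgroup G) ∧ IsMulCommutative N ∧
        ∀ x ∈ N, ∀ y ∈ (P : Subgroup G), x * y = y * x) ∧
      ∃ A : Subgroup (P : Subgroup G), A.Normal ∧ IsMulCommutative A ∧ ∀ y : (P : Subgroup G), y ^ p ∈ A := by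
  classical
  have hT : CfsgLib.FgTwoSz.Two G n := h
  obtain ⟨x₀, hx₀⟩ := hex
  have hx₀Z : x₀ ∉ Subgroup.center G := by
    intro h1
    rw [CfsgLib.FgTwoSz.center_iff_index] at h1
    change (CfsgLib.FgTwoSz.C x₀).index = n at hx₀
    omega
  obtain ⟨p, x, hp, -, hx⟩ := CfsgLib.FgTwoSz.exists_prime_part hx₀Z
  haveI : Fact p.Prime := ⟨hp⟩
  have honly : ∀ (r : ℕ) (g : G), r.Prime → CfsgLib.FgTwoSz.NE r g → r = p :=
    fun r g hr hg => hT.one_prime hn hr hp hg hx
  -- the index of the centre is a power of `p`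
  have hidx : ∃ a, (Subgroup.center G).index = p ^ a := by
    refine ⟨_, Nat.eq_prime_pow_of_unique_prime_dvd (Subgroup.center G).index_ne_zero_of_finite ?_⟩
    intro r hr hd
    rw [← Subgroup.relIndex_top_right] at hd
    obtain ⟨a, -, ha⟩ := CfsgLib.FgTwoSz.exists_NE hr hd
    exact honly r a hr ha
  obtain ⟨a, ha⟩ := hidx
  have hna : ∃ b, n = p ^ b := by
    have h1 : n ∣ p ^ a := by
      rw [← ha, ← hT.index hx₀Z]
      exact Subgroup.index_dvd_of_le (CfsgLib.FgTwoSz.center_le_C _)
    obtain ⟨b, -, hb⟩ := (Nat.dvd_prime_pow hp).1 h1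
    exact ⟨b, hb⟩
  obtain ⟨b, hb⟩ := hna
  have hQ : IsPGroup p (G ⧸ Subgroup.center G) := IsPGroup.of_card ha
  refine ⟨p, ⟨hp⟩, b, hb, ?_⟩
  intro P
  have hnil : Group.IsNilpotent G := by
    haveI : Group.IsNilpotent (G ⧸ Subgroup.center G) := hQ.isNilpotent
    exact Group.of_quotient_center_nilpotent inferInstance
  have hPn : (P : Subgroup G).Normal := by
    have h1 := (Group.isNilpotent_of_finite_tfae (G := G)).out 0 3
    exact h1.1 hnil p ⟨hp⟩ P
  haveI := hPn
  have hmemP : ∀ g : G, (∃ k, orderOf g = p ^ k) → g ∈ (P : Subgroup G) := by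
    rintro g ⟨k, hk⟩
    have h2 : IsPGroup p (Subgroup.zpowers g) := IsPGroup.of_card (by rw [Nat.card_zpowers, hk])
    obtain ⟨Q, hQ⟩ := h2.exists_le_sylow
    haveI := Sylow.unique_of_normal P hPn
    rw [Subsingleton.elim P Q]
    exact hQ (Subgroup.mem_zpowers g)
  have hcen : ∀ g : G, (orderOf g).Coprime p → g ∈ Subgroup.center G := by
    intro g hg
    by_contra hcon
    obtain ⟨r, a', hr, ha', haN⟩ := CfsgLib.FgTwoSz.exists_prime_part hcon
    obtain rfl := honly r a' hr haN
    obtain ⟨h1, k, hk⟩ := haN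
    have h2 : orderOf a' ∣ orderOf g := orderOf_dvd_of_mem_zpowers ha'
    have h3 : k ≠ 0 := by
      rintro rfl
      rw [pow_zero, orderOf_eq_one_iff] at hk
      exact h1 (hk ▸ one_mem _)
    have h4 := Nat.dvd_gcd ((dvd_pow_self r h3).trans (hk ▸ h2)) (dvd_refl r)
    rw [hg] at h4
    exact hr.one_lt.ne' (Nat.dvd_one.1 h4)
  let N : Subgroup G :=
    { carrier := {g | (orderOf g).Coprime p}
      mul_mem' := by
        intro u v hu hv
        have h1 : Commute u v := (Subgroup.mem_center_iff.1 (hcen v hv) u)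
        exact Nat.Coprime.coprime_dvd_left h1.orderOf_mul_dvd_mul_orderOf (Nat.Coprime.mul_left hu hv)
      one_mem' := by simp
      inv_mem' := by
        intro u hu
        change (orderOf u⁻¹).Coprime p
        rw [orderOf_inv]
        exact hu }
  have hN : ∀ g, g ∈ N ↔ (orderOf g).Coprime p := fun _ => Iff.rfl
  refine ⟨hPn, ⟨N, ?_, ?_, ?_, ?_⟩, ?_⟩
  · constructor
    intro u hu v
    have h1 := Subgroup.mem_center_iff.1 (hcen u hu) v
    rw [h1, mul_inv_cancel_right]
    exact hu
  · apply Subgroup.isComplement'_of_disjoint_and_mul_eq_univ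
    · rw [Subgroup.disjoint_def]
      intro g hg hgP
      obtain ⟨k, hk⟩ := P.isPGroup' ⟨g, hgP⟩
      have h1 : g ^ p ^ k = 1 := congrArg Subtype.val hk
      have h2 : orderOf g ∣ Nat.gcd (orderOf g) (p ^ k) :=
        Nat.dvd_gcd (dvd_refl _) (orderOf_dvd_of_pow_eq_one h1)
      rw [Nat.Coprime.pow_right k ((hN g).1 hg)] at h2
      exact orderOf_eq_one_iff.1 (Nat.dvd_one.1 h2)
    · rw [Set.eq_univ_iff_forall]
      intro g
      obtain ⟨a, b, -, -, -, hba, hk, hbp⟩ := CfsgLib.FgElt.exists_p_decomp hp g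
      exact ⟨b, hbp, a, hmemP a hk, hba⟩
  · constructor
    constructor
    intro u v
    apply Subtype.ext
    exact Subgroup.mem_center_iff.1 (hcen v v.2) u
  · intro u hu v _
    exact (Subgroup.mem_center_iff.1 (hcen u hu) v).symm
  · obtain ⟨A, hA1, hA2, hA3⟩ := hT.pgroup_part hQ hx₀Z
    refine ⟨A.subgroupOf (P : Subgroup G), ?_, ?_, ?_⟩
    · haveI := hA1
      infer_instance
    · constructor
      constructor
      intro u v
      apply Subtype.ext
      apply Subtype.ext
      exact hA2 _ (Subgroup.mem_subgroupOf.1 u.2) _ (Subgroup.mem_subgroupOf.1 v.2)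
    · intro y
      rw [Subgroup.mem_subgroupOf]
      exact hA3 y

end Cfsg.Agent.S4134
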