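import Cfsg.Statements.S4138
import Cfsg.Agent.LibH2JH5

set_option autoImplicit false
open Cfsg

namespace Cfsg.Agent.S4138

open Subgroup Cfsg CfsgLib.H2JH
open scoped Pointwise

theorem main {G Q : Type*} [Group G] [Finite G] [Group Q] {m n : ℕ} (H : Hyp G m n) {x : G} (hx : cs x = n) (hxA : x ∈ As G m)
    {y : G} (hy : cs y = m) (π : G →* Q) (hπ : Function.Surjective π) (hker : ∀ g, π g = 1 ↔ g ∈ center G) :
    IsFrobeniusComplement ((centralizer ({y} : Set G)).map π) ∧
    frobeniusKernel ((centralizer ({y} : Set G)).map π) = ((centralizer ({x} : Set G)).map π : Set Q) := by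
  have hmem : ∀ v : G, ∀ g : G, π g ∈ (centralizer ({v} : Set G)).map π → g * v = v * g := by
    rintro v g ⟨h, hh, hgh⟩
    have h1 : π (g * h⁻¹) = 1 := by rw [map_mul, map_inv, ← hgh, mul_inv_cancel]
    have h2 := (hker _).mp h1
    have h3 := mul_mem (center_le_cent v h2) hh
    rw [inv_mul_cancel_right] at h3
    exact mc.mp h3
  have hconj : ∀ (g k v : G), π g ∈ MulAut.conj (π k) • ((centralizer ({v} : Set G)).map π) ↔ (k⁻¹ * g * k) * v = v * (k⁻¹ * g * k) := by
    intro g k v
    rw [Subgroup.mem_pointwise_smul_iff_inv_smul_mem]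
    have h1 : (MulAut.conj (π k))⁻¹ • π g = π (k⁻¹ * g * k) := by
      rw [← map_inv, MulAut.smul_def, MulAut.conj_apply, inv_inv, map_mul, map_mul, map_inv]
    rw [h1]
    constructor
    · exact hmem v _
    · intro h
      exact ⟨_, mc.mpr h, rfl⟩
  refine ⟨⟨?_, ?_, ?_⟩, ?_⟩
  · intro h
    have h1 : π y ∈ (centralizer ({y} : Set G)).map π := ⟨y, mc.mpr rfl, rfl⟩
    rw [h, mem_bot] at h1
    exact not_center_of H hy ((hker _).mp h1)
  · intro h
    have h1 : π x ∈ (centralizer ({y} : Set G)).map π := by rw [h]; exact mem_top _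
    have h2 := hmem y x h1
    have h3 := fix_Rs H hx hxA hy (As_le_Rs hxA) h2
    apply not_center_x H hx
    rw [h3]; exact one_mem _
  · intro g hg
    obtain ⟨g, rfl⟩ := hπ g
    rw [eq_bot_iff]
    intro u hu
    obtain ⟨hu1, hu2⟩ := mem_inf.mp hu
    obtain ⟨w, rfl⟩ := hπ u
    rw [mem_bot, hker]
    by_contra hwz
    have h1 := hmem y w hu1
    have h2 := (hconj w g y).mp hu2
    have h3 := maln H hx hxA hy h1 h2 hwz
    exact hg ⟨g, mc.mpr h3, rfl⟩
  · ext u
    constructor
    · intro hu
      rcases hu with rfl | hu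
      · exact one_mem _
      obtain ⟨g, rfl⟩ := hπ u
      obtain ⟨r, hr, hr2⟩ := rconj H hx hxA hy g
      have hc : (r⁻¹ * g) * y = y * (r⁻¹ * g) := by
        calc (r⁻¹ * g) * y = r⁻¹ * (g * y * g⁻¹) * g := by group
          _ = r⁻¹ * (r * y * r⁻¹) * g := by rw [hr2]
          _ = _ := by group
      by_cases hcz : r⁻¹ * g ∈ center G
      · refine ⟨g, ?_, rfl⟩
        have h1 := mul_mem (Rs_le_cent hy (cs_n H hx) hr) (center_le_cent x hcz)
        rwa [mul_inv_cancel_left] at h1
      · exfalso
        have h1 := prop7 H hx hxA hy hc hcz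
        have h2 := hr (r⁻¹ * g) h1
        rw [mul_inv_cancel_left] at h2
        obtain ⟨k, hk⟩ := isConj_iff.mp h2
        apply hu (π k⁻¹)
        rw [hconj]
        rw [inv_inv, hk]
        exact hc
    · rintro ⟨g, hg, rfl⟩
      by_cases hgz : g ∈ center G
      · left; exact (hker g).mpr hgz
      · right
        intro k hk
        obtain ⟨k, rfl⟩ := hπ k
        have h1 := (hconj g k y).mp hk
        have h2 : IsConj (k⁻¹ * g * k) g := isConj_iff.mpr ⟨k, by group⟩
        have h3 := prop8 H hx hxA hy (mc.mp hg) hgz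
        have h4 : k⁻¹ * g * k ∉ center G := by
          intro h
          have h5 := cs_center.mpr h
          rw [cs_eq h2, h3] at h5
          have := H.one
          omega
        have h5 := prop7 H hx hxA hy h1 h4
        rw [cs_eq h2, h3] at h5
        have := H.lt
        omega


/-- Let G be a finite group whose two largest conjugacy class sizes m > n > 1 are coprime, and let x, y ∈ G have classes of sizes n and m respectively. Then C_G(x) and C_G(y) are abelian, and G/Z(G) is a Frobenius group with kernel C_G(x)/Z(G) and complement C_G(y)/Z(G). -/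
theorem result {G : Type*} [Group G] [Finite G] (m n : ℕ) (hmn : n < m) (hn : 1 < n)
    (hcop : m.Coprime n) (htop : ∀ z : G, (Subgroup.centralizer ({z} : Set G)).index ≤ m) (hsecond : ∀ z : G, (Subgroup.centralizer ({z} : Set G)).index < m → (Subgroup.centralizer ({z} : Set G)).index ≤ n)
    (x y : G) (hx : (Subgroup.centralizer ({x} : Set G)).index = n) (hy : (Subgroup.centralizer ({y} : Set G)).index = m) :
    IsMulCommutative (Subgroup.centralizer ({x} : Set G)) ∧ IsMulCommutative (Subgroup.centralizer ({y} : Set G)) ∧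
    Cfsg.IsFrobeniusComplement ((Subgroup.centralizer ({y} : Set G)).map (QuotientGroup.mk' (Subgroup.center G))) ∧
    Cfsg.frobeniusKernel ((Subgroup.centralizer ({y} : Set G)).map (QuotientGroup.mk' (Subgroup.center G))) =
      ((Subgroup.centralizer ({x} : Set G)).map (QuotientGroup.mk' (Subgroup.center G)) : Set (G ⧸ Subgroup.center G)) := by
  have H : Hyp G m n := ⟨hmn, hn, hcop, htop, hsecond⟩
  have hx' : cs x = n := hx
  have hy' : cs y = m := hy
  obtain ⟨z, hz, a, ha, rfl⟩ := dec H hy' (cs_n H hx')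
  have hCa := cent_center_mul hz a
  have hca : cs a = n := by rw [← cs_congr hCa, hx']
  rw [hCa]
  refine ⟨⟨⟨fun u v => Subtype.ext (cx_comm H hca ha hy' (mc.mp u.2) (mc.mp v.2))⟩⟩,
    ⟨⟨fun u v => Subtype.ext (cy_comm H hca ha hy' (mc.mp u.2) (mc.mp v.2))⟩⟩,
    main H hca ha hy' (QuotientGroup.mk' (center G)) (QuotientGroup.mk'_surjective _)
      (fun g => QuotientGroup.eq_one_iff g)⟩

end Cfsg.Agent.S4138
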