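import Cfsg.Statements.S4142
import Mathlib
import Cfsg.Agent.LibSolvBasic
import Cfsg.Agent.LibH6PiCount

set_option autoImplicit false
open Cfsg

namespace Cfsg.Agent.S4142

open CfsgLib.H6


/-- Let G be a finite group and N a normal subgroup. Then the conjugacy class of every element g outside N is a union of cosets of N (gn is conjugate to g for all n ∈ N) if and only if for every g outside N the centralizer of g in G has the same order as the centralizer of gN in G/N. -/
theorem result {G : Type*} [Group G] [Finite G] (N : Subgroup G) [N.Normal] :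
    (∀ g : G, g ∉ N → ∀ n ∈ N, ∃ x : G, x * g * x⁻¹ = g * n) ↔
      ∀ g : G, g ∉ N → Nat.card (Subgroup.centralizer ({g} : Set G)) =
        Nat.card (Subgroup.centralizer ({(QuotientGroup.mk g : G ⧸ N)} : Set (G ⧸ N))) := by
  classical
  -- for each g: |C_G(g)| * |orbit| = |C_{G/N}(gN)| * |N|
  have key : ∀ g : G, ((∀ n ∈ N, ∃ x : G, x * g * x⁻¹ = g * n) ↔
      Nat.card (Subgroup.centralizer ({g} : Set G)) =
        Nat.card (Subgroup.centralizer ({(QuotientGroup.mk g : G ⧸ N)} : Set (G ⧸ N)))) := by
    intro g
    set Ct := (Subgroup.centralizer ({(QuotientGroup.mk g : G ⧸ N)} : Set (G ⧸ N))).comap (QuotientGroup.mk' N) with hCt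
    have hmemCt : ∀ c : G, c ∈ Ct ↔ g⁻¹ * (c * g * c⁻¹) ∈ N := by
      intro c
      rw [hCt, Subgroup.mem_comap, mem_cent, ← QuotientGroup.eq]
      constructor
      · intro h
        have h' : (QuotientGroup.mk' N) c * (QuotientGroup.mk' N) g = (QuotientGroup.mk' N) g * (QuotientGroup.mk' N) c := h
        change (QuotientGroup.mk' N) g = (QuotientGroup.mk' N) (c * g * c⁻¹)
        rw [map_mul, map_mul, h', map_inv]; group
      · intro h
        have h' : (QuotientGroup.mk' N) g = (QuotientGroup.mk' N) (c * g * c⁻¹) := h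
        change (QuotientGroup.mk' N) c * (QuotientGroup.mk' N) g = (QuotientGroup.mk' N) g * (QuotientGroup.mk' N) c
        rw [map_mul, map_mul, map_inv] at h'
        conv_rhs => rw [h']
        group
    have hP : ∀ c ∈ Ct, ∀ x, g⁻¹ * x ∈ N → g⁻¹ * (c * x * c⁻¹) ∈ N := by
      intro c hc x hx
      have h1 := (hmemCt c).mp hc
      have e : g⁻¹ * (c * x * c⁻¹) = (g⁻¹ * (c * g * c⁻¹)) * (c * (g⁻¹ * x) * c⁻¹) := by group
      rw [e]
      exact N.mul_mem h1 (Subgroup.Normal.conj_mem inferInstance _ hx c)
    let act := conjActOn Ct (fun x => g⁻¹ * x ∈ N) hP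
    let g0 : {x : G // g⁻¹ * x ∈ N} := ⟨g, by simp [N.one_mem]⟩
    have hsmul : ∀ (c : Ct), ((c • g0 : {x : G // g⁻¹ * x ∈ N}) : G) = c * g * (c : G)⁻¹ := fun c => rfl
    have hcard1 : Nat.card (MulAction.orbit Ct g0) * Nat.card (MulAction.stabilizer Ct g0) = Nat.card Ct := by
      rw [← Nat.card_prod]
      exact Nat.card_congr (MulAction.orbitProdStabilizerEquivGroup Ct g0)
    have hstab : Nat.card (MulAction.stabilizer Ct g0) = Nat.card (Subgroup.centralizer ({g} : Set G)) := by
      have h1 : (MulAction.stabilizer Ct g0).map Ct.subtype = Subgroup.centralizer ({g} : Set G) := by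
        ext c
        rw [Subgroup.mem_map, mem_cent]
        constructor
        · rintro ⟨d, hd, rfl⟩
          have h2 := congrArg Subtype.val (MulAction.mem_stabilizer_iff.mp hd)
          rw [hsmul] at h2
          exact mul_inv_eq_iff_eq_mul.mp h2
        · intro h
          have hc : c ∈ Ct := by
            rw [hmemCt, h]
            have e : g⁻¹ * (g * c * c⁻¹) = 1 := by group
            rw [e]; exact N.one_mem
          refine ⟨⟨c, hc⟩, ?_, rfl⟩
          rw [MulAction.mem_stabilizer_iff]
          apply Subtype.ext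
          rw [hsmul]
          exact mul_inv_eq_iff_eq_mul.mpr h
      rw [← h1, Subgroup.card_map_of_injective (Subgroup.subtype_injective _)]
    have hCtcard : Nat.card Ct = Nat.card (Subgroup.centralizer ({(QuotientGroup.mk g : G ⧸ N)} : Set (G ⧸ N))) * Nat.card N :=
      CfsgLib.SolvBasic.card_comap_mk' N _
    have hcoset : Nat.card {x : G // g⁻¹ * x ∈ N} = Nat.card N := by
      apply Nat.card_congr
      exact
        { toFun := fun x => ⟨g⁻¹ * x, x.2⟩
          invFun := fun n => ⟨g * n, by simp⟩
          left_inv := fun x => by apply Subtype.ext; simp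
          right_inv := fun n => by apply Subtype.ext; simp }
    have horb : (∀ n ∈ N, ∃ x : G, x * g * x⁻¹ = g * n) ↔ MulAction.orbit Ct g0 = Set.univ := by
      rw [Set.eq_univ_iff_forall]
      constructor
      · rintro h ⟨y, hy⟩
        obtain ⟨x, hx⟩ := h _ hy
        have hx' : x * g * x⁻¹ = y := by rw [hx]; group
        have hxC : x ∈ Ct := by rw [hmemCt, hx']; exact hy
        exact ⟨⟨x, hxC⟩, Subtype.ext hx'⟩
      · intro h n hn
        obtain ⟨c, hc⟩ := h ⟨g * n, by simpa using hn⟩
        refine ⟨c, ?_⟩
        have := congrArg Subtype.val hc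
        exact this
    have hfin : Finite {x : G // g⁻¹ * x ∈ N} := inferInstance
    have horb2 : MulAction.orbit Ct g0 = Set.univ ↔ Nat.card (MulAction.orbit Ct g0) = Nat.card N := by
      rw [← hcoset]
      constructor
      · intro h; rw [h]; exact Nat.card_congr (Equiv.Set.univ _)
      · intro h
        apply Set.eq_of_subset_of_ncard_le (Set.subset_univ _)
        rw [Set.ncard_univ]
        exact h.ge
    rw [horb, horb2]
    rw [hstab, hCtcard] at hcard1
    have hpos1 : 0 < Nat.card (Subgroup.centralizer ({g} : Set G)) := Nat.card_pos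
    have hposN : 0 < Nat.card N := Nat.card_pos
    constructor
    · intro h
      rw [h, mul_comm] at hcard1
      exact Nat.eq_of_mul_eq_mul_right hposN hcard1
    · intro h
      rw [← h, mul_comm] at hcard1
      exact Nat.eq_of_mul_eq_mul_left hpos1 hcard1
  constructor
  · intro h g hg
    exact (key g).mp (h g hg)
  · intro h g hg
    exact (key g).mpr (h g hg)

end Cfsg.Agent.S4142
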