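import Cfsg.Statements.S4150
import Mathlib
import Cfsg.Agent.LibH7PG8
set_option autoImplicit false
open Cfsg

namespace Cfsg.Agent.S4150


/-- Let m ≥ 5. Then there are primes p < q with m/2 ≤ p and q ≤ m such that any two elements x, y of the alternating group of degree m with x of order p and y of order q generate a subgroup isomorphic to an alternating group of some degree d ≥ 5. -/
theorem result (m : ℕ) (hm : 5 ≤ m) :
    ∃ p q : ℕ, p.Prime ∧ q.Prime ∧ m ≤ 2 * p ∧ p < q ∧ q ≤ m ∧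
      ∀ x y : alternatingGroup (Fin m), orderOf x = p → orderOf y = q →
        ∃ d : ℕ, 5 ≤ d ∧ Nonempty (Subgroup.closure ({x, y} : Set (alternatingGroup (Fin m))) ≃* alternatingGroup (Fin d)) := by
  obtain ⟨p, q, hp, hq, h1, h2, h3, h⟩ := CfsgLib.H7PG.main m hm
  refine ⟨p, q, hp, hq, h1, h2, h3, ?_⟩
  intro x y hx hy
  obtain ⟨β, _, _, x₁, y₁, hβ, hox, hoy, hcov, hG, ⟨e⟩⟩ := CfsgLib.H7PG.transfer x y
  obtain ⟨d, hd, ⟨e'⟩⟩ := h β x₁ y₁ hβ (hox.trans hx) (hoy.trans hy) hcov hG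
  exact ⟨d, hd, ⟨e.trans e'⟩⟩

end Cfsg.Agent.S4150
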