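import Cfsg.Statements.S4151
import Mathlib
import Cfsg.Agent.LibH6TI2
import Cfsg.Agent.LibSolvCoprime3
import Cfsg.Agent.LibH6OddCyclic

set_option autoImplicit false
open Cfsg

namespace Cfsg.Agent.S4151

open Subgroup
open scoped Pointwise

theorem main {G : Type*} [Group G] [Finite G] {H Q O : Subgroup G}
    (hTI : Cfsg.IsTISubset (H : Set G)) (hnn : ¬ H.Normal)
    (hHallG : (Nat.card H).Coprime H.index)
    (hz : IsZGroup H)
    (hOn : O.Normal) (hOc : (Nat.card O).Coprime (Nat.card H))
    (hON : O ⊔ normalizer (H : Set G) = ⊤)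
    (hQ : Q ≤ Subgroup.normalizer (H : Set G)) (hQH : Q ⊓ H = ⊥) (hQH' : Q ⊔ H = Subgroup.normalizer (H : Set G)) :
    (Nat.card ↥(H ⊓ Subgroup.centralizer (Q : Set G))).Coprime (H ⊓ Subgroup.centralizer (Q : Set G)).index ∧
    ∃ N : Subgroup G, N.Normal ∧ N.IsComplement' (H ⊓ Subgroup.centralizer (Q : Set G)) := by
  classical
  set N : Subgroup G := normalizer (H : Set G) with hN
  have hHN : H ≤ N := le_normalizer
  -- orders
  have hcN : Nat.card N = Nat.card Q * Nat.card H := by
    have h1 := CfsgLib.Coprime.card_sup_mul_card_inf (N := H) (H := Q) hQ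
    rw [hQH, hQH', card_bot, mul_one] at h1
    exact h1
  have hQH0 : (Nat.card Q).Coprime (Nat.card H) := by
    have h1 : Nat.card Q ∣ H.index := by
      have h2 : H.relIndex N ∣ H.index := by
        rw [← relIndex_mul_index hHN]; exact dvd_mul_right _ _
      have h3 := CfsgLib.Coprime.card_mul_relIndex hHN
      rw [hcN, mul_comm (Nat.card Q)] at h3
      have h4 : H.relIndex N = Nat.card Q := Nat.eq_of_mul_eq_mul_left Nat.card_pos h3
      rw [← h4]; exact h2
    exact (hHallG.coprime_dvd_right h1).symm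
  obtain ⟨hRc, hRC, hRCc, hRsup⟩ := CfsgLib.H6.zgroup_coprime hQ hQH0
  set R : Subgroup G := ⁅H, Q⁆ with hR
  set C : Subgroup G := H ⊓ centralizer (Q : Set G) with hC
  have hRH : R ≤ H := CfsgLib.Coprime.commutator_le_of_le_normalizer hQ
  have hCH : C ≤ H := inf_le_left
  have hHR : H ≤ normalizer (R : Set G) := normalizer_commutator_ge_left H Q
  have hQR : Q ≤ normalizer (R : Set G) := normalizer_commutator_ge_right H Q
  have hCRH : Nat.card C * Nat.card R = Nat.card H := by
    have h1 := CfsgLib.Coprime.card_sup_mul_card_inf (N := R) (H := C) (hCH.trans hHR)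
    have h2 : C ⊓ R = ⊥ := by
      rw [eq_bot_iff, ← hRC]
      exact le_inf inf_le_right (inf_le_left.trans inf_le_right)
    rw [h2, sup_comm, hRsup, card_bot, mul_one] at h1
    exact h1.symm
  constructor
  · have h1 : C.relIndex H = Nat.card R := by
      have h2 := CfsgLib.Coprime.card_mul_relIndex hCH
      rw [← hCRH] at h2
      exact Nat.eq_of_mul_eq_mul_left Nat.card_pos h2
    rw [← relIndex_mul_index hCH, h1]
    exact hRCc.symm.mul_right (hHallG.coprime_dvd_left (card_dvd_of_le hCH))
  · -- RQ is normal in N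
    have hHQR : H ≤ normalizer ((R ⊔ Q : Subgroup G) : Set G) := by
      intro h hh
      have key : ∀ h ∈ H, ∀ x ∈ R ⊔ Q, h * x * h⁻¹ ∈ R ⊔ Q := by
        intro h hh x hx
        rw [CfsgLib.SolvCoprime.mem_sup_iff_of_le_normalizer hQR] at hx
        obtain ⟨r, hr, y, hy, rfl⟩ := hx
        have h1 : h * r * h⁻¹ ∈ R := (mem_normalizer_iff.mp (hHR hh) r).mp hr
        have h2 : h * y * h⁻¹ * y⁻¹ ∈ R := commutator_mem_commutator hh hy
        have h3 : h * (r * y) * h⁻¹ = (h * r * h⁻¹) * (h * y * h⁻¹ * y⁻¹) * y := by group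
        rw [h3]
        exact mul_mem (mem_sup_left (R.mul_mem h1 h2)) (mem_sup_right hy)
      rw [mem_normalizer_iff]
      intro x
      constructor
      · exact key h hh x
      · intro hx
        have := key h⁻¹ (H.inv_mem hh) _ hx
        have e : h⁻¹ * (h * x * h⁻¹) * h⁻¹⁻¹ = x := by group
        rwa [e] at this
    have hNRQ : N ≤ normalizer ((R ⊔ Q : Subgroup G) : Set G) := by
      rw [← hQH']
      exact sup_le (le_sup_right.trans le_normalizer) hHQR
    set K : Subgroup G := O ⊔ (R ⊔ Q) with hK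
    have hKn : K.Normal := by
      rw [← normalizer_eq_top_iff, eq_top_iff, ← hON]
      apply sup_le
      · exact (le_sup_left : O ≤ K).trans le_normalizer
      · refine le_trans (le_inf ?_ hNRQ) (normalizer_inf_normalizer_le_normalizer_sup _ _)
        rw [normalizer_eq_top]; exact le_top
    have hOH : O ⊓ H = ⊥ := inf_eq_bot_of_coprime hOc
    have hONc := CfsgLib.H6.inf_normalizer_le_centralizer hOn hOH
    -- (O ∩ N) Q is a π'-group
    have hO'n : ((O ⊓ N) : Subgroup G) ⊔ Q ≤ N := sup_le inf_le_right hQ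
    have hQO' : Q ≤ normalizer ((O ⊓ N : Subgroup G) : Set G) := by
      refine le_trans (le_inf ?_ ?_) inf_normalizer_le_normalizer_inf
      · rw [normalizer_eq_top]; exact le_top
      · exact hQ.trans le_normalizer
    have hcO' : (Nat.card ((O ⊓ N) ⊔ Q : Subgroup G)).Coprime (Nat.card H) := by
      have h1 := CfsgLib.Coprime.card_sup_mul_card_inf (N := O ⊓ N) (H := Q) hQO'
      have h2 : Nat.card (Q ⊔ (O ⊓ N) : Subgroup G) ∣ Nat.card Q * Nat.card (O ⊓ N : Subgroup G) := by
        rw [← h1]; exact dvd_mul_right _ _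
      rw [sup_comm]
      apply Nat.Coprime.coprime_dvd_left h2
      exact hQH0.mul_left (hOc.coprime_dvd_left (card_dvd_of_le inf_le_left))
    have hKC : K ⊓ C = ⊥ := by
      rw [eq_bot_iff]
      intro c hc
      rw [mem_inf] at hc
      obtain ⟨hcK, hcC⟩ := hc
      rw [hK, mem_sup_of_normal_left] at hcK
      obtain ⟨o, ho, x, hx, hox⟩ := hcK
      rw [CfsgLib.SolvCoprime.mem_sup_iff_of_le_normalizer hQR] at hx
      obtain ⟨r, hr, y, hy, rfl⟩ := hx
      have hcN' : c ∈ N := hHN (hCH hcC)
      have hoN : o ∈ N := by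
        have : o = c * (r * y)⁻¹ := by rw [← hox]; group
        rw [this]
        exact N.mul_mem hcN' (N.inv_mem (N.mul_mem (hHN (hRH hr)) (hQ hy)))
      have hoc := mem_centralizer_iff.mp (hONc (mem_inf.mpr ⟨ho, hoN⟩)) r (hRH hr)
      have h1 : o * y = r⁻¹ * c := by
        rw [← hox]
        calc o * y = r⁻¹ * (r * o) * y := by group
          _ = r⁻¹ * (o * r) * y := by rw [hoc]
          _ = r⁻¹ * (o * (r * y)) := by group
      have h2 : o * y ∈ ((O ⊓ N) ⊔ Q : Subgroup G) ⊓ H := by
        rw [mem_inf]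
        exact ⟨mul_mem (mem_sup_left (mem_inf.mpr ⟨ho, hoN⟩)) (mem_sup_right hy), by
          rw [h1]; exact H.mul_mem (H.inv_mem (hRH hr)) (hCH hcC)⟩
      rw [inf_eq_bot_of_coprime hcO', mem_bot] at h2
      rw [h2] at h1
      have h3 : c = r := by
        have := congrArg (fun z => r * z) h1
        simpa using this.symm
      have h4 : c ∈ R ⊓ centralizer (Q : Set G) := mem_inf.mpr ⟨by rw [h3]; exact hr, (mem_inf.mp hcC).2⟩
      rw [hRC] at h4
      exact h4
    have hKCtop : K ⊔ C = ⊤ := by
      rw [eq_top_iff, ← hON]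
      apply sup_le
      · exact le_sup_left.trans le_sup_left
      · rw [← hQH']
        apply sup_le
        · exact (le_sup_right.trans le_sup_right).trans le_sup_left
        · rw [← hRsup]
          apply sup_le
          · exact (le_sup_left.trans le_sup_right).trans le_sup_left
          · exact le_sup_right
    refine ⟨K, hKn, ?_⟩
    apply isComplement'_of_disjoint_and_mul_eq_univ (disjoint_iff.mpr hKC)
    rw [← normal_mul K C, hKCtop]
    rfl


/-- Let G be a finite group and H a non-normal subgroup meeting each of its conjugates by elements outside N_G(H) trivially, with the order of H coprime to its index in N_G(H), such that G is π-separable for π the set of primes dividing the order of H (G has a chain of normal subgroups from 1 to G each of whose factors has order divisible only by primes dividing the order of H or coprime to it). Suppose a Sylow 2-subgroup of H is abelian and Q is a complement of H in N_G(H). Then C_H(Q), the subgroup of elements of H commuting with Q, has order coprime to its index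 in G and has a normal complement in G. -/
theorem result {G : Type*} [Group G] [Finite G] (H : Subgroup G)
    (hTI : Cfsg.IsTISubset (H : Set G)) (hnn : ¬ H.Normal)
    (hHall : (Nat.card H).Coprime (H.subgroupOf (Subgroup.normalizer (H : Set G))).index)
    (hsep : ∃ (n : ℕ) (M : Fin (n + 1) → Subgroup G), M 0 = ⊥ ∧ M (Fin.last n) = ⊤ ∧ Monotone M ∧ (∀ i, (M i).Normal) ∧
      ∀ i : Fin n, (∀ q : ℕ, q.Prime → q ∣ (M i.castSucc).relIndex (M i.succ) → q ∣ Nat.card H) ∨
        ((M i.castSucc).relIndex (M i.succ)).Coprime (Nat.card H))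
    (h2 : ∀ P : Sylow 2 H, IsMulCommutative (P : Subgroup H))
    (Q : Subgroup G) (hQ : Q ≤ Subgroup.normalizer (H : Set G)) (hQH : Q ⊓ H = ⊥) (hQH' : Q ⊔ H = Subgroup.normalizer (H : Set G)) :
    (Nat.card ↥(H ⊓ Subgroup.centralizer (Q : Set G))).Coprime (H ⊓ Subgroup.centralizer (Q : Set G)).index ∧
    ∃ N : Subgroup G, N.Normal ∧ N.IsComplement' (H ⊓ Subgroup.centralizer (Q : Set G)) := by
  have hHallG := CfsgLib.H6.hall_of_TI hTI hHall
  obtain ⟨O, hOn, hOc, hOmax⟩ := CfsgLib.H6.exists_coprime_core G (Nat.card H)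
  obtain ⟨hON, -⟩ := CfsgLib.H6.ti_piSeparable hTI hnn hHall hsep hOn hOc hOmax
  have hOH : O ⊓ H = ⊥ := inf_eq_bot_of_coprime hOc
  have hOC : ¬ O ≤ centralizer (H : Set G) := by
    intro h
    apply hnn
    rw [← normalizer_eq_top_iff, eq_top_iff, ← hON]
    exact sup_le (h.trans (centralizer_le_normalizer _)) le_rfl
  have hz : IsZGroup H := by
    refine ⟨fun p hp P => ?_⟩
    have := Fact.mk hp
    by_contra hcyc
    obtain ⟨B, hB, hBe⟩ : ∃ B : Subgroup P, Nat.card B = p ^ 2 ∧ ∀ b ∈ B, b ^ p = 1 := by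
      by_contra hnoB
      push Not at hnoB
      apply hcyc
      by_cases hp2 : p = 2
      · subst hp2
        have hab : ∀ a b : P, a * b = b * a := (h2 P).is_comm.comm
        by_contra hc2
        obtain ⟨r, B, hr, hB, hBe⟩ := CfsgLib.SolvCoprime.exists_sq_of_not_isCyclic hab hc2
        obtain ⟨k, hk⟩ := IsPGroup.iff_card.mp P.isPGroup'
        have h1 : Nat.card B ∣ Nat.card P := card_subgroup_dvd_card B
        rw [hB, hk] at h1
        have h3 : r = 2 := by
          have h3 : r ∣ 2 ^ k := (dvd_pow_self r two_ne_zero).trans h1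
          exact (Nat.prime_dvd_prime_iff_eq hr Nat.prime_two).mp (hr.dvd_of_dvd_pow h3)
        rw [h3] at hB hBe
        obtain ⟨b, hb, hb1⟩ := hnoB B hB
        exact hb1 (hBe b hb)
      · obtain ⟨k, hk⟩ := IsPGroup.iff_card.mp P.isPGroup'
        apply CfsgLib.H6.isCyclic_of_no_square hp2 k P hk
        intro B hB hBe
        obtain ⟨b, hb, hb1⟩ := hnoB B hB
        exact hb1 (hBe b hb)
    apply hOC
    have hinj : Function.Injective (H.subtype.comp (P : Subgroup H).subtype) :=
      H.subtype_injective.comp (P : Subgroup H).subtype_injective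
    apply CfsgLib.SolvCoprime.le_of_centralizers_le hp (B.map (H.subtype.comp (P : Subgroup H).subtype)) O
    · rw [card_map_of_injective hinj, hB]
    · rintro _ ⟨b, hb, rfl⟩
      rw [← map_pow, hBe b hb, map_one]
    · rw [normalizer_eq_top]; exact le_top
    · have h1 : p ∣ Nat.card H := by
        have h2 : Nat.card B ∣ Nat.card P := card_subgroup_dvd_card B
        rw [hB] at h2
        exact ((dvd_pow_self p two_ne_zero).trans h2).trans (card_subgroup_dvd_card (P : Subgroup H))
      exact (hOc.coprime_dvd_right h1).symm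
    · rintro _ ⟨b, hb, rfl⟩ hb1 x hx
      rw [mem_inf, mem_centralizer_singleton_iff] at hx
      exact CfsgLib.H6.centralizer_eq_of_TI hTI hOn hOH (b : H).2 hb1 hx.1 hx.2
  exact main hTI hnn hHallG hz hOn hOc hON hQ hQH hQH'

end Cfsg.Agent.S4151
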