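import Cfsg.Statements.S4153
import Mathlib
import Cfsg.Agent.LibH2Misc

set_option autoImplicit false
open Cfsg

namespace Cfsg.Agent.S4153

open Subgroup in
theorem aux {G : Type*} [Group G] [Finite G] (p : ℕ) [Fact p.Prime] (N : Subgroup G) [N.Normal]
    (y : G ⧸ N) (hy : ∃ k : ℕ, orderOf y = p ^ k) :
    ∃ x : G, ∃ P : Sylow p G, (QuotientGroup.mk x : G ⧸ N) = y ∧ x ∈ P := by
  classical
  have hpp : p.Prime := Fact.out
  obtain ⟨k, hk⟩ := hy
  induction y using QuotientGroup.induction_on with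
  | H x0 =>
    obtain ⟨a, m, hm, hx0⟩ : ∃ a m : ℕ, ¬ p ∣ m ∧ orderOf x0 = p ^ a * m := by
      obtain ⟨a, m, h1, h2⟩ := Nat.exists_eq_pow_mul_and_not_dvd (orderOf_pos x0).ne' p hpp.ne_one
      exact ⟨a, m, h1, h2⟩
    have hcop : (p ^ k).Coprime m := Nat.Coprime.pow_left _ ((Nat.Prime.coprime_iff_not_dvd hpp).mpr hm)
    obtain ⟨e, he1, he2⟩ := Nat.chineseRemainder hcop 1 0
    obtain ⟨t, rfl⟩ : m ∣ e := (Nat.modEq_zero_iff_dvd).mp he2
    have hz : (x0 ^ (m * t)) ^ (p ^ a) = 1 := by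
      rw [← pow_mul, show m * t * p ^ a = (p ^ a * m) * t by ring, ← hx0, pow_mul, pow_orderOf_eq_one, one_pow]
    have hzp : IsPGroup p (zpowers (x0 ^ (m * t))) := by
      obtain ⟨j, _, hj⟩ := (Nat.dvd_prime_pow hpp).mp (orderOf_dvd_of_pow_eq_one hz)
      exact IsPGroup.of_card (n := j) (by rw [Nat.card_zpowers, hj])
    obtain ⟨P, hP⟩ := hzp.exists_le_sylow
    refine ⟨x0 ^ (m * t), P, ?_, hP (mem_zpowers _)⟩
    have h1 : (QuotientGroup.mk (x0 ^ (m * t)) : G ⧸ N) = (QuotientGroup.mk x0 : G ⧸ N) ^ (m * t) := rfl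
    rw [h1]
    conv_rhs => rw [← pow_one (QuotientGroup.mk x0 : G ⧸ N)]
    rw [pow_eq_pow_iff_modEq, hk]
    exact he1

/-- Let G be a finite group, p a prime, N a normal subgroup, P a Sylow p-subgroup of G and P̄ a Sylow p-subgroup of G/N. Count the elements of p-power order, the identity included. Then (number of such elements of G/N)/#P̄ ≤ (number of such elements of G)/#P, stated as a cross-multiplied inequality, with equality when N is central. -/
theorem result {G : Type*} [Group G] [Finite G] (p : ℕ) [Fact p.Prime] (N : Subgroup G) [N.Normal]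
    (P : Sylow p G) (Pbar : Sylow p (G ⧸ N)) :
    Nat.card {g : (G ⧸ N) // ∃ k : ℕ, orderOf g = p ^ k} * Nat.card (P : Subgroup G) ≤ Nat.card {g : G // ∃ k : ℕ, orderOf g = p ^ k} * Nat.card (Pbar : Subgroup (G ⧸ N)) ∧
    (N ≤ Subgroup.center G → Nat.card {g : (G ⧸ N) // ∃ k : ℕ, orderOf g = p ^ k} * Nat.card (P : Subgroup G) = Nat.card {g : G // ∃ k : ℕ, orderOf g = p ^ k} * Nat.card (Pbar : Subgroup (G ⧸ N))) := by
  classical
  have hpp : p.Prime := Fact.out
  set q := p ^ (Nat.card N).factorization p with hq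
  have hPP : Nat.card (P : Subgroup G) = Nat.card (Pbar : Subgroup (G ⧸ N)) * q := by
    rw [P.card_eq_multiplicity, Pbar.card_eq_multiplicity, hq, ← pow_add,
      Subgroup.card_eq_card_quotient_mul_card_subgroup N,
      Nat.factorization_mul Nat.card_pos.ne' Nat.card_pos.ne', Finsupp.add_apply]
  have hqP : ∀ S : Sylow p G, Nat.card ((S : Subgroup G).subgroupOf N) = q := by
    intro S
    obtain ⟨Q, hQ⟩ := CfsgLib.H2Misc.exists_sylow_inf_normal S N
    rw [← hQ, hq, Q.card_eq_multiplicity]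
  have hpel : ∀ S : Sylow p G, ∀ g ∈ (S : Subgroup G), ∃ k : ℕ, orderOf g = p ^ k := by
    intro S g hg
    obtain ⟨k, hk⟩ := (IsPGroup.iff_orderOf.mp S.2) ⟨g, hg⟩
    exact ⟨k, by rw [← hk, Subgroup.orderOf_mk]⟩
  have hch : ∀ y : {g : (G ⧸ N) // ∃ k : ℕ, orderOf g = p ^ k}, ∃ x : G, ∃ P : Sylow p G,
      (QuotientGroup.mk x : G ⧸ N) = y ∧ x ∈ P := fun y => aux p N y.1 y.2
  choose ξ Pi hξ1 hξ2 using hch
  have hle : Nat.card {g : (G ⧸ N) // ∃ k : ℕ, orderOf g = p ^ k} * q ≤ Nat.card {g : G // ∃ k : ℕ, orderOf g = p ^ k} := by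
    have h1 : Nat.card (Σ y : {g : (G ⧸ N) // ∃ k : ℕ, orderOf g = p ^ k}, ((Pi y : Subgroup G).subgroupOf N)) ≤
        Nat.card {g : G // ∃ k : ℕ, orderOf g = p ^ k} := by
      apply Nat.card_le_card_of_injective (fun z : (Σ y : {g : (G ⧸ N) // ∃ k : ℕ, orderOf g = p ^ k}, ((Pi y : Subgroup G).subgroupOf N)) =>
        (⟨ξ z.1 * (z.2 : N), hpel (Pi z.1) _ (mul_mem (hξ2 z.1) z.2.2)⟩ : {g : G // ∃ k : ℕ, orderOf g = p ^ k}))
      rintro ⟨y, n, hn⟩ ⟨y', n', hn'⟩ h
      have he : ξ y * (n : G) = ξ y' * (n' : G) := congrArg Subtype.val h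
      have hyy : y = y' := by
        apply Subtype.ext
        rw [← hξ1 y, ← hξ1 y']
        have h2 : (QuotientGroup.mk (ξ y * (n : G)) : G ⧸ N) = QuotientGroup.mk (ξ y' * (n' : G)) := by rw [he]
        rw [QuotientGroup.mk_mul_of_mem _ n.2, QuotientGroup.mk_mul_of_mem _ n'.2] at h2
        exact h2
      subst hyy
      have : n = n' := Subtype.ext (mul_left_cancel he)
      subst this
      rfl
    refine le_trans (le_of_eq ?_) h1
    haveI : Fintype {g : (G ⧸ N) // ∃ k : ℕ, orderOf g = p ^ k} := Fintype.ofFinite _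
    rw [Nat.card_sigma, Finset.sum_congr rfl (fun S _ => hqP (Pi S)), Finset.sum_const, smul_eq_mul, Finset.card_univ,
      ← Nat.card_eq_fintype_card]
  constructor
  · rw [hPP]
    calc _ = (Nat.card {g : (G ⧸ N) // ∃ k : ℕ, orderOf g = p ^ k} * q) * Nat.card (Pbar : Subgroup (G ⧸ N)) := by ring
      _ ≤ _ := Nat.mul_le_mul_right _ hle
  · intro hN
    have hge : Nat.card {g : G // ∃ k : ℕ, orderOf g = p ^ k} ≤ Nat.card {g : (G ⧸ N) // ∃ k : ℕ, orderOf g = p ^ k} * q := by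
      rw [← hqP P, ← Nat.card_prod]
      have hmk : ∀ g : {g : G // ∃ k : ℕ, orderOf g = p ^ k}, ∃ k : ℕ, orderOf (QuotientGroup.mk g.1 : G ⧸ N) = p ^ k := by
        rintro ⟨g, k, hk⟩
        have h1 : orderOf (QuotientGroup.mk g : G ⧸ N) ∣ p ^ k := by
          rw [← hk]
          exact orderOf_map_dvd (QuotientGroup.mk' N) g
        obtain ⟨j, _, hj⟩ := (Nat.dvd_prime_pow hpp).mp h1
        exact ⟨j, hj⟩
      -- central p-elements of N lie in P
      have hcen : ∀ n ∈ N, (∃ k : ℕ, n ^ (p ^ k) = 1) → n ∈ (P : Subgroup G) := by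
        rintro n hn ⟨k, hk⟩
        have hz : IsPGroup p (Subgroup.zpowers n) := by
          obtain ⟨j, _, hj⟩ := (Nat.dvd_prime_pow hpp).mp (orderOf_dvd_of_pow_eq_one hk)
          exact IsPGroup.of_card (n := j) (by rw [Nat.card_zpowers, hj])
        obtain ⟨S, hS⟩ := hz.exists_le_sylow
        obtain ⟨g, hg⟩ := MulAction.exists_smul_eq G P S
        have hnS : n ∈ (S : Subgroup G) := hS (Subgroup.mem_zpowers n)
        rw [← hg, Sylow.smul_def] at hnS
        obtain ⟨m, hm, hmn⟩ := hnS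
        have hmn' : g * m * g⁻¹ = n := hmn
        have hc := Subgroup.mem_center_iff.mp (hN hn) g⁻¹
        have : m = n := by
          calc m = g⁻¹ * (g * m * g⁻¹) * g := by group
            _ = g⁻¹ * n * g := by rw [hmn']
            _ = n := by rw [hc]; group
        exact this ▸ hm
      have hin : ∀ g : {g : G // ∃ k : ℕ, orderOf g = p ^ k}, (ξ ⟨QuotientGroup.mk g.1, hmk g⟩)⁻¹ * g.1 ∈ N := by
        intro g
        rw [← QuotientGroup.eq]
        exact hξ1 _
      have hin2 : ∀ g : {g : G // ∃ k : ℕ, orderOf g = p ^ k}, (ξ ⟨QuotientGroup.mk g.1, hmk g⟩)⁻¹ * g.1 ∈ (P : Subgroup G) := by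
        intro g
        apply hcen _ (hin g)
        set x := ξ ⟨QuotientGroup.mk g.1, hmk g⟩ with hx
        obtain ⟨k, hk⟩ := g.2
        obtain ⟨j, hj⟩ := hpel _ x (hξ2 _)
        refine ⟨k + j, ?_⟩
        have hcomm : Commute x⁻¹ g.1 := by
          have hc : Commute x (x⁻¹ * g.1) := (Subgroup.mem_center_iff.mp (hN (hin g)) x)
          have := (Commute.refl x).inv_right.symm
          have h3 : Commute x (x * (x⁻¹ * g.1)) := (Commute.refl x).mul_right hc
          rw [mul_inv_cancel_left] at h3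
          exact h3.inv_left
        rw [hcomm.mul_pow, pow_add]
        have e1 : g.1 ^ (p ^ k * p ^ j) = 1 := by rw [pow_mul, ← hk, pow_orderOf_eq_one, one_pow]
        have e2 : x⁻¹ ^ (p ^ k * p ^ j) = 1 := by rw [mul_comm, pow_mul, ← hj, inv_pow, pow_orderOf_eq_one, inv_one, one_pow]
        rw [e1, e2, one_mul]
      apply Nat.card_le_card_of_injective (fun g : {g : G // ∃ k : ℕ, orderOf g = p ^ k} =>
        ((⟨QuotientGroup.mk g.1, hmk g⟩ : {g : (G ⧸ N) // ∃ k : ℕ, orderOf g = p ^ k}),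
          (⟨⟨_, hin g⟩, hin2 g⟩ : (P : Subgroup G).subgroupOf N)))
      intro g g' h
      have h1 := congrArg Prod.fst h
      have h2 := congrArg (fun z => ((z.2 : N) : G)) h
      simp only at h1 h2
      rw [h1] at h2
      exact Subtype.ext (mul_left_cancel h2)
    have heq := le_antisymm hle hge
    rw [hPP, ← heq]
    ring

end Cfsg.Agent.S4153
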