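import Cfsg.Statements.S4154
import Mathlib

set_option autoImplicit false
open Cfsg

namespace Cfsg.Agent.S4154

/-- Let G be a finite group and α an automorphism of G such that every element of G is the product of an element fixed by α and an element of the form g⁻¹α(g). If N is a normal α-invariant subgroup, then the automorphism ᾱ induced on G/N has the same property, and every coset fixed by ᾱ contains an element fixed by α (so the fixed points of ᾱ are the images of the fixed points of α). -/
theorem result {G : Type*} [Group G] [Finite G] (α : MulAut G)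
    (hccp : ∀ x : G, ∃ c g : G, α c = c ∧ x = c * (g⁻¹ * α g))
    (N : Subgroup G) [N.Normal] (hN : ∀ n ∈ N, α n ∈ N) :
    (∀ x : G, ∃ c g : G, c⁻¹ * α c ∈ N ∧ x⁻¹ * (c * (g⁻¹ * α g)) ∈ N) ∧
    (∀ x : G, x⁻¹ * α x ∈ N → ∃ c : G, α c = c ∧ c⁻¹ * x ∈ N) := by
  classical
  constructor
  · intro x
    obtain ⟨c, g, hc, rfl⟩ := hccp x
    refine ⟨c, g, by rw [hc]; simp, by simp⟩
  · -- quotient automorphism
    have hmap : N ≤ N.comap (α : G →* G) := fun n hn => hN n hn
    let β : (G ⧸ N) →* (G ⧸ N) := QuotientGroup.map N N (α : G →* G) hmap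
    have hβ : ∀ x : G, β (QuotientGroup.mk x) = QuotientGroup.mk (α x) := fun x => rfl
    let Cb : Subgroup (G ⧸ N) :=
      { carrier := {y | β y = y}
        one_mem' := map_one β
        mul_mem' := fun {a b} ha hb => by
          show β (a * b) = a * b
          rw [map_mul, show β a = a from ha, show β b = b from hb]
        inv_mem' := fun {a} ha => by
          show β a⁻¹ = a⁻¹
          rw [map_inv, show β a = a from ha] }
    have memCb : ∀ y, y ∈ Cb ↔ β y = y := fun y => Iff.rfl
    let C : Subgroup G :=
      { carrier := {y | α y = y}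
        one_mem' := map_one α
        mul_mem' := fun {a b} ha hb => by
          show α (a * b) = a * b
          rw [map_mul, show α a = a from ha, show α b = b from hb]
        inv_mem' := fun {a} ha => by
          show α a⁻¹ = a⁻¹
          rw [map_inv, show α a = a from ha] }
    have memC : ∀ y, y ∈ C ↔ α y = y := fun y => Iff.rfl
    let φ : (G ⧸ N) → (G ⧸ N) := fun y => y⁻¹ * β y
    let D : Subgroup (G ⧸ N) := C.map (QuotientGroup.mk' N)
    have hD : D ≤ Cb := by
      rintro y ⟨x, hx, rfl⟩
      rw [memCb]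
      show QuotientGroup.mk (α x) = QuotientGroup.mk x
      rw [(memC x).1 hx]
    -- first count
    have h1 : Nat.card (G ⧸ N) ≤ Nat.card D * Nat.card (Set.range φ) := by
      rw [← Nat.card_prod]
      apply Nat.card_le_card_of_surjective (fun z : D × Set.range φ => (z.1 : G ⧸ N) * (z.2 : G ⧸ N))
      intro y
      induction y using QuotientGroup.induction_on with
      | H x =>
        obtain ⟨c, g, hc, rfl⟩ := hccp x
        refine ⟨(⟨QuotientGroup.mk c, ⟨c, hc, rfl⟩⟩, ⟨φ (QuotientGroup.mk g), ⟨_, rfl⟩⟩), ?_⟩
        show (QuotientGroup.mk c : G ⧸ N) * ((QuotientGroup.mk g : G ⧸ N)⁻¹ * β (QuotientGroup.mk g)) = _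
        rw [hβ]
        rfl
    have h2 : Nat.card (Set.range φ) * Nat.card Cb ≤ Nat.card (G ⧸ N) := by
      rw [← Nat.card_prod]
      have hch : ∀ s : Set.range φ, ∃ g, φ g = s := fun s => s.2
      choose γ hγ using hch
      apply Nat.card_le_card_of_injective (fun z : Set.range φ × Cb => (z.2 : G ⧸ N) * γ z.1)
      have key : ∀ z : Set.range φ × Cb, φ ((z.2 : G ⧸ N) * γ z.1) = z.1 := by
        rintro ⟨s, c⟩
        show ((c : G ⧸ N) * γ s)⁻¹ * β ((c : G ⧸ N) * γ s) = s
        rw [map_mul, (memCb _).1 c.2, ← hγ s]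
        show _ = (γ s)⁻¹ * β (γ s)
        group
      intro z w hzw
      have e1 : z.1 = w.1 := by
        apply Subtype.ext
        rw [← key z, ← key w]
        exact congrArg φ hzw
      have e2 : z.2 = w.2 := by
        apply Subtype.ext
        have : (z.2 : G ⧸ N) * γ z.1 = (w.2 : G ⧸ N) * γ w.1 := hzw
        rw [e1] at this
        exact mul_right_cancel this
      exact Prod.ext e1 e2
    have hpos : 0 < Nat.card (Set.range φ) := by
      haveI : Nonempty (Set.range φ) := ⟨⟨φ 1, ⟨1, rfl⟩⟩⟩
      exact Nat.card_pos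
    have h3 : Nat.card Cb ≤ Nat.card D := by
      have : Nat.card (Set.range φ) * Nat.card Cb ≤ Nat.card (Set.range φ) * Nat.card D := by
        calc _ ≤ _ := h2
          _ ≤ _ := h1
          _ = _ := mul_comm _ _
      exact Nat.le_of_mul_le_mul_left this hpos
    have hDC : D = Cb := Subgroup.eq_of_le_of_card_ge hD h3
    intro x hx
    have hx' : (QuotientGroup.mk x : G ⧸ N) ∈ Cb := by
      rw [memCb, hβ]
      symm
      rw [QuotientGroup.eq]
      exact hx
    rw [← hDC] at hx'
    obtain ⟨c, hc, hcx⟩ := hx'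
    refine ⟨c, hc, ?_⟩
    rw [← QuotientGroup.eq]
    exact hcx

end Cfsg.Agent.S4154
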