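import Cfsg.Statements.S4155
import Mathlib
import Cfsg.Agent.LibH6EqOrd
import Cfsg.Agent.LibH2Misc
import Cfsg.Agent.LibFPF2

set_option autoImplicit false
open Cfsg

namespace Cfsg.Agent.S4155

/-- Let G be a finite group and N a proper non-trivial normal nilpotent subgroup whose order is not a prime power, such that for every x outside N all elements of the coset xN have the same order as x. Then N is the Fitting subgroup of G, and for every prime q every Sylow q-subgroup of G/N is cyclic or generalized quaternion. -/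
theorem result {G : Type*} [Group G] [Finite G] (N : Subgroup G) [N.Normal] (hN1 : N ≠ ⊥) (hN2 : N ≠ ⊤)
    (heq : ∀ x : G, x ∉ N → ∀ n ∈ N, orderOf (x * n) = orderOf x)
    (hnil : Group.IsNilpotent N) (hnpp : ¬ IsPrimePow (Nat.card N)) :
    N = Cfsg.fittingSubgroup G ∧
    ∀ (q : ℕ) [Fact q.Prime] (Q : Sylow q (G ⧸ N)), IsCyclic (Q : Subgroup (G ⧸ N)) ∨ ∃ n : ℕ, Nonempty ((Q : Subgroup (G ⧸ N)) ≃* QuaternionGroup (2 ^ n)) := by
  classical
  have hnotp : ∀ p : ℕ, p.Prime → ¬ IsPGroup p N := by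
    intro p hp hNp
    haveI : Fact p.Prime := ⟨hp⟩
    obtain ⟨k, hk⟩ := IsPGroup.iff_card.mp hNp
    apply hnpp
    rw [hk]
    refine hp.isPrimePow.pow ?_
    rintro rfl
    rw [pow_zero, Subgroup.card_eq_one] at hk
    exact hN1 hk
  have hNF : N = Cfsg.fittingSubgroup G := by
    apply le_antisymm (CfsgLib.Cores.le_fittingSubgroup inferInstance hnil)
    rcases CfsgLib.H6.eqord_fitting N hN1 heq with h | ⟨p, hp, hNp, _, _⟩
    · exact h
    · exact absurd hNp (hnotp p hp)
  refine ⟨hNF, ?_⟩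
  intro q hq Q
  have hqp : q.Prime := Fact.out
  -- a prime r ≠ q dividing |N|
  obtain ⟨r, hr, hrN, hrq⟩ : ∃ r : ℕ, r.Prime ∧ r ∣ Nat.card N ∧ r ≠ q := by
    by_contra hcon
    push Not at hcon
    apply hnotp q hqp
    apply IsPGroup.of_card (n := (Nat.card N).primeFactorsList.length)
    exact Nat.eq_prime_pow_of_unique_prime_dvd Nat.card_pos.ne' (fun {d} hd hdn => hcon d hd hdn)
  haveI : Fact r.Prime := ⟨hr⟩
  -- Sylow subgroups of N are normal in G
  have hnorm : ∀ (p : ℕ) [Fact p.Prime] (S : Sylow p G), ((S : Subgroup G) ⊓ N).Normal := by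
    intro p _ S
    obtain ⟨T, hT⟩ := CfsgLib.H2Misc.exists_sylow_inf_normal S N
    haveI : (T : Subgroup N).Normal := by
      have := (Group.isNilpotent_of_finite_tfae (G := N)).out 0 3
      exact (this.mp hnil) p inferInstance T
    haveI : (T : Subgroup N).Characteristic := T.characteristic_of_normal inferInstance
    have h1 : ((T : Subgroup N).map N.subtype).Normal := ConjAct.normal_of_characteristic_of_normal
    rw [hT, Subgroup.subgroupOf_map_subtype] at h1
    exact h1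
  obtain S : Sylow q G := default
  obtain S' : Sylow r G := default
  let T : Subgroup G := (S : Subgroup G) ⊓ N
  let R : Subgroup G := (S' : Subgroup G) ⊓ N
  haveI hTn : T.Normal := hnorm q S
  haveI hRn : R.Normal := hnorm r S'
  have hR1 : R ≠ ⊥ := by
    intro h
    obtain ⟨U, hU⟩ := CfsgLib.H2Misc.exists_sylow_inf_normal S' N
    have h1 : r ∣ Nat.card (U : Subgroup N) := U.dvd_card_of_dvd_card hrN
    rw [hU] at h1
    have h2 : (S' : Subgroup G).subgroupOf N = ⊥ := by
      rw [Subgroup.subgroupOf_eq_bot, disjoint_iff]; exact h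
    rw [h2, Subgroup.card_bot] at h1
    exact hr.one_lt.ne' (Nat.dvd_one.mp h1)
  have hop : ∀ (p : ℕ) [Fact p.Prime] (S : Sylow p G), ∀ g ∈ (S : Subgroup G), ∃ k : ℕ, orderOf g = p ^ k := by
    intro p _ S g hg
    obtain ⟨k, hk⟩ := (IsPGroup.iff_orderOf.mp S.2) ⟨g, hg⟩
    exact ⟨k, by rw [← hk, Subgroup.orderOf_mk]⟩
  have hcop : ∀ s ∈ (S : Subgroup G), ∀ ρ ∈ (S' : Subgroup G), (orderOf s).Coprime (orderOf ρ) := by
    intro s hs ρ hρ
    obtain ⟨k, hk⟩ := hop q S s hs
    obtain ⟨j, hj⟩ := hop r S' ρ hρ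
    rw [hk, hj]
    exact Nat.Coprime.pow _ _ ((Nat.coprime_primes hqp hr).mpr hrq.symm)
  let π := QuotientGroup.mk' T
  have hfpf : CfsgLib.FPF1.FPF ((S : Subgroup G).map π) (R.map π) := by
    rintro _ ⟨s, hs, rfl⟩ hs1
    rw [eq_bot_iff]
    intro v hv
    rw [Subgroup.mem_inf] at hv
    obtain ⟨⟨ρ, hρ, rfl⟩, hc⟩ := hv
    rw [Subgroup.mem_centralizer_singleton_iff] at hc
    have hsT : s ∉ T := fun h => hs1 ((QuotientGroup.eq_one_iff s).mpr h)
    have hsN : s ∉ N := fun h => hsT (Subgroup.mem_inf.mpr ⟨hs, h⟩)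
    have h1 : s * ρ * s⁻¹ * ρ⁻¹ ∈ T := by
      rw [← QuotientGroup.eq_one_iff]
      show π (s * ρ * s⁻¹ * ρ⁻¹) = 1
      rw [map_mul, map_mul, map_mul, map_inv, map_inv, ← hc, mul_inv_cancel_right, mul_inv_cancel]
    have h2 : s * ρ * s⁻¹ * ρ⁻¹ ∈ R := mul_mem (Subgroup.Normal.conj_mem hRn ρ hρ s) (inv_mem hρ)
    have h3 : s * ρ * s⁻¹ * ρ⁻¹ = 1 := by
      have h4 := hcop _ (Subgroup.mem_inf.mp h1).1 _ (Subgroup.mem_inf.mp h2).1
      rw [Nat.coprime_self, orderOf_eq_one_iff] at h4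
      exact h4
    have h5 : s * ρ = ρ * s := by
      have := mul_inv_eq_one.mp h3
      rw [mul_inv_eq_iff_eq_mul] at this
      exact this
    have h6 := heq s hsN ρ (Subgroup.mem_inf.mp hρ).2
    have h7 := (show Commute s ρ from h5).orderOf_mul_eq_mul_orderOf_of_coprime (hcop s hs ρ (Subgroup.mem_inf.mp hρ).1)
    rw [h6] at h7
    have h8 : orderOf ρ = 1 := by
      have hpos := orderOf_pos s
      have : orderOf s * 1 = orderOf s * orderOf ρ := by rw [mul_one]; exact h7
      exact (Nat.eq_of_mul_eq_mul_left hpos this).symm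
    rw [orderOf_eq_one_iff] at h8
    rw [h8, map_one]
    exact one_mem _
  haveI hRmn : (R.map π).Normal := Subgroup.Normal.map hRn π (QuotientGroup.mk'_surjective T)
  have hnormalizer : (S : Subgroup G).map π ≤ Subgroup.normalizer ((R.map π : Subgroup (G ⧸ T)) : Set (G ⧸ T)) := by
    rw [Subgroup.normalizer_eq_top_iff.mpr hRmn]; exact le_top
  have hRm1 : R.map π ≠ ⊥ := by
    intro h
    apply hR1
    rw [eq_bot_iff]
    intro ρ hρ
    have h1 : π ρ ∈ R.map π := ⟨ρ, hρ, rfl⟩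
    rw [h, Subgroup.mem_bot] at h1
    have h2 : ρ ∈ T := (QuotientGroup.eq_one_iff ρ).mp h1
    have h4 := hcop _ (Subgroup.mem_inf.mp h2).1 _ (Subgroup.mem_inf.mp hρ).1
    rw [Nat.coprime_self, orderOf_eq_one_iff] at h4
    rw [Subgroup.mem_bot]; exact h4
  have hSp : IsPGroup q ((S : Subgroup G).map π) := S.2.map π
  -- the isomorphism
  have hiso : Nonempty ((Q : Subgroup (G ⧸ N)) ≃* (S : Subgroup G).map π) := by
    let S1 : Sylow q (G ⧸ N) := S.mapSurjective (QuotientGroup.mk'_surjective N)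
    have e1 : (Q : Subgroup (G ⧸ N)) ≃* (S1 : Subgroup (G ⧸ N)) := Q.equiv S1
    have hS1 : (S1 : Subgroup (G ⧸ N)) = (S : Subgroup G).map (QuotientGroup.mk' N) := rfl
    let f1 : (S : Subgroup G) →* (S : Subgroup G).map (QuotientGroup.mk' N) := (QuotientGroup.mk' N).subgroupMap S
    let f2 : (S : Subgroup G) →* (S : Subgroup G).map π := π.subgroupMap S
    have hf1 : Function.Surjective f1 := MonoidHom.subgroupMap_surjective _ _
    have hf2 : Function.Surjective f2 := MonoidHom.subgroupMap_surjective _ _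
    have hk : f1.ker = f2.ker := by
      ext s
      rw [MonoidHom.mem_ker, MonoidHom.mem_ker]
      have a1 : f1 s = 1 ↔ (s : G) ∈ N := by
        rw [← QuotientGroup.eq_one_iff]
        exact ⟨fun h => congrArg Subtype.val h, fun h => Subtype.ext h⟩
      have a2 : f2 s = 1 ↔ (s : G) ∈ T := by
        rw [← QuotientGroup.eq_one_iff]
        exact ⟨fun h => congrArg Subtype.val h, fun h => Subtype.ext h⟩
      rw [a1, a2]
      exact ⟨fun h => Subgroup.mem_inf.mpr ⟨s.2, h⟩, fun h => (Subgroup.mem_inf.mp h).2⟩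
    have e2 := QuotientGroup.quotientKerEquivOfSurjective f1 hf1
    have e3 := QuotientGroup.quotientKerEquivOfSurjective f2 hf2
    have e4 := QuotientGroup.quotientMulEquivOfEq hk
    exact ⟨e1.trans ((e2.symm.trans e4).trans e3)⟩
  obtain ⟨e⟩ := hiso
  by_cases hq2 : q = 2
  · subst hq2
    rcases hfpf.two_group hnormalizer hRm1 hSp with h | ⟨n, ⟨f⟩⟩
    · exact Or.inl ((MulEquiv.isCyclic e).mpr h)
    · exact Or.inr ⟨n, ⟨e.trans f⟩⟩
  · exact Or.inl ((MulEquiv.isCyclic e).mpr (hfpf.pgroup_cyclic hnormalizer hRm1 hqp hq2 hSp))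

end Cfsg.Agent.S4155
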