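import Cfsg.Statements.S4156
import Mathlib

set_option autoImplicit false
open Cfsg

namespace Cfsg.Agent.S4156

open Matrix in
/-- a faithful nontrivial representation of a nonabelian simple group lands in PSL -/
theorem psl_of_rep {A : Type*} [Group A] [IsSimpleGroup A] (hA : ∃ a b : A, a * b ≠ b * a) {n : ℕ} {F : Type*} [Field F]
    (M : A →* Matrix (Fin n) (Fin n) F) (hM : ∃ a, M a ≠ 1) :
    ∃ f : A →* Matrix.ProjectiveSpecialLinearGroup (Fin n) F, Function.Injective f := by
  classical
  obtain ⟨a, b, hab⟩ := hA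
  have htriv : ∀ {B : Type _} [CommGroup B] (g : A →* B), ∀ x, g x = 1 := by
    intro B _ g x
    rcases (inferInstance : g.ker.Normal).eq_bot_or_eq_top with h | h
    · exfalso
      apply hab
      have hinj := (MonoidHom.ker_eq_bot_iff g).mp h
      apply hinj
      rw [map_mul, map_mul, mul_comm]
    · have : x ∈ g.ker := by rw [h]; trivial
      exact this
  have hMinj : Function.Injective M := by
    rcases (inferInstance : M.ker.Normal).eq_bot_or_eq_top with h | h
    · intro x y hxy
      have h1 : x * y⁻¹ ∈ M.ker := by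
        rw [MonoidHom.mem_ker, map_mul, hxy, ← map_mul, mul_inv_cancel, map_one]
      rw [h, Subgroup.mem_bot] at h1
      exact mul_inv_eq_one.mp h1
    · exfalso
      obtain ⟨c, hc⟩ := hM
      apply hc
      have : c ∈ M.ker := by rw [h]; trivial
      exact this
  have hdet : ∀ x, (M x).det = 1 := by
    intro x
    let g : A →* Fˣ := MonoidHom.toHomUnits ((Matrix.detMonoidHom).comp M)
    have := htriv g x
    have h2 := congrArg Units.val this
    exact h2
  let f : A →* Matrix.SpecialLinearGroup (Fin n) F :=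
    { toFun := fun x => ⟨M x, hdet x⟩
      map_one' := Subtype.ext (map_one M)
      map_mul' := fun x y => Subtype.ext (map_mul M x y) }
  have hf : Function.Injective f := fun x y hxy => hMinj (congrArg Subtype.val hxy)
  refine ⟨(QuotientGroup.mk' _).comp f, ?_⟩
  rw [← MonoidHom.ker_eq_bot_iff]
  rcases (inferInstance : ((QuotientGroup.mk' (Subgroup.center (Matrix.SpecialLinearGroup (Fin n) F))).comp f).ker.Normal).eq_bot_or_eq_top with h | h
  · exact h
  · exfalso
    apply hab
    apply hf
    rw [map_mul, map_mul]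
    have ha : a ∈ ((QuotientGroup.mk' (Subgroup.center (Matrix.SpecialLinearGroup (Fin n) F))).comp f).ker := by rw [h]; trivial
    rw [MonoidHom.mem_ker, MonoidHom.comp_apply, QuotientGroup.mk'_apply, QuotientGroup.eq_one_iff, Subgroup.mem_center_iff] at ha
    exact (ha (f b)).symm

/-- Let n ≥ 5 and F a finite field. Then the projective special linear group PSL_n(F) contains a subgroup isomorphic to the alternating group of degree n + 1. -/
theorem result (n : ℕ) (hn : 5 ≤ n) (F : Type*) [Field F] [Finite F] :
    ∃ f : alternatingGroup (Fin (n + 1)) →* Matrix.ProjectiveSpecialLinearGroup (Fin n) F, Function.Injective f := by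
  classical
  haveI : IsSimpleGroup (alternatingGroup (Fin (n + 1))) :=
    alternatingGroup.isSimpleGroup (by rw [Nat.card_eq_fintype_card, Fintype.card_fin]; omega)
  -- the sum-zero submodule
  let s : (Fin (n + 1) → F) →ₗ[F] F := ∑ i, LinearMap.proj i
  have hs : ∀ v, s v = ∑ i, v i := fun v => by simp [s]
  let W : Submodule F (Fin (n + 1) → F) := LinearMap.ker s
  have hW : ∀ v, v ∈ W ↔ ∑ i, v i = 0 := fun v => by rw [LinearMap.mem_ker, hs]
  -- permutation action
  let P : Equiv.Perm (Fin (n + 1)) →* Module.End F (Fin (n + 1) → F) :=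
    { toFun := fun σ => LinearMap.funLeft F F (σ⁻¹ : Equiv.Perm (Fin (n + 1)))
      map_one' := by ext; rfl
      map_mul' := fun σ τ => by
        apply LinearMap.ext
        intro v
        funext i
        show v ((σ * τ)⁻¹ i) = v (τ⁻¹ (σ⁻¹ i))
        rw [mul_inv_rev]; rfl }
  have hP : ∀ σ v i, P σ v i = v (σ⁻¹ i) := fun σ v i => rfl
  have hPW : ∀ σ, ∀ v ∈ W, P σ v ∈ W := by
    intro σ v hv
    rw [hW] at hv ⊢
    rw [← hv]
    exact Equiv.sum_comp (σ⁻¹ : Equiv.Perm (Fin (n + 1))) v
  let Q : alternatingGroup (Fin (n + 1)) →* Module.End F W :=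
    { toFun := fun σ => (P σ).restrict (hPW σ)
      map_one' := by ext v i; rfl
      map_mul' := fun σ τ => by
        apply LinearMap.ext
        intro v
        apply Subtype.ext
        show P ((σ * τ : alternatingGroup (Fin (n + 1))) : Equiv.Perm (Fin (n + 1))) (v : Fin (n + 1) → F) = P σ (P τ v)
        rw [Subgroup.coe_mul, map_mul]; rfl }
  have hfr : Module.finrank F W = n := by
    have h1 := LinearMap.finrank_range_add_finrank_ker s
    rw [Module.finrank_pi, Fintype.card_fin] at h1
    have h2 : LinearMap.range s = ⊤ := by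
      rw [LinearMap.range_eq_top]
      intro c
      refine ⟨Pi.single 0 c, ?_⟩
      rw [hs]
      simp
    rw [h2, finrank_top, Module.finrank_self] at h1
    show Module.finrank F (LinearMap.ker s) = n
    omega
  let b : Module.Basis (Fin n) F W := Module.finBasisOfFinrankEq F W hfr
  let M : alternatingGroup (Fin (n + 1)) →* Matrix (Fin n) (Fin n) F :=
    ((LinearMap.toMatrixAlgEquiv b : Module.End F W ≃ₐ[F] Matrix (Fin n) (Fin n) F) : Module.End F W →* Matrix (Fin n) (Fin n) F).comp Q
  apply psl_of_rep _ M _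
  · -- noncommutativity
    have h3 : 4 ≤ Nat.card (Fin (n + 1)) := by rw [Nat.card_eq_fintype_card, Fintype.card_fin]; omega
    have hc := alternatingGroup.center_eq_bot h3
    by_contra hcomm
    push Not at hcomm
    have : Subgroup.center (alternatingGroup (Fin (n + 1))) = ⊤ := by
      rw [eq_top_iff]
      intro a _
      rw [Subgroup.mem_center_iff]
      intro b
      exact hcomm b a
    rw [hc] at this
    exact bot_ne_top this
  · let i0 : Fin (n + 1) := ⟨0, by omega⟩
    let i1 : Fin (n + 1) := ⟨1, by omega⟩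
    let i2 : Fin (n + 1) := ⟨2, by omega⟩
    let i3 : Fin (n + 1) := ⟨3, by omega⟩
    have h01 : i0 ≠ i1 := by intro h; have := congrArg Fin.val h; simp [i0, i1] at this
    have h02 : i0 ≠ i2 := by intro h; have := congrArg Fin.val h; simp [i0, i2] at this
    have h12 : i1 ≠ i2 := by intro h; have := congrArg Fin.val h; simp [i1, i2] at this
    have h03 : i0 ≠ i3 := by intro h; have := congrArg Fin.val h; simp [i0, i3] at this
    have h13 : i1 ≠ i3 := by intro h; have := congrArg Fin.val h; simp [i1, i3] at this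
    let σ : Equiv.Perm (Fin (n + 1)) := Equiv.swap i0 i1 * Equiv.swap i1 i2
    have hσ : σ ∈ alternatingGroup (Fin (n + 1)) := by
      rw [Equiv.Perm.mem_alternatingGroup, Equiv.Perm.sign_mul, Equiv.Perm.sign_swap h01, Equiv.Perm.sign_swap h12]
      rfl
    refine ⟨⟨σ, hσ⟩, ?_⟩
    intro hM1
    have hQ1 : Q ⟨σ, hσ⟩ = 1 := by
      apply (LinearMap.toMatrixAlgEquiv b).injective
      rw [map_one]
      exact hM1
    let v : Fin (n + 1) → F := Pi.single i0 1 - Pi.single i3 1
    have hv : v ∈ W := by
      rw [hW]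
      simp [v, Finset.sum_sub_distrib]
    have h4 := congrArg (fun (g : Module.End F W) => ((g ⟨v, hv⟩ : W) : Fin (n + 1) → F) i1) hQ1
    have h5 : v (σ⁻¹ i1) = v i1 := h4
    have h6 : σ⁻¹ i1 = i0 := by
      rw [Equiv.Perm.inv_eq_iff_eq]
      show i1 = Equiv.swap i0 i1 (Equiv.swap i1 i2 i0)
      rw [Equiv.swap_apply_of_ne_of_ne h01 h02, Equiv.swap_apply_left]
    rw [h6] at h5
    simp [v, h03, h03.symm, h13, h13.symm, h01, h01.symm, Pi.single_apply] at h5

end Cfsg.Agent.S4156
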