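import Cfsg.Statements.S4160
import Mathlib

set_option autoImplicit false
open Cfsg

namespace Cfsg.Agent.S4160

open Pointwise

theorem union_conj_card {G : Type*} [Group G] [Finite G] (A : Subgroup G) :
    Nat.card {x : G // x ≠ 1 ∧ ∃ g : G, g⁻¹ * x * g ∈ A} ≤
      (Subgroup.normalizer (A : Set G)).index * (Nat.card A - 1) := by
  classical
  have h1 : Nat.card {a : A // a ≠ 1} = Nat.card A - 1 := by
    haveI := Fintype.ofFinite A
    rw [Nat.card_eq_fintype_card, Nat.card_eq_fintype_card, Fintype.card_subtype_compl]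
    simp
  rw [← h1, Subgroup.index, ← Nat.card_prod]
  have hmem : ∀ c : (G ⧸ Subgroup.normalizer (A : Set G)) × {a : A // a ≠ 1},
      (c.1.out * (c.2.1 : G) * c.1.out⁻¹) ≠ 1 ∧
        ∃ g : G, g⁻¹ * (c.1.out * (c.2.1 : G) * c.1.out⁻¹) * g ∈ A := by
    rintro ⟨c, a, ha⟩
    refine ⟨?_, c.out, ?_⟩
    · intro h
      apply ha
      have : (a : G) = 1 := by
        have h2 : (a : G) = c.out⁻¹ * (c.out * (a : G) * c.out⁻¹) * c.out := by group
        rw [h2]
        simp only at h
        rw [h]; group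
      exact Subtype.ext this
    · have h2 : c.out⁻¹ * (c.out * (a : G) * c.out⁻¹) * c.out = a := by group
      simp only
      rw [h2]; exact a.2
  refine Nat.card_le_card_of_surjective
    (fun c => (⟨c.1.out * (c.2.1 : G) * c.1.out⁻¹, hmem c⟩ :
      {x : G // x ≠ 1 ∧ ∃ g : G, g⁻¹ * x * g ∈ A})) ?_
  rintro ⟨x, hx1, g, hg⟩
  obtain ⟨n, hn⟩ := QuotientGroup.mk_out_eq_mul (Subgroup.normalizer (A : Set G)) g
  have hmA : (n : G)⁻¹ * (g⁻¹ * x * g) * n ∈ A := by
    have h3 := (Subgroup.mem_normalizer_iff.mp ((Subgroup.normalizer (A : Set G)).inv_mem n.2)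
      (g⁻¹ * x * g)).mp hg
    simpa using h3
  refine ⟨⟨(g : G ⧸ Subgroup.normalizer (A : Set G)),
    ⟨⟨(n : G)⁻¹ * (g⁻¹ * x * g) * n, hmA⟩, ?_⟩⟩, ?_⟩
  · intro h
    have h4 : (n : G)⁻¹ * (g⁻¹ * x * g) * n = 1 := congrArg Subtype.val h
    apply hx1
    have h5 : x = g * n * ((n : G)⁻¹ * (g⁻¹ * x * g) * n) * (n : G)⁻¹ * g⁻¹ := by group
    rw [h5, h4]; group
  · apply Subtype.ext
    simp only
    rw [hn]
    group

theorem npc_of_self_norm {G : Type*} [Group G] [Finite G] {p : ℕ} [hp : Fact p.Prime]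
    (P : Sylow p G)
    (h : Subgroup.normalizer (Subgroup.centralizer ((P : Subgroup G) : Set G) : Set G) ≤
      Subgroup.centralizer ((P : Subgroup G) : Set G)) :
    Cfsg.HasNormalPComplement p G := by
  have h1 : Subgroup.normalizer ((P : Subgroup G) : Set G) ≤
      Subgroup.centralizer ((P : Subgroup G) : Set G) := by
    refine le_trans ?_ h
    intro x hx
    refine (Subgroup.mem_normalizer_fintype (fun c hc => ?_))
    rw [SetLike.mem_coe, Subgroup.mem_centralizer_iff] at hc ⊢
    intro y hy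
    have hy' : x⁻¹ * y * x ∈ (P : Subgroup G) := by
      have h3 := (Subgroup.mem_normalizer_iff.mp
        ((Subgroup.normalizer ((P : Subgroup G) : Set G)).inv_mem hx) y).mp hy
      simpa using h3
    have h4 := hc _ hy'
    calc y * (x * c * x⁻¹) = x * ((x⁻¹ * y * x) * c) * x⁻¹ := by group
      _ = x * (c * (x⁻¹ * y * x)) * x⁻¹ := by rw [h4]
      _ = x * c * x⁻¹ * y := by group
  exact ⟨P, _, inferInstance, MonoidHom.ker_transferSylow_isComplement' P h1⟩

theorem two_le_of_not_le {G : Type*} [Group G] [Finite G] (A : Subgroup G)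
    (h : ¬ Subgroup.normalizer (A : Set G) ≤ A) :
    (Subgroup.normalizer (A : Set G)).index * (2 * Nat.card A) ≤ Nat.card G := by
  have h1 : A ≤ Subgroup.normalizer (A : Set G) := Subgroup.le_normalizer
  have h2 : A.relIndex (Subgroup.normalizer (A : Set G)) ≠ 1 := by
    intro h3
    exact h (Subgroup.relIndex_eq_one.mp h3)
  have h3 : A.relIndex (Subgroup.normalizer (A : Set G)) ≠ 0 := by
    intro h4
    have := Subgroup.relIndex_mul_index h1
    rw [h4, zero_mul] at this
    exact Subgroup.index_ne_zero_of_finite this.symm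
  have h4 := Subgroup.relIndex_mul_index h1
  have h5 := A.card_mul_index
  rw [← h5, ← h4]
  have h6 : 2 ≤ A.relIndex (Subgroup.normalizer (A : Set G)) := by omega
  calc (Subgroup.normalizer (A : Set G)).index * (2 * Nat.card A)
      = Nat.card A * (2 * (Subgroup.normalizer (A : Set G)).index) := by ring
    _ ≤ _ := by gcongr

theorem centralizes_sylow {G : Type*} [Group G] [Finite G] {p : ℕ} [hp : Fact p.Prime]
    (P : Sylow p G) (x : G) (h : ¬ p ∣ (Subgroup.centralizer ({x} : Set G)).index) :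
    ∃ g : G, g⁻¹ * x * g ∈ Subgroup.centralizer ((P : Subgroup G) : Set G) := by
  obtain ⟨Q⟩ := (inferInstance : Nonempty (Sylow p (Subgroup.centralizer ({x} : Set G))))
  have h1 : IsPGroup p ((Q : Subgroup (Subgroup.centralizer ({x} : Set G))).map
      (Subgroup.centralizer ({x} : Set G)).subtype) := Q.2.map _
  have h2 : ¬ p ∣ ((Q : Subgroup (Subgroup.centralizer ({x} : Set G))).map
      (Subgroup.centralizer ({x} : Set G)).subtype).index := by
    rw [Subgroup.index_map_subtype]
    intro h3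
    rcases (hp.out.dvd_mul).mp h3 with h4 | h4
    · exact Q.not_dvd_index h4
    · exact h h4
  let R : Sylow p G := IsPGroup.toSylow h1 h2
  obtain ⟨g, hg⟩ := MulAction.exists_smul_eq G P R
  refine ⟨g, ?_⟩
  rw [Subgroup.mem_centralizer_iff]
  intro y hy
  have h5 : g * y * g⁻¹ ∈ (R : Subgroup G) := by
    rw [← hg]
    show g * y * g⁻¹ ∈ (MulAut.conj g • (P : Subgroup G))
    rw [Subgroup.mem_smul_pointwise_iff_exists]
    exact ⟨y, hy, rfl⟩
  have h6 : g * y * g⁻¹ ∈ Subgroup.centralizer ({x} : Set G) := by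
    have : (R : Subgroup G) = (Q : Subgroup (Subgroup.centralizer ({x} : Set G))).map
      (Subgroup.centralizer ({x} : Set G)).subtype := rfl
    rw [this] at h5
    obtain ⟨z, _, hz⟩ := h5
    rw [← hz]; exact z.2
  rw [Subgroup.mem_centralizer_iff] at h6
  have h7 := h6 x rfl
  calc y * (g⁻¹ * x * g) = g⁻¹ * ((g * y * g⁻¹) * x) * g := by group
    _ = g⁻¹ * (x * (g * y * g⁻¹)) * g := by rw [h7]
    _ = g⁻¹ * x * g * y := by group


/-- Let G be a finite group and p ≠ q primes each dividing the size of some conjugacy class of G, such that no conjugacy class size is divisible by pq. Then G has a normal p-complement or a normal q-complement. -/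
theorem result {G : Type*} [Group G] [Finite G] (p q : ℕ) (hp : p.Prime) (hq : q.Prime) (hpq : p ≠ q)
    (hp' : ∃ x : G, p ∣ (Subgroup.centralizer ({x} : Set G)).index) (hq' : ∃ x : G, q ∣ (Subgroup.centralizer ({x} : Set G)).index) (h : ∀ x : G, ¬ p * q ∣ (Subgroup.centralizer ({x} : Set G)).index) :
    Cfsg.HasNormalPComplement p G ∨ Cfsg.HasNormalPComplement q G := by
  classical
  haveI : Fact p.Prime := ⟨hp⟩
  haveI : Fact q.Prime := ⟨hq⟩
  obtain ⟨P⟩ := (inferInstance : Nonempty (Sylow p G))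
  obtain ⟨Q⟩ := (inferInstance : Nonempty (Sylow q G))
  by_contra hcon
  push Not at hcon
  obtain ⟨hc1, hc2⟩ := hcon
  have hA := two_le_of_not_le (Subgroup.centralizer ((P : Subgroup G) : Set G))
    (fun h => hc1 (npc_of_self_norm P h))
  have hB := two_le_of_not_le (Subgroup.centralizer ((Q : Subgroup G) : Set G))
    (fun h => hc2 (npc_of_self_norm Q h))
  have hA1 := union_conj_card (Subgroup.centralizer ((P : Subgroup G) : Set G))
  have hB1 := union_conj_card (Subgroup.centralizer ((Q : Subgroup G) : Set G))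
  have hcov : Nat.card {x : G // x ≠ 1} ≤
      Nat.card {x : G // x ≠ 1 ∧ ∃ g : G, g⁻¹ * x * g ∈
        Subgroup.centralizer ((P : Subgroup G) : Set G)} +
      Nat.card {x : G // x ≠ 1 ∧ ∃ g : G, g⁻¹ * x * g ∈
        Subgroup.centralizer ((Q : Subgroup G) : Set G)} := by
    haveI := Fintype.ofFinite G
    rw [Nat.card_eq_fintype_card, Nat.card_eq_fintype_card, Nat.card_eq_fintype_card,
      Fintype.card_subtype, Fintype.card_subtype, Fintype.card_subtype]
    refine le_trans (Finset.card_le_card ?_) (Finset.card_union_le _ _)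
    intro x hx
    simp only [Finset.mem_filter, Finset.mem_univ, true_and, Finset.mem_union] at hx ⊢
    have hnd : ¬ p ∣ (Subgroup.centralizer ({x} : Set G)).index ∨
        ¬ q ∣ (Subgroup.centralizer ({x} : Set G)).index := by
      by_contra hno
      push Not at hno
      exact h x (((Nat.coprime_primes hp hq).mpr hpq).mul_dvd_of_dvd_of_dvd hno.1 hno.2)
    rcases hnd with h1 | h1
    · exact Or.inl ⟨hx, centralizes_sylow P x h1⟩
    · exact Or.inr ⟨hx, centralizes_sylow Q x h1⟩
  have hG1 : Nat.card {x : G // x ≠ 1} = Nat.card G - 1 := by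
    haveI := Fintype.ofFinite G
    rw [Nat.card_eq_fintype_card, Nat.card_eq_fintype_card, Fintype.card_subtype_compl]
    simp
  rw [hG1] at hcov
  have i1 : 1 ≤ (Subgroup.normalizer
      (Subgroup.centralizer ((P : Subgroup G) : Set G) : Set G)).index :=
    Nat.one_le_iff_ne_zero.mpr Subgroup.index_ne_zero_of_finite
  have i2 : 1 ≤ (Subgroup.normalizer
      (Subgroup.centralizer ((Q : Subgroup G) : Set G) : Set G)).index :=
    Nat.one_le_iff_ne_zero.mpr Subgroup.index_ne_zero_of_finite
  have a1 : 1 ≤ Nat.card (Subgroup.centralizer ((P : Subgroup G) : Set G)) := Nat.card_pos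
  have a2 : 1 ≤ Nat.card (Subgroup.centralizer ((Q : Subgroup G) : Set G)) := Nat.card_pos
  have g1 : 1 ≤ Nat.card G := Nat.card_pos
  generalize (Subgroup.normalizer
      (Subgroup.centralizer ((P : Subgroup G) : Set G) : Set G)).index = x1 at *
  generalize (Subgroup.normalizer
      (Subgroup.centralizer ((Q : Subgroup G) : Set G) : Set G)).index = x2 at *
  generalize Nat.card (Subgroup.centralizer ((P : Subgroup G) : Set G)) = c1 at *
  generalize Nat.card (Subgroup.centralizer ((Q : Subgroup G) : Set G)) = c2 at *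
  generalize Nat.card G = n at *
  obtain ⟨d1, rfl⟩ := Nat.exists_eq_add_of_le a1
  obtain ⟨d2, rfl⟩ := Nat.exists_eq_add_of_le a2
  have e1 : 1 + d1 - 1 = d1 := by omega
  have e2 : 1 + d2 - 1 = d2 := by omega
  rw [e1] at hA1
  rw [e2] at hB1
  have : n - 1 ≤ x1 * d1 + x2 * d2 := le_trans hcov (add_le_add hA1 hB1)
  nlinarith [this, hA, hB, Nat.sub_add_cancel g1]

end Cfsg.Agent.S4160
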