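import Cfsg.Statements.S4168
import Mathlib

set_option autoImplicit false
open Cfsg

namespace Cfsg.Agent.S4168

/-- Let L be a finite quasisimple group (perfect with L/Z(L) simple). Then every prime dividing the order of the centre Z(L) also divides the order of L/Z(L). -/
theorem result {L : Type*} [Group L] [Finite L] (hL : Cfsg.IsQuasisimple L)
    (p : ℕ) (hp : p.Prime) (hdiv : p ∣ Nat.card (Subgroup.center L)) : p ∣ (Subgroup.center L).index := by
  have := Fact.mk hp
  by_contra hcon
  let P : Sylow p L := default
  have hPZ : (P : Subgroup L) ≤ Subgroup.center L := by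
    -- a Sylow p-subgroup of the centre is Sylow in L
    let Q : Sylow p (Subgroup.center L) := default
    have hQp : IsPGroup p ((Q : Subgroup (Subgroup.center L)).map (Subgroup.center L).subtype) :=
      Q.isPGroup'.map _
    obtain ⟨P', hP'⟩ := hQp.exists_le_sylow
    have hcard : Nat.card (P' : Subgroup L) ≤ Nat.card ((Q : Subgroup (Subgroup.center L)).map (Subgroup.center L).subtype) := by
      rw [Subgroup.card_map_of_injective (Subgroup.subtype_injective _)]
      rw [show Nat.card (P' : Subgroup L) = _ from Sylow.card_eq_multiplicity P',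
        show Nat.card (Q : Subgroup (Subgroup.center L)) = _ from Sylow.card_eq_multiplicity Q]
      apply Nat.pow_le_pow_right hp.pos
      rw [← Subgroup.card_mul_index (Subgroup.center L), Nat.factorization_mul Nat.card_pos.ne'
        Subgroup.index_ne_zero_of_finite]
      simp [Nat.factorization_eq_zero_of_not_dvd hcon]
    have heq : (Q : Subgroup (Subgroup.center L)).map (Subgroup.center L).subtype = (P' : Subgroup L) :=
      Subgroup.eq_of_le_of_card_ge hP' hcard
    have hP'Z : (P' : Subgroup L) ≤ Subgroup.center L := by
      rw [← heq]; exact Subgroup.map_subtype_le _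
    obtain ⟨x, hx⟩ := MulAction.exists_smul_eq L P' P
    rw [← hx, Sylow.coe_subgroup_smul]
    rintro y ⟨z, hz, rfl⟩
    have hzZ := hP'Z hz
    change x * z * x⁻¹ ∈ _
    have : x * z * x⁻¹ = z := by
      rw [Subgroup.mem_center_iff.mp hzZ x]; group
    rw [this]; exact hzZ
  have hN : Subgroup.normalizer (P : Set L) ≤ Subgroup.centralizer (P : Set L) := by
    intro x _
    rw [Subgroup.mem_centralizer_iff]
    intro y hy
    exact (Subgroup.mem_center_iff.mp (hPZ hy) x).symm
  have hcomp := MonoidHom.ker_transferSylow_isComplement' P hN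
  have hPab : IsMulCommutative (P : Subgroup L) := by
    refine ⟨⟨?_⟩⟩
    rintro ⟨a, ha⟩ ⟨b, hb⟩
    apply Subtype.ext
    exact Subgroup.mem_center_iff.mp (hPZ hb) a
  have hker : (MonoidHom.transferSylow P hN).ker = ⊤ := by
    rw [eq_top_iff, ← hL.1.commutator_eq_top]
    rw [commutator_def, Subgroup.commutator_le]
    intro a _ b _
    rw [MonoidHom.mem_ker, map_commutatorElement, commutatorElement_eq_one_iff_mul_comm]
    exact hPab.is_comm.comm _ _
  rw [hker] at hcomp
  have hbot : (P : Subgroup L) = ⊥ := by
    have := hcomp.disjoint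
    rwa [top_disjoint] at this
  have h1 : Nat.card (P : Subgroup L) = p ^ (Nat.card L).factorization p := Sylow.card_eq_multiplicity P
  rw [hbot, Subgroup.card_bot] at h1
  have hpL : p ∣ Nat.card L := hdiv.trans (Subgroup.card_subgroup_dvd_card _)
  have h2 := (hp.factorization_pos_of_dvd Nat.card_pos.ne' hpL)
  rcases Nat.pow_eq_one.mp h1.symm with h3 | h3
  · exact hp.one_lt.ne' h3
  · omega

end Cfsg.Agent.S4168
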