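import Cfsg.Statements.S4169
import Mathlib
import Cfsg.Agent.LibH6SmallClass
import Cfsg.Agent.LibH6MaxAb

set_option autoImplicit false
open Cfsg

namespace Cfsg.Agent.S4169

/-- Let P be a finite p-group whose conjugacy classes have exactly two sizes (1 and one other value). Then P has nilpotency class at most 3. -/
theorem result {P : Type*} [Group P] [Finite P] {p : ℕ} [Fact p.Prime] (hP : IsPGroup p P)
    (m : ℕ) (hm : 1 < m) (h : ∀ x : P, (Subgroup.centralizer ({x} : Set P)).index = 1 ∨ (Subgroup.centralizer ({x} : Set P)).index = m) :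
    upperCentralSeries P 3 = ⊤ := by
  obtain ⟨A, hAn, hA, hCA⟩ := CfsgLib.H6.exists_selfcentralizing_abelian hP
  have hmin : ∀ x : P, 1 < (Subgroup.centralizer ({x} : Set P)).index → m ≤ (Subgroup.centralizer ({x} : Set P)).index := by
    intro x hx
    rcases h x with h1 | h1
    · omega
    · omega
  have h3 := CfsgLib.H6.small_class_nilpotent A hA hCA m hmin Set.univ (fun x _ => h x)
  have htop : Subgroup.closure (Set.univ : Set P) = ⊤ := Subgroup.closure_univ
  let e : P ≃* (Subgroup.closure (Set.univ : Set P)) := (Subgroup.topEquiv.symm).trans (MulEquiv.subgroupCongr htop.symm)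
  have h4 := Subgroup.comap_upperCentralSeries e 3
  rw [h3] at h4
  exact h4.symm

end Cfsg.Agent.S4169
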