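import Cfsg.Statements.S4170
import Cfsg.Agent.LibFgSyl
import Cfsg.Agent.LibFgBas

set_option autoImplicit false
open scoped Pointwise
open Cfsg

namespace Cfsg.Agent.S4170

set_option linter.style.haveILetI false
set_option linter.unusedSectionVars false
set_option linter.unusedVariables false

/-- Let p be an odd prime and G a nontrivial group of permutations of a finite set Ω that is generated by its elements of p-power order. Then Ω has two disjoint nonempty subsets Δ₁ and Δ₂ such that the index in G of the subgroup of elements mapping Δ₁ onto Δ₁ and Δ₂ onto Δ₂ (and hence also the complement of their union onto itself) is divisible by p. -/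
theorem result {Ω : Type*} [Fintype Ω] (p : ℕ) [Fact p.Prime] (hp : p ≠ 2) (G : Subgroup (Equiv.Perm Ω)) (hG : G ≠ ⊥) (hgen : Subgroup.closure {g : G | ∃ k : ℕ, orderOf g = p ^ k} = ⊤) :
    ∃ Δ₁ Δ₂ : Set Ω, Δ₁.Nonempty ∧ Δ₂.Nonempty ∧ Disjoint Δ₁ Δ₂ ∧ p ∣ (MulAction.stabilizer G Δ₁ ⊓ MulAction.stabilizer G Δ₂).index := by
  classical
  have hp' : p.Prime := Fact.out
  -- an element of order p
  have hex : ∃ x : G, x ≠ 1 ∧ ∃ k : ℕ, orderOf x = p ^ k := by
    by_contra hne
    push Not at hne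
    apply hG
    have h1 : (⊤ : Subgroup G) ≤ ⊥ := by
      rw [← hgen, Subgroup.closure_le]
      rintro x ⟨k, hk⟩
      rw [SetLike.mem_coe, Subgroup.mem_bot]
      by_contra hx
      exact hne x hx k hk
    rw [eq_bot_iff]
    intro x hx
    have h2 := h1 (Subgroup.mem_top (⟨x, hx⟩ : G))
    rw [Subgroup.mem_bot] at h2 ⊢
    exact congrArg Subtype.val h2
  obtain ⟨x, hx1, k, hk⟩ := hex
  have hpG : p ∣ Nat.card G := by
    have h1 : k ≠ 0 := by
      rintro rfl
      rw [pow_zero, orderOf_eq_one_iff] at hk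
      exact hx1 hk
    exact ((dvd_pow_self p h1).trans (dvd_of_eq hk.symm)).trans (orderOf_dvd_natCard x)
  obtain ⟨g, hg⟩ := exists_prime_orderOf_dvd_card' (G := G) p hpG
  have hg1 : (g : Equiv.Perm Ω) ≠ 1 := by
    intro h
    have h2 : g = 1 := Subtype.ext h
    rw [h2, orderOf_one] at hg
    exact hp'.one_lt.ne hg
  obtain ⟨a, ha⟩ : ∃ a : Ω, (g : Equiv.Perm Ω) a ≠ a := by
    by_contra hne
    push Not at hne
    exact hg1 (Equiv.ext hne)
  have hga : g • a ≠ a := ha
  let Δ : Set Ω := {y | ∃ i : ℕ, y = g ^ i • a}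
  have hgp : g ^ p = 1 := by rw [← hg]; exact pow_orderOf_eq_one g
  have hΔcard : Nat.card Δ ≤ p := by
    have h1 : Nat.card Δ ≤ Nat.card (Fin p) := by
      refine Nat.card_le_card_of_surjective (fun i : Fin p => (⟨g ^ (i : ℕ) • a, i, rfl⟩ : Δ)) ?_
      rintro ⟨y, i, rfl⟩
      refine ⟨⟨i % p, Nat.mod_lt _ hp'.pos⟩, ?_⟩
      apply Subtype.ext
      change g ^ (i % p) • a = g ^ i • a
      congr 1
      rw [← hg]; exact pow_mod_orderOf g i
    rwa [Nat.card_fin] at h1
  have haΔ : a ∈ Δ := ⟨0, by rw [pow_zero, one_smul]⟩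
  refine ⟨{a}, Δ \ {a}, ⟨a, rfl⟩, ⟨g • a, ⟨1, by rw [pow_one]⟩, hga⟩, Set.disjoint_sdiff_right, ?_⟩
  by_contra hnd
  obtain ⟨P, hP⟩ := CfsgLib.FgSyl.exists_sylow_le hnd
  -- P fixes Δ pointwise
  have hfixa : ∀ u ∈ (P : Subgroup G), u • a = a := by
    intro u hu
    have h1 := (Subgroup.mem_inf.mp (hP hu)).1
    rw [MulAction.mem_stabilizer_iff, Set.smul_set_singleton] at h1
    exact Set.singleton_injective h1
  have hinv : ∀ u ∈ (P : Subgroup G), ∀ y ∈ Δ \ {a}, u • y ∈ Δ \ {a} := by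
    intro u hu y hy
    have h1 := (Subgroup.mem_inf.mp (hP hu)).2
    rw [MulAction.mem_stabilizer_iff] at h1
    rw [← h1]
    exact Set.smul_mem_smul_set hy
  have hfix : ∀ u ∈ (P : Subgroup G), ∀ y ∈ Δ, u • y = y := by
    intro u hu y hy
    by_cases hya : y = a
    · rw [hya]; exact hfixa u hu
    have hy2 : y ∈ Δ \ {a} := ⟨hy, hya⟩
    have h1 : MulAction.orbit (P : Subgroup G) y ⊆ Δ \ {a} := by
      rintro _ ⟨v, rfl⟩
      exact hinv v v.2 y hy2
    obtain ⟨n, hn⟩ := P.isPGroup'.card_orbit y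
    have h2 : Nat.card (MulAction.orbit (P : Subgroup G) y) < p := by
      have h3 : Nat.card (MulAction.orbit (P : Subgroup G) y) < Nat.card Δ := by
        rw [Nat.card_coe_set_eq, Nat.card_coe_set_eq]
        apply Set.ncard_lt_ncard _ (Set.toFinite Δ)
        refine ⟨h1.trans Set.diff_subset, fun h4 => ?_⟩
        exact (h1 (h4 haΔ)).2 rfl
      omega
    have h3 : n = 0 := by
      by_contra hn0
      have h4 : p ≤ p ^ n := Nat.le_self_pow hn0 p
      omega
    rw [h3, pow_zero, Nat.card_eq_one_iff_unique] at hn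
    obtain ⟨⟨hs⟩, -⟩ := hn
    exact congrArg Subtype.val (hs ⟨(⟨u, hu⟩ : (P : Subgroup G)) • y, MulAction.mem_orbit _ _⟩ ⟨y, MulAction.mem_orbit_self y⟩)
  -- the setwise and pointwise stabilizers
  let M : Subgroup G := MulAction.stabilizer G Δ
  let K : Subgroup M :=
    { carrier := {m | ∀ y ∈ Δ, (m : G) • y = y}
      mul_mem' := fun {u v} hu hv y hy => by
        change ((u : G) * (v : G)) • y = y
        rw [mul_smul, hv y hy, hu y hy]
      one_mem' := fun y hy => one_smul _ y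
      inv_mem' := fun {u} hu y hy => by
        change (u : G)⁻¹ • y = y
        rw [inv_smul_eq_iff, hu y hy] }
  have hMΔ : ∀ m ∈ M, ∀ y ∈ Δ, m • y ∈ Δ := by
    intro m hm y hy
    have h1 : m • Δ = Δ := hm
    rw [← h1]
    exact Set.smul_mem_smul_set hy
  have hKn : K.Normal := ⟨fun u hu m y hy => by
    change ((m : G) * (u : G) * (m : G)⁻¹) • y = y
    rw [mul_smul, mul_smul, hu _ (hMΔ _ (M.inv_mem m.2) y hy), smul_inv_smul]⟩
  have hPM : (P : Subgroup G) ≤ M := by
    intro u hu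
    change u • Δ = Δ
    apply Set.Subset.antisymm
    · rintro _ ⟨y, hy, rfl⟩
      change u • y ∈ Δ
      rw [hfix u hu y hy]; exact hy
    · intro y hy
      exact ⟨y, hy, hfix u hu y hy⟩
  have hPK : (P.subtype hPM : Subgroup M) ≤ K := by
    intro u hu y hy
    exact hfix u hu y hy
  have hKi : ¬ p ∣ K.index := CfsgLib.FgSyl.not_dvd_index_of_le (P.subtype hPM) hPK
  have hgM : g ∈ M := by
    change g • Δ = Δ
    apply Set.Subset.antisymm
    · rintro _ ⟨_, ⟨i, rfl⟩, rfl⟩
      refine ⟨i + 1, ?_⟩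
      change g • g ^ i • a = g ^ (i + 1) • a
      rw [pow_succ', mul_smul]
    · rintro _ ⟨i, rfl⟩
      refine ⟨g ^ (i + (p - 1)) • a, ⟨_, rfl⟩, ?_⟩
      change g • g ^ (i + (p - 1)) • a = g ^ i • a
      rw [← mul_smul, ← pow_succ']
      congr 1
      have : i + (p - 1) + 1 = i + p := by have := hp'.pos; omega
      rw [this, pow_add, hgp, mul_one]
  have hgK : (⟨g, hgM⟩ : M) ∈ K := by
    refine CfsgLib.FgBas.mem_of_pow_mem (m := K.index) (Subgroup.pow_index_mem K _) ?_
    rw [Subgroup.orderOf_mk, hg]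
    exact (Nat.Prime.coprime_iff_not_dvd hp').mpr hKi
  exact hga (hgK a haΔ)

end Cfsg.Agent.S4170
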