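import Cfsg.Statements.S4177
import Mathlib

set_option autoImplicit false
open Cfsg

namespace Cfsg.Agent.S4177

/-- Let k be a field whose characteristic does not divide the order of the finite group H (for instance a field of characteristic zero), and ρ a k-linear representation of H on V. Let a be a vector whose H-orbit spans V. Then the space of H-fixed vectors has dimension at most 1, and every vector b whose H-orbit has size coprime to the size of the orbit of a is fixed by H. -/
theorem result {k V H : Type*} [Field k] [AddCommGroup V] [Module k V] [Group H] [Finite H]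
    (hchar : ¬ ringChar k ∣ Nat.card H) (ρ : Representation k H V) (a : V)
    (hspan : Submodule.span k {u : V | ∃ h : H, ρ h a = u} = ⊤) :
    Module.finrank k ρ.invariants ≤ 1 ∧
    ∀ b : V, (Nat.card {u : V | ∃ h : H, ρ h a = u}).Coprime (Nat.card {u : V | ∃ h : H, ρ h b = u}) → ∀ h : H, ρ h b = b := by
  classical
  haveI : Fintype H := Fintype.ofFinite H
  have hcast : ((Nat.card H : ℕ) : k) ≠ 0 := by
    intro h
    exact hchar ((ringChar.spec k _).mp h)
  -- the sum operator
  let E : V →ₗ[k] V := ∑ h : H, ρ h
  have hE : ∀ v, E v = ∑ h : H, ρ h v := fun v => by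
    show (∑ h : H, ρ h) v = _
    rw [LinearMap.sum_apply]
  have hρE : ∀ x v, ρ x (E v) = E v := by
    intro x v
    rw [hE, map_sum]
    have : ∀ h : H, ρ x (ρ h v) = ρ (x * h) v := fun h => by rw [map_mul]; rfl
    rw [Finset.sum_congr rfl (fun h _ => this h)]
    exact Equiv.sum_comp (Equiv.mulLeft x) (fun h => ρ h v)
  have hEρ : ∀ x v, E (ρ x v) = E v := by
    intro x v
    rw [hE, hE]
    have : ∀ h : H, ρ h (ρ x v) = ρ (h * x) v := fun h => by rw [map_mul]; rfl
    rw [Finset.sum_congr rfl (fun h _ => this h)]
    exact Equiv.sum_comp (Equiv.mulRight x) (fun h => ρ h v)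
  have hEinv : ∀ v, (∀ h, ρ h v = v) → E v = (Nat.card H : k) • v := by
    intro v hv
    rw [hE, Finset.sum_congr rfl (fun h _ => hv h), Finset.sum_const, Finset.card_univ, ← Nat.card_eq_fintype_card,
      Nat.cast_smul_eq_nsmul]
  have hspanE : ∀ v, E v ∈ Submodule.span k {E a} := by
    intro v
    have hv : v ∈ Submodule.span k {u : V | ∃ h : H, ρ h a = u} := by rw [hspan]; trivial
    induction hv using Submodule.span_induction with
    | mem x hx =>
      obtain ⟨h, rfl⟩ := hx
      rw [hEρ]
      exact Submodule.mem_span_singleton_self _
    | zero => rw [map_zero]; exact zero_mem _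
    | add x y _ _ hx hy => rw [map_add]; exact add_mem hx hy
    | smul c x _ hx => rw [map_smul]; exact Submodule.smul_mem _ _ hx
  constructor
  · have hle : ρ.invariants ≤ Submodule.span k {E a} := by
      intro v hv
      rw [Representation.mem_invariants] at hv
      have h1 := hspanE v
      rw [hEinv v hv] at h1
      have := Submodule.smul_mem _ ((Nat.card H : k)⁻¹) h1
      rwa [smul_smul, inv_mul_cancel₀ hcast, one_smul] at this
    haveI : Module.Finite k (Submodule.span k {E a}) := Module.Finite.span_singleton k _
    calc Module.finrank k ρ.invariants ≤ Module.finrank k (Submodule.span k {E a}) := Submodule.finrank_mono hle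
      _ ≤ 1 := by
          have := finrank_span_le_card (R := k) ({E a} : Set V)
          simpa using this
  · intro b hcop
    letI act : MulAction H V :=
      { smul := fun h v => ρ h v
        one_smul := fun v => by show ρ 1 v = v; rw [map_one]; rfl
        mul_smul := fun x y v => by show ρ (x * y) v = ρ x (ρ y v); rw [map_mul]; rfl }
    have hsm : ∀ (h : H) (v : V), h • v = ρ h v := fun h v => rfl
    let B : Subgroup H := MulAction.stabilizer H b
    have hBn : B.index = Nat.card {u : V | ∃ h : H, ρ h b = u} := by
      rw [MulAction.index_stabilizer, ← Nat.card_coe_set_eq]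
      rfl
    have horb : ∀ v ∈ MulAction.orbit H a, MulAction.orbit B v = MulAction.orbit H a := by
      intro v hv
      have hOv : MulAction.orbit H v = MulAction.orbit H a := MulAction.orbit_eq_iff.mpr hv
      have hfin : (MulAction.orbit H a).Finite := Set.finite_range _
      have hsub : MulAction.orbit B v ⊆ MulAction.orbit H a := by
        rw [← hOv]
        rintro w ⟨β, rfl⟩
        exact ⟨(β : H), rfl⟩
      apply Set.eq_of_subset_of_ncard_le hsub _ hfin
      have h1 : (MulAction.stabilizer H v).index = (MulAction.orbit H a).ncard := by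
        rw [MulAction.index_stabilizer, hOv]
      have h2 : (MulAction.stabilizer H v).relIndex B = (MulAction.orbit B v).ncard := by
        rw [← MulAction.index_stabilizer]
        rfl
      have h3 : (MulAction.stabilizer H v).index ∣ (MulAction.stabilizer H v).relIndex B * B.index := by
        rw [← Subgroup.inf_relIndex_right, Subgroup.relIndex_mul_index inf_le_right]
        exact Subgroup.index_dvd_of_le inf_le_left
      have h4 : ((MulAction.stabilizer H v).index).Coprime B.index := by
        rw [h1, hBn, ← Nat.card_coe_set_eq]
        exact hcop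
      have h5 := h4.dvd_of_dvd_mul_right h3
      rw [h1, h2] at h5
      have hpos : 0 < (MulAction.orbit B v).ncard := by
        rw [Set.ncard_pos (hfin.subset hsub)]
        exact ⟨v, MulAction.mem_orbit_self v⟩
      exact Nat.le_of_dvd hpos h5
    haveI : Fintype B := Fintype.ofFinite B
    let S : V →ₗ[k] V := ∑ h : B, ρ (h : H)
    have hS : ∀ v, S v = ∑ h : B, ρ (h : H) v := fun v => by
      show (∑ h : B, ρ (h : H)) v = _
      rw [LinearMap.sum_apply]
    have hSB : ∀ (β : B) v, S (ρ (β : H) v) = S v := by
      intro x v
      rw [hS, hS]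
      have : ∀ h : B, ρ (h : H) (ρ (x : H) v) = ρ ((h * x : B) : H) v := fun h => by
        rw [Subgroup.coe_mul, map_mul]; rfl
      rw [Finset.sum_congr rfl (fun h _ => this h)]
      exact Equiv.sum_comp (Equiv.mulRight x) (fun h : B => ρ (h : H) v)
    have hSH : ∀ (x : H) (v : V), S (ρ x v) = S v := by
      intro x v
      have hv : v ∈ Submodule.span k {u : V | ∃ h : H, ρ h a = u} := by rw [hspan]; trivial
      induction hv using Submodule.span_induction with
      | mem u hu =>
        have hu' : u ∈ MulAction.orbit H a := hu
        have h1 : ρ x u ∈ MulAction.orbit H a := by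
          obtain ⟨h, rfl⟩ := hu
          exact ⟨x * h, by show ρ (x * h) a = _; rw [map_mul]; rfl⟩
        rw [← horb u hu'] at h1
        obtain ⟨β, hβ⟩ := h1
        have hβ' : ρ (β : H) u = ρ x u := hβ
        rw [← hβ', hSB]
      | zero => rw [map_zero]
      | add u w _ _ hu hw => rw [map_add, map_add, map_add, hu, hw]
      | smul c u _ hu => rw [map_smul, map_smul, map_smul, hu]
    -- S (E v) two ways
    have hSE1 : ∀ v, S (E v) = (Nat.card H : k) • S v := by
      intro v
      rw [hE, map_sum, Finset.sum_congr rfl (fun h _ => hSH h v), Finset.sum_const, Finset.card_univ,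
        ← Nat.card_eq_fintype_card, Nat.cast_smul_eq_nsmul]
    have hSE2 : ∀ v, S (E v) = (Nat.card B : k) • E v := by
      intro v
      rw [hS, Finset.sum_congr rfl (fun (h : B) _ => hρE (h : H) v), Finset.sum_const, Finset.card_univ,
        ← Nat.card_eq_fintype_card, Nat.cast_smul_eq_nsmul]
    have hSb : S b = (Nat.card B : k) • b := by
      have : ∀ h : B, ρ (h : H) b = b := fun h => h.2
      rw [hS, Finset.sum_congr rfl (fun (h : B) _ => this h), Finset.sum_const, Finset.card_univ,
        ← Nat.card_eq_fintype_card, Nat.cast_smul_eq_nsmul]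
    have hBcast : ((Nat.card B : ℕ) : k) ≠ 0 := by
      intro h
      apply hcast
      rw [← Subgroup.card_mul_index B, Nat.cast_mul, h, zero_mul]
    have hfinal : (Nat.card H : k) • b = E b := by
      have h1 := hSE1 b
      rw [hSE2, hSb, smul_smul, mul_comm, ← smul_smul] at h1
      have := congrArg (fun z => ((Nat.card B : k)⁻¹) • z) h1
      simp only [smul_smul, inv_mul_cancel₀ hBcast, one_smul] at this
      rw [← mul_assoc, inv_mul_cancel₀ hBcast, one_mul] at this
      exact this.symm
    intro h
    have hb : b = (Nat.card H : k)⁻¹ • E b := by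
      rw [← hfinal, smul_smul, inv_mul_cancel₀ hcast, one_smul]
    rw [hb, map_smul, hρE]

end Cfsg.Agent.S4177
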