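import Cfsg.Statements.S4176
import Mathlib
import Cfsg.Agent.LibH6PHall
import Cfsg.Agent.S4177

set_option autoImplicit false
open Cfsg

namespace Cfsg.Agent.S4176

/-- Let k be a field of prime characteristic p, H a finite p-soluble group and ρ a k-linear representation of H on V. Let a be a vector that is fixed by some Sylow p-subgroup of H and whose H-orbit spans V. Then the space of H-fixed vectors has dimension at most 1, and every vector b whose H-orbit has size coprime to the size of the orbit of a is fixed by H. -/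
theorem result {k V H : Type*} [Field k] (p : ℕ) [Fact p.Prime] [CharP k p] [AddCommGroup V] [Module k V]
    [Group H] [Finite H] (hsol : Cfsg.IsPSolvable p H) (ρ : Representation k H V) (a : V)
    (hfix : ∃ P : Sylow p H, ∀ x : H, x ∈ (P : Subgroup H) → ρ x a = a)
    (hspan : Submodule.span k {u : V | ∃ h : H, ρ h a = u} = ⊤) :
    Module.finrank k ρ.invariants ≤ 1 ∧
    ∀ b : V, (Nat.card {u : V | ∃ h : H, ρ h a = u}).Coprime (Nat.card {u : V | ∃ h : H, ρ h b = u}) → ∀ h : H, ρ h b = b := by
  classical
  haveI : Fintype H := Fintype.ofFinite H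
  have hpp : p.Prime := Fact.out
  obtain ⟨P, hPa⟩ := hfix
  -- facts for a p-complement K
  have key : ∀ K : Subgroup H, CfsgLib.H6.IsPCompl p K →
      ((Nat.card K : ℕ) : k) ≠ 0 ∧ (∀ h : H, ∃ x ∈ K, ∃ u ∈ (P : Subgroup H), x * u = h) ∧ Nat.card K = Nat.card (H ⧸ (P : Subgroup H)) ∧
      K ⊓ (P : Subgroup H) = ⊥ := by
    intro K hK
    have h0 : (Nat.card K).Coprime (Nat.card (P : Subgroup H)) := by
      obtain ⟨j, hj⟩ := IsPGroup.iff_card.mp P.2
      rw [hj]; exact Nat.Coprime.pow_right _ hK.1
    have h1 : Nat.card K * Nat.card (P : Subgroup H) = Nat.card H := by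
      obtain ⟨m, hm⟩ := hK.2
      have h2 := Subgroup.card_mul_index K
      rw [hm] at h2
      have h3 : Nat.card (P : Subgroup H) = p ^ m := by
        rw [P.card_eq_multiplicity, ← h2, Nat.factorization_mul Nat.card_pos.ne' (pow_pos hpp.pos _).ne', Finsupp.add_apply,
          Nat.Prime.factorization_pow hpp, Finsupp.single_eq_same,
          Nat.factorization_eq_zero_of_not_dvd, zero_add]
        intro h
        exact (Nat.Prime.coprime_iff_not_dvd hpp).mp hK.1.symm h
      rw [h3, h2]
    have hc : K.IsComplement' (P : Subgroup H) := Subgroup.isComplement'_of_coprime h1 h0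
    refine ⟨?_, ?_, ?_, disjoint_iff.mp hc.disjoint⟩
    · intro h
      rw [CharP.cast_eq_zero_iff k p] at h
      exact (Nat.Prime.coprime_iff_not_dvd hpp).mp hK.1.symm h
    · intro h
      obtain ⟨⟨x, u⟩, hxu⟩ := hc.2 h
      exact ⟨x, x.2, u, u.2, hxu⟩
    · have := hc.index_eq_card
      rw [← this]; rfl
  have horb : ∀ K : Subgroup H, CfsgLib.H6.IsPCompl p K →
      {u : V | ∃ h : K, (ρ.comp K.subtype) h a = u} = {u : V | ∃ h : H, ρ h a = u} := by
    intro K hK
    obtain ⟨_, h2, _⟩ := key K hK
    ext v
    constructor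
    · rintro ⟨h, rfl⟩; exact ⟨h, rfl⟩
    · rintro ⟨h, rfl⟩
      obtain ⟨x, hx, u, hu, rfl⟩ := h2 h
      refine ⟨⟨x, hx⟩, ?_⟩
      show ρ x a = ρ (x * u) a
      rw [map_mul]
      show ρ x a = ρ x (ρ u a)
      rw [hPa u hu]
  have hring : ∀ K : Subgroup H, CfsgLib.H6.IsPCompl p K → ¬ ringChar k ∣ Nat.card K := by
    intro K hK h
    rw [ringChar.eq k p] at h
    exact (Nat.Prime.coprime_iff_not_dvd hpp).mp hK.1.symm h
  haveI : Module.Finite k V := by
    refine ⟨?_⟩
    rw [← hspan]
    exact Submodule.fg_span (Set.finite_range (fun h : H => ρ h a))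
  constructor
  · obtain ⟨K, hK⟩ := (CfsgLib.H6.p_hall p _ H rfl hsol).1
    have h1 := (Cfsg.Agent.S4177.result (hring K hK) (ρ.comp K.subtype) a (by rw [horb K hK]; exact hspan)).1
    refine le_trans (Submodule.finrank_mono ?_) h1
    intro v hv
    rw [Representation.mem_invariants] at hv ⊢
    intro g
    exact hv g
  · intro b hcop
    -- B and its p-complement
    let B : Subgroup H :=
      { carrier := {h | ρ h b = b}
        one_mem' := by show ρ 1 b = b; rw [map_one]; rfl
        mul_mem' := fun {x y} hx hy => by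
          show ρ (x * y) b = b
          rw [map_mul]
          show ρ x (ρ y b) = b
          rw [show ρ y b = b from hy, show ρ x b = b from hx]
        inv_mem' := fun {x} hx => by
          show ρ x⁻¹ b = b
          have h1 : ρ x⁻¹ (ρ x b) = b := by
            have : ρ x⁻¹ (ρ x b) = ρ (x⁻¹ * x) b := by rw [map_mul]; rfl
            rw [this, inv_mul_cancel, map_one]; rfl
          rw [show ρ x b = b from hx] at h1
          exact h1 }
    have memB : ∀ h, h ∈ B ↔ ρ h b = b := fun h => Iff.rfl
    obtain ⟨B0, hB0⟩ := (CfsgLib.H6.p_hall p _ B rfl (CfsgLib.PSolv19.psolv_subgroup hpp hsol B)).1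
    let U : Subgroup H := B0.map B.subtype
    have hUB : U ≤ B := Subgroup.map_subtype_le B0
    have hUcard : Nat.card U = Nat.card B0 := Subgroup.card_map_of_injective B.subtype_injective
    obtain ⟨K, hK, hUK⟩ := CfsgLib.H6.exists_pCompl_ge p hsol U (by rw [hUcard]; exact hB0.1)
    obtain ⟨hKk, hKP, hKcard, hKd⟩ := key K hK
    -- K ⊓ B = U
    have hrelU : ∃ m, U.relIndex B = p ^ m := by
      obtain ⟨m, hm⟩ := hB0.2
      refine ⟨m, ?_⟩
      rw [← hm]
      have h1 : U.subgroupOf B = B0 := by
        ext z
        rw [Subgroup.mem_subgroupOf]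
        constructor
        · rintro ⟨w, hw, hwz⟩
          have : w = z := Subtype.ext hwz
          exact this ▸ hw
        · intro hz; exact ⟨z, hz, rfl⟩
      show (U.subgroupOf B).index = B0.index
      rw [h1]
    -- orbit sizes
    have hBn : B.index = Nat.card {u : V | ∃ h : H, ρ h b = u} := by
      letI act : MulAction H V :=
        { smul := fun h v => ρ h v
          one_smul := fun v => by show ρ 1 v = v; rw [map_one]; rfl
          mul_smul := fun x y v => by show ρ (x * y) v = ρ x (ρ y v); rw [map_mul]; rfl }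
      have h1 := MulAction.index_stabilizer H b
      rw [← Nat.card_coe_set_eq] at h1
      exact h1
    have hBKn : (B.subgroupOf K).index = Nat.card {u : V | ∃ h : K, (ρ.comp K.subtype) h b = u} := by
      letI act : MulAction K V :=
        { smul := fun h v => ρ h v
          one_smul := fun v => by show ρ ((1 : K) : H) v = v; rw [Subgroup.coe_one, map_one]; rfl
          mul_smul := fun x y v => by show ρ ((x * y : K) : H) v = ρ x (ρ y v); rw [Subgroup.coe_mul, map_mul]; rfl }
      have h1 := MulAction.index_stabilizer K b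
      rw [← Nat.card_coe_set_eq] at h1
      exact h1
    have hdvd : (B.subgroupOf K).index ∣ B.index := by
      show B.relIndex K ∣ B.index
      obtain ⟨m, hm⟩ := hrelU
      -- relIndex is prime to p
      have h1 : (B.relIndex K).Coprime p :=
        Nat.Coprime.coprime_dvd_left (Subgroup.relIndex_dvd_card B K) hK.1
      -- |K : K ⊓ B| * |H : K| * .. = 
      have h2 : B.relIndex K ∣ U.index := by
        have h3 : (B ⊓ K).index = B.relIndex K * K.index := by
          rw [← Subgroup.relIndex_mul_index (inf_le_right : B ⊓ K ≤ K), Subgroup.inf_relIndex_right]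
        have h4 : (B ⊓ K).index ∣ U.index := Subgroup.index_dvd_of_le (le_inf hUB hUK)
        rw [h3] at h4
        exact (Dvd.intro _ rfl).trans h4
      rw [← Subgroup.relIndex_mul_index hUB, hm] at h2
      exact (Nat.Coprime.pow_right m h1).dvd_of_dvd_mul_left h2
    have hKB : ∀ h : K, ρ (h : H) b = b := by
      have h1 := (Cfsg.Agent.S4177.result (hring K hK) (ρ.comp K.subtype) a (by rw [horb K hK]; exact hspan)).2 b (by
        rw [horb K hK, ← hBKn]
        rw [← hBn] at hcop
        exact Nat.Coprime.coprime_dvd_right hdvd hcop)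
      exact h1
    -- the averaging operator
    haveI : Fintype K := Fintype.ofFinite K
    haveI : Fintype (H ⧸ (P : Subgroup H)) := Fintype.ofFinite _
    let E : V →ₗ[k] V := ∑ h : K, ρ (h : H)
    have hE : ∀ v, E v = ∑ h : K, ρ (h : H) v := fun v => by
      show (∑ h : K, ρ (h : H)) v = _
      rw [LinearMap.sum_apply]
    let F : H ⧸ (P : Subgroup H) → V := Quotient.lift (fun h : H => ρ h a) (by
      intro x y hxy
      have hxy := QuotientGroup.leftRel_apply.mp hxy
      have h1 : y = x * (x⁻¹ * y) := by group
      show ρ x a = ρ y a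
      rw [h1, map_mul]
      show ρ x a = ρ x (ρ (x⁻¹ * y) a)
      rw [hPa _ hxy])
    have hF : ∀ h : H, F (QuotientGroup.mk h) = ρ h a := fun h => rfl
    have hbij : Function.Bijective (fun x : K => (QuotientGroup.mk (x : H) : H ⧸ (P : Subgroup H))) := by
      apply Function.Injective.bijective_of_nat_card_le
      · intro x y hxy
        have h1 := QuotientGroup.eq.mp hxy
        have h2 : (x : H)⁻¹ * (y : H) ∈ K ⊓ (P : Subgroup H) := Subgroup.mem_inf.mpr ⟨mul_mem (inv_mem x.2) y.2, h1⟩
        rw [hKd, Subgroup.mem_bot] at h2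
        exact Subtype.ext (inv_mul_eq_one.mp h2)
      · rw [hKcard]
    have hEa : E a = ∑ q : H ⧸ (P : Subgroup H), F q := by
      rw [hE, ← Function.Bijective.sum_comp hbij F]
      rfl
    have hEaH : ∀ x : H, ρ x (E a) = E a := by
      intro x
      rw [hEa, map_sum]
      have h1 : ∀ q : H ⧸ (P : Subgroup H), ρ x (F q) = F (x • q) := by
        intro q
        induction q using QuotientGroup.induction_on with
        | H y =>
          show ρ x (ρ y a) = ρ (x * y) a
          rw [map_mul]; rfl
      rw [Finset.sum_congr rfl (fun q _ => h1 q)]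
      exact Equiv.sum_comp (MulAction.toPerm x : Equiv.Perm (H ⧸ (P : Subgroup H))) F
    have hEv : ∀ v : V, ∀ x : H, ρ x (E v) = E v := by
      intro v x
      have hv : v ∈ Submodule.span k {u : V | ∃ h : H, ρ h a = u} := by rw [hspan]; trivial
      induction hv using Submodule.span_induction with
      | mem u hu =>
        have hu' : u ∈ {u : V | ∃ h : K, (ρ.comp K.subtype) h a = u} := by rw [horb K hK]; exact hu
        obtain ⟨y, rfl⟩ := hu'
        have h1 : E ((ρ.comp K.subtype) y a) = E a := by
          rw [hE, hE]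
          have : ∀ h : K, ρ (h : H) ((ρ.comp K.subtype) y a) = ρ ((h * y : K) : H) a := fun h => by
            rw [Subgroup.coe_mul, map_mul]; rfl
          rw [Finset.sum_congr rfl (fun h _ => this h)]
          exact Equiv.sum_comp (Equiv.mulRight y) (fun h : K => ρ (h : H) a)
        rw [h1]; exact hEaH x
      | zero => rw [map_zero, map_zero]
      | add u w _ _ hu hw => rw [map_add, map_add, hu, hw]
      | smul c u _ hu => rw [map_smul, map_smul, hu]
    have hEb : E b = (Nat.card K : k) • b := by
      rw [hE, Finset.sum_congr rfl (fun (h : K) _ => hKB h), Finset.sum_const, Finset.card_univ,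
        ← Nat.card_eq_fintype_card, Nat.cast_smul_eq_nsmul]
    intro h
    have h1 := hEv b h
    rw [hEb, map_smul] at h1
    have := congrArg (fun z => ((Nat.card K : k)⁻¹) • z) h1
    simp only [smul_smul, inv_mul_cancel₀ hKk, one_smul] at this
    exact this

end Cfsg.Agent.S4176
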