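import Cfsg.Statements.S4178
import Mathlib

set_option autoImplicit false
open Cfsg

namespace Cfsg.Agent.S4178

/-- Let F be a finite field with q elements, V a non-zero finite-dimensional F-space of dimension d, H a group of invertible linear maps of V, and R the subgroup of H generated by the elements of H that fix some non-zero vector (have eigenvalue 1). Then the index of R in H is at most q^d − 1; and if H leaves invariant some proper non-zero subspace, the index is at most q^(d/2) − 1. -/
theorem result {F V : Type*} [Field F] [Fintype F] [AddCommGroup V] [Module F V] [FiniteDimensional F V] [Nontrivial V]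
    (H : Subgroup (V ≃ₗ[F] V)) :
    (Subgroup.closure {h : ↥H | ∃ v : V, v ≠ 0 ∧ (h : V ≃ₗ[F] V) v = v}).index ≤ Fintype.card F ^ Module.finrank F V - 1 ∧
    ((∃ W : Submodule F V, W ≠ ⊥ ∧ W ≠ ⊤ ∧ ∀ h ∈ H, ∀ w ∈ W, h w ∈ W) →
      ((Subgroup.closure {h : ↥H | ∃ v : V, v ≠ 0 ∧ (h : V ≃ₗ[F] V) v = v}).index : ℝ) ≤ Real.sqrt ((Fintype.card F : ℝ) ^ Module.finrank F V) - 1) := by
  classical
  set R := Subgroup.closure {h : ↥H | ∃ v : V, v ≠ 0 ∧ (h : V ≃ₗ[F] V) v = v} with hR
  have hVfin : Finite V := Module.finite_of_finite F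
  have hFpos : 0 < Fintype.card F := Fintype.card_pos
  -- general principle: H acts on a set and point stabilizers lie in R
  have key : ∀ (Y : Type _) [Finite Y] [MulAction H Y] (y : Y), MulAction.stabilizer H y ≤ R →
      R.index ≤ Nat.card Y := by
    intro Y _ _ y hy
    have h1 : R.index ≤ (MulAction.stabilizer H y).index := by
      apply Nat.le_of_dvd
      · rw [MulAction.index_stabilizer]
        have : Finite (MulAction.orbit H y) := Set.toFinite _
        exact (Set.ncard_pos).mpr ⟨y, MulAction.mem_orbit_self y⟩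
      · exact Subgroup.index_dvd_of_le hy
    refine h1.trans ?_
    rw [MulAction.index_stabilizer]
    calc (MulAction.orbit H y).ncard ≤ (Set.univ : Set Y).ncard := Set.ncard_le_ncard (Set.subset_univ _)
      _ = Nat.card Y := Set.ncard_univ Y
  -- nonzero vectors of an invariant subspace
  have hsub : ∀ W : Submodule F V, W ≠ ⊥ → (∀ h ∈ H, ∀ w ∈ W, h w ∈ W) →
      R.index ≤ Fintype.card F ^ Module.finrank F W - 1 := by
    intro W hW hWH
    obtain ⟨w, hwW, hw0⟩ := Submodule.exists_mem_ne_zero_of_ne_bot hW
    let act : MulAction H {x : W // x ≠ 0} :=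
      { smul := fun h x => ⟨⟨(h : V ≃ₗ[F] V) x.1, hWH h h.2 x.1 x.1.2⟩, by
          intro h0
          apply x.2
          have : (h : V ≃ₗ[F] V) (x.1 : V) = 0 := congrArg Subtype.val h0
          exact Subtype.ext ((LinearEquiv.map_eq_zero_iff _).mp this)⟩
        one_smul := fun x => by
          apply Subtype.ext; apply Subtype.ext; rfl
        mul_smul := fun a b x => by
          apply Subtype.ext; apply Subtype.ext; rfl }
    have h1 := @key {x : W // x ≠ 0} inferInstance act ⟨⟨w, hwW⟩, fun h => hw0 (congrArg Subtype.val h)⟩ (by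
      intro h hh
      apply Subgroup.subset_closure
      refine ⟨w, hw0, ?_⟩
      exact congrArg (fun z : {x : W // x ≠ 0} => ((z.1 : W) : V)) hh)
    have h2 : Nat.card {x : W // x ≠ 0} = Fintype.card F ^ Module.finrank F W - 1 := by
      have : Fintype W := Fintype.ofFinite W
      rw [Nat.card_eq_fintype_card, Fintype.card_subtype_compl, Fintype.card_subtype_eq,
        Module.card_eq_pow_finrank (K := F) (V := W)]
    rw [h2] at h1
    exact h1
  constructor
  · have := hsub ⊤ (by simp) (fun _ _ _ _ => trivial)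
    rwa [finrank_top] at this
  · rintro ⟨W, hW0, hW1, hWH⟩
    have hq : (0 : ℝ) ≤ (Fintype.card F : ℝ) ^ Module.finrank F V := by positivity
    have hfin : ∀ d : ℕ, 2 * d ≤ Module.finrank F V → R.index ≤ Fintype.card F ^ d - 1 →
        ((R.index : ℕ) : ℝ) ≤ Real.sqrt ((Fintype.card F : ℝ) ^ Module.finrank F V) - 1 := by
      intro d hd h1
      have h2 : ((Fintype.card F ^ d : ℕ) : ℝ) ≤ Real.sqrt ((Fintype.card F : ℝ) ^ Module.finrank F V) := by
        apply Real.le_sqrt_of_sq_le
        push_cast
        rw [← pow_mul]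
        apply pow_le_pow_right₀
        · exact_mod_cast hFpos
        · omega
      have h3 : 1 ≤ Fintype.card F ^ d := Nat.one_le_pow _ _ hFpos
      have h4 : ((R.index : ℕ) : ℝ) ≤ ((Fintype.card F ^ d - 1 : ℕ) : ℝ) := by exact_mod_cast h1
      rw [Nat.cast_sub h3] at h4
      push_cast at h4 h2 ⊢
      linarith
    by_cases hdim : 2 * Module.finrank F W ≤ Module.finrank F V
    · exact hfin _ hdim (hsub W hW0 hWH)
    · -- use the quotient
      have hquot : Module.finrank F (V ⧸ W) + Module.finrank F W = Module.finrank F V :=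
        Submodule.finrank_quotient_add_finrank W
      apply hfin (Module.finrank F (V ⧸ W)) (by omega)
      have hQfin : Finite (V ⧸ W) := Finite.of_surjective W.mkQ W.mkQ_surjective
      obtain ⟨v, hv⟩ : ∃ v : V, v ∉ W := by
        by_contra hcon
        push Not at hcon
        exact hW1 (eq_top_iff.mpr fun x _ => hcon x)
      have hle : ∀ h : H, W ≤ W.comap ((h : V ≃ₗ[F] V) : V →ₗ[F] V) := fun h w hw => hWH h h.2 w hw
      let f : H → (V ⧸ W) →ₗ[F] (V ⧸ W) := fun h => W.mapQ W ((h : V ≃ₗ[F] V) : V →ₗ[F] V) (hle h)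
      have hf : ∀ (h : H) (x : V), f h (W.mkQ x) = W.mkQ ((h : V ≃ₗ[F] V) x) := fun h x => rfl
      have hf0 : ∀ (h : H) (x : V ⧸ W), x ≠ 0 → f h x ≠ 0 := by
        intro h x hx0 h0
        obtain ⟨x, rfl⟩ := W.mkQ_surjective x
        rw [hf] at h0
        apply hx0
        have h1 : (h : V ≃ₗ[F] V) x ∈ W := (Submodule.Quotient.mk_eq_zero W).mp h0
        have h2 := hWH (h⁻¹ : H) (h⁻¹ : H).2 _ h1
        have h3 : ((h⁻¹ : H) : V ≃ₗ[F] V) ((h : V ≃ₗ[F] V) x) = x := by
          change ((h : V ≃ₗ[F] V)⁻¹ * (h : V ≃ₗ[F] V)) x = x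
          rw [inv_mul_cancel]; rfl
        rw [h3] at h2
        exact (Submodule.Quotient.mk_eq_zero W).mpr h2
      let act : MulAction H {x : V ⧸ W // x ≠ 0} :=
        { smul := fun h x => ⟨f h x.1, hf0 h x.1 x.2⟩
          one_smul := fun x => by
            apply Subtype.ext
            obtain ⟨y, hy⟩ := W.mkQ_surjective x.1
            change f 1 x.1 = x.1
            rw [← hy, hf]; rfl
          mul_smul := fun a b x => by
            apply Subtype.ext
            obtain ⟨y, hy⟩ := W.mkQ_surjective x.1
            change f (a * b) x.1 = f a (f b x.1)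
            rw [← hy, hf, hf, hf]; rfl }
      have hmk : W.mkQ v ≠ 0 := fun h => hv ((Submodule.Quotient.mk_eq_zero W).mp h)
      have h1 := @key {x : V ⧸ W // x ≠ 0} inferInstance act ⟨W.mkQ v, hmk⟩ (by
        intro h hh
        apply Subgroup.subset_closure
        have hh' : f h (W.mkQ v) = W.mkQ v := congrArg Subtype.val hh
        -- h - 1 is not injective
        by_contra hno
        have hno : ∀ x : V, x ≠ 0 → (h : V ≃ₗ[F] V) x ≠ x := fun x h0 h1 => hno ⟨x, h0, h1⟩
        let g : V →ₗ[F] V := ((h : V ≃ₗ[F] V) : V →ₗ[F] V) - LinearMap.id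
        have hginj : Function.Injective g := by
          rw [← LinearMap.ker_eq_bot, LinearMap.ker_eq_bot']
          intro x hx
          by_contra hx0
          exact hno x hx0 (sub_eq_zero.mp hx)
        have hgW : ∀ w ∈ W, g w ∈ W := fun w hw => W.sub_mem (hWH h h.2 w hw) hw
        have hmap : W.map g = W := by
          apply Submodule.eq_of_le_of_finrank_eq
          · rintro _ ⟨w, hw, rfl⟩
            exact hgW w hw
          · exact (LinearEquiv.finrank_eq (Submodule.equivMapOfInjective g hginj W)).symm
        have hgv : g v ∈ W := by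
          have : W.mkQ ((h : V ≃ₗ[F] V) v - v) = 0 := by
            rw [map_sub, ← hf, hh', sub_self]
          exact (Submodule.Quotient.mk_eq_zero W).mp this
        rw [← hmap] at hgv
        obtain ⟨w, hw, hwv⟩ := hgv
        exact hv (hginj hwv ▸ hw))
      have h2 : Nat.card {x : V ⧸ W // x ≠ 0} = Fintype.card F ^ Module.finrank F (V ⧸ W) - 1 := by
        have : Fintype (V ⧸ W) := Fintype.ofFinite _
        rw [Nat.card_eq_fintype_card, Fintype.card_subtype_compl, Fintype.card_subtype_eq,
          Module.card_eq_pow_finrank (K := F) (V := V ⧸ W)]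
      rw [h2] at h1
      exact h1

end Cfsg.Agent.S4178
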