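import Cfsg.Statements.S4182
import Mathlib

set_option autoImplicit false
open Cfsg
open scoped Pointwise

namespace Cfsg.Agent.S4182

universe u

/-- `p`-elements. -/
def IsPel (p : ℕ) {G : Type*} [Group G] (g : G) : Prop := ∃ k : ℕ, orderOf g = p ^ k

theorem main (p : ℕ) [hp : Fact p.Prime] (n : ℕ) : ∀ (G : Type u) [Group G] [Finite G], Nat.card G = n →
    Subgroup.closure {g : G | IsPel p g} = ⊤ → ∀ S : Finset (Subgroup G), (∀ K ∈ S, K ≠ ⊤) →
    (∀ g : G, IsPel p g → ∃ K ∈ S, g ∈ K) → p + 1 ≤ S.card := by
  classical
  induction n using Nat.strong_induction_on with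
  | _ n ih =>
  intro G _ _ hn hgen S hS hcov
  by_contra hcon
  have hSp : S.card ≤ p := by omega
  have h2 := hp.out.two_le
  by_cases hPG : IsPGroup p G
  · -- p-group: counting
    have := Fintype.ofFinite G
    have hall : ∀ g : G, ∃ K ∈ S, g ∈ K := fun g => hcov g (IsPGroup.iff_orderOf.mp hPG g)
    have hK : ∀ K ∈ S, p * (Finset.univ.filter (· ∈ K)).card ≤ Fintype.card G := by
      intro K hK
      obtain ⟨m, hm⟩ := hPG.index K
      have hm0 : m ≠ 0 := by
        rintro rfl
        rw [pow_zero, Subgroup.index_eq_one] at hm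
        exact hS K hK hm
      have h1 : p ≤ K.index := by
        rw [hm]; exact Nat.le_self_pow hm0 p
      have h3 : Nat.card K * K.index = Nat.card G := Subgroup.card_mul_index K
      have h4 : (Finset.univ.filter (· ∈ K)).card = Nat.card K := by
        rw [Nat.card_eq_fintype_card, Fintype.card_subtype]
      rw [h4, ← Nat.card_eq_fintype_card, ← h3, mul_comm]
      exact Nat.mul_le_mul_left _ h1
    have hsub : (Finset.univ.erase (1 : G)) ⊆ S.biUnion (fun K => (Finset.univ.filter (· ∈ K)).erase 1) := by
      intro g hg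
      obtain ⟨K, hKS, hgK⟩ := hall g
      rw [Finset.mem_biUnion]
      exact ⟨K, hKS, by simpa using ⟨(Finset.mem_erase.mp hg).1, hgK⟩⟩
    have hc1 := (Finset.card_le_card hsub).trans Finset.card_biUnion_le
    rw [Finset.card_erase_of_mem (Finset.mem_univ _), Finset.card_univ] at hc1
    have hc2 : ∑ K ∈ S, p * ((Finset.univ.filter (· ∈ K)).erase (1:G)).card ≤ ∑ K ∈ S, (Fintype.card G - p) := by
      apply Finset.sum_le_sum
      intro K hKS
      rw [Finset.card_erase_of_mem (by simp [K.one_mem]), Nat.mul_sub, mul_one]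
      have := hK K hKS
      omega
    rw [← Finset.mul_sum, Finset.sum_const, smul_eq_mul] at hc2
    have hc3 : S.card * (Fintype.card G - p) ≤ p * (Fintype.card G - p) := Nat.mul_le_mul_right _ hSp
    have hc4 := (Nat.mul_le_mul_left p hc1).trans (hc2.trans hc3)
    have hc5 := Nat.le_of_mul_le_mul_left hc4 hp.out.pos
    have hpos : 0 < Fintype.card G := Fintype.card_pos
    -- |G| - 1 ≤ |G| - p
    by_cases hle : Fintype.card G ≤ p
    · have h1 : Fintype.card G = 1 := by omega
      have : Subsingleton G := Fintype.card_le_one_iff_subsingleton.mp h1.le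
      obtain ⟨K, hKS, -⟩ := hall 1
      exact hS K hKS (Subsingleton.elim _ _)
    · omega
  · -- not a p-group
    -- every proper p-generated subgroup is contained in a member of S
    let core : Subgroup G → Subgroup G := fun K => Subgroup.closure {g : G | g ∈ K ∧ IsPel p g}
    have hcore_le : ∀ K, core K ≤ K := fun K => (Subgroup.closure_le K).mpr (fun g hg => hg.1)
    have hcore_mono : ∀ K L, K ≤ L → core K ≤ core L := fun K L h =>
      Subgroup.closure_mono (fun g hg => ⟨h hg.1, hg.2⟩)
    have hcore_idem : ∀ K, core (core K) = core K := by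
      intro K
      apply le_antisymm (hcore_le _)
      apply Subgroup.closure_mono
      intro g hg
      exact ⟨Subgroup.subset_closure hg, hg.2⟩
    have hstep : ∀ M : Subgroup G, M ≠ ⊤ → core M = M → ∃ K ∈ S, M ≤ K := by
      intro M hM hMgen
      by_contra hno
      push Not at hno
      have hlt : Nat.card M < n := by
        rw [← hn]
        have h1 := Subgroup.card_mul_index M
        have h3 : M.index ≠ 1 := fun h => hM (Subgroup.index_eq_one.mp h)
        have h4 : M.index ≠ 0 := Subgroup.index_ne_zero_of_finite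
        have h5 : 0 < Nat.card M := Nat.card_pos
        rw [← h1]
        exact lt_mul_of_one_lt_right h5 (by omega)
      have h6 := ih (Nat.card M) hlt M rfl ?_ (S.image (fun K => K.subgroupOf M)) ?_ ?_
      · have h7 := h6.trans Finset.card_image_le
        omega
      · have h8 : (Subgroup.closure {g : M | IsPel p g}).map M.subtype = M := by
          rw [MonoidHom.map_closure]
          conv_rhs => rw [← hMgen]
          congr 1
          ext g
          constructor
          · rintro ⟨x, hx, rfl⟩
            refine ⟨x.2, ?_⟩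
            obtain ⟨k, hk⟩ := hx
            exact ⟨k, by rw [← hk]; exact Subgroup.orderOf_coe x⟩
          · rintro ⟨hg, k, hk⟩
            exact ⟨⟨g, hg⟩, ⟨k, by rw [← hk]; exact Subgroup.orderOf_mk _ _⟩, rfl⟩
        apply Subgroup.map_injective (Subgroup.subtype_injective M)
        rw [h8]
        ext g; simp
      · intro K hK
        obtain ⟨L, hL, rfl⟩ := Finset.mem_image.mp hK
        intro h
        exact hno L hL (Subgroup.subgroupOf_eq_top.mp h)
      · rintro ⟨g, hg⟩ ⟨k, hk⟩
        rw [Subgroup.orderOf_mk] at hk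
        obtain ⟨K, hK, hgK⟩ := hcov g ⟨k, hk⟩
        exact ⟨K.subgroupOf M, Finset.mem_image_of_mem _ hK, hgK⟩
    -- the maximal ones
    let 𝓜 : Set (Subgroup G) := {M | Maximal (fun M => M ≠ ⊤ ∧ core M = M) M}
    have hMle : ∀ M : Subgroup G, M ≠ ⊤ → core M = M → ∃ M' ∈ 𝓜, M ≤ M' := by
      intro M h1 h3
      obtain ⟨M', h4, h5⟩ := (Set.toFinite {M : Subgroup G | M ≠ ⊤ ∧ core M = M}).exists_le_maximal (a := M) ⟨h1, h3⟩
      exact ⟨M', h5, h4⟩
    have hMcard : 𝓜.ncard ≤ p := by
      have hsub : 𝓜 ⊆ ((S.image core : Finset (Subgroup G)) : Set (Subgroup G)) := by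
        intro M hM
        obtain ⟨K, hK, hMK⟩ := hstep M hM.1.1 hM.1.2
        have h1 : M ≤ core K := by rw [← hM.1.2]; exact hcore_mono _ _ hMK
        have h3 : core K ≠ ⊤ := by
          intro h
          exact hS K hK (top_le_iff.mp (h ▸ hcore_le K))
        have h4 : core K ≤ M := hM.2 ⟨h3, hcore_idem K⟩ h1
        rw [Finset.mem_coe, Finset.mem_image]
        exact ⟨K, hK, le_antisymm h4 h1⟩
      have := Set.ncard_le_ncard hsub (Finset.finite_toSet _)
      rw [Set.ncard_coe_finset] at this
      exact this.trans (Finset.card_image_le.trans hSp)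
    -- conjugation preserves 𝓜
    have hconjtop : ∀ (g : G) (K : Subgroup G), MulAut.conj g • K = ⊤ ↔ K = ⊤ := by
      intro g K
      constructor
      · intro h
        have h1 : MulAut.conj g⁻¹ • (MulAut.conj g • K) = MulAut.conj g⁻¹ • (⊤ : Subgroup G) := by rw [h]
        rw [← mul_smul, ← map_mul, inv_mul_cancel, map_one, one_smul] at h1
        rw [h1, eq_top_iff]
        intro x _
        rw [Subgroup.mem_pointwise_smul_iff_inv_smul_mem]
        trivial
      · rintro rfl
        rw [eq_top_iff]
        intro x _
        rw [Subgroup.mem_pointwise_smul_iff_inv_smul_mem]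
        trivial
    have hPelconj : ∀ (g x : G), IsPel p x → IsPel p (g * x * g⁻¹) := by
      rintro g x ⟨k, hk⟩
      refine ⟨k, ?_⟩
      rw [← hk]
      exact orderOf_injective (MulAut.conj g).toMonoidHom (MulAut.conj g).injective x
    have hmemconj : ∀ (g x : G) (K : Subgroup G), x ∈ MulAut.conj g • K ↔ g⁻¹ * x * g ∈ K := by
      intro g x K
      rw [Subgroup.mem_pointwise_smul_iff_inv_smul_mem, ← map_inv, MulAut.smul_def, MulAut.conj_apply, inv_inv]
    have hcoreconj_le : ∀ (g : G) (K : Subgroup G), MulAut.conj g • core K ≤ core (MulAut.conj g • K) := by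
      intro g K
      have : MulAut.conj g • core K = (core K).map (MulAut.conj g).toMonoidHom := rfl
      rw [this, MonoidHom.map_closure, Subgroup.closure_le]
      rintro _ ⟨x, ⟨hx1, hx2⟩, rfl⟩
      apply Subgroup.subset_closure
      refine ⟨?_, hPelconj g x hx2⟩
      rw [hmemconj]
      change g⁻¹ * (g * x * g⁻¹) * g ∈ K
      have : g⁻¹ * (g * x * g⁻¹) * g = x := by group
      rw [this]; exact hx1
    have hPconj : ∀ (g : G) (M : Subgroup G), (M ≠ ⊤ ∧ core M = M) → (MulAut.conj g • M ≠ ⊤ ∧ core (MulAut.conj g • M) = MulAut.conj g • M) := by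
      rintro g M ⟨h1, h3⟩
      refine ⟨fun h => h1 ((hconjtop g M).mp h), le_antisymm (hcore_le _) ?_⟩
      conv_lhs => rw [← h3]
      exact hcoreconj_le g M
    have hMconj : ∀ (g : G) (M : Subgroup G), M ∈ 𝓜 → MulAut.conj g • M ∈ 𝓜 := by
      intro g M hM
      refine ⟨hPconj g M hM.1, ?_⟩
      intro L hL hle
      have h1 : M ≤ MulAut.conj g⁻¹ • L := by
        intro x hx
        rw [hmemconj, inv_inv]
        apply hle
        rw [hmemconj]
        have : g⁻¹ * (g * x * g⁻¹) * g = x := by group
        rw [this]; exact hx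
      have h3 := hM.2 (hPconj g⁻¹ L hL) h1
      intro x hx
      rw [hmemconj]
      apply h3
      rw [hmemconj, inv_inv]
      have : g * (g⁻¹ * x * g) * g⁻¹ = x := by group
      rw [this]; exact hx
    -- take a Sylow subgroup
    let P : Sylow p G := default
    have hPtop : (P : Subgroup G) ≠ ⊤ := by
      intro h
      apply hPG
      intro g
      have hg : g ∈ (P : Subgroup G) := by rw [h]; trivial
      obtain ⟨k, hk⟩ := P.isPGroup' ⟨g, hg⟩
      exact ⟨k, congrArg Subtype.val hk⟩
    have hPcore : core (P : Subgroup G) = P := by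
      apply le_antisymm (hcore_le _)
      intro g hg
      apply Subgroup.subset_closure
      refine ⟨hg, ?_⟩
      obtain ⟨k, hk⟩ := (IsPGroup.iff_orderOf.mp P.isPGroup') ⟨g, hg⟩
      exact ⟨k, by rw [← hk, Subgroup.orderOf_mk]⟩
    obtain ⟨M0, hM0, hPM0⟩ := hMle _ hPtop hPcore
    -- every p-element normalizes M0
    have hnorm : ∀ x : G, IsPel p x → MulAut.conj x • M0 = M0 := by
      rintro x ⟨k, hk⟩
      -- x lies in some member M of 𝓜
      have hxp : IsPGroup p (Subgroup.zpowers x) := IsPGroup.of_card (n := k) (by rw [Nat.card_zpowers]; exact hk)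
      have hzcore : core (Subgroup.zpowers x) = Subgroup.zpowers x := by
        apply le_antisymm (hcore_le _)
        rw [Subgroup.zpowers_le]
        exact Subgroup.subset_closure ⟨Subgroup.mem_zpowers x, k, hk⟩
      have hztop : Subgroup.zpowers x ≠ ⊤ := by
        intro h
        obtain ⟨K, hK, hxK⟩ := hcov x ⟨k, hk⟩
        exact hS K hK (top_le_iff.mp (h ▸ (Subgroup.zpowers_le.mpr hxK)))
      obtain ⟨M, hM, hxM⟩ := hMle _ hztop hzcore
      have hxM' : x ∈ M := hxM (Subgroup.mem_zpowers x)
      let act : MulAction (Subgroup.zpowers x) (Subgroup G) :=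
        MulAction.compHom (Subgroup G) ((MulAut.conj : G →* MulAut G).comp (Subgroup.zpowers x).subtype)
      have hactdef : ∀ (y : Subgroup.zpowers x) (K : Subgroup G), y • K = MulAut.conj (y : G) • K := fun _ _ => rfl
      have hMfix : ∀ y : Subgroup.zpowers x, y • M = M := by
        intro y
        rw [hactdef]
        ext z
        rw [hmemconj]
        have hy : (y : G) ∈ M := hxM y.2
        constructor
        · intro h
          have := M.mul_mem (M.mul_mem hy h) (M.inv_mem hy)
          have e : (y : G) * ((y : G)⁻¹ * z * y) * (y : G)⁻¹ = z := by group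
          rwa [e] at this
        · intro h
          exact M.mul_mem (M.mul_mem (M.inv_mem hy) h) hy
      obtain ⟨m, hm⟩ := hxp.card_orbit M0
      have horb : MulAction.orbit (Subgroup.zpowers x) M0 ⊆ 𝓜 := by
        rintro _ ⟨y, rfl⟩
        exact hMconj _ _ hM0
      rcases Nat.eq_zero_or_pos m with rfl | hmpos
      · rw [pow_zero] at hm
        have h1 : (MulAction.orbit (Subgroup.zpowers x) M0).ncard = 1 := hm
        rw [Set.ncard_eq_one] at h1
        obtain ⟨a, ha⟩ := h1
        have h3 : M0 ∈ MulAction.orbit (Subgroup.zpowers x) M0 := MulAction.mem_orbit_self _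
        have h4 : (⟨x, Subgroup.mem_zpowers x⟩ : Subgroup.zpowers x) • M0 ∈ MulAction.orbit (Subgroup.zpowers x) M0 :=
          MulAction.mem_orbit _ _
        rw [ha] at h3 h4
        exact (Set.mem_singleton_iff.mp h4).trans (Set.mem_singleton_iff.mp h3).symm
      · exfalso
        have hMorb : M ∉ MulAction.orbit (Subgroup.zpowers x) M0 := by
          rintro ⟨y, hy⟩
          have hy' : y • M0 = M := hy
          have h1 : M0 = M := by
            have := congrArg (fun L => y⁻¹ • L) hy'
            simp only [inv_smul_smul] at this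
            rw [this, hMfix]
          have h3 : MulAction.orbit (Subgroup.zpowers x) M0 = {M0} := by
            ext L
            constructor
            · rintro ⟨z, rfl⟩
              rw [Set.mem_singleton_iff]
              change z • M0 = M0
              rw [h1]; exact hMfix z
            · intro h
              rw [Set.mem_singleton_iff] at h
              rw [h]; exact MulAction.mem_orbit_self _
          have h4 : Nat.card (MulAction.orbit (Subgroup.zpowers x) M0) = 1 := by
            rw [h3]; simp
          rw [hm] at h4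
          have h5 := Nat.pow_eq_one.mp h4
          omega
        have h1 : MulAction.orbit (Subgroup.zpowers x) M0 ⊆ 𝓜 \ {M} := fun L hL =>
          ⟨horb hL, fun h => hMorb (Set.mem_singleton_iff.mp h ▸ hL)⟩
        have h3 := Set.ncard_le_ncard h1 (Set.toFinite _)
        rw [Set.ncard_diff_singleton_of_mem hM] at h3
        have h4 : (MulAction.orbit (Subgroup.zpowers x) M0).ncard = p ^ m := hm
        rw [h4] at h3
        have h5 : p ≤ p ^ m := Nat.le_self_pow (by omega) p
        omega
    -- so M0 is normal
    have hN : Subgroup.normalizer (M0 : Set G) = ⊤ := by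
      rw [eq_top_iff, ← hgen, Subgroup.closure_le]
      intro x hx
      have h1 := hnorm x hx
      rw [SetLike.mem_coe, Subgroup.mem_normalizer_iff]
      intro y
      constructor
      · intro hy
        rw [← h1, hmemconj]
        have e : x⁻¹ * (x * y * x⁻¹) * x = y := by group
        rw [e]; exact hy
      · intro hy
        rw [← h1, hmemconj] at hy
        have e : x⁻¹ * (x * y * x⁻¹) * x = y := by group
        rwa [e] at hy
    have hM0n : M0.Normal := Subgroup.normalizer_eq_top_iff.mp hN
    apply hM0.1.1
    rw [eq_top_iff, ← hgen, Subgroup.closure_le]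
    rintro x ⟨k, hk⟩
    have hxp : IsPGroup p (Subgroup.zpowers x) := IsPGroup.of_card (n := k) (by rw [Nat.card_zpowers]; exact hk)
    obtain ⟨Q, hQ⟩ := hxp.exists_le_sylow
    obtain ⟨g, hg⟩ := MulAction.exists_smul_eq G P Q
    have hxQ := hQ (Subgroup.mem_zpowers x)
    rw [← hg, Sylow.coe_subgroup_smul] at hxQ
    obtain ⟨z, hz, hzx⟩ := hxQ
    have hzx' : g * z * g⁻¹ = x := hzx
    rw [SetLike.mem_coe, ← hzx']
    exact hM0n.conj_mem z (hPM0 hz) g

/-- Let p be a prime and G a finite group generated by its p-elements. If a finite family of proper subgroups of G covers the set of p-elements of G (every element of p-power order lies in one of them), then the family has at least p + 1 members. -/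
theorem result {G : Type*} [Group G] [Finite G] (p : ℕ) [Fact p.Prime] (hgen : Subgroup.closure {g : G | ∃ k : ℕ, orderOf g = p ^ k} = ⊤)
    {ι : Type*} [Fintype ι] (K : ι → Subgroup G) (hK : ∀ i, K i ≠ ⊤)
    (hcov : ∀ g : G, (∃ k : ℕ, orderOf g = p ^ k) → ∃ i, g ∈ K i) :
    p + 1 ≤ Fintype.card ι := by
  classical
  have := main p (Nat.card G) G rfl hgen (Finset.univ.image K) (by
    intro L hL
    obtain ⟨i, -, rfl⟩ := Finset.mem_image.mp hL
    exact hK i) (by
    intro g hg
    obtain ⟨i, hi⟩ := hcov g hg
    exact ⟨K i, Finset.mem_image_of_mem _ (Finset.mem_univ i), hi⟩)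
  exact this.trans (Finset.card_image_le.trans (by simp))

end Cfsg.Agent.S4182
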