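import Cfsg.Statements.S4184
import Mathlib
import Cfsg.Agent.LibH6Basic

set_option autoImplicit false
open Cfsg

namespace Cfsg.Agent.S4184

open Subgroup CfsgLib.H6

/-- prime divisors of `n` all satisfy `S`. -/
def AllP (S : ℕ → Prop) (n : ℕ) : Prop := ∀ q : ℕ, q.Prime → q ∣ n → S q

theorem step_M {M : Type*} [Group M] [Finite M] (S : ℕ → Prop)
    (hd : ∀ a b : ℕ, S a → ¬ S b → a.Prime → b.Prime → a ∣ Nat.card M → b ∣ Nat.card M →
      ¬ ∃ x : M, orderOf x = a * b) (m : M) (hm : m ≠ 1) :
    1 < Nat.card (centralizer ({m} : Set M)) ∧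
    (AllP S (Nat.card (centralizer ({m} : Set M))) ∨
     AllP (fun n => ¬ S n) (Nat.card (centralizer ({m} : Set M)))) := by
  classical
  constructor
  · apply Finite.one_lt_card_iff_nontrivial.mpr
    exact ⟨⟨⟨m, self_mem_cent m⟩, 1, fun h => hm (congrArg Subtype.val h)⟩⟩
  · by_contra hcon
    rw [not_or] at hcon
    obtain ⟨h1, h2⟩ := hcon
    simp only [AllP, not_forall, not_not] at h1 h2
    obtain ⟨b, hb, hbd, hbS⟩ := h1
    obtain ⟨a, ha, had, haS⟩ := h2
    -- key: a prime `s ∣ orderOf m` and a prime `r ≠ s` dividing `|C(m)|` gives an element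
    have key : ∀ s r : ℕ, s.Prime → r.Prime → s ≠ r → s ∣ orderOf m →
        r ∣ Nat.card (centralizer ({m} : Set M)) → ∃ x : M, orderOf x = s * r := by
      intro s r hs hr hsr hsm hrc
      have := Fact.mk hr
      obtain ⟨y, hy⟩ := exists_prime_orderOf_dvd_card' r hrc
      have hyo : orderOf (y : M) = r := by rw [Subgroup.orderOf_coe]; exact hy
      have hym : (y : M) * m = m * y := mem_cent.mp y.2
      have hx : orderOf (m ^ (orderOf m / s)) = s := by
        rw [orderOf_pow_of_dvd (Nat.div_pos (Nat.le_of_dvd (orderOf_pos m) hsm) hs.pos).ne'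
          (Nat.div_dvd_of_dvd hsm)]
        exact Nat.div_div_self hsm (orderOf_pos m).ne'
      have hc : Commute (m ^ (orderOf m / s)) (y : M) := (Commute.pow_left (show Commute m (y:M) from hym.symm) _)
      refine ⟨m ^ (orderOf m / s) * y, ?_⟩
      rw [hc.orderOf_mul_eq_mul_orderOf_of_coprime, hx, hyo]
      rw [hx, hyo]
      exact (Nat.coprime_primes hs hr).mpr hsr
    have hcard : Nat.card (centralizer ({m} : Set M)) ∣ Nat.card M := Subgroup.card_subgroup_dvd_card _
    obtain ⟨s, hs, hsm⟩ := Nat.exists_prime_and_dvd (n := orderOf m) (by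
      rw [Ne, orderOf_eq_one_iff]; exact hm)
    have hsM : s ∣ Nat.card M := hsm.trans (orderOf_dvd_natCard m)
    by_cases hS : S s
    · obtain ⟨x, hx⟩ := key s b hs hb (by rintro rfl; exact hbS hS) hsm hbd
      exact hd s b hS hbS hs hb hsM (hbd.trans hcard) ⟨x, hx⟩
    · obtain ⟨x, hx⟩ := key s a hs ha (by rintro rfl; exact hS haS) hsm had
      exact hd a s haS hS ha hs (had.trans hcard) hsM ⟨x, by rw [hx, mul_comm]⟩

/-- Main step, in `G`. -/
theorem step_G {G : Type*} [Group G] [Finite G] (t n : ℕ) (hG : Nat.card G = t * n) (S : ℕ → Prop)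
    (hc : ∀ w : G, w ≠ 1 → ∃ c : ℕ, 1 < c ∧ Nat.card (centralizer ({w} : Set G)) = t * c ∧
      (AllP S c ∨ AllP (fun k => ¬ S k) c))
    (a b : ℕ) (ha : a.Prime) (hb : b.Prime) (haS : S a) (hbS : ¬ S b) (han : a ∣ n) (hbn : b ∣ n)
    (p : ℕ) (hp : p.Prime) (hpt : p ∣ t) (hpS : S p) : False := by
  classical
  have hcardpos : 0 < Nat.card G := Nat.card_pos
  have ht : 0 < t := Nat.pos_of_ne_zero (by rintro rfl; rw [zero_mul] at hG; omega)
  have hn : 0 < n := Nat.pos_of_ne_zero (by rintro rfl; rw [mul_zero] at hG; omega)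
  -- contradiction principle
  have key : ∀ z w : G, z ≠ 1 → z * w = w * z → (orderOf z).Coprime (orderOf w) →
      ∀ c c' : ℕ, Nat.card (centralizer ({z} : Set G)) = t * c →
      Nat.card (centralizer ({w} : Set G)) = t * c' →
      ((AllP S c ∧ AllP (fun k => ¬ S k) c') ∨ (AllP S c' ∧ AllP (fun k => ¬ S k) c)) → False := by
    intro z w hz hzw hcop c c' hc1 hc2 hor
    have hcent := cent_mul_of_coprime hzw hcop
    have hne : z * w ≠ 1 := by
      intro h
      have h1 : orderOf z = orderOf w := by
        rw [eq_inv_of_mul_eq_one_left h, orderOf_inv]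
      rw [h1, Nat.coprime_self] at hcop
      rw [hcop] at h1
      exact hz (orderOf_eq_one_iff.mp h1)
    obtain ⟨d, hd1, hd2, -⟩ := hc (z * w) hne
    have e1 : t * d ∣ t * c := by
      rw [← hd2, ← hc1, hcent]; exact Subgroup.card_dvd_of_le inf_le_left
    have e2 : t * d ∣ t * c' := by
      rw [← hd2, ← hc2, hcent]; exact Subgroup.card_dvd_of_le inf_le_right
    have e1' := Nat.dvd_of_mul_dvd_mul_left ht e1
    have e2' := Nat.dvd_of_mul_dvd_mul_left ht e2
    obtain ⟨r, hr, hrd⟩ := Nat.exists_prime_and_dvd (n := d) (by omega)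
    rcases hor with ⟨h1, h2⟩ | ⟨h1, h2⟩
    · exact h2 r hr (hrd.trans e2') (h1 r hr (hrd.trans e1'))
    · exact h2 r hr (hrd.trans e1') (h1 r hr (hrd.trans e2'))
  -- for a prime q | n there is a q-element w ≠ 1 with q | c_w
  have hq : ∀ q : ℕ, q.Prime → q ∣ n → ∃ w : G, w ≠ 1 ∧ (∃ k, orderOf w = q ^ k) ∧
      ∃ c : ℕ, Nat.card (centralizer ({w} : Set G)) = t * c ∧ q ∣ c ∧
        (AllP S c ∨ AllP (fun k => ¬ S k) c) := by
    intro q hqp hqn
    have := Fact.mk hqp
    let Q : Sylow q G := default
    have hQcard : Nat.card Q = q ^ (Nat.card G).factorization q := Sylow.card_eq_multiplicity Q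
    have hqG : q ∣ Nat.card G := by rw [hG]; exact Dvd.dvd.mul_left hqn t
    have hQne : (Q : Subgroup G) ≠ ⊥ := by
      intro h
      have h1 : Nat.card Q = 1 := by
        rw [show (Nat.card Q) = Nat.card (Q : Subgroup G) from rfl, h]; simp
      rw [hQcard] at h1
      have := (Nat.pow_eq_one.mp h1)
      rcases this with h2 | h2
      · exact hqp.one_lt.ne' h2
      · exact (hqp.factorization_pos_of_dvd hcardpos.ne' hqG).ne' h2
    obtain ⟨w, hwQ, hw1, hwc⟩ := exists_central_of_pgroup (K := (Q : Subgroup G)) (H := (Q : Subgroup G))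
      Q.isPGroup' le_rfl le_normalizer hQne
    obtain ⟨c, hc1, hc2, hc3⟩ := hc w hw1
    refine ⟨w, hw1, ?_, c, hc2, ?_, hc3⟩
    · obtain ⟨k, hk⟩ := (IsPGroup.iff_orderOf.mp Q.isPGroup') ⟨w, hwQ⟩
      exact ⟨k, by rw [← hk, Subgroup.orderOf_mk]⟩
    · by_contra hqc
      have h1 : Nat.card Q ∣ t * c := by
        rw [← hc2]
        exact Subgroup.card_dvd_of_le (fun x hx => mem_cent.mpr (hwc x hx))
      rw [hQcard] at h1
      have h2 : q ^ (Nat.card G).factorization q ∣ t :=
        (Nat.Coprime.pow_left _ ((Nat.Prime.coprime_iff_not_dvd hqp).mpr hqc)).dvd_of_dvd_mul_right h1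
      have h3 : q ^ ((Nat.card G).factorization q + 1) ∣ Nat.card G := by
        have h4 := mul_dvd_mul h2 hqn
        rwa [← hG, ← pow_succ] at h4
      have := (hqp.pow_dvd_iff_le_factorization hcardpos.ne').mp h3
      omega
  have := Fact.mk hp
  by_cases hpn : p ∣ n
  · -- case 1
    obtain ⟨w, hw1, ⟨k, hk⟩, c, hwc, hbc, hcS⟩ := hq b hb hbn
    have hcS' : AllP (fun k => ¬ S k) c := by
      rcases hcS with h | h
      · exact absurd (h b hb hbc) hbS
      · exact h
    have hpc : ¬ p ∣ c := fun h => hcS' p hp h hpS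
    let P0 : Sylow p (centralizer ({w} : Set G)) := default
    set H : Subgroup G := (P0 : Subgroup (centralizer ({w} : Set G))).map (centralizer ({w} : Set G)).subtype with hH
    have hHcard : Nat.card H = p ^ (t.factorization p) := by
      rw [hH, Subgroup.card_map_of_injective (Subgroup.subtype_injective _)]
      rw [show Nat.card (P0 : Subgroup (centralizer ({w} : Set G))) = _ from Sylow.card_eq_multiplicity P0]
      rw [hwc, Nat.factorization_mul ht.ne' (by rintro rfl; simp at hpc)]
      simp [Nat.factorization_eq_zero_of_not_dvd hpc]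
    have hpow : p ^ (t.factorization p + 1) ∣ Nat.card G := by
      rw [pow_succ, hG]
      exact mul_dvd_mul (Nat.ordProj_dvd t p) hpn
    obtain ⟨K, hKcard, hHK⟩ := Sylow.exists_subgroup_card_pow_succ hpow hHcard
    have hKp : IsPGroup p K := IsPGroup.of_card hKcard
    have hHne : H ≠ ⊥ := by
      intro h
      rw [h] at hHcard
      have h1 : t.factorization p ≠ 0 := (hp.factorization_pos_of_dvd ht.ne' hpt).ne'
      have : p ^ t.factorization p = 1 := by rw [← hHcard]; simp
      rcases Nat.pow_eq_one.mp this with h2 | h2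
      · exact hp.one_lt.ne' h2
      · exact h1 h2
    have hnorm : K ≤ normalizer (H : Set G) := by
      have hidx : (H.subgroupOf K).index = p := by
        have h1 : Nat.card (H.subgroupOf K) * (H.subgroupOf K).index = Nat.card K :=
          Subgroup.card_mul_index _
        rw [Nat.card_congr (Subgroup.subgroupOfEquivOfLe hHK).toEquiv, hHcard, hKcard, pow_succ] at h1
        exact Nat.eq_of_mul_eq_mul_left (pow_pos hp.pos _) h1
      have hmin : (H.subgroupOf K).index = (Nat.card K).minFac := by
        rw [hidx, hKcard, hp.pow_minFac (by omega)]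
      have : (H.subgroupOf K).Normal := Subgroup.normal_of_index_eq_minFac_card hmin
      exact (Subgroup.normal_subgroupOf_iff_le_normalizer hHK).mp this
    obtain ⟨z, hzH, hz1, hzc⟩ := exists_central_of_pgroup hKp hHK hnorm hHne
    obtain ⟨cz, hcz1, hcz2, hcz3⟩ := hc z hz1
    have hpcz : p ∣ cz := by
      by_contra hpcz
      have h1 : Nat.card K ∣ t * cz := by
        rw [← hcz2]
        exact Subgroup.card_dvd_of_le (fun x hx => mem_cent.mpr (hzc x hx))
      rw [hKcard] at h1
      have h2 : p ^ (t.factorization p + 1) ∣ t :=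
        (Nat.Coprime.pow_left _ ((Nat.Prime.coprime_iff_not_dvd hp).mpr hpcz)).dvd_of_dvd_mul_right h1
      have := (hp.pow_dvd_iff_le_factorization ht.ne').mp h2
      omega
    have hcz4 : AllP S cz := by
      rcases hcz3 with h | h
      · exact h
      · exact absurd hpS (h p hp hpcz)
    have hzw : z * w = w * z := by
      obtain ⟨y, -, hy⟩ := hzH
      rw [← hy]
      exact mem_cent.mp y.2
    have hzo : ∃ j, orderOf z = p ^ j := by
      obtain ⟨j, hj⟩ := (IsPGroup.iff_orderOf.mp hKp) ⟨z, hHK hzH⟩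
      exact ⟨j, by rw [← hj, Subgroup.orderOf_mk]⟩
    obtain ⟨j, hj⟩ := hzo
    have hpb : p ≠ b := by rintro rfl; exact hbS hpS
    exact key z w hz1 hzw (by rw [hj, hk]; exact Nat.Coprime.pow _ _ ((Nat.coprime_primes hp hb).mpr hpb))
      cz c hcz2 hwc (Or.inl ⟨hcz4, hcS'⟩)
  · -- case 2
    let P : Sylow p G := default
    have hPcard : Nat.card P = p ^ (Nat.card G).factorization p := Sylow.card_eq_multiplicity P
    have hpG : p ∣ Nat.card G := by rw [hG]; exact Dvd.dvd.mul_right hpt n
    have hft : (Nat.card G).factorization p = t.factorization p := by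
      rw [hG, Nat.factorization_mul ht.ne' hn.ne']
      simp [Nat.factorization_eq_zero_of_not_dvd hpn]
    obtain ⟨z, hz⟩ := exists_prime_orderOf_dvd_card' p hpG
    have hz1 : z ≠ 1 := by rintro rfl; rw [orderOf_one] at hz; exact hp.one_lt.ne hz
    obtain ⟨P1, hP1⟩ := (IsPGroup.of_card (p := p) (n := 1) (by rw [pow_one, Nat.card_zpowers]; exact hz) :
      IsPGroup p (zpowers z)).exists_le_sylow
    have hzP1 : z ∈ (P1 : Subgroup G) := hP1 (mem_zpowers z)
    obtain ⟨cz, hcz1, hcz2, hcz3⟩ := hc z hz1
    -- any w can be conjugated to commute with z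
    have hcomm : ∀ w : G, w ≠ 1 → ∀ c, Nat.card (centralizer ({w} : Set G)) = t * c → ∃ x : G,
        z * (x * w * x⁻¹) = (x * w * x⁻¹) * z := by
      intro w hw c hwc
      let P2 : Sylow p (centralizer ({w} : Set G)) := default
      have hP2 : IsPGroup p ((P2 : Subgroup (centralizer ({w} : Set G))).map (centralizer ({w} : Set G)).subtype) :=
        P2.isPGroup'.map _
      obtain ⟨P3, hP3⟩ := hP2.exists_le_sylow
      have hcard2 : Nat.card ((P2 : Subgroup (centralizer ({w} : Set G))).map (centralizer ({w} : Set G)).subtype) =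
          Nat.card (P3 : Subgroup G) := by
        apply Nat.dvd_antisymm (Subgroup.card_dvd_of_le hP3)
        rw [Subgroup.card_map_of_injective (Subgroup.subtype_injective _)]
        rw [show Nat.card (P2 : Subgroup (centralizer ({w} : Set G))) = _ from Sylow.card_eq_multiplicity P2]
        rw [show Nat.card (P3 : Subgroup G) = _ from Sylow.card_eq_multiplicity P3, hft, hwc]
        apply pow_dvd_pow
        have hcpos : 0 < c := Nat.pos_of_ne_zero (by
          rintro rfl
          have : 0 < Nat.card (centralizer ({w} : Set G)) := Nat.card_pos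
          simp [hwc] at this)
        rw [Nat.factorization_mul ht.ne' hcpos.ne']
        simp
      have heq : (P2 : Subgroup (centralizer ({w} : Set G))).map (centralizer ({w} : Set G)).subtype =
          (P3 : Subgroup G) := Subgroup.eq_of_le_of_card_ge hP3 hcard2.ge
      have hP3c : (P3 : Subgroup G) ≤ centralizer ({w} : Set G) := by
        rw [← heq]; exact Subgroup.map_subtype_le _
      obtain ⟨x, hx⟩ := MulAction.exists_smul_eq G P3 P1
      refine ⟨x, ?_⟩
      have hzx : z ∈ ((x • P3 : Sylow p G) : Subgroup G) := by rw [hx]; exact hzP1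
      rw [Sylow.coe_subgroup_smul] at hzx
      obtain ⟨y, hy, hyz⟩ := hzx
      have hy' := mem_cent.mp (hP3c hy)
      have : z = x * y * x⁻¹ := by rw [← hyz]; rfl
      rw [this]
      calc x * y * x⁻¹ * (x * w * x⁻¹) = x * (y * w) * x⁻¹ := by group
        _ = x * (w * y) * x⁻¹ := by rw [hy']
        _ = _ := by group
    rcases hcz3 with hS | hS
    · obtain ⟨w, hw1, ⟨k, hk⟩, c, hwc, hbc, hcS⟩ := hq b hb hbn
      have hcS' : AllP (fun k => ¬ S k) c := by
        rcases hcS with h | h
        · exact absurd (h b hb hbc) hbS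
        · exact h
      obtain ⟨x, hx⟩ := hcomm w hw1 c hwc
      have hpb : p ≠ b := by rintro rfl; exact hbS hpS
      refine key z (x * w * x⁻¹) hz1 hx ?_ cz c hcz2 (by rw [card_cent_conj, hwc]) (Or.inl ⟨hS, hcS'⟩)
      rw [hz, show orderOf (x * w * x⁻¹) = orderOf w from by
        have := orderOf_injective (MulAut.conj x).toMonoidHom (MulAut.conj x).injective w
        simpa using this, hk]
      exact Nat.Coprime.pow_right _ ((Nat.coprime_primes hp hb).mpr hpb)
    · obtain ⟨w, hw1, ⟨k, hk⟩, c, hwc, hbc, hcS⟩ := hq a ha han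
      have hcS' : AllP S c := by
        rcases hcS with h | h
        · exact h
        · exact absurd haS (h a ha hbc)
      obtain ⟨x, hx⟩ := hcomm w hw1 c hwc
      have hpb : p ≠ a := by rintro rfl; exact hpn han
      refine key z (x * w * x⁻¹) hz1 hx ?_ cz c hcz2 (by rw [card_cent_conj, hwc]) (Or.inr ⟨hcS', hS⟩)
      rw [hz, show orderOf (x * w * x⁻¹) = orderOf w from by
        have := orderOf_injective (MulAut.conj x).toMonoidHom (MulAut.conj x).injective w
        simpa using this, hk]
      exact Nat.Coprime.pow_right _ ((Nat.coprime_primes hp ha).mpr hpb)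

/-- Centreless finite groups with the same set of class sizes have the same order, provided one of them has a disconnected prime graph. -/
theorem result {G M : Type*}
    [Group G] [Finite G] [Group M] [Finite M] (hZG : Subgroup.center G = ⊥) (hZM : Subgroup.center M = ⊥)
    (h : Set.range (fun g : G => (Subgroup.centralizer ({g} : Set G)).index) = Set.range (fun g : M => (Subgroup.centralizer ({g} : Set M)).index))
    (hdisc : ∃ A : Set ℕ, (∃ a ∈ A, a.Prime ∧ a ∣ Nat.card M) ∧ (∃ b ∉ A, b.Prime ∧ b ∣ Nat.card M) ∧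
      ∀ a ∈ A, ∀ b ∉ A, a.Prime → b.Prime → a ∣ Nat.card M → b ∣ Nat.card M → ¬ ∃ x : M, orderOf x = a * b) :
    Nat.card G = Nat.card M := by
  classical
  obtain ⟨A, ⟨a, haA, ha, haM⟩, ⟨b, hbA, hb, hbM⟩, hd⟩ := hdisc
  let S : ℕ → Prop := fun n => n ∈ A
  have hd' : ∀ a b : ℕ, S a → ¬ S b → a.Prime → b.Prime → a ∣ Nat.card M → b ∣ Nat.card M →
      ¬ ∃ x : M, orderOf x = a * b := fun a b h1 h2 => hd a h1 b h2
  have hM := step_M S hd'
  have hMpos : 0 < Nat.card M := Nat.card_pos
  have hGpos : 0 < Nat.card G := Nat.card_pos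
  -- card M ∣ card G
  have hdvd : Nat.card M ∣ Nat.card G := by
    rw [Nat.dvd_iff_prime_pow_dvd_dvd]
    intro p k hp hpk
    rcases Nat.eq_zero_or_pos k with rfl | hk
    · simp
    have main : ∀ (r : ℕ), r.Prime → r ∣ Nat.card M → (S p ↔ ¬ S r) → p ^ k ∣ Nat.card G := by
      intro r hr hrM hpr
      have := Fact.mk hr
      obtain ⟨y, hy⟩ := exists_prime_orderOf_dvd_card' r hrM
      have hy1 : y ≠ 1 := by rintro rfl; rw [orderOf_one] at hy; exact hr.one_lt.ne hy
      have hrc : r ∣ Nat.card (centralizer ({y} : Set M)) := by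
        rw [← hy]
        exact Subgroup.orderOf_dvd_natCard _ (self_mem_cent y)
      have hpc : ¬ p ∣ Nat.card (centralizer ({y} : Set M)) := by
        intro hpc
        rcases (hM y hy1).2 with h1 | h1
        · have h2 := h1 r hr hrc
          have h3 := h1 p hp hpc
          exact (hpr.mp h3) h2
        · have h2 := h1 r hr hrc
          have h3 := h1 p hp hpc
          exact h3 (hpr.mpr h2)
      have h4 : p ^ k ∣ (centralizer ({y} : Set M)).index := by
        have h5 : p ^ k ∣ Nat.card (centralizer ({y} : Set M)) * (centralizer ({y} : Set M)).index := by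
          rw [Subgroup.card_mul_index]; exact hpk
        exact (Nat.Coprime.pow_left _ ((Nat.Prime.coprime_iff_not_dvd hp).mpr hpc)).dvd_of_dvd_mul_left h5
      have h6 : (centralizer ({y} : Set M)).index ∈ Set.range (fun g : G => (Subgroup.centralizer ({g} : Set G)).index) := by
        rw [h]; exact ⟨y, rfl⟩
      obtain ⟨g, hg⟩ := h6
      have hg' : (centralizer ({g} : Set G)).index = (centralizer ({y} : Set M)).index := hg
      exact h4.trans (by rw [← hg']; exact Subgroup.index_dvd_card _)
    by_cases hpS : S p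
    · exact main b hb hbM (by simp only [hpS, true_iff]; exact hbA)
    · exact main a ha haM (by simp only [hpS, false_iff, not_not]; exact haA)
  obtain ⟨t, ht⟩ := hdvd
  have ht' : Nat.card G = t * Nat.card M := by rw [ht, mul_comm]
  have htpos : 0 < t := Nat.pos_of_ne_zero (by rintro rfl; rw [zero_mul] at ht'; omega)
  have hc : ∀ w : G, w ≠ 1 → ∃ c : ℕ, 1 < c ∧ Nat.card (centralizer ({w} : Set G)) = t * c ∧
      (AllP S c ∨ AllP (fun k => ¬ S k) c) := by
    intro w hw
    have h1 : (centralizer ({w} : Set G)).index ∈ Set.range (fun g : M => (Subgroup.centralizer ({g} : Set M)).index) := by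
      rw [← h]; exact ⟨w, rfl⟩
    obtain ⟨m, hm⟩ := h1
    have hm' : (centralizer ({m} : Set M)).index = (centralizer ({w} : Set G)).index := hm
    have hm1 : m ≠ 1 := by
      rintro rfl
      have h2 : (centralizer ({(1 : M)} : Set M)).index = 1 := index_cent_eq_one_iff.mpr (one_mem _)
      rw [h2] at hm'
      have h3 := index_cent_eq_one_iff.mp hm'.symm
      rw [hZG, Subgroup.mem_bot] at h3
      exact hw h3
    refine ⟨Nat.card (centralizer ({m} : Set M)), (hM m hm1).1, ?_, (hM m hm1).2⟩
    have e1 := Subgroup.card_mul_index (centralizer ({w} : Set G))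
    have e2 := Subgroup.card_mul_index (centralizer ({m} : Set M))
    rw [hm'] at e2
    rw [ht', ← e2, ← mul_assoc] at e1
    have hipos : 0 < (centralizer ({w} : Set G)).index := Nat.pos_of_ne_zero Subgroup.index_ne_zero_of_finite
    exact Nat.eq_of_mul_eq_mul_right hipos e1
  have ht1 : t = 1 := by
    by_contra ht1
    obtain ⟨p, hp, hpt⟩ := Nat.exists_prime_and_dvd ht1
    by_cases hpS : S p
    · exact step_G t _ ht' S hc a b ha hb haA hbA haM hbM p hp hpt hpS
    · refine step_G t _ ht' (fun k => ¬ S k) ?_ b a hb ha hbA (not_not.mpr haA) hbM haM p hp hpt hpS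
      intro w hw
      obtain ⟨c, h1, h2, h3⟩ := hc w hw
      refine ⟨c, h1, h2, ?_⟩
      rcases h3 with h3 | h3
      · right
        intro q hq hqc
        exact not_not.mpr (h3 q hq hqc)
      · exact Or.inl h3
  rw [ht', ht1, one_mul]

end Cfsg.Agent.S4184
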