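import Cfsg.Statements.S4186
import Mathlib

set_option autoImplicit false
open Cfsg

namespace Cfsg.Agent.S4186

/-- Let T and X be subgroups of a group with T a finite 2-group normalizing X but not centralizing it. Then some element of T inverts some non-identity element of X under conjugation. -/
theorem result {G : Type*} [Group G] (T X : Subgroup G) [Finite ↥T] (hT : IsPGroup 2 ↥T) (hTN : T ≤ Subgroup.normalizer (X : Set G)) (hTC : ¬ T ≤ Subgroup.centralizer (X : Set G)) : ∃ t ∈ T, ∃ x ∈ X, x ≠ 1 ∧ t * x * t⁻¹ = x⁻¹ := by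
  classical
  obtain ⟨t0, ht0, ht0C⟩ := Set.not_subset.mp hTC
  have hex : ∃ k : ℕ, t0 ^ (2 ^ k) ∈ Subgroup.centralizer (X : Set G) := by
    obtain ⟨k, hk⟩ := hT ⟨t0, ht0⟩
    refine ⟨k, ?_⟩
    have : t0 ^ (2 ^ k) = 1 := congrArg Subtype.val hk
    rw [this]; exact one_mem _
  have hk0 : Nat.find hex ≠ 0 := by
    intro h
    have := Nat.find_spec hex
    rw [h, pow_zero, pow_one] at this
    exact ht0C this
  obtain ⟨k, hk⟩ := Nat.exists_eq_succ_of_ne_zero hk0
  have h1 : t0 ^ (2 ^ k) ∉ Subgroup.centralizer (X : Set G) := Nat.find_min hex (by omega)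
  have h2 : (t0 ^ (2 ^ k)) * (t0 ^ (2 ^ k)) ∈ Subgroup.centralizer (X : Set G) := by
    have := Nat.find_spec hex
    rw [hk] at this
    rw [← pow_add, ← two_mul, ← pow_succ']
    exact this
  set t := t0 ^ (2 ^ k) with ht
  have htT : t ∈ T := T.pow_mem ht0 _
  rw [Subgroup.mem_centralizer_iff] at h1
  push Not at h1
  obtain ⟨x, hx, hxt⟩ := h1
  have h3 := Subgroup.mem_centralizer_iff.mp h2 x hx
  have htx : t * x * t⁻¹ ∈ X := (Subgroup.mem_normalizer_iff.mp (hTN htT) x).mp hx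
  refine ⟨t, htT, x⁻¹ * (t * x * t⁻¹), X.mul_mem (X.inv_mem hx) htx, ?_, ?_⟩
  · intro h
    apply hxt
    have h4 : t * x * t⁻¹ = x := by
      have := congrArg (fun y => x * y) h
      simpa using this
    calc x * t = (t * x * t⁻¹) * t := by rw [h4]
      _ = t * x := by group
  · have h5 : t * (t * x * t⁻¹) * t⁻¹ = x := by
      calc t * (t * x * t⁻¹) * t⁻¹ = (t * t * x) * t⁻¹ * t⁻¹ := by group
        _ = (x * (t * t)) * t⁻¹ * t⁻¹ := by rw [h3]
        _ = x := by group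
    calc t * (x⁻¹ * (t * x * t⁻¹)) * t⁻¹ = (t * x * t⁻¹)⁻¹ * (t * (t * x * t⁻¹) * t⁻¹) := by group
      _ = (t * x * t⁻¹)⁻¹ * x := by rw [h5]
      _ = (x⁻¹ * (t * x * t⁻¹))⁻¹ := by group

end Cfsg.Agent.S4186
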