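import Cfsg.Statements.S4188
import Cfsg.Agent.LibFgHom3

set_option autoImplicit false
open Cfsg

namespace Cfsg.Agent.S4188

set_option linter.style.haveILetI false
set_option linter.unusedSectionVars false
set_option linter.unusedVariables false

/-- Let G be a finite group that is the semidirect product of a normal abelian subgroup N of odd order by a 2-subgroup P, and suppose N is the unique minimal normal subgroup of G. Then the index of the Frattini subgroup of P in P is at most #N − 1. -/
theorem result {G : Type*} [Group G] [Finite G] (N P : Subgroup G) (hN : N.Normal) (hNab : IsMulCommutative ↥N) (hNodd : Odd (Nat.card ↥N)) (hP : IsPGroup 2 ↥P) (hdisj : N ⊓ P = ⊥) (hprod : N ⊔ P = ⊤) (hmin : N ≠ ⊥ ∧ ∀ M : Subgroup G, M.Normal → M ≠ ⊥ → N ≤ M) : (frattini ↥P).index ≤ Nat.card ↥N - 1 := by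
  classical
  haveI := hN
  haveI := hNab
  have hminN : CfsgLib.SolvMin.IsMinNormal N := by
    refine ⟨hN, hmin.1, fun M' hM' hle => ?_⟩
    by_cases h : M' = ⊥
    · exact Or.inl h
    · exact Or.inr (le_antisymm hle (hmin.2 M' hM' h))
  obtain ⟨r, hr, hexp⟩ := hminN.exists_prime
  haveI : Fact r.Prime := ⟨hr⟩
  letI : CommGroup N := { (inferInstance : Group N) with mul_comm := fun a b => hNab.is_comm.comm a b }
  have hφ : Function.Injective ((MulAut.conjNormal : G →* MulAut N).comp P.subtype) := by
    rw [injective_iff_map_eq_one]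
    intro g hg
    have hcent : ∀ x ∈ N, (g : G) * x = x * g := by
      intro x hx
      have h2 : MulAut.conjNormal (g : G) (⟨x, hx⟩ : N) = ⟨x, hx⟩ := by
        have h1 : (MulAut.conjNormal (g : G) : MulAut N) = 1 := hg
        rw [h1]; rfl
      have h3 : (g : G) * x * (g : G)⁻¹ = x := congrArg Subtype.val h2
      rwa [mul_inv_eq_iff_eq_mul] at h3
    by_contra hg1
    have hCn : (P ⊓ Subgroup.centralizer (N : Set G)).Normal := by
      constructor
      rintro c ⟨hcP, hcN⟩ k
      have hk : k ∈ N ⊔ P := by rw [hprod]; trivial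
      rw [Subgroup.mem_sup_of_normal_left] at hk
      obtain ⟨u, hu, m, hm, rfl⟩ := hk
      have hcent' := Subgroup.mem_centralizer_iff.mp hcN
      have h1 : m * c * m⁻¹ ∈ P := P.mul_mem (P.mul_mem hm hcP) (P.inv_mem hm)
      have h2 : ∀ x ∈ N, x * (m * c * m⁻¹) = (m * c * m⁻¹) * x := by
        intro x hx
        have h3 := hcent' (m⁻¹ * x * m) (by
          have := hN.conj_mem x hx m⁻¹
          rwa [inv_inv] at this)
        calc x * (m * c * m⁻¹) = m * ((m⁻¹ * x * m) * c) * m⁻¹ := by group
          _ = m * (c * (m⁻¹ * x * m)) * m⁻¹ := by rw [h3]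
          _ = (m * c * m⁻¹) * x := by group
      have h4 : u * m * c * (u * m)⁻¹ = m * c * m⁻¹ := by
        have h5 := h2 u hu
        calc u * m * c * (u * m)⁻¹ = (u * (m * c * m⁻¹)) * u⁻¹ := by group
          _ = ((m * c * m⁻¹) * u) * u⁻¹ := by rw [h5]
          _ = m * c * m⁻¹ := by group
      rw [h4]
      exact ⟨h1, Subgroup.mem_centralizer_iff.mpr h2⟩
    have hCne : P ⊓ Subgroup.centralizer (N : Set G) ≠ ⊥ := by
      intro h
      apply hg1
      have h1 : (g : G) ∈ P ⊓ Subgroup.centralizer (N : Set G) :=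
        ⟨g.2, Subgroup.mem_centralizer_iff.mpr (fun x hx => (hcent x hx).symm)⟩
      rw [h, Subgroup.mem_bot] at h1
      exact Subtype.ext h1
    apply hmin.1
    have h1 := (hmin.2 _ hCn hCne).trans inf_le_left
    rw [← hdisj, eq_comm, inf_eq_left]
    exact h1
  have hr2 : r ≠ 2 := by
    rintro rfl
    have h1 : 1 < Nat.card N := by
      rw [Finite.one_lt_card_iff_nontrivial]
      exact (Subgroup.nontrivial_iff_ne_bot N).mpr hmin.1
    have hpg : IsPGroup 2 N := CfsgLib.SolvMin.isPGroup_of_forall_pow_eq_one hexp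
    obtain ⟨k, hk⟩ := (IsPGroup.iff_card).mp hpg
    rw [hk] at hNodd h1
    have hk0 : k ≠ 0 := by
      rintro rfl
      norm_num at h1
    have h2 : Even (2 ^ k) := (Nat.even_pow' hk0).mpr even_two
    exact (Nat.not_even_iff_odd.mpr hNodd) h2
  haveI : Nontrivial N := (Subgroup.nontrivial_iff_ne_bot N).mpr hmin.1
  exact (CfsgLib.FgHom.frattini_le_h hP).trans
    (CfsgLib.FgHom.final hP r hr2 (fun x => Subtype.ext (hexp x x.2)) ((MulAut.conjNormal : G →* MulAut N).comp P.subtype) hφ)

end Cfsg.Agent.S4188
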