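import Cfsg.Statements.S4194
import Cfsg.Agent.LibCamHer

set_option autoImplicit false
open Cfsg

namespace Cfsg.Agent.S4194

/-- A finite group G has commutative Sylow 2-subgroups if and only if every 2-element of G (element of order a power of 2) is 2-central, that is, its centralizer contains a Sylow 2-subgroup of G. -/
theorem result {G : Type*} [Group G] [Finite G] (P : Sylow 2 G) :
    IsMulCommutative (P : Subgroup G) ↔ ∀ x : G, (∃ k : ℕ, orderOf x = 2 ^ k) → (∃ Q : Sylow 2 G, (Q : Subgroup G) ≤ Subgroup.centralizer ({x} : Set G)) := by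
  constructor
  · intro hc x hx
    obtain ⟨k, hk⟩ := hx
    have hp : IsPGroup 2 ↥(Subgroup.zpowers x) := by
      apply IsPGroup.of_card (n := k)
      rw [Nat.card_zpowers, hk]
    obtain ⟨Q, hQ⟩ := hp.exists_le_sylow
    refine ⟨Q, ?_⟩
    obtain ⟨g, rfl⟩ := MulAction.exists_smul_eq G P Q
    have hxg : x ∈ ((g • P : Sylow 2 G) : Subgroup G) := hQ (Subgroup.mem_zpowers x)
    obtain ⟨y, hy, hyx⟩ := hxg
    intro u hu
    obtain ⟨v, hv, hvu⟩ := hu
    have e : y * v = v * y := congrArg Subtype.val (hc.is_comm.comm ⟨y, hy⟩ ⟨v, hv⟩)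
    rw [Subgroup.mem_centralizer_singleton_iff]
    have hyx' : g * y * g⁻¹ = x := hyx
    have hvu' : g * v * g⁻¹ = u := hvu
    rw [← hyx', ← hvu']
    calc g * v * g⁻¹ * (g * y * g⁻¹) = g * (v * y) * g⁻¹ := by group
      _ = g * (y * v) * g⁻¹ := by rw [e]
      _ = g * y * g⁻¹ * (g * v * g⁻¹) := by group
  · intro h
    have key : ∀ x ∈ (P : Subgroup G), ∀ y ∈ (P : Subgroup G), x * y = y * x := by
      apply CfsgLib.CamHer.main P
      intro x hx
      obtain ⟨k, hk⟩ := IsPGroup.iff_orderOf.1 P.isPGroup' ⟨x, hx⟩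
      rw [Subgroup.orderOf_mk] at hk
      obtain ⟨Q, hQ⟩ := h x ⟨k, hk⟩
      exact CfsgLib.CamHer.zc_of_sylow P hx Q hQ
    exact ⟨⟨fun a b => Subtype.ext (key a a.2 b b.2)⟩⟩

end Cfsg.Agent.S4194
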