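import Cfsg.Statements.S4195
import Mathlib

set_option autoImplicit false
open Cfsg

namespace Cfsg.Agent.S4195

/-- Let x be a non-identity element of a finite group G whose centralizer contains a Sylow 2-subgroup of G. If x is conjugate to its inverse, then x has order 2. -/
theorem result {G : Type*} [Group G] [Finite G] (x : G) (hx : x ≠ 1) (P : Sylow 2 G) (hP : (P : Subgroup G) ≤ Subgroup.centralizer ({x} : Set G)) (hreal : IsConj x x⁻¹) : orderOf x = 2 := by
  classical
  obtain ⟨g, hg⟩ := isConj_iff.mp hreal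
  -- the subgroup of elements fixing or inverting x
  let L : Subgroup G :=
    { carrier := {y | y * x * y⁻¹ = x ∨ y * x * y⁻¹ = x⁻¹}
      one_mem' := by left; simp
      mul_mem' := by
        rintro a b (ha | ha) (hb | hb)
        · left
          calc a * b * x * (a * b)⁻¹ = a * (b * x * b⁻¹) * a⁻¹ := by group
            _ = x := by rw [hb, ha]
        · right
          calc a * b * x * (a * b)⁻¹ = a * (b * x * b⁻¹) * a⁻¹ := by group
            _ = (a * x * a⁻¹)⁻¹ := by rw [hb]; group
            _ = x⁻¹ := by rw [ha]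
        · right
          calc a * b * x * (a * b)⁻¹ = a * (b * x * b⁻¹) * a⁻¹ := by group
            _ = x⁻¹ := by rw [hb, ha]
        · left
          calc a * b * x * (a * b)⁻¹ = a * (b * x * b⁻¹) * a⁻¹ := by group
            _ = (a * x * a⁻¹)⁻¹ := by rw [hb]; group
            _ = x := by rw [ha, inv_inv]
      inv_mem' := by
        rintro a (ha | ha)
        · left
          calc a⁻¹ * x * a⁻¹⁻¹ = a⁻¹ * (a * x * a⁻¹) * a := by rw [ha]; group
            _ = x := by group
        · right
          calc a⁻¹ * x * a⁻¹⁻¹ = (a⁻¹ * x⁻¹ * a)⁻¹ := by group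
            _ = (a⁻¹ * (a * x * a⁻¹) * a)⁻¹ := by rw [ha]
            _ = x⁻¹ := by group }
  have hLmem : ∀ y : G, y ∈ L ↔ (y * x * y⁻¹ = x ∨ y * x * y⁻¹ = x⁻¹) := fun y => Iff.rfl
  have hCmem : ∀ y : G, y ∈ Subgroup.centralizer ({x} : Set G) ↔ y * x * y⁻¹ = x := by
    intro y
    rw [Subgroup.mem_centralizer_singleton_iff]
    constructor
    · intro h; rw [h]; group
    · intro h
      calc y * x = (y * x * y⁻¹) * y := by group
        _ = x * y := by rw [h]
  have hCL : Subgroup.centralizer ({x} : Set G) ≤ L := fun y hy => Or.inl ((hCmem y).mp hy)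
  by_cases hxx : x⁻¹ = x
  · have h2 : x ^ 2 = 1 := by
      rw [pow_two]
      calc x * x = x⁻¹ * x := by rw [hxx]
        _ = 1 := by group
    exact orderOf_eq_prime h2 hx
  · exfalso
    have hidx : (Subgroup.centralizer ({x} : Set G)).relIndex L = 2 := by
      rw [Subgroup.relIndex_eq_two_iff]
      refine ⟨g, Or.inr hg, ?_⟩
      intro b hb
      rw [hCmem, hCmem]
      have hbg : b * g * x * (b * g)⁻¹ = b * (g * x * g⁻¹) * b⁻¹ := by group
      rw [hbg, hg]
      rcases (hLmem b).mp hb with h | h
      · right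
        refine ⟨h, ?_⟩
        intro h'
        apply hxx
        have h3 : b * x⁻¹ * b⁻¹ = x⁻¹ := by
          calc b * x⁻¹ * b⁻¹ = (b * x * b⁻¹)⁻¹ := by group
            _ = x⁻¹ := by rw [h]
        rw [← h3, h']
      · left
        have h3 : b * x⁻¹ * b⁻¹ = x := by
          calc b * x⁻¹ * b⁻¹ = (b * x * b⁻¹)⁻¹ := by group
            _ = x := by rw [h, inv_inv]
        refine ⟨h3, ?_⟩
        intro h'
        exact hxx (by rw [← h, h'])
    have h1 : Nat.card (P : Subgroup G) ∣ Nat.card (Subgroup.centralizer ({x} : Set G)) :=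
      Subgroup.card_dvd_of_le hP
    have h2 : Nat.card (Subgroup.centralizer ({x} : Set G)) * 2 = Nat.card L := by
      have := Subgroup.relIndex_mul_relIndex ⊥ _ L bot_le hCL
      rw [Subgroup.relIndex_bot_left, Subgroup.relIndex_bot_left, hidx] at this
      exact this
    have h3 : Nat.card (P : Subgroup G) * 2 ∣ Nat.card G := by
      calc Nat.card (P : Subgroup G) * 2 ∣ Nat.card (Subgroup.centralizer ({x} : Set G)) * 2 :=
            Nat.mul_dvd_mul_right h1 2
        _ = Nat.card L := h2
        _ ∣ Nat.card G := Subgroup.card_subgroup_dvd_card L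
    have h4 : Nat.card (P : Subgroup G) = 2 ^ (Nat.card G).factorization 2 := Sylow.card_eq_multiplicity P
    rw [h4, ← pow_succ] at h3
    have := (Nat.prime_two.pow_dvd_iff_le_factorization Nat.card_pos.ne').mp h3
    omega

end Cfsg.Agent.S4195
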