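import Cfsg.Statements.S4196
import Mathlib
import Cfsg.Agent.S4195

set_option autoImplicit false
open Cfsg

namespace Cfsg.Agent.S4196

/-- A finite group G has elementary abelian Sylow 2-subgroups (commutative with every element squaring to the identity) if and only if every 2-element of G has a Sylow 2-subgroup in its centralizer and is conjugate to its inverse. -/
theorem result {G : Type*} [Group G] [Finite G] (P : Sylow 2 G) :
    (IsMulCommutative (P : Subgroup G) ∧ ∀ x ∈ (P : Subgroup G), x ^ 2 = 1) ↔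
      ∀ x : G, (∃ k : ℕ, orderOf x = 2 ^ k) → (∃ Q : Sylow 2 G, (Q : Subgroup G) ≤ Subgroup.centralizer ({x} : Set G)) ∧ IsConj x x⁻¹ := by
  constructor
  · rintro ⟨hc, h2⟩ x ⟨k, hk⟩
    obtain ⟨Q, hQ⟩ := (IsPGroup.of_card (p := 2) (n := k) (by rw [Nat.card_zpowers]; exact hk) :
      IsPGroup 2 (Subgroup.zpowers x)).exists_le_sylow
    have hxQ : x ∈ (Q : Subgroup G) := hQ (Subgroup.mem_zpowers x)
    obtain ⟨g, hg⟩ := MulAction.exists_smul_eq G P Q
    have hQm : ∀ y : G, y ∈ (Q : Subgroup G) → ∃ z ∈ (P : Subgroup G), g * z * g⁻¹ = y := by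
      intro y hy
      rw [← hg, Sylow.coe_subgroup_smul] at hy
      obtain ⟨z, hz, hzy⟩ := hy
      exact ⟨z, hz, hzy⟩
    constructor
    · refine ⟨Q, ?_⟩
      intro y hy
      rw [Subgroup.mem_centralizer_singleton_iff]
      obtain ⟨z, hz, rfl⟩ := hQm y hy
      obtain ⟨w, hw, rfl⟩ := hQm x hxQ
      have hzw : z * w = w * z := by
        have := hc.is_comm.comm (⟨z, hz⟩ : (P : Subgroup G)) ⟨w, hw⟩
        exact congrArg Subtype.val this
      calc g * z * g⁻¹ * (g * w * g⁻¹) = g * (z * w) * g⁻¹ := by group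
        _ = g * (w * z) * g⁻¹ := by rw [hzw]
        _ = _ := by group
    · obtain ⟨w, hw, rfl⟩ := hQm x hxQ
      have hw2 := h2 w hw
      have : (g * w * g⁻¹)⁻¹ = g * w * g⁻¹ := by
        have hwi : w⁻¹ = w := by
          rw [inv_eq_iff_mul_eq_one, ← pow_two]; exact hw2
        calc (g * w * g⁻¹)⁻¹ = g * w⁻¹ * g⁻¹ := by group
          _ = _ := by rw [hwi]
      rw [this]
  · intro h
    have h2 : ∀ x ∈ (P : Subgroup G), x ^ 2 = 1 := by
      intro x hx
      obtain ⟨k, hk⟩ := (IsPGroup.iff_orderOf.mp P.isPGroup') ⟨x, hx⟩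
      rw [Subgroup.orderOf_mk] at hk
      obtain ⟨⟨Q, hQ⟩, hc⟩ := h x ⟨k, hk⟩
      by_cases hx1 : x = 1
      · rw [hx1, one_pow]
      · rw [← Cfsg.Agent.S4195.result x hx1 Q hQ hc, pow_orderOf_eq_one]
    refine ⟨⟨⟨?_⟩⟩, h2⟩
    rintro ⟨a, ha⟩ ⟨b, hb⟩
    apply Subtype.ext
    change a * b = b * a
    have h3 := h2 (a * b) (mul_mem ha hb)
    have ha2 := h2 a ha
    have hb2 := h2 b hb
    have hai : a⁻¹ = a := by rw [inv_eq_iff_mul_eq_one, ← pow_two]; exact ha2
    have hbi : b⁻¹ = b := by rw [inv_eq_iff_mul_eq_one, ← pow_two]; exact hb2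
    have habi : (a * b)⁻¹ = a * b := by rw [inv_eq_iff_mul_eq_one, ← pow_two]; exact h3
    rw [← habi, mul_inv_rev, hai, hbi]

end Cfsg.Agent.S4196
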