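import Cfsg.Statements.S4230
import Mathlib

set_option autoImplicit false
open Cfsg

namespace Cfsg.Agent.S4230

/-- Let p be an odd prime, q a natural number not divisible by p, and e the multiplicative order of q modulo p. For a natural number f, p divides the value at q of the f-th cyclotomic polynomial if and only if f = e·p^j for some j ≥ 0. -/
theorem result (p q f : ℕ) (hp : p.Prime) (hp2 : p ≠ 2) (hpq : ¬ p ∣ q) :
    ((p : ℤ) ∣ (Polynomial.cyclotomic f ℤ).eval (q : ℤ)) ↔ ∃ j : ℕ, f = orderOf (q : ZMod p) * p ^ j := by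
  classical
  haveI : Fact p.Prime := ⟨hp⟩
  have hq0 : (q : ZMod p) ≠ 0 := by
    rw [Ne, ZMod.natCast_eq_zero_iff]; exact hpq
  have hroot : ((p : ℤ) ∣ (Polynomial.cyclotomic f ℤ).eval (q : ℤ)) ↔ (Polynomial.cyclotomic f (ZMod p)).IsRoot (q : ZMod p) := by
    rw [← ZMod.intCast_zmod_eq_zero_iff_dvd, Polynomial.IsRoot.def, ← Polynomial.map_cyclotomic_int f (ZMod p), Polynomial.eval_map]
    have h1 := Polynomial.hom_eval₂ (Polynomial.cyclotomic f ℤ) (RingHom.id ℤ) (Int.castRingHom (ZMod p)) (q : ℤ)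
    rw [Polynomial.eval₂_id, RingHom.comp_id] at h1
    have h2 : (Int.castRingHom (ZMod p)) (q : ℤ) = (q : ZMod p) := by simp
    rw [h2] at h1
    rw [← h1]
    rfl
  rw [hroot]
  by_cases hf : f = 0
  · subst hf
    constructor
    · intro h
      rw [Polynomial.cyclotomic_zero, Polynomial.IsRoot.def, Polynomial.eval_one] at h
      exact absurd h one_ne_zero
    · rintro ⟨j, hj⟩
      exfalso
      have h1 : 0 < orderOf (q : ZMod p) * p ^ j := by
        apply Nat.mul_pos _ (pow_pos hp.pos j)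
        rw [orderOf_pos_iff]
        apply isOfFinOrder_iff_pow_eq_one.mpr
        exact ⟨p - 1, by have := hp.two_le; omega, ZMod.pow_card_sub_one_eq_one hq0⟩
      omega
  · obtain ⟨k, m, hm, hfm⟩ := Nat.exists_eq_pow_mul_and_not_dvd hf p hp.ne_one
    haveI : NeZero (m : ZMod p) := ⟨by rw [Ne, ZMod.natCast_eq_zero_iff]; exact hm⟩
    rw [hfm, Polynomial.isRoot_cyclotomic_prime_pow_mul_iff_of_charP]
    have he : orderOf (q : ZMod p) ∣ p - 1 := orderOf_dvd_of_pow_eq_one (ZMod.pow_card_sub_one_eq_one hq0)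
    have hep : ¬ p ∣ orderOf (q : ZMod p) := by
      intro h
      have h1 := h.trans he
      have h2 := hp.two_le
      have := Nat.le_of_dvd (by omega) h1
      omega
    constructor
    · intro h
      exact ⟨k, by rw [← h.eq_orderOf]; ring⟩
    · rintro ⟨j, hj⟩
      have h1 : m = orderOf (q : ZMod p) := by
        have hc1 : m.Coprime (p ^ j) := Nat.Coprime.pow_right _ ((Nat.Prime.coprime_iff_not_dvd hp).mpr hm).symm
        have hc2 : (orderOf (q : ZMod p)).Coprime (p ^ k) := Nat.Coprime.pow_right _ ((Nat.Prime.coprime_iff_not_dvd hp).mpr hep).symm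
        apply Nat.dvd_antisymm
        · exact hc1.dvd_of_dvd_mul_right (hj ▸ Dvd.intro_left _ rfl)
        · exact hc2.dvd_of_dvd_mul_left (hj ▸ Dvd.intro _ rfl)
      rw [h1]
      exact IsPrimitiveRoot.orderOf _

end Cfsg.Agent.S4230
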