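import Cfsg.Agent.LibSylSn27
import Cfsg.Agent.LibAutAn27
-- Template for statement S4231 (row 4231; see /opt/grader/pristine/manifest.json for weights).
-- Copy to Cfsg/Agent/S4231.lean and replace the sorry. The statement below is byte-identical to the frozen
-- statement Cfsg.CfsgFrozen.S4231 (Cfsg/Statements/S4231.lean; the theorem Cfsg.fg13_almost_simple_alternating_no_element_of_order_pq_abelian_sylow);
-- the grader kernel-checks Cfsg.Agent.S4231.result against that frozen type. Keep the theorem IN THIS FILE
-- (a `result` declared elsewhere and merely imported here is not credited); helpers may live anywhere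
-- under Cfsg/Agent/.
import Cfsg.Statements.S4231
-- import your own Cfsg.Agent.* helpers here

set_option autoImplicit false
open Cfsg

namespace Cfsg.Agent.S4231

open CfsgLib.AutAn27 CfsgLib.SylSn27 Equiv Equiv.Perm

theorem card3 : ((Finset.univ : Finset (Perm (Fin 6))).filter fun g => g.cycleType = {3}).card = 40 := by
  rw [Equiv.Perm.card_of_cycleType]
  rw [if_pos]
  · rw [show ({3} : Multiset ℕ).toFinset = {3} by decide]
    rw [Finset.prod_singleton]
    decide
  · constructor
    · decide
    · decide

theorem card33 : ((Finset.univ : Finset (Perm (Fin 6))).filter fun g => g.cycleType = {3, 3}).card = 40 := by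
  rw [Equiv.Perm.card_of_cycleType]
  rw [if_pos]
  · rw [show ({3, 3} : Multiset ℕ).toFinset = {3} by decide]
    rw [Finset.prod_singleton]
    decide
  · constructor
    · decide
    · decide

theorem type6 {g : Perm (Fin 6)} (h : orderOf g = 3) : g.cycleType = {3} ∨ g.cycleType = {3, 3} := by
  obtain ⟨k, hk, hkn, hty⟩ := type_of_order h
  rw [Fintype.card_fin] at hkn
  have : k = 1 ∨ k = 2 := by omega
  rcases this with rfl | rfl
  · left; exact hty
  · right; exact hty

theorem mem_of_type33 {g : Perm (Fin 6)} (h : g.cycleType = {3, 3}) : g ∈ alternatingGroup (Fin 6) := by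
  rw [mem_alternatingGroup, sign_of_cycleType, h]
  decide

theorem sq6 (α : MulAut (alternatingGroup (Fin 6))) : ∃ σ : Perm (Fin 6), α ^ 2 = MulAut.conjNormal σ := by
  have ho : ∀ g : alternatingGroup (Fin 6), orderOf (g : Perm (Fin 6)) = 3 → (α g : Perm (Fin 6)).cycleType = {3} ∨ (α g : Perm (Fin 6)).cycleType = {3, 3} := by
    intro g hg
    apply type6
    rw [Subgroup.orderOf_coe, α.orderOf_eq, ← Subgroup.orderOf_coe, hg]
  have ho33 : ∀ g : Perm (Fin 6), g.cycleType = {3, 3} → orderOf g = 3 := by
    intro g hg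
    rw [← lcm_cycleType, hg]
    decide
  suffices hsq : ∀ g : alternatingGroup (Fin 6), IsThreeCycle (g : Perm (Fin 6)) → IsThreeCycle ((α ^ 2) g : Perm (Fin 6)) from
    induced (X := Fin 6) (o := 0) (u := 1) (v := 2) (w := 3) (by decide) (by decide) (by decide) (by decide) (by decide) (by decide) _ hsq
  by_cases hex : ∃ g : alternatingGroup (Fin 6), IsThreeCycle (g : Perm (Fin 6)) ∧ IsThreeCycle (α g : Perm (Fin 6))
  · obtain ⟨g, hg, hαg⟩ := hex
    have key : ∀ g' : alternatingGroup (Fin 6), IsThreeCycle (g' : Perm (Fin 6)) → IsThreeCycle (α g' : Perm (Fin 6)) := by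
      intro g' hg'
      obtain ⟨c, hc⟩ := isConj_iff.1 (alternatingGroup.isThreeCycle_isConj (by simp) hg hg')
      rw [← hc, map_mul, map_mul, map_inv]
      have h1 : ((α c * α g * (α c)⁻¹ : alternatingGroup (Fin 6)) : Perm (Fin 6)) = (α c : Perm (Fin 6)) * (α g : Perm (Fin 6)) * (α c : Perm (Fin 6))⁻¹ := rfl
      rw [h1, IsThreeCycle, cycleType_conj]
      exact hαg
    intro g' hg'
    rw [pow_two]
    exact key _ (key _ hg')
  · push Not at hex
    have h1 : ∀ g : alternatingGroup (Fin 6), IsThreeCycle (g : Perm (Fin 6)) → (α g : Perm (Fin 6)).cycleType = {3, 3} := by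
      intro g hg
      rcases ho g hg.orderOf with h | h
      · exact absurd h (hex g hg)
      · exact h
    have h2 : ∀ g : alternatingGroup (Fin 6), (g : Perm (Fin 6)).cycleType = {3, 3} → IsThreeCycle (α g : Perm (Fin 6)) := by
      intro g hg
      rcases ho g (ho33 _ hg) with h | h
      · exact h
      · exfalso
        classical
        let f : Perm (Fin 6) → Perm (Fin 6) := fun x => if hx : x ∈ alternatingGroup (Fin 6) then (α ⟨x, hx⟩ : Perm (Fin 6)) else x
        have hf : ∀ x (hx : x ∈ alternatingGroup (Fin 6)), f x = (α ⟨x, hx⟩ : Perm (Fin 6)) := fun x hx => dif_pos hx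
        have h3 := Finset.card_le_card_of_injOn (s := insert (g : Perm (Fin 6)) ((Finset.univ : Finset (Perm (Fin 6))).filter fun g => g.cycleType = {3}))
          (t := (Finset.univ : Finset (Perm (Fin 6))).filter fun g => g.cycleType = {3, 3}) f (by
            intro x hx
            rw [Finset.mem_coe, Finset.mem_insert, Finset.mem_filter] at hx
            rw [Finset.mem_coe, Finset.mem_filter]
            refine ⟨Finset.mem_univ _, ?_⟩
            rcases hx with rfl | ⟨-, hx⟩
            · rw [hf _ g.2]; exact h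
            · have hx' : IsThreeCycle x := hx
              rw [hf _ hx'.mem_alternatingGroup]
              exact h1 ⟨x, _⟩ hx') (by
            intro x hx y hy hxy
            rw [Finset.mem_coe, Finset.mem_insert, Finset.mem_filter] at hx hy
            have hxm : x ∈ alternatingGroup (Fin 6) := by
              rcases hx with rfl | ⟨-, hx⟩
              · exact g.2
              · exact IsThreeCycle.mem_alternatingGroup hx
            have hym : y ∈ alternatingGroup (Fin 6) := by
              rcases hy with rfl | ⟨-, hy⟩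
              · exact g.2
              · exact IsThreeCycle.mem_alternatingGroup hy
            rw [hf x hxm, hf y hym] at hxy
            have h4 := α.injective (Subtype.ext hxy)
            exact congrArg Subtype.val h4)
        rw [Finset.card_insert_of_notMem, card3, card33] at h3
        · omega
        · rw [Finset.mem_filter]
          rintro ⟨-, h4⟩
          rw [hg] at h4
          exact absurd h4 (by decide)
    intro g hg
    rw [pow_two]
    exact h2 _ (h1 _ hg)

/-- automorphisms of odd order are inner -/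
theorem odd_inner {n : ℕ} (hn : 5 ≤ n) (α : MulAut (alternatingGroup (Fin n))) {m : ℕ} (hm : Odd m) (h : α ^ m = 1) :
    ∃ σ : alternatingGroup (Fin n), α = MulAut.conj σ := by
  haveI : Nontrivial (Fin n) := Fin.nontrivial_iff_two_le.2 (by omega)
  have h1 : ∃ σ : Perm (Fin n), α = MulAut.conjNormal σ := by
    by_cases h6 : n = 6
    · subst h6
      obtain ⟨σ, hσ⟩ := sq6 α
      obtain ⟨k, hk⟩ := hm
      refine ⟨σ ^ (k + 1), ?_⟩
      rw [map_pow, ← hσ, ← pow_mul]
      have : 2 * (k + 1) = m + 1 := by omega
      rw [this, pow_succ, h, one_mul]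
    · exact induced (X := Fin n) (o := ⟨0, by omega⟩) (u := ⟨1, by omega⟩) (v := ⟨2, by omega⟩) (w := ⟨3, by omega⟩)
        (by simp) (by simp) (by simp) (by simp) (by simp) (by simp) α (preserve (by rw [Fintype.card_fin]; exact h6) α)
  obtain ⟨σ, rfl⟩ := h1
  have h2 : σ ^ m = 1 := by
    apply conjNormal_inj (by omega : 4 ≤ n)
    rw [map_pow, h, map_one]
  have h3 : sign σ = 1 := by
    have h4 := congrArg sign h2
    rw [map_pow, map_one] at h4
    rcases Int.units_eq_one_or (sign σ) with h5 | h5
    · exact h5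
    · rw [h5, hm.neg_one_pow] at h4
      exact absurd h4 (by decide)
  refine ⟨⟨σ, h3⟩, ?_⟩
  apply MulEquiv.ext
  intro x
  apply Subtype.ext
  rw [MulAut.conjNormal_apply]
  rfl

theorem conj_inj {n : ℕ} (hn : 4 ≤ n) : Function.Injective (MulAut.conj : alternatingGroup (Fin n) →* MulAut (alternatingGroup (Fin n))) := by
  intro a b h
  apply Subtype.ext
  apply conjNormal_inj hn
  apply MulEquiv.ext
  intro x
  apply Subtype.ext
  rw [MulAut.conjNormal_apply, MulAut.conjNormal_apply]
  exact congrArg (fun φ : MulAut (alternatingGroup (Fin n)) => ((φ x : alternatingGroup (Fin n)) : Perm (Fin n))) h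

theorem exists_elem {n p q : ℕ} (hp : p.Prime) (hq : q.Prime) (hpq : p < q) (hn : q ^ 2 ≤ n) :
    ∃ g : alternatingGroup (Fin n), orderOf g = p * q := by
  have hq3 : 3 ≤ q := by have := hp.two_le; omega
  have hqo : Odd q := hq.odd_of_ne_two (by omega)
  have hcop : Nat.Coprime p q := (Nat.coprime_primes hp hq).2 (by omega)
  suffices h : ∃ m : Multiset ℕ, (m.sum ≤ Fintype.card (Fin n) ∧ ∀ a ∈ m, 2 ≤ a) ∧ m.lcm = p * q ∧ Even (m.sum + Multiset.card m) by
    obtain ⟨m, hm, hl, he⟩ := h
    obtain ⟨g, hg⟩ := (Equiv.Perm.exists_with_cycleType_iff (Fin n)).2 hm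
    refine ⟨⟨g, ?_⟩, ?_⟩
    · rw [mem_alternatingGroup, sign_of_cycleType, hg]
      exact he.neg_one_pow
    · rw [← Subgroup.orderOf_coe, ← lcm_cycleType, hg, hl]
  rw [Fintype.card_fin]
  by_cases hp2 : p = 2
  · subst hp2
    refine ⟨{q, 2, 2}, ⟨?_, ?_⟩, ?_, ?_⟩
    · have : ({q, 2, 2} : Multiset ℕ).sum = q + 4 := by simp; 
      rw [this]
      nlinarith
    · intro a ha
      simp only [Multiset.insert_eq_cons, Multiset.mem_cons, Multiset.mem_singleton] at ha
      omega
    · simp only [Multiset.insert_eq_cons, Multiset.lcm_cons, Multiset.lcm_singleton, normalize_eq]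
      show Nat.lcm q (Nat.lcm 2 2) = 2 * q
      rw [Nat.lcm_self, Nat.lcm_comm, hcop.lcm_eq_mul]
    · simp only [Multiset.insert_eq_cons, Multiset.sum_cons, Multiset.sum_singleton, Multiset.card_cons, Multiset.card_singleton]
      obtain ⟨k, hk⟩ := hqo
      exact ⟨k + 4, by omega⟩
  · have hpo : Odd p := hp.odd_of_ne_two hp2
    refine ⟨{p, q}, ⟨?_, ?_⟩, ?_, ?_⟩
    · simp only [Multiset.insert_eq_cons, Multiset.sum_cons, Multiset.sum_singleton]
      nlinarith
    · intro a ha
      simp only [Multiset.insert_eq_cons, Multiset.mem_cons, Multiset.mem_singleton] at ha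
      rcases ha with rfl | rfl
      · exact hp.two_le
      · omega
    · simp only [Multiset.insert_eq_cons, Multiset.lcm_cons, Multiset.lcm_singleton, normalize_eq]
      show Nat.lcm p q = p * q
      rw [hcop.lcm_eq_mul]
    · simp only [Multiset.insert_eq_cons, Multiset.sum_cons, Multiset.sum_singleton, Multiset.card_cons, Multiset.card_singleton]
      obtain ⟨k, hk⟩ := hqo
      obtain ⟨l, hl⟩ := hpo
      exact ⟨k + l + 2, by omega⟩

theorem aux (n : ℕ) (hn : 5 ≤ n) (G : Subgroup (MulAut (alternatingGroup (Fin n))))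
    (hG : (MulAut.conj : alternatingGroup (Fin n) →* MulAut (alternatingGroup (Fin n))).range ≤ G)
    (p q : ℕ) [Fact p.Prime] [Fact q.Prime] (hpq : p < q) (h : ∀ g : G, orderOf g ≠ p * q) :
    ∀ Q : Sylow q G, IsMulCommutative (Q : Subgroup G) := by
  intro Q
  have hq : q.Prime := Fact.out
  have hp : p.Prime := Fact.out
  have hqo : Odd q := hq.odd_of_ne_two (by have := hp.two_le; omega)
  have hlt : n < q ^ 2 := by
    by_contra hle
    push Not at hle
    obtain ⟨g, hg⟩ := exists_elem hp hq hpq hle
    apply h ⟨MulAut.conj g, hG ⟨g, rfl⟩⟩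
    rw [← Subgroup.orderOf_coe, ← hg]
    exact orderOf_injective _ (conj_inj (by omega)) g
  have hinn : ∀ x ∈ (Q : Subgroup G), ∃ σ : alternatingGroup (Fin n), (x : MulAut (alternatingGroup (Fin n))) = MulAut.conj σ := by
    intro x hx
    obtain ⟨k, hk⟩ := Q.isPGroup' ⟨x, hx⟩
    have h1 : x ^ q ^ k = 1 := congrArg Subtype.val hk
    have h2 : (x : MulAut (alternatingGroup (Fin n))) ^ q ^ k = 1 := congrArg Subtype.val h1
    exact odd_inner hn _ (hqo.pow (n := k)) h2
  obtain ⟨H, hH⟩ : ∃ H : Subgroup (alternatingGroup (Fin n)), H = ((Q : Subgroup G).map G.subtype).comap MulAut.conj := ⟨_, rfl⟩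
  have hHp : IsPGroup q H := by
    rw [hH]
    exact ((Q.isPGroup'.map G.subtype)).comap_of_injective _ (conj_inj (by omega))
  refine ⟨⟨fun a b => ?_⟩⟩
  obtain ⟨σ, hσ⟩ := hinn a a.2
  obtain ⟨τ, hτ⟩ := hinn b b.2
  have hc := sylow_comm hlt H hHp σ (by rw [hH]; exact ⟨a, a.2, hσ⟩) τ (by rw [hH]; exact ⟨b, b.2, hτ⟩)
  apply Subtype.ext
  apply Subtype.ext
  show ((a : G) : MulAut (alternatingGroup (Fin n))) * ((b : G) : MulAut (alternatingGroup (Fin n))) = ((b : G) : MulAut (alternatingGroup (Fin n))) * ((a : G) : MulAut (alternatingGroup (Fin n)))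
  rw [hσ, hτ, ← map_mul, ← map_mul, hc]


/-- Let n ≥ 5 and let G be a group of automorphisms of the alternating group of degree n containing all inner automorphisms. If p ≠ q are primes and G has no element of order pq, then every Sylow p-subgroup of G is abelian or every Sylow q-subgroup of G is abelian. -/
theorem result (n : ℕ) (hn : 5 ≤ n) (G : Subgroup (MulAut (alternatingGroup (Fin n))))
    (hG : (MulAut.conj : alternatingGroup (Fin n) →* MulAut (alternatingGroup (Fin n))).range ≤ G)
    (p q : ℕ) [Fact p.Prime] [Fact q.Prime] (hpq : p ≠ q) (h : ∀ g : G, orderOf g ≠ p * q) :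
    (∀ P : Sylow p G, IsMulCommutative (P : Subgroup G)) ∨ (∀ Q : Sylow q G, IsMulCommutative (Q : Subgroup G)) := by
  rcases Nat.lt_or_gt_of_ne hpq with hlt | hlt
  · right
    exact aux n hn G hG p q hlt h
  · left
    exact aux n hn G hG q p hlt (fun g => by rw [mul_comm]; exact h g)

end Cfsg.Agent.S4231
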