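import Cfsg.Statements.S4242
import Cfsg.Agent.LibTransNil
import Cfsg.Agent.LibCoprime

set_option autoImplicit false
open Cfsg

namespace Cfsg.Agent.S4242

open Subgroup Cfsg CfsgLib.TransPC CfsgLib.TransNil
open scoped Pointwise

universe u
variable {G : Type u} [Group G] [Finite G]

theorem nil_of_le {H K : Subgroup G} (h : H ≤ K) (hK : Group.IsNilpotent K) : Group.IsNilpotent H := by
  have h1 : Group.IsNilpotent (H.subgroupOf K) := inferInstance
  exact (Group.isNilpotent_congr (subgroupOfEquivOfLe h)).mp h1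

theorem isNPC_le {p : ℕ} [Fact p.Prime] {N M : Subgroup G} (hN : IsNPC p N) (hM : ¬ p ∣ Nat.card M) : M ≤ N := by
  intro x hx
  rw [hN.mem_iff]
  rw [Nat.coprime_comm]
  refine (Nat.Prime.coprime_iff_not_dvd Fact.out).mpr (fun h => hM (h.trans ?_))
  have := orderOf_dvd_natCard (⟨x, hx⟩ : M)
  rwa [Subgroup.orderOf_mk] at this

theorem cop_comm {p : ℕ} [hp : Fact p.Prime] {R K H : Subgroup G} (hH : Group.IsNilpotent H) (hRH : R ≤ H) (hKH : K ≤ H)
    (hco : (Nat.card R).Coprime (Nat.card K)) : ∀ r ∈ R, ∀ k ∈ K, r * k = k * r := by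
  intro r hr k hk
  apply commute_of_coprime_mem hH (hRH hr) (hKH hk)
  refine Nat.Coprime.coprime_dvd_left ?_ (Nat.Coprime.coprime_dvd_right ?_ hco)
  · have := orderOf_dvd_natCard (⟨r, hr⟩ : R)
    rwa [Subgroup.orderOf_mk] at this
  · have := orderOf_dvd_natCard (⟨k, hk⟩ : K)
    rwa [Subgroup.orderOf_mk] at this

/-- product of commuting nilpotent subgroups -/
theorem nil_sup {A B : Subgroup G} (hA : Group.IsNilpotent A) (hB : Group.IsNilpotent B)
    (hc : ∀ a ∈ A, ∀ b ∈ B, a * b = b * a) : Group.IsNilpotent ↥(A ⊔ B) := by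
  have hc' : ∀ (a : A) (b : B), Commute (A.subtype a) (B.subtype b) := fun a b => hc a a.2 b b.2
  obtain ⟨f, hf⟩ : ∃ f : A × B →* G, f = MonoidHom.noncommCoprod A.subtype B.subtype hc' := ⟨_, rfl⟩
  have hr : f.range = A ⊔ B := by
    rw [hf, MonoidHom.noncommCoprod_range, range_subtype, range_subtype]
  have h1 : Group.IsNilpotent f.range := Group.nilpotent_of_surjective f.rangeRestrict f.rangeRestrict_surjective
  rw [hr] at h1
  exact h1

theorem card_sup_mul (A B : Subgroup G) (h : B ≤ normalizer (A : Set G) ∨ A ≤ normalizer (B : Set G)) :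
    Nat.card ↥(A ⊔ B) * Nat.card ↥(A ⊓ B) = Nat.card A * Nat.card B := by
  rcases h with h | h
  · have h1 := CfsgLib.Coprime.card_sup_mul_card_inf h
    rw [sup_comm, inf_comm, h1, mul_comm]
  · exact CfsgLib.Coprime.card_sup_mul_card_inf h

theorem fwd {p : ℕ} (hp : p.Prime) (hpG : p ∣ Nat.card G)
    (hmax : ∀ M : Subgroup G, IsCoatom M → p ∣ Nat.card M → Group.IsNilpotent M)
    (hnil : ¬ Group.IsNilpotent G) (hmin : ¬ Cfsg.IsMinimalNonNilpotent G) :
        ∃ Z K : Subgroup G, Z.Normal ∧ K.Normal ∧ Z ⊓ K = ⊥ ∧ Z ⊔ K = ⊤ ∧ Nat.card Z = p ∧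
          Cfsg.IsMinimalNonNilpotent K ∧ ¬ p ∣ Nat.card K := by
  haveI : Fact p.Prime := ⟨hp⟩
  have hA : ∀ K : Subgroup G, K ≠ ⊤ → p ∣ Nat.card K → Group.IsNilpotent K := by
    intro K hK hpK
    obtain ⟨M, hM, hKM⟩ := (eq_top_or_exists_le_coatom K).resolve_left hK
    exact nil_of_le hKM (hmax M hM (hpK.trans (card_dvd_of_le hKM)))
  obtain ⟨M, hM, hMn⟩ : ∃ M : Subgroup G, IsCoatom M ∧ ¬ Group.IsNilpotent M := by
    unfold Cfsg.IsMinimalNonNilpotent at hmin
    push Not at hmin
    obtain ⟨H, hH, hHn⟩ := hmin hnil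
    obtain ⟨M, hM, hHM⟩ := (eq_top_or_exists_le_coatom H).resolve_left hH
    exact ⟨M, hM, fun h => hHn (nil_of_le hHM h)⟩
  have hpM : ¬ p ∣ Nat.card M := fun h => hMn (hmax M hM h)
  have hpcop : ∀ K : Subgroup G, ¬ p ∣ Nat.card K → ∀ R : Subgroup G, IsPGroup p R → (Nat.card R).Coprime (Nat.card K) := by
    intro K hK R hR
    obtain ⟨k, hk⟩ := hR.exists_card_eq
    rw [hk]
    exact Nat.Coprime.pow_left _ ((Nat.Prime.coprime_iff_not_dvd hp).mpr hK)
  -- a nontrivial normal p-subgroup
  obtain ⟨R, hRp, hRb, hRn⟩ : ∃ R : Subgroup G, IsPGroup p R ∧ R ≠ ⊥ ∧ R.Normal := by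
    by_contra hcon
    push Not at hcon
    have hnpc : Cfsg.HasNormalPComplement p G := by
      rw [frobenius_local]
      intro Q hQ hQb
      have h1 : normalizer (Q : Set G) ≠ ⊤ := fun h => hcon Q hQ hQb (normalizer_eq_top_iff.mp h)
      have h2 : p ∣ Nat.card (normalizer (Q : Set G)) := by
        refine dvd_trans ?_ (card_dvd_of_le (le_normalizer (H := Q)))
        obtain ⟨k, hk⟩ := hQ.exists_card_eq
        rw [hk]
        apply dvd_pow_self
        rintro rfl
        rw [pow_zero, card_eq_one] at hk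
        exact hQb hk
      exact hasNPC_of_isNilpotent (hA _ h1 h2) p
    rw [hasNPC_iff] at hnpc
    obtain ⟨N, hN⟩ := hnpc
    have hNtop : N ≠ ⊤ := by
      rintro rfl
      apply hN.2.1
      rw [card_top]; exact hpG
    have hMN : M = N := (hM.le_iff.mp (isNPC_le hN hpM)).resolve_left hNtop |>.symm
    subst hMN
    have hMnorm : M.Normal := hN.normal
    obtain ⟨P⟩ := (inferInstance : Nonempty (Sylow p G))
    have hcompl := hN.isComplement' P
    have hPb : (P : Subgroup G) ≠ ⊥ := by
      intro h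
      have h1 := hcompl.card_mul
      rw [h, card_bot, mul_one] at h1
      exact hNtop (eq_top_of_card_eq M h1)
    -- P centralizes M
    have hcen : M ≤ centralizer ((P : Subgroup G) : Set G) := by
      have h1 : ∀ r : ℕ, r.Prime → ∃ S : Sylow r M, (S : Subgroup M).map M.subtype ≤ centralizer ((P : Subgroup G) : Set G) := by
        intro r hr
        haveI : Fact r.Prime := ⟨hr⟩
        obtain ⟨S, hS⟩ := CfsgLib.Coprime.exists_invariant_sylow (G := G) (A := (P : Subgroup G)) (K := M)
          (by rw [normalizer_eq_top_iff.mpr hMnorm]; exact le_top) (hpcop M hpM P P.2)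
          (Or.inl (by haveI := P.2.isNilpotent; infer_instance)) r
        refine ⟨S, ?_⟩
        set S' := (S : Subgroup M).map M.subtype with hS'
        have hS'M : S' ≤ M := map_subtype_le _
        have hne : S' ⊔ (P : Subgroup G) ≠ ⊤ := by
          intro htop
          apply hMn
          have h2 : Nat.card ↥(S' ⊔ (P : Subgroup G)) * Nat.card ↥(S' ⊓ (P : Subgroup G)) = Nat.card S' * Nat.card P :=
            card_sup_mul S' P (Or.inl hS)
          have h3 : S' ⊓ (P : Subgroup G) = ⊥ := by
            rw [eq_bot_iff, ← hcompl.disjoint.eq_bot]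
            exact inf_le_inf_right _ hS'M
          rw [htop, h3, card_bot, card_top, mul_one, ← hcompl.card_mul] at h2
          have h4 := Nat.eq_of_mul_eq_mul_right Nat.card_pos h2
          have h5 : S' = M := eq_of_le_of_card_ge hS'M h4.le
          have h6 : IsPGroup r S' := S.2.map _
          rw [h5] at h6
          exact h6.isNilpotent
        have hpP : p ∣ Nat.card (P : Subgroup G) := by
          obtain ⟨k, hk⟩ := P.2.exists_card_eq
          have : k ≠ 0 := by
            rintro rfl
            rw [pow_zero, card_eq_one] at hk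
            exact hPb hk
          rw [hk]; exact dvd_pow_self p this
        have hnil2 := hA _ hne (hpP.trans (card_dvd_of_le le_sup_right))
        have h7 := cop_comm (p := p) hnil2 (le_sup_right : (P : Subgroup G) ≤ S' ⊔ P) (le_sup_left : S' ≤ S' ⊔ P)
          ((hpcop M hpM P P.2).coprime_dvd_right (card_dvd_of_le hS'M))
        intro s hs
        rw [mem_centralizer_iff]
        intro x hx
        exact h7 x hx s hs
      -- all Sylow subgroups of M
      have h2 : Nat.card M ∣ Nat.card ↥(M ⊓ centralizer ((P : Subgroup G) : Set G)) := by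
        rw [← Nat.factorization_le_iff_dvd Nat.card_pos.ne' Nat.card_pos.ne']
        intro r
        by_cases hr : r.Prime
        · haveI : Fact r.Prime := ⟨hr⟩
          obtain ⟨S, hS⟩ := h1 r hr
          rw [← hr.pow_dvd_iff_le_factorization Nat.card_pos.ne']
          rw [← S.card_eq_multiplicity, ← card_map_of_injective M.subtype_injective (K := (S : Subgroup M))]
          exact card_dvd_of_le (le_inf (map_subtype_le _) hS)
        · rw [Nat.factorization_eq_zero_of_not_prime _ hr]; exact Nat.zero_le _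
      have h3 : M ⊓ centralizer ((P : Subgroup G) : Set G) = M :=
        eq_of_le_of_card_ge inf_le_left (Nat.le_of_dvd Nat.card_pos h2)
      exact inf_eq_left.mp h3
    have hPn : (P : Subgroup G).Normal := by
      rw [← normalizer_eq_top_iff, eq_top_iff]
      have h1 : M ⊔ (P : Subgroup G) = ⊤ := hcompl.sup_eq_top
      rw [← h1]
      exact sup_le (hcen.trans (centralizer_le_normalizer _)) le_normalizer
    exact hcon P P.2 hPb hPn
  have hRM : ¬ R ≤ M := by
    intro h
    obtain ⟨k, hk⟩ := hRp.exists_card_eq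
    have : k ≠ 0 := by
      rintro rfl
      rw [pow_zero, card_eq_one] at hk
      exact hRb hk
    exact hpM ((hk ▸ dvd_pow_self p this : p ∣ Nat.card R).trans (card_dvd_of_le h))
  have hinf : R ⊓ M = ⊥ := by
    have h1 := hpcop M hpM R hRp
    exact (inf_eq_bot_of_coprime h1)
  have hsup : ∀ R1 : Subgroup G, ¬ R1 ≤ M → R1 ⊔ M = ⊤ := by
    intro R1 hR1
    rcases hM.le_iff.mp (le_sup_right : M ≤ R1 ⊔ M) with h | h
    · exact h
    · exact absurd (le_sup_left.trans h.le) hR1
  have hcardG : Nat.card G = Nat.card R * Nat.card M := by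
    have h2 := card_sup_mul R M (Or.inl (by rw [normalizer_eq_top_iff.mpr hRn]; exact le_top))
    rw [hsup R hRM, hinf, card_bot, card_top, mul_one] at h2
    exact h2
  have hpR : p ∣ Nat.card R := by
    obtain ⟨k, hk⟩ := hRp.exists_card_eq
    have : k ≠ 0 := by
      rintro rfl
      rw [pow_zero, card_eq_one] at hk
      exact hRb hk
    exact hk ▸ dvd_pow_self p this
  -- proper subgroups of M
  have hprop : ∀ K0 : Subgroup G, K0 ≤ M → K0 ≠ M → Group.IsNilpotent K0 ∧ ∀ r ∈ R, ∀ k ∈ K0, r * k = k * r := by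
    intro K0 hK0 hne
    have h1 : R ⊔ K0 ≠ ⊤ := by
      intro h
      have h2 := card_sup_mul R K0 (Or.inl (by rw [normalizer_eq_top_iff.mpr hRn]; exact le_top))
      have h3 : R ⊓ K0 = ⊥ := by
        rw [eq_bot_iff, ← hinf]; exact inf_le_inf_left _ hK0
      rw [h, h3, card_bot, card_top, mul_one, hcardG] at h2
      have h4 := Nat.eq_of_mul_eq_mul_left Nat.card_pos h2
      exact hne (eq_of_le_of_card_ge hK0 h4.le)
    have h2 := hA _ h1 (hpR.trans (card_dvd_of_le le_sup_left))
    exact ⟨nil_of_le le_sup_right h2, cop_comm (p := p) h2 le_sup_left le_sup_right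
      ((hpcop M hpM R hRp).coprime_dvd_right (card_dvd_of_le hK0))⟩
  have hcomm : ∀ r ∈ R, ∀ k ∈ M, r * k = k * r := by
    intro r hr k hk
    refine (hprop (zpowers k) (by rw [zpowers_le]; exact hk) ?_).2 r hr k (mem_zpowers k)
    intro h
    apply hMn
    rw [← h]
    exact @CommGroup.isNilpotent _ (IsCyclic.commGroup)
  have hMnorm : M.Normal := by
    rw [← normalizer_eq_top_iff, eq_top_iff, ← hsup R hRM]
    refine sup_le ?_ le_normalizer
    intro r hr
    apply centralizer_le_normalizer
    rw [mem_centralizer_iff]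
    intro k hk
    exact (hcomm r hr k hk).symm
  obtain ⟨z, hz⟩ := exists_prime_orderOf_dvd_card' (G := R) p hpR
  have hzo : orderOf (z : G) = p := by rw [Subgroup.orderOf_coe, hz]
  have hzM : ¬ zpowers (z : G) ≤ M := by
    rw [zpowers_le]
    intro h
    have h1 : (z : G) ∈ R ⊓ M := ⟨z.2, h⟩
    rw [hinf, mem_bot] at h1
    rw [h1, orderOf_one] at hzo
    exact hp.one_lt.ne hzo
  have hRcard : Nat.card R = p := by
    have h1 := hsup _ hzM
    have h2 := card_sup_mul (zpowers (z : G)) M (Or.inr (by rw [normalizer_eq_top_iff.mpr hMnorm]; exact le_top))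
    have h3 : zpowers (z : G) ⊓ M = ⊥ := by
      rw [eq_bot_iff, ← hinf]; exact inf_le_inf_right _ (by rw [zpowers_le]; exact z.2)
    rw [h1, h3, card_bot, card_top, mul_one, hcardG, Nat.card_zpowers, hzo] at h2
    exact Nat.eq_of_mul_eq_mul_right Nat.card_pos h2
  refine ⟨R, M, hRn, hMnorm, hinf, hsup R hRM, hRcard, ⟨hMn, ?_⟩, hpM⟩
  intro H hH
  have h1 : H.map M.subtype ≠ M := by
    intro h
    apply hH
    apply map_injective M.subtype_injective
    rw [h, ← MonoidHom.range_eq_map, range_subtype]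
  exact (Group.isNilpotent_congr (equivMapOfInjective H M.subtype M.subtype_injective)).mpr
    (hprop _ (map_subtype_le _) h1).1


/-- Let G be a finite group and p a prime dividing its order. Every maximal subgroup of G of order divisible by p is nilpotent if and only if G is nilpotent, or G is a minimal non-nilpotent group, or G is the internal direct product of a normal subgroup of order p and a normal minimal non-nilpotent subgroup of order prime to p. -/
theorem result {G : Type*} [Group G] [Finite G] (p : ℕ) (hp : p.Prime) (hpG : p ∣ Nat.card G) :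
    (∀ M : Subgroup G, IsCoatom M → p ∣ Nat.card M → Group.IsNilpotent M) ↔
      (Group.IsNilpotent G ∨ Cfsg.IsMinimalNonNilpotent G ∨
        ∃ Z K : Subgroup G, Z.Normal ∧ K.Normal ∧ Z ⊓ K = ⊥ ∧ Z ⊔ K = ⊤ ∧ Nat.card Z = p ∧
          Cfsg.IsMinimalNonNilpotent K ∧ ¬ p ∣ Nat.card K) := by
  constructor
  · intro h
    by_cases h1 : Group.IsNilpotent G
    · exact Or.inl h1
    by_cases h2 : Cfsg.IsMinimalNonNilpotent G
    · exact Or.inr (Or.inl h2)
    exact Or.inr (Or.inr (fwd hp hpG h h1 h2))
  · haveI : Fact p.Prime := ⟨hp⟩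
    rintro (h | h | ⟨Z, K, hZ, hK, hZK, hZKt, hZp, hKm, hpK⟩) M hM hpM
    · infer_instance
    · exact h.2 M hM.1
    · obtain ⟨z, hz⟩ := exists_prime_orderOf_dvd_card' (G := M) p hpM
      have hzo : orderOf (z : G) = p := by rw [Subgroup.orderOf_coe, hz]
      have hcard : Nat.card G = Nat.card Z * Nat.card K := by
        have h2 := card_sup_mul Z K (Or.inl (by rw [normalizer_eq_top_iff.mpr hZ]; exact le_top))
        rw [hZKt, hZK, card_bot, card_top, mul_one] at h2
        exact h2
      have hzZ : (z : G) ∈ Z := by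
        have h1 : orderOf (QuotientGroup.mk' Z (z : G)) ∣ p := by
          rw [← hzo]; exact orderOf_map_dvd _ _
        have h2 : orderOf (QuotientGroup.mk' Z (z : G)) ∣ Nat.card K := by
          have h3 : Nat.card (G ⧸ Z) = Nat.card K := by
            have h4 := Z.card_eq_card_quotient_mul_card_subgroup
            rw [hcard, mul_comm] at h4
            exact (Nat.eq_of_mul_eq_mul_right Nat.card_pos h4).symm
          rw [← h3]; exact orderOf_dvd_natCard _
        have h3 : orderOf (QuotientGroup.mk' Z (z : G)) = 1 :=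
          Nat.eq_one_of_dvd_coprimes ((Nat.Prime.coprime_iff_not_dvd hp).mpr hpK) h1 h2
        exact (QuotientGroup.eq_one_iff _).mp (orderOf_eq_one_iff.mp h3)
      have hZM : Z ≤ M := by
        have h1 : zpowers (z : G) = Z := by
          apply eq_of_le_of_card_ge (by rw [zpowers_le]; exact hzZ)
          rw [Nat.card_zpowers, hzo, hZp]
        rw [← h1, zpowers_le]; exact z.2
      have hcomm : ∀ a ∈ Z, ∀ b ∈ K, a * b = b * a := by
        intro a ha b hb
        have h1 : a * b * a⁻¹ * b⁻¹ ∈ Z ⊓ K := by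
          refine mem_inf.mpr ⟨?_, mul_mem (hK.conj_mem b hb a) (inv_mem hb)⟩
          have h2 : a * b * a⁻¹ * b⁻¹ = a * (b * a⁻¹ * b⁻¹) := by group
          rw [h2]; exact mul_mem ha (hZ.conj_mem _ (inv_mem ha) b)
        rw [hZK, mem_bot] at h1
        have h2 := mul_inv_eq_one.mp h1
        exact mul_inv_eq_iff_eq_mul.mp h2
      have hKM : Group.IsNilpotent ↥(K ⊓ M) := by
        have h1 : (K ⊓ M).subgroupOf K ≠ ⊤ := by
          intro h
          rw [subgroupOf_eq_top] at h
          apply hM.1
          rw [eq_top_iff, ← hZKt]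
          exact sup_le hZM (h.trans inf_le_right)
        exact (Group.isNilpotent_congr (subgroupOfEquivOfLe inf_le_left)).mp (hKm.2 _ h1)
      have hZnil : Group.IsNilpotent Z := (IsPGroup.of_card (n := 1) (by rw [pow_one, hZp]) : IsPGroup p Z).isNilpotent
      have hMeq : Z ⊔ (K ⊓ M) = M := by
        apply le_antisymm (sup_le hZM inf_le_right)
        intro m hm
        have h1 : m ∈ Z ⊔ K := by rw [hZKt]; exact mem_top m
        obtain ⟨a, ha, b, hb, rfl⟩ := mem_sup_of_normal_left.mp h1
        refine mul_mem (mem_sup_left ha) (mem_sup_right ⟨hb, ?_⟩)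
        have h2 := mul_mem (inv_mem (hZM ha)) hm
        rwa [inv_mul_cancel_left] at h2
      rw [← hMeq]
      exact nil_sup hZnil hKM (fun a ha b hb => hcomm a ha b hb.1)

end Cfsg.Agent.S4242
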