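import Cfsg.Statements.S4245
import Mathlib
import Cfsg.Agent.S0143
import Cfsg.Agent.S0144
import Cfsg.Agent.LibSolvBasic

set_option autoImplicit false
open Cfsg

namespace Cfsg.Agent.S4245

open scoped Pointwise

/-- the hypothesis: index a power of `p`, cyclic normal subgroup `B` of `A`, `A/B` cyclic of 2-power order -/
def Hyp {G : Type*} [Group G] (p : ℕ) (A B : Subgroup G) : Prop :=
  (∃ s, A.index = p ^ s) ∧ B ≤ A ∧ IsCyclic B ∧
    (∃ r, B.relIndex A = 2 ^ r) ∧ ∃ _ : (B.subgroupOf A).Normal, IsCyclic (A ⧸ B.subgroupOf A)

theorem simple_case {G : Type*} [Group G] [Finite G] [IsSimpleGroup G] {p : ℕ} (hp : p.Prime) {A B : Subgroup G}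
    (h : Hyp p A B) : Group.IsSolvable G := by
  classical
  obtain ⟨⟨s, hs⟩, hBA, hBc, ⟨r, hr⟩, hBn, hcy⟩ := h
  have hAB : A ≤ Subgroup.normalizer (B : Set G) := (Subgroup.normal_subgroupOf_iff_le_normalizer hBA).mp hBn
  have hprime : (Nat.card G).Prime → Group.IsSolvable G := by
    intro h
    have := Fact.mk h
    have : IsCyclic G := isCyclic_of_prime_card rfl
    exact Group.isSolvable_of_comm (fun a b => by
      let _ : CommGroup G := IsCyclic.commGroup
      exact mul_comm a b)
  -- Burnside
  have hburn : ∀ (q k : ℕ) (x : G), q.Prime → x ≠ 1 → (Subgroup.centralizer ({x} : Set G)).index ∣ q ^ k → Group.IsSolvable G := by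
    intro q k x hq hx hdvd
    obtain ⟨j, -, hj⟩ := (Nat.dvd_prime_pow hq).mp hdvd
    exact hprime (Cfsg.Agent.S0143.result q j hq x hx hj)
  have hpgroup : ∀ q k : ℕ, q.Prime → Nat.card G = q ^ k → Group.IsSolvable G := by
    intro q k hq h
    have := Fact.mk hq
    have h1 : IsPGroup q G := IsPGroup.of_card h
    have : Group.IsNilpotent G := h1.isNilpotent
    infer_instance
  by_cases hB1 : B = ⊥
  · -- A has order 2^r
    have hcA : Nat.card A = 2 ^ r := by
      rw [← hr, hB1, Subgroup.relIndex_bot_left]
    apply Cfsg.Agent.S0144.result 2 p r s Nat.prime_two hp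
    rw [← Subgroup.card_mul_index A, hcA, hs]
  have hcomm : ∀ x ∈ B, ∀ y ∈ B, x * y = y * x := by
    intro x hx y hy
    let _ : CommGroup B := IsCyclic.commGroup
    exact congrArg Subtype.val (mul_comm (⟨x, hx⟩ : B) ⟨y, hy⟩)
  rcases hp.eq_two_or_odd with hp2 | hpodd
  · obtain ⟨x, hx, hx1⟩ := (Subgroup.bot_or_exists_ne_one B).resolve_left hB1
    apply hburn 2 (r + s) x Nat.prime_two hx1
    have h1 : B ≤ Subgroup.centralizer ({x} : Set G) := by
      intro y hy
      rw [Subgroup.mem_centralizer_singleton_iff]
      exact hcomm y hy x hx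
    have h2 := Subgroup.index_dvd_of_le h1
    rw [← Subgroup.relIndex_mul_index hBA, hr, hs, hp2, ← pow_add] at h2
    exact h2
  · -- p odd
    by_cases h2B : 2 ∣ Nat.card B
    · have := Fact.mk Nat.prime_two
      obtain ⟨z, hz⟩ := exists_prime_orderOf_dvd_card' (G := B) 2 h2B
      have hz' : orderOf (z : G) = 2 := by rw [Subgroup.orderOf_coe]; exact hz
      have hz1 : (z : G) ≠ 1 := by
        intro h
        rw [h, orderOf_one] at hz'
        omega
      -- unique involution of B
      have huniq : ∀ w ∈ B, orderOf w = 2 → w = z := by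
        intro w hw hw2
        have hFB : Fintype B := Fintype.ofFinite B
        have hle := IsCyclic.card_pow_eq_one_le (α := B) (n := 2) (by norm_num)
        by_contra hne
        have h3 : ({1, z, ⟨w, hw⟩} : Finset B) ⊆ Finset.univ.filter (fun c : B => c ^ 2 = 1) := by
          intro c hc
          simp only [Finset.mem_insert, Finset.mem_singleton] at hc
          rw [Finset.mem_filter]
          refine ⟨Finset.mem_univ _, ?_⟩
          rcases hc with rfl | rfl | rfl
          · simp
          · rw [← hz]; exact pow_orderOf_eq_one _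
          · apply Subtype.ext
            show w ^ 2 = 1
            rw [← hw2]; exact pow_orderOf_eq_one _
        have h4 := Finset.card_le_card h3
        have h5 : ({1, z, ⟨w, hw⟩} : Finset B).card = 3 := by
          rw [Finset.card_insert_of_notMem, Finset.card_insert_of_notMem, Finset.card_singleton]
          · rw [Finset.mem_singleton]
            intro h
            exact hne (congrArg Subtype.val h).symm
          · rw [Finset.mem_insert, Finset.mem_singleton, not_or]
            constructor
            · intro h
              apply hz1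
              rw [← h]; rfl
            · intro h
              have h6 : w = 1 := (congrArg Subtype.val h).symm
              rw [h6, orderOf_one] at hw2
              omega
        omega
      apply hburn p s z hp hz1
      rw [← hs]
      apply Subgroup.index_dvd_of_le
      intro y hy
      rw [Subgroup.mem_centralizer_singleton_iff]
      have h6 : y * z * y⁻¹ = z := by
        apply huniq
        · exact (Subgroup.mem_normalizer_iff.mp (hAB hy) z).mp z.2
        · rw [← hz']
          exact (orderOf_injective (MulAut.conj y).toMonoidHom (MulAut.conj y).injective (z : G))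
      exact mul_inv_eq_iff_eq_mul.mp h6
    · -- Sylow 2-subgroup of A is cyclic
      have := Fact.mk Nat.prime_two
      -- a complement: order of a 2-group meeting B trivially embeds in cyclic group
      by_cases h2G : 2 ∣ Nat.card G
      · -- Sylow 2-subgroup S of A, cyclic
        obtain ⟨S⟩ := (inferInstance : Nonempty (Sylow 2 A))
        have hSinj : ∀ x ∈ (S : Subgroup A), (x : G) ∈ B → x = 1 := by
          intro x hx hxB
          obtain ⟨k, hk⟩ := (IsPGroup.iff_orderOf.mp S.isPGroup') ⟨x, hx⟩
          rw [Subgroup.orderOf_mk] at hk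
          have h1 : orderOf (x : G) ∣ Nat.card B := Subgroup.orderOf_dvd_natCard B hxB
          rw [Subgroup.orderOf_coe, hk] at h1
          have hk0 : k = 0 := by
            by_contra hk0
            exact h2B ((dvd_pow_self 2 hk0).trans h1)
          rw [hk0, pow_zero, orderOf_eq_one_iff] at hk
          exact hk
        have hSc : IsCyclic S := by
          let f : S →* (A ⧸ B.subgroupOf A) := (QuotientGroup.mk' _).comp (S : Subgroup A).subtype
          apply isCyclic_of_injective f
          rw [injective_iff_map_eq_one]
          intro x hx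
          have h1 : (x : A) ∈ B.subgroupOf A := (QuotientGroup.eq_one_iff _).mp hx
          exact Subtype.ext (hSinj x x.2 h1)
        -- image in G is Sylow
        have hcop : (2 : ℕ).Coprime A.index := by
          rw [hs]
          apply Nat.Coprime.pow_right
          rw [Nat.coprime_primes Nat.prime_two hp]
          intro h
          rw [← h] at hpodd
          omega
        set T : Subgroup G := (S : Subgroup A).map A.subtype with hT
        have hTc : Nat.card T = 2 ^ (Nat.card G).factorization 2 := by
          have h1 : Nat.card T = Nat.card S := Subgroup.card_map_of_injective A.subtype_injective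
          rw [h1, S.card_eq_multiplicity, ← Subgroup.card_mul_index A,
            Nat.factorization_mul Nat.card_pos.ne' Subgroup.index_ne_zero_of_finite, Finsupp.add_apply,
            Nat.factorization_eq_zero_of_not_dvd (n := A.index), add_zero]
          intro h
          have := Nat.eq_one_of_dvd_coprimes hcop dvd_rfl h
          omega
        let P : Sylow 2 G := Sylow.ofCard T hTc
        have hPc : IsCyclic P := by
          have e : S ≃* T := (S : Subgroup A).equivMapOfInjective A.subtype A.subtype_injective
          exact isCyclic_of_surjective e.toMonoidHom e.surjective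
        have hmin : (Nat.card G).minFac = 2 := by
          rw [Nat.minFac_eq_two_iff]; exact h2G
        have hcomp := IsCyclic.isComplement' hmin hPc
        set K := (MonoidHom.transferSylow P (hPc.normalizer_le_centralizer hmin)).ker with hK
        have hKn : K.Normal := MonoidHom.normal_ker _
        rcases hKn.eq_bot_or_eq_top with h | h
        · -- G is a 2-group
          have h1 := hcomp.card_mul_card
          rw [h, Subgroup.card_bot, one_mul] at h1
          obtain ⟨n, hn⟩ := IsPGroup.iff_card.mp P.isPGroup'
          exact hpgroup 2 n Nat.prime_two (by rw [← h1]; exact hn)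
        · exfalso
          have h1 := disjoint_iff.mp hcomp.disjoint
          rw [h, top_inf_eq] at h1
          exact Sylow.ne_bot_of_dvd_card P h2G h1
      · -- odd order: A = B cyclic
        have hr0 : r = 0 := by
          by_contra hr0
          apply h2G
          have h1 : B.relIndex A ∣ Nat.card G := (Subgroup.relIndex_dvd_card B A).trans (Subgroup.card_subgroup_dvd_card A)
          rw [hr] at h1
          exact (dvd_pow_self 2 hr0).trans h1
        rw [hr0, pow_zero, Subgroup.relIndex_eq_one] at hr
        obtain ⟨x, hx, hx1⟩ := (Subgroup.bot_or_exists_ne_one B).resolve_left hB1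
        apply hburn p s x hp hx1
        rw [← hs]
        apply Subgroup.index_dvd_of_le
        intro y hy
        rw [Subgroup.mem_centralizer_singleton_iff]
        exact hcomm y (hr hy) x hx

/-- the hypothesis passes to quotients -/
theorem hyp_quot {G : Type*} [Group G] [Finite G] {p : ℕ} (hp : p.Prime) {A B : Subgroup G} (h : Hyp p A B) (N : Subgroup G)
    [N.Normal] : Hyp p (A.map (QuotientGroup.mk' N)) (B.map (QuotientGroup.mk' N)) := by
  obtain ⟨⟨s, hs⟩, hBA, hBc, ⟨r, hr⟩, hBn, hcy⟩ := h
  have hAB : A ≤ Subgroup.normalizer (B : Set G) := (Subgroup.normal_subgroupOf_iff_le_normalizer hBA).mp hBn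
  set A' := A.map (QuotientGroup.mk' N) with hA'
  set B' := B.map (QuotientGroup.mk' N) with hB'
  have hBA' : B' ≤ A' := Subgroup.map_mono hBA
  have hn' : (B'.subgroupOf A').Normal :=
    (Subgroup.normal_subgroupOf_iff_le_normalizer hBA').mpr
      ((Subgroup.map_mono hAB).trans (Subgroup.le_normalizer_map _))
  let f : A →* A' := (QuotientGroup.mk' N).subgroupMap A
  have hf : Function.Surjective f := (QuotientGroup.mk' N).subgroupMap_surjective A
  have hle : B.subgroupOf A ≤ (B'.subgroupOf A').comap f := by
    intro x hx
    exact ⟨x, hx, rfl⟩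
  let g : (A ⧸ B.subgroupOf A) →* (A' ⧸ B'.subgroupOf A') := QuotientGroup.map _ _ f hle
  have hg : Function.Surjective g := by
    intro y
    obtain ⟨y, rfl⟩ := QuotientGroup.mk_surjective y
    obtain ⟨x, rfl⟩ := hf y
    exact ⟨(x : A ⧸ B.subgroupOf A), rfl⟩
  refine ⟨?_, hBA', ?_, ?_, hn', ?_⟩
  · have h1 : (A.map (QuotientGroup.mk' N)).index ∣ A.index := by
      rw [Subgroup.index_map, (MonoidHom.range_eq_top.mpr (QuotientGroup.mk'_surjective N)), Subgroup.index_top, mul_one]
      exact Subgroup.index_dvd_of_le le_sup_left
    rw [hs] at h1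
    obtain ⟨j, -, hj⟩ := (Nat.dvd_prime_pow hp).mp h1
    exact ⟨j, hj⟩
  · exact isCyclic_of_surjective ((QuotientGroup.mk' N).subgroupMap B) ((QuotientGroup.mk' N).subgroupMap_surjective B)
  · have h1 : B'.relIndex A' ∣ B.relIndex A := Subgroup.card_dvd_of_surjective g hg
    rw [hr] at h1
    obtain ⟨j, -, hj⟩ := (Nat.dvd_prime_pow Nat.prime_two).mp h1
    exact ⟨j, hj⟩
  · exact isCyclic_of_surjective g hg

/-- the hypothesis passes to normal subgroups -/
theorem hyp_sub {G : Type*} [Group G] [Finite G] {p : ℕ} (hp : p.Prime) {A B : Subgroup G} (h : Hyp p A B) (N : Subgroup G)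
    [N.Normal] : Hyp p (A.subgroupOf N) (B.subgroupOf N) := by
  obtain ⟨⟨s, hs⟩, hBA, hBc, ⟨r, hr⟩, hBn, hcy⟩ := h
  let f : A.subgroupOf N →* A :=
    { toFun := fun x => ⟨((x : N) : G), x.2⟩
      map_one' := rfl
      map_mul' := fun x y => rfl }
  let g : A.subgroupOf N →* (A ⧸ B.subgroupOf A) := (QuotientGroup.mk' _).comp f
  have hker : (B.subgroupOf N).subgroupOf (A.subgroupOf N) = g.ker := by
    ext x
    rw [MonoidHom.mem_ker]
    exact (QuotientGroup.eq_one_iff (N := B.subgroupOf A) (f x)).symm
  refine ⟨?_, Subgroup.comap_mono hBA, ?_, ?_, ?_⟩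
  · have h1 := CfsgLib.SolvBasic.card_sup_of_normal N A
    have h2 : Nat.card (A.subgroupOf N) = Nat.card (N ⊓ A : Subgroup G) := by
      rw [inf_comm, ← Subgroup.subgroupOf_map_subtype, Subgroup.card_map_of_injective N.subtype_injective]
    have h3 := (A.subgroupOf N).card_mul_index
    have h4 : A.relIndex (N ⊔ A) * Nat.card A = Nat.card (N ⊔ A : Subgroup G) := by
      have := (A.subgroupOf (N ⊔ A)).card_mul_index
      rw [Nat.card_congr (Subgroup.subgroupOfEquivOfLe (le_sup_right : A ≤ N ⊔ A)).toEquiv] at this
      rw [mul_comm]; exact this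
    have h5 : (A.subgroupOf N).index = A.relIndex (N ⊔ A) := by
      have h6 : (A.subgroupOf N).index * (Nat.card (N ⊓ A : Subgroup G) * Nat.card A) =
          A.relIndex (N ⊔ A) * (Nat.card (N ⊓ A : Subgroup G) * Nat.card A) := by
        rw [← h2]
        rw [← h2, ← h4] at h1
        calc (A.subgroupOf N).index * (Nat.card (A.subgroupOf N) * Nat.card A) =
            (Nat.card (A.subgroupOf N) * (A.subgroupOf N).index) * Nat.card A := by ring
          _ = Nat.card N * Nat.card A := by rw [h3]
          _ = _ := by rw [← h1]; ring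
      exact Nat.eq_of_mul_eq_mul_right (Nat.mul_pos Nat.card_pos Nat.card_pos) h6
    have h7 : A.relIndex (N ⊔ A) ∣ A.index := by
      rw [← Subgroup.relIndex_mul_index (le_sup_right : A ≤ N ⊔ A)]
      exact dvd_mul_right _ _
    rw [← h5, hs] at h7
    obtain ⟨j, -, hj⟩ := (Nat.dvd_prime_pow hp).mp h7
    exact ⟨j, hj⟩
  · let k : B.subgroupOf N →* B :=
      { toFun := fun x => ⟨((x : N) : G), x.2⟩
        map_one' := rfl
        map_mul' := fun x y => rfl }
    apply isCyclic_of_injective k
    intro x y hxy
    have : ((x : N) : G) = ((y : N) : G) := congrArg (Subtype.val : B → G) hxy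
    exact Subtype.ext (Subtype.ext this)
  · have h1 : (B.subgroupOf N).relIndex (A.subgroupOf N) = g.ker.index := by rw [← hker]; rfl
    rw [Subgroup.index_ker] at h1
    have h2 : Nat.card g.range ∣ 2 ^ r := by
      rw [← hr]
      exact Subgroup.card_subgroup_dvd_card g.range
    rw [← h1] at h2
    obtain ⟨j, -, hj⟩ := (Nat.dvd_prime_pow Nat.prime_two).mp h2
    exact ⟨j, hj⟩
  · rw [hker]
    exact ⟨MonoidHom.normal_ker g, isCyclic_of_injective (QuotientGroup.kerLift g) (QuotientGroup.kerLift_injective g)⟩

theorem main {p : ℕ} (hp : p.Prime) : ∀ (n : ℕ) (G : Type*) [Group G] [Finite G] (A B : Subgroup G), Nat.card G = n →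
    Hyp p A B → Group.IsSolvable G := by
  intro n
  induction n using Nat.strong_induction_on with
  | _ n ih =>
  intro G _ _ A B hn h
  rcases subsingleton_or_nontrivial G with hsub | hnt
  · exact Group.isSolvable_of_comm (fun a b => Subsingleton.elim _ _)
  by_cases hsimp : IsSimpleGroup G
  · exact simple_case hp h
  · have : ∃ N : Subgroup G, N.Normal ∧ N ≠ ⊥ ∧ N ≠ ⊤ := by
      by_contra hno
      push Not at hno
      apply hsimp
      exact { eq_bot_or_eq_top_of_normal := fun N hN => by
                by_cases h : N = ⊥
                · left; exact h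
                · right; exact hno N hN h }
    obtain ⟨N, hN, hN1, hN2⟩ := this
    have h1 := Subgroup.card_mul_index N
    rw [hn] at h1
    have h2 : 1 < Nat.card N := by rwa [Subgroup.one_lt_card_iff_ne_bot]
    have h3 : 1 < N.index := by
      have : N.index ≠ 0 := Subgroup.index_ne_zero_of_finite
      have : N.index ≠ 1 := fun h => hN2 (Subgroup.index_eq_one.mp h)
      omega
    rw [Group.isSolvable_iff_subgroup_quotient N]
    constructor
    · exact ih (Nat.card N) (by nlinarith) N _ _ rfl (hyp_sub hp h N)
    · exact ih (Nat.card (G ⧸ N)) (by show N.index < n; nlinarith) (G ⧸ N) _ _ rfl (hyp_quot hp h N)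


/-- Let G be a finite group with a subgroup A of prime-power index. Suppose A has a normal cyclic subgroup B such that A/B is cyclic of order a power of 2. Then G is solvable. -/
theorem result {G : Type*} [Group G] [Finite G] (A : Subgroup G) (p s : ℕ) (hp : p.Prime) (hA : A.index = p ^ s)
    (B : Subgroup A) [B.Normal] (hB : IsCyclic B) (hAB : IsCyclic (A ⧸ B)) (r : ℕ) (hr : Nat.card (A ⧸ B) = 2 ^ r) :
    Group.IsSolvable G := by
  let B' : Subgroup G := B.map A.subtype
  have hBA : B' ≤ A := Subgroup.map_subtype_le _
  have hBB : B'.subgroupOf A = B := Subgroup.comap_map_eq_self_of_injective A.subtype_injective B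
  refine main hp _ G A B' rfl ⟨⟨s, hA⟩, hBA, ?_, ⟨r, ?_⟩, ?_⟩
  · exact isCyclic_of_surjective (A.subtype.subgroupMap B) (A.subtype.subgroupMap_surjective B)
  · rw [← hr]
    show (B'.subgroupOf A).index = B.index
    rw [hBB]
  · rw [hBB]
    exact ⟨inferInstance, hAB⟩

end Cfsg.Agent.S4245
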