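import Cfsg.Statements.S4250
import Mathlib
import Cfsg.Agent.LibH6Alp

set_option autoImplicit false
open Cfsg

namespace Cfsg.Agent.S4250

/-- Let P be a Sylow p-subgroup of a finite group G. Call an intersection H = P ∩ Q with a Sylow p-subgroup Q tame when N_P(H) and N_Q(H) are Sylow p-subgroups of N_G(H). Then P ∩ G′ is generated by [P, N_G(P)] together with the commutator subgroups [P ∩ Q, ⟨x⟩] for all tame intersections P ∩ Q and all p-elements x of N_G(P ∩ Q). -/
theorem result {G : Type*} [Group G] [Finite G] (p : ℕ) [Fact p.Prime] (P : Sylow p G) :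
    (P : Subgroup G) ⊓ commutator G =
      ⁅(P : Subgroup G), Subgroup.normalizer ((P : Subgroup G) : Set G)⁆ ⊔
        ⨆ (Q : Sylow p G) (_ : (¬ p ∣ ((P : Subgroup G) ⊓ Subgroup.normalizer (((P : Subgroup G) ⊓ (Q : Subgroup G) : Subgroup G) : Set G)).relIndex (Subgroup.normalizer (((P : Subgroup G) ⊓ (Q : Subgroup G) : Subgroup G) : Set G)) ∧ ¬ p ∣ ((Q : Subgroup G) ⊓ Subgroup.normalizer (((P : Subgroup G) ⊓ (Q : Subgroup G) : Subgroup G) : Set G)).relIndex (Subgroup.normalizer (((P : Subgroup G) ⊓ (Q : Subgroup G) : Subgroup G) : Set G))))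
          (x : G) (_ : x ∈ Subgroup.normalizer (((P : Subgroup G) ⊓ (Q : Subgroup G) : Subgroup G) : Set G) ∧ ∃ k : ℕ, orderOf x = p ^ k),
          ⁅(P : Subgroup G) ⊓ (Q : Subgroup G), Subgroup.zpowers x⁆ := by
  apply le_antisymm
  · refine CfsgLib.FusionH12c.focal_le_top P fun d hd g hg => ?_
    have h1 : Subgroup.zpowers d ≤ (P : Subgroup G) := by simpa using hd
    have h2 : CfsgLib.FusionH12.cj g (Subgroup.zpowers d) ≤ (P : Subgroup G) := by
      unfold CfsgLib.FusionH12.cj
      rw [MonoidHom.map_zpowers]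
      simpa using hg
    refine CfsgLib.FusionH12c.Reach.tstep ((CfsgLib.H6.tame_alperin P h1 h2).mono ?_) d
      (Subgroup.mem_zpowers d)
    rintro D x (⟨Q, hD, ht, hx, hk⟩ | ⟨hD, hx⟩) e he
    · refine Subgroup.mem_sup_right ?_
      have h3 : x * e * x⁻¹ * e⁻¹ ∈ ⁅(P : Subgroup G) ⊓ (Q : Subgroup G), Subgroup.zpowers x⁆ := by
        rw [Subgroup.commutator_comm]
        exact Subgroup.commutator_mem_commutator (Subgroup.mem_zpowers x) (hD he)
      exact Subgroup.mem_iSup_of_mem Q (Subgroup.mem_iSup_of_mem ht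
        (Subgroup.mem_iSup_of_mem x (Subgroup.mem_iSup_of_mem ⟨hx, hk⟩ h3)))
    · refine Subgroup.mem_sup_left ?_
      rw [Subgroup.commutator_comm]
      exact Subgroup.commutator_mem_commutator hx (hD he)
  · refine sup_le (le_inf ?_ ?_) ?_
    · rw [Subgroup.commutator_le]
      intro a ha b hb
      have h1 : a * (b * a⁻¹ * b⁻¹) ∈ (P : Subgroup G) :=
        (P : Subgroup G).mul_mem ha ((Subgroup.mem_normalizer_iff.mp hb a⁻¹).mp
          ((P : Subgroup G).inv_mem ha))
      simpa [commutatorElement_def, mul_assoc] using h1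
    · rw [_root_.commutator_def]
      exact Subgroup.commutator_mono le_top le_top
    · refine iSup_le fun Q => iSup_le fun ht => iSup_le fun x => iSup_le fun hx => ?_
      refine le_inf ?_ ?_
      · refine le_trans ?_ (inf_le_left : (P : Subgroup G) ⊓ (Q : Subgroup G) ≤ _)
        rw [Subgroup.commutator_le]
        intro a ha b hb
        have hb' : b ∈ Subgroup.normalizer
            (((P : Subgroup G) ⊓ (Q : Subgroup G) : Subgroup G) : Set G) := by
          have : Subgroup.zpowers x ≤ Subgroup.normalizer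
            (((P : Subgroup G) ⊓ (Q : Subgroup G) : Subgroup G) : Set G) := by simpa using hx.1
          exact this hb
        have h1 : a * (b * a⁻¹ * b⁻¹) ∈ (P : Subgroup G) ⊓ (Q : Subgroup G) :=
          mul_mem ha ((Subgroup.mem_normalizer_iff.mp hb' a⁻¹).mp (inv_mem ha))
        simpa [commutatorElement_def, mul_assoc] using h1
      · rw [_root_.commutator_def]
        exact Subgroup.commutator_mono le_top le_top

end Cfsg.Agent.S4250
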