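import Cfsg.Statements.S4251
import Mathlib
import Cfsg.Agent.LibH6Alp
import Cfsg.Agent.LibTransAb

set_option autoImplicit false
open Cfsg

namespace Cfsg.Agent.S4251

/-- Let P be a Sylow p-subgroup of a finite group G. Call an intersection H = P ∩ Q with a Sylow p-subgroup Q tame when N_P(H) and N_Q(H) are Sylow p-subgroups of N_G(H). If N_G(H)/C_G(H) is a p-group for every nontrivial tame intersection H = P ∩ Q, then G has a normal p-complement. -/
theorem result {G : Type*} [Group G] [Finite G] (p : ℕ) [Fact p.Prime] (P : Sylow p G)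
    (h : ∀ Q : Sylow p G, (P : Subgroup G) ⊓ (Q : Subgroup G) ≠ ⊥ → (¬ p ∣ ((P : Subgroup G) ⊓ Subgroup.normalizer (((P : Subgroup G) ⊓ (Q : Subgroup G) : Subgroup G) : Set G)).relIndex (Subgroup.normalizer (((P : Subgroup G) ⊓ (Q : Subgroup G) : Subgroup G) : Set G)) ∧ ¬ p ∣ ((Q : Subgroup G) ⊓ Subgroup.normalizer (((P : Subgroup G) ⊓ (Q : Subgroup G) : Subgroup G) : Set G)).relIndex (Subgroup.normalizer (((P : Subgroup G) ⊓ (Q : Subgroup G) : Subgroup G) : Set G))) →
      IsPGroup p (Subgroup.normalizer (((P : Subgroup G) ⊓ (Q : Subgroup G) : Subgroup G) : Set G) ⧸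
        (Subgroup.centralizer (((P : Subgroup G) ⊓ (Q : Subgroup G) : Subgroup G) : Set G)).subgroupOf
          (Subgroup.normalizer (((P : Subgroup G) ⊓ (Q : Subgroup G) : Subgroup G) : Set G)))) :
    Cfsg.HasNormalPComplement p G := by
  -- every step is realized by an element of `P`
  have key : ∀ (D : Subgroup G) (g : G), D ≠ ⊥ →
      CfsgLib.FusionH12.Reach (CfsgLib.H6.TameStep P) D g →
      ∃ y ∈ (P : Subgroup G), ∀ d ∈ D, g * d * g⁻¹ = y * d * y⁻¹ := by
    intro D g hD hr
    induction hr with
    | refl D => exact ⟨1, one_mem _, fun d _ => rfl⟩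
    | @cons D x z hx _ ih =>
      have hDx : CfsgLib.FusionH12.cj x D ≠ ⊥ := by
        rw [Ne, CfsgLib.FusionH12.cj_eq_bot]; exact hD
      obtain ⟨y, hy, hyz⟩ := ih hDx
      have hstep : ∃ y ∈ (P : Subgroup G), ∀ d ∈ D, x * d * x⁻¹ = y * d * y⁻¹ := by
        have main : ∀ Q : Sylow p G, D ≤ (P : Subgroup G) ⊓ (Q : Subgroup G) →
            CfsgLib.H6.TameInt p (P : Subgroup G) (Q : Subgroup G) →
            x ∈ Subgroup.normalizer (((P : Subgroup G) ⊓ (Q : Subgroup G) : Subgroup G) : Set G) →
            ∃ y ∈ (P : Subgroup G), ∀ d ∈ D, x * d * x⁻¹ = y * d * y⁻¹ := by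
          intro Q hDQ ht hxN
          have hH : (P : Subgroup G) ⊓ (Q : Subgroup G) ≠ ⊥ := fun h0 =>
            hD (le_bot_iff.mp (h0 ▸ hDQ))
          have hq := h Q hH ht
          obtain ⟨H, hHdef⟩ : ∃ H, H = (P : Subgroup G) ⊓ (Q : Subgroup G) := ⟨_, rfl⟩
          have ht1 := ht.1
          rw [← hHdef] at hq ht1 hxN hDQ
          -- the Sylow subgroup of the normalizer
          have hs : CfsgLib.FusionH12.SylIn p ((P : Subgroup G) ⊓ Subgroup.normalizer (H : Set G))
              (Subgroup.normalizer (H : Set G)) :=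
            ⟨inf_le_right, P.2.to_le inf_le_left, ht1⟩
          obtain ⟨T, hT⟩ := hs.toSylow
          obtain ⟨C, hC⟩ : ∃ C, C = (Subgroup.centralizer (H : Set G)).subgroupOf
            (Subgroup.normalizer (H : Set G)) := ⟨_, rfl⟩
          have hCn : C.Normal := by rw [hC]; infer_instance
          have hq' : IsPGroup p (Subgroup.normalizer (H : Set G) ⧸ C) := by
            subst hC; exact hq
          have htop : (T : Subgroup (Subgroup.normalizer (H : Set G))) ⊔ C = ⊤ := by
            have h1 : (((T : Subgroup (Subgroup.normalizer (H : Set G))) ⊔ C)).index = 1 := by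
              have h2 : ((T : Subgroup (Subgroup.normalizer (H : Set G))) ⊔ C).index ∣
                  (T : Subgroup (Subgroup.normalizer (H : Set G))).index :=
                Subgroup.index_dvd_of_le le_sup_left
              have h3 : ((T : Subgroup (Subgroup.normalizer (H : Set G))) ⊔ C).index ∣ C.index :=
                Subgroup.index_dvd_of_le le_sup_right
              obtain ⟨k, hk⟩ := (IsPGroup.iff_card).mp hq'
              rw [Subgroup.index_eq_card C, hk] at h3
              obtain ⟨j, -, hj⟩ := (Nat.dvd_prime_pow (Fact.out : p.Prime)).mp h3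
              rcases Nat.eq_zero_or_pos j with rfl | hj0
              · simpa using hj
              · exfalso
                refine T.not_dvd_index (dvd_trans ?_ h2)
                rw [hj]
                exact dvd_pow_self p hj0.ne'
            exact Subgroup.index_eq_one.mp h1
          have hx1 : (⟨x, hxN⟩ : Subgroup.normalizer (H : Set G)) ∈
              (T : Subgroup (Subgroup.normalizer (H : Set G))) ⊔ C := by rw [htop]; trivial
          obtain ⟨t, ht, c, hc, htc⟩ := Subgroup.mem_sup_of_normal_right.mp hx1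
          have htP : (t : G) ∈ (P : Subgroup G) := by
            rw [hT] at ht
            exact (Subgroup.mem_subgroupOf.mp ht).1
          have hcC : (c : G) ∈ Subgroup.centralizer (H : Set G) := by
            rw [hC] at hc; exact hc
          have hxe : x = (t : G) * (c : G) := (congrArg Subtype.val htc).symm
          refine ⟨t, htP, fun d hd => ?_⟩
          have h5 : d * (c : G) = (c : G) * d := Subgroup.mem_centralizer_iff.mp hcC d (hDQ hd)
          rw [hxe, mul_inv_rev]
          calc (t : G) * c * d * ((c : G)⁻¹ * (t : G)⁻¹) = t * (c * d) * (c : G)⁻¹ * (t : G)⁻¹ := by group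
            _ = t * d * (t : G)⁻¹ := by rw [← h5]; group
        rcases hx with ⟨Q, hDQ, ht, hxN, -⟩ | ⟨hDP, hxN⟩
        · exact main Q hDQ ht hxN
        · exact main P (by rwa [inf_idem]) (CfsgLib.H6.tameInt_self P) (by rwa [inf_idem])
      obtain ⟨w, hw, hwx⟩ := hstep
      refine ⟨y * w, mul_mem hy hw, fun d hd => ?_⟩
      have h6 := hyz _ (CfsgLib.FusionH12.conj_mem_cj (g := x) hd)
      calc z * x * d * (z * x)⁻¹ = z * (x * d * x⁻¹) * z⁻¹ := by group
        _ = y * (x * d * x⁻¹) * y⁻¹ := h6
        _ = y * (w * d * w⁻¹) * y⁻¹ := by rw [hwx d hd]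
        _ = y * w * d * (y * w)⁻¹ := by group
  rw [CfsgLib.TransPC.hasNPC_iff]
  refine CfsgLib.TransAb.exists_isNPC_of_controls_self P fun x g hx hg => ?_
  by_cases hx1 : x = 1
  · subst hx1
    exact ⟨1, one_mem _, by simp⟩
  have h1 : Subgroup.zpowers x ≤ (P : Subgroup G) := by rw [Subgroup.zpowers_le]; exact hx
  have h2 : CfsgLib.FusionH12.cj g (Subgroup.zpowers x) ≤ (P : Subgroup G) := by
    unfold CfsgLib.FusionH12.cj
    rw [MonoidHom.map_zpowers, Subgroup.zpowers_le]
    exact hg
  obtain ⟨y, hy, hyx⟩ := key _ g (by rwa [Ne, Subgroup.zpowers_eq_bot])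
    (CfsgLib.H6.tame_alperin P h1 h2)
  exact ⟨y, hy, (hyx x (Subgroup.mem_zpowers x)).symm⟩

end Cfsg.Agent.S4251
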