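import Cfsg.Statements.S4253
import Mathlib

set_option autoImplicit false
open Cfsg

namespace Cfsg.Agent.S4253

open Pointwise

theorem mem_conj_smul {G : Type*} [Group G] (H : Subgroup G) (g x : G) :
    x ∈ MulAut.conj g • H ↔ g⁻¹ * x * g ∈ H := by
  rw [Subgroup.mem_pointwise_smul_iff_inv_smul_mem]
  simp

/-- Let H be a Frobenius complement in a finite group G (a nontrivial proper subgroup meeting each conjugate gHg⁻¹ with g outside H trivially). Then in the action of G on the left cosets of H by left multiplication, no non-identity element of G fixes two distinct cosets. -/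
theorem result {G : Type*} [Group G] [Finite G] (H : Subgroup G) (hH : Cfsg.IsFrobeniusComplement H)
    (g : G) (hg : g ≠ 1) (a b : G ⧸ H) (ha : g • a = a) (hb : g • b = b) : a = b := by
  obtain ⟨x, rfl⟩ := QuotientGroup.mk_surjective a
  obtain ⟨y, rfl⟩ := QuotientGroup.mk_surjective b
  have ha' : (QuotientGroup.mk (g * x) : G ⧸ H) = QuotientGroup.mk x := ha
  have hb' : (QuotientGroup.mk (g * y) : G ⧸ H) = QuotientGroup.mk y := hb
  rw [eq_comm, QuotientGroup.eq] at ha' hb'
  rw [QuotientGroup.eq]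
  by_contra hxy
  have h1 := hH.2.2 (x⁻¹ * y) hxy
  have h2 : x⁻¹ * (g * x) ∈ H ⊓ (MulAut.conj (x⁻¹ * y) • H) := by
    refine Subgroup.mem_inf.mpr ⟨ha', ?_⟩
    rw [mem_conj_smul]
    have e : (x⁻¹ * y)⁻¹ * (x⁻¹ * (g * x)) * (x⁻¹ * y) = y⁻¹ * (g * y) := by group
    rw [e]; exact hb'
  rw [h1, Subgroup.mem_bot] at h2
  apply hg
  have : g = x * (x⁻¹ * (g * x)) * x⁻¹ := by group
  rw [this, h2]; group

end Cfsg.Agent.S4253
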