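import Cfsg.Statements.S4261
import Mathlib
import Cfsg.Agent.LibSolvMin

set_option autoImplicit false
open Cfsg

namespace Cfsg.Agent.S4261

open Subgroup

theorem core_free {G : Type*} [Group G] [Finite G] (hG : Group.IsSolvable G) (M : Subgroup G)
    (hM : IsCoatom M) (hexp : ∀ x : G, x ^ M.index ∈ M) (hcore : M.normalCore = ⊥) : M.Normal := by
  classical
  by_cases hMbot : M = ⊥
  · rw [hMbot]; infer_instance
  haveI : Nontrivial G := by
    by_contra h
    rw [not_nontrivial_iff_subsingleton] at h
    exact hMbot (Subsingleton.elim _ _)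
  obtain ⟨L, p, hp, hLmin, -, hLc, -, hLp⟩ :=
    CfsgLib.SolvMin.exists_minNormal_pgroup_of_solvable (⊤ : Subgroup G) top_ne_bot
  haveI : Fact p.Prime := ⟨hp⟩
  haveI := hLmin.1
  have hLM : ¬ L ≤ M := by
    intro h
    apply hLmin.2.1
    rw [eq_bot_iff, ← hcore]
    exact Subgroup.normal_le_normalCore.mpr h
  have htop : M ⊔ L = ⊤ := by
    apply hM.2
    apply lt_of_le_of_ne le_sup_left
    intro h
    apply hLM
    rw [h]; exact le_sup_right
  -- a subgroup normalized by `M` and by `L` is normal
  have hnorm : ∀ D : Subgroup G, M ≤ normalizer (D : Set G) → L ≤ normalizer (D : Set G) → D.Normal := by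
    intro D h1 h2
    rw [← normalizer_eq_top_iff, eq_top_iff, ← htop]
    exact sup_le h1 h2
  have hLcomm : ∀ a ∈ L, ∀ b ∈ L, a * b = b * a := fun a ha b hb =>
    congrArg Subtype.val (mul_comm' (⟨a, ha⟩ : L) ⟨b, hb⟩)
  have hinf : L ⊓ M = ⊥ := by
    have hn : (L ⊓ M).Normal := by
      apply hnorm
      · intro m hm
        rw [Subgroup.mem_normalizer_iff]
        intro x
        constructor
        · rintro ⟨h1, h2⟩
          exact ⟨Subgroup.Normal.conj_mem inferInstance x h1 m, M.mul_mem (M.mul_mem hm h2) (inv_mem hm)⟩
        · rintro ⟨h1, h2⟩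
          have e : m⁻¹ * (m * x * m⁻¹) * m⁻¹⁻¹ = x := by group
          refine ⟨?_, ?_⟩
          · have := Subgroup.Normal.conj_mem (H := L) inferInstance _ h1 m⁻¹
            rwa [e] at this
          · have := M.mul_mem (M.mul_mem (inv_mem hm) h2) (inv_mem (inv_mem hm))
            rwa [e] at this
      · intro l hl
        rw [Subgroup.mem_normalizer_iff]
        intro x
        constructor
        · rintro ⟨h1, h2⟩
          have : l * x * l⁻¹ = x := by rw [hLcomm l hl x h1, mul_inv_cancel_right]
          rw [this]; exact ⟨h1, h2⟩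
        · rintro ⟨h1, h2⟩
          have h3 : x ∈ L := by
            have := Subgroup.Normal.conj_mem (H := L) inferInstance _ h1 l⁻¹
            have e : l⁻¹ * (l * x * l⁻¹) * l⁻¹⁻¹ = x := by group
            rwa [e] at this
          have : l * x * l⁻¹ = x := by rw [hLcomm l hl x h3, mul_inv_cancel_right]
          rw [this] at h2
          exact ⟨h3, h2⟩
    rw [eq_bot_iff, ← hcore]
    exact Subgroup.normal_le_normalCore.mpr inf_le_right
  -- the index
  obtain ⟨n, hn⟩ := IsPGroup.iff_card.mp hLp
  have hidx : M.index = p ^ n := by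
    have h1 : Nat.card M * M.index = Nat.card G := M.card_mul_index
    have h2 := CfsgLib.SolvBasic.card_sup_of_normal L M
    rw [sup_comm, htop, hinf, Subgroup.card_top, Subgroup.card_bot, mul_one, hn, ← h1, mul_comm] at h2
    exact Nat.eq_of_mul_eq_mul_right Nat.card_pos h2
  by_cases hMp : IsPGroup p M
  · -- `G` is a `p`-group
    obtain ⟨k, hk⟩ := IsPGroup.iff_card.mp hMp
    have hGp : IsPGroup p G := by
      rw [IsPGroup.iff_card]
      refine ⟨k + n, ?_⟩
      rw [← M.card_mul_index, hk, hidx, pow_add]
    haveI : Group.IsNilpotent G := hGp.isNilpotent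
    exact NormalizerCondition.normal_of_coatom M Group.normalizerCondition_of_isNilpotent hM
  · -- a nontrivial `p'`-element
    exfalso
    obtain ⟨m, hm, hm1, hmp⟩ : ∃ m ∈ M, m ≠ 1 ∧ (orderOf m).Coprime p := by
      by_contra hcon
      push Not at hcon
      apply hMp
      rintro ⟨m, hm⟩
      obtain ⟨a, s, hps, hs⟩ := Nat.exists_eq_pow_mul_and_not_dvd (orderOf_pos m).ne' p hp.ne_one
      refine ⟨a, Subtype.ext ?_⟩
      change m ^ (p ^ a) = 1
      by_contra h1
      apply hcon _ (pow_mem hm _) h1
      rw [orderOf_pow_of_dvd (pow_ne_zero _ hp.ne_zero) (by rw [hs]; exact Dvd.intro _ rfl), hs]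
      rw [Nat.mul_div_cancel_left _ (pow_pos hp.pos _)]
      exact ((hp.coprime_iff_not_dvd).mpr hps).symm
    -- all conjugates of `m` are in `M`
    have hconj : ∀ g : G, g * m * g⁻¹ ∈ M := by
      intro g
      have h1 := hexp (g * m * g⁻¹)
      rw [hidx] at h1
      have hord : orderOf (g * m * g⁻¹) = orderOf m := by
        have := orderOf_injective (MulAut.conj g).toMonoidHom (MulAut.conj g).injective m
        exact this
      obtain ⟨j, hj⟩ := exists_pow_eq_self_of_coprime (x := g * m * g⁻¹) (n := p ^ n) (by
        rw [hord]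
        exact Nat.Coprime.pow_left _ hmp.symm)
      rw [← hj]
      exact pow_mem h1 _
    have h1 : m ∈ M.normalCore := hconj
    rw [hcore, mem_bot] at h1
    exact hm1 h1

/-- Let M be a maximal subgroup of a finite solvable group G such that x^[G : M] lies in M for every x in G. Then M is normal in G. -/
theorem result {G : Type*} [Group G] [Finite G] (hG : Group.IsSolvable G) (M : Subgroup G) (hM : IsCoatom M)
    (hexp : ∀ x : G, x ^ M.index ∈ M) : M.Normal := by
  classical
  have main : ∀ (K : Subgroup G) [K.Normal], K ≤ M → (∀ N : Subgroup G, N.Normal → N ≤ M → N ≤ K) →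
      M.Normal := by
    intro K _ hKM hKmax
    let π := QuotientGroup.mk' K
    have hπs : Function.Surjective π := QuotientGroup.mk'_surjective _
    have hker : π.ker = K := QuotientGroup.ker_mk' _
    have hcomap : (M.map π).comap π = M := by
      rw [Subgroup.comap_map_eq, hker, sup_eq_left.mpr hKM]
    have hco : IsCoatom (M.map π) := by
      refine ⟨?_, ?_⟩
      · intro h
        apply hM.1
        rw [← hcomap, h, Subgroup.comap_top]
      · intro B hB
        have h1 : (M.map π).comap π < B.comap π := (Subgroup.comap_lt_comap_of_surjective hπs).mpr hB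
        rw [hcomap] at h1
        have h2 := hM.2 _ h1
        rw [← Subgroup.map_comap_eq_self_of_surjective hπs B, h2, ← MonoidHom.range_eq_map]
        exact MonoidHom.range_eq_top.mpr hπs
    have hidx : (M.map π).index = M.index := by
      rw [← Subgroup.index_comap_of_surjective _ hπs, hcomap]
    have hcore : (M.map π).normalCore = ⊥ := by
      have h1 : ((M.map π).normalCore).comap π ≤ K := by
        apply hKmax _ inferInstance
        calc ((M.map π).normalCore).comap π ≤ (M.map π).comap π := Subgroup.comap_mono (normalCore_le _)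
          _ = M := hcomap
      rw [eq_bot_iff]
      intro x hx
      obtain ⟨x, rfl⟩ := hπs x
      have h2 : x ∈ K := h1 hx
      exact (QuotientGroup.eq_one_iff x).mpr h2
    have h := core_free inferInstance (M.map π) hco (by
      intro x
      obtain ⟨x, rfl⟩ := hπs x
      rw [hidx, ← map_pow]
      exact ⟨_, hexp x, rfl⟩) hcore
    rw [← hcomap]
    infer_instance
  exact main M.normalCore (normalCore_le M) (fun N _ hN => Subgroup.normal_le_normalCore.mpr hN)

end Cfsg.Agent.S4261
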