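import Cfsg.Statements.S4262
import Mathlib
import Cfsg.Agent.LibH7AbMax

set_option autoImplicit false
open Cfsg

namespace Cfsg.Agent.S4262

open Subgroup

section
variable {G : Type*} [Group G] [Finite G]

theorem le_of_pow {x g : G} {n : ℕ} (h : x ^ n = g) :
    centralizer ({x} : Set G) ≤ centralizer ({g} : Set G) := by
  intro w hw
  rw [mem_centralizer_singleton_iff] at hw ⊢
  have hc : Commute w x := hw
  rw [← h]
  exact hc.pow_right n

omit [Finite G] in
theorem mem_center_pow {x g : G} {n : ℕ} (h : x ^ n = g) (hx : x ∈ center G) : g ∈ center G := by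
  rw [← h]; exact pow_mem hx n

theorem eq_of_pow (h : ∀ g : G, g ∉ center G → IsCoatom (centralizer ({g} : Set G)))
    {x g : G} {n : ℕ} (hn : x ^ n = g) (hg : g ∉ center G) :
    centralizer ({g} : Set G) = centralizer ({x} : Set G) := by
  have hx : x ∉ center G := fun hx => hg (mem_center_pow hn hx)
  rcases (h x hx).le_iff.mp (le_of_pow hn) with h1 | h1
  · exact absurd h1 (h g hg).1
  · exact h1

theorem eq_of_coprime (h : ∀ g : G, g ∉ center G → IsCoatom (centralizer ({g} : Set G)))
    {g y : G} (hg : g ∉ center G) (hy : y ∉ center G) (hc : g * y = y * g)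
    (hcop : (orderOf g).Coprime (orderOf y)) :
    centralizer ({g} : Set G) = centralizer ({y} : Set G) := by
  have hcom : Commute g y := hc
  obtain ⟨m, hm⟩ := exists_pow_eq_self_of_coprime (x := g) (n := orderOf y) hcop.symm
  obtain ⟨l, hl⟩ := exists_pow_eq_self_of_coprime (x := y) (n := orderOf g) hcop
  have h1 : (g * y) ^ (orderOf y * m) = g := by
    rw [pow_mul, hcom.mul_pow, pow_orderOf_eq_one, mul_one, hm]
  have h2 : (g * y) ^ (orderOf g * l) = y := by
    rw [pow_mul, hcom.mul_pow, pow_orderOf_eq_one, one_mul, hl]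
  rw [eq_of_pow h h1 hg, eq_of_pow h h2 hy]

theorem prim (h : ∀ g : G, g ∉ center G → IsCoatom (centralizer ({g} : Set G))) :
    ∀ (n : ℕ) (x : G), orderOf x = n → x ∉ center G →
      ∃ (p k : ℕ) (g : G), p.Prime ∧ g ∈ zpowers x ∧ orderOf g = p ^ k ∧ g ∉ center G ∧
        centralizer ({g} : Set G) = centralizer ({x} : Set G) := by
  intro n
  induction n using Nat.strong_induction_on with
  | _ n ih =>
    intro x hx hxc
    have hn0 : 0 < n := by rw [← hx]; exact orderOf_pos x
    have hn1 : n ≠ 1 := by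
      intro h1
      rw [h1, orderOf_eq_one_iff] at hx
      exact hxc (by rw [hx]; exact one_mem _)
    obtain ⟨p, hp, hpn⟩ := Nat.exists_prime_and_dvd hn1
    obtain ⟨a, m, hpm, hnm⟩ := Nat.exists_eq_pow_mul_and_not_dvd hn0.ne' p hp.ne_one
    have ha : a ≠ 0 := by
      rintro rfl
      apply hpm
      rwa [hnm, pow_zero, one_mul] at hpn
    have hcop : (p ^ a).Coprime m := Nat.Coprime.pow_left a ((hp.coprime_iff_not_dvd).mpr hpm)
    by_cases h1 : x ^ (p ^ a) ∈ center G
    · have h2 : x ^ m ∉ center G := by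
        intro h2
        apply hxc
        have h3 := Nat.gcd_eq_gcd_ab (p ^ a) m
        rw [hcop.gcd_eq_one] at h3
        have h4 : x = (x ^ (p ^ a)) ^ ((p ^ a).gcdA m) * (x ^ m) ^ ((p ^ a).gcdB m) := by
          conv_lhs => rw [← zpow_one x]
          rw [← Nat.cast_one, h3, zpow_add, zpow_mul, zpow_mul, zpow_natCast, zpow_natCast]
        rw [h4]
        exact mul_mem (zpow_mem h1 _) (zpow_mem h2 _)
      refine ⟨p, a, x ^ m, hp, npow_mem_zpowers x m, ?_, h2, eq_of_pow h rfl h2⟩
      have hm0 : m ≠ 0 := by rintro rfl; simp at hnm; omega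
      rw [orderOf_pow_of_dvd hm0 (by rw [hx, hnm]; exact Dvd.intro_left _ rfl), hx, hnm]
      exact Nat.mul_div_cancel _ (Nat.pos_of_ne_zero hm0)
    · have hord : orderOf (x ^ (p ^ a)) = m := by
        rw [orderOf_pow_of_dvd (pow_ne_zero _ hp.ne_zero) (by rw [hx, hnm]; exact Dvd.intro _ rfl), hx, hnm]
        exact Nat.mul_div_cancel_left _ (pow_pos hp.pos _)
      have hlt : m < n := by
        rw [hnm]
        have : 1 < p ^ a := Nat.one_lt_pow ha hp.one_lt
        have hm0 : 0 < m := by
          rcases Nat.eq_zero_or_pos m with h | h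
          · subst h; simp at hnm; omega
          · exact h
        nlinarith
      obtain ⟨q, k, g, hq, hgz, hgo, hgc, hgC⟩ := ih m hlt (x ^ (p ^ a)) hord h1
      refine ⟨q, k, g, hq, ?_, hgo, hgc, ?_⟩
      · exact (zpowers_le.mpr (npow_mem_zpowers x _)) hgz
      · rw [hgC]; exact eq_of_pow h rfl h1

/-- the structure of the centralizers -/
theorem struct (h : ∀ g : G, g ∉ center G → IsCoatom (centralizer ({g} : Set G)))
    (hna : ∀ g : G, g ∉ center G → ¬ IsMulCommutative (centralizer ({g} : Set G)))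
    {x : G} (hx : x ∉ center G) :
    ∃ p : ℕ, p.Prime ∧ ∀ y ∈ centralizer ({x} : Set G), ∃ k : ℕ, y ^ (p ^ k) ∈ center G := by
  obtain ⟨p, k, g, hp, hgz, hgo, hgc, hgC⟩ := prim h _ x rfl hx
  have hcl : ∀ y ∈ centralizer ({x} : Set G), (orderOf y).Coprime p → y ∈ center G := by
    intro y hy hcop
    by_contra hyc
    have hyg : g * y = y * g := by
      rw [← hgC, mem_centralizer_singleton_iff] at hy
      exact hy.symm
    have hcop1 : (orderOf g).Coprime (orderOf y) := by
      rw [hgo]; exact Nat.Coprime.pow_left _ hcop.symm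
    have hCy := eq_of_coprime h hgc hyc hyg hcop1
    obtain ⟨q, j, y', hq, hyz, hyo, hyc', hyC⟩ := prim h _ y rfl hyc
    have hdvd : orderOf y' ∣ orderOf y := orderOf_dvd_of_mem_zpowers hyz
    have hqp : q ≠ p := by
      rintro rfl
      have h1 : (orderOf y').Coprime q := Nat.Coprime.coprime_dvd_left hdvd hcop
      rw [hyo] at h1
      rcases Nat.eq_zero_or_pos j with hj | hj
      · rw [hj, pow_zero, orderOf_eq_one_iff] at hyo
        exact hyc' (by rw [hyo]; exact one_mem _)
      · rw [Nat.coprime_pow_left_iff hj, Nat.coprime_self] at h1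
        exact hq.one_lt.ne' h1
    -- the centralizer is abelian
    apply hna x hx
    refine ⟨⟨?_⟩⟩
    rintro ⟨w, hw⟩ ⟨v, hv⟩
    apply Subtype.ext
    change w * v = v * w
    -- commuting criterion
    have hcrit : ∀ u : G, u ∈ centralizer ({x} : Set G) →
        ((orderOf u).Coprime (orderOf g) ∨ (orderOf u).Coprime (orderOf y')) → u * v = v * u := by
      intro u hu hcop2
      by_cases huc : u ∈ center G
      · exact ((Subgroup.mem_center_iff.mp huc) v).symm
      have : centralizer ({u} : Set G) = centralizer ({x} : Set G) := by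
        rcases hcop2 with h2 | h2
        · have h3 : u * g = g * u := by
            rw [← hgC, mem_centralizer_singleton_iff] at hu
            exact hu
          rw [eq_of_coprime h huc hgc h3 h2, hgC]
        · have h3 : u * y' = y' * u := by
            rw [← hgC, hCy, ← hyC, mem_centralizer_singleton_iff] at hu
            exact hu
          rw [eq_of_coprime h huc hyc' h3 h2, hyC, ← hCy, hgC]
      rw [← this, mem_centralizer_singleton_iff] at hv
      exact hv.symm
    obtain ⟨a, m, hpm, hnm⟩ := Nat.exists_eq_pow_mul_and_not_dvd (orderOf_pos w).ne' p hp.ne_one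
    have hcop' : (p ^ a).Coprime m := Nat.Coprime.pow_left a ((hp.coprime_iff_not_dvd).mpr hpm)
    have hm0 : m ≠ 0 := by
      rintro rfl
      rw [mul_zero] at hnm
      exact (orderOf_pos w).ne' hnm
    have ho1 : orderOf (w ^ m) = p ^ a := by
      rw [orderOf_pow_of_dvd hm0 (by rw [hnm]; exact Dvd.intro_left _ rfl), hnm]
      exact Nat.mul_div_cancel _ (Nat.pos_of_ne_zero hm0)
    have ho2 : orderOf (w ^ (p ^ a)) = m := by
      rw [orderOf_pow_of_dvd (pow_ne_zero _ hp.ne_zero) (by rw [hnm]; exact Dvd.intro _ rfl), hnm]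
      exact Nat.mul_div_cancel_left _ (pow_pos hp.pos _)
    have hc1 : (w ^ m) * v = v * (w ^ m) := by
      apply hcrit _ (pow_mem hw _)
      right
      rw [ho1, hyo]
      exact Nat.Coprime.pow _ _ ((Nat.coprime_primes hp hq).mpr (Ne.symm hqp))
    have hc2 : (w ^ (p ^ a)) * v = v * (w ^ (p ^ a)) := by
      apply hcrit _ (pow_mem hw _)
      left
      rw [ho2, hgo]
      exact Nat.Coprime.pow_right _ ((hp.coprime_iff_not_dvd).mpr hpm).symm
    have h3 := Nat.gcd_eq_gcd_ab (p ^ a) m
    rw [hcop'.gcd_eq_one] at h3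
    have h4 : w = (w ^ (p ^ a)) ^ ((p ^ a).gcdA m) * (w ^ m) ^ ((p ^ a).gcdB m) := by
      conv_lhs => rw [← zpow_one w]
      rw [← Nat.cast_one, h3, zpow_add, zpow_mul, zpow_mul, zpow_natCast, zpow_natCast]
    have hc3 : Commute w v := by
      rw [h4]
      exact ((show Commute (w ^ (p ^ a)) v from hc2).zpow_left _).mul_left
        ((show Commute (w ^ m) v from hc1).zpow_left _)
    exact hc3
  refine ⟨p, hp, fun y hy => ?_⟩
  obtain ⟨a, m, hpm, hnm⟩ := Nat.exists_eq_pow_mul_and_not_dvd (orderOf_pos y).ne' p hp.ne_one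
  refine ⟨a, hcl _ (pow_mem hy _) ?_⟩
  rw [orderOf_pow_of_dvd (pow_ne_zero _ hp.ne_zero) (by rw [hnm]; exact Dvd.intro _ rfl), hnm]
  rw [Nat.mul_div_cancel_left _ (pow_pos hp.pos _)]
  exact ((hp.coprime_iff_not_dvd).mpr hpm).symm

theorem sum_bound (N : ℕ) (hN : 2 ≤ N) (F : Finset ℕ) (hF : F ⊆ Finset.Icc 2 N) :
    ∑ p ∈ F, (1 : ℚ) / (p : ℚ) ^ 2 ≤ 3 / 4 - 1 / N := by
  refine (Finset.sum_le_sum_of_subset_of_nonneg hF (fun i _ _ => by positivity)).trans ?_
  clear hF F
  induction N, hN using Nat.le_induction with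
  | base => norm_num
  | succ n hn ih =>
    rw [Finset.sum_Icc_succ_top (by omega)]
    have hn' : (2 : ℚ) ≤ n := by exact_mod_cast hn
    have h2 : (1 : ℚ) / ((n + 1 : ℕ) : ℚ) ^ 2 ≤ 1 / n - 1 / ((n + 1 : ℕ) : ℚ) := by
      push_cast
      rw [div_sub_div _ _ (by positivity) (by positivity), div_le_div_iff₀ (by positivity) (by positivity)]
      nlinarith
    linarith

/-- centre of a nonabelian centralizer has index at least `p ^ 2` -/
theorem center_bound {p : ℕ} (hp : p.Prime) (M : Subgroup G) (hna : ¬ IsMulCommutative M)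
    (hZM : center G ≤ M) (hM : ∀ y ∈ M, ∃ k : ℕ, y ^ (p ^ k) ∈ center G) :
    p ^ 2 * Nat.card (center M) ≤ Nat.card M := by
  haveI : Fact p.Prime := ⟨hp⟩
  have hpg : IsPGroup p (M ⧸ center M) := by
    intro y
    obtain ⟨y, rfl⟩ := QuotientGroup.mk_surjective y
    obtain ⟨k, hk⟩ := hM y y.2
    refine ⟨k, ?_⟩
    rw [← QuotientGroup.mk_pow, QuotientGroup.eq_one_iff, Subgroup.mem_center_iff]
    intro w
    apply Subtype.ext
    exact (Subgroup.mem_center_iff.mp hk) w
  obtain ⟨j, hj⟩ := IsPGroup.iff_card.mp hpg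
  have hidx : (center M).index = p ^ j := hj
  have hnc : ¬ IsCyclic (M ⧸ center M) := by
    intro hc
    apply hna
    refine ⟨⟨fun a b => ?_⟩⟩
    exact commutative_of_cyclic_center_quotient (QuotientGroup.mk' (center M))
      (by rw [QuotientGroup.ker_mk']) a b
  have hj2 : 2 ≤ j := by
    by_contra hlt
    have : j = 0 ∨ j = 1 := by omega
    rcases this with h | h
    · apply hnc
      rw [h, pow_zero] at hj
      haveI : Subsingleton (M ⧸ center M) := (Nat.card_eq_one_iff_unique.mp hj).1
      infer_instance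
    · apply hnc
      rw [h, pow_one] at hj
      exact isCyclic_of_prime_card hj
  have h1 := (center M).card_mul_index
  rw [← h1, hidx, mul_comm]
  exact Nat.mul_le_mul_left _ (Nat.pow_le_pow_right hp.pos hj2)

/-- the bound for the number of noncentral elements with a `p`-group centralizer -/
theorem count_p (h : ∀ g : G, g ∉ center G → IsCoatom (centralizer ({g} : Set G)))
    (hna : ∀ g : G, g ∉ center G → ¬ IsMulCommutative (centralizer ({g} : Set G)))
    (hns : ∀ p : ℕ, p.Prime → ¬ IsPGroup p (G ⧸ center G))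
    {p : ℕ} (hp : p.Prime) (A : Finset G)
    (hA : ∀ x ∈ A, x ∉ center G ∧ ∀ y ∈ centralizer ({x} : Set G), ∃ k : ℕ, y ^ (p ^ k) ∈ center G) :
    p ^ 2 * A.card ≤ Nat.card G := by
  classical
  haveI : Fact p.Prime := ⟨hp⟩
  letI : Fintype G := Fintype.ofFinite G
  letI : Fintype (Sylow p (G ⧸ center G)) := Fintype.ofFinite _
  let π := QuotientGroup.mk' (center G)
  have hπs : Function.Surjective π := QuotientGroup.mk'_surjective _
  have hker : π.ker = center G := QuotientGroup.ker_mk' _
  let C : G → Subgroup G := fun x => centralizer ({x} : Set G)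
  have hZC : ∀ x, center G ≤ C x := fun x z hz =>
    mem_centralizer_singleton_iff.mpr ((Subgroup.mem_center_iff.mp hz x).symm)
  have hcomap : ∀ x, ((C x).map π).comap π = C x := by
    intro x
    rw [Subgroup.comap_map_eq, hker, sup_eq_left.mpr (hZC x)]
  -- images are Sylow subgroups
  have hsyl : ∀ x ∈ A, ∃ S : Sylow p (G ⧸ center G), (S : Subgroup (G ⧸ center G)) = (C x).map π := by
    intro x hx
    obtain ⟨hxc, hxp⟩ := hA x hx
    have hpg : IsPGroup p ((C x).map π) := by
      rintro ⟨_, y, hy, rfl⟩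
      obtain ⟨k, hk⟩ := hxp y hy
      refine ⟨k, ?_⟩
      apply Subtype.ext
      change (π y) ^ (p ^ k) = 1
      rw [← map_pow]
      exact (QuotientGroup.eq_one_iff _).mpr hk
    obtain ⟨S, hS⟩ := hpg.exists_le_sylow
    refine ⟨S, ?_⟩
    have h1 : C x ≤ (S : Subgroup (G ⧸ center G)).comap π := by
      rw [← Subgroup.map_le_iff_le_comap]; exact hS
    rcases (h x hxc).le_iff.mp h1 with h2 | h2
    · exfalso
      apply hns p hp
      have h3 : (S : Subgroup (G ⧸ center G)) = ⊤ := by
        rw [← Subgroup.map_comap_eq_self_of_surjective hπs (S : Subgroup (G ⧸ center G)), h2,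
          ← MonoidHom.range_eq_map]
        exact MonoidHom.range_eq_top.mpr hπs
      have h4 := S.isPGroup'
      rw [h3] at h4
      intro g
      obtain ⟨k, hk⟩ := h4 ⟨g, mem_top g⟩
      exact ⟨k, congrArg Subtype.val hk⟩
    · change _ = centralizer ({x} : Set G) at h2
      rw [← Subgroup.map_comap_eq_self_of_surjective hπs (S : Subgroup (G ⧸ center G)), h2]
  rcases A.eq_empty_or_nonempty with hAe | ⟨x₀, hx₀⟩
  · rw [hAe]; simp
  obtain ⟨S₀, hS₀⟩ := hsyl x₀ hx₀
  set c := Nat.card S₀ with hc
  have hScard : ∀ S : Sylow p (G ⧸ center G), Nat.card S = c := by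
    intro S
    rw [hc, S.card_eq_multiplicity, S₀.card_eq_multiplicity]
  -- card of C x
  have hcardC : ∀ x ∈ A, Nat.card (C x) = Nat.card (center G) * c := by
    intro x hx
    obtain ⟨S, hS⟩ := hsyl x hx
    rw [← hScard S]
    have h1 : Nat.card S = Nat.card ((C x).map π) := by
      rw [← hS]
    rw [h1, ← Subgroup.relIndex_ker, hker]
    have h2 := CfsgLib.Coprime.card_mul_relIndex (hZC x)
    exact h2.symm
  have hfib : ∀ M ∈ A.image C, (A.filter (fun x => C x = M)).card ≤ (Nat.card (center G) * c) / p ^ 2 := by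
    intro M hM
    obtain ⟨x, hx, rfl⟩ := Finset.mem_image.mp hM
    rw [Nat.le_div_iff_mul_le (pow_pos hp.pos 2), mul_comm]
    obtain ⟨hxc, hxp⟩ := hA x hx
    have h1 := center_bound hp (C x) (hna x hxc) (hZC x) hxp
    rw [hcardC x hx] at h1
    refine le_trans (Nat.mul_le_mul_left _ ?_) h1
    -- the fiber is inside the centre of `C x`
    have h2 : ((A.filter (fun y => C y = C x)) : Finset G).card = Nat.card ((A.filter (fun y => C y = C x)) : Finset G) := by
      rw [Nat.card_eq_fintype_card, Fintype.card_coe]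
    rw [h2]
    refine Nat.card_le_card_of_injective
      (fun y => (⟨⟨y.1, ?_⟩, ?_⟩ : center (C x))) ?_
    · have := (Finset.mem_filter.mp y.2).2
      exact this.le (mem_centralizer_singleton_iff.mpr rfl)
    · rw [Subgroup.mem_center_iff]
      rintro ⟨w, hw⟩
      apply Subtype.ext
      have := (Finset.mem_filter.mp y.2).2
      rw [← this] at hw
      exact mem_centralizer_singleton_iff.mp hw
    · intro a b hab
      apply Subtype.ext
      exact congrArg (fun z : center (C x) => ((z : C x) : G)) hab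
  have himg : (A.image C).card ≤ Nat.card (Sylow p (G ⧸ center G)) := by
    have h1 : A.image C ⊆ (Finset.univ : Finset (Sylow p (G ⧸ center G))).image
        (fun S : Sylow p (G ⧸ center G) => (S : Subgroup (G ⧸ center G)).comap π) := by
      intro M hM
      obtain ⟨x, hx, rfl⟩ := Finset.mem_image.mp hM
      obtain ⟨S, hS⟩ := hsyl x hx
      refine Finset.mem_image.mpr ⟨S, Finset.mem_univ _, ?_⟩
      rw [hS, hcomap]
    refine (Finset.card_le_card h1).trans (Finset.card_image_le.trans ?_)
    rw [Finset.card_univ, Nat.card_eq_fintype_card]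
  have h1 := Finset.card_le_mul_card_image A _ hfib
  have h2 : Nat.card (Sylow p (G ⧸ center G)) * c ≤ Nat.card (G ⧸ center G) := by
    have h3 := S₀.card_dvd_index
    have h4 := (S₀ : Subgroup (G ⧸ center G)).card_mul_index
    rw [← h4, mul_comm]
    exact Nat.mul_le_mul_left _ (Nat.le_of_dvd (Nat.pos_of_ne_zero Subgroup.index_ne_zero_of_finite) h3)
  have h5 : Nat.card (center G) * Nat.card (G ⧸ center G) = Nat.card G := (center G).card_mul_index
  calc p ^ 2 * A.card ≤ p ^ 2 * ((Nat.card (center G) * c) / p ^ 2 * (A.image C).card) :=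
        Nat.mul_le_mul_left _ h1
    _ = (p ^ 2 * ((Nat.card (center G) * c) / p ^ 2)) * (A.image C).card := by ring
    _ ≤ (Nat.card (center G) * c) * Nat.card (Sylow p (G ⧸ center G)) :=
        Nat.mul_le_mul (Nat.mul_div_le _ _) himg
    _ = Nat.card (center G) * (Nat.card (Sylow p (G ⧸ center G)) * c) := by ring
    _ ≤ Nat.card (center G) * Nat.card (G ⧸ center G) := Nat.mul_le_mul_left _ h2
    _ = Nat.card G := h5
end

/-- Let G be a finite group in which the centralizer of every non-central element is a maximal subgroup of G. Then G is solvable. -/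
theorem result {G : Type*} [Group G] [Finite G]
    (h : ∀ g : G, g ∉ Subgroup.center G → IsCoatom (Subgroup.centralizer ({g} : Set G))) :
    Group.IsSolvable G := by
  classical
  by_contra hnsol
  have hna : ∀ g : G, g ∉ center G → ¬ IsMulCommutative (centralizer ({g} : Set G)) := by
    intro g hg hc
    exact hnsol (CfsgLib.H7AbMax.solvable _ (h g hg))
  have hZs : ∀ p : ℕ, p.Prime → ¬ IsPGroup p (G ⧸ center G) := by
    intro p hp hpg
    haveI : Fact p.Prime := ⟨hp⟩
    apply hnsol
    haveI : Group.IsNilpotent (G ⧸ center G) := hpg.isNilpotent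
    haveI : Group.IsSolvable (G ⧸ center G) := inferInstance
    haveI hc : Group.IsSolvable (center G) := by
      apply isSolvable_of_comm
      intro a b
      exact Subtype.ext ((Subgroup.mem_center_iff.mp b.2) a)
    exact solvable_of_ker_le_range (center G).subtype (QuotientGroup.mk' (center G))
      (by rw [QuotientGroup.ker_mk', Subgroup.range_subtype])
  -- a noncentral element
  obtain ⟨x₀, hx₀⟩ : ∃ x : G, x ∉ center G := by
    by_contra hcon
    push Not at hcon
    apply hnsol
    exact isSolvable_of_comm fun a b => ((Subgroup.mem_center_iff.mp (hcon a)) b).symm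
  letI : Fintype G := Fintype.ofFinite G
  set N := Nat.card (G ⧸ center G) with hN
  have hcard : Nat.card (center G) * N = Nat.card G := (center G).card_mul_index
  have hZC : ∀ x, center G ≤ centralizer ({x} : Set G) := fun x z hz =>
    mem_centralizer_singleton_iff.mpr ((Subgroup.mem_center_iff.mp hz x).symm)
  -- 4 |Z| ≤ |G|
  have h4 : 4 * Nat.card (center G) ≤ Nat.card G := by
    obtain ⟨p, hp, hpx⟩ := struct h hna hx₀
    have h1 := center_bound hp _ (hna x₀ hx₀) (hZC x₀) hpx
    have h2 : Nat.card (center G) ≤ Nat.card (center (centralizer ({x₀} : Set G))) := by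
      refine Nat.card_le_card_of_injective
        (fun z => (⟨⟨z.1, hZC x₀ z.2⟩, ?_⟩ : center (centralizer ({x₀} : Set G)))) ?_
      · rw [Subgroup.mem_center_iff]
        intro w
        apply Subtype.ext
        exact (Subgroup.mem_center_iff.mp z.2) w
      · intro a b hab
        apply Subtype.ext
        exact congrArg (fun z : center (centralizer ({x₀} : Set G)) => ((z : centralizer ({x₀} : Set G)) : G)) hab
    have h3 : Nat.card (centralizer ({x₀} : Set G)) ≤ Nat.card G := Subgroup.card_le_card_group _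
    have h5 : 4 ≤ p ^ 2 := by have := hp.two_le; nlinarith
    calc 4 * Nat.card (center G) ≤ p ^ 2 * Nat.card (center (centralizer ({x₀} : Set G))) :=
          Nat.mul_le_mul h5 h2
      _ ≤ _ := h1.trans h3
  have hZpos : 0 < Nat.card (center G) := Nat.card_pos
  have hN4 : 4 ≤ N := by
    rw [← hcard, mul_comm (Nat.card (center G))] at h4
    exact Nat.le_of_mul_le_mul_right h4 hZpos
  -- the sets `A p`
  let A : ℕ → Finset G := fun p => Finset.univ.filter
    (fun x => x ∉ center G ∧ ∀ y ∈ centralizer ({x} : Set G), ∃ k : ℕ, y ^ (p ^ k) ∈ center G)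
  let B : Finset G := Finset.univ.filter (fun x => x ∉ center G)
  have hcover : B ⊆ (N.primeFactors).biUnion A := by
    intro x hx
    have hxc : x ∉ center G := (Finset.mem_filter.mp hx).2
    obtain ⟨p, hp, hpx⟩ := struct h hna hxc
    refine Finset.mem_biUnion.mpr ⟨p, ?_, Finset.mem_filter.mpr ⟨Finset.mem_univ _, hxc, hpx⟩⟩
    rw [Nat.mem_primeFactors]
    refine ⟨hp, ?_, by omega⟩
    obtain ⟨k, hk⟩ := hpx x (mem_centralizer_singleton_iff.mpr rfl)
    have h1 : orderOf (x : G ⧸ center G) ∣ p ^ k := by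
      apply orderOf_dvd_of_pow_eq_one
      rw [← QuotientGroup.mk_pow]
      exact (QuotientGroup.eq_one_iff _).mpr hk
    obtain ⟨j, -, hj⟩ := (Nat.dvd_prime_pow hp).mp h1
    have hj0 : j ≠ 0 := by
      rintro rfl
      rw [pow_zero, orderOf_eq_one_iff, QuotientGroup.eq_one_iff] at hj
      exact hxc hj
    exact (dvd_pow_self p hj0).trans (hj ▸ orderOf_dvd_natCard _)
  have hBcard : B.card + Nat.card (center G) = Nat.card G := by
    have h1 : B.card = Nat.card {x : G // x ∉ center G} := by
      rw [Nat.card_eq_fintype_card, Fintype.card_subtype]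
    rw [h1]
    have h2 := Set.ncard_add_ncard_compl (center G : Set G)
    rw [add_comm] at h2
    exact h2
  have hsum : (B.card : ℚ) ≤ (Nat.card G : ℚ) * (3 / 4 - 1 / N) := by
    have h1 : B.card ≤ ∑ p ∈ N.primeFactors, (A p).card :=
      (Finset.card_le_card hcover).trans Finset.card_biUnion_le
    have h2 : ∀ p ∈ N.primeFactors, ((A p).card : ℚ) ≤ (Nat.card G : ℚ) * (1 / (p : ℚ) ^ 2) := by
      intro p hp
      have hpp := (Nat.mem_primeFactors.mp hp).1
      have h3 := count_p h hna hZs hpp (A p) (fun x hx => (Finset.mem_filter.mp hx).2)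
      have h4 : (p : ℚ) ^ 2 * (A p).card ≤ Nat.card G := by exact_mod_cast h3
      have hpos : (0 : ℚ) < (p : ℚ) ^ 2 := by
        have : (0 : ℚ) < p := by exact_mod_cast hpp.pos
        positivity
      rw [mul_one_div, le_div_iff₀ hpos, mul_comm]
      exact h4
    have h3 : (B.card : ℚ) ≤ ∑ p ∈ N.primeFactors, ((A p).card : ℚ) := by exact_mod_cast h1
    refine h3.trans ((Finset.sum_le_sum h2).trans ?_)
    rw [← Finset.mul_sum]
    apply mul_le_mul_of_nonneg_left _ (by positivity)
    apply sum_bound N (by omega)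
    intro p hp
    rw [Finset.mem_Icc]
    exact ⟨(Nat.mem_primeFactors.mp hp).1.two_le, Nat.le_of_dvd (by omega) (Nat.mem_primeFactors.mp hp).2.1⟩
  have hB' : (B.card : ℚ) = Nat.card G - Nat.card (center G) := by
    rw [← hBcard]; push_cast; ring
  rw [hB'] at hsum
  have h4' : (4 : ℚ) * Nat.card (center G) ≤ Nat.card G := by exact_mod_cast h4
  have hNpos : (0 : ℚ) < N := by
    have : 0 < N := by omega
    exact_mod_cast this
  have hGpos : (0 : ℚ) < Nat.card G := by exact_mod_cast (Nat.card_pos : 0 < Nat.card G)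
  have hpos : (0 : ℚ) < (Nat.card G : ℚ) * (1 / N) := by positivity
  nlinarith

end Cfsg.Agent.S4262
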