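import Cfsg.Statements.S4263
import Mathlib
import Cfsg.Agent.LibH7Basic

set_option autoImplicit false
open Cfsg

namespace Cfsg.Agent.S4263

open CfsgLib.H7

theorem fitting_le {G : Type*} [Group G] [Finite G] :
    Cfsg.fittingSubgroup G ≤ ⨆ p : {p // p ∈ (Nat.card G).primeFactors}, Cfsg.pCore (p : ℕ) G := by
  change sSup {N : Subgroup G | N.Normal ∧ Group.IsNilpotent N} ≤ _
  apply sSup_le
  rintro N ⟨hN, hnil⟩
  set K : Subgroup G := ⨆ p : {p // p ∈ (Nat.card G).primeFactors}, Cfsg.pCore (p : ℕ) G with hK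
  -- show `|N|` divides `|K ⊓ N|`
  have key : ∀ p : ℕ, p.Prime → ∀ k : ℕ, p ^ k ∣ Nat.card N → p ^ k ∣ Nat.card (K.subgroupOf N) := by
    intro p hp k hk
    rcases Nat.eq_zero_or_pos k with rfl | hkpos
    · simp
    haveI : Fact p.Prime := ⟨hp⟩
    have hpG : p ∈ (Nat.card G).primeFactors := by
      rw [Nat.mem_primeFactors]
      refine ⟨hp, ?_, Nat.card_pos.ne'⟩
      exact ((dvd_pow_self p hkpos.ne').trans hk).trans (Subgroup.card_subgroup_dvd_card N)
    obtain ⟨P⟩ : Nonempty (Sylow p N) := inferInstance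
    have hPn : (P : Subgroup N).Normal :=
      ((Group.isNilpotent_of_finite_tfae (G := N)).out 0 3 rfl rfl).mp hnil p ⟨hp⟩ P
    haveI hPc : (P : Subgroup N).Characteristic := Sylow.characteristic_of_normal P hPn
    have hPG : ((P : Subgroup N).map N.subtype).Normal := inferInstance
    have hPp : IsPGroup p ((P : Subgroup N).map N.subtype) := P.isPGroup'.map _
    have h1 : (P : Subgroup N).map N.subtype ≤ K :=
      (le_pCore hPG hPp).trans (le_iSup (fun p : {p // p ∈ (Nat.card G).primeFactors} =>
        Cfsg.pCore (p : ℕ) G) ⟨p, hpG⟩)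
    have h2 : (P : Subgroup N) ≤ K.subgroupOf N := by
      intro x hx
      exact h1 (Subgroup.mem_map_of_mem _ hx)
    have h3 : p ^ k ∣ Nat.card P := P.pow_dvd_card_of_pow_dvd_card hk
    exact h3.trans (Subgroup.card_dvd_of_le h2)
  have hdvd : Nat.card N ∣ Nat.card (K.subgroupOf N) := by
    rw [Nat.dvd_iff_prime_pow_dvd_dvd]
    intro p k hp hk
    exact key p hp k hk
  have htop : K.subgroupOf N = ⊤ := by
    apply Subgroup.eq_top_of_card_eq
    exact Nat.dvd_antisymm (Subgroup.card_subgroup_dvd_card _) hdvd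
  exact Subgroup.subgroupOf_eq_top.mp htop

theorem pow_mem_of_mem_pCore {G : Type*} [Group G] [Finite G] {p : ℕ} (hp : p.Prime)
    (H : Subgroup G) {x : G} (hx : x ∈ Cfsg.pCore p G) : x ^ H.index ∈ H := by
  haveI : Fact p.Prime := ⟨hp⟩
  haveI := pCore_normal (G := G) p
  have h1 := pow_index_mem_of_pgroup (pCore_isPGroup (G := G) p) (H.subgroupOf (Cfsg.pCore p G))
    ⟨x, hx⟩
  have h2 : x ^ (H.relIndex (Cfsg.pCore p G)) ∈ H := by
    rw [Subgroup.mem_subgroupOf] at h1
    exact h1
  obtain ⟨c, hc⟩ := relIndex_dvd_index_of_normal_right H (Cfsg.pCore p G)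
  rw [hc, pow_mul]
  exact H.pow_mem h2 _

/-- Let G be a finite group. An element x lies in the Fitting subgroup F(G) if and only if, for every subgroup H of G, the power x^[G : H] lies in H. -/
theorem result {G : Type*} [Group G] [Finite G] (x : G) :
    x ∈ Cfsg.fittingSubgroup G ↔ ∀ H : Subgroup G, x ^ H.index ∈ H := by
  classical
  constructor
  · intro hx H
    have hx' := fitting_le hx
    let ι := {p // p ∈ (Nat.card G).primeFactors}
    have hprime : ∀ i : ι, (i : ℕ).Prime := fun i => Nat.prime_of_mem_primeFactors i.2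
    let Hf : ι → Subgroup G := fun p => Cfsg.pCore (p : ℕ) G
    have hcomm : Pairwise fun i j : ι => ∀ x y : G, x ∈ Hf i → y ∈ Hf j → Commute x y := by
      intro i j hij x y hx hy
      haveI : Fact (i : ℕ).Prime := ⟨hprime i⟩
      haveI : Fact (j : ℕ).Prime := ⟨hprime j⟩
      have hd : Disjoint (Hf i) (Hf j) :=
        IsPGroup.disjoint_of_ne (i : ℕ) (j : ℕ) (fun h => hij (Subtype.ext h)) _ _
          (pCore_isPGroup _) (pCore_isPGroup _)
      exact Subgroup.commute_of_normal_of_disjoint _ _ (pCore_normal _) (pCore_normal _) hd x y hx hy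
    have hrange := Subgroup.noncommPiCoprod_range (H := Hf) (hcomm := hcomm)
    have hx2 : x ∈ (Subgroup.noncommPiCoprod hcomm).range := by
      rw [hrange]; exact hx'
    obtain ⟨f, hf⟩ := hx2
    rw [← hf, ← map_pow, Subgroup.noncommPiCoprod_apply]
    apply Subgroup.noncommProd_mem
    intro i _
    have := pow_mem_of_mem_pCore (hprime i) H (f i).2
    simpa using this
  · intro h
    -- each `p`-part lies in the `p`-core
    have hn : 0 < orderOf x := orderOf_pos x
    have key : ∀ p : ℕ, p.Prime → x ^ (orderOf x / p ^ (orderOf x).factorization p) ∈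
        Cfsg.fittingSubgroup G := by
      intro p hp
      haveI : Fact p.Prime := ⟨hp⟩
      set y := x ^ (orderOf x / p ^ (orderOf x).factorization p) with hy
      have hyord : orderOf y = p ^ (orderOf x).factorization p := by
        rw [hy, orderOf_pow_of_dvd]
        · exact Nat.div_div_self (Nat.ordProj_dvd _ _) hn.ne'
        · exact (Nat.div_pos (Nat.ordProj_le p hn.ne') (pow_pos hp.pos _)).ne'
        · exact Nat.div_dvd_of_dvd (Nat.ordProj_dvd _ _)
      have hyH : ∀ H : Subgroup G, y ^ H.index ∈ H := by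
        intro H
        rw [hy, ← pow_mul, mul_comm, pow_mul]
        exact H.pow_mem (h H) _
      have hyP : ∀ P : Sylow p G, y ∈ (P : Subgroup G) := by
        intro P
        have h1 := hyH P
        have hcop : Nat.Coprime (orderOf y) (P : Subgroup G).index := by
          rw [hyord]
          apply Nat.Coprime.pow_left
          rw [hp.coprime_iff_not_dvd]
          exact P.not_dvd_index
        have h2 : y ∈ Subgroup.zpowers (y ^ (P : Subgroup G).index) := by
          obtain ⟨m, hm⟩ := exists_pow_eq_self_of_coprime hcop.symm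
          exact ⟨m, by simpa using hm⟩
        have h3 : Subgroup.zpowers (y ^ (P : Subgroup G).index) ≤ P := by
          rw [Subgroup.zpowers_le]; exact h1
        exact h3 h2
      have hymem : y ∈ ⨅ P : Sylow p G, (P : Subgroup G) := by
        rw [Subgroup.mem_iInf]; exact hyP
      have hnorm : (⨅ P : Sylow p G, (P : Subgroup G)).Normal := by
        constructor
        intro n hn g
        rw [Subgroup.mem_iInf] at hn ⊢
        intro P
        have := hn (g⁻¹ • P)
        rw [Sylow.coe_subgroup_smul] at this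
        rw [Subgroup.mem_pointwise_smul_iff_inv_smul_mem] at this
        simpa using this
      have hpg : IsPGroup p (⨅ P : Sylow p G, (P : Subgroup G) : Subgroup G) := by
        obtain ⟨P⟩ : Nonempty (Sylow p G) := inferInstance
        exact P.isPGroup'.to_le (iInf_le _ P)
      have h4 : (⨅ P : Sylow p G, (P : Subgroup G)) ∈
          {N : Subgroup G | N.Normal ∧ Group.IsNilpotent N} := ⟨hnorm, hpg.isNilpotent⟩
      exact (le_sSup h4) hymem
    -- gcd argument
    set d := sInf {k : ℕ | 0 < k ∧ x ^ k ∈ Cfsg.fittingSubgroup G} with hd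
    have hne : {k : ℕ | 0 < k ∧ x ^ k ∈ Cfsg.fittingSubgroup G}.Nonempty :=
      ⟨orderOf x, hn, by rw [pow_orderOf_eq_one]; exact Subgroup.one_mem _⟩
    have hdmem := Nat.sInf_mem hne
    rw [← hd] at hdmem
    obtain ⟨hdpos, hdx⟩ := hdmem
    have hdvd : ∀ k : ℕ, x ^ k ∈ Cfsg.fittingSubgroup G → d ∣ k := by
      intro k hk
      by_contra hnd
      have hlt : k % d < d := Nat.mod_lt _ hdpos
      have hpos : 0 < k % d := Nat.pos_of_ne_zero (fun h0 => hnd (Nat.dvd_of_mod_eq_zero h0))
      have hmem : x ^ (k % d) ∈ Cfsg.fittingSubgroup G := by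
        have e : x ^ (k % d) = x ^ k * (x ^ (d * (k / d)))⁻¹ := by
          rw [eq_mul_inv_iff_mul_eq, ← pow_add, Nat.mod_add_div]
        rw [e, pow_mul]
        exact Subgroup.mul_mem _ hk (Subgroup.inv_mem _ (Subgroup.pow_mem _ hdx _))
      have : d ≤ k % d := Nat.sInf_le ⟨hpos, hmem⟩
      omega
    have hd1 : d = 1 := by
      by_contra hne1
      obtain ⟨p, hp, hpd⟩ := Nat.exists_prime_and_dvd hne1
      have h1 := hdvd _ (key p hp)
      have h2 : p ∣ orderOf x / p ^ (orderOf x).factorization p := hpd.trans h1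
      exact Nat.not_dvd_ordCompl hp hn.ne' h2
    rw [hd1, pow_one] at hdx
    exact hdx

end Cfsg.Agent.S4263
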