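import Cfsg.Statements.S4269
import Mathlib
import Cfsg.Agent.LibFgSub

set_option autoImplicit false
open Cfsg

namespace Cfsg.Agent.S4269

open CfsgLib.FgSub

variable {G : Type*} [Group G]

theorem normal_of_inv {V H U : Subgroup G} (hV : IsMulCommutative ↥V) (hHV : H ⊔ V = ⊤)
    (hU : U ≤ V) (h : ∀ x ∈ H, cj x U = U) : U.Normal := by
  rw [← Subgroup.normalizer_eq_top_iff, ← top_le_iff, ← hHV, sup_le_iff]
  constructor
  · intro x hx
    rw [mem_normalizer_iff_cj]
    exact h x hx
  · intro x hx
    rw [mem_normalizer_iff_cj]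
    ext y
    rw [mem_cj]
    constructor
    · intro hy
      have := hV.is_comm.comm ⟨x, hx⟩ ⟨x⁻¹ * y * x, hU hy⟩
      have h2 := congrArg Subtype.val this
      simp only [Subgroup.coe_mul] at h2
      have h3 : y = x⁻¹ * y * x := by
        have : x * (x⁻¹ * y * x) = y * x := by group
        rw [this] at h2
        exact mul_right_cancel h2
      rw [h3]; exact hy
    · intro hy
      have := hV.is_comm.comm ⟨x, hx⟩ ⟨y, hU hy⟩
      have h2 := congrArg Subtype.val this
      simp only [Subgroup.coe_mul] at h2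
      have h3 : x⁻¹ * y * x = y := by
        rw [mul_assoc, ← h2]; group
      rw [h3]; exact hy

/-- Let G be a finite group, V an abelian normal subgroup and H a subgroup with HV = G. Then H is pronormal in G (H and gHg⁻¹ are conjugate inside the subgroup they generate, for every g) if and only if every H-invariant subgroup U of V satisfies U = N_U(H)·[H, U], that is, U is the join of U ∩ N_G(H) and the commutator subgroup [H, U]. -/
theorem result {G : Type*} [Group G] [Finite G]
    (V : Subgroup G) [V.Normal] (hV : IsMulCommutative ↥V) (H : Subgroup G) (hHV : H ⊔ V = ⊤) :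
    Cfsg.IsPronormal H ↔
      ∀ U : Subgroup G, U ≤ V → (∀ h ∈ H, U.map (MulAut.conj h).toMonoidHom = U) →
        U = (U ⊓ Subgroup.normalizer (H : Set G)) ⊔ ⁅H, U⁆ := by
  have hcomm : ∀ a ∈ V, ∀ b ∈ V, a * b = b * a := by
    intro a ha b hb
    exact congrArg Subtype.val (hV.is_comm.comm ⟨a, ha⟩ ⟨b, hb⟩)
  constructor
  · intro hP U hU hinv
    have hUn : U.Normal := normal_of_inv hV hHV hU hinv
    have hN1 : ⁅H, U⁆ ≤ U := Subgroup.commutator_le_right H U
    have hNn : (⁅H, U⁆ : Subgroup G).Normal := by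
      refine normal_of_inv hV hHV (hN1.trans hU) ?_
      intro x hx
      rw [cj_def, Subgroup.map_commutator, ← cj_def, ← cj_def, cj_eq_of_mem hx]
      rw [show cj x U = U from hinv x hx]
    apply le_antisymm
    · intro u hu
      obtain ⟨x, hx, hxu⟩ := hP u
      have hx' : x ∈ ⁅H, U⁆ ⊔ H := by
        refine (?_ : H ⊔ H.map (MulAut.conj u).toMonoidHom ≤ _) hx
        refine sup_le le_sup_right ?_
        rintro y ⟨h, hh, rfl⟩
        have e : (MulAut.conj u).toMonoidHom h = (u * h * u⁻¹ * h⁻¹) * h := by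
          simp
        rw [e]
        refine Subgroup.mul_mem _ (Subgroup.mem_sup_left ?_) (Subgroup.mem_sup_right hh)
        rw [Subgroup.commutator_comm]
        exact Subgroup.commutator_mem_commutator hu hh
      obtain ⟨w, hw, h, hh, rfl⟩ := Subgroup.mem_sup_of_normal_left.1 hx'
      have e1 : cj u H = cj w H := by
        rw [show cj u H = cj (w * h) H from hxu, ← cj_cj, cj_eq_of_mem hh]
      have e2 : w⁻¹ * u ∈ Subgroup.normalizer (H : Set G) := by
        rw [mem_normalizer_iff_cj, ← cj_cj, e1, cj_inv_cj]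
      have e3 : u = (w⁻¹ * u) * w := by
        rw [hcomm (w⁻¹ * u) (V.mul_mem (V.inv_mem (hU (hN1 hw))) (hU hu)) w (hU (hN1 hw))]
        group
      rw [e3]
      refine Subgroup.mul_mem _ (Subgroup.mem_sup_left ⟨?_, e2⟩) (Subgroup.mem_sup_right hw)
      exact U.mul_mem (U.inv_mem (hN1 hw)) hu
    · exact sup_le inf_le_left hN1
  · intro hC g
    -- reduce to g = v
    have hg : g ∈ V ⊔ H := by rw [sup_comm, hHV]; trivial
    obtain ⟨v, hv, h, hh, rfl⟩ := Subgroup.mem_sup_of_normal_left.1 hg
    have e0 : H.map (MulAut.conj (v * h)).toMonoidHom = cj v H := by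
      rw [← cj_def, ← cj_cj, cj_eq_of_mem hh]
    rw [e0]
    set J := H ⊔ cj v H with hJ
    have hinv : ∀ x ∈ H, cj x (J ⊓ V) = J ⊓ V := by
      intro x hx
      rw [cj_inf, cj_eq_of_mem ((le_sup_left : H ≤ J) hx), cj_of_normal x V]
    have hUn : (J ⊓ V).Normal := normal_of_inv hV hHV inf_le_right hinv
    set U := J ⊓ V with hUdef
    have hcU : ∀ x ∈ H, x * v * x⁻¹ * v⁻¹ ∈ U := by
      intro x hx
      constructor
      · have : x * v * x⁻¹ * v⁻¹ = x * (v * x⁻¹ * v⁻¹) := by group
        rw [this]
        exact J.mul_mem ((le_sup_left : H ≤ J) hx) ((le_sup_right : cj v H ≤ J) (conj_mem_cj (H.inv_mem hx)))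
      · exact V.mul_mem ((inferInstance : V.Normal).conj_mem v hv x) (V.inv_mem hv)
    set W := Subgroup.zpowers v ⊔ U with hW
    have hWV : W ≤ V := sup_le (by rw [Subgroup.zpowers_le]; exact hv) inf_le_right
    have hcW : ∀ x ∈ H, ∀ w ∈ W, x * w * x⁻¹ * w⁻¹ ∈ U := by
      intro x hx w hw
      have hle : W ≤ (Subgroup.centralizer ((QuotientGroup.mk' U) '' (H : Set G))).comap (QuotientGroup.mk' U) := by
        refine sup_le ?_ ?_
        · rw [Subgroup.zpowers_le, Subgroup.mem_comap, Subgroup.mem_centralizer_iff]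
          rintro _ ⟨y, hy, rfl⟩
          have := hcU y hy
          rw [← QuotientGroup.eq_one_iff (N := U)] at this
          simp only [QuotientGroup.mk'_apply] at this ⊢
          simp only [QuotientGroup.mk_mul, QuotientGroup.mk_inv] at this
          rw [mul_inv_eq_one, mul_inv_eq_iff_eq_mul] at this
          exact this
        · intro u hu
          rw [Subgroup.mem_comap, Subgroup.mem_centralizer_iff]
          rintro _ ⟨y, hy, rfl⟩
          have : (QuotientGroup.mk' U) u = 1 := (QuotientGroup.eq_one_iff u).2 hu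
          rw [this, mul_one, one_mul]
      have h1 := hle hw
      rw [Subgroup.mem_comap, Subgroup.mem_centralizer_iff] at h1
      have h2 := h1 _ ⟨x, hx, rfl⟩
      rw [← QuotientGroup.eq_one_iff (N := U)]
      simp only [QuotientGroup.mk'_apply] at h2
      simp only [QuotientGroup.mk_mul, QuotientGroup.mk_inv]
      rw [mul_inv_eq_one, mul_inv_eq_iff_eq_mul]
      exact h2
    have hWinv : ∀ x ∈ H, cj x W ≤ W := by
      intro x hx
      rintro _ ⟨w, hw, rfl⟩
      have e : (MulAut.conj x).toMonoidHom w = (x * w * x⁻¹ * w⁻¹) * w := by simp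
      rw [e]
      exact W.mul_mem ((le_sup_right : U ≤ W) (hcW x hx w hw)) hw
    have hWC := hC W hWV (by
      intro x hx
      apply le_antisymm (hWinv x hx)
      have := hWinv x⁻¹ (H.inv_mem hx)
      rw [cj_le_iff, inv_inv] at this
      exact this)
    have hcomW : ⁅H, W⁆ ≤ U := by
      rw [Subgroup.commutator_le]
      intro x hx w hw
      exact hcW x hx w hw
    have hvW : v ∈ (W ⊓ Subgroup.normalizer (H : Set G)) ⊔ U := by
      have h1 : v ∈ W := (le_sup_left : Subgroup.zpowers v ≤ W) (Subgroup.mem_zpowers v)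
      rw [hWC] at h1
      exact (sup_le_sup_left hcomW _) h1
    rw [sup_comm] at hvW
    obtain ⟨u, hu, n, hn, hun⟩ := Subgroup.mem_sup_of_normal_left.1 hvW
    refine ⟨u, ?_, ?_⟩
    · exact hu.1
    · rw [← cj_def]
      conv_lhs => rw [← hun, ← cj_cj, mem_normalizer_iff_cj.1 hn.2]

end Cfsg.Agent.S4269
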