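import Cfsg.Statements.S4314
import Mathlib
import Cfsg.Agent.S4262
import Cfsg.Agent.LibH14Prim

set_option autoImplicit false
open Cfsg

namespace Cfsg.Agent.S4314

open Subgroup
open scoped Pointwise

variable {G : Type*} [Group G] [Finite G]

theorem coatom_of_prime {H : Subgroup G} (h : H.index.Prime) : IsCoatom H := by
  refine ⟨fun h' => ?_, fun K hK => ?_⟩
  · rw [h', index_top] at h
    exact Nat.not_prime_one h
  · have h1 := relIndex_mul_index hK.le
    have h2 : K.index ∣ H.index := ⟨_, by rw [mul_comm]; exact h1.symm⟩
    rcases (Nat.dvd_prime h).1 h2 with h3 | h3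
    · exact index_eq_one.1 h3
    · exfalso
      rw [h3] at h1
      have h4 : H.relIndex K = 1 := by
        have : 0 < H.index := h.pos
        nlinarith
      rw [relIndex_eq_one] at h4
      exact not_le_of_gt hK h4

theorem center_le_centralizer (x : G) : center G ≤ centralizer ({x} : Set G) := by
  intro z hz
  rw [mem_centralizer_singleton_iff]
  exact ((mem_center_iff.mp hz) x).symm

theorem centralizer_ne_top {x : G} (hx : x ∉ center G) : centralizer ({x} : Set G) ≠ ⊤ := by
  intro h
  apply hx
  rw [mem_center_iff]
  intro g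
  have : g ∈ centralizer ({x} : Set G) := by rw [h]; trivial
  rwa [mem_centralizer_singleton_iff] at this

/-- a centralizer that is nonabelian -/
theorem struct_card (h : ∀ x : G, x ∉ center G → (centralizer ({x} : Set G)).index.Prime)
    (hna : ∀ g : G, g ∉ center G → ¬ IsMulCommutative (centralizer ({g} : Set G)))
    {x : G} (hx : x ∉ center G) :
    ∃ r k : ℕ, r.Prime ∧ 2 ≤ k ∧ (center G).relIndex (centralizer ({x} : Set G)) = r ^ k := by
  obtain ⟨r, hr, hrk⟩ := Cfsg.Agent.S4262.struct (fun g hg => coatom_of_prime (h g hg)) hna hx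
  haveI : Fact r.Prime := ⟨hr⟩
  set C := centralizer ({x} : Set G) with hC
  haveI : ((center G).subgroupOf C).Normal := inferInstance
  have hp : IsPGroup r (C ⧸ (center G).subgroupOf C) := by
    intro y
    obtain ⟨y, rfl⟩ := QuotientGroup.mk_surjective y
    obtain ⟨k, hk⟩ := hrk y y.2
    refine ⟨k, ?_⟩
    rw [← QuotientGroup.mk_pow, QuotientGroup.eq_one_iff, mem_subgroupOf]
    exact hk
  obtain ⟨k, hk⟩ := IsPGroup.iff_card.mp hp
  refine ⟨r, k, hr, ?_, hk⟩
  by_contra hk2
  have hcyc : IsCyclic (C ⧸ (center G).subgroupOf C) := by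
    have : k = 0 ∨ k = 1 := by omega
    rcases this with rfl | rfl
    · have : Subsingleton (C ⧸ (center G).subgroupOf C) := by
        rw [← Finite.card_le_one_iff_subsingleton, hk, pow_zero]
      exact isCyclic_of_subsingleton
    · rw [pow_one] at hk
      exact isCyclic_of_prime_card hk
  apply hna x hx
  refine ⟨⟨fun a b => ?_⟩⟩
  have hker : (QuotientGroup.mk' ((center G).subgroupOf C)).ker ≤ center C := by
    rw [QuotientGroup.ker_mk']
    intro z hz
    rw [mem_subgroupOf] at hz
    rw [mem_center_iff]
    intro w
    apply Subtype.ext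
    exact (mem_center_iff.mp hz) w
  exact ((QuotientGroup.mk' ((center G).subgroupOf C)).isMulCommutative_of_isCyclic_of_ker_le_center hker).is_comm.comm a b

theorem caseA (h : ∀ x : G, x ∉ center G → (centralizer ({x} : Set G)).index.Prime)
    {x y : G} (hx : x ∉ center G) (hy : y ∉ center G)
    (hne : (centralizer ({x} : Set G)).index ≠ (centralizer ({y} : Set G)).index) :
    ∃ p q : ℕ, p.Prime ∧ q.Prime ∧ p ≠ q ∧ Nat.card (G ⧸ center G) = p * q := by
  by_cases hab : ∃ g : G, g ∉ center G ∧ IsMulCommutative (centralizer ({g} : Set G))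
  · obtain ⟨g, hg, hgab⟩ := hab
    have hw : ∃ w : G, w ∉ center G ∧ (centralizer ({g} : Set G)).index ≠ (centralizer ({w} : Set G)).index := by
      by_cases hgx : (centralizer ({g} : Set G)).index = (centralizer ({x} : Set G)).index
      · exact ⟨y, hy, by rw [hgx]; exact hne⟩
      · exact ⟨x, hx, hgx⟩
    obtain ⟨w, hw, hgw⟩ := hw
    refine ⟨_, _, h g hg, h w hw, hgw, ?_⟩
    have hcomm : ∀ a ∈ centralizer ({g} : Set G), ∀ b ∈ centralizer ({g} : Set G), a * b = b * a := by
      intro a ha b hb
      exact congrArg Subtype.val (hgab.is_comm.comm ⟨a, ha⟩ ⟨b, hb⟩)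
    have hgg : g ∈ centralizer ({g} : Set G) := by rw [mem_centralizer_singleton_iff]
    have hD : centralizer ({g} : Set G) ⊓ centralizer ({w} : Set G) = center G := by
      apply le_antisymm
      · rintro d ⟨hd1, hd2⟩
        by_contra hd
        have h1 : centralizer ({g} : Set G) ≤ centralizer ({d} : Set G) := by
          intro a ha
          rw [mem_centralizer_singleton_iff]
          exact hcomm a ha d hd1
        have h2 : centralizer ({d} : Set G) = centralizer ({g} : Set G) := by
          rcases (coatom_of_prime (h g hg)).le_iff.mp h1 with h2 | h2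
          · exact absurd h2 (centralizer_ne_top hd)
          · exact h2
        have h3 : w ∈ centralizer ({g} : Set G) := by
          rw [← h2, mem_centralizer_singleton_iff]
          have hd2' : d ∈ centralizer ({w} : Set G) := hd2
          rw [mem_centralizer_singleton_iff] at hd2'
          exact hd2'.symm
        have h4 : centralizer ({g} : Set G) ≤ centralizer ({w} : Set G) := by
          intro a ha
          rw [mem_centralizer_singleton_iff]
          exact hcomm a ha w h3
        rcases (coatom_of_prime (h g hg)).le_iff.mp h4 with h5 | h5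
        · exact centralizer_ne_top hw h5
        · exact hgw (by rw [h5])
      · exact le_inf (center_le_centralizer g) (center_le_centralizer w)
    change (center G).index = _
    rw [← hD]
    have hcop : (centralizer ({g} : Set G)).index.Coprime (centralizer ({w} : Set G)).index :=
      (Nat.coprime_primes (h g hg) (h w hw)).2 hgw
    apply le_antisymm (index_inf_le)
    have h1 : (centralizer ({g} : Set G)).index ∣ (centralizer ({g} : Set G) ⊓ centralizer ({w} : Set G)).index :=
      index_dvd_of_le inf_le_left
    have h2 : (centralizer ({w} : Set G)).index ∣ (centralizer ({g} : Set G) ⊓ centralizer ({w} : Set G)).index :=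
      index_dvd_of_le inf_le_right
    exact Nat.le_of_dvd (Nat.pos_of_ne_zero (index_ne_zero_of_finite)) (hcop.mul_dvd_of_dvd_of_dvd h1 h2)
  · exfalso
    push Not at hab
    obtain ⟨r, k, hr, hk, hrk⟩ := struct_card h hab hx
    obtain ⟨s, l, hs, hl, hsl⟩ := struct_card h hab hy
    have e1 := relIndex_mul_index (center_le_centralizer x)
    have e2 := relIndex_mul_index (center_le_centralizer y)
    rw [hrk] at e1
    rw [hsl] at e2
    set p := (centralizer ({x} : Set G)).index with hp
    set q := (centralizer ({y} : Set G)).index with hq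
    have hpp : p.Prime := h x hx
    have hqp : q.Prime := h y hy
    have e : r ^ k * p = s ^ l * q := by rw [e1, e2]
    have h1 : p = s := by
      have : p ∣ s ^ l * q := by rw [← e]; exact dvd_mul_left _ _
      rcases hpp.dvd_mul.1 this with h2 | h2
      · exact (Nat.prime_dvd_prime_iff_eq hpp hs).1 (hpp.dvd_of_dvd_pow h2)
      · exact absurd ((Nat.prime_dvd_prime_iff_eq hpp hqp).1 h2) hne
    have h2 : q = r := by
      have : q ∣ r ^ k * p := by rw [e]; exact dvd_mul_left _ _
      rcases hqp.dvd_mul.1 this with h2 | h2
      · exact (Nat.prime_dvd_prime_iff_eq hqp hr).1 (hqp.dvd_of_dvd_pow h2)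
      · exact absurd ((Nat.prime_dvd_prime_iff_eq hqp hpp).1 h2).symm hne
    rw [← h1, ← h2] at e
    have h3 : q ^ 2 ∣ p ^ l * q := by
      rw [← e]
      exact (pow_dvd_pow q hk).mul_right _
    have h4 : q ^ 2 ∣ q := by
      refine Nat.Coprime.dvd_of_dvd_mul_left ?_ h3
      exact ((Nat.coprime_primes hqp hpp).2 (fun h => hne h.symm)).pow _ _
    have h5 := Nat.le_of_dvd hqp.pos h4
    have := hqp.two_le
    nlinarith

theorem caseB (h : ∀ x : G, x ∉ center G → (centralizer ({x} : Set G)).index.Prime)
    (heq : ∀ x y : G, x ∉ center G → y ∉ center G →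
      (centralizer ({x} : Set G)).index = (centralizer ({y} : Set G)).index) :
    Subgroup.upperCentralSeries G 2 = ⊤ := by
  by_cases hab : ∀ x : G, x ∈ center G
  · rw [← top_le_iff]
    intro x _
    exact (Subgroup.upperCentralSeries_mono G (by norm_num : 1 ≤ 2)) (by rw [Subgroup.upperCentralSeries_one]; exact hab x)
  push Not at hab
  obtain ⟨x0, hx0⟩ := hab
  set p := (centralizer ({x0} : Set G)).index with hp
  have hpp : p.Prime := h x0 hx0
  haveI : Fact p.Prime := ⟨hpp⟩
  -- Sylow q central for q ≠ p
  have hq : ∀ q : ℕ, q.Prime → q ≠ p → ∀ Q : Sylow q G, (Q : Subgroup G) ≤ center G := by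
    intro q hqp hne Q
    haveI : Fact q.Prime := ⟨hqp⟩
    by_contra hcon
    have hR : centralizer ((Q : Subgroup G) : Set G) ≠ ⊤ := by
      intro ht
      apply hcon
      intro z hz
      rw [mem_center_iff]
      intro g
      have : g ∈ centralizer ((Q : Subgroup G) : Set G) := by rw [ht]; trivial
      exact ((mem_centralizer_iff.mp this) z hz).symm
    obtain ⟨t, ht⟩ := CfsgLib.H14Prim.exists_not_conj _ hR
    -- C(t) contains a Sylow q
    obtain ⟨S⟩ := (inferInstance : Nonempty (Sylow q (centralizer ({t} : Set G))))
    have hSi : ¬ q ∣ ((S : Subgroup (centralizer ({t} : Set G))).map (centralizer ({t} : Set G)).subtype).index := by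
      rw [index_map_subtype, hqp.dvd_mul, not_or]
      refine ⟨S.not_dvd_index, ?_⟩
      by_cases htc : t ∈ center G
      · have : centralizer ({t} : Set G) = ⊤ := by
          rw [← top_le_iff]
          intro g _
          rw [mem_centralizer_singleton_iff]
          exact (mem_center_iff.mp htc) g
        rw [this, index_top]
        exact hqp.one_lt.ne' ∘ Nat.dvd_one.1
      · rw [heq t x0 htc hx0, ← hp]
        intro hd
        exact hne ((Nat.prime_dvd_prime_iff_eq hqp hpp).1 hd)
    obtain ⟨g, hg⟩ := MulAction.exists_smul_eq G Q ((S.isPGroup'.map _).toSylow hSi)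
    apply ht g
    rw [mem_centralizer_iff]
    intro z hz
    have h1 : g * z * g⁻¹ ∈ (S : Subgroup (centralizer ({t} : Set G))).map (centralizer ({t} : Set G)).subtype := by
      have h2 : g * z * g⁻¹ ∈ ((g • Q : Sylow q G) : Subgroup G) := by
        change _ ∈ (MulAut.conj g • (Q : Subgroup G))
        rw [mem_pointwise_smul_iff_inv_smul_mem]
        have : (MulAut.conj g)⁻¹ • (g * z * g⁻¹) = z := by
          rw [← map_inv, MulAut.smul_def, MulAut.conj_apply]; group
        rw [this]; exact hz
      rw [hg] at h2
      exact h2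
    obtain ⟨w, -, hw⟩ := h1
    have h3 : g * z * g⁻¹ * t = t * (g * z * g⁻¹) := by
      rw [← hw]
      exact (mem_centralizer_singleton_iff.1 w.2)
    have e1 : z * (g⁻¹ * t * g) = g⁻¹ * (g * z * g⁻¹ * t) * g := by group
    have e2 : g⁻¹ * t * g * z = g⁻¹ * (t * (g * z * g⁻¹)) * g := by group
    rw [e1, e2, h3]
  have hPG : IsPGroup p (G ⧸ center G) := by
    rw [IsPGroup.iff_card]
    refine ⟨_, Nat.eq_prime_pow_of_unique_prime_dvd Nat.card_pos.ne' ?_⟩
    intro q hqp hqd
    by_contra hne
    haveI : Fact q.Prime := ⟨hqp⟩
    obtain ⟨Q⟩ := (inferInstance : Nonempty (Sylow q G))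
    have := hq q hqp hne Q
    apply Q.not_dvd_index
    refine Dvd.dvd.trans ?_ (index_dvd_of_le this)
    exact hqd
  -- each centralizer is normal
  have hnorm : ∀ x : G, x ∉ center G → (centralizer ({x} : Set G)).Normal ∧ 
      commutator G ≤ centralizer ({x} : Set G) := by
    intro x hx
    have hidx : (centralizer ({x} : Set G)).index = p := heq x x0 hx hx0
    have h1 : ((centralizer ({x} : Set G)).map (QuotientGroup.mk' (center G))).index = p := by
      rw [index_map, QuotientGroup.ker_mk', sup_of_le_left (center_le_centralizer x),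
        QuotientGroup.range_mk', index_top, mul_one, hidx]
    obtain ⟨j, hj⟩ := IsPGroup.iff_card.mp hPG
    have h2 : ((centralizer ({x} : Set G)).map (QuotientGroup.mk' (center G))).Normal := by
      have hj0 : j ≠ 0 := by
        rintro rfl
        have := card_mul_index ((centralizer ({x} : Set G)).map (QuotientGroup.mk' (center G)))
        rw [h1, hj, pow_zero] at this
        have := Nat.eq_one_of_mul_eq_one_left this
        exact hpp.one_lt.ne' this
      refine normal_of_index_eq_minFac_card ?_
      rw [h1, hj, hpp.pow_minFac hj0]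
    have h3 : (centralizer ({x} : Set G)) =
        ((centralizer ({x} : Set G)).map (QuotientGroup.mk' (center G))).comap (QuotientGroup.mk' (center G)) := by
      rw [comap_map_eq, QuotientGroup.ker_mk', sup_of_le_left (center_le_centralizer x)]
    have h4 : (centralizer ({x} : Set G)).Normal := by rw [h3]; exact h2.comap _
    refine ⟨h4, ?_⟩
    haveI := h4
    have hcyc : IsCyclic (G ⧸ centralizer ({x} : Set G)) := by
      apply isCyclic_of_prime_card (p := p)
      exact hidx
    exact Subgroup.Normal.quotient_commutative_iff_commutator_le.mp (IsCyclic.isMulCommutative)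
  rw [← top_le_iff]
  intro g _
  rw [Subgroup.mem_upperCentralSeries_succ_iff]
  intro y
  rw [Subgroup.upperCentralSeries_one, mem_center_iff]
  intro x
  by_cases hx : x ∈ center G
  · exact ((mem_center_iff.mp hx) _).symm
  · have h1 : g * y * g⁻¹ * y⁻¹ ∈ commutator G := by
      have := commutator_mem_commutator (H₁ := (⊤ : Subgroup G)) (H₂ := ⊤) (g₁ := g) (g₂ := y) trivial trivial
      exact this
    have h2 := (hnorm x hx).2 h1
    rw [mem_centralizer_singleton_iff] at h2
    exact h2.symm

/-- Let `G` be a finite group every conjugacy class of which has size 1 or a prime. Then either `G` is nilpotent of class at most 2, or `G/Z(G)` is a non-abelian group of order `pq` for distinct primes `p, q` (a Frobenius group of order `pq`). -/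
theorem result {G : Type*} [Group G] [Finite G]
    (h : ∀ x : G, (Subgroup.centralizer ({x} : Set G)).index = 1 ∨ ((Subgroup.centralizer ({x} : Set G)).index).Prime) :
    Subgroup.upperCentralSeries G 2 = ⊤ ∨
      ∃ p q : ℕ, p.Prime ∧ q.Prime ∧ p ≠ q ∧ Nat.card (G ⧸ Subgroup.center G) = p * q ∧ ¬ IsMulCommutative (G ⧸ Subgroup.center G) := by
  have h' : ∀ x : G, x ∉ Subgroup.center G → (Subgroup.centralizer ({x} : Set G)).index.Prime := by
    intro x hx
    rcases h x with h1 | h1
    · exact absurd (Subgroup.index_eq_one.1 h1) (centralizer_ne_top hx)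
    · exact h1
  by_cases heq : ∀ x y : G, x ∉ Subgroup.center G → y ∉ Subgroup.center G →
      (Subgroup.centralizer ({x} : Set G)).index = (Subgroup.centralizer ({y} : Set G)).index
  · exact Or.inl (caseB h' heq)
  · right
    push Not at heq
    obtain ⟨x, y, hx, hy, hne⟩ := heq
    obtain ⟨p, q, hp, hq, hpq, hc⟩ := caseA h' hx hy hne
    refine ⟨p, q, hp, hq, hpq, hc, ?_⟩
    intro hcom
    haveI := hcom
    have hcyc : IsCyclic (G ⧸ Subgroup.center G) := by
      have hsf : Squarefree (Nat.card (G ⧸ Subgroup.center G)) := by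
        rw [hc, Nat.squarefree_mul ((Nat.coprime_primes hp hq).2 hpq)]
        exact ⟨hp.squarefree, hq.squarefree⟩
      haveI := IsZGroup.of_squarefree hsf
      haveI : Group.IsNilpotent (G ⧸ Subgroup.center G) :=
        Group.IsNilpotent.mk ⟨1, by
          rw [Subgroup.upperCentralSeries_one, ← top_le_iff]
          intro a _
          rw [Subgroup.mem_center_iff]
          intro b
          exact hcom.is_comm.comm b a⟩
      infer_instance
    apply hx
    rw [Subgroup.mem_center_iff]
    intro g
    have hker : (QuotientGroup.mk' (Subgroup.center G)).ker ≤ Subgroup.center G := by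
      rw [QuotientGroup.ker_mk']
    exact ((QuotientGroup.mk' (Subgroup.center G)).isMulCommutative_of_isCyclic_of_ker_le_center hker).is_comm.comm g x

end Cfsg.Agent.S4314
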