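import Cfsg.Statements.S4331
import Mathlib
import Cfsg.Agent.LibH2Subn
import Cfsg.Agent.LibCores

set_option autoImplicit false
open Cfsg

namespace Cfsg.Agent.S4331

open Subgroup

noncomputable section

/-- the field with nine elements -/
abbrev F := GaloisField 3 2

instance : DecidableEq F := Classical.decEq _

theorem card_F : Nat.card F = 9 := by rw [GaloisField.card 3 2 (by norm_num)]; norm_num

noncomputable instance : Fintype F := Fintype.ofFinite F

theorem pow9 (x : F) : x ^ 9 = x := by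
  have := FiniteField.pow_card x
  rwa [← Nat.card_eq_fintype_card, card_F] at this

theorem cube_add (x y : F) : (x + y) ^ 3 = x ^ 3 + y ^ 3 := add_pow_char (p := 3) x y

theorem cube_cube (x : F) : (x ^ 3) ^ 3 = x := by rw [← pow_mul]; exact pow9 x

theorem three0 : (3 : F) = 0 := by
  have := CharP.cast_eq_zero F 3
  exact_mod_cast this

theorem pow8 {c : F} (hc : c ≠ 0) : c ^ 8 = 1 := by
  have h := pow9 c
  have h2 : c * c ^ 8 = c * 1 := by rw [mul_one, ← pow_succ']; exact h
  exact mul_left_cancel₀ hc h2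

def Mem (f : Equiv.Perm F) : Prop :=
  ∃ c : F, c ≠ 0 ∧ ∃ b : F, (∀ x, f x = c * x + b) ∨ (∀ x, f x = c * x ^ 3 + b)

theorem Mem.mul {f g : Equiv.Perm F} (hf : Mem f) (hg : Mem g) : Mem (f * g) := by
  obtain ⟨c, hc, b, hf⟩ := hf
  obtain ⟨c', hc', b', hg⟩ := hg
  rcases hf with hf | hf <;> rcases hg with hg | hg
  · refine ⟨c * c', mul_ne_zero hc hc', c * b' + b, Or.inl fun x => ?_⟩
    rw [Equiv.Perm.mul_apply, hf, hg]; ring
  · refine ⟨c * c', mul_ne_zero hc hc', c * b' + b, Or.inr fun x => ?_⟩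
    rw [Equiv.Perm.mul_apply, hf, hg]; ring
  · refine ⟨c * c' ^ 3, mul_ne_zero hc (pow_ne_zero _ hc'), c * b' ^ 3 + b, Or.inr fun x => ?_⟩
    rw [Equiv.Perm.mul_apply, hf, hg, cube_add]; ring
  · refine ⟨c * c' ^ 3, mul_ne_zero hc (pow_ne_zero _ hc'), c * b' ^ 3 + b, Or.inl fun x => ?_⟩
    rw [Equiv.Perm.mul_apply, hf, hg, cube_add, mul_pow, cube_cube]; ring

def GG : Subgroup (Equiv.Perm F) where
  carrier := {f | Mem f}
  one_mem' := ⟨1, one_ne_zero, 0, Or.inl fun x => by simp⟩
  mul_mem' := fun hf hg => Mem.mul hf hg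
  inv_mem' := by
    intro f hf
    have h : ∀ n : ℕ, Mem (f ^ n) := by
      intro n
      induction n with
      | zero => exact ⟨1, one_ne_zero, 0, Or.inl fun x => by simp⟩
      | succ n ih => rw [pow_succ]; exact ih.mul hf
    have h2 : f⁻¹ = f ^ (orderOf f - 1) := by
      have h3 := pow_orderOf_eq_one f
      have h4 := orderOf_pos f
      rw [eq_comm, eq_inv_iff_mul_eq_one, ← pow_succ, Nat.sub_add_cancel h4]
      exact h3
    change Mem f⁻¹
    rw [h2]
    exact h _

def sg : Equiv.Perm F := ⟨fun x => x ^ 3, fun x => x ^ 3, cube_cube, cube_cube⟩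
theorem sg_apply (x : F) : sg x = x ^ 3 := rfl
def tr (b : F) : Equiv.Perm F := ⟨fun x => x + b, fun x => x - b, fun x => by simp, fun x => by simp⟩
theorem tr_apply (b x : F) : tr b x = x + b := rfl
theorem tr_inv (b : F) : (tr b)⁻¹ = tr (-b) := by
  ext x
  exact sub_eq_add_neg x b
noncomputable def ml (c : F) (hc : c ≠ 0) : Equiv.Perm F :=
  ⟨fun x => c * x, fun x => c⁻¹ * x, fun x => by field_simp, fun x => by field_simp⟩
theorem ml_apply (c : F) (hc : c ≠ 0) (x : F) : ml c hc x = c * x := rfl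
theorem ml_inv_apply (c : F) (hc : c ≠ 0) (x : F) : (ml c hc)⁻¹ x = c⁻¹ * x := rfl

theorem sg_mem : sg ∈ GG := ⟨1, one_ne_zero, 0, Or.inr fun x => by rw [sg_apply]; ring⟩
theorem tr_mem (b : F) : tr b ∈ GG := ⟨1, one_ne_zero, b, Or.inl fun x => by rw [tr_apply]; ring⟩
theorem ml_mem (c : F) (hc : c ≠ 0) : ml c hc ∈ GG := ⟨c, hc, 0, Or.inl fun x => by rw [ml_apply]; ring⟩

theorem sg_sq : sg * sg = 1 := by
  ext x
  rw [Equiv.Perm.mul_apply, sg_apply, sg_apply, cube_cube]; rfl

theorem exists_t : ∃ t : F, t ^ 3 ≠ t := by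
  obtain ⟨g, hg⟩ := IsCyclic.exists_generator (α := Fˣ)
  refine ⟨g, fun h => ?_⟩
  have h1 : orderOf g = 8 := by
    rw [orderOf_eq_card_of_forall_mem_zpowers hg, Nat.card_units, card_F]
  have h2 : g ^ 3 = g := Units.ext (by rw [Units.val_pow_eq_pow_val]; exact h)
  have h3 : g ^ 2 = 1 := by
    have : g * g ^ 2 = g * 1 := by rw [mul_one, ← pow_succ']; exact h2
    exact mul_left_cancel this
  have h4 := orderOf_dvd_of_pow_eq_one h3
  rw [h1] at h4
  exact absurd (Nat.le_of_dvd (by norm_num) h4) (by norm_num)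

/-- the stabilizer of `0` -/
def HH : Subgroup GG where
  carrier := {f | f.1 0 = 0}
  one_mem' := rfl
  mul_mem' := by
    intro f g hf hg
    change f.1 (g.1 0) = 0
    rw [show g.1 0 = 0 from hg, show f.1 0 = 0 from hf]
  inv_mem' := by
    intro f hf
    change f.1⁻¹ 0 = 0
    rw [Equiv.Perm.inv_eq_iff_eq]
    exact (show f.1 0 = 0 from hf).symm

theorem HH_pgroup : IsPGroup 2 HH := by
  rintro ⟨⟨f, c, hc, b, hf⟩, h0⟩
  refine ⟨4, ?_⟩
  apply Subtype.ext
  apply Subtype.ext
  change f ^ 16 = 1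
  have h0' : f 0 = 0 := h0
  rcases hf with hf | hf
  · have hb : b = 0 := by rw [hf] at h0'; simpa using h0'
    subst hb
    have h1 : ∀ n : ℕ, ∀ x, (f ^ n) x = c ^ n * x := by
      intro n
      induction n with
      | zero => intro x; simp
      | succ n ih => intro x; rw [pow_succ, Equiv.Perm.mul_apply, ih, hf, add_zero]; ring
    ext x
    rw [h1, show c ^ 16 = (c ^ 8) ^ 2 by ring, pow8 hc]
    simp
  · have hb : b = 0 := by rw [hf] at h0'; simpa using h0'
    subst hb
    have h2 : ∀ x, (f ^ 2) x = c ^ 4 * x := by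
      intro x
      rw [pow_two, Equiv.Perm.mul_apply, hf, hf, add_zero, add_zero, mul_pow, cube_cube]
      ring
    have h1 : ∀ n : ℕ, ∀ x, ((f ^ 2) ^ n) x = (c ^ 4) ^ n * x := by
      intro n
      induction n with
      | zero => intro x; simp
      | succ n ih => intro x; rw [pow_succ, Equiv.Perm.mul_apply, ih, h2]; ring
    ext x
    rw [show (16 : ℕ) = 2 * 8 by norm_num, pow_mul, h1, show (c ^ 4) ^ 8 = (c ^ 8) ^ 4 by ring, pow8 hc]
    simp

theorem sub_affine {f : Equiv.Perm F} (hf : Mem f) (x y : F) : f (x - y) - f 0 = f x - f y := by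
  obtain ⟨c, hc, b, hf⟩ := hf
  rcases hf with hf | hf
  · rw [hf, hf, hf, hf]; ring
  · rw [hf, hf, hf, hf]
    have : (x - y) ^ 3 = x ^ 3 - y ^ 3 := by
      rw [sub_eq_add_neg, cube_add]; ring
    rw [this]; ring

def lin : GG →* HH where
  toFun f := ⟨⟨tr (-(f.1 0)), tr_mem _⟩ * f, by
    change f.1 0 + -(f.1 0) = 0
    ring⟩
  map_one' := by
    apply Subtype.ext; apply Subtype.ext
    ext x
    change x + -(0 : F) = x
    ring
  map_mul' := by
    intro f g
    apply Subtype.ext; apply Subtype.ext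
    ext x
    change f.1 (g.1 x) + -(f.1 (g.1 0)) = f.1 (g.1 x + -(g.1 0)) + -(f.1 0)
    rw [← sub_eq_add_neg, ← sub_eq_add_neg, ← sub_eq_add_neg, sub_affine f.2]

theorem GG_solvable : Group.IsSolvable GG := by
  have h1 : Group.IsSolvable HH := by
    haveI := HH_pgroup.isNilpotent
    infer_instance
  have h2 : ∀ f ∈ lin.ker, ∀ x, f.1 x = x + f.1 0 := by
    intro f hf x
    have h3 : lin f = 1 := hf
    have h4 : f.1 x + -(f.1 0) = x := by
      have h5 : ((lin f).1.1 : Equiv.Perm F) x = x := by rw [h3]; rfl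
      exact h5
    linear_combination h4
  have h3 : IsMulCommutative lin.ker := by
    refine ⟨⟨fun f g => ?_⟩⟩
    apply Subtype.ext; apply Subtype.ext
    ext x
    change f.1.1 (g.1.1 x) = g.1.1 (f.1.1 x)
    rw [h2 f.1 f.2, h2 g.1 g.2, h2 g.1 g.2 (f.1.1 x), h2 f.1 f.2 x]
    ring
  have h4 : Group.IsSolvable lin.ker := by
    letI : CommGroup lin.ker := { (inferInstance : Group lin.ker) with mul_comm := fun a b => h3.is_comm.comm a b }
    exact Group.isSolvable_of_comm h3.is_comm.comm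
  exact Group.isSolvable_of_ker_le_range lin.ker.subtype lin (by rw [Subgroup.range_subtype])

def sG : GG := ⟨sg, sg_mem⟩

theorem good_of_HH {g : GG} (hg : g ∈ HH) :
    ((zpowers sG).subgroupOf (zpowers sG ⊔ zpowers g)).IsSubnormal := by
  have h1 : zpowers sG ⊔ zpowers g ≤ HH := by
    refine sup_le ?_ ?_
    · rw [zpowers_le]
      change (0 : F) ^ 3 = 0
      ring
    · rwa [zpowers_le]
  have h2 : IsPGroup 2 (↥(zpowers sG ⊔ zpowers g)) := HH_pgroup.to_le h1
  haveI := h2.isNilpotent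
  exact CfsgLib.H2Subn.isSubnormal_of_isNilpotent _

theorem good_of_comm {g : GG} (hg : ∀ x, g.1 (x ^ 3) = (g.1 x) ^ 3) :
    ((zpowers sG).subgroupOf (zpowers sG ⊔ zpowers g)).IsSubnormal := by
  have hcomm : g * sG = sG * g := by
    apply Subtype.ext
    ext x
    exact hg x
  have hn : ((zpowers sG).subgroupOf (zpowers sG ⊔ zpowers g)).Normal := by
    rw [Subgroup.normal_subgroupOf_iff_le_normalizer le_sup_left]
    refine sup_le Subgroup.le_normalizer ?_
    rw [zpowers_le]
    have h1 : g ∈ centralizer (zpowers sG : Set GG) := by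
      rw [mem_centralizer_iff]
      rintro _ ⟨k, rfl⟩
      have : Commute g sG := hcomm
      exact (this.zpow_right k).symm
    exact Subgroup.centralizer_le_normalizer _ h1
  exact hn.isSubnormal

end

/-- There is a finite solvable group G with a subgroup A of order 2 such that every conjugacy class of G contains an element g for which A is subnormal in the subgroup generated by A and g, and yet A is not contained in O_2(G). (So the corresponding criteria for odd primes fail at the prime 2, even for solvable groups.) -/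
theorem result :
    ∃ (G : Type) (_ : Group G) (_ : Finite G) (A : Subgroup G), Group.IsSolvable G ∧ Nat.card A = 2 ∧
      (∀ c : G, ∃ g : G, IsConj c g ∧ (A.subgroupOf (A ⊔ Subgroup.zpowers g)).IsSubnormal) ∧
      ¬ A ≤ Cfsg.pCore 2 G := by
  refine ⟨GG, inferInstance, inferInstance, Subgroup.zpowers sG, GG_solvable, ?_, ?_, ?_⟩
  · rw [Nat.card_zpowers]
    refine orderOf_eq_prime ?_ ?_
    · rw [pow_two]
      exact Subtype.ext sg_sq
    · intro h
      obtain ⟨t, ht⟩ := exists_t
      apply ht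
      have h1 : sG.1 t = t := by rw [h]; rfl
      exact h1
  · intro f
    have hconjH : ∀ x0 : F, f.1 x0 = x0 → ∃ g : GG, IsConj f g ∧
        ((Subgroup.zpowers sG).subgroupOf (Subgroup.zpowers sG ⊔ Subgroup.zpowers g)).IsSubnormal := by
      intro x0 hx0
      refine ⟨⟨tr (-x0), tr_mem _⟩ * f * (⟨tr (-x0), tr_mem _⟩ : GG)⁻¹,
        isConj_iff.2 ⟨_, rfl⟩, good_of_HH ?_⟩
      change f.1 ((tr (-x0))⁻¹ 0) + -x0 = 0
      rw [tr_inv, tr_apply, neg_neg, zero_add, hx0, add_neg_cancel]
    obtain ⟨c, hc, b, hf⟩ := f.2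
    rcases hf with hf | hf
    · by_cases hc1 : c = 1
      · subst hc1
        by_cases hb : b = 0
        · refine hconjH 0 ?_
          rw [hf, hb]; ring
        · refine ⟨⟨ml b⁻¹ (inv_ne_zero hb), ml_mem _ _⟩ * f * (⟨ml b⁻¹ (inv_ne_zero hb), ml_mem _ _⟩ : GG)⁻¹,
            isConj_iff.2 ⟨_, rfl⟩, good_of_comm ?_⟩
          have h1 : ∀ x, ((⟨ml b⁻¹ (inv_ne_zero hb), ml_mem _ _⟩ * f *
              (⟨ml b⁻¹ (inv_ne_zero hb), ml_mem _ _⟩ : GG)⁻¹ : GG)).1 x = x + 1 := by
            intro x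
            change b⁻¹ * (f.1 ((ml b⁻¹ (inv_ne_zero hb))⁻¹ x)) = x + 1
            rw [ml_inv_apply, hf, inv_inv]
            field_simp
          intro x
          rw [h1, h1, cube_add, one_pow]
      · refine hconjH (b / (1 - c)) ?_
        rw [hf]
        have : (1 - c) ≠ 0 := sub_ne_zero.2 (Ne.symm hc1)
        field_simp
        ring
    · by_cases hex : ∃ x0, f.1 x0 = x0
      · obtain ⟨x0, hx0⟩ := hex
        exact hconjH x0 hx0
      · -- the additive map `x ↦ x - c x ^ 3` is not surjective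
        let φ : F →+ F :=
          { toFun := fun x => x - c * x ^ 3
            map_zero' := by ring
            map_add' := fun x y => by rw [cube_add]; ring }
        have hns : ¬ Function.Surjective φ := by
          intro hs
          obtain ⟨x0, hx0⟩ := hs b
          apply hex
          refine ⟨x0, ?_⟩
          have h1 : x0 - c * x0 ^ 3 = b := hx0
          rw [hf, ← h1]; ring
        have hni : ¬ Function.Injective φ := fun hi => hns (Finite.injective_iff_surjective.1 hi)
        rw [injective_iff_map_eq_zero] at hni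
        push Not at hni
        obtain ⟨u, hu, hu0⟩ := hni
        have hu1 : u = c * u ^ 3 := sub_eq_zero.1 hu
        set b' := u⁻¹ * b with hb'
        set k : GG := ⟨tr b', tr_mem _⟩ * ⟨ml u⁻¹ (inv_ne_zero hu0), ml_mem _ _⟩ with hk
        refine ⟨k * f * k⁻¹, isConj_iff.2 ⟨_, rfl⟩, good_of_comm ?_⟩
        have hkx : ∀ x, k.1 x = u⁻¹ * x + b' := fun x => rfl
        have hkinv : ∀ x, k⁻¹.1 x = u * (x - b') := by
          intro x
          have : k.1 (u * (x - b')) = x := by
            rw [hkx]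
            field_simp
            ring
          have h9 : k.1⁻¹ (k.1 (u * (x - b'))) = u * (x - b') := Equiv.symm_apply_apply k.1 _
          rw [this] at h9
          exact h9
        have hcu : u⁻¹ * (c * u ^ 3) = 1 := by rw [← hu1]; exact inv_mul_cancel₀ hu0
        have h1 : ∀ x, (k * f * k⁻¹).1 x = x ^ 3 + (2 * b' - b' ^ 3) := by
          intro x
          change k.1 (f.1 (k⁻¹.1 x)) = _
          rw [hkinv, hf, hkx]
          have h3 : (x - b') ^ 3 = x ^ 3 - b' ^ 3 := by
            rw [sub_eq_add_neg, cube_add]; ring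
          rw [mul_pow, h3]
          calc u⁻¹ * (c * (u ^ 3 * (x ^ 3 - b' ^ 3)) + b) + b'
              = (u⁻¹ * (c * u ^ 3)) * (x ^ 3 - b' ^ 3) + u⁻¹ * b + b' := by ring
            _ = _ := by rw [hcu, ← hb']; ring
        have h4 : (2 * b' - b' ^ 3) ^ 3 = 2 * b' - b' ^ 3 := by
          have h5 : (2 * b' - b' ^ 3) ^ 3 = (2 * b') ^ 3 - (b' ^ 3) ^ 3 := by
            rw [sub_eq_add_neg, cube_add]; ring
          rw [h5, cube_cube]
          have h6 : (2 * b') ^ 3 - b' - (2 * b' - b' ^ 3) = 3 * (3 * b' ^ 3 - b') := by ring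
          rw [three0, zero_mul] at h6
          exact sub_eq_zero.1 h6
        intro x
        rw [h1, h1, cube_add, h4]
  · intro hle
    have hs : sG ∈ Cfsg.pCore 2 GG := hle (Subgroup.mem_zpowers sG)
    obtain ⟨t, ht⟩ := exists_t
    have hn : (Cfsg.pCore 2 GG).Normal := inferInstance
    set T : GG := ⟨tr t, tr_mem t⟩ with hT
    have h1 : T * sG * T⁻¹ * sG⁻¹ ∈ Cfsg.pCore 2 GG :=
      (Cfsg.pCore 2 GG).mul_mem (hn.conj_mem _ hs T) ((Cfsg.pCore 2 GG).inv_mem hs)
    have h2 : T * sG * T⁻¹ * sG⁻¹ = ⟨tr (t - t ^ 3), tr_mem _⟩ := by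
      apply Subtype.ext
      change tr t * sg * (tr t)⁻¹ * sg⁻¹ = tr (t - t ^ 3)
      have h3 : sg⁻¹ = sg := by rw [inv_eq_iff_mul_eq_one]; exact sg_sq
      rw [h3, tr_inv]
      ext x
      change ((x ^ 3 + -t) ^ 3) + t = x + (t - t ^ 3)
      rw [cube_add, cube_cube]; ring
    rw [h2] at h1
    have hp : IsPGroup 2 (Cfsg.pCore 2 GG) := CfsgLib.Cores.pCore_isPGroup 2
    obtain ⟨k, hk⟩ := hp ⟨_, h1⟩
    have hk' : (tr (t - t ^ 3)) ^ 2 ^ k = 1 := congrArg (fun z : ↥(Cfsg.pCore 2 GG) => z.1.1) hk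
    have h3 : ∀ n : ℕ, ∀ x, ((tr (t - t ^ 3)) ^ n) x = x + n * (t - t ^ 3) := by
      intro n
      induction n with
      | zero => intro x; simp
      | succ n ih => intro x; rw [pow_succ, Equiv.Perm.mul_apply, ih, tr_apply]; push_cast; ring
    have h4 := h3 (2 ^ k) 0
    rw [hk'] at h4
    have h5 : ((2 ^ k : ℕ) : F) * (t - t ^ 3) = 0 := by
      have : (0 : F) = 0 + ((2 ^ k : ℕ) : F) * (t - t ^ 3) := h4
      rw [zero_add] at this
      exact this.symm
    rcases mul_eq_zero.1 h5 with h6 | h6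
    · rw [CharP.cast_eq_zero_iff F 3] at h6
      have := (Nat.prime_three.dvd_of_dvd_pow h6)
      norm_num at this
    · exact ht (sub_eq_zero.1 h6).symm

end Cfsg.Agent.S4331
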