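import Cfsg.Statements.S4332
import Mathlib
import Cfsg.Agent.LibH7Basic

set_option autoImplicit false
open Pointwise
open Cfsg

namespace Cfsg.Agent.S4332

open Equiv Equiv.Perm
open scoped Pointwise

theorem conj_swap (c : Perm (Fin 8)) (a b d : Fin 8) :
    c * (swap a b * swap a d) * c⁻¹ = swap (c a) (c b) * swap (c a) (c d) := by
  rw [Equiv.swap_apply_apply, Equiv.swap_apply_apply]
  group

theorem of_disjoint (c : Perm (Fin 8)) {a b d : Fin 8} (hab : a ≠ b) (had : a ≠ d) (hbd : b ≠ d)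
    (h1 : c a ≠ a) (h2 : c a ≠ b) (h3 : c a ≠ d) (h4 : c b ≠ a) (h5 : c b ≠ b) (h6 : c b ≠ d)
    (h7 : c d ≠ a) (h8 : c d ≠ b) (h9 : c d ≠ d) :
    ∃ τ : Perm (Fin 8), τ.IsThreeCycle ∧ Commute τ (c * τ * c⁻¹) := by
  refine ⟨swap a b * swap a d, isThreeCycle_swap_mul_swap_same hab had hbd, ?_⟩
  apply Disjoint.commute
  rw [conj_swap]
  intro x
  by_cases hx : x = a ∨ x = b ∨ x = d
  · right
    have e1 : x ≠ c a := by rcases hx with rfl | rfl | rfl <;> tauto
    have e2 : x ≠ c b := by rcases hx with rfl | rfl | rfl <;> tauto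
    have e3 : x ≠ c d := by rcases hx with rfl | rfl | rfl <;> tauto
    rw [Perm.mul_apply, swap_apply_of_ne_of_ne e1 e3, swap_apply_of_ne_of_ne e1 e2]
  · left
    push Not at hx
    rw [Perm.mul_apply, swap_apply_of_ne_of_ne hx.1 hx.2.2, swap_apply_of_ne_of_ne hx.1 hx.2.1]

theorem exists_cycle (c : Perm (Fin 8)) :
    ∃ τ : Perm (Fin 8), τ.IsThreeCycle ∧ Commute τ (c * τ * c⁻¹) := by
  classical
  by_cases hF : 2 < (Finset.univ.filter (fun x => c x = x)).card
  · obtain ⟨a, ha, b, hb, d, hd, hab, had, hbd⟩ := Finset.two_lt_card.mp hF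
    rw [Finset.mem_filter] at ha hb hd
    refine ⟨swap a b * swap a d, isThreeCycle_swap_mul_swap_same hab had hbd, ?_⟩
    rw [conj_swap, ha.2, hb.2, hd.2]
  have hM : 6 ≤ (Finset.univ.filter (fun x => c x ≠ x)).card := by
    have := Finset.card_filter_add_card_filter_not (s := (Finset.univ : Finset (Fin 8))) (fun x => c x = x)
    rw [Finset.card_univ, Fintype.card_fin] at this
    simp only [ne_eq]
    omega
  have hinj := c.injective
  -- picking a moved point outside a small set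
  have hpick : ∀ E : Finset (Fin 8), E.card < 6 → ∃ b, c b ≠ b ∧ b ∉ E := by
    intro E hE
    obtain ⟨b, hb1, hb2⟩ := Finset.exists_mem_notMem_of_card_lt_card (lt_of_lt_of_le hE hM)
    exact ⟨b, (Finset.mem_filter.mp hb1).2, hb2⟩
  by_cases h3 : ∃ a, c a ≠ a ∧ c (c (c a)) = a
  · obtain ⟨a, ha, h3⟩ := h3
    have had : a ≠ c (c a) := by
      intro h
      rw [← h] at h3
      exact ha h3
    have hbd : c a ≠ c (c a) := fun h => ha (hinj h).symm
    refine ⟨swap a (c a) * swap a (c (c a)), isThreeCycle_swap_mul_swap_same ha.symm had hbd, ?_⟩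
    rw [conj_swap, h3]
    have e : swap (c a) (c (c a)) * swap (c a) a = swap a (c a) * swap a (c (c a)) := by
      ext x
      rw [Perm.mul_apply, Perm.mul_apply]
      by_cases hx1 : x = a
      · rw [hx1, swap_apply_right, swap_apply_left, swap_apply_left,
          swap_apply_of_ne_of_ne had.symm hbd.symm]
      by_cases hx2 : x = c a
      · rw [hx2, swap_apply_left, swap_apply_of_ne_of_ne ha.symm had,
          swap_apply_of_ne_of_ne ha hbd, swap_apply_right]
      by_cases hx3 : x = c (c a)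
      · rw [hx3, swap_apply_of_ne_of_ne hbd.symm had.symm, swap_apply_right, swap_apply_right,
          swap_apply_left]
      · rw [swap_apply_of_ne_of_ne hx2 hx1, swap_apply_of_ne_of_ne hx2 hx3,
          swap_apply_of_ne_of_ne hx1 hx3, swap_apply_of_ne_of_ne hx1 hx2]
    rw [e]
  push Not at h3
  by_cases h2 : ∃ a, c (c a) ≠ a
  · obtain ⟨a, ha2⟩ := h2
    have ha : c a ≠ a := fun h => ha2 (by rw [h, h])
    obtain ⟨b, hb, hbE⟩ := hpick {c⁻¹ a, a, c a, c (c a), c (c (c a))}
      (lt_of_le_of_lt Finset.card_le_five (by norm_num))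
    simp only [Finset.mem_insert, Finset.mem_singleton, not_or] at hbE
    obtain ⟨b1, b2, b3, b4, b5⟩ := hbE
    refine of_disjoint c (a := a) (b := c (c a)) (d := b) ha2.symm (Ne.symm b2) (Ne.symm b4) ha
      (fun h => ha (hinj h).symm) (Ne.symm b3) (h3 a ha) (fun h => ha (hinj (hinj h))) (Ne.symm b5) ?_ ?_ hb
    · intro h
      apply b1
      rw [← h]; simp
    · intro h
      exact b3 (hinj h)
  · push Not at h2
    obtain ⟨a, ha, -⟩ := hpick ∅ (by simp)
    obtain ⟨b, hb, hbE⟩ := hpick {a, c a} (lt_of_le_of_lt Finset.card_le_two (by norm_num))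
    obtain ⟨d, hd, hdE⟩ := hpick {a, c a, b, c b} (lt_of_le_of_lt Finset.card_le_four (by norm_num))
    simp only [Finset.mem_insert, Finset.mem_singleton, not_or] at hbE hdE
    obtain ⟨b1, b2⟩ := hbE
    obtain ⟨d1, d2, d3, d4⟩ := hdE
    refine of_disjoint c (a := a) (b := b) (d := d) (Ne.symm b1) (Ne.symm d1) (Ne.symm d3) ha
      (Ne.symm b2) (Ne.symm d2) ?_ hb (Ne.symm d4) ?_ ?_ hd
    · intro h
      apply b2
      rw [← h, h2]
    · intro h
      apply d2
      rw [← h, h2]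
    · intro h
      apply d4
      rw [← h, h2]

/-- In the symmetric group of degree 8, let A be the subgroup generated by a 3-cycle. Then every conjugacy class contains an element g for which A is subnormal in the subgroup generated by A and its conjugate by g, although O_3 of the symmetric group of degree 8 is trivial. -/
theorem result
    (σ : Equiv.Perm (Fin 8)) (hσ : σ.IsThreeCycle) :
    (∀ c : Equiv.Perm (Fin 8), ∃ g : Equiv.Perm (Fin 8), IsConj c g ∧
      ((Subgroup.zpowers σ).subgroupOf (Subgroup.zpowers σ ⊔ MulAut.conj g • Subgroup.zpowers σ)).IsSubnormal) ∧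
    Cfsg.pCore 3 (Equiv.Perm (Fin 8)) = ⊥ := by
  constructor
  · intro c
    obtain ⟨τ, hτ, hcomm⟩ := exists_cycle c
    have hconj : IsConj τ σ := by
      rw [Equiv.Perm.isConj_iff_cycleType_eq, hτ.cycleType, hσ.cycleType]
    obtain ⟨ρ, hρ⟩ := isConj_iff.mp hconj
    refine ⟨ρ * c * ρ⁻¹, isConj_iff.mpr ⟨ρ, rfl⟩, ?_⟩
    have h1 : (ρ * c * ρ⁻¹) * σ * (ρ * c * ρ⁻¹)⁻¹ = ρ * (c * τ * c⁻¹) * ρ⁻¹ := by
      rw [← hρ]; group
    have h2 : Commute σ ((ρ * c * ρ⁻¹) * σ * (ρ * c * ρ⁻¹)⁻¹) := by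
      rw [h1, ← hρ]
      have h3 : τ * (c * τ * c⁻¹) = (c * τ * c⁻¹) * τ := hcomm
      change (ρ * τ * ρ⁻¹) * (ρ * (c * τ * c⁻¹) * ρ⁻¹) = (ρ * (c * τ * c⁻¹) * ρ⁻¹) * (ρ * τ * ρ⁻¹)
      calc (ρ * τ * ρ⁻¹) * (ρ * (c * τ * c⁻¹) * ρ⁻¹) = ρ * (τ * (c * τ * c⁻¹)) * ρ⁻¹ := by group
        _ = ρ * ((c * τ * c⁻¹) * τ) * ρ⁻¹ := by rw [h3]
        _ = _ := by group
    set g := ρ * c * ρ⁻¹ with hg
    have hle : Subgroup.zpowers σ ⊔ MulAut.conj g • Subgroup.zpowers σ ≤
        Subgroup.normalizer (Subgroup.zpowers σ : Set (Perm (Fin 8))) := by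
      refine le_trans ?_ (Subgroup.centralizer_le_normalizer _)
      refine sup_le ?_ ?_
      · rw [Subgroup.zpowers_le, Subgroup.mem_centralizer_iff]
        intro h hh
        obtain ⟨k, rfl⟩ := Subgroup.mem_zpowers_iff.mp hh
        exact (Commute.refl σ).zpow_left k
      · intro x hx
        rw [Subgroup.mem_pointwise_smul_iff_inv_smul_mem, ← map_inv, MulAut.smul_def,
          MulAut.conj_apply, inv_inv] at hx
        obtain ⟨j, hj⟩ := Subgroup.mem_zpowers_iff.mp hx
        have hx' : x = (g * σ * g⁻¹) ^ j := by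
          rw [conj_zpow, hj]; group
        rw [Subgroup.mem_centralizer_iff]
        intro h hh
        obtain ⟨k, rfl⟩ := Subgroup.mem_zpowers_iff.mp hh
        rw [hx']
        exact (h2.zpow_left k).zpow_right j
    haveI := Subgroup.normal_subgroupOf_of_le_normalizer hle
    exact Subgroup.Normal.isSubnormal inferInstance
  · haveI : Fact (Nat.Prime 3) := ⟨Nat.prime_three⟩
    by_contra hne
    haveI := CfsgLib.H7.pCore_normal (G := Perm (Fin 8)) 3
    have hp := CfsgLib.H7.pCore_isPGroup (G := Perm (Fin 8)) 3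
    haveI h2t : MulAction.IsMultiplyPretransitive (Equiv.Perm (Fin 8)) (Fin 8) 2 :=
      Equiv.Perm.isMultiplyPretransitive (Fin 8) 2
    haveI : MulAction.IsPreprimitive (Equiv.Perm (Fin 8)) (Fin 8) :=
      MulAction.isPreprimitive_of_is_two_pretransitive h2t
    haveI htr : MulAction.IsPretransitive (Cfsg.pCore 3 (Equiv.Perm (Fin 8))) (Fin 8) := by
      apply MulAction.IsQuasiPreprimitive.isPretransitive_of_normal
      intro h
      apply hne
      rw [eq_bot_iff]
      intro n hn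
      rw [Subgroup.mem_bot]
      ext y
      have : y ∈ MulAction.fixedPoints (Cfsg.pCore 3 (Equiv.Perm (Fin 8))) (Fin 8) := by
        rw [h]; exact Set.mem_univ y
      exact congrArg _ (this ⟨n, hn⟩)
    have h1 := MulAction.index_stabilizer_of_transitive (Cfsg.pCore 3 (Equiv.Perm (Fin 8))) (0 : Fin 8)
    rw [Nat.card_fin] at h1
    have h2 := Subgroup.index_dvd_card (MulAction.stabilizer (Cfsg.pCore 3 (Equiv.Perm (Fin 8))) (0 : Fin 8))
    rw [h1] at h2
    obtain ⟨n, hn⟩ := IsPGroup.iff_card.mp hp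
    rw [hn] at h2
    have h3 : 2 ∣ 3 ^ n := (by norm_num : 2 ∣ 8).trans h2
    have h4 := Nat.prime_two.dvd_of_dvd_pow h3
    norm_num at h4

end Cfsg.Agent.S4332
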