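import Cfsg.Statements.S4333
import Mathlib
import Cfsg.Agent.LibFgZip
import Cfsg.Agent.LibCoprime

set_option autoImplicit false
open Pointwise
open Cfsg

namespace Cfsg.Agent.S4333

open scoped Pointwise

/-- restriction of the hypothesis to a subgroup `K ≥ A`. -/
theorem restrict {G : Type*} [Group G] (A K : Subgroup G) (hAK : A ≤ K)
    (h : ∀ a ∈ A, ∀ g : G, (A.subgroupOf (A ⊔ MulAut.conj (g⁻¹ * a * g) • A)).IsSubnormal) :
    ∀ a ∈ A.subgroupOf K, ∀ g : K, ((A.subgroupOf K).subgroupOf
      (A.subgroupOf K ⊔ MulAut.conj (g⁻¹ * a * g) • A.subgroupOf K)).IsSubnormal := by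
  intro a ha g
  have h1 := h a.1 ha g.1
  set J := A.subgroupOf K ⊔ MulAut.conj (g⁻¹ * a * g) • A.subgroupOf K with hJ
  set J' := A ⊔ MulAut.conj ((g : G)⁻¹ * a * g) • A with hJ'
  have hle : J ≤ J'.subgroupOf K := by
    rw [hJ, sup_le_iff]
    constructor
    · exact Subgroup.comap_mono le_sup_left
    · rintro x hx
      rw [Subgroup.mem_subgroupOf]
      apply (le_sup_right : _ ≤ J')
      rw [Subgroup.mem_pointwise_smul_iff_inv_smul_mem] at hx ⊢
      exact hx
  let f : J →* J' := (K.subtype.comp J.subtype).codRestrict J' (fun x => hle x.2)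
  have h2 := h1.comap f
  have e : (A.subgroupOf J').comap f = (A.subgroupOf K).subgroupOf J := by
    ext x
    rfl
  rwa [e] at h2

universe u in
theorem main : ∀ (n : ℕ) (G : Type u) [Group G] [Finite G] (A : Subgroup G), Nat.card G = n →
    (∀ a ∈ A, ∀ g : G, (A.subgroupOf (A ⊔ MulAut.conj (g⁻¹ * a * g) • A)).IsSubnormal) →
    A.IsSubnormal := by
  intro n
  induction n using Nat.strong_induction_on with
  | _ n ih =>
  intro G _ _ A hn h
  by_cases hA : A = ⊤
  · rw [hA]; exact Subgroup.IsSubnormal.top
  -- A is subnormal in all proper overgroups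
  have hsub : ∀ K : Subgroup G, A ≤ K → K ≠ ⊤ → (A.subgroupOf K).IsSubnormal := by
    intro K hAK hK
    refine ih (Nat.card K) ?_ K (A.subgroupOf K) rfl (restrict A K hAK h)
    rw [← hn]
    have h1 := Subgroup.card_le_card_group K
    have h2 : Nat.card K ≠ Nat.card G := fun h' => hK (Subgroup.eq_top_of_card_eq K h')
    omega
  by_cases hN : Subgroup.normalClosure (A : Set G) = ⊤
  · have hY : CfsgLib.FgZip.Yof A ≠ ⊤ := by
      rw [CfsgLib.FgZip.Yof_eq]
      intro h'
      apply hA
      rw [← top_le_iff, ← h']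
      apply sSup_le
      rintro H ⟨h1, h2, h3⟩
      rcases (hsub H h1 h2).lt_normal with h4 | ⟨K, h4, h5, h6⟩
      · exact Subgroup.subgroupOf_eq_top.mp h4
      · exfalso
        haveI := h4
        have := Subgroup.normalClosure_le_normal (N := K) (s := ((A.subgroupOf H : Subgroup H) : Set H)) h5
        rw [h3] at this
        exact not_lt_of_ge this h6
    obtain ⟨M, ⟨hM, hAM⟩, huniq⟩ := CfsgLib.FgZip.existsUnique_coatom A hA hN hY
    by_contra hcon
    have key : ∀ a ∈ A, ∀ g : G, MulAut.conj (g⁻¹ * a * g) • A ≤ M := by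
      intro a ha g
      by_cases ht : A ⊔ MulAut.conj (g⁻¹ * a * g) • A = ⊤
      · exfalso
        apply hcon
        have := h a ha g
        rw [ht] at this
        exact Subgroup.IsSubnormal.trans le_top this Subgroup.IsSubnormal.top
      · rcases eq_top_or_exists_le_coatom (A ⊔ MulAut.conj (g⁻¹ * a * g) • A) with h' | ⟨L, hL, hL'⟩
        · exact absurd h' ht
        · have := huniq L ⟨hL, le_sup_left.trans hL'⟩
          rw [← this]
          exact le_sup_right.trans hL'
    have key2 : ∀ a ∈ A, ∀ g : G, MulAut.conj (g⁻¹ * a * g) • M = M := by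
      intro a ha g
      apply huniq
      refine ⟨?_, ?_⟩
      · exact CfsgLib.FgSub.isCoatom_cj (g := g⁻¹ * a * g) hM
      · have := key a⁻¹ (A.inv_mem ha) g
        rw [show g⁻¹ * a⁻¹ * g = (g⁻¹ * a * g)⁻¹ by group, map_inv] at this
        rwa [Subgroup.pointwise_smul_subset_iff, inv_inv] at this
    have hMn : Subgroup.normalizer (M : Set G) = ⊤ := by
      rw [← top_le_iff, ← hN]
      apply Subgroup.closure_le _ |>.2
      intro x hx
      rw [Group.mem_conjugatesOfSet_iff] at hx
      obtain ⟨a, ha, hx⟩ := hx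
      obtain ⟨c, hc⟩ := isConj_iff.mp hx
      have := key2 a ha c⁻¹
      rw [inv_inv, hc] at this
      rw [SetLike.mem_coe]
      exact CfsgLib.Coprime.mem_normalizer_iff_conj_smul.2 this
    have hMn' : M.Normal := Subgroup.normalizer_eq_top_iff.mp hMn
    exact hcon (Subgroup.IsSubnormal.trans hAM (hsub M hAM hM.1) hMn'.isSubnormal)
  · have h1 : A ≤ Subgroup.normalClosure (A : Set G) := Subgroup.subset_normalClosure
    exact Subgroup.IsSubnormal.trans h1 (hsub _ h1 hN)
      (Subgroup.normalClosure_normal (s := (A : Set G))).isSubnormal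

/-- Let A be a subgroup of a finite group G. If A is subnormal in the subgroup generated by A and its conjugate by g⁻¹ a g, for every a ∈ A and every g ∈ G, then A is subnormal in G. (A sharpening of Wielandt's subnormality criterion: only conjugates of A by conjugates of elements of A are needed.) -/
theorem result {G : Type*} [Group G] [Finite G]
    (A : Subgroup G)
    (h : ∀ a ∈ A, ∀ g : G, (A.subgroupOf (A ⊔ MulAut.conj (g⁻¹ * a * g) • A)).IsSubnormal) :
    A.IsSubnormal := by
  exact main (Nat.card G) G A rfl h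

end Cfsg.Agent.S4333
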