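import Cfsg.Statements.S4334
import Mathlib
import Cfsg.Agent.LibTransPC
import Cfsg.Agent.LibFgBas
import Cfsg.Agent.LibFgElt
import Cfsg.Agent.LibH7Hall
import Cfsg.Agent.LibH7Basic

set_option autoImplicit false
open Cfsg

namespace Cfsg.Agent.S4334

open Subgroup
open scoped Pointwise

/-- `p`-elements commute with `p'`-elements -/
def Com {G : Type*} [Group G] (p : ℕ) (L : Subgroup G) : Prop :=
  ∀ x ∈ L, ∀ y ∈ L, (∃ k, orderOf x = p ^ k) → (orderOf y).Coprime p → x * y = y * x

theorem conj_in {G : Type*} [Group G] [Finite G] {p : ℕ} [Fact p.Prime] {A S D : Subgroup G} (hAD : A ≤ D)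
    (hSD : S ≤ D) (hA : IsPGroup p A) (hS : IsPGroup p S) (hidx : ¬ p ∣ A.relIndex D) :
    ∃ c ∈ D, ∀ s ∈ S, c * s * c⁻¹ ∈ A := by
  obtain ⟨T, hT⟩ := CfsgLib.H7Hall.IsSyl.exists_sylow ⟨hAD, hA, hidx⟩
  obtain ⟨g, hg⟩ := CfsgLib.FgBas.exists_conj_le T (H := S.subgroupOf D) (hS.comap_of_injective D.subtype D.subtype_injective)
  refine ⟨g, g.2, fun s hs => ?_⟩
  have := hg ⟨s, hSD hs⟩ hs
  rw [hT] at this
  exact this

theorem exists_mul_of_npc {G : Type*} [Group G] [Finite G] {p : ℕ} [Fact p.Prime] {N : Subgroup G}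
    (h : CfsgLib.TransPC.IsNPC p N) (S : Sylow p G) (g : G) : ∃ c ∈ N, ∃ s ∈ (S : Subgroup G), g = c * s := by
  have h1 := h.isComplement' S
  obtain ⟨⟨c, s⟩, hcs⟩ := h1.2 g
  exact ⟨c, c.2, s, s.2, hcs.symm⟩

/-- Let σ and τ be disjoint sets of primes with union π. Suppose a finite group G has a Hall π-subgroup H which is the direct product of a nilpotent σ-subgroup and a τ-subgroup (two elementwise-commuting subgroups generating H), and that the maximal τ-subgroups of G are pairwise conjugate. Then the maximal π-subgroups of G are pairwise conjugate. -/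
theorem result {G : Type*} [Group G] [Finite G]
    (σ τ π : Set ℕ) (hπ : π = σ ∪ τ) (hd : Disjoint σ τ) (H Hs Ht : Subgroup G) (hH : Cfsg.IsPiHall π H)
    (hs : Cfsg.IsPiSubgroup σ Hs) (ht : Cfsg.IsPiSubgroup τ Ht) (hsn : Group.IsNilpotent Hs)
    (hjoin : Hs ⊔ Ht = H) (hcomm : ∀ a ∈ Hs, ∀ b ∈ Ht, a * b = b * a) (hD : Cfsg.IsDPiGroup τ G) :
    Cfsg.IsDPiGroup π G := by
  classical
  subst hπ
  -- elements of H
  have hmemH : ∀ x ∈ H, ∃ a ∈ Hs, ∃ b ∈ Ht, x = a * b := by
    intro x hx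
    rw [← hjoin] at hx
    have hle : Hs ≤ Subgroup.normalizer (Ht : Set G) := by
      intro a ha
      rw [Subgroup.mem_normalizer_iff]
      intro b
      constructor
      · intro hb
        have : a * b * a⁻¹ = b := by rw [hcomm a ha b hb]; group
        rw [this]; exact hb
      · intro hb
        have h1 := hcomm a ha _ hb
        have h2 : b = a⁻¹ * (a * b * a⁻¹) * a := by group
        rw [h2]
        have h3 : a⁻¹ * (a * b * a⁻¹) * a = a * b * a⁻¹ := by
          have h4 : a⁻¹ * (a * b * a⁻¹) = (a * b * a⁻¹) * a⁻¹ := by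
            have := hcomm a⁻¹ (Hs.inv_mem ha) _ hb
            exact this
          rw [h4]; group
        rw [h3]; exact hb
    have := Subgroup.coe_mul_of_left_le_normalizer_right Hs Ht hle
    have hx' : x ∈ ((Hs : Set G) * (Ht : Set G)) := by rw [← this]; exact hx
    obtain ⟨a, ha, b, hb, rfl⟩ := hx'
    exact ⟨a, ha, b, hb, rfl⟩
  have hsH : Hs ≤ H := by rw [← hjoin]; exact le_sup_left
  have htH : Ht ≤ H := by rw [← hjoin]; exact le_sup_right
  have hcop : (Nat.card Hs).Coprime (Nat.card Ht) := by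
    by_contra hc
    obtain ⟨r, hr, h1, h2⟩ := Nat.Prime.not_coprime_iff_dvd.1 hc
    exact Set.disjoint_left.1 hd (hs r hr h1) (ht r hr h2)
  have hinf : Hs ⊓ Ht = ⊥ := by
    rw [← Subgroup.card_eq_one]
    exact Nat.eq_one_of_dvd_coprimes hcop (Subgroup.card_dvd_of_le inf_le_left) (Subgroup.card_dvd_of_le inf_le_right)
  -- H_t is a maximal τ-subgroup
  have hcardH : Nat.card H = Nat.card Hs * Nat.card Ht := by
    have h1 : Nat.card H ∣ Nat.card Hs * Nat.card Ht := by
      have : Nat.card H ≤ Nat.card Hs * Nat.card Ht := by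
        let F : Hs × Ht → H := fun ab => ⟨ab.1 * ab.2, H.mul_mem (hsH ab.1.2) (htH ab.2.2)⟩
        have hF : Function.Surjective F := by
          rintro ⟨x, hx⟩
          obtain ⟨a, ha, b, hb, rfl⟩ := hmemH x hx
          exact ⟨(⟨a, ha⟩, ⟨b, hb⟩), rfl⟩
        rw [← Nat.card_prod]
        exact Nat.card_le_card_of_surjective F hF
      have h3 : Nat.card Hs * Nat.card Ht ∣ Nat.card H :=
        Nat.Coprime.mul_dvd_of_dvd_of_dvd hcop (Subgroup.card_dvd_of_le hsH) (Subgroup.card_dvd_of_le htH)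
      rw [le_antisymm this (Nat.le_of_dvd Nat.card_pos h3)]
    exact Nat.dvd_antisymm h1 (Nat.Coprime.mul_dvd_of_dvd_of_dvd hcop (Subgroup.card_dvd_of_le hsH) (Subgroup.card_dvd_of_le htH))
  have htidx : ∀ r : ℕ, r.Prime → r ∈ τ → ¬ r ∣ Ht.index := by
    intro r hr hrτ hdvd
    have h1 : Ht.index = Nat.card Hs * H.index := by
      have h2 := Subgroup.relIndex_mul_index htH
      have h3 : Ht.relIndex H = Nat.card Hs := by
        have h4 := CfsgLib.H7.card_mul_relIndex htH
        rw [hcardH, mul_comm (Nat.card Hs)] at h4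
        exact Nat.eq_of_mul_eq_mul_left Nat.card_pos h4
      rw [← h2, h3]
    rw [h1] at hdvd
    rcases (Nat.Prime.dvd_mul hr).1 hdvd with h | h
    · exact Set.disjoint_left.1 hd (hs r hr h) hrτ
    · exact hH.2 r hr (Or.inr hrτ) h
  have htmax : Maximal (Cfsg.IsPiSubgroup τ) Ht := by
    refine ⟨ht, fun M hM hle => ?_⟩
    have h1 : Ht.relIndex M = 1 := by
      by_contra hne
      obtain ⟨r, hr, hrd⟩ := Nat.exists_prime_and_dvd hne
      have h2 : r ∣ Nat.card M := hrd.trans (by rw [← CfsgLib.H7.card_mul_relIndex hle]; exact Dvd.intro_left _ rfl)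
      exact htidx r hr (hM r hr h2) (hrd.trans (by rw [← Subgroup.relIndex_mul_index hle]; exact Dvd.intro _ rfl))
    exact Subgroup.relIndex_eq_one.1 h1
  have htau : ∀ T : Subgroup G, Cfsg.IsPiSubgroup τ T → ∃ x : G, ∀ t ∈ T, x⁻¹ * t * x ∈ H := by
    intro T hT
    obtain ⟨M, hTM, hM⟩ := Set.Finite.exists_le_maximal (s := {K : Subgroup G | Cfsg.IsPiSubgroup τ K}) (Set.toFinite _) hT
    obtain ⟨g, hg⟩ := hD Ht M htmax hM
    refine ⟨g, fun t htt => ?_⟩
    have h1 := hTM htt
    rw [hg] at h1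
    obtain ⟨y, hy, hyt⟩ := h1
    have : g⁻¹ * t * g = y := by
      rw [← hyt]
      change g⁻¹ * (g * y * g⁻¹) * g = y
      group
    rw [this]
    exact htH hy
  -- property Com for H
  have hComH : ∀ p : ℕ, p.Prime → p ∈ σ → Com p H := by
    intro p hp hpσ x hx y hy ⟨k, hk⟩ hyc
    obtain ⟨a, ha, b, hb, rfl⟩ := hmemH x hx
    obtain ⟨c, hc, d, hd', rfl⟩ := hmemH y hy
    have hab := hcomm a ha b hb
    have hcd := hcomm c hc d hd'
    have hpt : ¬ p ∣ Nat.card Ht := fun h => Set.disjoint_left.1 hd hpσ (ht p hp h)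
    have key : ∀ (u : G) (_ : u ∈ Hs) (v : G) (_ : v ∈ Ht) (n : ℕ), (u * v) ^ n = 1 → u ^ n = 1 ∧ v ^ n = 1 := by
      intro u hu v hv n h
      rw [Commute.mul_pow (hcomm u hu v hv)] at h
      have h1 : u ^ n ∈ Hs ⊓ Ht := by
        refine ⟨Hs.pow_mem hu n, ?_⟩
        rw [eq_inv_of_mul_eq_one_left h]
        exact Ht.inv_mem (Ht.pow_mem hv n)
      rw [hinf, Subgroup.mem_bot] at h1
      rw [h1, one_mul] at h
      exact ⟨h1, h⟩
    have h1 := key a ha b hb (p ^ k) (by rw [← hk]; exact pow_orderOf_eq_one _)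
    have hb1 : b = 1 := by
      have h2 : orderOf b ∣ p ^ k := orderOf_dvd_of_pow_eq_one h1.2
      have h3 : orderOf b ∣ Nat.card Ht := Subgroup.orderOf_dvd_natCard Ht hb
      have h4 : (p ^ k).Coprime (Nat.card Ht) := Nat.Coprime.pow_left _ ((Nat.Prime.coprime_iff_not_dvd hp).2 hpt)
      exact orderOf_eq_one_iff.1 (Nat.eq_one_of_dvd_coprimes h4 h2 h3)
    subst hb1
    rw [mul_one]
    have h2 := key c hc d hd' (orderOf (c * d)) (pow_orderOf_eq_one _)
    have h3 : a * c = c * a := by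
      apply CfsgLib.FgElt.commute_of_nilpotent hsn ha hc
      have h5 : orderOf a ∣ p ^ k := orderOf_dvd_of_pow_eq_one h1.1
      have h6 : orderOf c ∣ orderOf (c * d) := orderOf_dvd_of_pow_eq_one h2.1
      exact Nat.Coprime.coprime_dvd_left h5 (Nat.Coprime.coprime_dvd_right h6 (Nat.Coprime.pow_left _ hyc.symm))
    have h4 := hcomm a ha d hd'
    calc a * (c * d) = (a * c) * d := by group
      _ = c * (a * d) := by rw [h3]; group
      _ = c * d * a := by rw [h4]; group
  -- main claim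
  have main : ∀ n : ℕ, ∀ K : Subgroup G, Nat.card K = n → Cfsg.IsPiSubgroup (σ ∪ τ) K → ∃ x : G, ∀ k ∈ K, x⁻¹ * k * x ∈ H := by
    intro n
    induction n using Nat.strong_induction_on with
    | _ n ih =>
    intro K hKn hK
    by_cases hτ : Cfsg.IsPiSubgroup τ K
    · exact htau K hτ
    unfold Cfsg.IsPiSubgroup at hτ
    push Not at hτ
    obtain ⟨p, hp, hpK, hpτ⟩ := hτ
    have hpσ : p ∈ σ := (hK p hp hpK).resolve_right hpτ
    haveI : Fact p.Prime := ⟨hp⟩
    have hComL : ∀ L : Subgroup G, L < K → Com p L := by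
      intro L hL
      have hlt : Nat.card L < n := by
        rw [← hKn]
        exact Set.ncard_lt_ncard (s := (L : Set G)) (t := (K : Set G)) hL (Set.toFinite _)
      obtain ⟨x, hx⟩ := ih _ hlt L rfl (fun r hr hd => hK r hr (hd.trans (Subgroup.card_dvd_of_le hL.le)))
      intro u hu v hv ⟨k, hk⟩ hvc
      have h1 := hComH p hp hpσ _ (hx u hu) _ (hx v hv) ⟨k, ?_⟩ ?_
      · have h2 : x⁻¹ * (u * v) * x = x⁻¹ * (v * u) * x := by
          calc x⁻¹ * (u * v) * x = (x⁻¹ * u * x) * (x⁻¹ * v * x) := by group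
            _ = (x⁻¹ * v * x) * (x⁻¹ * u * x) := h1
            _ = _ := by group
        have h3 := mul_right_cancel h2
        exact mul_left_cancel h3
      · have : orderOf (x⁻¹ * u * x) = orderOf u := by
          have := (MulAut.conj x⁻¹).orderOf_eq u
          rwa [MulAut.conj_apply, inv_inv] at this
        rw [this, hk]
      · have : orderOf (x⁻¹ * v * x) = orderOf v := by
          have := (MulAut.conj x⁻¹).orderOf_eq v
          rwa [MulAut.conj_apply, inv_inv] at this
        rw [this]; exact hvc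
    -- Sylow p-subgroup of H and p-complement of H
    obtain ⟨A', hA'⟩ : ∃ A' : Sylow p H, True := ⟨default, trivial⟩
    set A : Subgroup G := (A' : Subgroup H).map H.subtype with hAdef
    have hAH : A ≤ H := Subgroup.map_subtype_le _
    have hAp : IsPGroup p A := A'.isPGroup'.map _
    have hAidx : ¬ p ∣ A.index := by
      have h1 : A.relIndex H = (A' : Subgroup H).index := by
        rw [hAdef, Subgroup.relIndex, Subgroup.subgroupOf, Subgroup.comap_map_eq_self_of_injective H.subtype_injective]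
      rw [← Subgroup.relIndex_mul_index hAH, h1]
      intro h
      rcases (Nat.Prime.dvd_mul hp).1 h with h | h
      · exact A'.not_dvd_index h
      · exact hH.2 p hp (Or.inl hpσ) h
    let P : Sylow p G := hAp.toSylow hAidx
    have hFH : CfsgLib.TransPC.FrobCond p H := by
      intro Q hQ g hg ho
      rw [Subgroup.mem_centralizer_iff]
      intro y hy
      obtain ⟨k, hk⟩ := IsPGroup.iff_orderOf.1 hQ ⟨y, hy⟩
      have h1 := hComH p hp hpσ y y.2 g g.2 ⟨k, by rw [Subgroup.orderOf_coe]; rw [Subgroup.orderOf_mk] at hk; exact hk⟩ (by rw [Subgroup.orderOf_coe]; exact ho)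
      exact Subtype.ext h1
    obtain ⟨B', hB'⟩ := CfsgLib.TransPC.FrobCond.exists_isNPC p _ H rfl hFH
    set B : Subgroup G := B'.map H.subtype with hBdef
    have hBH : B ≤ H := Subgroup.map_subtype_le _
    have hBidx : ∀ r : ℕ, r.Prime → r ∈ σ ∪ τ → r ≠ p → ¬ r ∣ B.index := by
      intro r hr hrπ hrp h
      have h1 : B.relIndex H = B'.index := by
        rw [hBdef, Subgroup.relIndex, Subgroup.subgroupOf, Subgroup.comap_map_eq_self_of_injective H.subtype_injective]
      rw [← Subgroup.relIndex_mul_index hBH, h1] at h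
      obtain ⟨j, hj⟩ := hB'.2.2
      rcases (Nat.Prime.dvd_mul hr).1 h with h | h
      · rw [hj] at h
        exact hrp ((Nat.prime_dvd_prime_iff_eq hr hp).1 (hr.dvd_of_dvd_pow h))
      · exact hH.2 r hr hrπ h
    have hAB : ∀ a ∈ A, ∀ b ∈ B, a * b = b * a := by
      rintro a ha b ⟨b', hb', rfl⟩
      obtain ⟨k, hk⟩ := IsPGroup.iff_orderOf.1 hAp ⟨a, ha⟩
      refine hComH p hp hpσ a (hAH ha) b' b'.2 ⟨k, by rw [Subgroup.orderOf_mk] at hk; exact hk⟩ ?_
      rw [Subgroup.orderOf_coe]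
      exact (hB'.mem_iff b').1 hb'
    -- Frobenius condition for K
    have hFK : CfsgLib.TransPC.FrobCond p K := by
      intro Q' hQ' g hg ho
      by_contra hgc
      set Q : Subgroup G := Q'.map K.subtype with hQdef
      have hQp : IsPGroup p Q := hQ'.map _
      have hQK : Q ≤ K := Subgroup.map_subtype_le _
      have hgN : (g : G) ∈ Subgroup.normalizer (Q : Set G) := by
        rw [Subgroup.mem_normalizer_iff] at hg ⊢
        intro x
        constructor
        · rintro ⟨y, hy, rfl⟩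
          exact ⟨g * y * g⁻¹, (hg y).1 hy, rfl⟩
        · rintro ⟨y, hy, hyx⟩
          have h2 : x = ((g⁻¹ * y * g : K) : G) := by
            change x = (g : G)⁻¹ * (y : G) * g
            have : (y : G) = g * x * (g : G)⁻¹ := hyx
            rw [this]; group
          refine ⟨g⁻¹ * y * g, ?_, h2.symm⟩
          rw [SetLike.mem_coe, hg]
          have : g * (g⁻¹ * y * g) * g⁻¹ = y := by group
          rw [this]; exact hy
      have hgn : ¬ (∀ q ∈ Q, q * (g : G) = (g : G) * q) := by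
        intro h
        apply hgc
        rw [Subgroup.mem_centralizer_iff]
        intro y hy
        exact Subtype.ext (h y ⟨y, hy, rfl⟩)
      -- N and D
      set N := Subgroup.normalizer (Q : Set G) with hN
      set D := Subgroup.centralizer (Q : Set G) with hD'
      have hDN : D ≤ N := Subgroup.centralizer_le_normalizer _
      obtain ⟨x, hx⟩ := CfsgLib.FgBas.exists_conj_le P hQp
      -- x Q x⁻¹ ≤ A
      have hBD : ∀ b ∈ B, x⁻¹ * b * x ∈ D := by
        intro b hb
        rw [hD', Subgroup.mem_centralizer_iff]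
        intro q hq
        have h1 : x * q * x⁻¹ * b = b * (x * q * x⁻¹) := hAB _ (hx q hq) b hb
        calc q * (x⁻¹ * b * x) = x⁻¹ * ((x * q * x⁻¹) * b) * x := by group
          _ = x⁻¹ * (b * (x * q * x⁻¹)) * x := by rw [h1]
          _ = _ := by group
      set Bx : Subgroup G := B.map (MulAut.conj x⁻¹).toMonoidHom with hBx
      have hBxD : Bx ≤ D := by
        rintro _ ⟨b, hb, rfl⟩
        have := hBD b hb
        change x⁻¹ * b * x⁻¹⁻¹ ∈ D
        rw [inv_inv]; exact this
      have hBxidx : Bx.index = B.index := by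
        have := Subgroup.index_map_equiv B (MulAut.conj x⁻¹)
        exact this
      have hcopr : (orderOf (g : G)).Coprime (D.relIndex N) := by
        by_contra hc
        obtain ⟨r, hr, h1, h2⟩ := Nat.Prime.not_coprime_iff_dvd.1 hc
        have h3 : r ≠ p := by
          rintro rfl
          rw [Subgroup.orderOf_coe] at h1
          have := Nat.Prime.coprime_iff_not_dvd hp |>.1 ho.symm
          exact this h1
        have h4 : r ∈ σ ∪ τ := hK r hr (h1.trans (by rw [Subgroup.orderOf_coe]; exact orderOf_dvd_natCard g))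
        apply hBidx r hr h4 h3
        rw [← hBxidx]
        have h5 : D.relIndex N ∣ Bx.relIndex N := Dvd.intro_left _ (Subgroup.relIndex_mul_relIndex Bx D N hBxD hDN)
        exact (h2.trans h5).trans (Subgroup.relIndex_dvd_index_of_le (hBxD.trans hDN))
      have hgD : (g : G) ∈ D := by
        have h1 : (g : G) ^ (D.relIndex N) ∈ D := by
          have h2 := Subgroup.pow_index_mem (D.subgroupOf N) (⟨g, hgN⟩ : N)
          exact h2
        exact CfsgLib.FgBas.mem_of_pow_mem h1 hcopr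
      apply hgn
      intro q hq
      exact Subgroup.mem_centralizer_iff.1 hgD q hq
    obtain ⟨C', hC'⟩ := CfsgLib.TransPC.FrobCond.exists_isNPC p _ K rfl hFK
    set C : Subgroup G := C'.map K.subtype with hCdef
    have hCK : C ≤ K := Subgroup.map_subtype_le _
    have hCp : ¬ p ∣ Nat.card C := by
      rw [hCdef, Subgroup.card_map_of_injective K.subtype_injective]
      exact hC'.2.1
    have hClt : Nat.card C < n := by
      rw [← hKn]
      have h1 : Nat.card C ≠ Nat.card K := fun h => hCp (h ▸ hpK)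
      exact lt_of_le_of_ne (Nat.le_of_dvd Nat.card_pos (Subgroup.card_dvd_of_le hCK)) h1
    obtain ⟨x, hx⟩ := ih _ hClt C rfl (fun r hr hd => hK r hr (hd.trans (Subgroup.card_dvd_of_le hCK)))
    -- conjugate of C in H
    set C1 : Subgroup G := C.map (MulAut.conj x⁻¹).toMonoidHom with hC1
    have hC1H : C1 ≤ H := by
      rintro _ ⟨c, hc, rfl⟩
      have := hx c hc
      change x⁻¹ * c * x⁻¹⁻¹ ∈ H
      rw [inv_inv]; exact this
    have hC1p : ¬ p ∣ Nat.card C1 := by
      rw [hC1, Subgroup.card_map_of_injective (MulAut.conj x⁻¹).injective]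
      exact hCp
    obtain ⟨S', -⟩ : ∃ S' : Sylow p K, True := ⟨default, trivial⟩
    set S : Subgroup G := ((S' : Subgroup K).map K.subtype).map (MulAut.conj x⁻¹).toMonoidHom with hSdef
    have hSp : IsPGroup p S := (S'.isPGroup'.map _).map _
    set D := Subgroup.centralizer (C1 : Set G) with hD'
    set N := Subgroup.normalizer (C1 : Set G) with hN
    have hDN : D ≤ N := Subgroup.centralizer_le_normalizer _
    have hAD : A ≤ D := by
      intro a ha
      rw [hD', Subgroup.mem_centralizer_iff]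
      intro c hc
      obtain ⟨k, hk⟩ := IsPGroup.iff_orderOf.1 hAp ⟨a, ha⟩
      refine (hComH p hp hpσ a (hAH ha) c (hC1H hc) ⟨k, by rw [Subgroup.orderOf_mk] at hk; exact hk⟩ ?_).symm
      have h1 : orderOf c ∣ Nat.card C1 := Subgroup.orderOf_dvd_natCard C1 hc
      exact Nat.Coprime.coprime_dvd_left h1 ((Nat.Prime.coprime_iff_not_dvd hp).2 hC1p).symm
    have hSN : S ≤ N := by
      rintro _ ⟨_, ⟨s, hs', rfl⟩, rfl⟩
      rw [hN, Subgroup.mem_normalizer_iff]
      haveI := hC'.1
      have hKn : ∀ (k : K) (c : G), c ∈ C → (k : G) * c * (k : G)⁻¹ ∈ C := by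
        rintro k _ ⟨c, hc, rfl⟩
        exact ⟨k * c * k⁻¹, hC'.1.conj_mem c hc k, rfl⟩
      have h5 : ∀ (f : G →* G) (k : K) (c : G), c ∈ C.map f → f (k : G) * c * (f (k : G))⁻¹ ∈ C.map f := by
        rintro f k _ ⟨c, hc, rfl⟩
        refine ⟨(k : G) * c * (k : G)⁻¹, hKn k c hc, ?_⟩
        rw [map_mul, map_mul, map_inv]
      obtain ⟨f, hf⟩ : ∃ f : G →* G, f = (MulAut.conj x⁻¹).toMonoidHom := ⟨_, rfl⟩
      rw [hC1, ← hf]
      intro c
      constructor
      · intro hc; exact h5 f s c hc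
      · intro hc
        have h6 := h5 f s⁻¹ _ hc
        have h7 : f ((s⁻¹ : K) : G) = (f (s : G))⁻¹ := by rw [Subgroup.coe_inv, map_inv]
        rw [h7] at h6
        have h8 : (f (s : G))⁻¹ * (f (s : G) * c * (f (s : G))⁻¹) * ((f (s : G))⁻¹)⁻¹ = c := by group
        rw [show (f (s : G))⁻¹ * (f (K.subtype s) * c * (f (K.subtype s))⁻¹) * ((f (s : G))⁻¹)⁻¹ = c from h8] at h6
        exact h6
    have hSD : S ≤ D := by
      intro s hs'
      have h1 : s ^ (D.relIndex N) ∈ D := by
        have h2 := Subgroup.pow_index_mem (D.subgroupOf N) (⟨s, hSN hs'⟩ : N)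
        exact h2
      refine CfsgLib.FgBas.mem_of_pow_mem h1 ?_
      obtain ⟨k, hk⟩ := IsPGroup.iff_orderOf.1 hSp ⟨s, hs'⟩
      rw [Subgroup.orderOf_mk] at hk
      rw [hk]
      apply Nat.Coprime.pow_left
      rw [Nat.Prime.coprime_iff_not_dvd hp]
      intro h
      apply hAidx
      have h5 : D.relIndex N ∣ A.relIndex N := Dvd.intro_left _ (Subgroup.relIndex_mul_relIndex A D N hAD hDN)
      exact (h.trans h5).trans (Subgroup.relIndex_dvd_index_of_le (hAD.trans hDN))
    obtain ⟨c, hcD, hc⟩ := conj_in hAD hSD hAp hSp (fun h => hAidx (h.trans (Subgroup.relIndex_dvd_index_of_le hAD)))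
    refine ⟨x * c⁻¹, fun k hk => ?_⟩
    obtain ⟨c', hc', s', hs', hks⟩ := exists_mul_of_npc hC' S' (⟨k, hk⟩ : K)
    have hks' : k = (c' : G) * (s' : G) := congrArg Subtype.val hks
    have h1 : x⁻¹ * (c' : G) * x ∈ C1 := ⟨c', ⟨c', hc', rfl⟩, by simp⟩
    have h2 : x⁻¹ * (s' : G) * x ∈ S := ⟨s', ⟨s', hs', rfl⟩, by simp⟩
    have h3 : (x⁻¹ * (c' : G) * x) * c = c * (x⁻¹ * (c' : G) * x) := Subgroup.mem_centralizer_iff.1 hcD _ h1
    have h4 : (x * c⁻¹)⁻¹ * k * (x * c⁻¹) = (x⁻¹ * (c' : G) * x) * (c * (x⁻¹ * (s' : G) * x) * c⁻¹) := by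
      rw [hks']
      calc (x * c⁻¹)⁻¹ * ((c' : G) * (s' : G)) * (x * c⁻¹) = (c * (x⁻¹ * (c' : G) * x)) * (x⁻¹ * (s' : G) * x) * c⁻¹ := by group
        _ = ((x⁻¹ * (c' : G) * x) * c) * (x⁻¹ * (s' : G) * x) * c⁻¹ := by rw [h3]
        _ = _ := by group
    rw [h4]
    exact H.mul_mem (hC1H h1) (hAH (hc _ h2))
  -- conclusion
  have hfin : ∀ K : Subgroup G, Maximal (Cfsg.IsPiSubgroup (σ ∪ τ)) K → ∃ g : G, K = H.map (MulAut.conj g).toMonoidHom := by
    intro K hK
    obtain ⟨x, hx⟩ := main _ K rfl hK.1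
    refine ⟨x, ?_⟩
    have h1 : K ≤ H.map (MulAut.conj x).toMonoidHom := by
      intro k hk
      exact ⟨x⁻¹ * k * x, hx k hk, by simp [mul_assoc]⟩
    refine le_antisymm h1 (hK.2 ?_ h1)
    intro r hr hd'
    rw [Subgroup.card_map_of_injective (MulAut.conj x).injective] at hd'
    exact hH.1 r hr hd'
  intro K₁ K₂ h1 h2
  obtain ⟨g₁, hg₁⟩ := hfin K₁ h1
  obtain ⟨g₂, hg₂⟩ := hfin K₂ h2
  refine ⟨g₂ * g₁⁻¹, ?_⟩
  rw [hg₁, hg₂, Subgroup.map_map]
  congr 1
  ext y
  simp [mul_assoc]

end Cfsg.Agent.S4334
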