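import Cfsg.Statements.S4343
import Mathlib
import Cfsg.Agent.LibH7Sylow

set_option autoImplicit false
open Cfsg

namespace Cfsg.Agent.S4343

open CfsgLib.H7

/-- Brodkey: abelian Sylow subgroups: some intersection of two lies in every Sylow subgroup. -/
theorem brodkey {G : Type*} [Group G] [Finite G] {p : ℕ} [hp : Fact p.Prime]
    (hab : ∀ P : Sylow p G, ∀ a ∈ (P : Subgroup G), ∀ b ∈ (P : Subgroup G), a * b = b * a) :
    ∃ P Q : Sylow p G, ∀ R : Sylow p G, (P : Subgroup G) ⊓ Q ≤ R := by
  classical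
  -- minimal intersection
  have hne : ({k : ℕ | ∃ P Q : Sylow p G, Nat.card ↥((P : Subgroup G) ⊓ Q) = k}).Nonempty := by
    obtain ⟨P⟩ : Nonempty (Sylow p G) := inferInstance
    exact ⟨_, P, P, rfl⟩
  obtain ⟨P, Q, hPQ⟩ := Nat.sInf_mem hne
  refine ⟨P, Q, ?_⟩
  have hmin : ∀ R S : Sylow p G, Nat.card ↥((P : Subgroup G) ⊓ Q) ≤ Nat.card ↥((R : Subgroup G) ⊓ S) := by
    intro R S
    rw [hPQ]
    exact Nat.sInf_le ⟨R, S, rfl⟩
  set D := (P : Subgroup G) ⊓ Q with hD
  intro R
  set N := Subgroup.centralizer (D : Set G) with hN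
  have hPN : (P : Subgroup G) ≤ N := by
    intro x hx
    rw [hN, Subgroup.mem_centralizer_iff]
    intro y hy
    exact hab P y (hD ▸ hy : y ∈ D).1 x hx
  have hQN : (Q : Subgroup G) ≤ N := by
    intro x hx
    rw [hN, Subgroup.mem_centralizer_iff]
    intro y hy
    exact hab Q y (hD ▸ hy : y ∈ D).2 x hx
  -- `R ∩ N` lies in a conjugate of `P` by an element of `N`
  have hRN : IsPGroup p ((R : Subgroup G).subgroupOf N) := R.isPGroup'.comap_subtype
  obtain ⟨S, hS⟩ := hRN.exists_le_sylow
  obtain ⟨n, hn⟩ := MulAction.exists_smul_eq N S (P.subtype hPN)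
  -- `n • R ∩ Q ≤ P ∩ Q`
  have h1 : ((((n : G) • R : Sylow p G)) : Subgroup G) ⊓ Q ≤ D := by
    rintro x ⟨hx1, hx2⟩
    refine ⟨?_, hx2⟩
    have hxN : x ∈ N := hQN hx2
    have hx0 : x ∈ ((((n : G) • R : Sylow p G)) : Subgroup G) := hx1
    rw [Sylow.coe_subgroup_smul, Subgroup.mem_pointwise_smul_iff_inv_smul_mem] at hx0
    have hx1' : (n : G)⁻¹ * x * n ∈ (R : Subgroup G) := by simpa using hx0
    have h2 : (n⁻¹ * ⟨x, hxN⟩ * n : N) ∈ (S : Subgroup N) := hS hx1'
    have h3 : (⟨x, hxN⟩ : N) ∈ ((n • S : Sylow p N) : Subgroup N) := by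
      rw [Sylow.coe_subgroup_smul, Subgroup.mem_pointwise_smul_iff_inv_smul_mem]
      simpa using h2
    rw [hn] at h3
    exact h3
  have h2 : ((((n : G) • R : Sylow p G)) : Subgroup G) ⊓ Q = D :=
    Subgroup.eq_of_le_of_card_ge h1 (hmin _ _)
  intro x hx
  have h3 : x ∈ ((((n : G) • R : Sylow p G)) : Subgroup G) := by
    rw [← h2] at hx
    exact hx.1
  rw [Sylow.coe_subgroup_smul, Subgroup.mem_pointwise_smul_iff_inv_smul_mem] at h3
  have h4 : (n : G)⁻¹ * x * n ∈ (R : Subgroup G) := by simpa using h3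
  have h5 : (n : G)⁻¹ * x * n = x := by
    have := (Subgroup.mem_centralizer_iff.mp n.2) x hx
    rw [mul_assoc, this]; group
  rwa [h5] at h4

/-- Let S be a finite non-abelian simple group and p a prime dividing its order. If S has fewer than p² Sylow p-subgroups, then its Sylow p-subgroups have order p. -/
theorem result {S : Type*} [Group S] [Finite S]
    [IsSimpleGroup S] (hS : ¬ IsMulCommutative S) (p : ℕ) [Fact p.Prime] (hp : p ∣ Nat.card S)
    (hn : Nat.card (Sylow p S) < p ^ 2) (P : Sylow p S) : Nat.card P = p := by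
  classical
  -- all intersections have index `p`
  have hPne : ∀ R : Sylow p S, (R : Subgroup S) ≠ ⊤ := by
    intro R hR
    have h1 : IsPGroup p S := by
      have := R.isPGroup'
      rw [hR] at this
      exact this.of_surjective (Subgroup.topEquiv (G := S)).toMonoidHom
        (Subgroup.topEquiv (G := S)).surjective
    haveI := h1.isNilpotent
    have h2 : Group.IsSolvable S := inferInstance
    exact hS ⟨⟨IsSimpleGroup.comm_iff_isSolvable.mpr h2⟩⟩
  have hinfn : (⨅ R : Sylow p S, (R : Subgroup S)) = ⊥ := by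
    have hnorm : (⨅ P : Sylow p S, (P : Subgroup S)).Normal := by
      constructor
      intro n hn g
      rw [Subgroup.mem_iInf] at hn ⊢
      intro P
      have := hn (g⁻¹ • P)
      rw [Sylow.coe_subgroup_smul] at this
      rw [Subgroup.mem_pointwise_smul_iff_inv_smul_mem] at this
      simpa using this
    rcases hnorm.eq_bot_or_eq_top with h | h
    · exact h
    · exfalso
      apply hPne P
      rw [eq_top_iff, ← h]
      exact iInf_le _ P
  have hidx : ∀ P R : Sylow p S, P ≠ R → (R : Subgroup S).relIndex P = p := by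
    intro P R hPR
    have h1 := card_orbit_sylow P R
    obtain ⟨k, hk⟩ := P.isPGroup'.index ((R : Subgroup S).subgroupOf P)
    change (R : Subgroup S).relIndex P = p ^ k at hk
    have hk0 : k ≠ 0 := by
      rintro rfl
      rw [pow_zero, Subgroup.relIndex_eq_one] at hk
      exact hPR (Sylow.ext (P.is_maximal' R.isPGroup' hk)).symm
    have hlt : p ^ k < p ^ 2 := by
      refine lt_of_le_of_lt ?_ hn
      rw [← hk, ← h1]
      exact Nat.card_le_card_of_injective _ Subtype.val_injective
    have : k < 2 := (Nat.pow_lt_pow_iff_right (Fact.out : p.Prime).one_lt).mp hlt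
    have : k = 1 := by omega
    rw [hk, this, pow_one]
  -- Sylow subgroups are abelian
  have hab : ∀ P : Sylow p S, ∀ a ∈ (P : Subgroup S), ∀ b ∈ (P : Subgroup S), a * b = b * a := by
    intro P a ha b hb
    have hcom : a * b * a⁻¹ * b⁻¹ ∈ (⨅ R : Sylow p S, (R : Subgroup S)) := by
      rw [Subgroup.mem_iInf]
      intro R
      by_cases hPR : P = R
      · subst hPR
        exact Subgroup.mul_mem _ (Subgroup.mul_mem _ (Subgroup.mul_mem _ ha hb)
          (Subgroup.inv_mem _ ha)) (Subgroup.inv_mem _ hb)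
      · have h1 : ((R : Subgroup S).subgroupOf P).index = p := hidx P R hPR
        have hn : ((R : Subgroup S).subgroupOf P).Normal := by
          apply Subgroup.normal_of_index_eq_minFac_card
          rw [h1]
          obtain ⟨k, hk⟩ := IsPGroup.iff_card.mp P.isPGroup'
          have hk0 : k ≠ 0 := by
            rintro rfl
            have h2 := (Subgroup.index_dvd_card (H := (R : Subgroup S).subgroupOf P))
            rw [h1, hk, pow_zero] at h2
            exact (Fact.out : p.Prime).one_lt.ne' (Nat.dvd_one.mp h2)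
          rw [hk, Nat.Prime.pow_minFac Fact.out hk0]
        have hcyc : IsCyclic ((P : Subgroup S) ⧸ (R : Subgroup S).subgroupOf P) := by
          apply isCyclic_of_prime_card (p := p)
          rw [← Subgroup.index_eq_card, h1]
        haveI : IsMulCommutative ((P : Subgroup S) ⧸ (R : Subgroup S).subgroupOf P) :=
          IsCyclic.commutative
        have h2 := mul_comm' (QuotientGroup.mk (⟨a, ha⟩ : (P : Subgroup S)) :
          (P : Subgroup S) ⧸ (R : Subgroup S).subgroupOf P) (QuotientGroup.mk ⟨b, hb⟩)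
        rw [← QuotientGroup.mk_mul, ← QuotientGroup.mk_mul, QuotientGroup.eq] at h2
        -- (ab)⁻¹ (ba) ∈ R
        have h3 : (a * b)⁻¹ * (b * a) ∈ (R : Subgroup S) := h2
        have h4 := hn.conj_mem ⟨(a * b)⁻¹ * (b * a), ?_⟩ h3 ⟨b * a, Subgroup.mul_mem _ hb ha⟩
        · have h5 : (b * a) * ((a * b)⁻¹ * (b * a)) * (b * a)⁻¹ ∈ (R : Subgroup S) := h4
          have h6 := Subgroup.inv_mem _ h5
          have e : ((b * a) * ((a * b)⁻¹ * (b * a)) * (b * a)⁻¹)⁻¹ = a * b * a⁻¹ * b⁻¹ := by group
          rwa [e] at h6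
        · exact Subgroup.mul_mem _ (Subgroup.inv_mem _ (Subgroup.mul_mem _ ha hb))
            (Subgroup.mul_mem _ hb ha)
    rw [hinfn, Subgroup.mem_bot] at hcom
    have : a * b = (a * b * a⁻¹ * b⁻¹) * (b * a) := by group
    rw [this, hcom, one_mul]
  obtain ⟨P', Q', hPQ⟩ := brodkey hab
  have hbot : (P' : Subgroup S) ⊓ Q' = ⊥ := by
    rw [eq_bot_iff, ← hinfn]
    exact le_iInf hPQ
  have hne : P' ≠ Q' := by
    rintro rfl
    rw [inf_idem] at hbot
    exact P'.ne_bot_of_dvd_card hp hbot
  have h1 := hidx P' Q' hne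
  rw [← Subgroup.inf_relIndex_left, hbot, Subgroup.relIndex_bot_left] at h1
  exact (Nat.card_congr (Sylow.equiv P P').toEquiv).trans h1

end Cfsg.Agent.S4343
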