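import Cfsg.Statements.S4344
import Mathlib
import Cfsg.Agent.LibH7Sylow

set_option autoImplicit false
open Cfsg

namespace Cfsg.Agent.S4344

open CfsgLib.H7

/-- Let S be a finite non-abelian simple group, M a maximal subgroup of S and C a cyclic normal subgroup of M. If a Sylow p-subgroup P of S (for a prime p dividing the order of S) is contained in C, then the number of Sylow p-subgroups of S equals the index of M. -/
theorem result {S : Type*} [Group S] [Finite S]
    [IsSimpleGroup S] (hS : ¬ IsMulCommutative S) (p : ℕ) [Fact p.Prime] (hp : p ∣ Nat.card S)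
    (M : Subgroup S) (hM : IsCoatom M) (C : Subgroup S) (hCM : C ≤ M) (hCn : (C.subgroupOf M).Normal)
    (hC : IsCyclic C) (P : Sylow p S) (hP : (P : Subgroup S) ≤ C) :
    Nat.card (Sylow p S) = M.index := by
  haveI := hC
  have hCcomm : ∀ a b : S, a ∈ C → b ∈ C → a * b = b * a := by
    intro a b ha hb
    haveI : IsMulCommutative C := IsCyclic.commutative
    have := mul_comm' (⟨a, ha⟩ : C) ⟨b, hb⟩
    exact congrArg Subtype.val this
  -- `M` normalizes `P`
  have hMN : M ≤ Subgroup.normalizer (P : Set S) := by
    intro m hm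
    rw [← Sylow.smul_eq_iff_mem_normalizer]
    have hmP : ((m • P : Sylow p S) : Subgroup S) ≤ C := by
      intro z hz
      rw [Sylow.coe_subgroup_smul, Subgroup.mem_pointwise_smul_iff_inv_smul_mem] at hz
      have hz' : m⁻¹ * z * m ∈ (P : Subgroup S) := by simpa using hz
      have h1 := hP hz'
      have h2 := hCn.conj_mem ⟨m⁻¹ * z * m, hCM h1⟩ h1 ⟨m, hm⟩
      rw [Subgroup.mem_subgroupOf] at h2
      simpa [mul_assoc] using h2
    obtain ⟨c, hc⟩ := MulAction.exists_smul_eq C (P.subtype hP) ((m • P).subtype hmP)
    have hc' : (c : S) • P = m • P := by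
      apply Sylow.subtype_injective (hP := Sylow.smul_le hP c) (hQ := hmP)
      rw [← Sylow.smul_subtype]
      exact hc
    have hc2 : (c : S) • P = P := by
      rw [Sylow.smul_eq_iff_mem_normalizer, Subgroup.mem_set_normalizer_iff]
      intro x
      constructor
      · intro hx
        have : (c : S) * x * (c : S)⁻¹ = x := by
          rw [hCcomm c x c.2 (hP hx)]; group
        rw [this]; exact hx
      · intro hx
        have h3 := hCcomm c _ c.2 (hP hx)
        have : (c : S) * x * (c : S)⁻¹ = x := by
          have h4 : (c : S) * ((c : S) * x * (c : S)⁻¹) = c * x := by rw [h3]; group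
          exact mul_left_cancel h4
        rwa [this] at hx
    rw [← hc', hc2]
  have hPbot : (P : Subgroup S) ≠ ⊥ := P.ne_bot_of_dvd_card hp
  have hNtop : Subgroup.normalizer (P : Set S) ≠ ⊤ := by
    intro htop
    have hPn : (P : Subgroup S).Normal := Subgroup.normalizer_eq_top_iff.mp htop
    rcases hPn.eq_bot_or_eq_top with h | h
    · exact hPbot h
    · apply hS
      have hCt : C = ⊤ := by rw [eq_top_iff, ← h]; exact hP
      refine ⟨⟨fun a b => hCcomm a b ?_ ?_⟩⟩ <;> rw [hCt] <;> exact Subgroup.mem_top _
  have hMeq : Subgroup.normalizer (P : Set S) = M := by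
    by_contra hne
    exact hNtop (hM.2 _ (lt_of_le_of_ne hMN (Ne.symm hne)))
  rw [P.card_eq_index_normalizer, hMeq]

end Cfsg.Agent.S4344
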