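import Cfsg.Statements.S4354
import Mathlib
import Cfsg.Agent.LibH7Basic

set_option autoImplicit false
open Cfsg

namespace Cfsg.Agent.S4354

open CfsgLib.H7

theorem index_centralizer_subgroup {G : Type*} [Group G] [Finite G] (N : Subgroup G) [N.Normal]
    (x : N) : (Subgroup.centralizer ({x} : Set N)).index ∣
      (Subgroup.centralizer ({(x : G)} : Set G)).index := by
  have h : Subgroup.centralizer ({x} : Set N) =
      (Subgroup.centralizer ({(x : G)} : Set G)).subgroupOf N := by
    ext y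
    rw [Subgroup.mem_subgroupOf, Subgroup.mem_centralizer_singleton_iff,
      Subgroup.mem_centralizer_singleton_iff]
    constructor
    · intro h; exact congrArg Subtype.val h
    · intro h; exact Subtype.ext h
  rw [h]
  exact relIndex_dvd_index_of_normal_right _ N

theorem exists_lift {G : Type*} [Group G] [Finite G] {p : ℕ} [hp : Fact p.Prime]
    (N : Subgroup G) [N.Normal] (x : G ⧸ N) (hx : ∃ k : ℕ, orderOf x = p ^ k) :
    ∃ g : G, (∃ k : ℕ, orderOf g = p ^ k) ∧ (QuotientGroup.mk g : G ⧸ N) = x := by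
  obtain ⟨g, rfl⟩ := QuotientGroup.mk_surjective x
  obtain ⟨k, hk⟩ := hx
  set o := orderOf g with ho
  have hopos : 0 < o := orderOf_pos g
  set m := o / p ^ o.factorization p with hm
  have hmc : Nat.Coprime m (p ^ k) := by
    apply Nat.Coprime.pow_right
    exact (Nat.coprime_ordCompl hp.out hopos.ne').symm
  rw [← hk] at hmc
  obtain ⟨c, hc⟩ := exists_pow_eq_self_of_coprime hmc
  refine ⟨(g ^ m) ^ c, ?_, by simpa using hc⟩
  have h1 : orderOf (g ^ m) = p ^ o.factorization p := by
    rw [hm, orderOf_pow_of_dvd]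
    · exact Nat.div_div_self (Nat.ordProj_dvd _ _) hopos.ne'
    · exact (Nat.div_pos (Nat.ordProj_le p hopos.ne') (pow_pos hp.out.pos _)).ne'
    · exact Nat.div_dvd_of_dvd (Nat.ordProj_dvd _ _)
  have h2 : orderOf ((g ^ m) ^ c) ∣ p ^ o.factorization p := by
    rw [← h1]; exact orderOf_pow_dvd c
  obtain ⟨j, _, hj⟩ := (Nat.dvd_prime_pow hp.out).mp h2
  exact ⟨j, hj⟩

theorem index_centralizer_quotient {G : Type*} [Group G] [Finite G] (N : Subgroup G) [N.Normal]
    (g : G) : (Subgroup.centralizer ({(QuotientGroup.mk g : G ⧸ N)} : Set (G ⧸ N))).index ∣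
      (Subgroup.centralizer ({g} : Set G)).index := by
  have h1 : (Subgroup.centralizer ({g} : Set G)).map (QuotientGroup.mk' N) ≤
      Subgroup.centralizer ({(QuotientGroup.mk g : G ⧸ N)} : Set (G ⧸ N)) := by
    rintro _ ⟨y, hy, rfl⟩
    rw [SetLike.mem_coe, Subgroup.mem_centralizer_singleton_iff] at hy
    rw [Subgroup.mem_centralizer_singleton_iff]
    have := congrArg (QuotientGroup.mk' N) hy
    simpa using this
  exact (Subgroup.index_dvd_of_le h1).trans
    (Subgroup.index_map_dvd _ (QuotientGroup.mk'_surjective N))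

/-- The main argument. -/
theorem main {G : Type*} [Group G] [Finite G] {p : ℕ} [hp : Fact p.Prime]
    (hC : ∀ x : G, (∃ k : ℕ, orderOf x = p ^ k) → ¬ p ∣ (Subgroup.centralizer ({x} : Set G)).index)
    (N : Subgroup G) [N.Normal] (hN : ∀ P : Sylow p N, IsMulCommutative P)
    (hQ : ∀ P : Sylow p (G ⧸ N), IsMulCommutative P) (P : Sylow p G) : IsMulCommutative P := by
  have hsurj := QuotientGroup.mk'_surjective N
  -- `P ∩ N` is abelian
  have hPN : ∀ a b : G, a ∈ (P : Subgroup G) → a ∈ N → b ∈ (P : Subgroup G) → b ∈ N →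
      a * b = b * a := by
    intro a b ha haN hb hbN
    have hpg : IsPGroup p ((P : Subgroup G).subgroupOf N) := P.isPGroup'.comap_subtype
    obtain ⟨Q, hQ'⟩ := hpg.exists_le_sylow
    haveI := hN Q
    have ha' : (⟨a, haN⟩ : N) ∈ Q := hQ' ha
    have hb' : (⟨b, hbN⟩ : N) ∈ Q := hQ' hb
    have := mul_comm' (⟨⟨a, haN⟩, ha'⟩ : Q) (⟨⟨b, hbN⟩, hb'⟩ : Q)
    have h2 := congrArg (fun z : Q => ((z : N) : G)) this
    simpa using h2
  -- every element is `z * s`
  have hdec : ∀ x ∈ (P : Subgroup G), ∃ z s : G, z ∈ (P : Subgroup G) ∧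
      (∀ y ∈ (P : Subgroup G), z * y = y * z) ∧ s ∈ (P : Subgroup G) ∧ s ∈ N ∧ x = z * s := by
    intro x hx
    have hxp : ∃ k : ℕ, orderOf x = p ^ k := by
      obtain ⟨k, hk⟩ := (IsPGroup.iff_orderOf.mp P.isPGroup') ⟨x, hx⟩
      exact ⟨k, by rw [← hk, Subgroup.orderOf_mk]⟩
    have h1 := hC x hxp
    -- a Sylow `p`-subgroup of `G` centralizing `x`
    obtain ⟨Q, hQle⟩ : ∃ Q : Sylow p G, (Q : Subgroup G) ≤ Subgroup.centralizer ({x} : Set G) := by
      obtain ⟨Q0⟩ : Nonempty (Sylow p (Subgroup.centralizer ({x} : Set G))) := inferInstance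
      have hi : ¬ p ∣ ((Q0 : Subgroup _).map (Subgroup.centralizer ({x} : Set G)).subtype).index := by
        rw [Subgroup.index_map_subtype]
        rw [hp.out.dvd_mul]
        push Not
        exact ⟨Q0.not_dvd_index, h1⟩
      refine ⟨(Q0.isPGroup'.map _).toSylow hi, ?_⟩
      rw [IsPGroup.toSylow_coe]
      exact Subgroup.map_subtype_le _
    have hxQ : x ∈ (Q : Subgroup G) := by
      have hz : IsPGroup p (Subgroup.zpowers x) := by
        obtain ⟨k, hk⟩ := hxp
        exact IsPGroup.of_card (n := k) (by rw [Nat.card_zpowers, hk])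
      have h2 := hz.inf_normalizer_sylow Q
      have h3 : x ∈ Subgroup.zpowers x ⊓ Subgroup.normalizer (Q : Set G) := by
        refine ⟨Subgroup.mem_zpowers x, Subgroup.mem_set_normalizer_iff.mpr ?_⟩
        intro y
        have hfix : ∀ z ∈ (Q : Subgroup G), x * z * x⁻¹ = z := by
          intro z hz
          have := hQle hz
          rw [Subgroup.mem_centralizer_singleton_iff] at this
          rw [← this]; group
        constructor
        · intro hy
          rw [hfix y hy]; exact hy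
        · intro hy
          have e := hfix _ hy
          have e2 : x * y * x⁻¹ = y := by
            have : x * (x * y * x⁻¹) * x⁻¹ = x * y * x⁻¹ := e
            have h5 := mul_right_cancel this
            exact mul_left_cancel h5
          rwa [e2] at hy
      rw [h2] at h3
      exact h3.2
    obtain ⟨g, hg⟩ := MulAction.exists_smul_eq G P Q
    -- `g⁻¹ x g ∈ Z(P)`
    have hyP : g⁻¹ * x * g ∈ (P : Subgroup G) := by
      rw [← hg, Sylow.coe_subgroup_smul, Subgroup.mem_pointwise_smul_iff_inv_smul_mem] at hxQ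
      simpa using hxQ
    have hyZ : ∀ y ∈ (P : Subgroup G), (g⁻¹ * x * g) * y = y * (g⁻¹ * x * g) := by
      intro y hy
      have h2 : g * y * g⁻¹ ∈ (Q : Subgroup G) := by
        rw [← hg, Sylow.coe_subgroup_smul, Subgroup.mem_pointwise_smul_iff_inv_smul_mem]
        simpa [mul_assoc] using hy
      have h3 := hQle h2
      rw [Subgroup.mem_centralizer_singleton_iff] at h3
      calc (g⁻¹ * x * g) * y = g⁻¹ * (x * (g * y * g⁻¹)) * g := by group
        _ = g⁻¹ * ((g * y * g⁻¹) * x) * g := by rw [h3]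
        _ = y * (g⁻¹ * x * g) := by group
    -- pass to the quotient
    let Pb : Sylow p (G ⧸ N) := P.mapSurjective hsurj
    haveI := hQ Pb
    have hPb : ∀ a ∈ (P : Subgroup G), (QuotientGroup.mk a : G ⧸ N) ∈ Pb := by
      intro a ha
      exact Subgroup.mem_map_of_mem _ ha
    obtain ⟨nb, hnb, hneq⟩ := Sylow.conj_eq_normalizer_conj_of_mem Pb (QuotientGroup.mk x)
      (QuotientGroup.mk g) (hPb x hx) (by simpa using hPb _ hyP)
    obtain ⟨n, rfl⟩ := QuotientGroup.mk_surjective nb
    -- lift `n` to the normalizer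
    obtain ⟨h, hh, hhn⟩ : ∃ h : G, h • P = P ∧ (QuotientGroup.mk h : G ⧸ N) = QuotientGroup.mk n := by
      have hle1 : (P : Subgroup G) ≤ N ⊔ (P : Subgroup G) := le_sup_right
      have hle2 : ((n • P : Sylow p G) : Subgroup G) ≤ N ⊔ (P : Subgroup G) := by
        intro z hz
        rw [Sylow.coe_subgroup_smul, Subgroup.mem_pointwise_smul_iff_inv_smul_mem] at hz
        have hz1 : n⁻¹ * z * n ∈ (P : Subgroup G) := by simpa using hz
        have hz2 : (QuotientGroup.mk z : G ⧸ N) ∈ (Pb : Subgroup (G ⧸ N)) := by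
          have h4 := hPb _ hz1
          rw [Subgroup.mem_set_normalizer_iff] at hnb
          have h5 := (hnb _).mp h4
          have e : (QuotientGroup.mk n : G ⧸ N) * QuotientGroup.mk (n⁻¹ * z * n) *
            (QuotientGroup.mk n)⁻¹ = QuotientGroup.mk z := by
            rw [← QuotientGroup.mk_mul, ← QuotientGroup.mk_inv, ← QuotientGroup.mk_mul]
            congr 1
            group
          rw [e] at h5
          exact h5
        have hz3 : z ∈ ((P : Subgroup G).map (QuotientGroup.mk' N)).comap (QuotientGroup.mk' N) := hz2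
        rw [Subgroup.comap_map_eq, QuotientGroup.ker_mk'] at hz3
        rwa [sup_comm]
      obtain ⟨k, hk⟩ := MulAction.exists_smul_eq (↥(N ⊔ (P : Subgroup G)))
        (P.subtype hle1) ((n • P).subtype hle2)
      have hk' : (k : G) • P = n • P := by
        apply Sylow.subtype_injective (hP := Sylow.smul_le hle1 k) (hQ := hle2)
        rw [← Sylow.smul_subtype]
        exact hk
      obtain ⟨a, ha, b, hb, hab⟩ := (Subgroup.mem_sup_of_normal_left).mp k.2
      refine ⟨a⁻¹ * n, ?_, ?_⟩
      · rw [mul_smul, ← hk', ← hab, mul_smul]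
        have : b • P = P := by
          rw [Sylow.smul_eq_iff_mem_normalizer]
          exact Subgroup.le_normalizer hb
        rw [this, inv_smul_smul]
      · rw [QuotientGroup.mk_mul, QuotientGroup.mk_inv, (QuotientGroup.eq_one_iff a).mpr ha]
        simp
    have hhmem : ∀ a ∈ (P : Subgroup G), h * a * h⁻¹ ∈ (P : Subgroup G) := by
      intro a ha
      rw [← hh, Sylow.coe_subgroup_smul, Subgroup.mem_pointwise_smul_iff_inv_smul_mem]
      simpa [mul_assoc] using ha
    have hhmem' : ∀ a ∈ (P : Subgroup G), h⁻¹ * a * h ∈ (P : Subgroup G) := by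
      intro a ha
      rw [← hh, Sylow.coe_subgroup_smul, Subgroup.mem_pointwise_smul_iff_inv_smul_mem] at ha
      simpa using ha
    set y := g⁻¹ * x * g with hy
    have hsN : y⁻¹ * (h⁻¹ * x * h) ∈ N := by
      rw [← QuotientGroup.eq]
      rw [← hhn] at hneq
      simpa [hy] using hneq
    have hsP : y⁻¹ * (h⁻¹ * x * h) ∈ (P : Subgroup G) :=
      Subgroup.mul_mem _ (Subgroup.inv_mem _ hyP) (hhmem' x hx)
    refine ⟨h * y * h⁻¹, h * (y⁻¹ * (h⁻¹ * x * h)) * h⁻¹, hhmem _ hyP, ?_, hhmem _ hsP,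
      Subgroup.Normal.conj_mem inferInstance _ hsN _, by group⟩
    intro a ha
    have := hyZ _ (hhmem' a ha)
    calc h * y * h⁻¹ * a = h * (y * (h⁻¹ * a * h)) * h⁻¹ := by group
      _ = h * ((h⁻¹ * a * h) * y) * h⁻¹ := by rw [this]
      _ = a * (h * y * h⁻¹) := by group
  refine ⟨⟨?_⟩⟩
  rintro ⟨a, ha⟩ ⟨b, hb⟩
  apply Subtype.ext
  change a * b = b * a
  obtain ⟨z, s, hz, hzc, hs, hsN, rfl⟩ := hdec a ha
  obtain ⟨z', s', hz', hzc', hs', hsN', rfl⟩ := hdec b hb
  have e1 := hPN s s' hs hsN hs' hsN'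
  calc z * s * (z' * s') = z * (s * z') * s' := by group
    _ = z * (z' * s) * s' := by rw [hzc' s hs]
    _ = (z * z') * (s * s') := by group
    _ = (z' * z) * (s' * s) := by rw [hzc z' hz', e1]
    _ = z' * (z * s') * s := by group
    _ = z' * (s' * z) * s := by rw [hzc s' hs']
    _ = z' * s' * (z * s) := by group

/-- A group minimal (w.r.t. normal subgroups and quotients) -/
theorem result {G : Type*} [Group G] [Finite G]
    (p : ℕ) [Fact p.Prime] (h : ((∃ P : Sylow p G, ¬ IsMulCommutative P) ∧ ∀ x : G, (∃ k : ℕ, orderOf x = p ^ k) → ¬ p ∣ (Subgroup.centralizer ({x} : Set G)).index))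
    (hmin : ∀ (N : Subgroup G) [N.Normal], N ≠ ⊥ → N ≠ ⊤ →
      ¬ ((∃ P : Sylow p N, ¬ IsMulCommutative P) ∧ ∀ x : N, (∃ k : ℕ, orderOf x = p ^ k) → ¬ p ∣ (Subgroup.centralizer ({x} : Set N)).index) ∧
      ¬ ((∃ P : Sylow p (G ⧸ N), ¬ IsMulCommutative P) ∧ ∀ x : (G ⧸ N), (∃ k : ℕ, orderOf x = p ^ k) → ¬ p ∣ (Subgroup.centralizer ({x} : Set (G ⧸ N))).index)) :
    IsSimpleGroup G := by
  obtain ⟨⟨P, hP⟩, hC⟩ := h
  have hnt : Nontrivial G := by
    by_contra hnt
    rw [not_nontrivial_iff_subsingleton] at hnt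
    exact hP ⟨⟨fun a b => Subsingleton.elim _ _⟩⟩
  refine { exists_pair_ne := hnt.exists_pair_ne, eq_bot_or_eq_top_of_normal := ?_ }
  intro N hN
  by_contra hcon
  push Not at hcon
  obtain ⟨h1, h2⟩ := hmin N hcon.1 hcon.2
  apply hP
  apply main hC N
  · by_contra h3
    push Not at h3
    apply h1
    refine ⟨h3, ?_⟩
    intro x hx hdvd
    have hx' : ∃ k : ℕ, orderOf (x : G) = p ^ k := by
      obtain ⟨k, hk⟩ := hx
      exact ⟨k, by rw [Subgroup.orderOf_coe]; exact hk⟩
    exact hC _ hx' (hdvd.trans (index_centralizer_subgroup N x))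
  · by_contra h3
    push Not at h3
    apply h2
    refine ⟨h3, ?_⟩
    intro x hx hdvd
    obtain ⟨g, hg, rfl⟩ := exists_lift N x hx
    exact hC _ hg (hdvd.trans (index_centralizer_quotient N g))

end Cfsg.Agent.S4354
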