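import Cfsg.Statements.S4355
import Cfsg.Agent.LibCamHer

set_option autoImplicit false
open Cfsg

namespace Cfsg.Agent.S4355

/-- If every element of 2-power order of a finite group has a conjugacy class of odd size, then the Sylow 2-subgroups of the group are abelian. -/
theorem result {G : Type*} [Group G] [Finite G]
    (h : ∀ x : G, (∃ k : ℕ, orderOf x = 2 ^ k) → ¬ 2 ∣ (Subgroup.centralizer ({x} : Set G)).index) (P : Sylow 2 G) :
    IsMulCommutative P := by
  have key : ∀ x ∈ (P : Subgroup G), ∀ y ∈ (P : Subgroup G), x * y = y * x := by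
    apply CfsgLib.CamHer.main P
    intro x hx
    obtain ⟨k, hk⟩ := IsPGroup.iff_orderOf.1 P.isPGroup' ⟨x, hx⟩
    rw [Subgroup.orderOf_mk] at hk
    have h1 := h x ⟨k, hk⟩
    set T : Sylow 2 ↥(Subgroup.centralizer ({x} : Set G)) := default
    have hTp : IsPGroup 2 ↥((T : Subgroup ↥(Subgroup.centralizer ({x} : Set G))).map (Subgroup.centralizer ({x} : Set G)).subtype) :=
      T.isPGroup'.map _
    have hTi : ¬ 2 ∣ ((T : Subgroup ↥(Subgroup.centralizer ({x} : Set G))).map (Subgroup.centralizer ({x} : Set G)).subtype).index := by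
      rw [Subgroup.index_map_subtype]
      intro h3
      rcases (Nat.Prime.dvd_mul Nat.prime_two).1 h3 with h4 | h4
      · exact T.not_dvd_index h4
      · exact h1 h4
    refine CfsgLib.CamHer.zc_of_sylow P hx (hTp.toSylow hTi) ?_
    rintro _ ⟨y, -, rfl⟩
    exact y.2
  exact ⟨⟨fun a b => Subtype.ext (key a a.2 b b.2)⟩⟩

end Cfsg.Agent.S4355
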