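import Cfsg.Statements.S4364
import Mathlib
import Cfsg.Agent.LibH7KazB
set_option autoImplicit false
open Cfsg

namespace Cfsg.Agent.S4364

theorem aux {G : Type*} [Group G] [Finite G] {p : ℕ} [hp : Fact p.Prime] (O : Subgroup G) [O.Normal] (h0 : Cfsg.pCore p (G ⧸ O) = ⊥)
    {x : G} {a : ℕ} (hx : (Subgroup.centralizer ({x} : Set G)).index = p ^ a) (g h : G) :
    (g * x * g⁻¹) * (h * x * h⁻¹) * (g * x * g⁻¹)⁻¹ * (h * x * h⁻¹)⁻¹ ∈ O := by
  have h1 := CfsgLib.H7Kaz.index_centralizer_map_dvd (QuotientGroup.mk' O) (QuotientGroup.mk'_surjective O) x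
  rw [hx] at h1
  obtain ⟨b, -, hb⟩ := (Nat.dvd_prime_pow hp.out).mp h1
  have h2 := CfsgLib.H7Kaz.abelian_of_pCore hb h0
  have hmem : ∀ g : G, QuotientGroup.mk' O (g * x * g⁻¹) ∈ Subgroup.normalClosure ({QuotientGroup.mk' O x} : Set (G ⧸ O)) := by
    intro g
    have e : QuotientGroup.mk' O (g * x * g⁻¹) = QuotientGroup.mk' O g * QuotientGroup.mk' O x * (QuotientGroup.mk' O g)⁻¹ := by
      rw [map_mul, map_mul, map_inv]
    rw [e]
    exact Subgroup.normalClosure_normal.conj_mem (QuotientGroup.mk' O x) (Subgroup.subset_normalClosure (Set.mem_singleton _)) (QuotientGroup.mk' O g)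
  have h3 := h2 _ (hmem g) _ (hmem h)
  have h4 : QuotientGroup.mk' O ((g * x * g⁻¹) * (h * x * h⁻¹) * (g * x * g⁻¹)⁻¹ * (h * x * h⁻¹)⁻¹) = 1 := by
    generalize g * x * g⁻¹ = y at h3 ⊢
    generalize h * x * h⁻¹ = z at h3 ⊢
    rw [map_mul, map_mul, map_mul, h3, map_inv, map_inv]
    group
  rwa [← MonoidHom.mem_ker, QuotientGroup.ker_mk'] at h4

/-- Let G be a finite group, p a prime and x an element whose conjugacy class has p-power size. Then for any two conjugates y and z of x, the commutator y z y⁻¹ z⁻¹ lies in O_p(G), the largest normal p-subgroup of G. -/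
theorem result {G : Type*} [Group G] [Finite G] (p : ℕ) [Fact p.Prime]
    (x : G) (hx : ∃ a : ℕ, (Subgroup.centralizer ({x} : Set G)).index = p ^ a) (g h : G) :
    (g * x * g⁻¹) * (h * x * h⁻¹) * (g * x * g⁻¹)⁻¹ * (h * x * h⁻¹)⁻¹ ∈ Cfsg.pCore p G := by
  obtain ⟨a, hx⟩ := hx
  exact aux (Cfsg.pCore p G) (CfsgLib.Cores.pCore_quotient_pCore (G := G) p) hx g h

end Cfsg.Agent.S4364
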