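import Cfsg.Statements.S4365
import Mathlib

set_option autoImplicit false
open Cfsg

namespace Cfsg.Agent.S4365

open Subgroup

section abstractPart

variable {C : Type*} [CommGroup C]

theorem norm_fixed (p : ℕ) (γ : MulAut C) (hγ : γ ^ p = 1) (a : C) :
    γ (∏ i ∈ Finset.range p, (γ ^ i) a) = ∏ i ∈ Finset.range p, (γ ^ i) a := by
  rw [map_prod]
  have h1 : ∀ i, γ ((γ ^ i) a) = (γ ^ (i + 1)) a := by
    intro i
    rw [pow_succ', MulAut.mul_apply]
  simp only [h1]
  rcases Nat.eq_zero_or_pos p with rfl | hp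
  · simp
  obtain ⟨n, rfl⟩ := Nat.exists_eq_succ_of_ne_zero hp.ne'
  rw [Finset.prod_range_succ, Finset.prod_range_succ' (fun i => (γ ^ i) a)]
  rw [show γ ^ (n + 1) = 1 from hγ, pow_zero]

theorem norm_identity (p : ℕ) [hp : Fact p.Prime] (α β : MulAut C) (hc : Commute α β) (hα : α ^ p = 1)
    (Z : Subgroup C) (hβ : ∀ z ∈ Z, β z ∈ Z) (a : C)
    (h1 : ∏ i ∈ Finset.range p, (α ^ i) a ∈ Z)
    (h2 : ∀ i ∈ Finset.range p, ∏ j ∈ Finset.range p, ((β * α ^ i) ^ j) a ∈ Z) :
    a ^ p ∈ Z := by
  have h3 : ∏ i ∈ Finset.range p, ∏ j ∈ Finset.range p, ((β * α ^ i) ^ j) a ∈ Z :=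
    Subgroup.prod_mem Z h2
  rw [Finset.prod_comm] at h3
  have hexp : ∀ i j : ℕ, (β * α ^ i) ^ j = β ^ j * α ^ (i * j) := by
    intro i j
    rw [(hc.symm.pow_right i).mul_pow, ← pow_mul]
  have hβj : ∀ (j : ℕ), ∀ z ∈ Z, (β ^ j) z ∈ Z := by
    intro j
    induction j with
    | zero => intro z hz; simpa using hz
    | succ n ih =>
      intro z hz
      rw [pow_succ', MulAut.mul_apply]
      exact hβ _ (ih z hz)
  have hmod : ∀ n : ℕ, α ^ (n % p) = α ^ n := fun n => (pow_eq_pow_mod n hα).symm
  have hre : ∀ j ∈ Finset.range p, j ≠ 0 →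
      ∏ i ∈ Finset.range p, ((β * α ^ i) ^ j) a = (β ^ j) (∏ i ∈ Finset.range p, (α ^ i) a) := by
    intro j hj hj0
    rw [Finset.mem_range] at hj
    have hcop : Nat.Coprime p j := (Nat.coprime_of_lt_prime hj0 hj hp.out)
    rw [map_prod]
    refine Finset.prod_bij (fun i _ => (i * j) % p) ?_ ?_ ?_ ?_
    · intro i _
      rw [Finset.mem_range]
      exact Nat.mod_lt _ hp.out.pos
    · intro i hi i' hi' h
      rw [Finset.mem_range] at hi hi'
      have h4 : i ≡ i' [MOD p] := by
        apply Nat.ModEq.cancel_right_of_coprime (c := j) hcop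
        exact h
      exact Nat.ModEq.eq_of_lt_of_lt h4 hi hi'
    · intro b hb
      rw [Finset.mem_range] at hb
      obtain ⟨u, hu⟩ := Nat.exists_mul_mod_eq_one_of_coprime hcop.symm hp.out.one_lt
      refine ⟨(b * u) % p, ?_, ?_⟩
      · rw [Finset.mem_range]; exact Nat.mod_lt _ hp.out.pos
      · have h5 : (b * u) % p * j ≡ b [MOD p] := by
          calc (b * u) % p * j ≡ b * u * j [MOD p] := (Nat.mod_modEq _ _).mul_right _
            _ = b * (j * u) := by ring
            _ ≡ b * 1 [MOD p] := by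
                apply Nat.ModEq.mul_left
                rw [Nat.ModEq, hu.2, Nat.mod_eq_of_lt hp.out.one_lt]
            _ = b := by ring
        rw [h5, Nat.mod_eq_of_lt hb]
    · intro i _
      rw [hmod, hexp, MulAut.mul_apply]
  have h0 : (0 : ℕ) ∈ Finset.range p := Finset.mem_range.2 hp.out.pos
  rw [← Finset.mul_prod_erase _ _ h0] at h3
  have h4 : ∏ j ∈ (Finset.range p).erase 0, ∏ i ∈ Finset.range p, ((β * α ^ i) ^ j) a ∈ Z := by
    apply Subgroup.prod_mem
    intro j hj
    rw [Finset.mem_erase] at hj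
    rw [hre j hj.2 hj.1]
    exact hβj j _ h1
  have h5 := (Subgroup.mul_mem_cancel_right Z h4).1 h3
  simpa using h5

end abstractPart

variable {P : Type*} [Group P] [Finite P]

omit [Finite P] in
theorem centralizer_ne_top {x : P} (hx : x ∉ center P) : centralizer ({x} : Set P) ≠ ⊤ := by
  intro h
  apply hx
  rw [mem_center_iff]
  intro g
  have : g ∈ centralizer ({x} : Set P) := by rw [h]; trivial
  rwa [mem_centralizer_singleton_iff] at this

theorem eqC {n : ℕ} (h : ∀ x : P, x ∉ center P → (centralizer ({x} : Set P)).index = n) {x y : P}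
    (hx : x ∉ center P) (hy : y ∉ center P)
    (hle : centralizer ({x} : Set P) ≤ centralizer ({y} : Set P)) :
    centralizer ({x} : Set P) = centralizer ({y} : Set P) := by
  apply le_antisymm hle
  rw [← relIndex_eq_one]
  have h1 := relIndex_mul_index hle
  rw [h x hx, h y hy] at h1
  have hn : 0 < n := by rw [← h x hx]; exact Nat.pos_of_ne_zero index_ne_zero_of_finite
  nlinarith

theorem powC {n : ℕ} (h : ∀ x : P, x ∉ center P → (centralizer ({x} : Set P)).index = n) {x : P} {m : ℕ}
    (hx : x ^ m ∉ center P) : centralizer ({x} : Set P) = centralizer ({x ^ m} : Set P) := by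
  refine eqC h (fun h' => hx (pow_mem h' m)) hx ?_
  intro w hw
  rw [mem_centralizer_singleton_iff] at hw ⊢
  have : Commute w x := hw
  exact this.pow_right m

theorem case1 {n p : ℕ} (h : ∀ x : P, x ∉ center P → (centralizer ({x} : Set P)).index = n) {x v : P}
    (hx : x ^ p ∉ center P) (hv : v ∈ centralizer ({x} : Set P)) (hvc : v ∉ center P)
    (hvp : v ^ p ∈ center P) : centralizer ({v} : Set P) = centralizer ({x} : Set P) := by
  have hcom : Commute v x := by rwa [mem_centralizer_singleton_iff] at hv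
  have h1 : (v * x) ^ p = v ^ p * x ^ p := hcom.mul_pow p
  have h2 : (v * x) ^ p ∉ center P := by
    rw [h1]
    intro h3
    exact hx ((Subgroup.mul_mem_cancel_left _ hvp).1 h3)
  have hxc : x ∉ center P := fun h' => hx (pow_mem h' p)
  have h3 : centralizer ({v * x} : Set P) = centralizer ({x} : Set P) := by
    rw [powC h h2, h1, powC h hx]
    ext w
    rw [mem_centralizer_singleton_iff, mem_centralizer_singleton_iff]
    have h4 : v ^ p * w = w * v ^ p := ((mem_center_iff.mp hvp) w).symm
    constructor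
    · intro h5
      have h6 : v ^ p * (w * x ^ p) = v ^ p * (x ^ p * w) := by
        rw [← mul_assoc, h4, mul_assoc, h5, mul_assoc]
      exact mul_left_cancel h6
    · intro h5
      rw [← mul_assoc, ← h4, mul_assoc, h5, mul_assoc]
  symm
  refine eqC h hxc hvc ?_
  intro w hw
  have h5 : w ∈ centralizer ({v * x} : Set P) := by rw [h3]; exact hw
  rw [mem_centralizer_singleton_iff] at h5 hw ⊢
  have h6 : Commute w (v * x) := h5
  have h7 : Commute w x := hw
  have h8 : v = v * x * x⁻¹ := by group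
  rw [h8]
  exact h6.mul_right h7.inv_right

theorem case2 {n p : ℕ} [Fact p.Prime] (hP : IsPGroup p P)
    (h : ∀ x : P, x ∉ center P → (centralizer ({x} : Set P)).index = n) {x v : P}
    (hx : x ^ p ∉ center P) (hv : v ∈ centralizer ({x} : Set P)) (hvc : v ∉ center P) :
    centralizer ({v} : Set P) = centralizer ({x} : Set P) := by
  classical
  have hex : ∃ k : ℕ, v ^ p ^ k ∈ center P := by
    obtain ⟨k, hk⟩ := hP v
    exact ⟨k, by rw [hk]; exact one_mem _⟩
  have hk := Nat.find_spec hex
  have hk0 : Nat.find hex ≠ 0 := by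
    intro h0
    rw [h0, pow_zero, pow_one] at hk
    exact hvc hk
  obtain ⟨m, hm⟩ := Nat.exists_eq_succ_of_ne_zero hk0
  have hm1 : v ^ p ^ m ∉ center P := Nat.find_min hex (by omega)
  have hm2 : (v ^ p ^ m) ^ p ∈ center P := by
    rw [← pow_mul, ← pow_succ, ← Nat.succ_eq_add_one, ← hm]
    exact hk
  rw [powC h hm1]
  exact case1 h hx (pow_mem hv _) hm1 hm2

theorem exists_c {p : ℕ} [Fact p.Prime] (hP : IsPGroup p P) {x : P} (hx : x ∉ center P) :
    ∃ c : P, c ∉ center P ∧ c ^ p ∈ center P ∧ ∀ g : P, ∃ z ∈ center P, g * c * g⁻¹ = z * c := by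
  have hQ : IsPGroup p (P ⧸ center P) := hP.to_quotient _
  haveI : Nontrivial (P ⧸ center P) := by
    refine ⟨⟨(x : P ⧸ center P), 1, ?_⟩⟩
    rw [Ne, QuotientGroup.eq_one_iff]
    exact hx
  haveI := hQ.center_nontrivial
  have hd : p ∣ Nat.card (center (P ⧸ center P)) := by
    obtain ⟨k, hk⟩ := IsPGroup.iff_card.mp (hQ.to_subgroup (center (P ⧸ center P)))
    have h1 : 1 < Nat.card (center (P ⧸ center P)) := Finite.one_lt_card
    have : k ≠ 0 := by
      rintro rfl
      rw [hk, pow_zero] at h1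
      exact lt_irrefl _ h1
    rw [hk]
    exact dvd_pow_self p this
  obtain ⟨⟨c, hc⟩, hco⟩ := exists_prime_orderOf_dvd_card' p hd
  obtain ⟨c, rfl⟩ := QuotientGroup.mk_surjective c
  have hco' : orderOf (c : P ⧸ center P) = p := by
    rw [← hco]
    exact (orderOf_injective (center (P ⧸ center P)).subtype (Subgroup.subtype_injective _) ⟨_, hc⟩).symm ▸ rfl
  refine ⟨c, ?_, ?_, ?_⟩
  · intro h
    rw [(QuotientGroup.eq_one_iff c).2 h, orderOf_one] at hco'
    exact (Fact.out : p.Prime).one_lt.ne hco'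
  · rw [← QuotientGroup.eq_one_iff, QuotientGroup.mk_pow, ← hco', pow_orderOf_eq_one]
  · intro g
    refine ⟨g * c * g⁻¹ * c⁻¹, ?_, by group⟩
    rw [← QuotientGroup.eq_one_iff]
    have := (mem_center_iff.mp hc) (g : P ⧸ center P)
    simp only [QuotientGroup.mk_mul, QuotientGroup.mk_inv]
    rw [this]
    group

omit [Finite P] in
theorem conj_pow_eq {c x z : P} (hz : z ∈ center P) (h : c * x * c⁻¹ = z * x) (n : ℕ) :
    c ^ n * x * (c ^ n)⁻¹ = z ^ n * x := by
  induction n with
  | zero => simp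
  | succ n ih =>
    have hz' : c * z = z * c := (mem_center_iff.mp hz) c
    have hzn : c * z ^ n = z ^ n * c := (mem_center_iff.mp (pow_mem hz n)) c
    calc c ^ (n + 1) * x * (c ^ (n + 1))⁻¹ = c * (c ^ n * x * (c ^ n)⁻¹) * c⁻¹ := by
          rw [pow_succ']; group
      _ = c * z ^ n * x * c⁻¹ := by rw [ih]; group
      _ = z ^ n * (c * x * c⁻¹) := by rw [hzn]; group
      _ = z ^ (n + 1) * x := by rw [h, pow_succ, mul_assoc]

/-- the element `c` lies in the centralizer. -/
theorem c_mem {p : ℕ} {c x : P} (hcp : c ^ p ∈ center P)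
    (hc : ∀ g : P, ∃ z ∈ center P, g * c * g⁻¹ = z * c) : c * x ^ p = x ^ p * c := by
  obtain ⟨z, hz, hze⟩ := hc x
  have h0 : c * x * c⁻¹ = z⁻¹ * x := by
    have h1 : x * c = z * c * x := by
      rw [← hze]; group
    have h2 : c * x = z⁻¹ * (x * c) := by rw [h1]; group
    rw [h2]; group
  have h1 := conj_pow_eq (inv_mem hz) h0 p
  have h2 : c ^ p * x * (c ^ p)⁻¹ = x := by
    have := (mem_center_iff.mp hcp) x
    rw [← this]; group
  rw [h2] at h1
  have h3 : z⁻¹ ^ p = 1 := by
    have : 1 * x = z⁻¹ ^ p * x := by rw [one_mul]; exact h1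
    exact (mul_right_cancel this).symm
  have h4 : (c * x * c⁻¹) ^ p = z⁻¹ ^ p * x ^ p := by
    rw [h0]
    have : Commute z⁻¹ x := ((mem_center_iff.mp (inv_mem hz)) x).symm
    exact this.mul_pow p
  rw [conj_pow, h3, one_mul] at h4
  calc c * x ^ p = c * x ^ p * c⁻¹ * c := by group
    _ = x ^ p * c := by rw [h4]

/-- Let P be a finite p-group whose conjugacy class sizes are exactly 1 and pᵃ for some a ≥ 1. Then every element of P has its p-th power in the center of P (P/Z(P) has exponent p). -/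
theorem result {P : Type*} [Group P] [Finite P] (p : ℕ) [Fact p.Prime]
    (hP : IsPGroup p P) (a : ℕ) (ha : 1 ≤ a)
    (hcs : {k : ℕ | ∃ x : P, (Subgroup.centralizer ({x} : Set P)).index = k} = {1, p ^ a}) (x : P) :
    x ^ p ∈ Subgroup.center P := by
  classical
  by_contra hx
  -- index
  have h : ∀ y : P, y ∉ Subgroup.center P → (Subgroup.centralizer ({y} : Set P)).index = p ^ a := by
    intro y hy
    have h1 : (Subgroup.centralizer ({y} : Set P)).index ∈
        {k : ℕ | ∃ x : P, (Subgroup.centralizer ({x} : Set P)).index = k} := ⟨y, rfl⟩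
    rw [hcs] at h1
    rcases h1 with h1 | h1
    · exact absurd (Subgroup.index_eq_one.1 h1) (centralizer_ne_top hy)
    · exact h1
  have hxc : x ∉ Subgroup.center P := fun h' => hx (pow_mem h' p)
  obtain ⟨c, hc, hcp, hcz⟩ := exists_c hP hxc
  -- C(w) = C(c) when w^p is not central
  have hCc : ∀ w : P, w ^ p ∉ Subgroup.center P →
      Subgroup.centralizer ({c} : Set P) = Subgroup.centralizer ({w} : Set P) := by
    intro w hw
    refine case2 hP h hw ?_ hc
    rw [powC h hw, Subgroup.mem_centralizer_singleton_iff]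
    exact c_mem hcp hcz
  set C := Subgroup.centralizer ({c} : Set P) with hC
  have hCx : C = Subgroup.centralizer ({x} : Set P) := hCc x hx
  have hCv : ∀ v ∈ C, v ∉ Subgroup.center P → Subgroup.centralizer ({v} : Set P) = C := by
    intro v hv hvc
    rw [hCx] at hv ⊢
    exact case2 hP h hx hv hvc
  have hCab : ∀ u ∈ C, ∀ v ∈ C, u * v = v * u := by
    intro u hu v hv
    by_cases hvc : v ∈ Subgroup.center P
    · exact (Subgroup.mem_center_iff.mp hvc) u
    · rw [← hCv v hv hvc, Subgroup.mem_centralizer_singleton_iff] at hu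
      exact hu
  have hxC : x ∈ C := by rw [hCx, Subgroup.mem_centralizer_singleton_iff]
  have hCn : C.Normal := by
    refine ⟨fun w hw g => ?_⟩
    rw [hC, Subgroup.mem_centralizer_singleton_iff] at hw ⊢
    obtain ⟨z, hz, hze⟩ := hcz g⁻¹
    rw [inv_inv] at hze
    have h1 : w * (g⁻¹ * c * g) = g⁻¹ * c * g * w := by
      rw [hze]
      have := (Subgroup.mem_center_iff.mp hz) w
      calc w * (z * c) = (w * z) * c := by group
        _ = z * (w * c) := by rw [this]; group
        _ = z * c * w := by rw [hw]; group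
    calc g * w * g⁻¹ * c = g * (w * (g⁻¹ * c * g)) * g⁻¹ := by group
      _ = c * (g * w * g⁻¹) := by rw [h1]; group
  have hyp : ∀ y : P, y ∉ C → y ^ p ∈ Subgroup.center P := by
    intro y hy
    by_contra hyp
    apply hy
    rw [hCc y hyp, Subgroup.mem_centralizer_singleton_iff]
  have hyC : ∀ y : P, y ∉ C → ∀ v ∈ C, v * y = y * v → v ∈ Subgroup.center P := by
    intro y hy v hv hvy
    by_contra hvc
    apply hy
    rw [← hCv v hv hvc, Subgroup.mem_centralizer_singleton_iff]
    exact hvy.symm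
  have hZC : Subgroup.center P ≤ C := by
    intro z hz
    rw [hC, Subgroup.mem_centralizer_singleton_iff]
    exact ((Subgroup.mem_center_iff.mp hz) c).symm
  obtain ⟨y, hy⟩ : ∃ y, y ∉ C := by
    by_contra hcon
    push Not at hcon
    exact centralizer_ne_top hc (by rw [← top_le_iff]; intro g _; exact hcon g)
  -- choose v
  let q := QuotientGroup.mk' (Subgroup.center P)
  have hq1 : ∀ g : P, q g = 1 ↔ g ∈ Subgroup.center P := fun g => QuotientGroup.eq_one_iff g
  have hZy : Subgroup.center P ≤ Subgroup.centralizer ({y} : Set P) := by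
    intro z hz
    rw [Subgroup.mem_centralizer_singleton_iff]
    exact ((Subgroup.mem_center_iff.mp hz) y).symm
  have hyc : y ∉ Subgroup.center P := fun h' => hy (hZC h')
  have hcard : Nat.card ((Subgroup.centralizer ({y} : Set P)).map q) = Nat.card (C.map q) := by
    rw [← Subgroup.relIndex_ker, ← Subgroup.relIndex_ker, QuotientGroup.ker_mk']
    have e1 := Subgroup.relIndex_mul_index hZy
    have e2 := Subgroup.relIndex_mul_index hZC
    rw [h y hyc] at e1
    rw [h c hc] at e2
    have : 0 < p ^ a := pow_pos (Fact.out : p.Prime).pos a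
    exact Nat.eq_of_mul_eq_mul_right this (e1.trans e2.symm)
  have hCmap : p ^ 2 ≤ Nat.card (C.map q) := by
    obtain ⟨k, hk⟩ := IsPGroup.iff_card.mp ((hP.to_quotient (Subgroup.center P)).to_subgroup (C.map q))
    rw [hk]
    apply Nat.pow_le_pow_right (Fact.out : p.Prime).pos
    by_contra hk2
    have h1 : (q x) ^ (p ^ k) = 1 := by
      rw [← hk]
      have : (⟨q x, ⟨x, hxC, rfl⟩⟩ : C.map q) ^ Nat.card (C.map q) = 1 := pow_card_eq_one'
      exact congrArg Subtype.val this
    have h2 : (q x) ^ p = 1 := by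
      have h3 : p ^ k ∣ p := by
        have : k = 0 ∨ k = 1 := by omega
        rcases this with rfl | rfl <;> simp
      obtain ⟨m, hm⟩ := h3
      rw [hm, pow_mul, h1, one_pow]
    rw [← map_pow, hq1] at h2
    exact hx h2
  obtain ⟨v, hvy, hv⟩ : ∃ v ∈ Subgroup.centralizer ({y} : Set P), q v ∉ Subgroup.zpowers (q y) := by
    by_contra hcon
    push Not at hcon
    have h1 : (Subgroup.centralizer ({y} : Set P)).map q ≤ Subgroup.zpowers (q y) := by
      rintro _ ⟨v, hv, rfl⟩
      exact hcon v hv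
    have h2 := Subgroup.card_le_of_le h1
    rw [hcard, Nat.card_zpowers] at h2
    have h3 : orderOf (q y) ≤ p := by
      apply Nat.le_of_dvd (Fact.out : p.Prime).pos
      rw [orderOf_dvd_iff_pow_eq_one, ← map_pow, hq1]
      exact hyp y hy
    have := (Fact.out : p.Prime).one_lt
    nlinarith
  have hvy' : Commute v y := by rwa [Subgroup.mem_centralizer_singleton_iff] at hvy
  have hw : ∀ i : ℕ, v * y ^ i ∉ C := by
    intro i hi
    have h1 := hyC y hy _ hi (by
      have : Commute (v * y ^ i) y := hvy'.mul_left ((Commute.refl y).pow_left i)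
      exact this)
    apply hv
    rw [← hq1, map_mul, map_pow] at h1
    rw [eq_inv_of_mul_eq_one_left h1]
    exact inv_mem (pow_mem (Subgroup.mem_zpowers _) i)
  -- the action
  letI : CommGroup C := { (inferInstance : Group C) with
    mul_comm := fun u v => Subtype.ext (hCab u u.2 v v.2) }
  let φ : P →* MulAut C := MulAut.conjNormal
  have hφ : ∀ (g : P) (u : C), ((φ g u : C) : P) = g * u * g⁻¹ := fun g u => MulAut.conjNormal_apply g u
  have hφZ : ∀ z ∈ Subgroup.center P, φ z = 1 := by
    intro z hz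
    ext u
    rw [hφ]
    have := (Subgroup.mem_center_iff.mp hz) u
    rw [← this]
    simp
  have hN : ∀ w : P, w ∉ C → ∏ j ∈ Finset.range p, ((φ w) ^ j) (⟨x, hxC⟩ : C) ∈ (Subgroup.center P).subgroupOf C := by
    intro w hwC
    rw [Subgroup.mem_subgroupOf]
    refine hyC w hwC _ (Subtype.prop _) ?_
    have h1 := norm_fixed p (φ w) (by rw [← map_pow]; exact hφZ _ (hyp w hwC)) (⟨x, hxC⟩ : C)
    have h2 := congrArg Subtype.val h1
    rw [hφ] at h2
    have h3 := mul_inv_eq_iff_eq_mul.1 h2
    exact h3.symm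
  have hfin := norm_identity p (φ y) (φ v) ((hvy'.symm).map φ) (by rw [← map_pow]; exact hφZ _ (hyp y hy))
    ((Subgroup.center P).subgroupOf C) (by
      intro z hz
      rw [Subgroup.mem_subgroupOf] at hz ⊢
      rw [hφ]
      have := (Subgroup.mem_center_iff.mp hz) v
      rw [this]
      simpa using hz) (⟨x, hxC⟩ : C) (hN y hy) (by
      intro i _
      have := hN (v * y ^ i) (hw i)
      rwa [map_mul, map_pow] at this)
  rw [Subgroup.mem_subgroupOf] at hfin
  exact hx hfin

end Cfsg.Agent.S4365
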