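import Cfsg.Statements.S4370
import Mathlib
import Cfsg.Agent.S0016
import Cfsg.Agent.S0218
import Cfsg.Agent.LibPCyc2
import Cfsg.Agent.LibTransNil
import Cfsg.Agent.EqBase
set_option autoImplicit false
open Cfsg

namespace Cfsg.Agent.S4370

theorem mem_zpowers_of_cyclic {C : Type*} [Group C] [Finite C] [IsCyclic C] {a b : C} (h : orderOf a = orderOf b) :
    b ∈ Subgroup.zpowers a := by
  classical
  haveI := Fintype.ofFinite C
  have h3 := IsCyclic.card_pow_eq_one_le (α := C) (n := orderOf a) (orderOf_pos a)
  have h4 : (Subgroup.zpowers a : Set C) ⊆ ((Finset.univ.filter (fun x : C => x ^ orderOf a = 1) : Finset C) : Set C) := by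
    intro y hy
    rw [Finset.coe_filter]
    refine ⟨Finset.mem_univ _, ?_⟩
    obtain ⟨i, rfl⟩ := hy
    change (a ^ i) ^ orderOf a = 1
    rw [← zpow_natCast, ← zpow_mul, mul_comm, zpow_mul, zpow_natCast, pow_orderOf_eq_one, one_zpow]
  have h5 : (Subgroup.zpowers a : Set C) = ((Finset.univ.filter (fun x : C => x ^ orderOf a = 1) : Finset C) : Set C) := by
    apply Set.eq_of_subset_of_ncard_le h4 _ (Set.toFinite _)
    rw [Set.ncard_coe_finset]
    have : (Subgroup.zpowers a : Set C).ncard = orderOf a := by
      rw [← Nat.card_zpowers]; exact (Nat.card_coe_set_eq _).symm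
    rw [this]
    exact h3
  have h6 : b ∈ (Subgroup.zpowers a : Set C) := by
    rw [h5, Finset.coe_filter]
    exact ⟨Finset.mem_univ _, by change b ^ orderOf a = 1; rw [h, pow_orderOf_eq_one]⟩
  exact h6

/-- the same inside a cyclic subgroup -/
theorem zpowers_eq_of_cyclic {G : Type*} [Group G] [Finite G] {C : Subgroup G} (hC : IsCyclic C) {a b : G}
    (ha : a ∈ C) (hb : b ∈ C) (h : orderOf a = orderOf b) : Subgroup.zpowers a = Subgroup.zpowers b := by
  have key : ∀ {a b : G}, a ∈ C → b ∈ C → orderOf a = orderOf b → b ∈ Subgroup.zpowers a := by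
    intro a b ha hb h
    have h1 := mem_zpowers_of_cyclic (a := (⟨a, ha⟩ : C)) (b := ⟨b, hb⟩) (by
      rw [← Subgroup.orderOf_coe, ← Subgroup.orderOf_coe]; exact h)
    obtain ⟨i, hi⟩ := h1
    exact ⟨i, congrArg Subtype.val hi⟩
  apply le_antisymm
  · rw [Subgroup.zpowers_le]; exact key hb ha h.symm
  · rw [Subgroup.zpowers_le]; exact key ha hb h

theorem sq_of_center {j : ℕ} (hj : 1 ≤ j) (c : QuaternionGroup (2 ^ j)) (hc : ∀ x, c * x = x * c) : c * c = 1 := by
  haveI : NeZero (2 ^ j) := ⟨by positivity⟩
  rcases c with i | i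
  · have h1 := hc (QuaternionGroup.xa 0)
    rw [QuaternionGroup.a_mul_xa, QuaternionGroup.xa_mul_a] at h1
    have h2 : (0 : ZMod (2 * 2 ^ j)) - i = 0 + i := by injection h1
    rw [QuaternionGroup.a_mul_a, QuaternionGroup.one_def]
    congr 1
    linear_combination -h2
  · exfalso
    have h1 := hc (QuaternionGroup.a 1)
    rw [QuaternionGroup.a_mul_xa, QuaternionGroup.xa_mul_a] at h1
    have h2 : i + 1 = i - 1 := by injection h1
    have h3 : ((2 : ℕ) : ZMod (2 * 2 ^ j)) = 0 := by push_cast; linear_combination h2
    rw [ZMod.natCast_eq_zero_iff] at h3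
    obtain ⟨m, rfl⟩ : ∃ m, j = m + 1 := ⟨j - 1, by omega⟩
    have h4 : 4 ∣ 2 := (Dvd.intro (2 ^ m) (by ring)).trans h3
    omega

theorem centralizer_cyclic {k : ℕ} (hk : 1 ≤ k) (q : QuaternionGroup (2 ^ k)) (hq : q ∉ Subgroup.center (QuaternionGroup (2 ^ k))) :
    IsCyclic (Subgroup.centralizer ({q} : Set (QuaternionGroup (2 ^ k)))) := by
  classical
  obtain ⟨n, rfl⟩ : ∃ n, k = n + 1 := ⟨k - 1, by omega⟩
  haveI : NeZero (2 ^ (n + 1)) := ⟨by positivity⟩
  haveI : Fact (Nat.Prime 2) := ⟨Nat.prime_two⟩
  have hcardQ : Nat.card (QuaternionGroup (2 ^ (n + 1))) = 2 ^ (n + 3) := by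
    rw [Nat.card_eq_fintype_card, QuaternionGroup.card]; ring
  have hQ2 : IsPGroup 2 (QuaternionGroup (2 ^ (n + 1))) := IsPGroup.of_card hcardQ
  have h1 := Cfsg.Agent.S0218.result n
  have huniq : ∀ x y : QuaternionGroup (2 ^ (n + 1)), orderOf x = 2 → orderOf y = 2 → x = y := by
    intro x y hx hy
    have h2 := (Nat.card_eq_one_iff_unique.mp h1).1
    exact congrArg Subtype.val (@Subsingleton.elim _ h2 (⟨x, hx⟩ : {x : QuaternionGroup (2 ^ (n + 1)) // orderOf x = 2}) ⟨y, hy⟩)
  have hinv : ∀ x : QuaternionGroup (2 ^ (n + 1)), x * x = 1 → x ∈ Subgroup.center (QuaternionGroup (2 ^ (n + 1))) := by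
    intro x hx
    by_cases h : x = 1
    · rw [h]; exact one_mem _
    have hx2 : orderOf x = 2 := orderOf_eq_prime (by rw [pow_two]; exact hx) h
    rw [Subgroup.mem_center_iff]
    intro g
    have h3 : g * x * g⁻¹ = x := by
      apply huniq _ _ _ hx2
      have h4 := (MulAut.conj g).orderOf_eq x
      rw [MulAut.conj_apply] at h4
      rw [h4, hx2]
    rw [mul_inv_eq_iff_eq_mul] at h3
    exact h3
  set C := Subgroup.centralizer ({q} : Set (QuaternionGroup (2 ^ (n + 1)))) with hC
  have hqC : q ∈ C := Subgroup.mem_centralizer_singleton_iff.mpr rfl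
  rcases CfsgLib.PCyc.cyclic_or_quaternion (hQ2.to_subgroup C) (by
    intro H K hH hK
    have ex : ∀ H : Subgroup C, Nat.card H = 2 → ∃ h : C, h ∈ H ∧ orderOf (h : QuaternionGroup (2 ^ (n + 1))) = 2 ∧ H = Subgroup.zpowers h := by
      intro H hH
      haveI : Nontrivial H := (Finite.one_lt_card_iff_nontrivial).mp (by omega)
      obtain ⟨h, hh⟩ := exists_ne (1 : H)
      have e1 : (h : C) ^ 2 = 1 := by
        have := pow_card_eq_one' (x := h)
        rw [hH] at this
        exact congrArg Subtype.val this
      have e2 : orderOf (h : C) = 2 := orderOf_eq_prime e1 (fun e => hh (Subtype.ext e))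
      refine ⟨h, h.2, by rw [Subgroup.orderOf_coe]; exact e2, ?_⟩
      symm
      apply Subgroup.eq_of_le_of_card_ge ((Subgroup.zpowers_le).mpr h.2)
      rw [hH, Nat.card_zpowers, e2]
    obtain ⟨h, hh, h2, h3⟩ := ex H hH
    obtain ⟨k, hk, k2, k3⟩ := ex K hK
    rw [h3, k3, show h = k from Subtype.ext (huniq _ _ h2 k2)]) with h | ⟨j, ⟨e⟩⟩
  · exact h
  · rcases Nat.eq_zero_or_pos j with rfl | hj
    · have h2 : IsCyclic (QuaternionGroup (2 ^ 0)) := by
        rw [pow_zero]; exact QuaternionGroup.quaternionGroup_one_isCyclic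
      exact isCyclic_of_surjective e.symm e.symm.surjective
    · exfalso
      apply hq
      apply hinv
      have h2 := sq_of_center hj (e ⟨q, hqC⟩) (by
        intro x
        obtain ⟨y, rfl⟩ := e.surjective x
        rw [← map_mul, ← map_mul]
        congr 1
        apply Subtype.ext
        exact (Subgroup.mem_centralizer_singleton_iff.mp y.2).symm)
      rw [← map_mul] at h2
      have h3 := (MulEquiv.map_eq_one_iff e).mp h2
      exact congrArg Subtype.val h3

/-- Let G be a finite non-abelian nilpotent group. Then the centralizer of every non-central element of G is cyclic if and only if G is isomorphic to the direct product of a generalized quaternion group and a cyclic group of odd order. -/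
theorem result {G : Type*} [Group G] [Finite G] (hG : Group.IsNilpotent G)
    (hna : ¬ IsMulCommutative G) :
    (∀ x : G, x ∉ Subgroup.center G → IsCyclic (Subgroup.centralizer ({x} : Set G))) ↔
      ∃ (k m : ℕ), 1 ≤ k ∧ Odd m ∧ Nonempty (G ≃* QuaternionGroup (2 ^ k) × Multiplicative (ZMod m)) := by
  classical
  constructor
  · intro hcen
    -- a Sylow subgroup outside the centre
    obtain ⟨p, hp, P, hPZ⟩ : ∃ (p : ℕ) (_ : Fact p.Prime) (P : Sylow p G), ¬ (P : Subgroup G) ≤ Subgroup.center G := by
      by_contra hcon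
      push Not at hcon
      apply hna
      have h1 : (Subgroup.center G).index = 1 := by
        by_contra hne
        obtain ⟨p, hp, hpd⟩ := Nat.exists_prime_and_dvd hne
        haveI : Fact p.Prime := ⟨hp⟩
        obtain ⟨P⟩ : Nonempty (Sylow p G) := inferInstance
        exact P.not_dvd_index (hpd.trans (Subgroup.index_dvd_of_le (hcon p ⟨hp⟩ P)))
      rw [Subgroup.index_eq_one] at h1
      refine ⟨⟨fun a b => ?_⟩⟩
      have : b ∈ Subgroup.center G := by rw [h1]; exact Subgroup.mem_top b
      exact Subgroup.mem_center_iff.mp this a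
    haveI hPn : (P : Subgroup G).Normal := by
      have := (Group.isNilpotent_of_finite_tfae (G := G)).out 0 3
      exact (this.mp hG) p hp P
    obtain ⟨y, hyP, hyZ⟩ := SetLike.not_le_iff_exists.mp hPZ
    have hcop : (Nat.card (P : Subgroup G)).Coprime (P : Subgroup G).index := P.card_coprime_index
    obtain ⟨K, hK⟩ := Subgroup.exists_right_complement'_of_coprime hcop
    have hcardK : Nat.card K = (P : Subgroup G).index := hK.symm.index_eq_card.symm
    have hcopK : (Nat.card (P : Subgroup G)).Coprime (Nat.card K) := by rw [hcardK]; exact hcop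
    have hcommPK : ∀ a ∈ (P : Subgroup G), ∀ b ∈ K, a * b = b * a := by
      intro a ha b hb
      haveI := hG
      apply CfsgLib.TransNil.commute_of_coprime G a b
      have h1 : orderOf a ∣ Nat.card (P : Subgroup G) := Subgroup.orderOf_dvd_natCard _ ha
      have h2 : orderOf b ∣ Nat.card K := Subgroup.orderOf_dvd_natCard _ hb
      exact Nat.Coprime.coprime_dvd_left h1 (Nat.Coprime.coprime_dvd_right h2 hcopK)
    have hCy := hcen y hyZ
    have hKC : K ≤ Subgroup.centralizer ({y} : Set G) := by
      intro b hb
      rw [Subgroup.mem_centralizer_singleton_iff]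
      exact (hcommPK y hyP b hb).symm
    have hKcyc : IsCyclic K := by
      haveI := hCy
      exact isCyclic_of_injective (Subgroup.inclusion hKC) (Subgroup.inclusion_injective hKC)
    let f : (↥(P : Subgroup G)) × K →* G := MonoidHom.noncommCoprod (P : Subgroup G).subtype K.subtype (fun a b => hcommPK a a.2 b b.2)
    have hf : Function.Bijective f := hK
    let e : (↥(P : Subgroup G)) × K ≃* G := MulEquiv.ofBijective f hf
    -- central elements of `P` are central in `G`
    have hZ : ∀ z ∈ (P : Subgroup G), (∀ a ∈ (P : Subgroup G), z * a = a * z) → z ∈ Subgroup.center G := by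
      intro z hz hza
      rw [Subgroup.mem_center_iff]
      intro g
      obtain ⟨⟨a, b⟩, rfl⟩ := hf.2 g
      change (a : G) * b * z = z * (a * b)
      rw [← mul_assoc, hza a a.2, mul_assoc, ← hcommPK z hz b b.2, mul_assoc]
    have hPnt : (P : Subgroup G) ≠ ⊥ := by
      intro h
      rw [h, Subgroup.mem_bot] at hyP
      exact hyZ (by rw [hyP]; exact one_mem _)
    haveI : Nontrivial (P : Subgroup G) := (Subgroup.nontrivial_iff_ne_bot _).mpr hPnt
    obtain ⟨z, hz⟩ : ∃ z : Subgroup.center (P : Subgroup G), orderOf z = p := by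
      haveI := P.isPGroup'.center_nontrivial
      apply exists_prime_orderOf_dvd_card' p
      obtain ⟨n, hn⟩ := IsPGroup.iff_card.mp (P.isPGroup'.to_subgroup (Subgroup.center (P : Subgroup G)))
      rw [hn]
      apply dvd_pow_self
      rintro rfl
      rw [pow_zero] at hn
      have := Finite.one_lt_card (α := Subgroup.center (P : Subgroup G))
      omega
    have hzZ : ((z : (P : Subgroup G)) : G) ∈ Subgroup.center G := by
      apply hZ _ (z : (P : Subgroup G)).2
      intro a ha
      exact congrArg Subtype.val (Subgroup.mem_center_iff.mp z.2 ⟨a, ha⟩).symm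
    have hz' : orderOf ((z : (P : Subgroup G)) : G) = p := by
      rw [Subgroup.orderOf_coe, Subgroup.orderOf_coe, hz]
    have hzp : ∀ h ∈ (P : Subgroup G), orderOf h = p → Subgroup.zpowers h = Subgroup.zpowers ((z : (P : Subgroup G)) : G) := by
      intro h hh hhp
      by_cases hhZ : h ∈ Subgroup.center G
      · apply zpowers_eq_of_cyclic hCy _ _ (hhp.trans hz'.symm)
        · rw [Subgroup.mem_centralizer_singleton_iff]; exact (Subgroup.mem_center_iff.mp hhZ y).symm
        · rw [Subgroup.mem_centralizer_singleton_iff]; exact (Subgroup.mem_center_iff.mp hzZ y).symm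
      · apply zpowers_eq_of_cyclic (hcen h hhZ) _ _ (hhp.trans hz'.symm)
        · rw [Subgroup.mem_centralizer_singleton_iff]
        · rw [Subgroup.mem_centralizer_singleton_iff]; exact (Subgroup.mem_center_iff.mp hzZ h).symm
    have huniq : ∀ A B : Subgroup (P : Subgroup G), Nat.card A = p → Nat.card B = p → A = B := by
      have key : ∀ A : Subgroup (P : Subgroup G), Nat.card A = p → A.map (P : Subgroup G).subtype = Subgroup.zpowers ((z : (P : Subgroup G)) : G) := by
        intro A hA
        haveI : Nontrivial A := (Finite.one_lt_card_iff_nontrivial).mp (by rw [hA]; exact hp.out.one_lt)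
        obtain ⟨a, ha⟩ := exists_ne (1 : A)
        have e1 : (a : (P : Subgroup G)) ^ p = 1 := by
          have := pow_card_eq_one' (x := a)
          rw [hA] at this
          exact congrArg Subtype.val this
        have e2 : orderOf (a : (P : Subgroup G)) = p := orderOf_eq_prime e1 (fun e => ha (Subtype.ext e))
        have e3 := hzp ((a : (P : Subgroup G)) : G) (a : (P : Subgroup G)).2 (by rw [Subgroup.orderOf_coe, e2])
        rw [← e3]
        symm
        apply Subgroup.eq_of_le_of_card_ge
        · rw [Subgroup.zpowers_le]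
          exact ⟨_, a.2, rfl⟩
        · rw [Subgroup.card_map_of_injective (P : Subgroup G).subtype_injective, hA, Nat.card_zpowers, Subgroup.orderOf_coe, e2]
      intro A B hA hB
      apply Subgroup.map_injective (P : Subgroup G).subtype_injective
      rw [key A hA, key B hB]
    have hPnc : ¬ (∀ a b : (P : Subgroup G), a * b = b * a) := by
      intro h
      apply hyZ
      apply hZ y hyP
      intro a ha
      exact congrArg Subtype.val (h ⟨y, hyP⟩ ⟨a, ha⟩)
    rcases Cfsg.Agent.S0016.result p P.isPGroup' huniq with hcyc | ⟨hp2, n, ⟨eq⟩⟩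
    · exfalso
      apply hPnc
      intro a b
      obtain ⟨g, hg⟩ := hcyc.exists_generator
      obtain ⟨i, rfl⟩ := hg a
      obtain ⟨j, rfl⟩ := hg b
      simp only [← zpow_add, add_comm]
    · subst hp2
      refine ⟨n, Nat.card K, ?_, ?_, ?_⟩
      · by_contra hn
        have hn0 : n = 0 := by omega
        subst hn0
        apply hPnc
        have h2 : IsCyclic (QuaternionGroup (2 ^ 0)) := by
          rw [pow_zero]; exact QuaternionGroup.quaternionGroup_one_isCyclic
        have hcyc : IsCyclic (P : Subgroup G) := isCyclic_of_surjective eq.symm eq.symm.surjective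
        intro a b
        obtain ⟨g, hg⟩ := hcyc.exists_generator
        obtain ⟨i, rfl⟩ := hg a
        obtain ⟨j, rfl⟩ := hg b
        simp only [← zpow_add, add_comm]
      · rw [hcardK, ← Nat.not_even_iff_odd, even_iff_two_dvd]
        exact P.not_dvd_index
      · haveI := hKcyc
        exact ⟨e.symm.trans (MulEquiv.prodCongr eq (zmodCyclicMulEquiv hKcyc).symm)⟩
  · rintro ⟨k, m, hk, hm, ⟨e⟩⟩ x hx
    have hm0 : m ≠ 0 := by rintro rfl; exact absurd hm (by decide)
    haveI : NeZero m := ⟨hm0⟩
    haveI : NeZero (2 ^ k) := ⟨by positivity⟩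
    set q := (e x).1 with hq
    have hqc : q ∉ Subgroup.center (QuaternionGroup (2 ^ k)) := by
      intro h
      apply hx
      rw [Subgroup.mem_center_iff]
      intro g
      apply e.injective
      rw [map_mul, map_mul]
      apply Prod.ext
      · exact Subgroup.mem_center_iff.mp h (e g).1
      · exact mul_comm _ _
    have h1 := centralizer_cyclic hk q hqc
    let g : Subgroup.centralizer ({x} : Set G) →* (Subgroup.centralizer ({q} : Set (QuaternionGroup (2 ^ k)))) × Multiplicative (ZMod m) :=
      { toFun := fun y => (⟨(e y).1, by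
          rw [Subgroup.mem_centralizer_singleton_iff]
          have h2 := Subgroup.mem_centralizer_singleton_iff.mp y.2
          have h3 := congrArg (fun w => (e w).1) h2
          simp only [map_mul, Prod.fst_mul] at h3
          exact h3⟩, (e y).2)
        map_one' := by
          apply Prod.ext
          · apply Subtype.ext; simp
          · simp
        map_mul' := fun y z => by
          apply Prod.ext
          · apply Subtype.ext; simp
          · simp }
    have hg : Function.Injective g := by
      intro y z h
      apply Subtype.ext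
      apply e.injective
      have h5 : (g y).1 = (g z).1 := congrArg Prod.fst h
      have h6 : (g y).2 = (g z).2 := congrArg Prod.snd h
      apply Prod.ext
      · exact congrArg Subtype.val h5
      · exact h6
    have hcyc : IsCyclic ((Subgroup.centralizer ({q} : Set (QuaternionGroup (2 ^ k)))) × Multiplicative (ZMod m)) := by
      rw [Group.isCyclic_prod_iff]
      refine ⟨h1, inferInstance, ?_⟩
      have h3 : Nat.card (Subgroup.centralizer ({q} : Set (QuaternionGroup (2 ^ k)))) ∣ 2 ^ (k + 2) := by
        have : Nat.card (QuaternionGroup (2 ^ k)) = 2 ^ (k + 2) := by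
          rw [Nat.card_eq_fintype_card, QuaternionGroup.card]; ring
        rw [← this]
        exact Subgroup.card_subgroup_dvd_card _
      have h4 : Nat.card (Multiplicative (ZMod m)) = m := by simp
      rw [h4]
      exact Nat.Coprime.coprime_dvd_left h3 (Nat.Coprime.pow_left _ (Nat.coprime_two_left.mpr hm))
    haveI := hcyc
    exact isCyclic_of_injective g hg

end Cfsg.Agent.S4370
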