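import Cfsg.Statements.S4376
import Mathlib
import Cfsg.Agent.LibH7OrdType

set_option autoImplicit false
open Cfsg

namespace Cfsg.Agent.S4376

open CfsgLib.H7OT

instance : Fact (Nat.Prime 7) := ⟨by norm_num⟩
instance : Fact (Nat.Prime 3) := ⟨by norm_num⟩

/-- a character of a cyclic group -/
def chr (n m : ℕ) [NeZero n] (u : ZMod m) (hu : u ^ n = 1) : Multiplicative (ZMod n) →* ZMod m where
  toFun x := u ^ (Multiplicative.toAdd x).val
  map_one' := by simp
  map_mul' x y := by
    rw [toAdd_mul, ZMod.val_add, ← pow_eq_pow_mod _ hu, pow_add]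

abbrev C2 := Multiplicative (ZMod 2)
abbrev C3 := Multiplicative (ZMod 3)
abbrev C4 := Multiplicative (ZMod 4)
abbrev C7 := Multiplicative (ZMod 7)
abbrev D8 := Aff 4 C2 (chr 2 4 (-1) (by decide))

/-- characters of `D8` -/
def dchr (m : ℕ) (a b : ZMod m) (ha : a ^ 2 = 1) (hb : b ^ 2 = 1) : D8 →* ZMod m where
  toFun x := a ^ x.v.val * b ^ (Multiplicative.toAdd x.k).val
  map_one' := by
    rw [Aff.one_v, Aff.one_k]; simp
  map_mul' x y := by
    have h1 : ∀ x y : D8, (x * y).v.val % 2 = (x.v.val + y.v.val) % 2 := by decide +kernel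
    have h2 : ∀ x y : D8, (Multiplicative.toAdd (x * y).k).val % 2 =
      ((Multiplicative.toAdd x.k).val + (Multiplicative.toAdd y.k).val) % 2 := by decide +kernel
    have h3 : a ^ (x * y).v.val = a ^ x.v.val * a ^ y.v.val := by
      rw [← pow_add, pow_eq_pow_mod _ ha, h1, ← pow_eq_pow_mod _ ha]
    have h4 : b ^ (Multiplicative.toAdd (x * y).k).val =
        b ^ (Multiplicative.toAdd x.k).val * b ^ (Multiplicative.toAdd y.k).val := by
      rw [← pow_add, pow_eq_pow_mod _ hb, h2, ← pow_eq_pow_mod _ hb]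
    rw [h3, h4]; ring

abbrev s47 : C4 →* ZMod 7 := chr 4 7 (-1) (by decide)
abbrev s27 : C2 →* ZMod 7 := chr 2 7 (-1) (by decide)
abbrev s23 : C2 →* ZMod 3 := chr 2 3 (-1) (by decide)
abbrev w37 : C3 →* ZMod 7 := chr 3 7 2 (by decide)

abbrev K12 := C4 × C3
abbrev x1 : K12 →* ZMod 7 := s47.comp (MonoidHom.fst _ _)
abbrev x2 : K12 →* ZMod 7 := s47.comp (MonoidHom.fst _ _) * w37.comp (MonoidHom.snd _ _)

abbrev K24 := D8 × C3
abbrev y1 : K24 →* ZMod 7 := (dchr 7 (-1) 1 (by decide) (by decide)).comp (MonoidHom.fst _ _) * w37.comp (MonoidHom.snd _ _)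
abbrev y2 : K24 →* ZMod 3 := (dchr 3 (-1) (-1) (by decide) (by decide)).comp (MonoidHom.fst _ _)

abbrev K16 := D8 × C2
abbrev a1 : K16 →* ZMod 7 := s27.comp (MonoidHom.snd _ _)
abbrev a2 : K16 →* ZMod 7 := (dchr 7 1 (-1) (by decide) (by decide)).comp (MonoidHom.fst _ _) * s27.comp (MonoidHom.snd _ _)
abbrev a3 : K16 →* ZMod 3 := (dchr 3 (-1) 1 (by decide) (by decide)).comp (MonoidHom.fst _ _) * s23.comp (MonoidHom.snd _ _)
abbrev b1 : K16 →* ZMod 7 := (dchr 7 (-1) 1 (by decide) (by decide)).comp (MonoidHom.fst _ _)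
abbrev b3 : K16 →* ZMod 3 := s23.comp (MonoidHom.snd _ _)

abbrev G21 := Aff 7 C3 w37
abbrev G28 := Aff 7 C4 s47
abbrev G84 := Aff 7 K12 x2
abbrev G196 := Aff 7 (Aff 7 C4 s47) (s47.comp (Aff.proj 7 C4 s47))
abbrev G588 := Aff 7 (Aff 7 K12 x1) (x2.comp (Aff.proj 7 K12 x1))
abbrev G504 := Aff 3 (Aff 7 K24 y1) (y2.comp (Aff.proj 7 K24 y1))
abbrev G2352a := Aff 3 (Aff 7 (Aff 7 K16 a1) (a2.comp (Aff.proj 7 K16 a1))) ((a3.comp (Aff.proj 7 K16 a1)).comp (Aff.proj 7 _ _))
abbrev G2352b := Aff 3 (Aff 7 (Aff 7 K16 b1) (b1.comp (Aff.proj 7 K16 b1))) ((b3.comp (Aff.proj 7 K16 b1)).comp (Aff.proj 7 _ _))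

/-- vector of C2 -/
def vC2 : ℕ → ℕ := fun d => if d = 1 then 1 else if d = 2 then 2 else if d = 3 then 1 else if d = 4 then 2 else if d = 6 then 2 else if d = 7 then 1 else if d = 12 then 2 else if d = 14 then 2 else if d = 21 then 1 else if d = 28 then 2 else if d = 42 then 2 else 2

/-- vector of C3 -/
def vC3 : ℕ → ℕ := fun d => if d = 1 then 1 else if d = 2 then 1 else if d = 3 then 3 else if d = 4 then 1 else if d = 6 then 3 else if d = 7 then 1 else if d = 12 then 3 else if d = 14 then 1 else if d = 21 then 3 else if d = 28 then 1 else if d = 42 then 3 else 3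

/-- vector of C4 -/
def vC4 : ℕ → ℕ := fun d => if d = 1 then 1 else if d = 2 then 2 else if d = 3 then 1 else if d = 4 then 4 else if d = 6 then 2 else if d = 7 then 1 else if d = 12 then 4 else if d = 14 then 2 else if d = 21 then 1 else if d = 28 then 4 else if d = 42 then 2 else 4

/-- vector of C7 -/
def vC7 : ℕ → ℕ := fun d => if d = 1 then 1 else if d = 2 then 1 else if d = 3 then 1 else if d = 4 then 1 else if d = 6 then 1 else if d = 7 then 7 else if d = 12 then 1 else if d = 14 then 7 else if d = 21 then 7 else if d = 28 then 7 else if d = 42 then 7 else 7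

/-- vector of G21 -/
def vG21 : ℕ → ℕ := fun d => if d = 1 then 1 else if d = 2 then 1 else if d = 3 then 15 else if d = 4 then 1 else if d = 6 then 15 else if d = 7 then 7 else if d = 12 then 15 else if d = 14 then 7 else if d = 21 then 21 else if d = 28 then 7 else if d = 42 then 21 else 21

/-- vector of G28 -/
def vG28 : ℕ → ℕ := fun d => if d = 1 then 1 else if d = 2 then 2 else if d = 3 then 1 else if d = 4 then 16 else if d = 6 then 2 else if d = 7 then 7 else if d = 12 then 16 else if d = 14 then 14 else if d = 21 then 7 else if d = 28 then 28 else if d = 42 then 14 else 28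

/-- vector of G84 -/
def vG84 : ℕ → ℕ := fun d => if d = 1 then 1 else if d = 2 then 2 else if d = 3 then 15 else if d = 4 then 16 else if d = 6 then 30 else if d = 7 then 7 else if d = 12 then 72 else if d = 14 then 14 else if d = 21 then 21 else if d = 28 then 28 else if d = 42 then 42 else 84

/-- vector of G196 -/
def vG196 : ℕ → ℕ := fun d => if d = 1 then 1 else if d = 2 then 2 else if d = 3 then 1 else if d = 4 then 100 else if d = 6 then 2 else if d = 7 then 49 else if d = 12 then 100 else if d = 14 then 98 else if d = 21 then 49 else if d = 28 then 196 else if d = 42 then 98 else 196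

/-- vector of G588 -/
def vG588 : ℕ → ℕ := fun d => if d = 1 then 1 else if d = 2 then 2 else if d = 3 then 15 else if d = 4 then 100 else if d = 6 then 30 else if d = 7 then 49 else if d = 12 then 324 else if d = 14 then 98 else if d = 21 then 147 else if d = 28 then 196 else if d = 42 then 294 else 588

/-- vector of G504 -/
def vG504 : ℕ → ℕ := fun d => if d = 1 then 1 else if d = 2 then 22 else if d = 3 then 45 else if d = 4 then 64 else if d = 6 then 306 else if d = 7 then 7 else if d = 12 then 432 else if d = 14 then 70 else if d = 21 then 63 else if d = 28 then 112 else if d = 42 then 378 else 504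

/-- vector of G2352a -/
def vG2352a : ℕ → ℕ := fun d => if d = 1 then 1 else if d = 2 then 408 else if d = 3 then 3 else if d = 4 then 512 else if d = 6 then 468 else if d = 7 then 49 else if d = 12 then 768 else if d = 14 then 1176 else if d = 21 then 147 else if d = 28 then 1568 else if d = 42 then 1764 else 2352

/-- vector of G2352b -/
def vG2352b : ℕ → ℕ := fun d => if d = 1 then 1 else if d = 2 then 408 else if d = 3 then 3 else if d = 4 then 800 else if d = 6 then 612 else if d = 7 then 49 else if d = 12 then 1200 else if d = 14 then 1176 else if d = 21 then 147 else if d = 28 then 1568 else if d = 42 then 1764 else 2352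

/-- vector of AG -/
def vAG : ℕ → ℕ := fun d => if d = 1 then 1 else if d = 2 then 8 else if d = 3 then 57 else if d = 4 then 8 else if d = 6 then 120 else if d = 7 then 49 else if d = 12 then 120 else if d = 14 then 56 else if d = 21 then 105 else if d = 28 then 56 else if d = 42 then 168 else 168

/-- vector of GL -/
def vGL : ℕ → ℕ := fun d => if d = 1 then 1 else if d = 2 then 22 else if d = 3 then 57 else if d = 4 then 64 else if d = 6 then 78 else if d = 7 then 49 else if d = 12 then 120 else if d = 14 then 70 else if d = 21 then 105 else if d = 28 then 112 else if d = 42 then 126 else 168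

theorem good_C2 : Good C2 vC2 := by
  apply good_of
  · intro d hd
    rw [nn_eq_sum]
    revert d
    decide +kernel
  · rw [Nat.card_eq_fintype_card]; decide +kernel

theorem good_C3 : Good C3 vC3 := by
  apply good_of
  · intro d hd
    rw [nn_eq_sum]
    revert d
    decide +kernel
  · rw [Nat.card_eq_fintype_card]; decide +kernel

theorem good_C4 : Good C4 vC4 := by
  apply good_of
  · intro d hd
    rw [nn_eq_sum]
    revert d
    decide +kernel
  · rw [Nat.card_eq_fintype_card]; decide +kernel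

theorem good_C7 : Good C7 vC7 := by
  apply good_of
  · intro d hd
    rw [nn_eq_sum]
    revert d
    decide +kernel
  · rw [Nat.card_eq_fintype_card]; decide +kernel

theorem good_G21 : Good G21 vG21 := by
  apply good_of
  · intro d hd
    rw [nn_aff1]
    revert d
    decide +kernel
  · rw [Nat.card_eq_fintype_card]; decide +kernel

theorem good_G28 : Good G28 vG28 := by
  apply good_of
  · intro d hd
    rw [nn_aff1]
    revert d
    decide +kernel
  · rw [Nat.card_eq_fintype_card]; decide +kernel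

theorem good_G84 : Good G84 vG84 := by
  apply good_of
  · intro d hd
    rw [nn_aff1]
    revert d
    decide +kernel
  · rw [Nat.card_eq_fintype_card]; decide +kernel

theorem good_G196 : Good G196 vG196 := by
  apply good_of
  · intro d hd
    rw [nn_aff2]
    revert d
    decide +kernel
  · rw [Nat.card_eq_fintype_card]; decide +kernel

theorem good_G588 : Good G588 vG588 := by
  apply good_of
  · intro d hd
    rw [nn_aff2]
    revert d
    decide +kernel
  · rw [Nat.card_eq_fintype_card]; decide +kernel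

theorem good_G504 : Good G504 vG504 := by
  apply good_of
  · intro d hd
    rw [nn_aff2]
    revert d
    decide +kernel
  · rw [Nat.card_eq_fintype_card]; decide +kernel

theorem good_G2352a : Good G2352a vG2352a := by
  apply good_of
  · intro d hd
    rw [nn_aff3]
    revert d
    decide +kernel
  · rw [Nat.card_eq_fintype_card]; decide +kernel

theorem good_G2352b : Good G2352b vG2352b := by
  apply good_of
  · intro d hd
    rw [nn_aff3]
    revert d
    decide +kernel
  · rw [Nat.card_eq_fintype_card]; decide +kernel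


section GLsec

/-- Boolean matrices -/
abbrev BM := (Bool × Bool × Bool) × (Bool × Bool × Bool) × (Bool × Bool × Bool)

/-- product of a row with a Boolean matrix -/
def rowmul (r : Bool × Bool × Bool) (y : BM) : Bool × Bool × Bool :=
  (xor (r.1 && y.1.1) (xor (r.2.1 && y.2.1.1) (r.2.2 && y.2.2.1)),
   xor (r.1 && y.1.2.1) (xor (r.2.1 && y.2.1.2.1) (r.2.2 && y.2.2.2.1)),
   xor (r.1 && y.1.2.2) (xor (r.2.1 && y.2.1.2.2) (r.2.2 && y.2.2.2.2)))

/-- product of Boolean matrices -/
def bmul (x y : BM) : BM := (rowmul x.1 y, rowmul x.2.1 y, rowmul x.2.2 y)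

/-- identity -/
def bone : BM := ((true, false, false), (false, true, false), (false, false, true))

/-- Booleans to `ZMod 2` -/
def z (b : Bool) : ZMod 2 := if b then 1 else 0

theorem z_xor (a b : Bool) : z (xor a b) = z a + z b := by revert a b; decide
theorem z_and (a b : Bool) : z (a && b) = z a * z b := by revert a b; decide
theorem z_inj {a b : Bool} (h : z a = z b) : a = b := by revert a b; decide

/-- to matrices -/
def toM (x : BM) : Matrix (Fin 3) (Fin 3) (ZMod 2) :=
  !![z x.1.1, z x.1.2.1, z x.1.2.2; z x.2.1.1, z x.2.1.2.1, z x.2.1.2.2;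
    z x.2.2.1, z x.2.2.2.1, z x.2.2.2.2]

theorem toM_mul (x y : BM) : toM (bmul x y) = toM x * toM y := by
  ext i j
  rw [Matrix.mul_apply, Fin.sum_univ_three]
  fin_cases i <;> fin_cases j <;> simp [toM, bmul, rowmul, z_xor, z_and, add_assoc]

theorem toM_one : toM bone = 1 := by decide

theorem toM_inj : Function.Injective toM := by
  rintro ⟨⟨a, b, c⟩, ⟨d, e, f⟩, ⟨g, h, i⟩⟩ ⟨⟨a', b', c'⟩, ⟨d', e', f'⟩, ⟨g', h', i'⟩⟩ hxy
  have h00 := congrFun (congrFun hxy 0) 0
  have h01 := congrFun (congrFun hxy 0) 1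
  have h02 := congrFun (congrFun hxy 0) 2
  have h10 := congrFun (congrFun hxy 1) 0
  have h11 := congrFun (congrFun hxy 1) 1
  have h12 := congrFun (congrFun hxy 1) 2
  have h20 := congrFun (congrFun hxy 2) 0
  have h21 := congrFun (congrFun hxy 2) 1
  have h22 := congrFun (congrFun hxy 2) 2
  simp [toM] at h00 h01 h02 h10 h11 h12 h20 h21 h22
  rw [z_inj h00, z_inj h01, z_inj h02, z_inj h10, z_inj h11, z_inj h12, z_inj h20, z_inj h21, z_inj h22]

theorem toM_bij : Function.Bijective toM := by
  rw [Fintype.bijective_iff_injective_and_card]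
  refine ⟨toM_inj, ?_⟩
  rw [show Fintype.card (Matrix (Fin 3) (Fin 3) (ZMod 2)) = Fintype.card (Fin 3 → Fin 3 → ZMod 2) from rfl]
  simp [Fintype.card_prod, Fintype.card_bool, ZMod.card]

/-- powers -/
def p2 (x : BM) : BM := bmul x x
def p3 (x : BM) : BM := bmul (p2 x) x
def p4 (x : BM) : BM := bmul (p2 x) (p2 x)
def p6 (x : BM) : BM := bmul (p3 x) (p3 x)
def p7 (x : BM) : BM := bmul (p4 x) (p3 x)
def p12 (x : BM) : BM := bmul (p6 x) (p6 x)
def p14 (x : BM) : BM := bmul (p7 x) (p7 x)
def p21 (x : BM) : BM := bmul (p14 x) (p7 x)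
def p28 (x : BM) : BM := bmul (p14 x) (p14 x)
def p42 (x : BM) : BM := bmul (p21 x) (p21 x)
def p84 (x : BM) : BM := bmul (p42 x) (p42 x)

theorem t2 (x : BM) : toM (p2 x) = toM x ^ 2 := by rw [p2, toM_mul, pow_two]
theorem t3 (x : BM) : toM (p3 x) = toM x ^ 3 := by rw [p3, toM_mul, t2, ← pow_succ]
theorem t4 (x : BM) : toM (p4 x) = toM x ^ 4 := by rw [p4, toM_mul, t2, ← pow_add]
theorem t6 (x : BM) : toM (p6 x) = toM x ^ 6 := by rw [p6, toM_mul, t3, ← pow_add]
theorem t7 (x : BM) : toM (p7 x) = toM x ^ 7 := by rw [p7, toM_mul, t4, t3, ← pow_add]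
theorem t12 (x : BM) : toM (p12 x) = toM x ^ 12 := by rw [p12, toM_mul, t6, ← pow_add]
theorem t14 (x : BM) : toM (p14 x) = toM x ^ 14 := by rw [p14, toM_mul, t7, ← pow_add]
theorem t21 (x : BM) : toM (p21 x) = toM x ^ 21 := by rw [p21, toM_mul, t14, t7, ← pow_add]
theorem t28 (x : BM) : toM (p28 x) = toM x ^ 28 := by rw [p28, toM_mul, t14, ← pow_add]
theorem t42 (x : BM) : toM (p42 x) = toM x ^ 42 := by rw [p42, toM_mul, t21, ← pow_add]
theorem t84 (x : BM) : toM (p84 x) = toM x ^ 84 := by rw [p84, toM_mul, t42, ← pow_add]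

/-- powers -/
def pw (n : ℕ) (x : BM) : BM :=
  if n = 1 then x else if n = 2 then p2 x else if n = 3 then p3 x else if n = 4 then p4 x
  else if n = 6 then p6 x else if n = 7 then p7 x else if n = 12 then p12 x
  else if n = 14 then p14 x else if n = 21 then p21 x else if n = 28 then p28 x
  else if n = 42 then p42 x else p84 x

theorem toM_pw (n : ℕ) (hn : n ∈ Nat.divisors 84) (x : BM) : toM (pw n x) = toM x ^ n := by
  have : n = 1 ∨ n = 2 ∨ n = 3 ∨ n = 4 ∨ n = 6 ∨ n = 7 ∨ n = 12 ∨ n = 14 ∨ n = 21 ∨ n = 28 ∨ n = 42 ∨ n = 84 := by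
    revert n; decide
  rcases this with rfl | rfl | rfl | rfl | rfl | rfl | rfl | rfl | rfl | rfl | rfl | rfl
  · exact (pow_one _).symm
  · exact t2 x
  · exact t3 x
  · exact t4 x
  · exact t6 x
  · exact t7 x
  · exact t12 x
  · exact t14 x
  · exact t21 x
  · exact t28 x
  · exact t42 x
  · exact t84 x

abbrev GL3 := (Matrix (Fin 3) (Fin 3) (ZMod 2))ˣ

theorem nn_GL (n : ℕ) (hn : n ∈ Nat.divisors 84) :
    nn GL3 n = Fintype.card {x : BM // pw n x = bone} := by
  have hn0 : n ≠ 0 := by
    rintro rfl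
    simp at hn
  have e1 : {g : GL3 // g ^ n = 1} ≃ {A : Matrix (Fin 3) (Fin 3) (ZMod 2) // A ^ n = 1} :=
    { toFun := fun g => ⟨g.1.1, by
        have := congrArg Units.val g.2
        rwa [Units.val_pow_eq_pow_val, Units.val_one] at this⟩
      invFun := fun A => ⟨Units.ofPowEqOne A.1 n A.2 hn0, Units.ext (by
        rw [Units.val_pow_eq_pow_val, Units.val_ofPowEqOne, A.2, Units.val_one])⟩
      left_inv := fun g => Subtype.ext (Units.ext rfl)
      right_inv := fun A => Subtype.ext rfl }
  have e2 : {x : BM // pw n x = bone} ≃ {A : Matrix (Fin 3) (Fin 3) (ZMod 2) // A ^ n = 1} :=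
    (Equiv.ofBijective toM toM_bij).subtypeEquiv (fun x => by
      change pw n x = bone ↔ toM x ^ n = 1
      rw [← toM_pw n hn, ← toM_one]
      exact toM_inj.eq_iff.symm)
  change Nat.card _ = _
  rw [Nat.card_congr e1, ← Nat.card_congr e2, Nat.card_eq_fintype_card]

theorem good_GL : Good GL3 vGL := by
  apply good_of
  · intro d hd
    rw [nn_GL d hd, Fintype.card_subtype]
    revert d
    decide +kernel
  · have h1 : vGL 84 = 168 := by decide
    rw [h1]
    have h2 := Matrix.card_GL_field (𝔽 := ZMod 2) (n := 3)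
    have h3 : Nat.card GL3 = 168 := by
      refine h2.trans ?_
      rw [ZMod.card]
      decide
    exact h3.symm

end GLsec


section AG

abbrev V8 := ZMod 2 × ZMod 2 × ZMod 2

/-- multiplication by a generator of `F_8` -/
def Cm : AddMonoid.End V8 where
  toFun x := (x.2.2, x.1 + x.2.2, x.2.1)
  map_zero' := rfl
  map_add' := by decide +kernel

/-- Frobenius -/
def Fr : AddMonoid.End V8 where
  toFun x := (x.1, x.2.2, x.2.1 + x.2.2)
  map_zero' := rfl
  map_add' := by decide +kernel

theorem end_ext {f g : AddMonoid.End V8} (h : ∀ x, f x = g x) : f = g := AddMonoidHom.ext h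

theorem Cm7 : Cm ^ 7 = 1 := end_ext (by decide +kernel)
theorem Fr3 : Fr ^ 3 = 1 := end_ext (by decide +kernel)
theorem FrCm : Fr * Cm = Cm ^ 2 * Fr := end_ext (by decide +kernel)

theorem FrCm' (a b : ℕ) : Fr ^ b * Cm ^ a = Cm ^ (2 ^ b * a) * Fr ^ b := by
  have h1 : ∀ a, Fr * Cm ^ a = Cm ^ (2 * a) * Fr := by
    intro a
    induction a with
    | zero => simp
    | succ a ih =>
      rw [pow_succ, ← mul_assoc, ih, mul_assoc, FrCm, ← mul_assoc, ← pow_add]
      congr 2
  induction b generalizing a with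
  | zero => simp
  | succ b ih =>
    rw [pow_succ, mul_assoc, h1, ← mul_assoc, ih, mul_assoc]
    congr 2
    ring

/-- the action of `7:3` on `F_8` -/
def rho : G21 →* AddMonoid.End V8 where
  toFun k := Cm ^ k.v.val * Fr ^ (Multiplicative.toAdd k.k).val
  map_one' := by
    rw [Aff.one_v, Aff.one_k]; simp
  map_mul' x y := by
    have h1 : ∀ x y : G21, (x * y).v.val % 7 =
      (x.v.val + 2 ^ (Multiplicative.toAdd x.k).val * y.v.val) % 7 := by decide +kernel
    have h2 : ∀ x y : G21, (Multiplicative.toAdd (x * y).k).val % 3 =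
      ((Multiplicative.toAdd x.k).val + (Multiplicative.toAdd y.k).val) % 3 := by decide +kernel
    have h3 : Cm ^ (x * y).v.val = Cm ^ x.v.val * Cm ^ (2 ^ (Multiplicative.toAdd x.k).val * y.v.val) := by
      rw [← pow_add, pow_eq_pow_mod _ Cm7, h1, ← pow_eq_pow_mod _ Cm7]
    have h4 : Fr ^ (Multiplicative.toAdd (x * y).k).val =
        Fr ^ (Multiplicative.toAdd x.k).val * Fr ^ (Multiplicative.toAdd y.k).val := by
      rw [← pow_add, pow_eq_pow_mod _ Fr3, h2, ← pow_eq_pow_mod _ Fr3]
    rw [h3, h4, mul_assoc (Cm ^ x.v.val), ← mul_assoc (Cm ^ (2 ^ _ * _)), ← FrCm']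
    simp only [mul_assoc]

/-- The group `AΓL(1,8)`. -/
@[ext] structure AG where
  /-- vector part -/
  v : V8
  /-- group part -/
  k : G21

namespace AG

/-- equivalence with a product type -/
def equiv : AG ≃ V8 × G21 where
  toFun x := (x.v, x.k)
  invFun y := ⟨y.1, y.2⟩
  left_inv _ := rfl
  right_inv _ := rfl

instance : DecidableEq AG := fun a b =>
  if h : a.v = b.v ∧ a.k = b.k then isTrue (AG.ext h.1 h.2) else isFalse (fun e => h ⟨e ▸ rfl, e ▸ rfl⟩)

instance : Fintype AG := Fintype.ofEquiv _ equiv.symm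

instance : Group AG where
  mul x y := ⟨x.v + rho x.k y.v, x.k * y.k⟩
  one := ⟨0, 1⟩
  inv x := ⟨-(rho x.k⁻¹ x.v), x.k⁻¹⟩
  mul_assoc x y z := by
    apply AG.ext
    · change (x.v + rho x.k y.v) + rho (x.k * y.k) z.v = x.v + rho x.k (y.v + rho y.k z.v)
      rw [map_mul, map_add, add_assoc]; rfl
    · exact mul_assoc _ _ _
  one_mul x := by
    apply AG.ext
    · change 0 + rho 1 x.v = x.v
      rw [map_one, zero_add]; rfl
    · exact one_mul _
  mul_one x := by
    apply AG.ext
    · change x.v + rho x.k 0 = x.v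
      rw [map_zero, add_zero]
    · exact mul_one _
  inv_mul_cancel x := by
    apply AG.ext
    · change -(rho x.k⁻¹ x.v) + rho x.k⁻¹ x.v = 0
      rw [neg_add_cancel]
    · exact inv_mul_cancel _

/-- the projection -/
def proj : AG →* G21 where
  toFun x := x.k
  map_one' := rfl
  map_mul' _ _ := rfl

end AG

theorem good_AG : Good AG vAG := by
  apply good_of
  · intro d hd
    rw [nn_eq_sum]
    revert d
    decide +kernel
  · rw [Nat.card_eq_fintype_card]; decide +kernel

theorem solv_AG : Group.IsSolvable AG := by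
  haveI : Group.IsSolvable G21 := Aff.isSolvable
  haveI : Group.IsSolvable AG.proj.ker := by
    apply isSolvable_of_comm
    rintro ⟨a, ha⟩ ⟨b, hb⟩
    apply Subtype.ext
    have ha' : a.k = 1 := ha
    have hb' : b.k = 1 := hb
    apply AG.ext
    · change a.v + rho a.k b.v = b.v + rho b.k a.v
      rw [ha', hb', map_one]
      exact add_comm _ _
    · change a.k * b.k = b.k * a.k
      rw [ha', hb']
  exact solvable_of_ker_le_range AG.proj.ker.subtype AG.proj (by rw [Subgroup.range_subtype])

end AG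


section Nonsolv

/-- elementary matrices -/
def EM (i j : Fin 3) : Matrix (Fin 3) (Fin 3) (ZMod 2) := 1 + Matrix.single i j 1

/-- elementary matrices as units -/
def EU (i j : Fin 3) : GL3 :=
  if h : EM i j * EM i j = 1 then ⟨EM i j, EM i j, h, h⟩ else 1

theorem EU_comm : ∀ i j k : Fin 3, (i ≠ j ∧ j ≠ k ∧ i ≠ k) →
    EU i j = EU i k * EU k j * (EU i k)⁻¹ * (EU k j)⁻¹ := by decide +kernel

theorem EU_ne : EU 0 1 ≠ 1 := by decide +kernel

theorem EU_mem (n : ℕ) : ∀ i j : Fin 3, i ≠ j → EU i j ∈ derivedSeries GL3 n := by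
  induction n with
  | zero => intro i j _; exact Subgroup.mem_top _
  | succ n ih =>
    intro i j hij
    obtain ⟨k, hik, hjk⟩ : ∃ k : Fin 3, i ≠ k ∧ j ≠ k := by
      revert i j; decide
    rw [EU_comm i j k ⟨hij, hjk, hik⟩]
    exact Subgroup.commutator_mem_commutator (ih i k hik) (ih k j hjk.symm)

theorem not_solv_GL : ¬ Group.IsSolvable GL3 := by
  rintro ⟨n, hn⟩
  have h := EU_mem n 0 1 (by decide)
  rw [hn, Subgroup.mem_bot] at h
  exact EU_ne h

end Nonsolv

instance : Group.IsSolvable AG := solv_AG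
instance isolv_aff (m : ℕ) (K : Type) [Group K] (χ : K →* ZMod m) [Group.IsSolvable K] :
    Group.IsSolvable (Aff m K χ) := Aff.isSolvable
instance isolv_pi (k : ℕ) (G : Type) [Group G] [Group.IsSolvable G] :
    Group.IsSolvable (Fin k → G) := isSolvable_pi k G

abbrev SG := C7 × (Fin 3 → C4) × (Fin 3 → G504) × (Fin 5 → G196) × (Fin 3 → G84) ×
  (Fin 3 → G2352a) × (Fin 3 → AG)
abbrev HG := (Fin 3 → GL3) × (Fin 4 → G21) × (Fin 2 → G588) × (Fin 9 → C2) × (Fin 3 → G2352b) ×
  (Fin 3 → C3) × (Fin 9 → G28)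

theorem vec_eq : ∀ d ∈ Nat.divisors 84,
    vC7 d * (vC4 d ^ 3 * (vG504 d ^ 3 * (vG196 d ^ 5 * (vG84 d ^ 3 * (vG2352a d ^ 3 * vAG d ^ 3))))) =
    vGL d ^ 3 * (vG21 d ^ 4 * (vG588 d ^ 2 * (vC2 d ^ 9 * (vG2352b d ^ 3 * (vC3 d ^ 3 * vG28 d ^ 9))))) := by
  decide +kernel

/-- There are finite groups G and H having the same number of elements of each order (the same order type) with G solvable and H not solvable. -/
theorem result :
    ∃ (G : Type) (_ : Group G) (_ : Finite G) (H : Type) (_ : Group H) (_ : Finite H),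
      Group.IsSolvable G ∧ ¬ Group.IsSolvable H ∧ ∀ n : ℕ, Nat.card {g : G // orderOf g = n} = Nat.card {h : H // orderOf h = n} := by
  refine ⟨SG, inferInstance, inferInstance, HG, inferInstance, inferInstance, ?_, ?_, ?_⟩
  · haveI : Group.IsSolvable C7 := inferInstance
    haveI : Group.IsSolvable (Fin 3 → C4) := inferInstance
    haveI : Group.IsSolvable (Fin 3 → G504) := inferInstance
    haveI : Group.IsSolvable (Fin 5 → G196) := inferInstance
    haveI : Group.IsSolvable (Fin 3 → G84) := inferInstance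
    haveI : Group.IsSolvable (Fin 3 → G2352a) := inferInstance
    haveI : Group.IsSolvable (Fin 3 → AG) := inferInstance
    infer_instance
  · intro h
    apply not_solv_GL
    let f : HG →* GL3 := (Pi.evalMonoidHom (fun _ : Fin 3 => GL3) 0).comp (MonoidHom.fst _ _)
    have hf : Function.Surjective f := fun x => ⟨(fun _ => x, 1), rfl⟩
    exact solvable_of_surjective hf
  · have hS := good_C7.prod ((good_C4.pi 3).prod ((good_G504.pi 3).prod ((good_G196.pi 5).prod
      ((good_G84.pi 3).prod ((good_G2352a.pi 3).prod (good_AG.pi 3))))))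
    have hH := (good_GL.pi 3).prod ((good_G21.pi 4).prod ((good_G588.pi 2).prod ((good_C2.pi 9).prod
      ((good_G2352b.pi 3).prod ((good_C3.pi 3).prod (good_G28.pi 9))))))
    apply order_type
    intro n
    rw [hS n, hH n]
    exact vec_eq _ (by rw [Nat.mem_divisors]; exact ⟨Nat.gcd_dvd_right _ _, by norm_num⟩)

end Cfsg.Agent.S4376
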