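import Cfsg.Statements.S4377
import Mathlib

set_option autoImplicit false
open Cfsg

namespace Cfsg.Agent.S4377

/-- decomposition of the set of elements whose order lies in `S` -/
noncomputable def orderEquiv (S : Set ℕ) (K : Type*) [Group K] :
    {g : K // orderOf g ∈ S} ≃ Σ d : S, {g : K // orderOf g = d} where
  toFun g := ⟨⟨orderOf g.1, g.2⟩, ⟨g.1, rfl⟩⟩
  invFun x := ⟨x.2.1, by rw [x.2.2]; exact x.1.2⟩
  left_inv g := rfl
  right_inv x := Sigma.subtype_ext (Subtype.ext x.2.2) rfl

theorem card_dvd_eq {G H : Type*} [Group G] [Group H] [Finite G] [Finite H] (S : Set ℕ)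
    (h : ∀ n ∈ S, Nat.card {g : G // orderOf g = n} = Nat.card {h : H // orderOf h = n}) :
    Nat.card {g : G // orderOf g ∈ S} = Nat.card {h : H // orderOf h ∈ S} := by
  have e : ∀ d : S, Nonempty ({g : G // orderOf g = d} ≃ {g : H // orderOf g = d}) := by
    intro d
    have h0 := h d.1 d.2
    exact Finite.card_eq.mp h0
  exact Nat.card_congr ((orderEquiv S G).trans
    ((Equiv.sigmaCongrRight fun d => Classical.choice (e d)).trans (orderEquiv S H).symm))

theorem card_pow_eq (G : Type*) [Group G] (n : ℕ) :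
    Nat.card {g : G // g ^ n = 1} = Nat.card {g : G // orderOf g ∈ {d : ℕ | d ∣ n}} := by
  apply Nat.card_congr
  apply Equiv.subtypeEquivRight
  intro g
  exact orderOf_dvd_iff_pow_eq_one.symm

theorem card_split (G : Type*) [Group G] [Finite G] (n : ℕ) :
    Nat.card {g : G // orderOf g ∈ {d : ℕ | d ∣ n}} =
      Nat.card {g : G // orderOf g ∈ {d : ℕ | d ∣ n ∧ d ≠ n}} + Nat.card {g : G // orderOf g = n} := by
  classical
  rw [← Nat.card_sum]
  apply Nat.card_congr
  have e1 : {g : G // orderOf g ∈ {d : ℕ | d ∣ n}} ≃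
    {g : G // (orderOf g ∈ {d : ℕ | d ∣ n ∧ d ≠ n}) ∨ orderOf g = n} := by
    apply Equiv.subtypeEquivRight
    intro g
    constructor
    · intro h
      by_cases h2 : orderOf g = n
      · exact Or.inr h2
      · exact Or.inl ⟨h, h2⟩
    · rintro (h | h)
      · exact h.1
      · rw [h]; exact dvd_refl n
  refine e1.trans (subtypeOrEquiv _ _ ?_)
  rw [Pi.disjoint_iff]
  intro g
  rw [Prop.disjoint_iff]
  rintro ⟨h1, h2⟩
  exact h1.2 h2

/-- Two finite groups have the same number of elements of each order if and only if, for every n, they have the same number of elements g with gⁿ = 1. -/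
theorem result {G H : Type*} [Group G] [Finite G] [Group H] [Finite H] :
    (∀ n : ℕ, Nat.card {g : G // orderOf g = n} = Nat.card {h : H // orderOf h = n}) ↔
      ∀ n : ℕ, Nat.card {g : G // g ^ n = 1} = Nat.card {h : H // h ^ n = 1} := by
  constructor
  · intro h n
    rw [card_pow_eq, card_pow_eq]
    exact card_dvd_eq _ (fun m _ => h m)
  · intro h n
    induction n using Nat.strong_induction_on with
    | _ n ih =>
      rcases Nat.eq_zero_or_pos n with rfl | hn
      · have h1 : IsEmpty {g : G // orderOf g = 0} :=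
          ⟨fun g => (orderOf_pos g.1).ne' g.2⟩
        have h2 : IsEmpty {g : H // orderOf g = 0} :=
          ⟨fun g => (orderOf_pos g.1).ne' g.2⟩
        rw [Nat.card_of_isEmpty, Nat.card_of_isEmpty]
      · have h1 := h n
        rw [card_pow_eq, card_pow_eq, card_split, card_split] at h1
        have h2 : Nat.card {g : G // orderOf g ∈ {d : ℕ | d ∣ n ∧ d ≠ n}} =
            Nat.card {g : H // orderOf g ∈ {d : ℕ | d ∣ n ∧ d ≠ n}} := by
          apply card_dvd_eq
          rintro m ⟨hm, hmn⟩
          exact ih m (lt_of_le_of_ne (Nat.le_of_dvd hn hm) hmn)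
        omega

end Cfsg.Agent.S4377
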