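import Cfsg.Statements.S4381
import Mathlib
import Cfsg.Agent.LibH7Masch
import Cfsg.Agent.LibLE10

set_option autoImplicit false
open Pointwise
open Cfsg

namespace Cfsg.Agent.S4381

open Subgroup
open scoped Pointwise commutatorElement

def Inv (A : Type*) {G : Type*} [Group A] [Group G] [MulDistribMulAction A G] (M : Subgroup G) : Prop :=
  ∀ a : A, ∀ x ∈ M, a • x ∈ M

def MI (A : Type*) {G : Type*} [Group A] [Group G] [MulDistribMulAction A G] (M : Subgroup G) : Prop :=
  M ≠ ⊤ ∧ (∀ a : A, ∀ x ∈ M, a • x ∈ M) ∧ ∀ L : Subgroup G, M < L → (∀ a : A, ∀ x ∈ L, a • x ∈ L) → L = ⊤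

variable {A G : Type*} [Group A] [Finite A] [Group G] [Finite G] [MulDistribMulAction A G]

theorem exists_MI {H : Subgroup G} (hH : Inv A H) (hne : H ≠ ⊤) : ∃ M : Subgroup G, MI A M ∧ H ≤ M := by
  obtain ⟨M, hM⟩ := (Set.toFinite {M : Subgroup G | M ≠ ⊤ ∧ Inv A M ∧ H ≤ M}).exists_maximal ⟨H, hne, hH, le_rfl⟩
  refine ⟨M, ⟨hM.1.1, hM.1.2.1, fun L hL hLi => ?_⟩, hM.1.2.2⟩
  by_contra hLt
  exact hL.not_ge (hM.2 ⟨hLt, hLi, hM.1.2.2.trans hL.le⟩ hL.le)

theorem inv_sup {H K : Subgroup G} (hH : Inv A H) (hK : Inv A K) : Inv A (H ⊔ K) := by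
  intro a
  have h1 : H ⊔ K ≤ (H ⊔ K).comap (MulDistribMulAction.toMonoidHom G a) := by
    refine sup_le ?_ ?_
    · intro x hx
      exact mem_sup_left (hH a x hx)
    · intro x hx
      exact mem_sup_right (hK a x hx)
  exact fun x hx => h1 hx

theorem inv_frattini : Inv A (frattini G) := by
  intro a x hx
  have h1 := Subgroup.characteristic_iff_map_eq.1 (inferInstance : (frattini G).Characteristic)
    (MulDistribMulAction.toMulAut A G a)
  rw [← h1]
  exact ⟨x, hx, rfl⟩

theorem frattini_le {M : Subgroup G} (hM : MI A M) : frattini G ≤ M := by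
  have h1 : M ⊔ frattini G ≠ ⊤ := fun h => hM.1 (frattini_nongenerating h)
  by_contra h2
  have h3 : M < M ⊔ frattini G := lt_of_le_of_ne le_sup_left (fun h => h2 (by rw [h]; exact le_sup_right))
  exact h1 (hM.2.2 _ h3 (inv_sup hM.2.1 inv_frattini))

theorem conj_eq {p : ℕ} [Fact p.Prime] (hG : IsPGroup p G) {M : Subgroup G} (hM : frattini G ≤ M) (c : G) :
    MulAut.conj c • M = M := by
  have h1 : M.Normal := by
    have h2 : commutator G ≤ M := (CfsgLib.LE.commutator_le_frattini hG).trans hM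
    refine ⟨fun x hx g => ?_⟩
    have h3 : ⁅g, x⁆ ∈ commutator G := commutator_mem_commutator (mem_top g) (mem_top x)
    have h4 := M.mul_mem (h2 h3) hx
    have e : ⁅g, x⁆ * x = g * x * g⁻¹ := by
      rw [commutatorElement_def]; group
    rwa [e] at h4
  apply CfsgLib.Coprime.conj_smul_eq_of_mem_normalizer
  rw [normalizer_eq_top]; trivial

/-- Let the finite group A act by automorphisms on the finite group G with the orders of A and G coprime, and assume that A or G is solvable. Call a proper A-invariant subgroup of G maximal A-invariant when no A-invariant subgroup lies strictly between it and G. Then all maximal A-invariant subgroups of G are conjugate under elements of the fixed-point subgroup C_G(A) if and only if G is a p-group for some prime p and A leaves invariant no subgroup strictly between the Frattini subgroup of G and G. In that case, if G is nontrivial, the Frattini subgroup is the only maximal A-invariant subgroup (a trivial G has none). -/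
theorem result {A G : Type*} [Group A] [Finite A]
    [Group G] [Finite G] [MulDistribMulAction A G] (hcop : (Nat.card A).Coprime (Nat.card G)) (hsol : Group.IsSolvable A ∨ Group.IsSolvable G) :
    ((∀ M N : Subgroup G, (M ≠ ⊤ ∧ (∀ a : A, ∀ x ∈ M, a • x ∈ M) ∧ ∀ L : Subgroup G, M < L → (∀ a : A, ∀ x ∈ L, a • x ∈ L) → L = ⊤) → (N ≠ ⊤ ∧ (∀ a : A, ∀ x ∈ N, a • x ∈ N) ∧ ∀ L : Subgroup G, N < L → (∀ a : A, ∀ x ∈ L, a • x ∈ L) → L = ⊤) →
        ∃ c : G, (∀ a : A, a • c = c) ∧ N = MulAut.conj c • M) ↔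
      ((∃ p : ℕ, p.Prime ∧ IsPGroup p G) ∧ ∀ L : Subgroup G, frattini G < L → (∀ a : A, ∀ x ∈ L, a • x ∈ L) → L = ⊤)) ∧
    (((∃ p : ℕ, p.Prime ∧ IsPGroup p G) ∧ ∀ L : Subgroup G, frattini G < L → (∀ a : A, ∀ x ∈ L, a • x ∈ L) → L = ⊤) →
      ∀ M : Subgroup G, (M ≠ ⊤ ∧ (∀ a : A, ∀ x ∈ M, a • x ∈ M) ∧ ∀ L : Subgroup G, M < L → (∀ a : A, ∀ x ∈ L, a • x ∈ L) → L = ⊤) ↔ (M = frattini G ∧ M ≠ ⊤)) := by
  have hsecond : ((∃ p : ℕ, p.Prime ∧ IsPGroup p G) ∧ ∀ L : Subgroup G, frattini G < L → (∀ a : A, ∀ x ∈ L, a • x ∈ L) → L = ⊤) →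
      ∀ M : Subgroup G, (M ≠ ⊤ ∧ (∀ a : A, ∀ x ∈ M, a • x ∈ M) ∧ ∀ L : Subgroup G, M < L → (∀ a : A, ∀ x ∈ L, a • x ∈ L) → L = ⊤) ↔ (M = frattini G ∧ M ≠ ⊤) := by
    rintro ⟨-, hΦ⟩ M
    constructor
    · intro hM
      have h1 : frattini G ≤ M := frattini_le (A := A) hM
      refine ⟨?_, hM.1⟩
      by_contra hne
      exact hM.1 (hΦ M (lt_of_le_of_ne h1 (Ne.symm hne)) hM.2.1)
    · rintro ⟨rfl, hne⟩
      exact ⟨hne, inv_frattini, hΦ⟩
  refine ⟨⟨?_, ?_⟩, hsecond⟩
  · intro h
    have hP : ∃ p : ℕ, p.Prime ∧ IsPGroup p G := by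
      by_cases htr : Nat.card G = 1
      · refine ⟨2, Nat.prime_two, ?_⟩
        exact IsPGroup.of_card (n := 0) (by rw [htr, pow_zero])
      obtain ⟨p, hp, hpd⟩ := Nat.exists_prime_and_dvd htr
      refine ⟨p, hp, ?_⟩
      by_contra hnp
      have hsyl : ∀ q : ℕ, q.Prime → ∃ R : Subgroup G, Inv A R ∧ Nat.card R = q ^ (Nat.card G).factorization q ∧ R ≠ ⊤ := by
        intro q hq
        haveI : Fact q.Prime := ⟨hq⟩
        obtain ⟨R, hR, hRc⟩ := CfsgLib.H7Masch.exists_sylow (A := A) hcop hsol q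
        refine ⟨R, hR, hRc, ?_⟩
        intro htop
        rw [htop, Subgroup.card_top] at hRc
        have hqG : IsPGroup q G := IsPGroup.of_card hRc
        have hpq : p = q := by
          rw [hRc] at hpd
          exact (Nat.prime_dvd_prime_iff_eq hp hq).1 (hp.dvd_of_dvd_pow hpd)
        rw [hpq] at hnp
        exact hnp hqG
      obtain ⟨R, hR, -, hRt⟩ := hsyl p hp
      obtain ⟨M, hM, -⟩ := exists_MI hR hRt
      have hdvd : Nat.card G ∣ Nat.card M := by
        rw [← Nat.factorization_prime_le_iff_dvd Nat.card_pos.ne' Nat.card_pos.ne']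
        intro q hq
        obtain ⟨R, hR, hRc, hRt⟩ := hsyl q hq
        obtain ⟨N, hN, hRN⟩ := exists_MI hR hRt
        obtain ⟨c, -, hc⟩ := h M N hM hN
        have h1 : Nat.card N = Nat.card M := by
          rw [hc]; exact (Nat.card_congr (Subgroup.equivSMul (MulAut.conj c) M).toEquiv).symm
        have h2 : q ^ (Nat.card G).factorization q ∣ Nat.card M := by
          rw [← hRc, ← h1]; exact Subgroup.card_dvd_of_le hRN
        exact (hq.pow_dvd_iff_le_factorization Nat.card_pos.ne').1 h2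
      exact hM.1 (Subgroup.eq_top_of_card_eq M (Nat.dvd_antisymm M.card_subgroup_dvd_card hdvd))
    refine ⟨hP, ?_⟩
    obtain ⟨p, hp, hpG⟩ := hP
    haveI : Fact p.Prime := ⟨hp⟩
    intro L hL hLi
    by_contra hLt
    obtain ⟨M, hM, hLM⟩ := exists_MI (A := A) hLi hLt
    have hall : ∀ N : Subgroup G, MI A N → N = M := by
      intro N hN
      obtain ⟨c, -, hc⟩ := h M N hM hN
      rw [hc]; exact conj_eq hpG (frattini_le hM) c
    -- the quotient
    letI : CommGroup (G ⧸ frattini G) :=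
      { (inferInstance : Group (G ⧸ frattini G)) with
        mul_comm := by
          intro a b
          have h1 : commutator G ≤ frattini G := CfsgLib.LE.commutator_le_frattini hpG
          obtain ⟨a, rfl⟩ := QuotientGroup.mk'_surjective _ a
          obtain ⟨b, rfl⟩ := QuotientGroup.mk'_surjective _ b
          have h2 : QuotientGroup.mk' (frattini G) (a * b * a⁻¹ * b⁻¹) = 1 :=
            (QuotientGroup.eq_one_iff _).2 (h1 (Subgroup.commutator_mem_commutator (Subgroup.mem_top a) (Subgroup.mem_top b)))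
          rw [map_mul, map_mul, map_mul, map_inv, map_inv, mul_inv_eq_one,
            mul_inv_eq_iff_eq_mul] at h2
          exact h2 }
    letI : MulDistribMulAction A (G ⧸ frattini G) := CfsgLib.H7Masch.quotAct (frattini G) (inv_frattini (A := A))
    have hsm : ∀ (a : A) (x : G), a • QuotientGroup.mk' (frattini G) x = QuotientGroup.mk' (frattini G) (a • x) :=
      fun a x => rfl
    have hV : ∀ v : G ⧸ frattini G, v ^ p = 1 := by
      intro v
      obtain ⟨x, rfl⟩ := QuotientGroup.mk'_surjective _ v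
      rw [← map_pow]
      exact (QuotientGroup.eq_one_iff _).2 (CfsgLib.LE.pow_mem_frattini hpG x)
    have hGp : p ∣ Nat.card G := by
      obtain ⟨n, hn⟩ := IsPGroup.iff_card.1 hpG
      rw [hn]
      refine dvd_pow_self p ?_
      rintro rfl
      rw [pow_zero] at hn
      haveI : Subsingleton G := (Nat.card_eq_one_iff_unique.1 hn).1
      exact hL.ne (Subsingleton.elim _ _)
    have hAp : (Nat.card A).Coprime p := Nat.Coprime.coprime_dvd_right hGp hcop
    set W := M.map (QuotientGroup.mk' (frattini G)) with hW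
    obtain ⟨U, hU, hWU, hWU'⟩ := CfsgLib.H7Masch.maschke hV hAp W (by
      rintro a _ ⟨x, hx, rfl⟩
      rw [hsm]
      exact ⟨a • x, hM.2.1 a x hx, rfl⟩)
    have hUt : U ≠ ⊤ := by
      intro hUt
      rw [hUt, inf_top_eq, hW, Subgroup.map_eq_bot_iff, QuotientGroup.ker_mk'] at hWU
      exact hL.not_ge (hLM.trans hWU)
    have hU' : Inv A (U.comap (QuotientGroup.mk' (frattini G))) := by
      intro a x hx
      rw [Subgroup.mem_comap] at hx ⊢
      rw [← hsm]
      exact hU a _ hx
    have hUt' : U.comap (QuotientGroup.mk' (frattini G)) ≠ ⊤ := by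
      intro h1
      apply hUt
      rw [← Subgroup.map_comap_eq_self_of_surjective (QuotientGroup.mk'_surjective (frattini G)) U, h1,
        ← MonoidHom.range_eq_map, MonoidHom.range_eq_top]
      exact QuotientGroup.mk'_surjective _
    obtain ⟨N, hN, hUN⟩ := exists_MI hU' hUt'
    rw [hall N hN] at hUN
    apply hM.1
    rw [eq_top_iff]
    have h1 : (⊤ : Subgroup G).map (QuotientGroup.mk' (frattini G)) ≤ W := by
      have h2 : U ≤ W := by
        rw [← Subgroup.map_comap_eq_self_of_surjective (QuotientGroup.mk'_surjective (frattini G)) U, hW]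
        exact Subgroup.map_mono hUN
      rw [sup_eq_left.2 h2] at hWU'
      rw [hWU']; exact le_top
    have h3 : M = W.comap (QuotientGroup.mk' (frattini G)) := by
      rw [hW, Subgroup.comap_map_eq, QuotientGroup.ker_mk', sup_eq_left.2 (frattini_le hM)]
    rw [h3]
    rwa [Subgroup.map_le_iff_le_comap] at h1
  · intro h M N hM hN
    have h1 := (hsecond h M).1 hM
    have h2 := (hsecond h N).1 hN
    refine ⟨1, fun a => smul_one a, ?_⟩
    rw [map_one, one_smul, h1.1, h2.1]

end Cfsg.Agent.S4381
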