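import Cfsg.Statements.S4387
import Mathlib

set_option autoImplicit false
open Pointwise
open Cfsg

namespace Cfsg.Agent.S4387

theorem conj_smul_normal {G : Type*} [Group G] (M : Subgroup G) (hM : M.Normal) (g : G) :
    MulAut.conj g • M = M := by
  ext x
  rw [Subgroup.mem_pointwise_smul_iff_inv_smul_mem]
  constructor
  · intro h
    have := hM.conj_mem _ h g
    simpa [mul_assoc] using this
  · intro h
    have := hM.conj_mem _ h g⁻¹
    simpa [mul_assoc] using this

/-- Let G be a non-trivial finite group in which any two maximal subgroups are conjugate. Then G is cyclic of prime-power order. -/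
theorem result {G : Type*} [Group G] [Finite G] [Nontrivial G]
    (h : ∀ M N : Subgroup G, IsCoatom M → IsCoatom N → ∃ g : G, N = MulAut.conj g • M) :
    IsCyclic G ∧ IsPrimePow (Nat.card G) := by
  classical
  -- a coatom
  obtain ⟨M, hM, -⟩ := (eq_top_or_exists_le_coatom (⊥ : Subgroup G)).resolve_left bot_ne_top
  have hcardconj : ∀ g : G, Nat.card ↥(MulAut.conj g • M : Subgroup G) = Nat.card M := by
    intro g
    exact (Nat.card_congr (Subgroup.equivSMul (MulAut.conj g) M).toEquiv).symm
  -- `G` is a `p`-group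
  obtain ⟨p, hp, P, hP⟩ : ∃ (p : ℕ) (_ : Fact p.Prime) (P : Sylow p G), (P : Subgroup G) = ⊤ := by
    by_contra hcon
    push Not at hcon
    have hdvd : Nat.card G ∣ Nat.card M := by
      rw [Nat.dvd_iff_prime_pow_dvd_dvd]
      intro p k hp hk
      haveI : Fact p.Prime := ⟨hp⟩
      obtain ⟨P⟩ : Nonempty (Sylow p G) := inferInstance
      have h1 := hcon p ⟨hp⟩ P
      obtain ⟨N, hN, hPN⟩ := (eq_top_or_exists_le_coatom (P : Subgroup G)).resolve_left h1
      obtain ⟨g, hg⟩ := h M N hM hN
      have h2 : p ^ k ∣ Nat.card P := P.pow_dvd_card_of_pow_dvd_card hk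
      have h3 : Nat.card P ∣ Nat.card N := Subgroup.card_dvd_of_le hPN
      rw [hg, hcardconj] at h3
      exact h2.trans h3
    have h1 : Nat.card M = Nat.card G :=
      Nat.dvd_antisymm (Subgroup.card_subgroup_dvd_card M) hdvd
    exact hM.1 (Subgroup.eq_top_of_card_eq M h1)
  have hG : IsPGroup p G := by
    have := P.isPGroup'
    rw [hP] at this
    exact this.of_surjective (Subgroup.topEquiv (G := G)).toMonoidHom
      (Subgroup.topEquiv (G := G)).surjective
  have hnorm : M.Normal :=
    ((Group.isNilpotent_of_finite_tfae (G := G)).out 0 2 rfl rfl).mp hG.isNilpotent M hM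
  obtain ⟨x, hx⟩ : ∃ x : G, x ∉ M := by
    by_contra hcon
    push Not at hcon
    exact hM.1 ((Subgroup.eq_top_iff' M).mpr hcon)
  have hcyc : Subgroup.zpowers x = ⊤ := by
    by_contra hne
    obtain ⟨N, hN, hxN⟩ := (eq_top_or_exists_le_coatom (Subgroup.zpowers x)).resolve_left hne
    obtain ⟨g, hg⟩ := h M N hM hN
    rw [conj_smul_normal M hnorm] at hg
    apply hx
    rw [← hg]
    exact hxN (Subgroup.mem_zpowers x)
  refine ⟨⟨⟨x, fun y => ?_⟩⟩, ?_⟩
  · change y ∈ Subgroup.zpowers x
    rw [hcyc]; exact Subgroup.mem_top y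
  · obtain ⟨n, hn, hcard⟩ := (hG.nontrivial_iff_card).mp inferInstance
    rw [hcard]
    exact (hp.out.isPrimePow).pow hn.ne'

end Cfsg.Agent.S4387
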