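import Cfsg.Statements.S4397
import Mathlib
import Cfsg.Agent.LibH7Sec
import Cfsg.Agent.LibFgBas
import Cfsg.Agent.LibSolvNilp
import Cfsg.Agent.LibSolvFrat
import Cfsg.Agent.LibLE10

set_option autoImplicit false
open Cfsg

namespace Cfsg.Agent.S4397

universe u

open Subgroup Cfsg

theorem idx {S : Type*} [Group S] [Finite S] (h2 : IsPGroup 2 S) (hr : SectionalPRankLE 2 2 S) : (frattini S).index ≤ 4 := by
  haveI : Fact (Nat.Prime 2) := ⟨Nat.prime_two⟩
  have h1 := CfsgLib.H7Sec.relIndex_le hr (frattini S) ⊤ (fun a _ b _ => by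
    have h3 : a * b * a⁻¹ * b⁻¹ ∈ commutator S := by
      rw [commutator_def]
      exact commutator_mem_commutator (mem_top a) (mem_top b)
    exact CfsgLib.SolvFrat.commutator_le_frattini Nat.prime_two h2 h3) (fun a _ => CfsgLib.LE.pow_mem_frattini h2 a)
  rwa [relIndex_top_right] at h1

theorem gen {S : Type*} [Group S] [Finite S] (hF : (frattini S).index ≤ 4) {a b : S} (hb : b ∉ frattini S)
    (ha : a ∉ frattini S ⊔ zpowers b) : zpowers b ⊔ zpowers a = ⊤ := by
  apply frattini_nongenerating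
  obtain ⟨F, hFd⟩ : ∃ F, F = frattini S := ⟨_, rfl⟩
  rw [← hFd] at hF hb ha ⊢
  have h1 : F ≤ F ⊔ zpowers b := le_sup_left
  have h2 : F ⊔ zpowers b ≤ F ⊔ zpowers b ⊔ zpowers a := le_sup_left
  have h3 : F.relIndex (F ⊔ zpowers b) ≠ 1 := fun h => hb (relIndex_eq_one.1 h (mem_sup_right (mem_zpowers b)))
  have h4 : (F ⊔ zpowers b).relIndex (F ⊔ zpowers b ⊔ zpowers a) ≠ 1 := fun h => ha (relIndex_eq_one.1 h (mem_sup_right (mem_zpowers a)))
  have h5 : F.relIndex (F ⊔ zpowers b) ≠ 0 := Subgroup.index_ne_zero_of_finite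
  have h6 : (F ⊔ zpowers b).relIndex (F ⊔ zpowers b ⊔ zpowers a) ≠ 0 := Subgroup.index_ne_zero_of_finite
  have h7 : (F ⊔ zpowers b ⊔ zpowers a).index ≠ 0 := Subgroup.index_ne_zero_of_finite
  have h8 := relIndex_mul_index h1
  have h9 := relIndex_mul_index h2
  have h10 : (F ⊔ zpowers b ⊔ zpowers a).index = 1 := by
    by_contra hne
    have h11 : 2 ≤ (F ⊔ zpowers b ⊔ zpowers a).index := by omega
    have h12 : 2 ≤ (F ⊔ zpowers b).relIndex (F ⊔ zpowers b ⊔ zpowers a) := by omega
    have h13 : 2 ≤ F.relIndex (F ⊔ zpowers b) := by omega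
    have h14 := Nat.mul_le_mul h12 h11
    rw [h9] at h14
    have h15 := Nat.mul_le_mul h13 h14
    rw [h8] at h15
    omega
  rw [index_eq_one] at h10
  rw [← h10, sup_comm _ F, sup_assoc]

theorem cyc_quot {S : Type*} [Group S] (g h : S) [hN : (zpowers g).Normal] (hgen : zpowers g ⊔ zpowers h = ⊤) : IsCyclic (S ⧸ zpowers g) := by
  refine isCyclic_of_surjective (((QuotientGroup.mk' (zpowers g))).comp (zpowers h).subtype) ?_
  intro s
  obtain ⟨s, rfl⟩ := QuotientGroup.mk'_surjective (zpowers g) s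
  have h1 : s ∈ zpowers g ⊔ zpowers h := by rw [hgen]; trivial
  rw [← SetLike.mem_coe, normal_mul] at h1
  obtain ⟨x, hx, y, hy, rfl⟩ := h1
  refine ⟨⟨y, hy⟩, ?_⟩
  rw [map_mul]
  have : QuotientGroup.mk' (zpowers g) x = 1 := (QuotientGroup.eq_one_iff x).2 hx
  rw [this, one_mul]; rfl

theorem metacyclic_of {S : Type u} [Group S] [Finite S] (hF : (frattini S).index ≤ 4) (g : S) (hg : g ∉ frattini S)
    (hN : (zpowers g).Normal) : IsMetacyclic S := by
  refine ⟨zpowers g, hN, inferInstance, ?_⟩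
  by_cases h : frattini S ⊔ zpowers g = ⊤
  · rw [sup_comm] at h
    have h1 := frattini_nongenerating h
    exact cyc_quot g 1 (by rw [h1, top_sup_eq])
  · obtain ⟨x, hx⟩ : ∃ x, x ∉ frattini S ⊔ zpowers g := by
      by_contra hcon
      push Not at hcon
      exact h (eq_top_iff.2 (fun x _ => hcon x))
    exact cyc_quot g x (gen hF hg hx)

theorem rank_contra {S : Type*} [Group S] [Finite S] (hr : SectionalPRankLE 2 2 S) (x y z : S) (hx : x * x = 1) (hy : y * y = 1)
    (hz : z * z = 1) (hxy : x * y = y * x) (hxz : x * z = z * x) (hyz : y * z = z * y) (hx1 : x ≠ 1) (hy1 : y ≠ 1) (hne : x ≠ y)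
    (hz1 : z ≠ 1) (hzx : z ≠ x) (hzy : z ≠ y) (hzxy : z ≠ x * y) : False := by
  classical
  obtain ⟨h3, h4⟩ := CfsgLib.H7Sec.closure_elem (⊥ : Subgroup S) (p := 2) {x, y, z} (by
    have key : ∀ a b : S, a * b = b * a → a * b * a⁻¹ * b⁻¹ ∈ (⊥ : Subgroup S) := by
      intro a b h
      rw [h]
      have : b * a * a⁻¹ * b⁻¹ = 1 := by group
      rw [this]; exact Subgroup.one_mem _
    rintro a (rfl | rfl | rfl) b (rfl | rfl | rfl)
    · exact key _ _ rfl
    · exact key _ _ hxy
    · exact key _ _ hxz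
    · exact key _ _ hxy.symm
    · exact key _ _ rfl
    · exact key _ _ hyz
    · exact key _ _ hxz.symm
    · exact key _ _ hyz.symm
    · exact key _ _ rfl) (by
    rintro a (rfl | rfl | rfl)
    · rw [pow_two, hx]; exact Subgroup.one_mem _
    · rw [pow_two, hy]; exact Subgroup.one_mem _
    · rw [pow_two, hz]; exact Subgroup.one_mem _)
  have h5 := CfsgLib.H7Sec.relIndex_le hr (⊥ : Subgroup S) (closure {x, y, z}) h3 h4
  rw [relIndex_bot_left] at h5
  have hxm : x ∈ closure {x, y, z} := subset_closure (by simp)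
  have hym : y ∈ closure {x, y, z} := subset_closure (by simp)
  have hzm : z ∈ closure {x, y, z} := subset_closure (by simp)
  have h6 : (({1, x, y, x * y, z} : Finset S) : Set S) ⊆ (closure {x, y, z} : Subgroup S) := by
    intro t ht
    simp only [Finset.coe_insert, Finset.coe_singleton, Set.mem_insert_iff, Set.mem_singleton_iff] at ht
    rcases ht with rfl | rfl | rfl | rfl | rfl
    · exact Subgroup.one_mem _
    · exact hxm
    · exact hym
    · exact mul_mem hxm hym
    · exact hzm
  have h7 := Set.ncard_le_ncard h6 (Set.toFinite _)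
  rw [Set.ncard_coe_finset] at h7
  have h8 : ({1, x, y, x * y, z} : Finset S).card = 5 := by
    have hxy1 : x * y ≠ 1 := by
      intro h
      apply hne
      have : x * y * y = y := by rw [h, one_mul]
      rw [mul_assoc, hy, mul_one] at this
      exact this
    have hxyx : x * y ≠ x := fun h => hy1 (by simpa using h)
    have hxyy : x * y ≠ y := fun h => hx1 (by simpa using h)
    rw [Finset.card_insert_of_notMem, Finset.card_insert_of_notMem, Finset.card_insert_of_notMem, Finset.card_insert_of_notMem,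
      Finset.card_singleton]
    · rw [Finset.mem_singleton]; exact hzxy.symm
    · rw [Finset.mem_insert, Finset.mem_singleton, not_or]
      exact ⟨hxyy.symm, hzy.symm⟩
    · rw [Finset.mem_insert, Finset.mem_insert, Finset.mem_singleton, not_or, not_or]
      exact ⟨hne, hxyx.symm, hzx.symm⟩
    · rw [Finset.mem_insert, Finset.mem_insert, Finset.mem_insert, Finset.mem_singleton, not_or, not_or, not_or]
      exact ⟨hx1.symm, hy1.symm, hxy1.symm, hz1.symm⟩
  rw [h8] at h7
  have h9 : ((closure {x, y, z} : Subgroup S) : Set S).ncard = Nat.card (closure {x, y, z} : Subgroup S) := rfl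
  rw [h9] at h7
  omega

theorem exists_not_sup {S : Type*} [Group S] [Finite S] (hna : ∃ x y : S, x * y ≠ y * x) (b : S) : ∃ a, a ∉ frattini S ⊔ zpowers b := by
  by_contra hcon
  push Not at hcon
  have h1 : frattini S ⊔ zpowers b = ⊤ := eq_top_iff.2 (fun x _ => hcon x)
  rw [sup_comm] at h1
  have h2 := frattini_nongenerating h1
  obtain ⟨x, y, hxy⟩ := hna
  apply hxy
  obtain ⟨i, rfl⟩ := mem_zpowers_iff.1 (show x ∈ zpowers b by rw [h2]; trivial)
  obtain ⟨j, rfl⟩ := mem_zpowers_iff.1 (show y ∈ zpowers b by rw [h2]; trivial)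
  rw [← zpow_add, ← zpow_add, add_comm]

theorem exists_not_frat {S : Type*} [Group S] [Finite S] [Nontrivial S] : ∃ a : S, a ∉ frattini S := by
  by_contra hcon
  push Not at hcon
  have h1 : (⊥ : Subgroup S) ⊔ frattini S = ⊤ := by
    rw [bot_sup_eq]; exact eq_top_iff.2 (fun x _ => hcon x)
  have h2 := frattini_nongenerating h1
  exact bot_ne_top h2

theorem base {S : Type u} [Group S] [Finite S] (h2 : IsPGroup 2 S) (hr : SectionalPRankLE 2 2 S)
    (c : S) (hc1 : c ≠ 1) (hc2 : c * c = 1) (hcz : ∀ x, x * c = c * x) (hD : ∀ x y : S, x * y = y * x ∨ x * y = c * (y * x))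
    (hna : ∃ x y : S, x * y ≠ y * x) : IsMetacyclic S := by
  classical
  haveI : Fact (Nat.Prime 2) := ⟨Nat.prime_two⟩
  have hF := idx h2 hr
  have hsq : ∀ x y : S, x * x * y = y * (x * x) := by
    intro x y
    rcases hD x y with h | h
    · rw [mul_assoc, h, ← mul_assoc, h, mul_assoc]
    · calc x * x * y = x * (x * y) := by group
        _ = (x * c) * y * x := by rw [h]; group
        _ = c * (x * y) * x := by rw [hcz]; group
        _ = (c * c) * (y * (x * x)) := by rw [h]; group
        _ = _ := by rw [hc2, one_mul]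
  have hsqp : ∀ (x y : S) (i : ℕ), (x ^ 2) ^ i * y = y * (x ^ 2) ^ i := by
    intro x y i
    have h1 : Commute (x ^ 2) y := by
      rw [pow_two]; exact hsq x y
    exact (h1.pow_left i).eq
  by_contra hcon
  have hnc : ∀ g, g ∉ frattini S → c ∉ zpowers g := by
    intro g hg hcg
    apply hcon
    apply metacyclic_of hF g hg
    refine ⟨fun x hx y => ?_⟩
    rcases hD y x with h | h
    · rw [h, mul_inv_cancel_right]; exact hx
    · have : y * x * y⁻¹ = c * x := by rw [h]; group
      rw [this]; exact mul_mem hcg hx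
  haveI : Nontrivial S := ⟨⟨c, 1, hc1⟩⟩
  haveI : Nonempty {b : S // b ∉ frattini S} := by
    obtain ⟨b, hb⟩ := exists_not_frat (S := S)
    exact ⟨⟨b, hb⟩⟩
  obtain ⟨⟨b, hb⟩, hbmin⟩ := Finite.exists_min (fun b : {b : S // b ∉ frattini S} => orderOf (b : S))
  have hbmin' : ∀ g, g ∉ frattini S → orderOf b ≤ orderOf g := fun g hg => hbmin ⟨g, hg⟩
  obtain ⟨a, ha⟩ := exists_not_sup hna b
  have haF : a ∉ frattini S := fun h => ha (mem_sup_left h)
  have hgen := gen hF hb ha
  have hab : a * b ≠ b * a := by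
    intro h
    have h1 : ∀ t : S, a * t = t * a → b * t = t * b → t ∈ center S := by
      intro t h1 h2
      have h3 : zpowers b ⊔ zpowers a ≤ centralizer ({t} : Set S) := by
        apply sup_le
        · rw [zpowers_le, mem_centralizer_singleton_iff]; exact h2
        · rw [zpowers_le, mem_centralizer_singleton_iff]; exact h1
      rw [hgen] at h3
      rw [mem_center_iff]
      intro g
      exact mem_centralizer_singleton_iff.1 (h3 (mem_top g))
    have h2 : zpowers b ⊔ zpowers a ≤ center S := by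
      apply sup_le
      · rw [zpowers_le]; exact h1 b h rfl
      · rw [zpowers_le]; exact h1 a rfl h.symm
    rw [hgen] at h2
    obtain ⟨x, y, hxy⟩ := hna
    exact hxy (mem_center_iff.1 (h2 (mem_top y)) x)
  have habc : a * b = c * (b * a) := (hD a b).resolve_left hab
  have hbac : b * a = c * (a * b) := by rw [habc, ← mul_assoc, hc2, one_mul]
  have hab2 : (a * b) * (a * b) = c * ((a * a) * (b * b)) := by
    calc (a * b) * (a * b) = a * (b * a) * b := by group
      _ = (a * c) * (a * b * b) := by rw [hbac]; group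
      _ = _ := by rw [hcz]; group
  have habF : a * b ∉ frattini S := by
    intro h
    apply ha
    have : a = (a * b) * b⁻¹ := by group
    rw [this]
    exact mul_mem (mem_sup_left h) (inv_mem (mem_sup_right (mem_zpowers b)))
  obtain ⟨n, hn⟩ := IsPGroup.iff_orderOf.1 h2 b
  obtain ⟨m, hm⟩ := IsPGroup.iff_orderOf.1 h2 a
  have hmn : n ≤ m := by
    have := hbmin' a haF
    rw [hn, hm] at this
    exact (Nat.pow_le_pow_iff_right (by norm_num)).1 this
  have hn0 : n ≠ 0 := by
    rintro rfl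
    rw [pow_zero, orderOf_eq_one_iff] at hn
    rw [hn] at hb
    exact hb (Subgroup.one_mem _)
  have hinv : ∀ (x : S) (k : ℕ), orderOf x = 2 ^ (k + 1) → x ^ (2 ^ k) * x ^ (2 ^ k) = 1 ∧ x ^ (2 ^ k) ≠ 1 := by
    intro x k hk
    constructor
    · rw [← pow_add, ← two_mul, ← pow_succ', ← hk]; exact pow_orderOf_eq_one x
    · intro h
      have h1 := orderOf_dvd_of_pow_eq_one h
      rw [hk] at h1
      have h3 := Nat.le_of_dvd (by positivity) h1
      have h4 : 2 ^ k < 2 ^ (k + 1) := Nat.pow_lt_pow_right (by norm_num) (by omega)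
      omega
  obtain ⟨n', rfl⟩ := Nat.exists_eq_succ_of_ne_zero hn0
  obtain ⟨m', rfl⟩ := Nat.exists_eq_succ_of_ne_zero (show m ≠ 0 by omega)
  obtain ⟨ha1, ha2⟩ := hinv a m' hm
  obtain ⟨hb1, hb2⟩ := hinv b n' hn
  have hac : a ^ (2 ^ m') ≠ c := fun h => hnc a haF (by rw [← h]; exact pow_mem (mem_zpowers a) _)
  have hbc : b ^ (2 ^ n') ≠ c := fun h => hnc b hb (by rw [← h]; exact pow_mem (mem_zpowers b) _)
  rcases Nat.eq_zero_or_pos n' with hn' | hn'
  · subst hn'
    rw [pow_zero, pow_one] at hb1 hb2 hbc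
    rcases Nat.eq_zero_or_pos m' with hm' | hm'
    · subst hm'
      rw [pow_zero, pow_one] at ha1
      apply hnc (a * b) habF
      rw [ha1, hb1, mul_one, mul_one] at hab2
      rw [← hab2]
      exact mul_mem (mem_zpowers _) (mem_zpowers _)
    · have hcen : ∀ y, a ^ (2 ^ m') * y = y * a ^ (2 ^ m') := by
        intro y
        obtain ⟨m'', rfl⟩ := Nat.exists_eq_succ_of_ne_zero hm'.ne'
        rw [pow_succ', pow_mul]
        exact hsqp a y _
      have hbnc : ∀ t : S, (∀ y, t * y = y * t) → b ≠ t := by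
        rintro t ht rfl
        exact hab (ht a).symm
      exact rank_contra hr (a ^ (2 ^ m')) c b ha1 hc2 hb1 (hcen c) (hcen b) (hcz b).symm ha2 hc1 hac
        hb2 (hbnc _ hcen) (hbnc _ (fun y => (hcz y).symm)) (hbnc _ (fun y => by
          rw [mul_assoc, ← hcz y, ← mul_assoc, hcen y, mul_assoc]))
  · have hcen : ∀ (x : S) (k : ℕ), 0 < k → ∀ y, x ^ (2 ^ k) * y = y * x ^ (2 ^ k) := by
      intro x k hk y
      obtain ⟨k', rfl⟩ := Nat.exists_eq_succ_of_ne_zero hk.ne'
      rw [pow_succ', pow_mul]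
      exact hsqp x y _
    have h3 : a ^ (2 ^ m') * b ^ (2 ^ n') = 1 ∨ a ^ (2 ^ m') * b ^ (2 ^ n') = c := by
      by_contra hcon'
      push Not at hcon'
      have h4 : a ^ (2 ^ m') ≠ b ^ (2 ^ n') := by
        intro h
        apply hcon'.1
        rw [h]; exact hb1
      exact rank_contra hr (a ^ (2 ^ m')) (b ^ (2 ^ n')) c ha1 hb1 hc2 (hcen a m' (by omega) _) (hcz _) (hcz _) ha2 hb2 h4
        hc1 hac.symm hbc.symm hcon'.2.symm
    have hfin : ∀ g, g ∉ frattini S → ∀ k, k < n' + 1 → (g ^ (2 ^ k) = 1 ∨ g ^ (2 ^ k) = c) → False := by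
      intro g hg k hk h
      rcases h with h | h
      · have h4 := Nat.le_of_dvd (by positivity) (orderOf_dvd_of_pow_eq_one h)
        have h5 := hbmin' g hg
        have h6 : 2 ^ k < 2 ^ (n' + 1) := Nat.pow_lt_pow_right (by norm_num) hk
        have h7 : orderOf b = 2 ^ (n' + 1) := hn
        omega
      · exact hnc g hg (by rw [← h]; exact pow_mem (mem_zpowers g) _)
    rcases Nat.lt_or_ge n' m' with hlt | hge
    · -- m > n
      obtain ⟨d, hd⟩ : ∃ d, m' = n' + (d + 1) := ⟨m' - n' - 1, by omega⟩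
      have hx : ∀ y, a ^ (2 ^ (d + 1)) * y = y * a ^ (2 ^ (d + 1)) := hcen a (d + 1) (by omega)
      have hxF : a ^ (2 ^ (d + 1)) ∈ frattini S := by
        rw [pow_succ', pow_mul]
        exact pow_mem (CfsgLib.LE.pow_mem_frattini h2 a) _
      apply hfin (a ^ (2 ^ (d + 1)) * b) (fun h => hb (by
        have : b = (a ^ (2 ^ (d + 1)))⁻¹ * (a ^ (2 ^ (d + 1)) * b) := by group
        rw [this]; exact mul_mem (inv_mem hxF) h)) n' (by omega)
      have h4 : (a ^ (2 ^ (d + 1)) * b) ^ (2 ^ n') = a ^ (2 ^ m') * b ^ (2 ^ n') := by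
        rw [(show Commute (a ^ (2 ^ (d + 1))) b from hx b).mul_pow, ← pow_mul, ← pow_add, hd, add_comm (d + 1) n']
      rw [h4]; exact h3
    · have hmn' : m' = n' := by omega
      subst hmn'
      rcases Nat.lt_or_ge m' 2 with h1 | h1
      · have hm1 : m' = 1 := by omega
        subst hm1
        rw [pow_one, pow_two, pow_two] at h3
        apply hfin (a * b) habF 1 (by omega)
        rw [pow_one, pow_two, hab2]
        rcases h3 with h | h
        · right; rw [h, mul_one]
        · left; rw [h, hc2]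
      · obtain ⟨k, hk⟩ : ∃ k, m' = k + 2 := ⟨m' - 2, by omega⟩
        apply hfin (a * b) habF m' (by omega)
        have h4 : (a * b) ^ 4 = a ^ 4 * b ^ 4 := by
          have e1 : (a * b) ^ 4 = ((a * b) * (a * b)) * ((a * b) * (a * b)) := by
            rw [show (4 : ℕ) = 2 + 2 from rfl, pow_add, pow_two]
          rw [e1, hab2]
          have e2 : a ^ 4 = (a * a) * (a * a) := by rw [show (4 : ℕ) = 2 + 2 from rfl, pow_add, pow_two]
          have e3 : b ^ 4 = (b * b) * (b * b) := by rw [show (4 : ℕ) = 2 + 2 from rfl, pow_add, pow_two]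
          rw [e2, e3]
          have h5 := hcz (a * a * (b * b))
          calc c * (a * a * (b * b)) * (c * (a * a * (b * b))) = c * ((a * a * (b * b)) * c) * (a * a * (b * b)) := by group
            _ = (c * c) * ((a * a * (b * b)) * (a * a * (b * b))) := by rw [h5]; group
            _ = (a * a) * ((b * b) * (a * a)) * (b * b) := by rw [hc2, one_mul]; group
            _ = (a * a) * ((a * a) * (b * b)) * (b * b) := by rw [hsq b (a * a)]
            _ = _ := by group
        have h5 : Commute (a ^ 4) (b ^ 4) := hcen a 2 (by omega) (b ^ 4)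
        have h6 : (a * b) ^ (2 ^ m') = a ^ (2 ^ m') * b ^ (2 ^ m') := by
          have e1 : 2 ^ m' = 4 * 2 ^ k := by rw [hk, pow_add]; ring
          rw [e1, pow_mul, h4, h5.mul_pow, ← pow_mul, ← pow_mul]
        rw [h6]; exact h3

theorem main : ∀ n : ℕ, ∀ (S : Type u) [Group S] [Finite S], Nat.card S = n → IsPGroup 2 S → SectionalPRankLE 2 2 S → IsMetacyclic S := by
  intro n
  induction n using Nat.strong_induction_on with
  | _ n ih =>
  intro S _ _ hn h2 hr
  classical
  haveI : Fact (Nat.Prime 2) := ⟨Nat.prime_two⟩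
  have hF := idx h2 hr
  by_cases hsub : Subsingleton S
  · refine ⟨⊤, inferInstance, ?_, ?_⟩
    · exact isCyclic_of_subsingleton
    · haveI : Subsingleton (S ⧸ (⊤ : Subgroup S)) := QuotientGroup.subsingleton_quotient_top
      exact isCyclic_of_subsingleton
  haveI hnt : Nontrivial S := not_subsingleton_iff_nontrivial.1 hsub
  by_cases hna : ∃ x y : S, x * y ≠ y * x
  swap
  · push Not at hna
    obtain ⟨g, hg⟩ := exists_not_frat (S := S)
    apply metacyclic_of hF g hg
    refine ⟨fun x hx y => ?_⟩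
    rw [hna y x, mul_inv_cancel_right]; exact hx
  obtain ⟨T, hT⟩ : ∃ T : Set S, T = {x | (∃ d ∈ commutator S, x = d ^ 2) ∨ ∃ d ∈ commutator S, ∃ s : S, x = d * s * d⁻¹ * s⁻¹} := ⟨_, rfl⟩
  by_cases hK : normalClosure T = ⊥
  · -- commutator central of exponent 2
    have hT1 : ∀ x ∈ T, x = 1 := fun x hx => by
      have := subset_normalClosure hx
      rwa [hK] at this
    have hd2 : ∀ d ∈ commutator S, d ^ 2 = 1 := fun d hd => hT1 _ (by rw [hT]; exact Or.inl ⟨d, hd, rfl⟩)
    have hdc : ∀ d ∈ commutator S, ∀ s : S, s * d = d * s := fun d hd s => by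
      have := hT1 (d * s * d⁻¹ * s⁻¹) (by rw [hT]; exact Or.inr ⟨d, hd, s, rfl⟩)
      rw [mul_inv_eq_one, mul_inv_eq_iff_eq_mul] at this
      exact this.symm
    obtain ⟨b, hb⟩ := exists_not_frat (S := S)
    obtain ⟨a, ha⟩ := exists_not_sup hna b
    have hgen := gen hF hb ha
    obtain ⟨c, hc⟩ : ∃ c, c = a * b * a⁻¹ * b⁻¹ := ⟨_, rfl⟩
    have hcD : c ∈ commutator S := by
      rw [hc, commutator_def]; exact commutator_mem_commutator (mem_top a) (mem_top b)
    have hcz := hdc c hcD
    have hcc : c * c = 1 := by rw [← pow_two]; exact hd2 c hcD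
    haveI hCn : (zpowers c).Normal := by
      refine ⟨fun x hx y => ?_⟩
      obtain ⟨i, rfl⟩ := mem_zpowers_iff.1 hx
      have : y * c ^ i = c ^ i * y := ((show Commute y c from hcz y).zpow_right i).eq
      rw [this, mul_inv_cancel_right]; exact hx
    obtain ⟨f, hf⟩ : ∃ f : S →* S ⧸ zpowers c, f = QuotientGroup.mk' (zpowers c) := ⟨_, rfl⟩
    have hfc : f (a * b * a⁻¹ * b⁻¹) = 1 := by
      rw [← hc, hf]; exact (QuotientGroup.eq_one_iff c).2 (mem_zpowers c)
    have hfab : f a * f b = f b * f a := by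
      rw [map_mul, map_mul, map_mul, map_inv, map_inv, mul_inv_eq_one, mul_inv_eq_iff_eq_mul] at hfc
      exact hfc
    have hcent : ∀ t : S, f a * f t = f t * f a → f b * f t = f t * f b → ∀ s, f s * f t = f t * f s := by
      intro t h1 h3 s
      have h4 : zpowers b ⊔ zpowers a ≤ (centralizer ({f t} : Set (S ⧸ zpowers c))).comap f := by
        apply sup_le
        · rw [zpowers_le, mem_comap, mem_centralizer_singleton_iff]; exact h3
        · rw [zpowers_le, mem_comap, mem_centralizer_singleton_iff]; exact h1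
      rw [hgen] at h4
      exact mem_centralizer_singleton_iff.1 (h4 (mem_top s))
    have hca := hcent a rfl hfab.symm
    have hcb := hcent b hfab rfl
    have hall : ∀ x y, f x * f y = f y * f x := fun x y => hcent y (hca y).symm (hcb y).symm x
    have hD : ∀ x y : S, x * y = y * x ∨ x * y = c * (y * x) := by
      intro x y
      have h1 : x * y * x⁻¹ * y⁻¹ ∈ zpowers c := by
        rw [← QuotientGroup.eq_one_iff]
        have : f (x * y * x⁻¹ * y⁻¹) = 1 := by
          rw [map_mul, map_mul, map_mul, map_inv, map_inv, mul_inv_eq_one, mul_inv_eq_iff_eq_mul]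
          exact hall x y
        rw [hf] at this
        exact this
      obtain ⟨i, hi⟩ := mem_zpowers_iff.1 h1
      have h3 : x * y = c ^ i * (y * x) := by rw [hi]; group
      rcases Int.even_or_odd' i with ⟨j, hj | hj⟩
      · left
        rw [h3, hj, zpow_mul]
        have : c ^ (2 : ℤ) = 1 := by
          rw [show (2 : ℤ) = ((2 : ℕ) : ℤ) from rfl, zpow_natCast, pow_two, hcc]
        rw [this, one_zpow, one_mul]
      · right
        rw [h3, hj, zpow_add, zpow_mul]
        have : c ^ (2 : ℤ) = 1 := by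
          rw [show (2 : ℤ) = ((2 : ℕ) : ℤ) from rfl, zpow_natCast, pow_two, hcc]
        rw [this, one_zpow, one_mul, zpow_one]
    refine base h2 hr c ?_ hcc hcz hD hna
    rintro rfl
    obtain ⟨x, y, hxy⟩ := hna
    rcases hD x y with h | h
    · exact hxy h
    · rw [one_mul] at h; exact hxy h
  · -- inductive step
    haveI hnil : Group.IsNilpotent S := h2.isNilpotent
    have h18 := CfsgLib.SolvNilp.inf_center_ne_bot (normalClosure T) hK
    have h19 : 2 ∣ Nat.card (normalClosure T ⊓ center S : Subgroup S) := by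
      rcases (h2.to_subgroup (normalClosure T ⊓ center S)).card_eq_or_dvd with h | h
      · exact absurd (Subgroup.card_eq_one.1 h) h18
      · exact h
    obtain ⟨z', hz'⟩ := exists_prime_orderOf_dvd_card' 2 h19
    obtain ⟨z, hz⟩ : ∃ z : S, z = z' := ⟨_, rfl⟩
    have hzo : orderOf z = 2 := by rw [hz, Subgroup.orderOf_coe]; exact hz'
    have hzK : z ∈ normalClosure T := by rw [hz]; exact z'.2.1
    have hzc : ∀ s, s * z = z * s := by
      intro s
      have : z ∈ center S := by rw [hz]; exact z'.2.2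
      exact mem_center_iff.1 this s
    have hz2 : z * z = 1 := by rw [← pow_two, ← hzo]; exact pow_orderOf_eq_one z
    have hzpc : ∀ x ∈ zpowers z, ∀ s, s * x = x * s := by
      intro x hx s
      obtain ⟨i, rfl⟩ := mem_zpowers_iff.1 hx
      exact ((show Commute s z from hzc s).zpow_right i).eq
    have hzp2 : ∀ x ∈ zpowers z, x * x = 1 := by
      intro x hx
      obtain ⟨i, rfl⟩ := mem_zpowers_iff.1 hx
      have := (Commute.refl z).mul_zpow i
      rw [hz2, one_zpow] at this
      exact this.symm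
    haveI hNn : (zpowers z).Normal := ⟨fun x hx y => by rw [hzpc x hx y, mul_inv_cancel_right]; exact hx⟩
    have hcard : Nat.card (S ⧸ zpowers z) < n := by
      have h3 := Subgroup.card_eq_card_quotient_mul_card_subgroup (zpowers z)
      rw [Nat.card_zpowers, hzo, hn] at h3
      have h4 : 0 < Nat.card (S ⧸ zpowers z) := Nat.card_pos
      omega
    obtain ⟨M, hMn, hMc, hMq⟩ := ih _ hcard (S ⧸ zpowers z) rfl (h2.to_quotient _) (CfsgLib.H7Sec.sec_quot hr (zpowers z))
    obtain ⟨f, hf⟩ : ∃ f : S →* S ⧸ zpowers z, f = QuotientGroup.mk' (zpowers z) := ⟨_, rfl⟩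
    have hfs : Function.Surjective f := by rw [hf]; exact QuotientGroup.mk'_surjective _
    have hfk : ∀ x, f x = 1 ↔ x ∈ zpowers z := by intro x; rw [hf]; exact QuotientGroup.eq_one_iff x
    obtain ⟨L, hL⟩ : ∃ L : Subgroup S, L = M.comap f := ⟨_, rfl⟩
    haveI hLn : L.Normal := by rw [hL]; infer_instance
    have hLm : ∀ x, x ∈ L ↔ f x ∈ M := fun x => by rw [hL]; rfl
    have hLq : IsCyclic (S ⧸ L) := by
      have hle : L ≤ M.comap f := le_of_eq hL
      refine isCyclic_of_injective (QuotientGroup.map L M f hle) ?_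
      rw [injective_iff_map_eq_one]
      intro s hs
      obtain ⟨s, rfl⟩ := QuotientGroup.mk'_surjective L s
      have h3 : QuotientGroup.map L M f hle (QuotientGroup.mk' L s) = QuotientGroup.mk' M (f s) := rfl
      rw [h3] at hs
      have h4 : f s ∈ M := (QuotientGroup.eq_one_iff _).1 hs
      exact (QuotientGroup.eq_one_iff s).2 ((hLm s).2 h4)
    obtain ⟨⟨a', ha'M⟩, ha'⟩ := hMc.exists_generator
    obtain ⟨a, rfl⟩ := hfs a'
    have haL : a ∈ L := (hLm a).2 ha'M
    have hLdec : ∀ x ∈ L, ∃ i : ℤ, ∃ t ∈ zpowers z, x = a ^ i * t := by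
      intro x hx
      obtain ⟨i, hi⟩ := mem_zpowers_iff.1 (ha' ⟨f x, (hLm x).1 hx⟩)
      have hi' : (f a) ^ i = f x := congrArg Subtype.val hi
      refine ⟨i, (a ^ i)⁻¹ * x, ?_, by group⟩
      rw [← hfk, map_mul, map_inv, map_zpow, hi', inv_mul_cancel]
    by_cases hza : z ∈ zpowers a
    · have hLa : L = zpowers a := by
        apply le_antisymm
        · intro x hx
          obtain ⟨i, t, ht, rfl⟩ := hLdec x hx
          exact mul_mem (zpow_mem (mem_zpowers a) i) ((zpowers_le.2 hza) ht)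
        · rw [zpowers_le]; exact haL
      refine ⟨L, hLn, ?_, hLq⟩
      rw [hLa]; infer_instance
    · exfalso
      apply hza
      have hLab : ∀ x ∈ L, ∀ y ∈ L, x * y = y * x := by
        intro x hx y hy
        obtain ⟨i, t, ht, rfl⟩ := hLdec x hx
        obtain ⟨j, s, hs, rfl⟩ := hLdec y hy
        have e1 := hzpc t ht
        have e2 := hzpc s hs
        calc a ^ i * t * (a ^ j * s) = a ^ i * (t * (a ^ j * s)) := by group
          _ = a ^ i * ((a ^ j * s) * t) := by rw [e1]
          _ = (a ^ i * a ^ j) * (s * t) := by group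
          _ = (a ^ j * a ^ i) * (t * s) := by rw [← zpow_add, ← zpow_add, add_comm, e1]
          _ = a ^ j * ((a ^ i * t) * s) := by group
          _ = a ^ j * (s * (a ^ i * t)) := by rw [e2]
          _ = _ := by group
      obtain ⟨b', hb'⟩ := hLq.exists_generator
      obtain ⟨b, rfl⟩ := QuotientGroup.mk'_surjective L b'
      have hSdec : ∀ s : S, ∃ i : ℤ, ∃ x ∈ L, s = b ^ i * x := by
        intro s
        obtain ⟨i, hi⟩ := mem_zpowers_iff.1 (hb' (QuotientGroup.mk' L s))
        rw [← map_zpow] at hi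
        exact ⟨i, (b ^ i)⁻¹ * s, QuotientGroup.eq.1 hi, by group⟩
      obtain ⟨w, hw⟩ : ∃ w, w = b * a * b⁻¹ * a⁻¹ := ⟨_, rfl⟩
      have hθ : ∀ x ∈ L, b * x * b⁻¹ * x⁻¹ ∈ L := fun x hx => mul_mem (hLn.conj_mem x hx b) (inv_mem hx)
      have hθmul : ∀ x ∈ L, ∀ y ∈ L, b * (x * y) * b⁻¹ * (x * y)⁻¹ = (b * x * b⁻¹ * x⁻¹) * (b * y * b⁻¹ * y⁻¹) := by
        intro x hx y hy
        have e1 := hLab _ (hθ y hy) x⁻¹ (inv_mem hx)
        calc b * (x * y) * b⁻¹ * (x * y)⁻¹ = (b * x * b⁻¹) * ((b * y * b⁻¹ * y⁻¹) * x⁻¹) := by group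
          _ = _ := by rw [e1]; group
      have hθpow : ∀ i : ℤ, b * a ^ i * b⁻¹ * (a ^ i)⁻¹ = w ^ i := by
        let φ : L →* L :=
          { toFun := fun x => ⟨b * x * b⁻¹ * (x : S)⁻¹, hθ x x.2⟩
            map_one' := by ext; simp
            map_mul' := fun x y => Subtype.ext (hθmul x x.2 y y.2) }
        intro i
        have h3 := map_zpow φ ⟨a, haL⟩ i
        have h4 := congrArg Subtype.val h3
        rw [hw]
        exact h4
      have hθw : ∀ x ∈ L, b * x * b⁻¹ * x⁻¹ ∈ zpowers w := by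
        intro x hx
        obtain ⟨i, t, ht, rfl⟩ := hLdec x hx
        have e1 := hzpc t ht
        have h3 : b * (a ^ i * t) * b⁻¹ * (a ^ i * t)⁻¹ = b * a ^ i * b⁻¹ * (a ^ i)⁻¹ := by
          calc b * (a ^ i * t) * b⁻¹ * (a ^ i * t)⁻¹ = b * a ^ i * (t * b⁻¹) * t⁻¹ * (a ^ i)⁻¹ := by group
            _ = _ := by rw [← e1]; group
        rw [h3, hθpow]
        exact zpow_mem (mem_zpowers w) i
      have hwL : w ∈ L := by rw [hw]; exact hθ a haL
      have hwLL : ∀ x ∈ zpowers w, x ∈ L := fun x hx => (zpowers_le.2 hwL) hx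
      -- w-powers are commutators θ (a^i)
      have hconjb : ∀ s : S, (∃ i : ℤ, s = b ^ i) → ∀ x ∈ zpowers w, s * x * s⁻¹ ∈ zpowers w := by
        rintro s ⟨j, rfl⟩ x hx
        obtain ⟨i, rfl⟩ := mem_zpowers_iff.1 hx
        rw [← hθpow]
        have h3 : b ^ j * (b * a ^ i * b⁻¹ * (a ^ i)⁻¹) * (b ^ j)⁻¹ = b * (b ^ j * a ^ i * (b ^ j)⁻¹) * b⁻¹ * (b ^ j * a ^ i * (b ^ j)⁻¹)⁻¹ := by
          have e1 : b ^ j * b = b * b ^ j := by rw [← zpow_add_one, ← zpow_one_add, add_comm]
          have e2 : b⁻¹ * (b ^ j)⁻¹ = (b ^ j)⁻¹ * b⁻¹ := by rw [← mul_inv_rev, ← mul_inv_rev, e1]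
          calc b ^ j * (b * a ^ i * b⁻¹ * (a ^ i)⁻¹) * (b ^ j)⁻¹ = (b ^ j * b) * a ^ i * b⁻¹ * (a ^ i)⁻¹ * (b ^ j)⁻¹ := by group
            _ = b * (b ^ j) * a ^ i * ((b ^ j)⁻¹ * (b ^ j)) * b⁻¹ * (a ^ i)⁻¹ * (b ^ j)⁻¹ := by rw [e1]; group
            _ = b * (b ^ j * a ^ i * (b ^ j)⁻¹) * (b ^ j * b⁻¹) * (a ^ i)⁻¹ * (b ^ j)⁻¹ := by group
            _ = b * (b ^ j * a ^ i * (b ^ j)⁻¹) * (b⁻¹ * b ^ j) * (a ^ i)⁻¹ * (b ^ j)⁻¹ := by
                rw [show b ^ j * b⁻¹ = b⁻¹ * b ^ j by rw [← zpow_sub_one, ← zpow_neg_one, ← zpow_add]; congr 1; ring]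
            _ = _ := by group
        rw [h3]
        exact hθw _ (hLn.conj_mem _ (zpow_mem haL i) (b ^ j))
      haveI hwn : (zpowers w).Normal := by
        refine ⟨fun x hx s => ?_⟩
        obtain ⟨i, y, hy, rfl⟩ := hSdec s
        have h3 : b ^ i * y * x * (b ^ i * y)⁻¹ = b ^ i * (y * x * y⁻¹) * (b ^ i)⁻¹ := by group
        rw [h3, hLab y hy x (hwLL x hx), mul_inv_cancel_right]
        exact hconjb _ ⟨i, rfl⟩ x hx
      -- the commutator subgroup is inside zpowers w
      have hDw : commutator S ≤ zpowers w := by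
        obtain ⟨h, hh⟩ : ∃ h : S →* S ⧸ zpowers w, h = QuotientGroup.mk' (zpowers w) := ⟨_, rfl⟩
        have hhk : ∀ x, h x = 1 ↔ x ∈ zpowers w := by intro x; rw [hh]; exact QuotientGroup.eq_one_iff x
        have h3 : ∀ x ∈ L, h b * h x = h x * h b := by
          intro x hx
          have := (hhk _).2 (hθw x hx)
          rw [map_mul, map_mul, map_mul, map_inv, map_inv, mul_inv_eq_one, mul_inv_eq_iff_eq_mul] at this
          exact this
        have h4 : ∀ x ∈ L, ∀ i : ℤ, h (b ^ i) * h x = h x * h (b ^ i) := by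
          intro x hx i
          rw [map_zpow]
          exact ((show Commute (h b) (h x) from h3 x hx).zpow_left i).eq
        have h5 : ∀ s t : S, h s * h t = h t * h s := by
          intro s t
          obtain ⟨i, x, hx, rfl⟩ := hSdec s
          obtain ⟨j, y, hy, rfl⟩ := hSdec t
          have e1 := h4 x hx j
          have e2 := h4 y hy i
          have e3 : h x * h y = h y * h x := by rw [← map_mul, ← map_mul, hLab x hx y hy]
          have e4 : h (b ^ i) * h (b ^ j) = h (b ^ j) * h (b ^ i) := by rw [← map_mul, ← map_mul, ← zpow_add, ← zpow_add, add_comm]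
          rw [map_mul, map_mul]
          calc h (b ^ i) * h x * (h (b ^ j) * h y) = h (b ^ i) * (h x * h (b ^ j)) * h y := by group
            _ = (h (b ^ i) * h (b ^ j)) * (h x * h y) := by rw [← e1]; group
            _ = h (b ^ j) * (h (b ^ i) * h y) * h x := by rw [e4, e3]; group
            _ = _ := by rw [e2]; group
        rw [commutator_def, commutator_le]
        intro s _ t _
        rw [← hhk, commutatorElement_def, map_mul, map_mul, map_mul, map_inv, map_inv, mul_inv_eq_one, mul_inv_eq_iff_eq_mul]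
        exact h5 s t
      -- conjugation is an odd power
      have hodd : ∀ s : S, ∃ k : ℤ, s * w * s⁻¹ = w ^ k ∧ (w = 1 ∨ ∃ l : ℤ, k = 2 * l + 1) := by
        intro s
        obtain ⟨k, hk⟩ := mem_zpowers_iff.1 (hwn.conj_mem w (mem_zpowers w) s)
        refine ⟨k, hk.symm, ?_⟩
        by_cases hw1 : w = 1
        · exact Or.inl hw1
        right
        rcases Int.even_or_odd' k with ⟨l, hl | hl⟩
        · exfalso
          obtain ⟨r, hr'⟩ := IsPGroup.iff_orderOf.1 h2 w
          cases r with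
          | zero => rw [pow_zero, orderOf_eq_one_iff] at hr'; exact hw1 hr'
          | succ r =>
            have h3 : orderOf (s * w * s⁻¹) = orderOf w := CfsgLib.FgBas.orderOf_conj s w
            have h4 : (s * w * s⁻¹) ^ (2 ^ r) = 1 := by
              rw [← hk, hl, ← zpow_natCast, ← zpow_mul]
              have h5 : (2 * l * ((2 ^ r : ℕ) : ℤ)) = ((orderOf w : ℕ) : ℤ) * l := by
                rw [hr', pow_succ]; push_cast; ring
              rw [h5, zpow_mul, zpow_natCast, pow_orderOf_eq_one, one_zpow]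
            have h5 := orderOf_dvd_of_pow_eq_one h4
            rw [h3, hr'] at h5
            have h6 := Nat.le_of_dvd (by positivity) h5
            have h7 : 2 ^ r < 2 ^ (r + 1) := Nat.pow_lt_pow_right (by norm_num) (by omega)
            omega
        · exact ⟨l, hl⟩
      have hw2n : (zpowers (w ^ 2)).Normal := by
        refine ⟨fun x hx s => ?_⟩
        obtain ⟨i, rfl⟩ := mem_zpowers_iff.1 hx
        obtain ⟨k, hk, -⟩ := hodd s
        have h3 : s * (w ^ 2) ^ i * s⁻¹ = (w ^ 2) ^ (k * i) := by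
          have h4 : s * (w ^ 2) ^ i * s⁻¹ = (s * w * s⁻¹) ^ (2 * i) := by
            have e2 : w ^ (2 : ℤ) = w ^ (2 : ℕ) := by norm_cast
            rw [conj_zpow, zpow_mul, e2]
          rw [h4, hk, ← zpow_mul, ← zpow_natCast, ← zpow_mul]
          congr 1
          push_cast; ring
        rw [h3]
        exact zpow_mem (mem_zpowers _) _
      have hKle : normalClosure T ≤ zpowers (w ^ 2) := by
        apply normalClosure_le_normal
        rw [hT]
        rintro x (⟨d, hd, rfl⟩ | ⟨d, hd, s, rfl⟩)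
        · obtain ⟨i, rfl⟩ := mem_zpowers_iff.1 (hDw hd)
          refine mem_zpowers_iff.2 ⟨i, ?_⟩
          rw [← zpow_natCast, ← zpow_mul, ← zpow_natCast, ← zpow_mul, mul_comm]
        · obtain ⟨i, rfl⟩ := mem_zpowers_iff.1 (hDw hd)
          obtain ⟨k, hk, hk'⟩ := hodd s
          have h3 : w ^ i * s * (w ^ i)⁻¹ * s⁻¹ = w ^ (i - k * i) := by
            have h4 : w ^ i * s * (w ^ i)⁻¹ * s⁻¹ = w ^ i * (s * w * s⁻¹) ^ (-i) := by
              rw [conj_zpow, zpow_neg]; group
            rw [h4, hk, ← zpow_mul, ← zpow_add]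
            congr 1; ring
          rw [SetLike.mem_coe, h3]
          rcases hk' with rfl | ⟨l, rfl⟩
          · rw [one_zpow]; exact Subgroup.one_mem _
          · refine mem_zpowers_iff.2 ⟨-(l * i), ?_⟩
            rw [← zpow_natCast, ← zpow_mul]
            congr 1; push_cast; ring
      have hw2a : w ^ 2 ∈ zpowers a := by
        obtain ⟨i, t, ht, hit⟩ := hLdec w hwL
        have e1 := hzpc t ht
        have h3 : w ^ 2 = a ^ (2 * i) := by
          rw [hit, pow_two]
          calc a ^ i * t * (a ^ i * t) = a ^ i * (t * a ^ i) * t := by group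
            _ = a ^ i * (a ^ i * t) * t := by rw [← e1 (a ^ i)]
            _ = a ^ i * a ^ i * (t * t) := by group
            _ = _ := by rw [hzp2 t ht, mul_one, two_mul, zpow_add]
        rw [h3]
        exact zpow_mem (mem_zpowers a) _
      exact (zpowers_le.2 hw2a) (hKle hzK)

/-- A finite 2-group of sectional 2-rank at most 2 (every section has no elementary abelian subgroup of order 8) is metacyclic: it has a cyclic normal subgroup with cyclic quotient. -/
theorem result {S : Type*} [Group S] [Finite S] (h2 : IsPGroup 2 S) (hr : Cfsg.SectionalPRankLE 2 2 S) : Cfsg.IsMetacyclic S := by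
  exact main _ S rfl h2 hr

end Cfsg.Agent.S4397
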