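import Cfsg.Statements.S4401
import Mathlib
import Cfsg.Agent.LibH7Sec

set_option autoImplicit false
open Cfsg

namespace Cfsg.Agent.S4401

open Subgroup Cfsg CfsgLib.H7Sec
open scoped Pointwise

variable {S : Type*} [Group S] [Finite S]

theorem mem_conj {g x : S} {P : Subgroup S} : x ∈ MulAut.conj g • P ↔ g⁻¹ * x * g ∈ P := by
  rw [Subgroup.mem_pointwise_smul_iff_inv_smul_mem, MulAut.smul_def, ← map_inv, MulAut.conj_apply, inv_inv]

theorem conj_mem_conj {g x : S} {P : Subgroup S} (hx : x ∈ P) : g * x * g⁻¹ ∈ MulAut.conj g • P := by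
  rw [mem_conj]
  have : g⁻¹ * (g * x * g⁻¹) * g = x := by group
  rwa [this]

theorem eq_of_mem_zpowers {a b : S} (ha : orderOf a = 2) (hb : b ≠ 1) (h : b ∈ zpowers a) : b = a := by
  obtain ⟨k, rfl⟩ := h
  change a ^ k ≠ 1 at hb
  change a ^ k = a
  have h2 : a ^ (2 : ℤ) = 1 := by
    have := pow_orderOf_eq_one a
    rw [ha] at this
    exact_mod_cast this
  rcases Int.even_or_odd' k with ⟨m, hm | hm⟩
  · exfalso
    apply hb
    rw [hm, zpow_mul, h2, one_zpow]
  · rw [hm, zpow_add, zpow_mul, h2, one_zpow, one_mul, zpow_one]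

def HasZ (R : Subgroup S) (w : S) : Prop :=
  ¬ IsMulCommutative R ∧ Nat.card (center R) = 2 ∧ (center R).map R.subtype = zpowers w ∧ orderOf w = 2

theorem HasZ.mem {R : Subgroup S} {w : S} (h : HasZ R w) : w ∈ R := by
  have : w ∈ (center R).map R.subtype := by rw [h.2.2.1]; exact mem_zpowers w
  obtain ⟨y, -, rfl⟩ := this
  exact y.2

theorem HasZ.comm {R : Subgroup S} {w : S} (h : HasZ R w) {x : S} (hx : x ∈ R) : x * w = w * x := by
  have : w ∈ (center R).map R.subtype := by rw [h.2.2.1]; exact mem_zpowers w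
  obtain ⟨y, hy, rfl⟩ := this
  exact congrArg Subtype.val ((mem_center_iff.1 hy) ⟨x, hx⟩)

theorem HasZ.cases {R : Subgroup S} {w : S} (h : HasZ R w) {a : S} (ha : a ∈ R) (hc : ∀ x ∈ R, x * a = a * x) :
    a = 1 ∨ a = w := by
  by_cases h1 : a = 1
  · exact Or.inl h1
  · right
    apply eq_of_mem_zpowers h.2.2.2 h1
    rw [← h.2.2.1]
    refine ⟨⟨a, ha⟩, ?_, rfl⟩
    rw [SetLike.mem_coe, mem_center_iff]
    exact fun g => Subtype.ext (hc g g.2)

theorem HasZ.conj {R : Subgroup S} {w : S} (h : HasZ R w) (g : S) : HasZ (MulAut.conj g • R) (g * w * g⁻¹) := by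
  have e : R ≃* ↥(MulAut.conj g • R) := Subgroup.equivSMul (MulAut.conj g) R
  have ho : orderOf (g * w * g⁻¹) = 2 := by
    rw [← h.2.2.2]; exact MulEquiv.orderOf_eq (MulAut.conj g) w
  have hc : Nat.card (center ↥(MulAut.conj g • R)) = 2 := by rw [← card_center_congr e]; exact h.2.1
  refine ⟨fun hcc => h.1 (isMulCommutative_congr e.symm hcc), hc, ?_, ho⟩
  symm
  apply Subgroup.eq_of_le_of_card_ge
  · rw [zpowers_le]
    refine ⟨⟨g * w * g⁻¹, conj_mem_conj h.mem⟩, ?_, rfl⟩
    rw [SetLike.mem_coe, mem_center_iff]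
    rintro ⟨x, hx⟩
    apply Subtype.ext
    change x * (g * w * g⁻¹) = g * w * g⁻¹ * x
    rw [mem_conj] at hx
    have h1 := h.comm hx
    calc x * (g * w * g⁻¹) = g * ((g⁻¹ * x * g) * w) * g⁻¹ := by group
      _ = g * (w * (g⁻¹ * x * g)) * g⁻¹ := by rw [h1]
      _ = _ := by group
  · rw [Subgroup.card_map_of_injective (Subgroup.subtype_injective _), hc, Nat.card_zpowers, ho]

/-- the main relative lemma in terms of `HasZ` -/
theorem rel' {P Q T : Subgroup S} (h2 : IsPGroup 2 S) (hr : SectionalPRankLE 2 4 S)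
    (hPT : P ≤ T) (hQT : Q ≤ T) (hTP : ∀ t ∈ T, ∀ x ∈ P, t * x * t⁻¹ ∈ P) (hTQ : ∀ t ∈ T, ∀ x ∈ Q, t * x * t⁻¹ ∈ Q)
    {z w : S} (hP : HasZ P z) (hQ : HasZ Q w) (hne : z ≠ w) :
    P ⊓ Q = ⊥ ∧ (∀ a ∈ P, ∀ b ∈ Q, a * b = b * a) ∧
      ∀ x ∈ T, (∀ a ∈ P, a * x = x * a) → (∀ b ∈ Q, b * x = x * b) → x ∈ P ⊔ Q := by
  refine rel h2 hr hPT hQT hTP hTQ hP.1 hQ.1 hP.2.1 hQ.2.1 ?_
  rw [hP.2.2.1, hQ.2.2.1]
  intro h
  apply hne
  apply eq_of_mem_zpowers hQ.2.2.2
  · rintro rfl
    have := hP.2.2.2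
    rw [orderOf_one] at this
    norm_num at this
  · rw [← h]; exact mem_zpowers z

/-- Let S be a finite 2-group of sectional 2-rank at most 4 and P a proper non-abelian subgroup whose centre has order 2. Let S₀ be the centralizer in S of Z(P) and suppose P is normal in S₀. Then either S₀ = S, or P has sectional 2-rank at most 2 and S₀ has index 2 in S. -/
theorem result {S : Type*} [Group S] [Finite S] (h2 : IsPGroup 2 S) (hr : Cfsg.SectionalPRankLE 2 4 S)
    (P : Subgroup S) (hPlt : P ≠ ⊤) (hP : ¬ IsMulCommutative ↥P) (hZP : Nat.card ↥(Subgroup.center ↥P) = 2)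
    (S₀ : Subgroup S) (hS₀ : S₀ = Subgroup.centralizer (((Subgroup.center ↥P).map P.subtype : Subgroup S) : Set S))
    (hPn : ∀ s ∈ S₀, ∀ x ∈ P, s * x * s⁻¹ ∈ P) :
    S₀ = ⊤ ∨ (Cfsg.SectionalPRankLE 2 2 ↥P ∧ S₀.index = 2) := by
  by_cases htop : S₀ = ⊤
  · exact Or.inl htop
  right
  haveI : Fact (Nat.Prime 2) := ⟨Nat.prime_two⟩
  -- the central involution
  obtain ⟨z, hz⟩ : ∃ z : S, HasZ P z := by
    have h1 : (2 : ℕ) ∣ Nat.card (Subgroup.center P) := by rw [hZP]
    obtain ⟨y, hy⟩ := exists_prime_orderOf_dvd_card' 2 h1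
    have ho : orderOf ((y : P) : S) = 2 := by rw [Subgroup.orderOf_coe, Subgroup.orderOf_coe]; exact hy
    refine ⟨((y : P) : S), hP, hZP, ?_, ho⟩
    symm
    apply Subgroup.eq_of_le_of_card_ge
    · rw [Subgroup.zpowers_le]
      exact ⟨y, y.2, rfl⟩
    · rw [Subgroup.card_map_of_injective P.subtype_injective, hZP, Nat.card_zpowers, ho]
  have hz1 : z ≠ 1 := by
    rintro rfl
    have := hz.2.2.2
    rw [orderOf_one] at this
    norm_num at this
  have hS0 : ∀ x : S, x ∈ S₀ ↔ x * z * x⁻¹ = z := by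
    intro x
    rw [hS₀, hz.2.2.1, Subgroup.mem_centralizer_iff, mul_inv_eq_iff_eq_mul]
    constructor
    · intro h
      exact (h z (Subgroup.mem_zpowers z)).symm
    · rintro h _ ⟨k, rfl⟩
      have h1 : Commute z x := h.symm
      exact h1.zpow_left k
  have hPS0 : P ≤ S₀ := by
    intro x hx
    rw [hS0, hz.comm hx, mul_inv_cancel_right]
  -- the normalizer
  obtain ⟨N0, hN0⟩ : ∃ N0, N0 = Subgroup.normalizer (S₀ : Set S) := ⟨_, rfl⟩
  have hnorm : ∀ t ∈ N0, ∀ x ∈ S₀, t * x * t⁻¹ ∈ S₀ := by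
    intro t ht x hx
    rw [hN0] at ht
    exact (Subgroup.mem_normalizer_iff.1 ht x).1 hx
  have hSN : S₀ ≤ N0 := by rw [hN0]; exact Subgroup.le_normalizer
  have hnil : Group.IsNilpotent S := h2.isNilpotent
  have hNC := Group.normalizerCondition_of_isNilpotent (G := S)
  obtain ⟨s, hsN, hsS⟩ : ∃ s ∈ N0, s ∉ S₀ := by
    have := hNC S₀ (lt_top_iff_ne_top.2 htop)
    rw [← hN0] at this
    obtain ⟨s, h1, h2⟩ := SetLike.exists_of_lt this
    exact ⟨s, h1, h2⟩
  -- conjugates by elements of N0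
  have hconjle : ∀ t ∈ N0, MulAut.conj t • P ≤ S₀ := by
    intro t ht x hx
    rw [mem_conj] at hx
    have := hnorm t ht _ (hPS0 hx)
    have e : t * (t⁻¹ * x * t) * t⁻¹ = x := by group
    rwa [e] at this
  have hconjn : ∀ t ∈ N0, ∀ y ∈ S₀, ∀ x ∈ MulAut.conj t • P, y * x * y⁻¹ ∈ MulAut.conj t • P := by
    intro t ht y hy x hx
    rw [mem_conj] at hx ⊢
    have h3 := hnorm t⁻¹ (N0.inv_mem ht) y hy
    rw [inv_inv] at h3
    have h4 := hPn _ h3 _ hx
    have e : t⁻¹ * (y * x * y⁻¹) * t = t⁻¹ * y * t * (t⁻¹ * x * t) * (t⁻¹ * y * t)⁻¹ := by group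
    rwa [e]
  set P2 := MulAut.conj s • P with hP2
  set z2 := s * z * s⁻¹ with hz2def
  have hz2 : HasZ P2 z2 := hz.conj s
  have hzne : z ≠ z2 := fun h => hsS ((hS0 s).2 h.symm)
  obtain ⟨hinf, hcomm, hcent⟩ := rel' h2 hr hPS0 (hconjle s hsN) hPn (hconjn s hsN) hz hz2 hzne
  have hz21 : z2 ≠ 1 := by
    intro h
    have := hz2.2.2.2
    rw [h, orderOf_one] at this
    norm_num at this
  -- Step 3
  have hstep3 : ∀ t ∈ N0, t ∉ S₀ → t * z * t⁻¹ = z2 := by
    intro t ht htS
    by_contra hne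
    have hz3 : HasZ (MulAut.conj t • P) (t * z * t⁻¹) := hz.conj t
    obtain ⟨-, hc1, -⟩ := rel' h2 hr hPS0 (hconjle t ht) hPn (hconjn t ht) hz hz3
      (fun h => htS ((hS0 t).2 h.symm))
    obtain ⟨-, hc2, -⟩ := rel' h2 hr (hconjle s hsN) (hconjle t ht) (hconjn s hsN) (hconjn t ht) hz2 hz3 (Ne.symm hne)
    apply hz3.1
    refine ⟨⟨?_⟩⟩
    rintro ⟨x, hx⟩ ⟨y, hy⟩
    apply Subtype.ext
    change x * y = y * x
    have h3 : x ∈ P ⊔ P2 := hcent x (hconjle t ht hx) (fun a ha => hc1 a ha x hx) (fun b hb => hc2 b hb x hx)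
    have h4 : P ⊔ P2 ≤ Subgroup.centralizer ({y} : Set S) := by
      refine sup_le ?_ ?_
      · intro a ha
        rw [Subgroup.mem_centralizer_singleton_iff]; exact hc1 a ha y hy
      · intro a ha
        rw [Subgroup.mem_centralizer_singleton_iff]; exact hc2 a ha y hy
    exact Subgroup.mem_centralizer_singleton_iff.1 (h4 h3)
  have hstep4 : ∀ t ∈ N0, t ∈ S₀ ∨ s⁻¹ * t ∈ S₀ := by
    intro t ht
    by_cases h : t ∈ S₀
    · exact Or.inl h
    · right
      rw [hS0]
      have h3 := hstep3 t ht h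
      have e : s⁻¹ * t * z * (s⁻¹ * t)⁻¹ = s⁻¹ * (t * z * t⁻¹) * s := by group
      rw [e, h3, hz2def]; group
  have hs2 : s * s ∈ S₀ := by
    rcases hstep4 (s * s) (N0.mul_mem hsN hsN) with h | h
    · exact h
    · rw [inv_mul_cancel_left] at h
      exact absurd h hsS
  have hsz2 : s * z2 * s⁻¹ = z := by
    have h3 := (hS0 _).1 hs2
    rw [hz2def]
    have e : s * (s * z * s⁻¹) * s⁻¹ = s * s * z * (s * s)⁻¹ := by group
    rw [e, h3]
  have hz2c : ∀ t ∈ S₀, t * z2 * t⁻¹ = z2 := by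
    intro t ht
    have h3 := hnorm s⁻¹ (N0.inv_mem hsN) t ht
    rw [inv_inv, hS0] at h3
    have e : t * z2 * t⁻¹ = s * ((s⁻¹ * t * s) * z * (s⁻¹ * t * s)⁻¹) * s⁻¹ := by rw [hz2def]; group
    rw [e, h3]
  have hzz2 : z * z2 = z2 * z := hcomm z hz.mem z2 hz2.mem
  have hcen : ∀ t ∈ N0, t * (z * z2) * t⁻¹ = z * z2 := by
    have h0 : ∀ t ∈ S₀, t * (z * z2) * t⁻¹ = z * z2 := by
      intro t ht
      have e : t * (z * z2) * t⁻¹ = (t * z * t⁻¹) * (t * z2 * t⁻¹) := by group
      rw [e, (hS0 t).1 ht, hz2c t ht]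
    intro t ht
    rcases hstep4 t ht with h | h
    · exact h0 t h
    · have e : t * (z * z2) * t⁻¹ = s * ((s⁻¹ * t) * (z * z2) * (s⁻¹ * t)⁻¹) * s⁻¹ := by group
      rw [e, h0 _ h]
      have e2 : s * (z * z2) * s⁻¹ = (s * z * s⁻¹) * (s * z2 * s⁻¹) := by group
      rw [e2, hsz2, ← hz2def, hzz2]
  have hlist : ∀ c ∈ S₀, (∀ a ∈ P, a * c = c * a) → (∀ b ∈ P2, b * c = c * b) →
      c = 1 ∨ c = z ∨ c = z2 ∨ c = z * z2 := by
    intro c hc hc1 hc2
    have h3 := hcent c hc hc1 hc2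
    have hPN : P ≤ Subgroup.normalizer (P2 : Set S) := by
      apply (Subgroup.centralizer_le_normalizer _).trans' 
      intro a ha
      rw [Subgroup.mem_centralizer_iff]
      exact fun b hb => (hcomm a ha b hb).symm
    rw [← SetLike.mem_coe, Subgroup.coe_mul_of_left_le_normalizer_right _ _ hPN] at h3
    obtain ⟨a, ha, b, hb, hab⟩ := h3
    have hab' : a * b = c := hab
    have ha1 : a = 1 ∨ a = z := by
      apply hz.cases ha
      intro x hx
      have h4 := hc1 x hx
      rw [← hab', ← mul_assoc, mul_assoc a b x, ← hcomm x hx b hb, ← mul_assoc] at h4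
      exact mul_right_cancel h4
    have hb1 : b = 1 ∨ b = z2 := by
      apply hz2.cases hb
      intro x hx
      have h4 := hc2 x hx
      rw [← hab', ← mul_assoc, ← hcomm a ha x hx, mul_assoc, mul_assoc] at h4
      exact mul_left_cancel h4
    rcases ha1 with rfl | rfl <;> rcases hb1 with rfl | rfl
    · left; rw [← hab', mul_one]
    · right; right; left; rw [← hab', one_mul]
    · right; left; rw [← hab', mul_one]
    · right; right; right; exact hab'.symm
  have hN0top : N0 = ⊤ := by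
    by_contra hne
    obtain ⟨u, huN, hu⟩ : ∃ u ∈ Subgroup.normalizer (N0 : Set S), u ∉ N0 := by
      obtain ⟨u, h1, h2⟩ := SetLike.exists_of_lt (hNC N0 (lt_top_iff_ne_top.2 hne))
      exact ⟨u, h1, h2⟩
    have hun : ∀ t ∈ N0, u * t * u⁻¹ ∈ N0 := fun t ht => (Subgroup.mem_normalizer_iff.1 huN t).1 ht
    have hun' : ∀ t ∈ N0, u⁻¹ * t * u ∈ N0 := fun t ht => (Subgroup.mem_normalizer_iff''.1 huN t).1 ht
    have hzN : z ∈ N0 := hSN (hPS0 hz.mem)
    have hz2N : z2 ∈ N0 := hSN (hconjle s hsN hz2.mem)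
    -- u fixes z z2
    have hfix : u * (z * z2) * u⁻¹ = z * z2 := by
      set c := u * (z * z2) * u⁻¹ with hc
      have hcN : c ∈ N0 := hun _ (N0.mul_mem hzN hz2N)
      have hcc : ∀ t ∈ N0, t * c = c * t := by
        intro t ht
        have h3 := hcen _ (hun' t ht)
        rw [mul_inv_eq_iff_eq_mul] at h3
        calc t * c = u * ((u⁻¹ * t * u) * (z * z2)) * u⁻¹ := by rw [hc]; group
          _ = u * (z * z2 * (u⁻¹ * t * u)) * u⁻¹ := by rw [h3]
          _ = c * t := by rw [hc]; group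
      have hcS : c ∈ S₀ := by
        rw [hS0, ← hcc z hzN, mul_inv_cancel_right]
      have h4 := hlist c hcS (fun a ha => hcc a (hSN (hPS0 ha))) (fun b hb => hcc b (hSN (hconjle s hsN hb)))
      rcases h4 with h4 | h4 | h4 | h4
      · exfalso
        rw [hc, mul_inv_eq_iff_eq_mul, one_mul] at h4
        have h5 : z * z2 = 1 := by
          have : u * (z * z2) = u * 1 := by rw [h4, mul_one]
          exact mul_left_cancel this
        apply hzne
        rw [mul_eq_one_iff_eq_inv] at h5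
        rw [h5]
        have := pow_orderOf_eq_one z2
        rw [hz2.2.2.2, pow_two] at this
        exact (eq_inv_of_mul_eq_one_left this).symm
      · exfalso
        have h5 := hcc s hsN
        rw [h4] at h5
        apply hzne
        rw [hz2def, h5, mul_inv_cancel_right]
      · exfalso
        have h5 := hcc s hsN
        rw [h4] at h5
        apply hzne
        have h6 := hsz2
        rw [h5, mul_inv_cancel_right] at h6
        exact h6.symm
      · exact h4
    set w := u * z * u⁻¹ with hw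
    have hwN : w ∈ N0 := hun z hzN
    have hmove : ∀ t ∈ N0, t * z * t⁻¹ = z ∨ t * z * t⁻¹ = z2 := by
      intro t ht
      by_cases h : t ∈ S₀
      · exact Or.inl ((hS0 t).1 h)
      · exact Or.inr (hstep3 t ht h)
    have hw' : u * z2 * u⁻¹ = (z * z2) * w := by
      have h3 : w * (u * z2 * u⁻¹) = z * z2 := by
        rw [← hfix, hw]; group
      have h4 : w * w = 1 := by
        have := pow_orderOf_eq_one z
        rw [hz.2.2.2, pow_two] at this
        rw [hw]
        have e : u * z * u⁻¹ * (u * z * u⁻¹) = u * (z * z) * u⁻¹ := by group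
        rw [e, this]; group
      have h5 : u * z2 * u⁻¹ = w * (z * z2) := by
        have h7 : w * (w * (u * z2 * u⁻¹)) = u * z2 * u⁻¹ := by
          rw [← mul_assoc, h4, one_mul]
        rw [h3] at h7
        exact h7.symm
      rw [h5]
      have h6 := hcen w hwN
      rw [mul_inv_eq_iff_eq_mul] at h6
      exact h6
    have hcw : ∀ t ∈ N0, t * w * t⁻¹ * w⁻¹ = 1 ∨ t * w * t⁻¹ * w⁻¹ = z * z2 := by
      intro t ht
      have e : t * w * t⁻¹ = u * ((u⁻¹ * t * u) * z * (u⁻¹ * t * u)⁻¹) * u⁻¹ := by rw [hw]; group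
      rcases hmove _ (hun' t ht) with h | h
      · left; rw [e, h, ← hw, mul_inv_cancel]
      · right; rw [e, h, hw', mul_inv_cancel_right]
    have hz2notP : z * z2 ∉ P := by
      intro h
      have h3 : z2 ∈ P := by
        have := P.mul_mem (P.inv_mem hz.mem) h
        rwa [inv_mul_cancel_left] at this
      have h4 : z2 ∈ P ⊓ P2 := ⟨h3, hz2.mem⟩
      rw [hinf, Subgroup.mem_bot] at h4
      exact hz21 h4
    have hznotP2 : z * z2 ∉ P2 := by
      intro h
      have h3 : z ∈ P2 := by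
        have := P2.mul_mem h (P2.inv_mem hz2.mem)
        rwa [mul_inv_cancel_right] at this
      have h4 : z ∈ P ⊓ P2 := ⟨hz.mem, h3⟩
      rw [hinf, Subgroup.mem_bot] at h4
      exact hz1 h4
    by_cases hwS : w ∈ S₀
    · have hw1 : ∀ a ∈ P, a * w = w * a := by
        intro a ha
        rcases hcw a (hSN (hPS0 ha)) with h | h
        · rw [mul_inv_eq_one, mul_inv_eq_iff_eq_mul] at h; exact h
        · exfalso
          apply hz2notP
          rw [← h]
          have h3 := hPn w hwS a⁻¹ (P.inv_mem ha)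
          have e : a * w * a⁻¹ * w⁻¹ = a * (w * a⁻¹ * w⁻¹) := by group
          rw [e]; exact P.mul_mem ha h3
      have hw2 : ∀ a ∈ P2, a * w = w * a := by
        intro a ha
        rcases hcw a (hSN (hconjle s hsN ha)) with h | h
        · rw [mul_inv_eq_one, mul_inv_eq_iff_eq_mul] at h; exact h
        · exfalso
          apply hznotP2
          rw [← h]
          have h3 := hconjn s hsN w hwS a⁻¹ (P2.inv_mem ha)
          have e : a * w * a⁻¹ * w⁻¹ = a * (w * a⁻¹ * w⁻¹) := by group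
          rw [e]; exact P2.mul_mem ha h3
      rcases hlist w hwS hw1 hw2 with h | h | h | h
      · apply hz1
        rw [hw, mul_inv_eq_iff_eq_mul, one_mul] at h
        have : u * z = u * 1 := by rw [h, mul_one]
        exact mul_left_cancel this
      · exact hu (hSN ((hS0 u).2 h))
      · have h3 : s⁻¹ * u ∈ S₀ := by
          rw [hS0]
          have e : s⁻¹ * u * z * (s⁻¹ * u)⁻¹ = s⁻¹ * (u * z * u⁻¹) * s := by group
          rw [e, ← hw, h, hz2def]; group
        apply hu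
        have := N0.mul_mem hsN (hSN h3)
        rwa [mul_inv_cancel_left] at this
      · -- w = z z2 is central, so z is central
        have h3 : z = z * z2 := by
          have h4 : u * z * u⁻¹ = u * (z * z2) * u⁻¹ := by rw [← hw, h, hfix]
          exact mul_left_cancel (mul_right_cancel h4)
        apply hz21
        have : z * 1 = z * z2 := by rw [mul_one]; exact h3
        exact (mul_left_cancel this).symm
    · -- w swaps P and P2
      have hsw : s⁻¹ * w ∈ S₀ := (hstep4 w hwN).resolve_left hwS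
      apply hz.1
      have hall : ∀ x ∈ P, x = 1 ∨ x = z := by
        intro x hx
        have hy : w * x⁻¹ * w⁻¹ ∈ P2 := by
          rw [hP2, mem_conj]
          have h3 := hPn _ hsw _ (P.inv_mem hx)
          have e : s⁻¹ * (w * x⁻¹ * w⁻¹) * s = s⁻¹ * w * x⁻¹ * (s⁻¹ * w)⁻¹ := by group
          rwa [e]
        have e : x * w * x⁻¹ * w⁻¹ = x * (w * x⁻¹ * w⁻¹) := by group
        rcases hcw x (hSN (hPS0 hx)) with h | h
        · left
          rw [e, mul_eq_one_iff_eq_inv] at h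
          have h3 : x ∈ P ⊓ P2 := ⟨hx, by rw [h]; exact P2.inv_mem hy⟩
          rw [hinf, Subgroup.mem_bot] at h3
          exact h3
        · right
          rw [e] at h
          have h3 : z⁻¹ * x = z2 * (w * x⁻¹ * w⁻¹)⁻¹ := by
            rw [eq_mul_inv_iff_mul_eq, mul_assoc, h, inv_mul_cancel_left]
          have h4 : z⁻¹ * x ∈ P ⊓ P2 := ⟨P.mul_mem (P.inv_mem hz.mem) hx, by
            rw [h3]; exact P2.mul_mem hz2.mem (P2.inv_mem hy)⟩
          rw [hinf, Subgroup.mem_bot, inv_mul_eq_one] at h4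
          exact h4.symm
      refine ⟨⟨?_⟩⟩
      rintro ⟨x, hx⟩ ⟨y, hy⟩
      apply Subtype.ext
      change x * y = y * x
      rcases hall x hx with rfl | rfl <;> rcases hall y hy with rfl | rfl <;> simp
  refine ⟨?_, ?_⟩
  · -- sectional rank of P
    let φ : P × P →* S :=
      { toFun := fun x => (x.1 : S) * (s * x.2 * s⁻¹)
        map_one' := by simp
        map_mul' := by
          rintro ⟨a, b⟩ ⟨c, d⟩
          change ((a : S) * c) * (s * (b * d) * s⁻¹) = (a * (s * b * s⁻¹)) * (c * (s * d * s⁻¹))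
          have h3 := hcomm c c.2 (s * b * s⁻¹) (conj_mem_conj b.2)
          calc ((a : S) * c) * (s * (b * d) * s⁻¹) = a * (c * (s * b * s⁻¹)) * (s * d * s⁻¹) := by group
            _ = a * ((s * b * s⁻¹) * c) * (s * d * s⁻¹) := by rw [h3]
            _ = _ := by group }
    have hφ : Function.Injective φ := by
      rw [injective_iff_map_eq_one]
      rintro ⟨a, b⟩ h
      have h3 : (a : S) * (s * b * s⁻¹) = 1 := h
      rw [mul_eq_one_iff_eq_inv] at h3
      have h4 : (a : S) ∈ P ⊓ P2 := ⟨a.2, by rw [h3]; exact P2.inv_mem (conj_mem_conj b.2)⟩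
      rw [hinf, Subgroup.mem_bot] at h4
      have h5 : (b : S) = 1 := by
        rw [h4] at h3
        have h6 : s * (b : S) * s⁻¹ = 1 := by
          rw [← inv_inv (s * (b : S) * s⁻¹), ← h3, inv_one]
        rw [mul_inv_eq_iff_eq_mul, one_mul] at h6
        have : s * (b : S) = s * 1 := by rw [h6, mul_one]
        exact mul_left_cancel this
      exact Prod.ext (Subtype.ext h4) (Subtype.ext h5)
    have hr2 : Cfsg.SectionalPRankLE 2 4 (P × P) := sec_inj hr φ hφ
    intro H N hN A hA1 hA2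
    let f : H.prod H →* (↥H ⧸ N) × (↥H ⧸ N) :=
      ((QuotientGroup.mk' N).prodMap (QuotientGroup.mk' N)).comp (Subgroup.prodEquiv H H).toMonoidHom
    have hf : Function.Surjective f := by
      rintro ⟨a, b⟩
      obtain ⟨a, rfl⟩ := QuotientGroup.mk'_surjective N a
      obtain ⟨b, rfl⟩ := QuotientGroup.mk'_surjective N b
      exact ⟨⟨(a, b), a.2, b.2⟩, rfl⟩
    have h3 := sec_bound hr2 f hf (A.prod A) (by
      refine ⟨⟨?_⟩⟩
      rintro ⟨⟨a, b⟩, ha, hb⟩ ⟨⟨c, d⟩, hc, hd⟩
      apply Subtype.ext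
      exact Prod.ext (congrArg Subtype.val (hA1.is_comm.comm ⟨a, ha⟩ ⟨c, hc⟩))
        (congrArg Subtype.val (hA1.is_comm.comm ⟨b, hb⟩ ⟨d, hd⟩))) (by
      rintro ⟨a, b⟩ ⟨ha, hb⟩
      exact Prod.ext (hA2 a ha) (hA2 b hb))
    rw [Nat.card_congr (Subgroup.prodEquiv A A).toEquiv, Nat.card_prod] at h3
    by_contra hlt
    have : 2 ^ 2 + 1 ≤ Nat.card A := not_le.1 hlt
    have h4 : (2 ^ 2 + 1) * (2 ^ 2 + 1) ≤ Nat.card A * Nat.card A := Nat.mul_le_mul this this
    omega
  · rw [Subgroup.index_eq_two_iff]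
    refine ⟨s, fun b => ?_⟩
    have hbN : b ∈ N0 := by rw [hN0top]; trivial
    by_cases hb : b ∈ S₀
    · right
      refine ⟨hb, fun h => hsS ?_⟩
      have := S₀.mul_mem (S₀.inv_mem hb) h
      rwa [inv_mul_cancel_left] at this
    · left
      refine ⟨?_, hb⟩
      have h3 : s⁻¹ * b ∈ S₀ := (hstep4 b hbN).resolve_left hb
      have h4 := hnorm s⁻¹ (N0.inv_mem hsN) _ h3
      have e : b * s = (s * s) * (s⁻¹ * (s⁻¹ * b) * s⁻¹⁻¹) := by group
      rw [e]
      exact S₀.mul_mem hs2 h4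

end Cfsg.Agent.S4401
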