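import Cfsg.Statements.S4403
import Mathlib
import Cfsg.Agent.LibH7Cyc
import Cfsg.Agent.LibComp2
import Cfsg.Agent.LibCores

set_option autoImplicit false
open Cfsg

namespace Cfsg.Agent.S4403

open Subgroup Cfsg CfsgLib.H7Cyc
open scoped commutatorElement

variable {K : Type*} [Group K] [Finite K]

theorem sylow_cyclic {p : ℕ} [Fact p.Prime] {P : Sylow p K} (hP : IsCyclic P) (Q : Sylow p K) : IsCyclic Q := by
  haveI := hP
  exact isCyclic_of_surjective (Sylow.equiv P Q) (Sylow.equiv P Q).surjective

/-- commuting elements of order `p` generate the same subgroup -/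
theorem comm_order_p {p : ℕ} [hp : Fact p.Prime] {P : Sylow p K} (hP : IsCyclic P) {x y : K}
    (hx : orderOf x = p) (hy : orderOf y = p) (hxy : x * y = y * x) : y ∈ zpowers x := by
  have h1 : IsPGroup p (zpowers x) := by
    rw [IsPGroup.iff_card]; exact ⟨1, by rw [Nat.card_zpowers, hx, pow_one]⟩
  have h2 : IsPGroup p (zpowers y) := by
    rw [IsPGroup.iff_card]; exact ⟨1, by rw [Nat.card_zpowers, hy, pow_one]⟩
  have h3 : zpowers x ≤ normalizer (zpowers y : Set K) := by
    rw [zpowers_le]
    apply Subgroup.centralizer_le_normalizer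
    rw [mem_centralizer_iff]
    rintro _ ⟨k, rfl⟩
    have : Commute y x := hxy.symm
    exact this.zpow_left k
  have h4 : IsPGroup p (↥(zpowers x ⊔ zpowers y)) := h1.to_sup_of_normal_right' h2 h3
  obtain ⟨Q, hQ⟩ := h4.exists_le_sylow
  exact mem_zpowers_of_prime' (sylow_cyclic hP Q) hp.out (hQ (mem_sup_left (mem_zpowers x)))
    (hQ (mem_sup_right (mem_zpowers y))) hx hy

theorem sub_sylow_cyclic {p : ℕ} [hp : Fact p.Prime] {P : Sylow p K} (hP : IsCyclic P) (L : Subgroup K)
    (Q : Sylow p L) : IsCyclic Q := by
  obtain ⟨R, hR⟩ := (Q.isPGroup'.map L.subtype).exists_le_sylow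
  haveI := sylow_cyclic hP R
  refine isCyclic_of_injective ((Subgroup.inclusion hR).comp
    ((Q : Subgroup L).equivMapOfInjective L.subtype L.subtype_injective).toMonoidHom) ?_
  intro a b hab
  have h1 := congrArg (fun z : R => (z : K)) hab
  exact Subtype.ext (Subtype.ext h1)

theorem caseA (p : ℕ) [hp : Fact p.Prime] (hpK : p ∣ Nat.card K) (P : Sylow p K) (hP : IsCyclic ↥(P : Subgroup K))
    (hn : (P : Subgroup K).Normal) (hC : centralizer ((P : Subgroup K) : Set K) = P) :
    (∀ (_ : (P : Subgroup K).Normal), IsCyclic (K ⧸ (P : Subgroup K))) ∧ (P : Subgroup K).index ∣ p - 1 := by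
  have hPne : (P : Subgroup K) ≠ ⊥ := by
    intro h
    have h1 := P.dvd_card_of_dvd_card hpK
    rw [h, Subgroup.card_bot] at h1
    exact hp.out.one_lt.ne' (Nat.dvd_one.1 h1)
  obtain ⟨x, hxP, hx⟩ := exists_order_p P.isPGroup' hPne
  have hx1 : x ≠ 1 := by
    rintro rfl
    rw [orderOf_one] at hx
    exact hp.out.one_lt.ne hx
  have hΩ : (zpowers x).Normal := by
    refine ⟨?_⟩
    rintro _ ⟨k, rfl⟩ g
    change g * x ^ k * g⁻¹ ∈ zpowers x
    rw [← conj_zpow]
    apply zpow_mem
    apply mem_zpowers_of_prime' hP hp.out hxP (hn.conj_mem x hxP g) hx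
    rw [← hx]
    exact MulEquiv.orderOf_eq (MulAut.conj g) x
  set φ : K →* MulAut (zpowers x) := MulAut.conjNormal with hφ
  have hker : φ.ker = P := by
    ext g
    have hg1 : g ∈ φ.ker ↔ g * x = x * g := by
      rw [MonoidHom.mem_ker]
      constructor
      · intro h
        have h1 : ((φ g ⟨x, mem_zpowers x⟩ : zpowers x) : K) = x := by rw [h]; rfl
        rw [hφ, MulAut.conjNormal_apply] at h1
        rwa [mul_inv_eq_iff_eq_mul] at h1
      · intro h
        ext ⟨y, k, rfl⟩
        rw [hφ, MulAut.conjNormal_apply]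
        change g * x ^ k * g⁻¹ = x ^ k
        rw [← conj_zpow, h, mul_inv_cancel_right]
    rw [hg1]
    constructor
    · intro h
      obtain ⟨e, f, hef, ⟨k, hk⟩, hf⟩ := CfsgLib.H6.exists_p_decomp p hp.out g
      have h1 : g ^ e ∈ (P : Subgroup K) := by
        have h2 : IsPGroup p (zpowers (g ^ e)) := by
          rw [IsPGroup.iff_card]
          exact ⟨k, by rw [Nat.card_zpowers, hk]⟩
        have h3 := h2.inf_normalizer_sylow P
        have h4 : g ^ e ∈ zpowers (g ^ e) ⊓ normalizer ((P : Subgroup K) : Set K) :=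
          ⟨mem_zpowers _, by rw [Subgroup.normalizer_eq_top]; trivial⟩
        exact (h3.le h4).2
      have h2 : g ^ f ∈ (P : Subgroup K) := by
        rw [← hC]
        rcases act_cyclic P.isPGroup' hP (A := zpowers (g ^ f)) (by rw [Subgroup.normalizer_eq_top]; exact le_top)
          (zpowers_coprime hf) with h3 | h3
        · exact h3 (mem_zpowers _)
        · exfalso
          have h4 : x ∈ (P : Subgroup K) ⊓ centralizer (zpowers (g ^ f) : Set K) := by
            refine ⟨hxP, mem_centralizer_iff.2 ?_⟩
            rintro _ ⟨k, rfl⟩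
            have h5 : Commute g x := h
            exact (h5.pow_left f).zpow_left k
          rw [h3.1, mem_bot] at h4
          exact hx1 h4
      rw [← hef]
      exact mul_mem h1 h2
    · intro h
      exact (mem_centralizer_iff.1 (le_centralizer_of_cyclic hP hxP)) g h
  haveI : Fact (Nat.card (zpowers x)).Prime := ⟨by rw [Nat.card_zpowers, hx]; exact hp.out⟩
  have hcard : Nat.card (zpowers x) = p := by rw [Nat.card_zpowers, hx]
  have hcyc : IsCyclic (MulAut (zpowers x)) := by
    exact isCyclic_of_surjective (IsCyclic.mulAutMulEquiv (zpowers x)).symm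
      (IsCyclic.mulAutMulEquiv (zpowers x)).symm.surjective
  have hMA : Nat.card (MulAut (zpowers x)) = p - 1 := by
    rw [Nat.card_congr (IsCyclic.mulAutMulEquiv (zpowers x)).toEquiv, Nat.card_units, Nat.card_zmod, hcard]
  constructor
  · intro hn'
    have h1 : IsCyclic (K ⧸ φ.ker) := isCyclic_of_injective (QuotientGroup.kerLift φ) (QuotientGroup.kerLift_injective φ)
    exact isCyclic_of_surjective (QuotientGroup.quotientMulEquivOfEq hker) (QuotientGroup.quotientMulEquivOfEq hker).surjective
  · rw [← hMA, ← hker, Subgroup.index_ker]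
    exact Subgroup.card_subgroup_dvd_card _

/-- Let K be a finite group, p a prime dividing its order with O_{p'}(K) = 1 (no nontrivial normal subgroup of order prime to p), and P a cyclic Sylow p-subgroup of K. Then either P is normal and self-centralizing in K with K/P cyclic of order dividing p − 1 (so K is the semidirect product of P by a group of automorphisms of P of order dividing p − 1), or the generalized Fitting subgroup F*(K) is a non-abelian simple group and p does not divide the index of F*(K) in K. -/
theorem result {K : Type*} [Group K] [Finite K] (p : ℕ) [Fact p.Prime] (hp : p ∣ Nat.card K) (hO : Cfsg.pPrimeCore p K = ⊥)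
    (P : Sylow p K) (hP : IsCyclic ↥(P : Subgroup K)) :
    ((P : Subgroup K).Normal ∧ Subgroup.centralizer ((P : Subgroup K) : Set K) = (P : Subgroup K) ∧
      (∀ (_ : (P : Subgroup K).Normal), IsCyclic (K ⧸ (P : Subgroup K))) ∧ (P : Subgroup K).index ∣ p - 1) ∨
    (IsSimpleGroup ↥(Cfsg.generalizedFittingSubgroup K) ∧ ¬ IsMulCommutative ↥(Cfsg.generalizedFittingSubgroup K) ∧
      ¬ p ∣ (Cfsg.generalizedFittingSubgroup K).index) := by
  have hp0 : Fact p.Prime := inferInstance
  have hpr := hp0.out
  -- all normal p'-subgroups are trivial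
  have hO' : ∀ N : Subgroup K, N.Normal → (Nat.card N).Coprime p → N = ⊥ := by
    intro N hN hc
    rw [eq_bot_iff, ← hO]
    exact CfsgLib.Cores.le_pPrimeCore hN hc
  have hFq : ∀ q : ℕ, q.Prime → q ≠ p → Cfsg.pCore q K = ⊥ := by
    intro q hq hqp
    haveI : Fact q.Prime := ⟨hq⟩
    apply hO' _ inferInstance
    obtain ⟨k, hk⟩ := IsPGroup.iff_card.1 (CfsgLib.Cores.pCore_isPGroup (G := K) q)
    rw [hk]
    exact ((Nat.coprime_primes hq hpr).2 hqp).pow_left k
  by_cases hcomp : ∃ L : Subgroup K, Cfsg.IsComponent L
  · right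
    obtain ⟨L, hL⟩ := hcomp
    have hpdiv : ∀ M : Subgroup K, Cfsg.IsComponent M → ∃ x ∈ M, orderOf x = p := by
      intro M hM
      have h1 : p ∣ Nat.card M := by
        by_contra h
        apply CfsgLib.Comp.component_ne_bot hM
        rw [eq_bot_iff, ← hO]
        exact CfsgLib.Comp.le_pPrimeCore_of_subnormal hM.1 ((Nat.Prime.coprime_iff_not_dvd hpr).2 h).symm
      obtain ⟨x, hx⟩ := exists_prime_orderOf_dvd_card' p h1
      exact ⟨x, x.2, by rw [Subgroup.orderOf_coe]; exact hx⟩
    have hnc : ∀ M : Subgroup K, Cfsg.IsComponent M → ∀ z ∈ M, orderOf z = p → (∀ m ∈ M, m * z = z * m) → False := by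
      intro M hM z hz hzo hzc
      obtain ⟨Q⟩ := (inferInstance : Nonempty (Sylow p M))
      refine no_central Q (sub_sylow_cyclic hP M Q) hM.2.1 (z := ⟨z, hz⟩) ?_ ?_
      · rw [Subgroup.mem_center_iff]
        intro g
        exact Subtype.ext (hzc g g.2)
      · rw [Subgroup.orderOf_mk]; exact hzo
    have huniq : ∀ M : Subgroup K, Cfsg.IsComponent M → M = L := by
      intro M hM
      by_contra hne
      have h1 := CfsgLib.Comp.components_commute hM hL hne
      rw [Subgroup.commutator_eq_bot_iff_le_centralizer] at h1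
      obtain ⟨x, hx, hxo⟩ := hpdiv L hL
      obtain ⟨y, hy, hyo⟩ := hpdiv M hM
      have h2 : ∀ m ∈ M, ∀ l ∈ L, l * m = m * l := fun m hm l hl => (Subgroup.mem_centralizer_iff.1 (h1 hm)) l hl
      have h3 : y ∈ Subgroup.zpowers x := comm_order_p hP hxo hyo (h2 y hy x hx)
      have h4 : y ∈ L := (Subgroup.zpowers_le.2 hx) h3
      exact hnc L hL y h4 hyo (fun l hl => h2 y hy l hl)
    have hLn : L.Normal := by
      refine ⟨fun x hx g => ?_⟩
      have h1 := CfsgLib.Comp.isComponent_map_equiv (MulAut.conj g) hL
      have h2 := huniq _ h1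
      rw [← h2]
      exact ⟨x, hx, rfl⟩
    have hlayer : Cfsg.layer K = L := by
      apply le_antisymm
      · exact sSup_le fun M hM => (huniq M hM).le
      · exact CfsgLib.Comp.component_le_layer hL
    obtain ⟨x, hxL, hxo⟩ := hpdiv L hL
    have hcen : Subgroup.center L = ⊥ := by
      have hn : ((Subgroup.center L).map L.subtype).Normal := ConjAct.normal_of_characteristic_of_normal
      have h1 : (Subgroup.center L).map L.subtype = ⊥ := by
        apply hO' _ hn
        rw [Subgroup.card_map_of_injective L.subtype_injective]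
        apply Nat.Coprime.symm
        rw [Nat.Prime.coprime_iff_not_dvd hpr]
        intro hd
        obtain ⟨z, hz⟩ := exists_prime_orderOf_dvd_card' p hd
        refine hnc L hL ((z : L) : K) (z : L).2 (by rw [Subgroup.orderOf_coe, Subgroup.orderOf_coe]; exact hz) ?_
        intro m hm
        have h3 := (Subgroup.mem_center_iff.1 z.2) ⟨m, hm⟩
        exact congrArg Subtype.val h3
      rwa [Subgroup.map_eq_bot_iff, Subgroup.ker_subtype, le_bot_iff] at h1
    have hLC : L ⊓ Subgroup.centralizer (L : Set K) = ⊥ := by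
      rw [← CfsgLib.Comp2.map_center_eq, hcen, Subgroup.map_bot]
    have hF : Cfsg.fittingSubgroup K = ⊥ := by
      apply CfsgLib.Cores.fittingSubgroup_eq_bot_of_pCore
      intro q hq
      by_cases hqp : q = p
      · subst hqp
        by_contra hne
        obtain ⟨y, hy, hyo⟩ := exists_order_p (CfsgLib.Cores.pCore_isPGroup (G := K) q) hne
        have h1 := CfsgLib.Comp.component_commute_fitting hL
        rw [Subgroup.commutator_eq_bot_iff_le_centralizer] at h1
        have h2 : y ∈ Cfsg.fittingSubgroup K := CfsgLib.Cores.pCore_le_fittingSubgroup q hy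
        have h3 : ∀ l ∈ L, y * l = l * y := fun l hl => (Subgroup.mem_centralizer_iff.1 (h1 hl)) y h2
        have h4 : y ∈ Subgroup.zpowers x := comm_order_p hP hxo hyo (h3 x hxL).symm
        exact hnc L hL y ((Subgroup.zpowers_le.2 hxL) h4) hyo (fun l hl => (h3 l hl).symm)
      · exact hFq q hq hqp
    have hFs : Cfsg.generalizedFittingSubgroup K = L := by
      rw [Cfsg.generalizedFittingSubgroup, hlayer, hF, sup_bot_eq]
    rw [hFs]
    have hsimp : IsSimpleGroup L := by
      haveI := CfsgLib.Comp.quasisimple_nontrivial hL.2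
      refine ⟨fun N hN => ?_⟩
      rcases CfsgLib.Comp.quasisimple_normal hL.2 N with h | h
      · exact Or.inr h
      · left
        rw [hcen, le_bot_iff] at h
        exact h
    refine ⟨hsimp, ?_, ?_⟩
    · intro hc
      apply CfsgLib.Comp.quasisimple_center_ne_top hL.2
      rw [eq_top_iff]
      intro a _
      rw [Subgroup.mem_center_iff]
      intro b
      exact hc.is_comm.comm b a
    · intro hdvd
      have hPL : ¬ (P : Subgroup K) ≤ L := by
        intro hle
        exact P.not_dvd_index (hdvd.trans (Subgroup.index_dvd_of_le hle))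
      obtain ⟨H, hH⟩ : ∃ H, H = L ⊔ (P : Subgroup K) := ⟨_, rfl⟩
      have hLH : L ≤ H := by rw [hH]; exact le_sup_left
      have hPH : (P : Subgroup K) ≤ H := by rw [hH]; exact le_sup_right
      obtain ⟨N, hN, hNi⟩ := burnside_sup (P.subtype hPH) (by
          haveI := hP
          exact isCyclic_of_surjective (Subgroup.subgroupOfEquivOfLe hPH).symm
            (Subgroup.subgroupOfEquivOfLe hPH).symm.surjective) (L.subgroupOf H) (by
          rw [Sylow.coe_subtype, ← Subgroup.subgroupOf_sup hLH hPH, ← hH, Subgroup.subgroupOf_self]) (by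
          intro h
          apply hPL
          intro y hy
          have : (⟨y, hPH hy⟩ : H) ∈ L.subgroupOf H := h (show _ ∈ (P : Subgroup K).subgroupOf H from hy)
          exact this)
      -- N ∩ L
      have hq : IsPGroup p (H ⧸ N) := by
        obtain ⟨k, hk⟩ := IsPGroup.iff_card.1 (P.subtype hPH).isPGroup'
        exact IsPGroup.of_card (n := k) (by rw [← Subgroup.index_eq_card, hNi, hk])
      have hNc : (Nat.card N).Coprime p := by
        apply Nat.Coprime.symm
        rw [Nat.Prime.coprime_iff_not_dvd hpr]
        intro hd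
        apply (P.subtype hPH).not_dvd_index
        have h1 := N.card_mul_index
        rw [hNi, mul_comm, ← ((P.subtype hPH : Sylow p H) : Subgroup H).card_mul_index] at h1
        rwa [← Nat.eq_of_mul_eq_mul_left Nat.card_pos h1]
      -- every element of L is in N: L is perfect
      have hLN : ∀ l : K, ∀ hl : l ∈ L, (⟨l, hLH hl⟩ : H) ∈ N := by
        let ψ : L →* H ⧸ N := (QuotientGroup.mk' N).comp (Subgroup.inclusion hLH)
        have h1 : IsPGroup p ψ.range := hq.to_subgroup _
        have h2 : Group.IsSolvable ψ.range := by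
          haveI := h1.isNilpotent
          infer_instance
        have h3 : Group.IsPerfect ψ.range := by
          haveI : Group.IsPerfect L := hL.2.1
          exact Group.IsPerfect.ofSurjective (f := ψ.rangeRestrict) ψ.rangeRestrict_surjective
        have h4 : Subsingleton ψ.range := by
          by_contra hns
          rw [not_subsingleton_iff_nontrivial] at hns
          exact (Group.IsSolvable.commutator_lt_top_of_nontrivial ψ.range).ne h3.commutator_eq_top
        intro l hl
        have h5 : ψ.rangeRestrict ⟨l, hl⟩ = 1 := Subsingleton.elim _ _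
        have h6 : ψ ⟨l, hl⟩ = 1 := congrArg Subtype.val h5
        exact (QuotientGroup.eq_one_iff _).1 h6
      have h1 := hLN x hxL
      have h2 : orderOf (⟨⟨x, hLH hxL⟩, h1⟩ : N) ∣ Nat.card N := orderOf_dvd_natCard _
      rw [Subgroup.orderOf_mk, Subgroup.orderOf_mk, hxo] at h2
      exact ((Nat.Prime.coprime_iff_not_dvd hpr).1 hNc.symm) h2
  · left
    have hlayer : Cfsg.layer K = ⊥ := by
      rw [Cfsg.layer, eq_bot_iff]
      exact sSup_le fun M hM => absurd ⟨M, hM⟩ hcomp
    have hF : Cfsg.fittingSubgroup K ≤ Cfsg.pCore p K := by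
      rw [CfsgLib.Cores.fittingSubgroup_eq_iSup_pCore]
      apply iSup_le
      rintro ⟨q, hq⟩
      by_cases hqp : q = p
      · subst hqp; exact le_rfl
      · change Cfsg.pCore q K ≤ _
        rw [hFq q hq hqp]; exact bot_le
    have hFs : Cfsg.generalizedFittingSubgroup K ≤ Cfsg.pCore p K := by
      rw [Cfsg.generalizedFittingSubgroup, hlayer, bot_sup_eq]; exact hF
    have hC := CfsgLib.Comp.centralizer_gfitting_le (G := K)
    have hPle : (P : Subgroup K) ≤ Cfsg.pCore p K := by
      have h1 : (P : Subgroup K) ≤ Subgroup.centralizer (Cfsg.generalizedFittingSubgroup K : Set K) := by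
        refine (le_centralizer_of_cyclic hP).trans (Subgroup.centralizer_le ?_)
        exact hFs.trans (CfsgLib.Cores.pCore_le_sylow P)
      exact (h1.trans hC).trans hFs
    have hPe : Cfsg.pCore p K = P := le_antisymm (CfsgLib.Cores.pCore_le_sylow P) hPle
    have hPn : (P : Subgroup K).Normal := by rw [← hPe]; infer_instance
    have hCP : Subgroup.centralizer ((P : Subgroup K) : Set K) = (P : Subgroup K) := by
      apply le_antisymm _ (le_centralizer_of_cyclic hP)
      have h1 : Subgroup.centralizer ((P : Subgroup K) : Set K) ≤ Subgroup.centralizer (Cfsg.generalizedFittingSubgroup K : Set K) := by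
        apply Subgroup.centralizer_le
        exact hFs.trans hPe.le
      exact ((h1.trans hC).trans hFs).trans hPe.le
    have h := caseA p hp P hP hPn hCP
    exact ⟨hPn, hCP, h.1, h.2⟩

end Cfsg.Agent.S4403
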