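import Cfsg.Statements.S4405
import Mathlib
import Cfsg.Agent.LibCores
import Cfsg.Agent.LibLE10
import Cfsg.Agent.LibH7Basic
import Cfsg.Agent.LibCoprime
import Cfsg.Agent.LibSolvBasic
import Cfsg.Agent.S0144

set_option autoImplicit false
open Cfsg

namespace Cfsg.Agent.S4405

open scoped commutatorElement

theorem eq_of_card_two {Q : Type*} [Group Q] {A : Subgroup Q} (hA : Nat.card A = 2) {a b : Q} (ha : a ∈ A) (hb : b ∈ A)
    (ha1 : a ≠ 1) (hb1 : b ≠ 1) : a = b := by
  classical
  by_contra hne
  haveI : Finite A := Nat.finite_of_card_ne_zero (by omega)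
  letI : Fintype A := Fintype.ofFinite _
  rw [Nat.card_eq_fintype_card] at hA
  have h1 : ({(1 : A), ⟨a, ha⟩, ⟨b, hb⟩} : Finset A).card = 3 := by
    rw [Finset.card_eq_three]
    exact ⟨1, ⟨a, ha⟩, ⟨b, hb⟩, fun h => ha1 (congrArg Subtype.val h).symm, fun h => hb1 (congrArg Subtype.val h).symm,
      fun h => hne (congrArg Subtype.val h), rfl⟩
  have h2 := Finset.card_le_univ ({(1 : A), ⟨a, ha⟩, ⟨b, hb⟩} : Finset A)
  omega

/-- Let G be a finite group of order 320 = 64·5 whose largest normal 2-subgroup H = O₂(G) equals the Fitting subgroup F(G) and is extraspecial of order 32 containing no elementary abelian subgroup of order 8 (so H is the central product of a quaternion group and a dihedral group of order 8). If T is an involution of G outside H whose centralizer in H contains an elementary abelian subgroup of order 4, then C_H(T) itself is elementary abelian of order 4. -/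
theorem result {G : Type*} [Group G] [Finite G]
    (hG : Nat.card G = 320) (hHF : Cfsg.pCore 2 G = Cfsg.fittingSubgroup G)
    (hex : Cfsg.IsExtraspecial 2 ↥(Cfsg.pCore 2 G)) (h32 : Nat.card ↥(Cfsg.pCore 2 G) = 32)
    (hminus : ∀ A : Subgroup G, A ≤ Cfsg.pCore 2 G → Cfsg.IsElementaryAbelian 2 A → Nat.card ↥A ≤ 4)
    (T : G) (hT : orderOf T = 2) (hTH : T ∉ Cfsg.pCore 2 G)
    (V : Subgroup G) (hV : V ≤ Cfsg.pCore 2 G ⊓ Subgroup.centralizer ({T} : Set G)) (hV4 : Nat.card ↥V = 4) (hVe : Cfsg.IsElementaryAbelian 2 V) :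
    Nat.card ↥(Cfsg.pCore 2 G ⊓ Subgroup.centralizer ({T} : Set G)) = 4 ∧
      Cfsg.IsElementaryAbelian 2 (Cfsg.pCore 2 G ⊓ Subgroup.centralizer ({T} : Set G)) := by
  classical
  obtain ⟨H, hHdef⟩ : ∃ H, H = Cfsg.pCore 2 G := ⟨_, rfl⟩
  rw [← hHdef] at hHF hex h32 hminus hTH hV ⊢
  haveI hHn : H.Normal := by rw [hHdef]; exact CfsgLib.H7.pCore_normal 2
  have hHp : IsPGroup 2 H := hex.1.1
  haveI : Fact (Nat.Prime 2) := ⟨Nat.prime_two⟩
  haveI : Fact (Nat.Prime 5) := ⟨by norm_num⟩
  have hZ2 : Nat.card (Subgroup.center H) = 2 := hex.2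
  have hcommZ : ∀ a b : H, a⁻¹ * b⁻¹ * a * b ∈ Subgroup.center H := by
    intro a b
    rw [← hex.1.2.2]
    have := Subgroup.commutator_mem_commutator (Subgroup.mem_top a⁻¹) (Subgroup.mem_top b⁻¹)
    rw [commutatorElement_def, inv_inv, inv_inv] at this
    exact this
  have hsq : ∀ a : H, a ^ 2 ∈ Subgroup.center H := by
    intro a
    rw [← hex.1.2.1]
    exact CfsgLib.LE.pow_mem_frattini hHp a
  have hz2 : ∀ z : H, z ∈ Subgroup.center H → z ^ 2 = 1 := by
    intro z hz
    have h1 : (⟨z, hz⟩ : Subgroup.center H) ^ Nat.card (Subgroup.center H) = 1 := pow_card_eq_one'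
    rw [hZ2] at h1
    exact congrArg Subtype.val h1
  have hsol : Group.IsSolvable G := by
    have h1 : Nat.card G = 2 ^ 6 * 5 ^ 1 := by rw [hG]; norm_num
    exact Cfsg.Agent.S0144.result (p := 2) (q := 5) (a := 6) (b := 1) (by norm_num) (by norm_num) h1
  -- conjugation automorphisms
  let φ : G → (H ≃* H) := fun g => MulAut.conjNormal g
  have hφ : ∀ g (h : H), ((φ g h : H) : G) = g * h * g⁻¹ := fun g h => MulAut.conjNormal_apply g h
  have hφz : ∀ g (z : H), z ∈ Subgroup.center H → φ g z = z := by
    intro g z hz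
    by_cases hz1 : z = 1
    · rw [hz1, map_one]
    · have h1 : φ g z ∈ Subgroup.center H := by
        rw [Subgroup.mem_center_iff] at hz ⊢
        intro k
        obtain ⟨k', rfl⟩ := (φ g).surjective k
        rw [← map_mul, ← map_mul, hz k']
      exact eq_of_card_two hZ2 h1 hz (fun h => hz1 ((map_eq_one_iff _ (φ g).injective).1 h)) hz1
  -- elements of order 5
  have h5 : ∀ y : G, orderOf y = 5 → ∀ h : H, h⁻¹ * φ y h ∈ Subgroup.center H → h ∈ Subgroup.center H := by
    intro y hy h hh
    obtain ⟨c, hc⟩ : ∃ c, c = h⁻¹ * φ y h := ⟨_, rfl⟩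
    rw [← hc] at hh
    have hyh : φ y h = h * c := by rw [hc]; group
    have hk : ∀ k : ℕ, φ (y ^ k) h = h * c ^ k := by
      intro k
      induction k with
      | zero => simp [φ]
      | succ k ih =>
        have h1 : φ (y ^ (k + 1)) h = φ (y ^ k) (φ y h) := by
          change MulAut.conjNormal (y ^ (k + 1)) h = MulAut.conjNormal (y ^ k) (MulAut.conjNormal y h)
          rw [pow_succ, map_mul]; rfl
        rw [h1, hyh, map_mul, ih, hφz _ c hh, mul_assoc, ← pow_succ]
    have h2 := hk 5
    have h3 : y ^ 5 = 1 := by rw [← hy]; exact pow_orderOf_eq_one y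
    have h4 : φ (y ^ 5) h = h := by rw [h3]; simp [φ]
    rw [h4] at h2
    have h6 : c ^ 5 = 1 := by
      have := h2.symm
      rwa [mul_eq_left] at this
    have hc1 : c = 1 := by
      have h7 := hz2 c hh
      have : c ^ 5 = (c ^ 2) ^ 2 * c := by group
      rw [this, h7, one_pow, one_mul] at h6
      exact h6
    rw [hc1, mul_one] at hyh
    -- count fixed points
    letI act : MulAction (Subgroup.zpowers y) H := MulAction.compHom H ((MulAut.conjNormal (H := H)).comp (Subgroup.zpowers y).subtype)
    have hpg : IsPGroup 5 (Subgroup.zpowers y) := IsPGroup.of_card (n := 1) (by rw [Nat.card_zpowers, hy, pow_one])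
    have hmod := hpg.card_modEq_card_fixedPoints (α := H)
    set F : Subgroup H := (Subgroup.centralizer ({y} : Set G)).subgroupOf H with hF
    have hFfix : Nat.card (MulAction.fixedPoints (Subgroup.zpowers y) H) = Nat.card F := by
      apply Nat.card_congr
      refine Equiv.subtypeEquivRight (fun k => ?_)
      rw [MulAction.mem_fixedPoints, hF, Subgroup.mem_subgroupOf, Subgroup.mem_centralizer_singleton_iff]
      constructor
      · intro hk
        have := congrArg Subtype.val (hk ⟨y, Subgroup.mem_zpowers y⟩)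
        have h8 : y * (k : G) * y⁻¹ = k := this
        rw [mul_inv_eq_iff_eq_mul] at h8
        exact h8.symm
      · rintro hk ⟨g, hg⟩
        apply Subtype.ext
        change g * (k : G) * g⁻¹ = k
        obtain ⟨i, rfl⟩ := Subgroup.mem_zpowers_iff.1 hg
        have h9 : Commute (k : G) y := hk
        rw [← (h9.zpow_right i).eq, mul_inv_cancel_right]
    have hFd : Nat.card F ∣ 32 := by rw [← h32]; exact Subgroup.card_subgroup_dvd_card F
    rw [hFfix, h32] at hmod
    have hFcard : Nat.card F = 2 ∨ Nat.card F = 32 := by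
      have h10 : Nat.card F ∈ Nat.divisors 32 := Nat.mem_divisors.2 ⟨hFd, by norm_num⟩
      have h11 : Nat.divisors 32 = {1, 2, 4, 8, 16, 32} := by decide
      rw [h11] at h10
      simp only [Finset.mem_insert, Finset.mem_singleton] at h10
      unfold Nat.ModEq at hmod
      rcases h10 with h | h | h | h | h | h <;> rw [h] at hmod ⊢ <;> omega
    have hZF : Subgroup.center H ≤ F := by
      intro z hz
      rw [hF, Subgroup.mem_subgroupOf, Subgroup.mem_centralizer_singleton_iff]
      have := congrArg Subtype.val (hφz y z hz)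
      rw [hφ, mul_inv_eq_iff_eq_mul] at this
      exact this.symm
    have hhF : h ∈ F := by
      rw [hF, Subgroup.mem_subgroupOf, Subgroup.mem_centralizer_singleton_iff]
      have := congrArg Subtype.val hyh
      rw [hφ, mul_inv_eq_iff_eq_mul] at this
      exact this.symm
    rcases hFcard with h | h
    · have : Subgroup.center H = F := Subgroup.eq_of_le_of_card_ge hZF (by rw [h, hZ2])
      rw [this]; exact hhF
    · exfalso
      have hFt : F = ⊤ := by
        apply Subgroup.eq_top_of_card_eq
        rw [h, h32]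
      have hyC : y ∈ Subgroup.centralizer ((Cfsg.fittingSubgroup G : Subgroup G) : Set G) := by
        rw [← hHF, Subgroup.mem_centralizer_iff]
        intro k hk
        have : (⟨k, hk⟩ : H) ∈ F := by rw [hFt]; trivial
        rw [hF, Subgroup.mem_subgroupOf, Subgroup.mem_centralizer_singleton_iff] at this
        exact this
      haveI := hsol
      have hyH : y ∈ H := by rw [hHF]; exact CfsgLib.Cores.centralizer_fittingSubgroup_le hyC
      have h12 : orderOf y ∣ Nat.card H := Subgroup.orderOf_dvd_natCard H hyH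
      rw [hy, h32] at h12
      revert h12; decide
  -- the homomorphism
  have hT2 : T * T = 1 := by
    have := pow_orderOf_eq_one T
    rw [hT, pow_two] at this
    exact this
  have hQc : ∀ a b : H ⧸ Subgroup.center H, a * b = b * a := by
    intro a b
    obtain ⟨a, rfl⟩ := QuotientGroup.mk'_surjective _ a
    obtain ⟨b, rfl⟩ := QuotientGroup.mk'_surjective _ b
    rw [← map_mul, ← map_mul]
    apply (QuotientGroup.eq).2
    have : (a * b)⁻¹ * (b * a) = b⁻¹ * a⁻¹ * b * a := by group
    rw [this]
    exact hcommZ b a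
  let mk : H →* H ⧸ Subgroup.center H := QuotientGroup.mk' _
  have hmk1 : ∀ a : H, mk a = 1 ↔ a ∈ Subgroup.center H := fun a => QuotientGroup.eq_one_iff a
  let κ : G → (H →* H ⧸ Subgroup.center H) := fun t =>
    { toFun := fun h => mk (h⁻¹ * φ t h)
      map_one' := by simp
      map_mul' := by
        intro a b
        have h1 : (a * b)⁻¹ * φ t (a * b) = b⁻¹ * (a⁻¹ * φ t a) * φ t b := by rw [map_mul]; group
        have h2 : mk (b⁻¹ * (a⁻¹ * φ t a) * φ t b) = mk b⁻¹ * mk (a⁻¹ * φ t a) * mk (φ t b) := by
          rw [map_mul, map_mul]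
        have h3 : mk (b⁻¹ * φ t b) = mk b⁻¹ * mk (φ t b) := map_mul _ _ _
        rw [h1, h2, h3, hQc (mk b⁻¹) (mk (a⁻¹ * φ t a)), mul_assoc] }
  have hκ : ∀ t h, κ t h = mk (h⁻¹ * φ t h) := fun t h => rfl
  set U : Subgroup H := (κ T).ker with hU
  have hUmem : ∀ h, h ∈ U ↔ h⁻¹ * φ T h ∈ Subgroup.center H := by
    intro h
    rw [hU, MonoidHom.mem_ker, hκ, hmk1]
  have hφφ : ∀ h, φ T (φ T h) = h := by
    intro h
    apply Subtype.ext
    rw [hφ, hφ]
    have : T⁻¹ = T := inv_eq_of_mul_eq_one_left hT2
    rw [this]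
    calc T * (T * (h : G) * T) * T = (T * T) * h * (T * T) := by group
      _ = h := by rw [hT2, one_mul, mul_one]
  -- a conjugate of T not commuting with T modulo H
  obtain ⟨x, hx⟩ : ∃ x : G, ∀ h : H, h ∈ U → h⁻¹ * φ (x * T * x⁻¹) h ∈ Subgroup.center H → h ∈ Subgroup.center H := by
    by_contra hcon
    push Not at hcon
    -- all T * T^x are 2-elements mod H
    have hone : ∀ x : G, (QuotientGroup.mk' H) T = (QuotientGroup.mk' H) (x * T * x⁻¹) := by
      intro x
      by_contra hne
      obtain ⟨h, hhU, hhx, hhz⟩ := hcon x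
      rw [hUmem] at hhU
      set g := T * (x * T * x⁻¹) with hg
      by_cases h5g : 5 ∣ orderOf g
      · -- power of order 5
        obtain ⟨m, hm⟩ := h5g
        have hm0 : m ≠ 0 := by
          rintro rfl
          rw [mul_zero] at hm
          exact (orderOf_pos g).ne' hm
        have hy : orderOf (g ^ m) = 5 := by
          rw [orderOf_pow_of_dvd hm0 (by rw [hm]; exact Dvd.intro_left _ rfl), hm, Nat.mul_div_cancel _ (Nat.pos_of_ne_zero hm0)]
        apply hhz
        apply h5 _ hy h
        -- h commutes with g mod Z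
        have hcl : ∀ a b : G, h⁻¹ * φ a h ∈ Subgroup.center H → h⁻¹ * φ b h ∈ Subgroup.center H →
            h⁻¹ * φ (a * b) h ∈ Subgroup.center H := by
          intro a b ha hb
          have h1 : φ (a * b) h = φ a (φ b h) := by
            change MulAut.conjNormal (a * b) h = MulAut.conjNormal a (MulAut.conjNormal b h)
            rw [map_mul]; rfl
          obtain ⟨c, hc⟩ : ∃ c, c = h⁻¹ * φ b h := ⟨_, rfl⟩
          have h2 : φ b h = h * c := by rw [hc]; group
          rw [h1, h2, map_mul, hφz a c (by rw [hc]; exact hb), ← mul_assoc]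
          exact Subgroup.mul_mem _ ha (by rw [hc]; exact hb)
        have hg1 := hcl _ _ hhU hhx
        rw [← hg] at hg1
        have hpow : ∀ k : ℕ, h⁻¹ * φ (g ^ k) h ∈ Subgroup.center H := by
          intro k
          induction k with
          | zero =>
            have : h⁻¹ * φ (g ^ 0) h = 1 := by simp [φ]
            rw [this]; exact Subgroup.one_mem _
          | succ k ih => rw [pow_succ]; exact hcl _ _ ih hg1
        exact hpow m
      · -- then T and T^x commute modulo H
        set q := QuotientGroup.mk' H with hq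
        have hQ10 : Nat.card (G ⧸ H) = 10 := by
          have h1 := Subgroup.card_eq_card_quotient_mul_card_subgroup H
          rw [hG, h32] at h1
          omega
        have h1 : orderOf (q g) ∣ 10 := by rw [← hQ10]; exact orderOf_dvd_natCard _
        have h2 : orderOf (q g) ∣ orderOf g := orderOf_map_dvd q g
        have h3 : ¬ 5 ∣ orderOf (q g) := fun h => h5g (h.trans h2)
        have h4 : orderOf (q g) ∣ 2 := by
          have hc : Nat.Coprime (orderOf (q g)) 5 := ((Nat.Prime.coprime_iff_not_dvd (by norm_num)).2 h3).symm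
          exact hc.dvd_of_dvd_mul_right (by exact h1)
        have h6 : q g * q g = 1 := by
          rw [← pow_two]; exact orderOf_dvd_iff_pow_eq_one.1 h4
        set t := q T with ht
        set t' := q (x * T * x⁻¹) with ht'
        have hqg : q g = t * t' := by rw [hg, map_mul]
        have ht2 : t * t = 1 := by rw [ht, ← map_mul, hT2, map_one]
        have ht2' : t' * t' = 1 := by
          rw [ht', ← map_mul]
          have : x * T * x⁻¹ * (x * T * x⁻¹) = x * (T * T) * x⁻¹ := by group
          rw [this, hT2, mul_one, mul_inv_cancel, map_one]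
        have hcomm : t * t' = t' * t := by
          rw [hqg] at h6
          have e1 := eq_inv_of_mul_eq_one_left h6
          rw [mul_inv_rev] at e1
          rw [e1, inv_eq_of_mul_eq_one_left ht2, inv_eq_of_mul_eq_one_left ht2']
        have ht1 : t ≠ 1 := by
          intro h; exact hTH ((QuotientGroup.eq_one_iff T).1 h)
        have ht1' : t' ≠ 1 := by
          intro h
          have := (QuotientGroup.eq_one_iff (N := H) _).1 h
          apply hTH
          have h7 := hHn.conj_mem _ this x⁻¹
          have h8 : x⁻¹ * (x * T * x⁻¹) * x⁻¹⁻¹ = T := by group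
          rwa [h8] at h7
        -- subgroup of order dividing 10 that is a 2-group
        have hc1 : Subgroup.zpowers t ≤ Subgroup.normalizer ((Subgroup.zpowers t' : Subgroup _) : Set (G ⧸ H)) := by
          rw [Subgroup.zpowers_le]
          apply Subgroup.centralizer_le_normalizer
          rw [Subgroup.mem_centralizer_iff]
          intro k hk
          obtain ⟨i, rfl⟩ := Subgroup.mem_zpowers_iff.1 hk
          exact ((show Commute t t' from hcomm).zpow_right i).eq.symm
        have hp1 : IsPGroup 2 (Subgroup.zpowers t) := by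
          rw [IsPGroup.iff_card]
          refine ⟨1, ?_⟩
          rw [Nat.card_zpowers, pow_one]
          exact orderOf_eq_prime (by rw [pow_two]; exact ht2) ht1
        have hp1' : IsPGroup 2 (Subgroup.zpowers t') := by
          rw [IsPGroup.iff_card]
          refine ⟨1, ?_⟩
          rw [Nat.card_zpowers, pow_one]
          exact orderOf_eq_prime (by rw [pow_two]; exact ht2') ht1'
        have hp2 := IsPGroup.to_sup_of_normal_right' hp1 hp1' hc1
        obtain ⟨k, hk⟩ := IsPGroup.iff_card.1 hp2
        have hd : 2 ^ k ∣ 10 := by rw [← hk, ← hQ10]; exact Subgroup.card_subgroup_dvd_card _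
        have hk1 : k ≤ 1 := by
          by_contra hlt
          push Not at hlt
          have : 2 ^ 2 ∣ 10 := (pow_dvd_pow 2 hlt).trans hd
          revert this; decide
        have hcard2 : Nat.card ↥(Subgroup.zpowers t ⊔ Subgroup.zpowers t') = 2 := by
          rcases Nat.le_one_iff_eq_zero_or_eq_one.1 hk1 with h | h
          · exfalso
            rw [h, pow_zero] at hk
            have h9 := (Subgroup.card_eq_one.1 hk)
            apply ht1
            rw [← Subgroup.mem_bot, ← h9]
            exact (le_sup_left : Subgroup.zpowers t ≤ _) (Subgroup.mem_zpowers t)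
          · rw [hk, h, pow_one]
        exact hne (eq_of_card_two hcard2 ((le_sup_left : Subgroup.zpowers t ≤ _) (Subgroup.mem_zpowers t))
          ((le_sup_right : Subgroup.zpowers t' ≤ _) (Subgroup.mem_zpowers t')) ht1 ht1')
    -- so ⟨T⟩H is normal
    have hK : (H ⊔ Subgroup.zpowers T).Normal := by
      refine ⟨fun n hn g => ?_⟩
      have hTx : ∀ g : G, g * T * g⁻¹ ∈ H ⊔ Subgroup.zpowers T := by
        intro g
        have h1 : T⁻¹ * (g * T * g⁻¹) ∈ H := QuotientGroup.eq.1 (hone g)
        have h2 : g * T * g⁻¹ = T * (T⁻¹ * (g * T * g⁻¹)) := by group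
        rw [h2]
        exact Subgroup.mul_mem _ ((le_sup_right : Subgroup.zpowers T ≤ _) (Subgroup.mem_zpowers T)) ((le_sup_left : H ≤ _) h1)
      have hle : H ⊔ Subgroup.zpowers T ≤ (H ⊔ Subgroup.zpowers T).comap (MulAut.conj g).toMonoidHom := by
        rw [sup_le_iff]
        constructor
        · intro k hk
          exact (le_sup_left : H ≤ _) (hHn.conj_mem k hk g)
        · rw [Subgroup.zpowers_le]
          exact hTx g
      exact hle hn
    have hKp : IsPGroup 2 ↥(H ⊔ Subgroup.zpowers T) := by
      apply IsPGroup.to_sup_of_normal_left hHp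
      rw [IsPGroup.iff_card]
      exact ⟨1, by rw [Nat.card_zpowers, hT, pow_one]⟩
    have hle := CfsgLib.H7.le_pCore hK hKp
    rw [← hHdef] at hle
    exact hTH (hle ((le_sup_right : Subgroup.zpowers T ≤ _) (Subgroup.mem_zpowers T)))
  -- |U| ≤ 8
  have hUcard : Nat.card U ≤ 8 := by
    set U' : Subgroup H := U.map (φ x).toMonoidHom with hU'
    have hUU' : U ⊓ U' ≤ Subgroup.center H := by
      rintro h ⟨h1, ⟨u, hu, hu'⟩⟩
      apply hx h h1
      have hux : φ x u = h := hu'
      have h2 : φ (x * T * x⁻¹) h = φ x (φ T u) := by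
        rw [← hux]
        apply Subtype.ext
        rw [hφ, hφ, hφ, hφ]
        group
      have h3 : h⁻¹ * φ (x * T * x⁻¹) h = φ x (u⁻¹ * φ T u) := by
        rw [h2, map_mul, map_inv, hux]
      rw [h3]
      have h4 := (hUmem u).1 hu
      rw [hφz x _ h4]
      exact h4
    have hcardU' : Nat.card U' = Nat.card U := Subgroup.card_map_of_injective (φ x).injective
    have h1 : Nat.card U * Nat.card U' ≤ Nat.card H * Nat.card ↥(U ⊓ U') := by
      have e1 := CfsgLib.Coprime.card_mul_relIndex (inf_le_right : U ⊓ U' ≤ U')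
      rw [Subgroup.inf_relIndex_right] at e1
      have e2 : U.relIndex U' ≤ U.index := by
        have := Subgroup.relIndex_le_of_le_right (H := U) (K := U') (L := ⊤) le_top (by rw [Subgroup.relIndex_top_right]; exact Subgroup.index_ne_zero_of_finite)
        rwa [Subgroup.relIndex_top_right] at this
      have e3 := U.card_mul_index
      calc Nat.card U * Nat.card U' = Nat.card U * (Nat.card ↥(U ⊓ U') * U.relIndex U') := by rw [e1]
        _ ≤ Nat.card U * (Nat.card ↥(U ⊓ U') * U.index) := Nat.mul_le_mul_left _ (Nat.mul_le_mul_left _ e2)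
        _ = (Nat.card U * U.index) * Nat.card ↥(U ⊓ U') := by ring
        _ = _ := by rw [e3]
    have h2 : Nat.card ↥(U ⊓ U') ≤ 2 := by
      rw [← hZ2]; exact Nat.le_of_dvd Nat.card_pos (Subgroup.card_dvd_of_le hUU')
    rw [hcardU', h32] at h1
    by_contra hlt
    push Not at hlt
    have h3 : Nat.card ↥U * Nat.card ↥U ≤ 64 := h1.trans (by omega)
    nlinarith
  set W : Subgroup G := H ⊓ Subgroup.centralizer ({T} : Set G) with hW
  have hWU : W.subgroupOf H ≤ U := by
    intro h hh
    rw [Subgroup.mem_subgroupOf, hW, Subgroup.mem_inf, Subgroup.mem_centralizer_singleton_iff] at hh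
    rw [hUmem]
    have : φ T h = h := by
      apply Subtype.ext
      rw [hφ, ← hh.2, mul_inv_cancel_right]
    rw [this, inv_mul_cancel]
    exact Subgroup.one_mem _
  have hWcard : Nat.card (W.subgroupOf H) = Nat.card W := Nat.card_congr (Subgroup.subgroupOfEquivOfLe inf_le_left).toEquiv
  have hWlt : Nat.card W < 8 := by
    by_contra hge
    push Not at hge
    have hWUeq : W.subgroupOf H = U := Subgroup.eq_of_le_of_card_ge hWU (by rw [hWcard]; omega)
    have hU8 : Nat.card U = 8 := by
      have : Nat.card U = Nat.card W := by rw [← hWUeq, hWcard]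
      omega
    -- range of κ T
    have hrange : Nat.card (κ T).range = 4 := by
      have h1 : Nat.card (κ T).range = (κ T).ker.index := (Subgroup.index_ker _).symm
      have h2 := (κ T).ker.card_mul_index
      rw [← hU, hU8, h32] at h2
      rw [h1, ← hU]
      omega
    have hZU : Subgroup.center H ≤ U := by
      intro z hz
      rw [hUmem, hφz T z hz, inv_mul_cancel]
      exact Subgroup.one_mem _
    have hUmk : Nat.card (U.map mk) = 4 := by
      have h1 : mk.ker = Subgroup.center H := QuotientGroup.ker_mk' _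
      have h2 := CfsgLib.SolvBasic.card_map_mul_card_inf_ker mk U
      rw [h1, inf_eq_right.2 hZU, hZ2, hU8] at h2
      omega
    have hle : (κ T).range ≤ U.map mk := by
      rintro _ ⟨h, rfl⟩
      refine ⟨h⁻¹ * φ T h, ?_, rfl⟩
      change h⁻¹ * φ T h ∈ U
      rw [hUmem, map_mul, map_inv, hφφ]
      have h1 : (h⁻¹ * φ T h)⁻¹ * ((φ T h)⁻¹ * h) = ((h⁻¹ * φ T h)⁻¹) ^ 2 := by
        rw [pow_two]; group
      rw [h1]
      exact hsq _
    have hreq : (κ T).range = U.map mk := Subgroup.eq_of_le_of_card_ge hle (by rw [hUmk, hrange])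
    have hexp : ∀ w ∈ W, w ^ 2 = 1 := by
      intro w hw
      have hwH : w ∈ H := hw.1
      have hwU : (⟨w, hwH⟩ : H) ∈ U := by rw [← hWUeq, Subgroup.mem_subgroupOf]; exact hw
      have h1 : mk ⟨w, hwH⟩ ∈ (κ T).range := by rw [hreq]; exact ⟨_, hwU, rfl⟩
      obtain ⟨h, hh⟩ := h1
      rw [hκ] at hh
      obtain ⟨v, hv⟩ : ∃ v, v = h⁻¹ * φ T h := ⟨_, rfl⟩
      rw [← hv] at hh
      have hz : v⁻¹ * ⟨w, hwH⟩ ∈ Subgroup.center H := QuotientGroup.eq.1 hh
      obtain ⟨z, hzdef⟩ : ∃ z, z = v⁻¹ * (⟨w, hwH⟩ : H) := ⟨_, rfl⟩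
      rw [← hzdef] at hz
      have hwv : (⟨w, hwH⟩ : H) = v * z := by rw [hzdef]; group
      have hφw : φ T ⟨w, hwH⟩ = ⟨w, hwH⟩ := by
        apply Subtype.ext
        rw [hφ]
        have := (Subgroup.mem_centralizer_singleton_iff).1 hw.2
        change T * w * T⁻¹ = w
        rw [← this, mul_inv_cancel_right]
      have hφv : φ T v = v := by
        have h2 := hφw
        rw [hwv, map_mul, hφz T z hz] at h2
        exact mul_right_cancel h2
      have hφv' : φ T v = v⁻¹ := by
        rw [hv, map_mul, map_inv, hφφ]; group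
      have hv2 : v * v = 1 := by
        rw [hφv] at hφv'
        nth_rewrite 1 [hφv']
        rw [inv_mul_cancel]
      have h3 : (⟨w, hwH⟩ : H) ^ 2 = 1 := by
        rw [hwv, pow_two]
        have h4 : z * v = v * z := (Subgroup.mem_center_iff.1 hz v).symm
        calc v * z * (v * z) = v * (z * v) * z := by group
          _ = (v * v) * (z * z) := by rw [h4]; group
          _ = 1 := by rw [hv2, ← pow_two, hz2 z hz, one_mul]
      exact congrArg Subtype.val h3
    have hWe : Cfsg.IsElementaryAbelian 2 W := by
      refine ⟨⟨⟨fun a b => ?_⟩⟩, hexp⟩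
      apply Subtype.ext
      have ha := hexp a a.2
      have hb := hexp b b.2
      have hab := hexp (a * b) (W.mul_mem a.2 b.2)
      rw [pow_two] at ha hb hab
      have e1 := eq_inv_of_mul_eq_one_left hab
      rw [mul_inv_rev] at e1
      change (a : G) * b = b * a
      rw [e1, inv_eq_of_mul_eq_one_left ha, inv_eq_of_mul_eq_one_left hb]
    have := hminus W inf_le_left hWe
    omega
  have hVW : V = W := by
    apply Subgroup.eq_of_le_of_card_ge hV
    rw [hV4]
    have h1 : Nat.card W ∣ 32 := by rw [← h32]; exact Subgroup.card_dvd_of_le inf_le_left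
    have h10 : Nat.card W ∈ Nat.divisors 32 := Nat.mem_divisors.2 ⟨h1, by norm_num⟩
    have h11 : Nat.divisors 32 = {1, 2, 4, 8, 16, 32} := by decide
    rw [h11] at h10
    simp only [Finset.mem_insert, Finset.mem_singleton] at h10
    omega
  rw [← hVW]
  exact ⟨hV4, hVe⟩

end Cfsg.Agent.S4405
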