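import Cfsg.Statements.S4406
import Cfsg.Agent.EqBase

set_option autoImplicit false
open Cfsg

namespace Cfsg.Agent.S4406

set_option maxRecDepth 100000 in
theorem a4sq : ∀ x : ↥(alternatingGroup (Fin 4)), x * x * x * x = 1 → x * x = 1 := by decide

theorem grp1 {G : Type*} [Group G] (t z : G) : t * (t * (t * z * t⁻¹) * t⁻¹) * t⁻¹ = t ^ 3 * z * (t ^ 3)⁻¹ := by
  rw [pow_succ, pow_two]; group

theorem grp2 {G : Type*} [Group G] (t x y : G) : t * (x * y) * t⁻¹ = (t * x * t⁻¹) * (t * y * t⁻¹) := by group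

def PP (x y a : ↥(alternatingGroup (Fin 4))) : Prop :=
  (a * x * a⁻¹ = y ∧ a * y * a⁻¹ = x * y) ∨ (a * x * a⁻¹ = x * y ∧ a * y * a⁻¹ = x)

instance (x y a : ↥(alternatingGroup (Fin 4))) : Decidable (PP x y a) := by
  unfold PP; infer_instance

def P2 (x y : ↥(alternatingGroup (Fin 4))) : Prop :=
  ∀ a : ↥(alternatingGroup (Fin 4)), a * a * a = 1 → a ≠ 1 → PP x y a

instance (x y : ↥(alternatingGroup (Fin 4))) : Decidable (P2 x y) := by
  unfold P2; infer_instance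

set_option maxRecDepth 100000 in
theorem a4conj0 : ∀ x y : ↥(alternatingGroup (Fin 4)), (x * x = 1 ∧ x ≠ 1) ∧ (y * y = 1 ∧ y ≠ 1) ∧ x ≠ y →
    P2 x y := by decide

set_option maxRecDepth 100000 in
theorem a4comm : ∀ x y : ↥(alternatingGroup (Fin 4)), (x * x = 1) ∧ (y * y = 1) → x * y = y * x := by decide


theorem two {x : ↥(alternatingGroup (Fin 4))} {k : ℕ} (h : x ^ 2 ^ k = 1) : x * x = 1 := by
  apply a4sq
  have h1 : orderOf x ∣ 2 ^ k := orderOf_dvd_of_pow_eq_one h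
  have h2 : orderOf x ∣ 12 := by
    have h3 := orderOf_dvd_card (x := x)
    have h4 : Fintype.card ↥(alternatingGroup (Fin 4)) = 12 := by decide
    rwa [h4] at h3
  have h3 : Nat.Coprime (orderOf x) 3 := Nat.Coprime.coprime_dvd_left h1 (Nat.Coprime.pow_left k (by decide))
  have h4 : orderOf x ∣ 4 := h3.dvd_of_dvd_mul_right (show orderOf x ∣ 4 * 3 from h2)
  have h5 := orderOf_dvd_iff_pow_eq_one.mp h4
  rw [pow_succ, pow_succ, pow_two] at h5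
  exact h5

theorem pick {x y b : ↥(alternatingGroup (Fin 4))} (hx : x * x = 1) (hx1 : x ≠ 1) (hy : y * y = 1) (hy1 : y ≠ 1) (hxy : x ≠ y)
    (hb : b * b * b = 1) (hb1 : b ≠ 1) :
    (∃ c, (c = b ∨ c = b⁻¹) ∧ c * x * c⁻¹ = y ∧ c * y * c⁻¹ = x * y) ∧
    (∃ c, (c = b ∨ c = b⁻¹) ∧ c * x * c⁻¹ = x * y ∧ c * y * c⁻¹ = x) := by
  have hb' : b⁻¹ * b⁻¹ * b⁻¹ = 1 := by
    rw [← mul_inv_rev, ← mul_inv_rev, ← mul_assoc, hb, inv_one]
  have hb1' : b⁻¹ ≠ 1 := inv_ne_one.mpr hb1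
  have h1 := a4conj0 x y ⟨⟨hx, hx1⟩, ⟨hy, hy1⟩, hxy⟩ b hb hb1
  have h2 := a4conj0 x y ⟨⟨hx, hx1⟩, ⟨hy, hy1⟩, hxy⟩ b⁻¹ hb' hb1'
  unfold PP at h1 h2
  rw [inv_inv] at h2
  rcases h1 with ⟨h1, h1'⟩ | ⟨h1, h1'⟩
  · rcases h2 with ⟨h2, h2'⟩ | ⟨h2, h2'⟩
    · exfalso
      apply hy1
      have h3 : b⁻¹ * y * b = x := by rw [← h1]; group
      rw [h3] at h2'
      exact (mul_eq_left (a := x)).mp h2'.symm
    · exact ⟨⟨b, Or.inl rfl, h1, h1'⟩, ⟨b⁻¹, Or.inr rfl, by rw [inv_inv]; exact h2, by rw [inv_inv]; exact h2'⟩⟩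
  · rcases h2 with ⟨h2, h2'⟩ | ⟨h2, h2'⟩
    · exact ⟨⟨b⁻¹, Or.inr rfl, by rw [inv_inv]; exact h2, by rw [inv_inv]; exact h2'⟩, ⟨b, Or.inl rfl, h1, h1'⟩⟩
    · exfalso
      apply hx1
      have h3 : b⁻¹ * x * b = y := by rw [← h1']; group
      rw [h3] at h2
      exact (mul_eq_right (b := y)).mp h2.symm

theorem conjQ {Q : Sylow 3 (↥(alternatingGroup (Fin 4)) × ↥(alternatingGroup (Fin 4)))}
    (u : ↥(alternatingGroup (Fin 4)) × ↥(alternatingGroup (Fin 4))) (hu : u ^ 3 = 1) :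
    ∃ g : ↥(alternatingGroup (Fin 4)) × ↥(alternatingGroup (Fin 4)), g * u * g⁻¹ ∈ (Q : Subgroup _) := by
  haveI : Fact (Nat.Prime 3) := ⟨Nat.prime_three⟩
  have h1 : IsPGroup 3 ↥(Subgroup.zpowers u) := by
    intro ⟨z, hz⟩
    obtain ⟨k, rfl⟩ := Subgroup.mem_zpowers_iff.mp hz
    refine ⟨1, Subtype.ext ?_⟩
    show (u ^ k) ^ (3 ^ 1) = 1
    rw [pow_one, ← zpow_natCast, ← zpow_mul, mul_comm, zpow_mul]
    rw [show (u ^ ((3 : ℕ) : ℤ)) = 1 by rw [zpow_natCast]; exact hu, one_zpow]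
  obtain ⟨Q', hQ'⟩ := h1.exists_le_sylow
  obtain ⟨g, hg⟩ := MulAction.exists_smul_eq (↥(alternatingGroup (Fin 4)) × ↥(alternatingGroup (Fin 4))) Q' Q
  refine ⟨g, ?_⟩
  rw [← hg, Sylow.coe_subgroup_smul, Subgroup.mem_pointwise_smul_iff_inv_smul_mem]
  have h2 : (MulAut.conj g)⁻¹ • (g * u * g⁻¹) = u := by
    rw [← map_inv, MulAut.smul_def, MulAut.conj_apply]
    group
  rw [h2]
  exact hQ' (Subgroup.mem_zpowers u)

/-- In the direct product P = A₄ × A₄, let X be the Sylow 2-subgroup, X₁ and X₂ its intersections with the two direct factors, Q a Sylow 3-subgroup and Q₁, Q₂ its intersections with the two factors. Then every subgroup B of X of order 4 either meets X₁ or X₂ nontrivially, or is normalized by one of the two subgroups of Q of order 3 other than Q₁ and Q₂. -/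
theorem result
    (X : Sylow 2 (↥(alternatingGroup (Fin 4)) × ↥(alternatingGroup (Fin 4))))
    (Q : Sylow 3 (↥(alternatingGroup (Fin 4)) × ↥(alternatingGroup (Fin 4))))
    (B : Subgroup (↥(alternatingGroup (Fin 4)) × ↥(alternatingGroup (Fin 4)))) (hBX : B ≤ (X : Subgroup _)) (hB4 : Nat.card ↥B = 4) :
    B ⊓ ((X : Subgroup _) ⊓ Subgroup.prod ⊤ ⊥) ≠ ⊥ ∨ B ⊓ ((X : Subgroup _) ⊓ Subgroup.prod ⊥ ⊤) ≠ ⊥ ∨
      ∃ R : Subgroup (↥(alternatingGroup (Fin 4)) × ↥(alternatingGroup (Fin 4))), R ≤ (Q : Subgroup _) ∧ Nat.card ↥R = 3 ∧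
        R ≠ (Q : Subgroup _) ⊓ Subgroup.prod ⊤ ⊥ ∧ R ≠ (Q : Subgroup _) ⊓ Subgroup.prod ⊥ ⊤ ∧ R ≤ Subgroup.normalizer (B : Set _) := by
  obtain ⟨a₀, ha₀, ha₀1⟩ : ∃ a : ↥(alternatingGroup (Fin 4)), a * a * a = 1 ∧ a ≠ 1 := by decide
  have ha₀3 : a₀ ^ 3 = 1 := by rw [pow_succ, pow_two]; exact ha₀
  obtain ⟨g, hg⟩ := conjQ (Q := Q) (a₀, 1) (by rw [Prod.pow_mk, ha₀3, one_pow]; rfl)
  obtain ⟨g', hg'⟩ := conjQ (Q := Q) (1, a₀) (by rw [Prod.pow_mk, ha₀3, one_pow]; rfl)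
  obtain ⟨g1, g2⟩ := g
  obtain ⟨g1', g2'⟩ := g'
  set a := g1 * a₀ * g1⁻¹ with hadef
  set b := g2' * a₀ * g2'⁻¹ with hbdef
  have haQ : ((a, 1) : ↥(alternatingGroup (Fin 4)) × ↥(alternatingGroup (Fin 4))) ∈ (Q : Subgroup _) := by
    have : ((g1, g2) * (a₀, 1) * (g1, g2)⁻¹ : ↥(alternatingGroup (Fin 4)) × ↥(alternatingGroup (Fin 4))) = (a, 1) := by
      ext1
      · rfl
      · show g2 * 1 * g2⁻¹ = 1
        group
    rwa [this] at hg
  have hbQ : ((1, b) : ↥(alternatingGroup (Fin 4)) × ↥(alternatingGroup (Fin 4))) ∈ (Q : Subgroup _) := by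
    have : ((g1', g2') * (1, a₀) * (g1', g2')⁻¹ : ↥(alternatingGroup (Fin 4)) × ↥(alternatingGroup (Fin 4))) = (1, b) := by
      ext1
      · show g1' * 1 * g1'⁻¹ = 1
        group
      · rfl
    rwa [this] at hg'
  have ha3 : a * a * a = 1 := by
    rw [hadef]
    calc g1 * a₀ * g1⁻¹ * (g1 * a₀ * g1⁻¹) * (g1 * a₀ * g1⁻¹) = g1 * (a₀ * a₀ * a₀) * g1⁻¹ := by group
      _ = 1 := by rw [ha₀]; group
  have hb3 : b * b * b = 1 := by
    rw [hbdef]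
    calc g2' * a₀ * g2'⁻¹ * (g2' * a₀ * g2'⁻¹) * (g2' * a₀ * g2'⁻¹) = g2' * (a₀ * a₀ * a₀) * g2'⁻¹ := by group
      _ = 1 := by rw [ha₀]; group
  have ha1 : a ≠ 1 := by
    intro h
    apply ha₀1
    rw [hadef, mul_inv_eq_one] at h
    exact (mul_eq_left (a := g1)).mp h
  have hb1 : b ≠ 1 := by
    intro h
    apply ha₀1
    rw [hbdef, mul_inv_eq_one] at h
    exact (mul_eq_left (a := g2')).mp h
  by_cases hB1 : B ⊓ ((X : Subgroup _) ⊓ Subgroup.prod ⊤ ⊥) ≠ ⊥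
  · exact Or.inl hB1
  by_cases hB2 : B ⊓ ((X : Subgroup _) ⊓ Subgroup.prod ⊥ ⊤) ≠ ⊥
  · exact Or.inr (Or.inl hB2)
  push Not at hB1 hB2
  right; right
  haveI : Fact (Nat.Prime 2) := ⟨Nat.prime_two⟩
  have hsq : ∀ z ∈ B, z.1 * z.1 = 1 ∧ z.2 * z.2 = 1 := by
    intro z hz
    obtain ⟨k, hk⟩ := X.isPGroup' ⟨z, hBX hz⟩
    have hk' : z ^ 2 ^ k = 1 := congrArg Subtype.val hk
    exact ⟨two (k := k) (congrArg Prod.fst hk'), two (k := k) (congrArg Prod.snd hk')⟩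
  have hz1 : ∀ z ∈ B, z.1 = 1 → z = 1 := by
    intro z hz h
    have : z ∈ B ⊓ ((X : Subgroup _) ⊓ Subgroup.prod ⊥ ⊤) :=
      ⟨hz, hBX hz, Subgroup.mem_prod.mpr ⟨Subgroup.mem_bot.mpr h, Subgroup.mem_top _⟩⟩
    rw [hB2] at this
    exact Subgroup.mem_bot.mp this
  have hz2 : ∀ z ∈ B, z.2 = 1 → z = 1 := by
    intro z hz h
    have : z ∈ B ⊓ ((X : Subgroup _) ⊓ Subgroup.prod ⊤ ⊥) :=
      ⟨hz, hBX hz, Subgroup.mem_prod.mpr ⟨Subgroup.mem_top _, Subgroup.mem_bot.mpr h⟩⟩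
    rw [hB1] at this
    exact Subgroup.mem_bot.mp this
  have hcard : Set.ncard (B : Set (↥(alternatingGroup (Fin 4)) × ↥(alternatingGroup (Fin 4)))) = 4 := hB4
  obtain ⟨β₁, hβ₁, hβ₁1⟩ : ∃ z ∈ B, z ≠ 1 := by
    by_contra hcon
    push Not at hcon
    have : (B : Set (↥(alternatingGroup (Fin 4)) × ↥(alternatingGroup (Fin 4)))) ⊆ {1} := fun z hz => hcon z hz
    have h2 := Set.ncard_le_ncard this
    rw [hcard, Set.ncard_singleton] at h2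
    omega
  obtain ⟨β₂, hβ₂, hβ₂1, hβ12⟩ : ∃ z ∈ B, z ≠ 1 ∧ z ≠ β₁ := by
    by_contra hcon
    push Not at hcon
    have : (B : Set (↥(alternatingGroup (Fin 4)) × ↥(alternatingGroup (Fin 4)))) ⊆ {1, β₁} := by
      intro z hz
      by_cases h : z = 1
      · exact Or.inl h
      · exact Or.inr (hcon z hz h)
    have h2 := Set.ncard_le_ncard this
    have h3 := Set.ncard_insert_le (1 : ↥(alternatingGroup (Fin 4)) × ↥(alternatingGroup (Fin 4))) {β₁}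
    rw [Set.ncard_singleton] at h3
    omega
  have hinv : ∀ z ∈ B, z⁻¹ = z := by
    intro z hz
    obtain ⟨h1, h2⟩ := hsq z hz
    exact inv_eq_of_mul_eq_one_left (Prod.ext h1 h2)
  have hne1 : β₁.1 ≠ β₂.1 := by
    intro h
    have h1 := hz1 (β₁ * β₂⁻¹) (B.mul_mem hβ₁ (B.inv_mem hβ₂)) (by
      show β₁.1 * (β₂.1)⁻¹ = 1
      rw [h, mul_inv_cancel])
    exact hβ12 (mul_inv_eq_one.mp h1).symm
  have hne2 : β₁.2 ≠ β₂.2 := by
    intro h
    have h1 := hz2 (β₁ * β₂⁻¹) (B.mul_mem hβ₁ (B.inv_mem hβ₂)) (by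
      show β₁.2 * (β₂.2)⁻¹ = 1
      rw [h, mul_inv_cancel])
    exact hβ12 (mul_inv_eq_one.mp h1).symm
  have hBset : (B : Set (↥(alternatingGroup (Fin 4)) × ↥(alternatingGroup (Fin 4)))) = {1, β₁, β₂, β₁ * β₂} := by
    symm
    refine Set.eq_of_subset_of_ncard_le ?_ ?_ (Set.toFinite _)
    · rintro z (rfl | rfl | rfl | rfl)
      · exact B.one_mem
      · exact hβ₁
      · exact hβ₂
      · exact B.mul_mem hβ₁ hβ₂
    · rw [hcard]
      have e1 : β₁ * β₂ ≠ 1 := by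
        intro h
        apply hβ12
        rw [← hinv β₂ hβ₂]
        exact (mul_eq_one_iff_eq_inv.mp h).symm
      have e2 : β₁ * β₂ ≠ β₁ := by
        intro h
        exact hβ₂1 ((mul_eq_left (a := β₁)).mp h)
      have e3 : β₁ * β₂ ≠ β₂ := by
        intro h
        exact hβ₁1 ((mul_eq_right (b := β₂)).mp h)
      rw [Set.ncard_insert_of_notMem, Set.ncard_insert_of_notMem, Set.ncard_pair]
      · exact e3.symm
      · rintro (h | h)
        · exact hβ12 h.symm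
        · exact e2 h.symm
      · rintro (h | h | h)
        · exact hβ₁1 h.symm
        · exact hβ₂1 h.symm
        · exact e1 h.symm
  obtain ⟨hs11, hs12⟩ := hsq β₁ hβ₁
  obtain ⟨hs21, hs22⟩ := hsq β₂ hβ₂
  have n11 : β₁.1 ≠ 1 := fun h => hβ₁1 (hz1 β₁ hβ₁ h)
  have n12 : β₁.2 ≠ 1 := fun h => hβ₁1 (hz2 β₁ hβ₁ h)
  have n21 : β₂.1 ≠ 1 := fun h => hβ₂1 (hz1 β₂ hβ₂ h)
  have n22 : β₂.2 ≠ 1 := fun h => hβ₂1 (hz2 β₂ hβ₂ h)
  have key : ∃ c, (c = b ∨ c = b⁻¹) ∧ ((a, c) * β₁ * (a, c)⁻¹ ∈ B) ∧ ((a, c) * β₂ * (a, c)⁻¹ ∈ B) := by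
    obtain ⟨⟨c, hc, hc1, hc2⟩, ⟨d, hd, hd1, hd2⟩⟩ := pick hs12 n12 hs22 n22 hne2 hb3 hb1
    have h1 := a4conj0 β₁.1 β₂.1 ⟨⟨hs11, n11⟩, ⟨hs21, n21⟩, hne1⟩ a ha3 ha1
    unfold PP at h1
    rcases h1 with ⟨h1, h1'⟩ | ⟨h1, h1'⟩
    · refine ⟨c, hc, ?_, ?_⟩
      · have : (a, c) * β₁ * (a, c)⁻¹ = β₂ := Prod.ext h1 hc1
        rw [this]; exact hβ₂
      · have : (a, c) * β₂ * (a, c)⁻¹ = β₁ * β₂ := Prod.ext h1' hc2
        rw [this]; exact B.mul_mem hβ₁ hβ₂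
    · refine ⟨d, hd, ?_, ?_⟩
      · have : (a, d) * β₁ * (a, d)⁻¹ = β₁ * β₂ := Prod.ext h1 hd1
        rw [this]; exact B.mul_mem hβ₁ hβ₂
      · have : (a, d) * β₂ * (a, d)⁻¹ = β₁ := Prod.ext h1' hd2
        rw [this]; exact hβ₁
  obtain ⟨c, hc, hc1, hc2⟩ := key
  have hc3 : c * c * c = 1 := by
    rcases hc with rfl | rfl
    · exact hb3
    · rw [← mul_inv_rev, ← mul_inv_rev, ← mul_assoc, hb3, inv_one]
  have hcne : c ≠ 1 := by
    rcases hc with rfl | rfl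
    · exact hb1
    · exact inv_ne_one.mpr hb1
  have hcQ : ((1, c) : ↥(alternatingGroup (Fin 4)) × ↥(alternatingGroup (Fin 4))) ∈ (Q : Subgroup _) := by
    rcases hc with rfl | rfl
    · exact hbQ
    · have := inv_mem hbQ
      have h2 : ((1, b) : ↥(alternatingGroup (Fin 4)) × ↥(alternatingGroup (Fin 4)))⁻¹ = (1, b⁻¹) := by
        ext1
        · show (1 : ↥(alternatingGroup (Fin 4)))⁻¹ = 1
          exact inv_one
        · rfl
      rwa [h2] at this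
  have hacQ : ((a, c) : ↥(alternatingGroup (Fin 4)) × ↥(alternatingGroup (Fin 4))) ∈ (Q : Subgroup _) := by
    have := mul_mem haQ hcQ
    have h2 : ((a, 1) * (1, c) : ↥(alternatingGroup (Fin 4)) × ↥(alternatingGroup (Fin 4))) = (a, c) := by
      ext1
      · exact mul_one a
      · exact one_mul c
    rwa [h2] at this
  have hac3 : ((a, c) : ↥(alternatingGroup (Fin 4)) × ↥(alternatingGroup (Fin 4))) ^ 3 = 1 := by
    rw [pow_succ, pow_two]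
    exact Prod.ext ha3 hc3
  refine ⟨Subgroup.zpowers (a, c), ?_, ?_, ?_, ?_, ?_⟩
  · rw [Subgroup.zpowers_le]; exact hacQ
  · rw [Nat.card_zpowers]
    haveI : Fact (Nat.Prime 3) := ⟨Nat.prime_three⟩
    exact orderOf_eq_prime hac3 (fun h => ha1 (congrArg Prod.fst h))
  · intro h
    have h1 : ((a, c) : ↥(alternatingGroup (Fin 4)) × ↥(alternatingGroup (Fin 4))) ∈ (Q : Subgroup _) ⊓ Subgroup.prod ⊤ ⊥ := by
      rw [← h]; exact Subgroup.mem_zpowers _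
    exact hcne (Subgroup.mem_bot.mp (Subgroup.mem_prod.mp h1.2).2)
  · intro h
    have h1 : ((a, c) : ↥(alternatingGroup (Fin 4)) × ↥(alternatingGroup (Fin 4))) ∈ (Q : Subgroup _) ⊓ Subgroup.prod ⊥ ⊤ := by
      rw [← h]; exact Subgroup.mem_zpowers _
    exact ha1 (Subgroup.mem_bot.mp (Subgroup.mem_prod.mp h1.2).1)
  · rw [Subgroup.zpowers_le]
    set t : ↥(alternatingGroup (Fin 4)) × ↥(alternatingGroup (Fin 4)) := (a, c) with ht
    have hstep : ∀ z ∈ B, t * z * t⁻¹ ∈ B := by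
      intro z hz
      have hz' : z ∈ (B : Set (↥(alternatingGroup (Fin 4)) × ↥(alternatingGroup (Fin 4)))) := hz
      rw [hBset] at hz'
      rcases hz' with rfl | rfl | rfl | rfl
      · rw [mul_one, mul_inv_cancel]; exact B.one_mem
      · exact hc1
      · exact hc2
      · have : t * (β₁ * β₂) * t⁻¹ = (t * β₁ * t⁻¹) * (t * β₂ * t⁻¹) := grp2 _ _ _
        rw [this]; exact B.mul_mem hc1 hc2
    rw [Subgroup.mem_normalizer_iff]
    intro z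
    constructor
    · exact hstep z
    · intro hz
      have h1 := hstep _ (hstep _ hz)
      have h2 : t * (t * (t * z * t⁻¹) * t⁻¹) * t⁻¹ = t ^ 3 * z * (t ^ 3)⁻¹ := grp1 t z
      rw [h2, hac3] at h1
      simpa using h1

end Cfsg.Agent.S4406
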