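import Cfsg.Statements.S4408
import Mathlib
import Cfsg.Agent.LibCoprime2
import Cfsg.Agent.LibCores

set_option autoImplicit false
open Cfsg

namespace Cfsg.Agent.S4408

open Subgroup
open scoped commutatorElement

theorem le_norm {G : Type*} [Group G] {K B : Subgroup G} (h : ∀ g ∈ K, ∀ b ∈ B, g * b * g⁻¹ ∈ B) :
    K ≤ normalizer (B : Set G) := by
  intro g hg
  rw [mem_normalizer_iff]
  intro b
  refine ⟨fun hb => h g hg b hb, fun hb => ?_⟩
  have := h g⁻¹ (inv_mem hg) _ hb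
  have e : g⁻¹ * (g * b * g⁻¹) * g⁻¹⁻¹ = b := by group
  rwa [e] at this

theorem norm_conj {G : Type*} [Group G] {K B : Subgroup G} (h : K ≤ normalizer (B : Set G)) {g b : G}
    (hg : g ∈ K) (hb : b ∈ B) : g * b * g⁻¹ ∈ B := (mem_normalizer_iff.1 (h hg) b).1 hb

theorem eigen {G : Type*} [Group G] [Finite G] {I A W : Subgroup G} (hI2 : ∀ i ∈ I, i ^ 2 = 1)
    (hIc : ∀ i ∈ I, ∀ j ∈ I, i * j = j * i) (hAW : A ≤ W) (hne : A ≠ W)
    (hIA : I ≤ normalizer (A : Set G)) (hIW : I ≤ normalizer (W : Set G))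
    (hWA : ∀ a ∈ W, ∀ b ∈ W, a * b * a⁻¹ * b⁻¹ ∈ A) :
    ∃ x ∈ W, x ∉ A ∧ ∀ i ∈ I, i * x * i⁻¹ * x⁻¹ ∈ A ∨ i * x * i⁻¹ * x ∈ A := by
  have hWn : ∀ w ∈ W, ∀ a ∈ A, w * a * w⁻¹ ∈ A := by
    intro w hw a ha
    have h1 := A.mul_mem (hWA w hw a (hAW ha)) ha
    have e : w * a * w⁻¹ * a⁻¹ * a = w * a * w⁻¹ := by group
    rwa [e] at h1
  obtain ⟨B, hB⟩ := (Set.toFinite {B : Subgroup G | A < B ∧ B ≤ W ∧ I ≤ normalizer (B : Set G)}).exists_minimal
    ⟨W, lt_of_le_of_ne hAW hne, le_rfl, hIW⟩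
  obtain ⟨hAB, hBW, hIB⟩ := hB.1
  have hmin : ∀ C : Subgroup G, A ≤ C → C ≤ B → I ≤ normalizer (C : Set G) → C = A ∨ C = B := by
    intro C h1 h2 h3
    by_cases hCA : C = A
    · exact Or.inl hCA
    · right
      exact le_antisymm h2 (hB.2 ⟨lt_of_le_of_ne h1 (Ne.symm hCA), h2.trans hBW, h3⟩ h2)
  obtain ⟨x, hxB, hxA⟩ := SetLike.exists_of_lt hAB
  refine ⟨x, hBW hxB, hxA, fun i hi => ?_⟩
  let C : Subgroup G :=
    { carrier := {b | b ∈ B ∧ i * b * i⁻¹ * b ∈ A}
      one_mem' := ⟨one_mem _, by simp [one_mem]⟩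
      mul_mem' := by
        rintro b c ⟨hb, hb'⟩ ⟨hc, hc'⟩
        refine ⟨mul_mem hb hc, ?_⟩
        have e : i * (b * c) * i⁻¹ * (b * c) = (i * b * i⁻¹ * b) *
          (b⁻¹ * (i * c * i⁻¹) * b⁻¹⁻¹ * (i * c * i⁻¹)⁻¹) * (i * c * i⁻¹ * c) := by group
        rw [e]
        exact A.mul_mem (A.mul_mem hb' (hWA _ (inv_mem (hBW hb)) _ (hBW (norm_conj hIB hi hc)))) hc'
      inv_mem' := by
        rintro b ⟨hb, hb'⟩
        refine ⟨inv_mem hb, ?_⟩
        have e : i * b⁻¹ * i⁻¹ * b⁻¹ = (b * (i * b * i⁻¹ * b) * b⁻¹)⁻¹ := by group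
        rw [e]
        exact A.inv_mem (hWn b (hBW hb) _ hb') }
  have hCB : C ≤ B := fun b hb => hb.1
  have hAC : A ≤ C := fun a ha => ⟨hAB.le ha, A.mul_mem (norm_conj hIA hi ha) ha⟩
  have hIC : I ≤ normalizer (C : Set G) := by
    apply le_norm
    rintro j hj b ⟨hb, hb'⟩
    refine ⟨norm_conj hIB hj hb, ?_⟩
    have hij := hIc i hi j hj
    have e1 : i * (j * b * j⁻¹) * i⁻¹ = j * (i * b * i⁻¹) * j⁻¹ := by
      have : i * (j * b * j⁻¹) * i⁻¹ = (i * j) * b * (i * j)⁻¹ := by group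
      rw [this, hij]; group
    rw [e1]
    have e2 : j * (i * b * i⁻¹) * j⁻¹ * (j * b * j⁻¹) = j * (i * b * i⁻¹ * b) * j⁻¹ := by group
    rw [e2]
    exact norm_conj hIA hj hb'
  rcases hmin C hAC hCB hIC with h | h
  · left
    have hii : i * i = 1 := by rw [← pow_two]; exact hI2 i hi
    have h1 : x * (i * x * i⁻¹)⁻¹ ∈ C := by
      refine ⟨mul_mem hxB (inv_mem (norm_conj hIB hi hxB)), ?_⟩
      have e : i * (x * (i * x * i⁻¹)⁻¹) * i⁻¹ * (x * (i * x * i⁻¹)⁻¹) =
        (i * x * i⁻¹) * ((i * i) * x * (i * i)⁻¹)⁻¹ * (x * (i * x * i⁻¹)⁻¹) := by group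
      rw [e, hii]
      have e2 : i * x * i⁻¹ * (1 * x * 1⁻¹)⁻¹ * (x * (i * x * i⁻¹)⁻¹) = 1 := by group
      rw [e2]
      exact A.one_mem
    rw [h] at h1
    have h2 := A.inv_mem h1
    have e : (x * (i * x * i⁻¹)⁻¹)⁻¹ = i * x * i⁻¹ * x⁻¹ := by group
    rwa [e] at h2
  · right
    have : x ∈ C := by rw [h]; exact hxB
    exact this.2

theorem exists_prime_sub {G : Type*} [Group G] [Finite G] {I W : Subgroup G} (hI2 : ∀ i ∈ I, i ^ 2 = 1)
    (hIc : ∀ i ∈ I, ∀ j ∈ I, i * j = j * i) (hne : W ≠ ⊥) (hIW : I ≤ normalizer (W : Set G))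
    (hW : ∀ a ∈ W, ∀ b ∈ W, a * b = b * a) :
    ∃ P : Subgroup G, P ≤ W ∧ (Nat.card P).Prime ∧ I ≤ normalizer (P : Set G) ∧
      ∀ i ∈ I, (∀ x ∈ P, i * x * i⁻¹ = x) ∨ (∀ x ∈ P, i * x * i⁻¹ = x⁻¹) := by
  obtain ⟨x, hxW, hx1, hx⟩ := eigen (A := ⊥) hI2 hIc bot_le (Ne.symm hne)
    (by rw [Subgroup.normalizer_eq_top]; exact le_top) hIW (by
      intro a ha b hb
      rw [hW a ha b hb]
      simp [one_mem])
  rw [mem_bot] at hx1
  have ho : orderOf x ≠ 1 := fun h => hx1 (orderOf_eq_one_iff.1 h)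
  obtain ⟨q, hq, hqd⟩ := Nat.exists_prime_and_dvd ho
  obtain ⟨m, hm⟩ := hqd
  have hord : orderOf (x ^ m) = q := by
    have hm0 : m ≠ 0 := by
      rintro rfl
      have := orderOf_pos x
      rw [hm] at this; omega
    rw [orderOf_pow, hm, Nat.gcd_eq_right (Dvd.intro_left q rfl), Nat.mul_div_cancel _ (Nat.pos_of_ne_zero hm0)]
  have key : ∀ i ∈ I, (∀ y ∈ zpowers (x ^ m), i * y * i⁻¹ = y) ∨ (∀ y ∈ zpowers (x ^ m), i * y * i⁻¹ = y⁻¹) := by
    intro i hi
    rcases hx i hi with h | h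
    · left
      rw [mem_bot, mul_inv_eq_one] at h
      rintro _ ⟨k, rfl⟩
      change i * (x ^ m) ^ k * i⁻¹ = (x ^ m) ^ k
      rw [← conj_zpow, ← conj_pow, h]
    · right
      rw [mem_bot, mul_eq_one_iff_eq_inv] at h
      rintro _ ⟨k, rfl⟩
      change i * (x ^ m) ^ k * i⁻¹ = ((x ^ m) ^ k)⁻¹
      rw [← conj_zpow, ← conj_pow, h, inv_pow, inv_zpow]
  refine ⟨zpowers (x ^ m), ?_, ?_, ?_, key⟩
  · rw [zpowers_le]; exact pow_mem hxW m
  · rw [Nat.card_zpowers, hord]; exact hq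
  · apply le_norm
    intro i hi y hy
    rcases key i hi with h | h
    · rw [h y hy]; exact hy
    · rw [h y hy]; exact inv_mem hy

theorem exists_A {G : Type*} [Group G] [Finite G] {I F : Subgroup G} (hI2 : ∀ i ∈ I, i ^ 2 = 1)
    (hIc : ∀ i ∈ I, ∀ j ∈ I, i * j = j * i) (hF : Group.IsNilpotent F) (hIF : I ≤ normalizer (F : Set G)) :
    ∃ A ≤ F, (∀ a ∈ A, ∀ b ∈ A, a * b = b * a) ∧ F ≤ normalizer (A : Set G) ∧ I ≤ normalizer (A : Set G) ∧
      F ⊓ centralizer (A : Set G) ≤ A := by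
  obtain ⟨A, hA⟩ := (Set.toFinite {A : Subgroup G | A ≤ F ∧ (∀ a ∈ A, ∀ b ∈ A, a * b = b * a) ∧
    F ≤ normalizer (A : Set G) ∧ I ≤ normalizer (A : Set G)}).exists_maximal
    ⟨⊥, bot_le, by
      intro a ha b hb
      rw [mem_bot] at ha hb
      rw [ha, hb], by rw [Subgroup.normalizer_eq_top]; exact le_top, by rw [Subgroup.normalizer_eq_top]; exact le_top⟩
  obtain ⟨hAF, hAc, hFA, hIA⟩ := hA.1
  refine ⟨A, hAF, hAc, hFA, hIA, ?_⟩
  by_contra hC
  have hcn : ∀ {K : Subgroup G}, K ≤ normalizer (A : Set G) → ∀ g ∈ K, ∀ c ∈ centralizer (A : Set G),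
      g * c * g⁻¹ ∈ centralizer (A : Set G) := by
    intro K hK g hg c hc
    rw [mem_centralizer_iff] at hc ⊢
    intro a ha
    have h1 := norm_conj hK (inv_mem hg) ha
    have h2 := hc _ h1
    have e : a * (g * c * g⁻¹) = g * ((g⁻¹ * a * g⁻¹⁻¹) * c) * g⁻¹ := by group
    rw [e, h2]; group
  let W : Subgroup G :=
    { carrier := {x | (x ∈ F ∧ x ∈ centralizer (A : Set G)) ∧ ∀ f ∈ F, x * f * x⁻¹ * f⁻¹ ∈ A}
      one_mem' := ⟨⟨one_mem _, one_mem _⟩, fun f hf => by simp [one_mem]⟩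
      mul_mem' := by
        rintro x y ⟨⟨hx1, hx2⟩, hx⟩ ⟨⟨hy1, hy2⟩, hy⟩
        refine ⟨⟨mul_mem hx1 hy1, mul_mem hx2 hy2⟩, fun f hf => ?_⟩
        have e : x * y * f * (x * y)⁻¹ * f⁻¹ = (x * (y * f * y⁻¹ * f⁻¹) * x⁻¹) * (x * f * x⁻¹ * f⁻¹) := by group
        rw [e]
        exact A.mul_mem (norm_conj hFA hx1 (hy f hf)) (hx f hf)
      inv_mem' := by
        rintro x ⟨⟨hx1, hx2⟩, hx⟩
        refine ⟨⟨inv_mem hx1, inv_mem hx2⟩, fun f hf => ?_⟩
        have e : x⁻¹ * f * x⁻¹⁻¹ * f⁻¹ = x⁻¹ * (x * f * x⁻¹ * f⁻¹)⁻¹ * x⁻¹⁻¹ := by group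
        rw [e]
        exact norm_conj hFA (inv_mem hx1) (A.inv_mem (hx f hf)) }
  have hAW : A ≤ W := by
    intro a ha
    refine ⟨⟨hAF ha, ?_⟩, fun f hf => ?_⟩
    · rw [mem_centralizer_iff]
      intro b hb
      exact hAc b hb a ha
    · have e : a * f * a⁻¹ * f⁻¹ = a * (f * a⁻¹ * f⁻¹) := by group
      rw [e]
      exact A.mul_mem ha (norm_conj hFA hf (A.inv_mem ha))
  have hIW : I ≤ normalizer (W : Set G) := by
    apply le_norm
    rintro i hi x ⟨⟨hx1, hx2⟩, hx⟩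
    refine ⟨⟨norm_conj hIF hi hx1, hcn hIA i hi x hx2⟩, fun f hf => ?_⟩
    have h1 := norm_conj hIA hi (hx _ (norm_conj hIF (inv_mem hi) hf))
    have e : i * (x * (i⁻¹ * f * i⁻¹⁻¹) * x⁻¹ * (i⁻¹ * f * i⁻¹⁻¹)⁻¹) * i⁻¹ =
      i * x * i⁻¹ * f * (i * x * i⁻¹)⁻¹ * f⁻¹ := by group
    rwa [e] at h1
  have hWA : ∀ a ∈ W, ∀ b ∈ W, a * b * a⁻¹ * b⁻¹ ∈ A := fun a ha b hb => ha.2 b hb.1.1
  have hne : A ≠ W := by
    intro hAWe
    apply hC
    obtain ⟨n, hn⟩ := hF.nilpotent
    have hk : ∀ k : ℕ, ∀ x : F, x ∈ Subgroup.upperCentralSeries F k → (x : G) ∈ centralizer (A : Set G) → (x : G) ∈ A := by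
      intro k
      induction k with
      | zero =>
        intro x hx _
        rw [Subgroup.upperCentralSeries_zero, mem_bot] at hx
        rw [hx]; exact A.one_mem
      | succ k ih =>
        intro x hx hxc
        rw [hAWe]
        refine ⟨⟨x.2, hxc⟩, fun f hf => ?_⟩
        rw [Subgroup.mem_upperCentralSeries_succ_iff] at hx
        have h1 := hx ⟨f, hf⟩
        refine ih _ h1 ?_
        have e : ((x * ⟨f, hf⟩ * x⁻¹ * (⟨f, hf⟩ : F)⁻¹ : F) : G) = x * (f * (x : G)⁻¹ * f⁻¹) := by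
          push_cast; group
        change ((x * ⟨f, hf⟩ * x⁻¹ * (⟨f, hf⟩ : F)⁻¹ : F) : G) ∈ centralizer (A : Set G)
        rw [e]
        exact mul_mem hxc (hcn hFA f hf _ (inv_mem hxc))
    intro x hx
    exact hk n ⟨x, hx.1⟩ (by rw [hn]; trivial) hx.2
  obtain ⟨x, hxW, hxA, hx⟩ := eigen hI2 hIc hAW hne hIA hIW hWA
  have hxc : ∀ a ∈ A, a * x = x * a := fun a ha => (mem_centralizer_iff.1 hxW.1.2) a ha
  -- elements of `zpowers x ⊔ A`
  have hz : ∀ g : G, g ∈ zpowers x ⊔ A ↔ ∃ k : ℤ, ∃ a ∈ A, x ^ k * a = g := by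
    intro g
    have hcz : zpowers x ≤ centralizer (A : Set G) := by rw [zpowers_le]; exact hxW.1.2
    have hzn : zpowers x ≤ normalizer (A : Set G) := hcz.trans (Subgroup.centralizer_le_normalizer _)
    constructor
    · intro hg
      rw [← SetLike.mem_coe, Subgroup.coe_mul_of_left_le_normalizer_right _ _ hzn] at hg
      obtain ⟨_, ⟨k, rfl⟩, a, ha, rfl⟩ := hg
      exact ⟨k, a, ha, rfl⟩
    · rintro ⟨k, a, ha, rfl⟩
      exact mul_mem (mem_sup_left (zpow_mem (mem_zpowers x) k)) (mem_sup_right ha)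
  have hB : A < zpowers x ⊔ A := by
    refine lt_of_le_of_ne le_sup_right fun h => hxA ?_
    rw [h]; exact mem_sup_left (mem_zpowers x)
  refine hB.not_ge (hA.2 ⟨sup_le (by rw [zpowers_le]; exact hxW.1.1) hAF, ?_, ?_, ?_⟩ hB.le)
  · intro a ha b hb
    obtain ⟨k, a', ha', rfl⟩ := (hz a).1 ha
    obtain ⟨l, b', hb', rfl⟩ := (hz b).1 hb
    have hc1 : ∀ a ∈ A, Commute a x := hxc
    have h1 : Commute (x ^ k * a') (x ^ l * b') := by
      refine Commute.mul_left (Commute.mul_right ?_ ?_) (Commute.mul_right ?_ ?_)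
      · exact (Commute.refl x).zpow_zpow k l
      · exact ((hc1 b' hb').zpow_right k).symm
      · exact (hc1 a' ha').zpow_right l
      · exact hAc a' ha' b' hb'
    exact h1
  · apply le_norm
    intro f hf b hb
    have h1 : zpowers x ⊔ A ≤ (zpowers x ⊔ A).comap (MulAut.conj f).toMonoidHom := by
      refine sup_le ?_ ?_
      · rw [zpowers_le]
        change f * x * f⁻¹ ∈ zpowers x ⊔ A
        have e : f * x * f⁻¹ = (x * f * x⁻¹ * f⁻¹)⁻¹ * x := by group
        rw [e]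
        exact mul_mem (mem_sup_right (A.inv_mem (hxW.2 f hf))) (mem_sup_left (mem_zpowers x))
      · intro a ha
        exact mem_sup_right (norm_conj hFA hf ha)
    exact h1 hb
  · apply le_norm
    intro f hf b hb
    have h1 : zpowers x ⊔ A ≤ (zpowers x ⊔ A).comap (MulAut.conj f).toMonoidHom := by
      refine sup_le ?_ ?_
      · rw [zpowers_le]
        change f * x * f⁻¹ ∈ zpowers x ⊔ A
        rcases hx f hf with h | h
        · have e : f * x * f⁻¹ = (f * x * f⁻¹ * x⁻¹) * x := by group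
          rw [e]
          exact mul_mem (mem_sup_right h) (mem_sup_left (mem_zpowers x))
        · have e : f * x * f⁻¹ = (f * x * f⁻¹ * x) * x⁻¹ := by group
          rw [e]
          exact mul_mem (mem_sup_right h) (mem_sup_left (inv_mem (mem_zpowers x)))
      · intro a ha
        exact mem_sup_right (norm_conj hIA hf ha)
    exact h1 hb

theorem main {G : Type*} [Group G] [Finite G] {I : Subgroup G} (hI2 : ∀ i ∈ I, i ^ 2 = 1)
    (hIc : ∀ i ∈ I, ∀ j ∈ I, i * j = j * i) (n : ℕ) : ∀ (J Ω : Subgroup G), J ≤ I → Nat.card J = 2 ^ n →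
    Odd (Nat.card Ω) → (∀ a ∈ Ω, ∀ b ∈ Ω, a * b = b * a) → I ≤ normalizer (Ω : Set G) →
    J ⊓ centralizer (Ω : Set G) = ⊥ →
    ∃ f : Fin n → Subgroup G, (∀ i, (Nat.card ↥(f i)).Prime) ∧ (∀ i, f i ≤ Ω) ∧
      (∀ i, I ≤ normalizer ((f i) : Set G)) ∧
      Nat.card ↥(⨆ i, f i) = ∏ i, Nat.card ↥(f i) ∧ J ⊓ centralizer ((⨆ i, f i : Subgroup G) : Set G) = ⊥ := by
  induction n with
  | zero =>
    intro J Ω hJI hJ _ _ _ _
    have hJb : J = ⊥ := by
      rw [← Subgroup.card_eq_one]; simpa using hJ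
    refine ⟨Fin.elim0, fun i => i.elim0, fun i => i.elim0, fun i => i.elim0, ?_, ?_⟩
    · rw [iSup_of_empty]; simp
    · rw [hJb, bot_inf_eq]
  | succ n ih =>
    intro J Ω hJI hJ hodd hΩ hIΩ hfaith
    have hJne : J ≠ ⊥ := by
      intro h
      rw [h, Subgroup.card_bot, pow_succ] at hJ
      omega
    obtain ⟨⟨t, htJ⟩, ht1'⟩ := Subgroup.ne_bot_iff_exists_ne_one.1 hJne
    have ht1 : t ≠ 1 := fun h => ht1' (Subtype.ext h)
    have htI := hJI htJ
    have htt : t * t = 1 := by rw [← pow_two]; exact hI2 t htI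
    -- the subgroup inverted by t
    let M : Subgroup G :=
      { carrier := {w | w ∈ Ω ∧ t * w * t⁻¹ = w⁻¹}
        one_mem' := ⟨one_mem _, by simp⟩
        mul_mem' := by
          rintro a b ⟨ha, ha'⟩ ⟨hb, hb'⟩
          refine ⟨mul_mem ha hb, ?_⟩
          have e : t * (a * b) * t⁻¹ = (t * a * t⁻¹) * (t * b * t⁻¹) := by group
          rw [e, ha', hb', hΩ a ha b hb, mul_inv_rev]
        inv_mem' := by
          rintro a ⟨ha, ha'⟩
          refine ⟨inv_mem ha, ?_⟩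
          have e : t * a⁻¹ * t⁻¹ = (t * a * t⁻¹)⁻¹ := by group
          rw [e, ha'] }
    have hMΩ : M ≤ Ω := fun w hw => hw.1
    have hMne : M ≠ ⊥ := by
      intro hM
      have htc : t ∈ J ⊓ centralizer (Ω : Set G) := by
        refine ⟨htJ, mem_centralizer_iff.2 ?_⟩
        intro w hw
        have h1 : w * (t * w * t⁻¹)⁻¹ ∈ M := by
          refine ⟨mul_mem hw (inv_mem (norm_conj hIΩ htI hw)), ?_⟩
          have e : t * (w * (t * w * t⁻¹)⁻¹) * t⁻¹ = (t * w * t⁻¹) * ((t * t) * w * (t * t)⁻¹)⁻¹ := by group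
          rw [e, htt]; group
        rw [hM, mem_bot, mul_inv_eq_one] at h1
        have h2 : w * t = t * w := by
          have h3 : t * w * t⁻¹ * t = t * w := by group
          rw [← h3, ← h1]
        exact h2
      rw [hfaith, mem_bot] at htc
      exact ht1 htc
    have hIM : I ≤ normalizer (M : Set G) := by
      apply le_norm
      rintro i hi w ⟨hw, hw'⟩
      refine ⟨norm_conj hIΩ hi hw, ?_⟩
      have hij := hIc t htI i hi
      have e : t * (i * w * i⁻¹) * t⁻¹ = (t * i) * w * (t * i)⁻¹ := by group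
      rw [e, hij]
      have e2 : i * t * w * (i * t)⁻¹ = i * (t * w * t⁻¹) * i⁻¹ := by group
      rw [e2, hw']; group
    obtain ⟨P, hPM, hPp, hIP, hPe⟩ := exists_prime_sub hI2 hIc hMne hIM
      (fun a ha b hb => hΩ a (hMΩ ha) b (hMΩ hb))
    have hPΩ : P ≤ Ω := hPM.trans hMΩ
    -- the centralizer of P in J
    set J1 : Subgroup G := J ⊓ centralizer (P : Set G) with hJ1
    have hcomm_iff : ∀ j : G, (∀ x ∈ P, j * x * j⁻¹ = x) → j ∈ centralizer (P : Set G) := by
      intro j hj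
      rw [mem_centralizer_iff]
      intro x hx
      have h1 := hj x hx
      rw [mul_inv_eq_iff_eq_mul] at h1
      exact h1.symm
    have htn : t ∉ centralizer (P : Set G) := by
      intro h
      have hP1 : P ≠ ⊥ := by
        intro h1
        rw [h1, Subgroup.card_bot] at hPp
        exact Nat.not_prime_one hPp
      obtain ⟨x, hx1⟩ := Subgroup.ne_bot_iff_exists_ne_one.1 hP1
      have h2 := (hPM x.2).2
      have h3 : t * (x : G) * t⁻¹ = x := by
        rw [← (mem_centralizer_iff.1 h) x x.2]; group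
      rw [h3] at h2
      have h4 : (x : G) ^ 2 = 1 := by
        rw [pow_two]
        nth_rewrite 2 [h2]
        exact mul_inv_cancel _
      have h5 : orderOf (x : G) ∣ 2 := orderOf_dvd_of_pow_eq_one h4
      have h6 : orderOf (x : G) ∣ Nat.card Ω := by
        have := orderOf_dvd_natCard (⟨x, hPΩ x.2⟩ : Ω)
        rwa [Subgroup.orderOf_mk] at this
      have h7 : (2 : ℕ).Coprime (Nat.card Ω) := by
        rw [Nat.coprime_two_left]; exact hodd
      have h8 : orderOf (x : G) = 1 := Nat.eq_one_of_dvd_coprimes h7 h5 h6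
      exact hx1 (Subtype.ext (orderOf_eq_one_iff.1 h8))
    have hidx : J1.relIndex J = 2 := by
      rw [hJ1, Subgroup.inf_relIndex_left, Subgroup.relIndex_eq_two_iff]
      refine ⟨t, htJ, fun b hb => ?_⟩
      rcases hPe b (hJI hb) with h | h
      · right
        refine ⟨hcomm_iff b h, fun hbt => htn ?_⟩
        have := mul_mem (inv_mem (hcomm_iff b h)) hbt
        rwa [inv_mul_cancel_left] at this
      · left
        have hbt : b * t ∈ centralizer (P : Set G) := by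
          apply hcomm_iff
          intro x hx
          have e : b * t * x * (b * t)⁻¹ = b * (t * x * t⁻¹) * b⁻¹ := by group
          rw [e, (hPM hx).2, h _ (inv_mem hx), inv_inv]
        refine ⟨hbt, fun hbc => htn ?_⟩
        have := mul_mem (inv_mem hbc) hbt
        rwa [inv_mul_cancel_left] at this
    have hJ1card : Nat.card J1 = 2 ^ n := by
      have h1 : Nat.card J1 * J1.relIndex J = Nat.card J :=
        CfsgLib.Coprime.card_mul_relIndex (inf_le_left : J1 ≤ J)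
      rw [hidx, hJ, pow_succ] at h1
      omega
    have hJ1I : J1 ≤ I := inf_le_left.trans hJI
    have hJ1Ω : J1 ≤ normalizer (Ω : Set G) := hJ1I.trans hIΩ
    have hcop : (Nat.card J1).Coprime (Nat.card Ω) := by
      rw [hJ1card]
      refine Nat.Coprime.pow_left n ?_
      rw [Nat.coprime_two_left]; exact hodd
    haveI hΩc : IsMulCommutative Ω := ⟨⟨fun a b => Subtype.ext (hΩ a a.2 b b.2)⟩⟩
    have hΩs : Group.IsSolvable Ω := Group.isSolvable_of_comm hΩc.is_comm.comm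
    set Ω' : Subgroup G := ⁅Ω, J1⁆ with hΩ'
    have hΩ'le : Ω' ≤ Ω := CfsgLib.Coprime.commutator_le_of_le_normalizer hJ1Ω
    have hIJ1 : I ≤ normalizer (J1 : Set G) := by
      apply le_norm
      intro i hi j hj
      have : i * j * i⁻¹ = j := by rw [hIc i hi j (hJ1I hj)]; group
      rw [this]; exact hj
    have hIΩ' : I ≤ normalizer (Ω' : Set G) := by
      apply le_norm
      intro i hi w hw
      have h1 : ⁅Ω, J1⁆ ≤ (⁅Ω, J1⁆ : Subgroup G).comap (MulAut.conj i).toMonoidHom := by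
        rw [Subgroup.commutator_le]
        intro a ha b hb
        change i * ⁅a, b⁆ * i⁻¹ ∈ ⁅Ω, J1⁆
        rw [conjugate_commutatorElement]
        exact Subgroup.commutator_mem_commutator (norm_conj hIΩ hi ha) (norm_conj hIJ1 hi hb)
      exact h1 hw
    have hsup := CfsgLib.Coprime.commutator_sup_centralizer hJ1Ω hcop (Or.inr hΩs)
    have hinf := CfsgLib.Coprime2.commutator_inf_centralizer hJ1Ω hcop
    have hfaith' : J1 ⊓ centralizer (Ω' : Set G) = ⊥ := by
      rw [eq_bot_iff, ← hfaith]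
      rintro j ⟨hj1, hj2⟩
      refine ⟨hj1.1, mem_centralizer_iff.2 ?_⟩
      have h1 : Ω ≤ centralizer ({j} : Set G) := by
        rw [← hsup]
        refine sup_le ?_ ?_
        · intro w hw
          rw [mem_centralizer_singleton_iff]
          exact ((mem_centralizer_iff.1 hj2) w hw)
        · rintro w ⟨-, hw⟩
          rw [mem_centralizer_singleton_iff]
          exact ((mem_centralizer_iff.1 hw) j hj1).symm
      intro w hw
      exact (mem_centralizer_singleton_iff.1 (h1 hw))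
    have hPinf : P ⊓ Ω' = ⊥ := by
      rw [eq_bot_iff, ← hinf]
      rintro x ⟨hx1, hx2⟩
      refine ⟨hx2, mem_centralizer_iff.2 ?_⟩
      intro j hj
      exact ((mem_centralizer_iff.1 hj.2) x hx1).symm
    obtain ⟨f, hf1, hf2, hf3, hf4, hf5⟩ := ih J1 Ω' hJ1I hJ1card
      (Odd.of_dvd_nat hodd (Subgroup.card_dvd_of_le hΩ'le))
      (fun a ha b hb => hΩ a (hΩ'le ha) b (hΩ'le hb)) hIΩ' hfaith'
    have hsupf : (⨆ i, (Fin.cons P f : Fin (n + 1) → Subgroup G) i) = P ⊔ ⨆ i, f i := by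
      apply le_antisymm
      · refine iSup_le fun i => ?_
        refine Fin.cases ?_ (fun i => ?_) i
        · exact le_sup_left
        · rw [Fin.cons_succ]
          exact (le_iSup f i).trans le_sup_right
      · refine sup_le ?_ (iSup_le fun i => ?_)
        · exact le_iSup (Fin.cons P f : Fin (n + 1) → Subgroup G) 0
        · exact le_iSup (Fin.cons P f : Fin (n + 1) → Subgroup G) i.succ
    have hfle : (⨆ i, f i) ≤ Ω' := iSup_le hf2
    refine ⟨Fin.cons P f, ?_, ?_, ?_, ?_, ?_⟩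
    · intro i
      refine Fin.cases ?_ (fun i => ?_) i
      · exact hPp
      · rw [Fin.cons_succ]; exact hf1 i
    · intro i
      refine Fin.cases ?_ (fun i => ?_) i
      · exact hPΩ
      · rw [Fin.cons_succ]; exact (hf2 i).trans hΩ'le
    · intro i
      refine Fin.cases ?_ (fun i => ?_) i
      · exact hIP
      · rw [Fin.cons_succ]; exact hf3 i
    · rw [hsupf, Fin.prod_univ_succ]
      simp only [Fin.cons_zero, Fin.cons_succ]
      rw [← hf4]
      have h1 : P ≤ normalizer ((⨆ i, f i : Subgroup G) : Set G) := by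
        apply le_norm
        intro g hg b hb
        have : g * b * g⁻¹ = b := by rw [hΩ g (hPΩ hg) b (hΩ'le (hfle hb))]; group
        rw [this]; exact hb
      have h2 := CfsgLib.Coprime.card_sup_mul_card_inf h1
      have h3 : P ⊓ (⨆ i, f i) = ⊥ := by
        rw [eq_bot_iff, ← hPinf]
        exact inf_le_inf_left _ hfle
      rw [h3, Subgroup.card_bot, mul_one] at h2
      exact h2
    · rw [eq_bot_iff, ← hf5, hsupf]
      rintro j ⟨hj1, hj2⟩
      have h1 : j ∈ centralizer (P : Set G) := centralizer_le (le_sup_left (a := P)) hj2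
      exact ⟨⟨hj1, h1⟩, centralizer_le (le_sup_right (b := (⨆ i, f i : Subgroup G))) hj2⟩

/-- Let S be a finite solvable group whose Fitting subgroup F(S) has odd order, and let I be an elementary abelian 2-subgroup of S of order 2ⁿ with n ≥ 1. Then F(S) contains subgroups A₁, …, Aₙ of prime order, each normalized by I, pairwise commuting and generating a subgroup A of order |A₁|⋯|Aₙ| (their internal direct product), such that no non-identity element of I centralizes A. -/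
theorem result {S : Type*} [Group S] [Finite S]
    [Group.IsSolvable S] (hF : Odd (Nat.card ↥(Cfsg.fittingSubgroup S)))
    (I : Subgroup S) (hI : Cfsg.IsElementaryAbelian 2 I) (n : ℕ) (hn : 1 ≤ n) (hIn : Nat.card ↥I = 2 ^ n) :
    ∃ f : Fin n → Subgroup S, (∀ i, (Nat.card ↥(f i)).Prime) ∧ (∀ i, f i ≤ Cfsg.fittingSubgroup S) ∧
      (∀ i, I ≤ Subgroup.normalizer ((f i) : Set S)) ∧ (∀ i j, i ≠ j → ∀ a ∈ f i, ∀ b ∈ f j, a * b = b * a) ∧
      Nat.card ↥(⨆ i, f i) = ∏ i, Nat.card ↥(f i) ∧ I ⊓ Subgroup.centralizer ((⨆ i, f i : Subgroup S) : Set S) = ⊥ := by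
  obtain ⟨hIm, hI2⟩ := hI
  have hIc : ∀ i ∈ I, ∀ j ∈ I, i * j = j * i := by
    intro i hi j hj
    have := hIm.is_comm.comm ⟨i, hi⟩ ⟨j, hj⟩
    exact congrArg Subtype.val this
  obtain ⟨F, hFdef⟩ : ∃ F, F = Cfsg.fittingSubgroup S := ⟨_, rfl⟩
  have hFn : F.Normal := by rw [hFdef]; infer_instance
  have hFnil : Group.IsNilpotent F := by rw [hFdef]; exact CfsgLib.Cores.fittingSubgroup_isNilpotent
  have hFc : Subgroup.centralizer (F : Set S) ≤ F := by
    rw [hFdef]; exact CfsgLib.Cores.centralizer_fittingSubgroup_le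
  rw [← hFdef] at hF
  have hIF : I ≤ Subgroup.normalizer (F : Set S) := by
    rw [Subgroup.normalizer_eq_top]; exact le_top
  obtain ⟨A, hAF, hAc, hFA, hIA, hCA⟩ := exists_A hI2 hIc hFnil hIF
  have hfaith : I ⊓ Subgroup.centralizer (A : Set S) = ⊥ := by
    rw [eq_bot_iff]
    rintro t ⟨htI, htA⟩
    rw [Subgroup.mem_bot]
    have ht2 : t ^ 2 = 1 := hI2 t htI
    set T := Subgroup.zpowers t with hT
    have hTI : T ≤ I := by rw [hT, Subgroup.zpowers_le]; exact htI
    have hTA : T ≤ Subgroup.centralizer (A : Set S) := by rw [hT, Subgroup.zpowers_le]; exact htA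
    have hTF : T ≤ Subgroup.normalizer (F : Set S) := hTI.trans hIF
    have hcop : (Nat.card T).Coprime (Nat.card F) := by
      rw [hT, Nat.card_zpowers]
      refine Nat.Coprime.coprime_dvd_left (orderOf_dvd_of_pow_eq_one ht2) ?_
      rw [Nat.coprime_two_left]; exact hF
    have hsolv : Group.IsSolvable F := by infer_instance
    have hAT : ⁅A, T⁆ = ⊥ := by
      rw [Subgroup.commutator_eq_bot_iff_le_centralizer, Subgroup.le_centralizer_iff]
      exact hTA
    have h1 : ⁅⁅F, T⁆, A⁆ = ⊥ := by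
      apply Subgroup.commutator_commutator_eq_bot_of_rotate
      · rw [Subgroup.commutator_comm T A, hAT, Subgroup.commutator_bot_left]
      · rw [eq_bot_iff, ← hAT]
        refine Subgroup.commutator_mono ?_ le_rfl
        exact Subgroup.le_normalizer_iff_commutator_le_left.1 hFA
    have h2 : ⁅F, T⁆ ≤ A := by
      refine le_trans ?_ hCA
      refine le_inf (CfsgLib.Coprime.commutator_le_of_le_normalizer hTF) ?_
      rwa [Subgroup.commutator_eq_bot_iff_le_centralizer] at h1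
    have h3 : ⁅F, T⁆ = ⊥ := by
      refine CfsgLib.Coprime.commutator_eq_bot_of_commutator_commutator hTF hcop (Or.inr hsolv) ?_
      rw [eq_bot_iff, ← hAT]
      exact Subgroup.commutator_mono h2 le_rfl
    rw [Subgroup.commutator_eq_bot_iff_le_centralizer, Subgroup.le_centralizer_iff] at h3
    have h4 : t ∈ F := hFc (h3 (Subgroup.mem_zpowers t))
    have h5 : orderOf t ∣ Nat.card F := by
      have := orderOf_dvd_natCard (⟨t, h4⟩ : F)
      rwa [Subgroup.orderOf_mk] at this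
    have h6 : orderOf t = 1 := Nat.eq_one_of_dvd_coprimes (by rw [Nat.coprime_two_left]; exact hF)
      (orderOf_dvd_of_pow_eq_one ht2) h5
    exact orderOf_eq_one_iff.1 h6
  obtain ⟨f, hf1, hf2, hf3, hf4, hf5⟩ := main hI2 hIc n I A le_rfl hIn
    (Odd.of_dvd_nat hF (Subgroup.card_dvd_of_le hAF)) hAc hIA hfaith
  refine ⟨f, hf1, fun i => ?_, hf3, ?_, hf4, hf5⟩
  · rw [← hFdef]; exact (hf2 i).trans hAF
  · intro i j _ a ha b hb
    exact hAc a (hf2 i ha) b (hf2 j hb)

end Cfsg.Agent.S4408
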