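import Cfsg.Statements.S4410
import Mathlib
import Cfsg.Agent.LibCores

set_option autoImplicit false
open Cfsg

namespace Cfsg.Agent.S4410

section
variable {V : Type*} [AddCommGroup V] [Module (ZMod 2) V]

theorem add_self' (v : V) : v + v = 0 := by
  have h : (2 : ZMod 2) • v = 0 := by
    have : (2 : ZMod 2) = 0 := by decide
    rw [this, zero_smul]
  rw [← h, two_smul]

/-- `s` acts as the transvection with centre `a` and functional `f`. -/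
def Tr (s : V ≃ₗ[ZMod 2] V) (f : V →ₗ[ZMod 2] ZMod 2) (a : V) : Prop := ∀ v, s v = v + f v • a

theorem z2 (c : ZMod 2) : c = 0 ∨ c = 1 := by
  revert c; decide

theorem pow_four {s₁ s₂ : V ≃ₗ[ZMod 2] V} {f₁ f₂ : V →ₗ[ZMod 2] ZMod 2} {a₁ a₂ : V}
    (h₁ : Tr s₁ f₁ a₁) (h₂ : Tr s₂ f₂ a₂) (e₁ : f₁ a₁ = 0) (e₂ : f₂ a₂ = 0) (h : f₁ a₂ = 0) :
    (s₁ * s₂) ^ 4 = 1 := by
  have hu : ∀ v, (s₁ * s₂) v = v + f₂ v • a₂ + f₁ v • a₁ := by
    intro v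
    change s₁ (s₂ v) = _
    rw [h₂ v, h₁, map_add, map_smul, h]
    simp
  have hu2 : ∀ v, ((s₁ * s₂) ^ 2) v = v + (f₁ v * f₂ a₁) • a₂ := by
    intro v
    rw [pow_two]
    change (s₁ * s₂) ((s₁ * s₂) v) = _
    rw [hu, hu v]
    simp only [map_add, map_smul, e₁, e₂, h, smul_eq_mul, mul_zero, add_zero, add_smul]
    have := add_self' (f₂ v • a₂)
    have h3 := add_self' (f₁ v • a₁)
    calc v + f₂ v • a₂ + f₁ v • a₁ + (f₂ v • a₂ + (f₁ v * f₂ a₁) • a₂) + f₁ v • a₁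
        = v + (f₂ v • a₂ + f₂ v • a₂) + (f₁ v • a₁ + f₁ v • a₁) + (f₁ v * f₂ a₁) • a₂ := by abel
      _ = _ := by rw [this, h3]; simp
  ext v
  rw [show (4 : ℕ) = 2 + 2 from rfl, pow_add]
  change ((s₁ * s₂) ^ 2) (((s₁ * s₂) ^ 2) v) = v
  rw [hu2, hu2 v]
  simp only [map_add, map_smul, h, smul_eq_mul, mul_zero, add_zero]
  rw [add_assoc, add_self', add_zero]

theorem pow_four' {s₁ s₂ : V ≃ₗ[ZMod 2] V} {f₁ f₂ : V →ₗ[ZMod 2] ZMod 2} {a₁ a₂ : V}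
    (h₁ : Tr s₁ f₁ a₁) (h₂ : Tr s₂ f₂ a₂) (e₁ : f₁ a₁ = 0) (e₂ : f₂ a₂ = 0) (h : f₂ a₁ = 0) :
    (s₁ * s₂) ^ 4 = 1 := by
  have h4 := pow_four h₂ h₁ e₂ e₁ h
  have : (s₁ * s₂) ^ 4 = s₂⁻¹ * (s₂ * s₁) ^ 4 * s₂ := by
    simp only [pow_succ, pow_zero, one_mul]; group
  rw [this, h4]; group

theorem conj_tr {s x : V ≃ₗ[ZMod 2] V} {f : V →ₗ[ZMod 2] ZMod 2} {a : V} (h : Tr s f a) :
    Tr (x * s * x⁻¹) (f ∘ₗ (x⁻¹ : V ≃ₗ[ZMod 2] V).toLinearMap) (x a) := by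
  intro v
  change x (s (x⁻¹ v)) = v + f (x⁻¹ v) • x a
  rw [h, map_add, map_smul]
  congr 1
  change (x * x⁻¹) v = v
  rw [mul_inv_cancel]; rfl

end

/-- Let V be a finite-dimensional vector space over the field with two elements and S a solvable group of linear automorphisms of V with O₂(S) = 1. If P ∈ S has order 4 and (P − 1)³ = 0 on V, then the image of (P − 1)² has at least 4 elements; equivalently, in the decomposition of V into indecomposable modules for the cyclic group generated by P, at least two summands have dimension 3. -/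
theorem result
    {V : Type*} [AddCommGroup V] [Module (ZMod 2) V] [Finite V]
    (S : Subgroup (V ≃ₗ[ZMod 2] V)) (hS : Group.IsSolvable ↥S) (hO2 : Cfsg.pCore 2 ↥S = ⊥)
    (P : V ≃ₗ[ZMod 2] V) (hPS : P ∈ S) (hP4 : orderOf P = 4)
    (hcub : ((P : V →ₗ[ZMod 2] V) - LinearMap.id) ^ 3 = 0) :
    4 ≤ Nat.card ↥(LinearMap.range (((P : V →ₗ[ZMod 2] V) - LinearMap.id) ^ 2)) := by
  classical
  by_contra hlt
  push Not at hlt
  set N : V →ₗ[ZMod 2] V := ((P : V →ₗ[ZMod 2] V) - LinearMap.id) ^ 2 with hN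
  have hNv : ∀ v, N v = P (P v) + v := by
    intro v
    rw [hN, pow_two]
    rw [Module.End.mul_apply]
    simp only [LinearMap.sub_apply, LinearMap.id_apply, LinearEquiv.coe_coe, map_sub]
    have := add_self' (P v)
    have h3 : - (P v) = P v := by rw [neg_eq_iff_add_eq_zero]; exact this
    rw [sub_sub_eq_add_sub]
    rw [sub_eq_add_neg, sub_eq_add_neg]
    rw [show P (P v) + -P v + v + -P v = P (P v) + v + (-P v + -P v) by abel, h3, this, add_zero]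
  have hP2 : P ^ 2 ≠ 1 := by
    intro h
    have := orderOf_dvd_of_pow_eq_one h
    rw [hP4] at this
    revert this; decide
  have hN0 : ∃ v, N v ≠ 0 := by
    by_contra hcon
    push Not at hcon
    apply hP2
    ext v
    have := hcon v
    rw [hNv] at this
    rw [pow_two]
    change P (P v) = v
    have h2 := add_self' v
    exact add_right_cancel (this.trans h2.symm)
  obtain ⟨v0, hv0⟩ := hN0
  set a : V := N v0 with ha
  have hfr : Module.finrank (ZMod 2) (LinearMap.range N) ≤ 1 := by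
    have h1 : Nat.card (LinearMap.range N) = 2 ^ Module.finrank (ZMod 2) (LinearMap.range N) := by
      letI : Fintype (LinearMap.range N) := Fintype.ofFinite _
      rw [Nat.card_eq_fintype_card, Module.card_eq_pow_finrank (K := ZMod 2), ZMod.card]
    by_contra hcon
    push Not at hcon
    have h2 : 2 ^ 2 ≤ 2 ^ Module.finrank (ZMod 2) (LinearMap.range N) := Nat.pow_le_pow_right (by norm_num) hcon
    rw [← h1] at h2
    omega
  have hNa : ∀ v, ∃ c : ZMod 2, N v = c • a := by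
    intro v
    have h1 := finrank_le_one_iff.1 hfr
    obtain ⟨w, hw⟩ := h1
    obtain ⟨c1, hc1⟩ := hw ⟨N v0, v0, rfl⟩
    obtain ⟨c2, hc2⟩ := hw ⟨N v, v, rfl⟩
    have hc1' : c1 • (w : V) = a := congrArg Subtype.val hc1
    have hc2' : c2 • (w : V) = N v := congrArg Subtype.val hc2
    rcases z2 c1 with h | h
    · exfalso; apply hv0; rw [← hc1', h, zero_smul]
    · rw [h, one_smul] at hc1'
      exact ⟨c2, by rw [← hc2', hc1']⟩
  obtain ⟨g, hg⟩ : ∃ g : V →ₗ[ZMod 2] ZMod 2, g a = 1 := by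
    obtain ⟨g, hg⟩ := Module.Projective.exists_dual_ne_zero (ZMod 2) hv0
    refine ⟨g, ?_⟩
    rcases z2 (g a) with h | h
    · exact absurd h hg
    · exact h
  set f : V →ₗ[ZMod 2] ZMod 2 := g ∘ₗ N with hf
  have hNf : ∀ v, N v = f v • a := by
    intro v
    obtain ⟨c, hc⟩ := hNa v
    have : f v = c := by
      rw [hf]; change g (N v) = c
      rw [hc, map_smul, hg, smul_eq_mul, mul_one]
    rw [this, hc]
  set t : V ≃ₗ[ZMod 2] V := P ^ 2 with ht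
  have htr : Tr t f a := by
    intro v
    have h1 := hNf v
    rw [hNv] at h1
    rw [← h1, ht, pow_two]
    change P (P v) = v + (P (P v) + v)
    have := add_self' v
    rw [add_comm (P (P v)) v, ← add_assoc, this, zero_add]
  have ht2 : t * t = 1 := by
    rw [ht, ← pow_add]
    have := pow_orderOf_eq_one P
    rw [hP4] at this
    exact this
  have hfa : f a = 0 := by
    rcases z2 (f a) with h | h
    · exact h
    · exfalso
      have h1 : (t * t) v0 = v0 := by rw [ht2]; rfl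
      have h2 : (t * t) a = a := by rw [ht2]; rfl
      have h3 : t a = a + a := by rw [htr a, h, one_smul]
      rw [add_self'] at h3
      apply hv0
      exact t.injective (by rw [h3, map_zero])
  have htS : t ∈ S := pow_mem hPS 2
  haveI hfinE : Finite (V ≃ₗ[ZMod 2] V) :=
    Finite.of_injective (fun e : V ≃ₗ[ZMod 2] V => (e : V → V)) (fun e e' h => LinearEquiv.ext (fun v => congrFun h v))
  set F := Cfsg.fittingSubgroup ↥S with hF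
  have hFodd : ¬ 2 ∣ Nat.card F := by
    have h1 := CfsgLib.Cores.not_dvd_relIndex_pCore_of_normal_nilpotent (G := ↥S) Nat.prime_two F CfsgLib.Cores.fittingSubgroup_isNilpotent
    rw [hO2, Subgroup.relIndex_bot_left] at h1
    exact h1
  have hodd : ∀ y : V ≃ₗ[ZMod 2] V, ∀ hy : y ∈ S, (⟨y, hy⟩ : S) ∈ F → y ^ 4 = 1 → y = 1 := by
    intro y hy hyF hy4
    have h1 : orderOf (⟨y, hy⟩ : S) ∣ Nat.card F := Subgroup.orderOf_dvd_natCard F hyF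
    have h2 : orderOf (⟨y, hy⟩ : S) ∣ 4 := orderOf_dvd_of_pow_eq_one (by ext1; exact hy4)
    have h3 : Nat.Coprime (Nat.card F) 4 := by
      rw [show (4 : ℕ) = 2 ^ 2 from rfl]
      apply Nat.Coprime.pow_right
      exact ((Nat.Prime.coprime_iff_not_dvd Nat.prime_two).2 hFodd).symm
    have h4 : orderOf (⟨y, hy⟩ : S) = 1 := Nat.eq_one_of_dvd_coprimes h3 h1 h2
    exact congrArg Subtype.val (orderOf_eq_one_iff.1 h4)
  have htF : (⟨t, htS⟩ : S) ∉ F := by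
    intro h
    have := hodd t htS h (by rw [show (4 : ℕ) = 2 * 2 from rfl, pow_mul, pow_two t, ht2, one_pow])
    exact hP2 this
  haveI := hS
  obtain ⟨x, hxF, hx⟩ : ∃ x ∈ F, x * (⟨t, htS⟩ : S) ≠ ⟨t, htS⟩ * x := by
    by_contra hcon
    push Not at hcon
    apply htF
    apply CfsgLib.Cores.centralizer_fittingSubgroup_le
    rw [Subgroup.mem_centralizer_iff]
    exact hcon
  -- the class of t
  let Q : (V ≃ₗ[ZMod 2] V) → Prop := fun s => ∃ y : S, y ∈ F ∧ s = (y : V ≃ₗ[ZMod 2] V) * t * (y : V ≃ₗ[ZMod 2] V)⁻¹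
  have hQtr : ∀ s, Q s → ∃ f' a', Tr s f' a' ∧ f' a' = 0 := by
    rintro s ⟨y, hy, rfl⟩
    refine ⟨_, _, conj_tr htr, ?_⟩
    change f ((y : V ≃ₗ[ZMod 2] V)⁻¹ ((y : V ≃ₗ[ZMod 2] V) a)) = 0
    have : (y : V ≃ₗ[ZMod 2] V)⁻¹ ((y : V ≃ₗ[ZMod 2] V) a) = a := by
      change ((y : V ≃ₗ[ZMod 2] V)⁻¹ * (y : V ≃ₗ[ZMod 2] V)) a = a
      rw [inv_mul_cancel]; rfl
    rw [this, hfa]
  have hQS : ∀ s, Q s → s ∈ S := by
    rintro s ⟨y, hy, rfl⟩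
    exact S.mul_mem (S.mul_mem y.2 htS) (S.inv_mem y.2)
  have hQsq : ∀ s, Q s → s * s = 1 := by
    rintro s ⟨y, hy, rfl⟩
    have : (y : V ≃ₗ[ZMod 2] V) * t * (y : V ≃ₗ[ZMod 2] V)⁻¹ * ((y : V ≃ₗ[ZMod 2] V) * t * (y : V ≃ₗ[ZMod 2] V)⁻¹)
        = (y : V ≃ₗ[ZMod 2] V) * (t * t) * (y : V ≃ₗ[ZMod 2] V)⁻¹ := by group
    rw [this, ht2]; group
  have hnF : F.Normal := inferInstance
  have hQt : Q t := ⟨1, F.one_mem, by simp⟩
  have hQprod : ∀ s, (hs : Q s) → (⟨t * s, S.mul_mem htS (hQS s hs)⟩ : S) ∈ F := by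
    rintro s ⟨y, hy, rfl⟩
    have h1 : (⟨t, htS⟩ : S) * y * (⟨t, htS⟩ : S)⁻¹ ∈ F := hnF.conj_mem _ hy _
    have h2 := F.mul_mem h1 (F.inv_mem hy)
    convert h2 using 1
    ext1
    change t * ((y : V ≃ₗ[ZMod 2] V) * t * (y : V ≃ₗ[ZMod 2] V)⁻¹) = t * (y : V ≃ₗ[ZMod 2] V) * t⁻¹ * (y : V ≃ₗ[ZMod 2] V)⁻¹
    have : t⁻¹ = t := inv_eq_of_mul_eq_one_left ht2
    rw [this]; group
  have hQprod2 : ∀ s₁ s₂, (h1 : Q s₁) → (h2 : Q s₂) → (⟨s₁ * s₂, S.mul_mem (hQS s₁ h1) (hQS s₂ h2)⟩ : S) ∈ F := by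
    intro s₁ s₂ h1 h2
    have h3 := F.mul_mem (F.inv_mem (hQprod s₁ h1)) (hQprod s₂ h2)
    convert h3 using 1
    ext1
    change s₁ * s₂ = (t * s₁)⁻¹ * (t * s₂)
    have : s₁⁻¹ = s₁ := inv_eq_of_mul_eq_one_left (hQsq _ h1)
    rw [mul_inv_rev, this]
    group
  -- conjugates
  have hQconj : ∀ s, Q s → Q (t * s * t) := by
    rintro s ⟨y, hy, rfl⟩
    refine ⟨(⟨t, htS⟩ : S) * y * (⟨t, htS⟩ : S)⁻¹, hnF.conj_mem _ hy _, ?_⟩
    change _ = t * (y : V ≃ₗ[ZMod 2] V) * t⁻¹ * t * (t * (y : V ≃ₗ[ZMod 2] V) * t⁻¹)⁻¹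
    have : t⁻¹ = t := inv_eq_of_mul_eq_one_left ht2
    rw [this]
    have h5 : t * (y : V ≃ₗ[ZMod 2] V) * t * t * (t * (y : V ≃ₗ[ZMod 2] V) * t)⁻¹
      = t * (y : V ≃ₗ[ZMod 2] V) * (t * t) * t⁻¹ * (y : V ≃ₗ[ZMod 2] V)⁻¹ * t⁻¹ := by group
    rw [h5, ht2, this]; group
  have hPt : P * t * P⁻¹ = t := by rw [ht]; group
  have hQP : ∀ s, Q s → Q (P * s * P⁻¹) := by
    rintro s ⟨y, hy, rfl⟩
    refine ⟨(⟨P, hPS⟩ : S) * y * (⟨P, hPS⟩ : S)⁻¹, hnF.conj_mem _ hy _, ?_⟩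
    change _ = P * (y : V ≃ₗ[ZMod 2] V) * P⁻¹ * t * (P * (y : V ≃ₗ[ZMod 2] V) * P⁻¹)⁻¹
    conv_lhs => rw [← hPt]
    have h7 : P⁻¹ * t * P = t := by
      rw [ht]; group
    calc P * ((y : V ≃ₗ[ZMod 2] V) * (P * t * P⁻¹) * (y : V ≃ₗ[ZMod 2] V)⁻¹) * P⁻¹
        = P * (y : V ≃ₗ[ZMod 2] V) * (P * t * P⁻¹) * (y : V ≃ₗ[ZMod 2] V)⁻¹ * P⁻¹ := by group
      _ = P * (y : V ≃ₗ[ZMod 2] V) * (P⁻¹ * t * P) * (y : V ≃ₗ[ZMod 2] V)⁻¹ * P⁻¹ := by rw [hPt, h7]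
      _ = _ := by group
  have hdist : ∀ s₁ s₂ f₁ a₁ f₂ a₂, Q s₁ → Q s₂ → Tr s₁ f₁ a₁ → Tr s₂ f₂ a₂ → f₁ a₁ = 0 → f₂ a₂ = 0 → s₁ ≠ s₂ →
      f₁ a₂ = 1 := by
    intro s₁ s₂ f₁ a₁ f₂ a₂ h1 h2 T1 T2 e1 e2 hne
    rcases z2 (f₁ a₂) with h | h
    · exfalso
      apply hne
      have h4 := pow_four T1 T2 e1 e2 h
      have h5 := hodd _ (S.mul_mem (hQS s₁ h1) (hQS s₂ h2)) (hQprod2 s₁ s₂ h1 h2) h4
      have h6 : s₂⁻¹ = s₂ := inv_eq_of_mul_eq_one_left (hQsq _ h2)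
      rw [← h6]
      exact eq_inv_of_mul_eq_one_left h5
    · exact h
  have hkey : ∀ s₁ s₂, Q s₁ → Q s₂ → s₁ ≠ t → s₂ ≠ t → s₁ ≠ s₂ → s₂ = t * s₁ * t := by
    intro s₁ s₂ h1 h2 n1 n2 n12
    by_contra hcon
    obtain ⟨f₁, a₁, T1, e1⟩ := hQtr s₁ h1
    obtain ⟨f₂, a₂, T2, e2⟩ := hQtr s₂ h2
    have htinv : t⁻¹ = t := inv_eq_of_mul_eq_one_left ht2
    have T3 : Tr (t * s₁ * t) (f₁ ∘ₗ (t⁻¹ : V ≃ₗ[ZMod 2] V).toLinearMap) (t a₁) := by
      have := conj_tr (x := t) T1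
      rw [htinv] at this ⊢
      exact this
    have e3 : (f₁ ∘ₗ (t⁻¹ : V ≃ₗ[ZMod 2] V).toLinearMap) (t a₁) = 0 := by
      change f₁ (t⁻¹ (t a₁)) = 0
      have : t⁻¹ (t a₁) = a₁ := by
        change (t⁻¹ * t) a₁ = a₁
        rw [inv_mul_cancel]; rfl
      rw [this, e1]
    have h5 := hdist _ _ _ _ _ _ (hQconj s₁ h1) h2 T3 T2 e3 e2 (fun h => hcon h.symm)
    have h6 : f₁ a₂ = 1 := hdist _ _ _ _ _ _ h1 h2 T1 T2 e1 e2 n12
    have h7 : f₁ a = 1 := hdist _ _ _ _ _ _ h1 hQt T1 htr e1 hfa n1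
    have h8 : f a₂ = 1 := hdist _ _ _ _ _ _ hQt h2 htr T2 hfa e2 (fun h => n2 h.symm)
    have h9 : (f₁ ∘ₗ (t⁻¹ : V ≃ₗ[ZMod 2] V).toLinearMap) a₂ = 0 := by
      change f₁ (t⁻¹ a₂) = 0
      rw [htinv, htr a₂, h8, one_smul, map_add, h6, h7]
      decide
    rw [h9] at h5
    exact zero_ne_one h5
  have htinv : t⁻¹ = t := inv_eq_of_mul_eq_one_left ht2
  set s₁ : V ≃ₗ[ZMod 2] V := (x : V ≃ₗ[ZMod 2] V) * t * (x : V ≃ₗ[ZMod 2] V)⁻¹ with hs1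
  have hQ1 : Q s₁ := ⟨x, hxF, rfl⟩
  have hs1t : s₁ ≠ t := by
    intro h
    apply hx
    ext1
    change (x : V ≃ₗ[ZMod 2] V) * t = t * (x : V ≃ₗ[ZMod 2] V)
    calc (x : V ≃ₗ[ZMod 2] V) * t = s₁ * (x : V ≃ₗ[ZMod 2] V) := by rw [hs1]; group
      _ = t * (x : V ≃ₗ[ZMod 2] V) := by rw [h]
  have hnc : t * s₁ * t ≠ s₁ := by
    intro h
    apply hs1t
    have h4 : (t * s₁) ^ 4 = 1 := by
      have h5 : (t * s₁) ^ 2 = 1 := by
        rw [pow_two]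
        calc t * s₁ * (t * s₁) = (t * s₁ * t) * s₁ := by group
          _ = 1 := by rw [h, hQsq _ hQ1]
      rw [show (4 : ℕ) = 2 * 2 from rfl, pow_mul, h5, one_pow]
    have h5 := hodd _ (S.mul_mem htS (hQS s₁ hQ1)) (hQprod s₁ hQ1) h4
    have h6 := eq_inv_of_mul_eq_one_right h5
    rw [h6, htinv]
  have hPs : P * s₁ * P⁻¹ ≠ t := by
    intro h
    apply hs1t
    have : s₁ = P⁻¹ * (P * s₁ * P⁻¹) * P := by group
    rw [this, h, ht]; group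
  have hP2s : P * (P * s₁ * P⁻¹) * P⁻¹ = t * s₁ * t := by
    have : P * (P * s₁ * P⁻¹) * P⁻¹ = P ^ 2 * s₁ * (P ^ 2)⁻¹ := by
      rw [pow_two, mul_inv_rev]; simp only [mul_assoc]
    rw [this, ← ht, htinv]
  by_cases hc : s₁ = P * s₁ * P⁻¹
  · apply hnc
    rw [← hP2s, ← hc, ← hc]
  · have h1 := hkey _ _ hQ1 (hQP _ hQ1) hs1t hPs hc
    apply hnc
    rw [← hP2s, h1]
    calc P * (t * s₁ * t) * P⁻¹ = (P * t * P⁻¹) * (P * s₁ * P⁻¹) * (P * t * P⁻¹) := by group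
      _ = t * (t * s₁ * t) * t := by rw [hPt, h1]
      _ = (t * t) * s₁ * (t * t) := by group
      _ = s₁ := by rw [ht2, one_mul, mul_one]

end Cfsg.Agent.S4410
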