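import Cfsg.Agent.S3761
import Cfsg.Agent.LibSolvCoprime
import Mathlib
-- Template for statement S4412 (row 4412; see /opt/grader/pristine/manifest.json for weights).
-- Copy to Cfsg/Agent/S4412.lean and replace the sorry. The statement below is byte-identical to the frozen
-- statement Cfsg.CfsgFrozen.S4412 (Cfsg/Statements/S4412.lean; the theorem Cfsg.fg19_elementary_eight_automorphism_group_of_odd_p_group_with_few_noncyclic_centralizers);
-- the grader kernel-checks Cfsg.Agent.S4412.result against that frozen type. Keep the theorem IN THIS FILE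
-- (a `result` declared elsewhere and merely imported here is not credited); helpers may live anywhere
-- under Cfsg/Agent/.
import Cfsg.Statements.S4412
-- import your own Cfsg.Agent.* helpers here

set_option autoImplicit false
open Cfsg

namespace Cfsg.Agent.S4412

open Subgroup

section
variable {P : Type*} [Group P] [Finite P]

theorem oddpow (hodd : Odd (Nat.card P)) : ∃ r : ℕ, ∀ j : P, (j * j) ^ r = j := by
  obtain ⟨r, hr⟩ := hodd
  refine ⟨r + 1, fun j => ?_⟩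
  rw [← pow_two, ← pow_mul, show 2 * (r + 1) = Nat.card P + 1 by omega, pow_succ, pow_card_eq_one', one_mul]

theorem sq1 (hodd : Odd (Nat.card P)) {y : P} (h : y = y⁻¹) : y = 1 := by
  obtain ⟨r, hr⟩ := oddpow hodd
  rw [← hr y]
  nth_rewrite 2 [h]
  rw [mul_inv_cancel, one_pow]

theorem half (hodd : Odd (Nat.card P)) (T : MulAut P) (hT : ∀ x, T (T x) = x) (Q : Subgroup P) (hQ : ∀ x ∈ Q, T x ∈ Q)
    (x : P) (hx : x ∈ Q) : ∃ c i, c ∈ Q ∧ i ∈ Q ∧ T c = c ∧ T i = i⁻¹ ∧ x = c * i := by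
  obtain ⟨r, hr⟩ := oddpow hodd
  have hj : T ((T x)⁻¹ * x) = ((T x)⁻¹ * x)⁻¹ := by
    rw [map_mul, map_inv, hT, mul_inv_rev, inv_inv]
  have hjQ : (T x)⁻¹ * x ∈ Q := mul_mem (inv_mem (hQ x hx)) hx
  obtain ⟨i, hi⟩ : ∃ i, i = ((T x)⁻¹ * x) ^ r := ⟨_, rfl⟩
  have hiQ : i ∈ Q := by rw [hi]; exact pow_mem hjQ r
  have hTi : T i = i⁻¹ := by rw [hi, map_pow, hj, inv_pow]
  have hii : i * i = (T x)⁻¹ * x := by
    rw [hi, ← (Commute.refl ((T x)⁻¹ * x)).mul_pow, hr]
  refine ⟨x * i⁻¹, i, mul_mem hx (inv_mem hiQ), hiQ, ?_, hTi, by group⟩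
  rw [map_mul, map_inv, hTi, inv_inv]
  have h1 : T x * (i * i) = x := by rw [hii]; group
  calc T x * i = T x * (i * i) * i⁻¹ := by group
    _ = x * i⁻¹ := by rw [h1]

def Eig (I : Subgroup (MulAut P)) (x : P) : Prop := ∀ T ∈ I, T x = x ∨ T x = x⁻¹

theorem lem1 {p : ℕ} [hp : Fact p.Prime] (hP : IsPGroup p P) (hodd : Odd (Nat.card P)) (I : Subgroup (MulAut P))
    (hI : ∀ T ∈ I, ∀ x, T (T x) = x) (hIc : ∀ S ∈ I, ∀ T ∈ I, ∀ x, S (T x) = T (S x)) (hI2 : IsPGroup 2 I)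
    (Q R : Subgroup P) (hQ : ∀ T ∈ I, ∀ x ∈ Q, T x ∈ Q) (hR : ∀ x ∈ Q, Eig I x → x ∈ R) : Q ≤ R := by
  classical
  haveI : Fact (Nat.Prime 2) := ⟨Nat.prime_two⟩
  obtain ⟨r, hr⟩ := oddpow hodd
  obtain ⟨R0, hR0⟩ : ∃ R0 : Subgroup P, R0 = closure {x | x ∈ Q ∧ Eig I x} := ⟨_, rfl⟩
  have hR0R : R0 ≤ R := by
    rw [hR0, closure_le]
    exact fun x hx => hR x hx.1 hx.2
  have hR0Q : R0 ≤ Q := by
    rw [hR0, closure_le]
    exact fun x hx => hx.1
  have hR0e : ∀ x ∈ Q, Eig I x → x ∈ R0 := fun x h1 h2 => by rw [hR0]; exact subset_closure ⟨h1, h2⟩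
  have hR0I : ∀ T ∈ I, ∀ x ∈ R0, T x ∈ R0 := by
    intro T hT
    have h1 : R0 ≤ R0.comap T.toMonoidHom := by
      conv_lhs => rw [hR0]
      rw [closure_le]
      rintro x ⟨hxQ, hxe⟩
      change T x ∈ R0
      rcases hxe T hT with h | h
      · rw [h]; exact hR0e x hxQ hxe
      · rw [h]; exact inv_mem (hR0e x hxQ hxe)
    exact fun x hx => h1 hx
  refine le_trans ?_ hR0R
  by_contra hnle
  have hlt : R0 < Q := lt_of_le_of_ne hR0Q (fun h => hnle h.ge)
  obtain ⟨M, hM⟩ := (Set.toFinite {M : Subgroup P | R0 ≤ M ∧ M < Q ∧ ∀ T ∈ I, ∀ x ∈ M, T x ∈ M}).exists_maximal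
    ⟨R0, le_rfl, hlt, hR0I⟩
  obtain ⟨hRM, hMQ, hMI⟩ := hM.1
  have hmax : ∀ L : Subgroup P, M ≤ L → L ≤ Q → (∀ T ∈ I, ∀ x ∈ L, T x ∈ L) → L = M ∨ L = Q := by
    intro L h1 h2 h3
    by_cases h4 : L = Q
    · exact Or.inr h4
    · left
      exact le_antisymm (hM.2 ⟨hRM.trans h1, lt_of_le_of_ne h2 h4, h3⟩ h1) h1
  -- M normal in Q
  have hTM : ∀ T ∈ I, ∀ x, T x ∈ M → x ∈ M := by
    intro T hT x hx
    have := hMI T hT _ hx
    rwa [hI T hT] at this
  have hQN : Q ≤ normalizer (M : Set P) := by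
    have h1 := CfsgLib.SolvCoprime.lt_inf_normalizer_of_pgroup (hP.to_subgroup Q) hMQ
    rcases hmax (Q ⊓ normalizer (M : Set P)) h1.le inf_le_left (by
      intro T hT x hx
      refine mem_inf.mpr ⟨hQ T hT x (mem_inf.mp hx).1, ?_⟩
      have hxn := (mem_inf.mp hx).2
      rw [mem_normalizer_iff] at hxn ⊢
      intro m
      have h2 := hxn (T m)
      constructor
      · intro hm
        have h3 := hMI T hT _ (h2.mp (hMI T hT m hm))
        rwa [map_mul, map_mul, map_inv, hI T hT] at h3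
      · intro hm
        have h3 := hMI T hT _ hm
        rw [map_mul, map_mul, map_inv, hI T hT] at h3
        exact hTM T hT m (h2.mpr h3)) with h2 | h2
    · exact absurd h2.symm h1.ne
    · rw [← h2]; exact inf_le_right
  have hconj : ∀ q ∈ Q, ∀ m ∈ M, q * m * q⁻¹ ∈ M := fun q hq m hm => (mem_normalizer_iff.mp (hQN hq) m).mp hm
  have hconj' : ∀ q ∈ Q, ∀ m ∈ M, q⁻¹ * m * q ∈ M := by
    intro q hq m hm
    have := hconj q⁻¹ (inv_mem hq) m hm
    rwa [inv_inv] at this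
  -- Q / M abelian
  have hab : ∀ x ∈ Q, ∀ y ∈ Q, x * y * x⁻¹ * y⁻¹ ∈ M := by
    let Z' : Subgroup P :=
      { carrier := {x | x ∈ Q ∧ ∀ y ∈ Q, x * y * x⁻¹ * y⁻¹ ∈ M}
        one_mem' := ⟨one_mem _, fun y _ => by simp [one_mem]⟩
        mul_mem' := by
          rintro a b ⟨ha, ha'⟩ ⟨hb, hb'⟩
          refine ⟨mul_mem ha hb, fun y hy => ?_⟩
          have h1 := hconj a ha _ (hb' y hy)
          have h2 := mul_mem h1 (ha' y hy)
          rwa [show a * (b * y * b⁻¹ * y⁻¹) * a⁻¹ * (a * y * a⁻¹ * y⁻¹) = a * b * y * (a * b)⁻¹ * y⁻¹ by group] at h2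
        inv_mem' := by
          rintro a ⟨ha, ha'⟩
          refine ⟨inv_mem ha, fun y hy => ?_⟩
          have h1 := hconj' a ha _ (inv_mem (ha' y hy))
          rwa [show a⁻¹ * (a * y * a⁻¹ * y⁻¹)⁻¹ * a = a⁻¹ * y * a⁻¹⁻¹ * y⁻¹ by group] at h1 }
    have hMZ : M ≤ Z' := by
      intro m hm
      refine ⟨hMQ.le hm, fun y hy => ?_⟩
      have h1 := mul_mem hm (hconj y hy _ (inv_mem hm))
      rwa [show m * (y * m⁻¹ * y⁻¹) = m * y * m⁻¹ * y⁻¹ by group] at h1
    have hZ : Z' = Q := by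
      rcases hmax Z' hMZ (fun x hx => hx.1) (by
        rintro T hT x ⟨hx, hx'⟩
        refine ⟨hQ T hT x hx, fun y hy => ?_⟩
        have h1 := hMI T hT _ (hx' (T y) (hQ T hT y hy))
        rwa [map_mul, map_mul, map_mul, map_inv, map_inv, hI T hT] at h1) with h | h
      · exfalso
        haveI hn : (M.subgroupOf Q).Normal := normal_subgroupOf_of_le_normalizer hQN
        haveI : Nontrivial (Q ⧸ M.subgroupOf Q) := by
          rw [QuotientGroup.nontrivial_iff, Ne, subgroupOf_eq_top]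
          exact fun h2 => hMQ.not_ge h2
        have hpq : IsPGroup p (Q ⧸ M.subgroupOf Q) := (hP.to_subgroup Q).to_quotient _
        haveI := hpq.center_nontrivial
        obtain ⟨⟨zb, hzb⟩, hz1⟩ := exists_ne (1 : center (Q ⧸ M.subgroupOf Q))
        obtain ⟨z, rfl⟩ := QuotientGroup.mk_surjective zb
        have hz2 : (z : P) ∉ M := by
          intro h2
          apply hz1
          apply Subtype.ext
          exact (QuotientGroup.eq_one_iff z).mpr h2
        apply hz2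
        rw [← h]
        refine ⟨z.2, fun y hy => ?_⟩
        have h3 := mem_center_iff.mp hzb (QuotientGroup.mk ⟨y, hy⟩)
        have h4 : (QuotientGroup.mk (z * ⟨y, hy⟩ * z⁻¹ * ⟨y, hy⟩⁻¹) : Q ⧸ M.subgroupOf Q) = 1 := by
          simp only [QuotientGroup.mk_mul, QuotientGroup.mk_inv]
          rw [← h3]; group
        have h5 := (QuotientGroup.eq_one_iff (z * ⟨y, hy⟩ * z⁻¹ * (⟨y, hy⟩ : Q)⁻¹)).mp h4
        exact h5
      · exact h
    intro x hx y hy
    rw [← hZ] at hx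
    exact hx.2 y hy
  -- signs
  have hsign : ∀ T ∈ I, (∀ x ∈ Q, x⁻¹ * T x ∈ M) ∨ (∀ x ∈ Q, x * T x ∈ M) := by
    intro T hT
    let F : Subgroup P :=
      { carrier := {x | x ∈ Q ∧ x⁻¹ * T x ∈ M}
        one_mem' := ⟨one_mem _, by simp [one_mem]⟩
        mul_mem' := by
          rintro a b ⟨ha, ha'⟩ ⟨hb, hb'⟩
          refine ⟨mul_mem ha hb, ?_⟩
          have h1 := mul_mem (hconj' b hb _ ha') hb'
          rw [map_mul]
          rwa [show b⁻¹ * (a⁻¹ * T a) * b * (b⁻¹ * T b) = (a * b)⁻¹ * (T a * T b) by group] at h1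
        inv_mem' := by
          rintro a ⟨ha, ha'⟩
          refine ⟨inv_mem ha, ?_⟩
          have h1 := hconj a ha _ (inv_mem ha')
          rw [map_inv]
          rwa [show a * (a⁻¹ * T a)⁻¹ * a⁻¹ = a⁻¹⁻¹ * (T a)⁻¹ by group] at h1 }
    have hMF : M ≤ F := fun m hm => ⟨hMQ.le hm, mul_mem (inv_mem hm) (hMI T hT m hm)⟩
    rcases hmax F hMF (fun x hx => hx.1) (by
      rintro W hW x ⟨hx, hx'⟩
      refine ⟨hQ W hW x hx, ?_⟩
      have h1 := hMI W hW _ hx'
      rwa [map_mul, map_inv, hIc W hW T hT] at h1) with h | h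
    · right
      intro x hx
      rw [← h]
      refine ⟨mul_mem hx (hQ T hT x hx), ?_⟩
      rw [map_mul, hI T hT]
      have h1 := hab (T x)⁻¹ (inv_mem (hQ T hT x hx)) x⁻¹ (inv_mem hx)
      rwa [show (T x)⁻¹ * x⁻¹ * (T x)⁻¹⁻¹ * x⁻¹⁻¹ = (x * T x)⁻¹ * (T x * x) by group] at h1
    · left
      intro x hx
      rw [← h] at hx
      exact hx.2
  obtain ⟨x0, hx0Q, hx0M⟩ := SetLike.exists_of_lt hMQ
  let A : Subgroup (MulAut P) :=
    { carrier := {T | T ∈ I ∧ ∀ x ∈ Q, x⁻¹ * T x ∈ M}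
      one_mem' := ⟨one_mem _, fun x _ => by simp [one_mem]⟩
      mul_mem' := by
        rintro S T ⟨hS, hS'⟩ ⟨hT, hT'⟩
        refine ⟨mul_mem hS hT, fun x hx => ?_⟩
        have h1 := mul_mem (hT' x hx) (hS' (T x) (hQ T hT x hx))
        rw [MulAut.mul_apply]
        rwa [show x⁻¹ * T x * ((T x)⁻¹ * S (T x)) = x⁻¹ * S (T x) by group] at h1
      inv_mem' := by
        rintro T ⟨hT, hT'⟩
        refine ⟨inv_mem hT, fun x hx => ?_⟩
        have h2 : T⁻¹ x = T x := (MulEquiv.symm_apply_eq T).mpr (hI T hT x).symm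
        rw [h2]
        exact hT' x hx }
  have hAI : A ≤ I := fun T hT => hT.1
  have hA2 : IsPGroup 2 A := hI2.to_le hAI
  let C : SubMulAction A P :=
    { carrier := {y | x0⁻¹ * y ∈ M}
      smul_mem' := by
        rintro ⟨T, hT⟩ y hy
        change x0⁻¹ * T y ∈ M
        have h1 : T (x0⁻¹ * y) ∈ M := hMI T hT.1 _ hy
        have h2 := mul_mem (hT.2 x0 hx0Q) h1
        rw [map_mul, map_inv] at h2
        rwa [show x0⁻¹ * T x0 * ((T x0)⁻¹ * T y) = x0⁻¹ * T y by group] at h2 }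
  have hCc : Nat.card C = Nat.card M := Nat.card_congr
    { toFun := fun y => ⟨x0⁻¹ * y, y.2⟩
      invFun := fun m => ⟨x0 * m, by
        change x0⁻¹ * (x0 * m) ∈ M
        rw [inv_mul_cancel_left]; exact m.2⟩
      left_inv := fun y => Subtype.ext (mul_inv_cancel_left _ _)
      right_inv := fun m => Subtype.ext (inv_mul_cancel_left _ _) }
  obtain ⟨⟨x', hx'C⟩, hx'f⟩ := hA2.nonempty_fixed_point_of_prime_not_dvd_card C (by
    rw [hCc]
    intro h
    have h1 : 2 ∣ Nat.card P := h.trans (card_subgroup_dvd_card M)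
    exact (Nat.not_even_iff_odd.mpr hodd) (even_iff_two_dvd.mpr h1))
  have hx'A : ∀ T ∈ A, T x' = x' := fun T hT => congrArg Subtype.val (hx'f ⟨T, hT⟩)
  have hx'M : x0⁻¹ * x' ∈ M := hx'C
  have hx'Q : x' ∈ Q := by
    have := mul_mem hx0Q (hMQ.le hx'M)
    rwa [mul_inv_cancel_left] at this
  have hx'n : x' ∉ M := by
    intro h
    apply hx0M
    have := mul_mem h (inv_mem hx'M)
    rwa [mul_inv_rev, inv_inv, mul_inv_cancel_left] at this
  by_cases hAeq : I ≤ A
  · apply hx'n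
    apply hRM
    exact hR0e x' hx'Q (fun T hT => Or.inl (hx'A T (hAeq hT)))
  · obtain ⟨T, hTI, hTA⟩ := SetLike.not_le_iff_exists.mp hAeq
    have hneg : ∀ W ∈ I, W ∉ A → ∀ x ∈ Q, x * W x ∈ M := by
      intro W hW hWA
      rcases hsign W hW with h | h
      · exact absurd ⟨hW, h⟩ hWA
      · exact h
    let QA : Subgroup P :=
      { carrier := {y | y ∈ Q ∧ ∀ S ∈ A, S y = y}
        one_mem' := ⟨one_mem _, fun S _ => map_one S⟩
        mul_mem' := fun {a b} ha hb => ⟨mul_mem ha.1 hb.1, fun S hS => by rw [map_mul, ha.2 S hS, hb.2 S hS]⟩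
        inv_mem' := fun {a} ha => ⟨inv_mem ha.1, fun S hS => by rw [map_inv, ha.2 S hS]⟩ }
    obtain ⟨c, i, hc, hi, hTc, hTi, hx'ci⟩ := half hodd T (hI T hTI) QA (by
      rintro y ⟨hy, hy'⟩
      refine ⟨hQ T hTI y hy, fun S hS => ?_⟩
      rw [hIc S hS.1 T hTI, hy' S hS]) x' ⟨hx'Q, hx'A⟩
    have hcM : c ∈ M := by
      have h1 := hneg T hTI hTA c hc.1
      rw [hTc] at h1
      rw [← hr c]
      exact pow_mem h1 r
    have hiM : i ∉ M := by
      intro h
      apply hx'n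
      rw [hx'ci]
      exact mul_mem hcM h
    apply hiM
    apply hRM
    apply hR0e i hi.1
    intro W hW
    by_cases hWA : W ∈ A
    · exact Or.inl (hi.2 W hWA)
    · right
      have hWT : W * T ∈ A := by
        refine ⟨mul_mem hW hTI, fun x hx => ?_⟩
        rw [MulAut.mul_apply]
        have h1 := hneg T hTI hTA x hx
        have h2 := hneg W hW hWA x hx
        have h3 := hMI W hW _ h1
        rw [map_mul] at h3
        have h4 := mul_mem (inv_mem (hconj' x hx _ h2)) h3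
        rwa [show (x⁻¹ * (x * W x) * x)⁻¹ * (W x * W (T x)) = x⁻¹ * W (T x) by group] at h4
      have h1 := hi.2 (W * T) hWT
      rw [MulAut.mul_apply, hTi, map_inv, inv_eq_iff_eq_inv] at h1
      exact h1

end

section
variable {P : Type*} [Group P] [Finite P]

/-- narrow -/
def Nar (T : MulAut P) : Prop := ∃ g : P, ∀ x : P, (T x = x ↔ x ∈ Subgroup.zpowers g)

/-- two eigen-elements fixed by a narrow element have the same signs -/
theorem lemN {p : ℕ} [hp : Fact p.Prime] (hP : IsPGroup p P) (hodd : Odd (Nat.card P)) (T : MulAut P) (hT : Nar T)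
    {x y : P} (hx1 : x ≠ 1) (hy1 : y ≠ 1) (hx : T x = x) (hy : T y = y) (S : MulAut P) (hSx : S x = x) (hSy : S y = y⁻¹) : False := by
  obtain ⟨g, hg⟩ := hT
  have hxg := (hg x).mp hx
  have hyg := (hg y).mp hy
  have key : ∀ w : P, w ≠ 1 → ∃ k : ℕ, w ^ k ≠ 1 ∧ (w ^ k) ^ p = 1 := by
    intro w hw
    obtain ⟨n, hn⟩ := (IsPGroup.iff_orderOf.mp hP) w
    have hn0 : n ≠ 0 := by
      rintro rfl
      rw [pow_zero, orderOf_eq_one_iff] at hn
      exact hw hn
    refine ⟨p ^ (n - 1), ?_, ?_⟩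
    · intro h
      have h1 := orderOf_dvd_of_pow_eq_one h
      rw [hn, Nat.pow_dvd_pow_iff_le_right hp.out.one_lt] at h1
      omega
    · rw [← pow_mul, ← pow_succ, show n - 1 + 1 = n by omega, ← hn, pow_orderOf_eq_one]
  obtain ⟨k, hk1, hk2⟩ := key x hx1
  obtain ⟨l, hl1, hl2⟩ := key y hy1
  obtain ⟨j, hj⟩ := Cfsg.Agent.S3761.uniq (T := zpowers g) inferInstance (x := ⟨x ^ k, pow_mem hxg k⟩) (y := ⟨y ^ l, pow_mem hyg l⟩)
    (Subtype.ext hk2) (fun h => hk1 (congrArg Subtype.val h)) (Subtype.ext hl2)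
  have h1 : (x ^ k) ^ j = y ^ l := congrArg Subtype.val hj
  have h2 : S (y ^ l) = y ^ l := by rw [← h1, map_zpow, map_pow, hSx]
  rw [map_pow, hSy, inv_pow] at h2
  exact hl1 (sq1 hodd h2.symm)

end

section
variable {P : Type*} [Group P] [Finite P]

theorem not2 {p : ℕ} [hp : Fact p.Prime] (hodd : Odd (Nat.card P)) (hcomm : ∀ x y : P, x * y = y * x) (a b c : MulAut P) (z1 z2 z3 : P)
    (h1 : z1 ≠ 1) (h2 : z2 ≠ 1) (h3 : z3 ≠ 1) (h1p : z1 ^ p = 1) (h2p : z2 ^ p = 1) (h3p : z3 ^ p = 1)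
    (a1 : a z1 = z1⁻¹) (a2 : a z2 = z2) (a3 : a z3 = z3) (b1 : b z1 = z1) (b2 : b z2 = z2⁻¹) (b3 : b z3 = z3)
    (c1 : c z1 = z1) (c2 : c z2 = z2) (c3 : c z3 = z3⁻¹) (g h : P) (hgen : closure {g, h} = ⊤) : False := by
  classical
  obtain ⟨r, hr⟩ := oddpow hodd
  have hsqinj : ∀ u v : P, u * u = v * v → u = v := by
    intro u v huv
    rw [← hr u, ← hr v, huv]
  have hmp : ∀ (x y : P) (n : ℕ), (x * y) ^ n = x ^ n * y ^ n := fun x y n => (show Commute x y from hcomm x y).mul_pow n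
  let f : P →* P := MonoidHom.mk' (fun x => x ^ p) (fun x y => hmp x y p)
  have hf : ∀ x, f x = x ^ p := fun x => rfl
  -- kernel is large
  have hpinj : ∀ w : P, w ≠ 1 → w ^ p = 1 → ∀ i j : Fin p, w ^ (i : ℕ) = w ^ (j : ℕ) → i = j := by
    intro w hw hwp i j hij
    have ho : orderOf w = p := orderOf_eq_prime hwp hw
    have := pow_injOn_Iio_orderOf (x := w) (by rw [Set.mem_Iio, ho]; exact i.2) (by rw [Set.mem_Iio, ho]; exact j.2) hij
    exact Fin.ext this
  have hker : p ^ 3 ≤ Nat.card f.ker := by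
    let F : Fin p × Fin p × Fin p → f.ker := fun q => ⟨z1 ^ (q.1 : ℕ) * z2 ^ (q.2.1 : ℕ) * z3 ^ (q.2.2 : ℕ), by
      rw [MonoidHom.mem_ker, hf, hmp, hmp, ← pow_mul, ← pow_mul, ← pow_mul, mul_comm _ p, mul_comm _ p, mul_comm _ p, pow_mul, pow_mul,
        pow_mul, h1p, h2p, h3p]
      simp⟩
    have hF : Function.Injective F := by
      rintro ⟨i, j, k⟩ ⟨i', j', k'⟩ hh
      have e0 : z1 ^ (i : ℕ) * z2 ^ (j : ℕ) * z3 ^ (k : ℕ) = z1 ^ (i' : ℕ) * z2 ^ (j' : ℕ) * z3 ^ (k' : ℕ) := congrArg Subtype.val hh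
      have ea := congrArg a e0
      have eb := congrArg b e0
      have ec := congrArg c e0
      simp only [map_mul, map_pow, a1, a2, a3, b1, b2, b3, c1, c2, c3, inv_pow] at ea eb ec
      have q1 : i = i' := by
        apply hpinj z1 h1 h1p
        apply hsqinj
        have e1 : z1 ^ (i : ℕ) * z1 ^ (i : ℕ) = (z1 ^ (i : ℕ) * z2 ^ (j : ℕ) * z3 ^ (k : ℕ)) * ((z1 ^ (i : ℕ))⁻¹ * z2 ^ (j : ℕ) * z3 ^ (k : ℕ))⁻¹ := by
          group
        have e2 : z1 ^ (i' : ℕ) * z1 ^ (i' : ℕ) = (z1 ^ (i' : ℕ) * z2 ^ (j' : ℕ) * z3 ^ (k' : ℕ)) * ((z1 ^ (i' : ℕ))⁻¹ * z2 ^ (j' : ℕ) * z3 ^ (k' : ℕ))⁻¹ := by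
          group
        rw [e1, e2, e0, ea]
      have q2 : j = j' := by
        apply hpinj z2 h2 h2p
        apply hsqinj
        subst q1
        have e3 : z2 ^ (j : ℕ) * z3 ^ (k : ℕ) = z2 ^ (j' : ℕ) * z3 ^ (k' : ℕ) := by
          rw [mul_assoc, mul_assoc] at e0; exact mul_left_cancel e0
        have e4 : (z2 ^ (j : ℕ))⁻¹ * z3 ^ (k : ℕ) = (z2 ^ (j' : ℕ))⁻¹ * z3 ^ (k' : ℕ) := by
          rw [mul_assoc, mul_assoc] at eb; exact mul_left_cancel eb
        have e1 : z2 ^ (j : ℕ) * z2 ^ (j : ℕ) = (z2 ^ (j : ℕ) * z3 ^ (k : ℕ)) * ((z2 ^ (j : ℕ))⁻¹ * z3 ^ (k : ℕ))⁻¹ := by group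
        have e2 : z2 ^ (j' : ℕ) * z2 ^ (j' : ℕ) = (z2 ^ (j' : ℕ) * z3 ^ (k' : ℕ)) * ((z2 ^ (j' : ℕ))⁻¹ * z3 ^ (k' : ℕ))⁻¹ := by group
        rw [e1, e2, e3, e4]
      have q3 : k = k' := by
        apply hpinj z3 h3 h3p
        subst q1
        subst q2
        exact mul_left_cancel e0
      rw [q1, q2, q3]
    have := Nat.card_le_card_of_injective F hF
    rw [Nat.card_prod, Nat.card_prod, Nat.card_fin] at this
    calc p ^ 3 = p * (p * p) := by ring
      _ ≤ _ := this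
  -- quotient by p-th powers is small
  have hidx : f.range.index ≤ p ^ 2 := by
    haveI hn : f.range.Normal := ⟨fun n hn g => by rw [hcomm g n, mul_inv_cancel_right]; exact hn⟩
    have hgp : ∀ (w : P) (m : ℤ), ∃ i : Fin p, ∃ q ∈ f.range, w ^ m = w ^ (i : ℕ) * q := by
      intro w m
      have hp0 : (0 : ℤ) < p := by exact_mod_cast hp.out.pos
      refine ⟨⟨(m % p).toNat, ?_⟩, w ^ (p * (m / p)), ⟨w ^ (m / p), ?_⟩, ?_⟩
      · have h4 := Int.emod_lt_of_pos m hp0
        have h5 := Int.emod_nonneg m hp0.ne'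
        omega
      · rw [hf, ← zpow_natCast, ← zpow_mul, mul_comm]
      · have h5 := Int.emod_nonneg m hp0.ne'
        simp only
        rw [← zpow_natCast, Int.toNat_of_nonneg h5, ← zpow_add, Int.emod_add_mul_ediv]
    let F : Fin p × Fin p → P ⧸ f.range := fun q => ((g ^ (q.1 : ℕ) * h ^ (q.2 : ℕ) : P) : P ⧸ f.range)
    have hF : Function.Surjective F := by
      intro q
      obtain ⟨x, rfl⟩ := QuotientGroup.mk_surjective q
      have hx : x ∈ closure ({g, h} : Set P) := by rw [hgen]; trivial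
      have hxx : ∃ m n : ℤ, x = g ^ m * h ^ n := by
        induction hx using closure_induction with
        | mem y hy =>
          rcases hy with rfl | rfl
          · exact ⟨1, 0, by simp⟩
          · exact ⟨0, 1, by simp⟩
        | one => exact ⟨0, 0, by simp⟩
        | mul y w _ _ hy hw =>
          obtain ⟨m, n, rfl⟩ := hy
          obtain ⟨m', n', rfl⟩ := hw
          refine ⟨m + m', n + n', ?_⟩
          rw [zpow_add, zpow_add]
          calc g ^ m * h ^ n * (g ^ m' * h ^ n') = g ^ m * (h ^ n * g ^ m') * h ^ n' := by group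
            _ = g ^ m * (g ^ m' * h ^ n) * h ^ n' := by rw [hcomm (h ^ n) (g ^ m')]
            _ = _ := by group
        | inv y _ hy =>
          obtain ⟨m, n, rfl⟩ := hy
          refine ⟨-m, -n, ?_⟩
          rw [mul_inv_rev, hcomm, zpow_neg, zpow_neg]
      obtain ⟨m, n, rfl⟩ := hxx
      obtain ⟨i, q1, hq1, e1⟩ := hgp g m
      obtain ⟨j, q2, hq2, e2⟩ := hgp h n
      refine ⟨(i, j), ?_⟩
      change ((g ^ (i : ℕ) * h ^ (j : ℕ) : P) : P ⧸ f.range) = _
      rw [QuotientGroup.eq, e1, e2]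
      have h4 : (g ^ (i : ℕ) * h ^ (j : ℕ))⁻¹ * (g ^ (i : ℕ) * q1 * (h ^ (j : ℕ) * q2)) = q1 * q2 := by
        rw [hcomm (g ^ (i : ℕ)) q1]
        calc (g ^ (i : ℕ) * h ^ (j : ℕ))⁻¹ * (q1 * g ^ (i : ℕ) * (h ^ (j : ℕ) * q2)) = ((g ^ (i : ℕ) * h ^ (j : ℕ))⁻¹ * q1) * (g ^ (i : ℕ) * h ^ (j : ℕ)) * q2 := by group
          _ = (q1 * (g ^ (i : ℕ) * h ^ (j : ℕ))⁻¹) * (g ^ (i : ℕ) * h ^ (j : ℕ)) * q2 := by rw [hcomm _ q1]
          _ = q1 * q2 := by group
      rw [h4]
      exact mul_mem hq1 hq2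
    have h4 := Nat.card_le_card_of_surjective F hF
    rw [Nat.card_prod, Nat.card_fin] at h4
    calc f.range.index = Nat.card (P ⧸ f.range) := rfl
      _ ≤ p * p := h4
      _ = p ^ 2 := by ring
  have h4 : Nat.card f.ker * Nat.card f.range = Nat.card P := by
    rw [← index_ker, card_mul_index]
  have h5 : f.range.index * Nat.card f.range = Nat.card P := index_mul_card _
  rw [← h5] at h4
  have h6 : Nat.card f.ker = f.range.index := Nat.eq_of_mul_eq_mul_right Nat.card_pos h4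
  have h7 : p ^ 3 ≤ p ^ 2 := hker.trans (h6 ▸ hidx)
  have h8 := Nat.pow_lt_pow_right hp.out.one_lt (show 2 < 3 by norm_num)
  omega

end

private lemma ev1 {P : Type*} [Group P] (a b c : MulAut P) (x : P) (ha : a x = x⁻¹) (hb : b x = x) (hc : c x = x)
    (i j k : Bool) : ((if i then a else 1) * (if j then b else 1) * (if k then c else 1)) x = if i then x⁻¹ else x := by
  rw [MulAut.mul_apply, MulAut.mul_apply]
  have h1 : (if k then c else 1 : MulAut P) x = x := by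
    cases k
    · rfl
    · exact hc
  have h2 : (if j then b else 1 : MulAut P) x = x := by
    cases j
    · rfl
    · exact hb
  rw [h1, h2]
  cases i
  · rfl
  · exact ha

private lemma ev2 {P : Type*} [Group P] (a b c : MulAut P) (x : P) (ha : a x = x) (hb : b x = x⁻¹) (hc : c x = x)
    (i j k : Bool) : ((if i then a else 1) * (if j then b else 1) * (if k then c else 1)) x = if j then x⁻¹ else x := by
  rw [MulAut.mul_apply, MulAut.mul_apply]
  have h1 : (if k then c else 1 : MulAut P) x = x := by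
    cases k
    · rfl
    · exact hc
  have h2 : (if i then a else 1 : MulAut P) x = x := by
    cases i
    · rfl
    · exact ha
  have h3 : (if i then a else 1 : MulAut P) x⁻¹ = x⁻¹ := by rw [map_inv, h2]
  rw [h1]
  cases j
  · exact h2
  · change (if i then a else 1 : MulAut P) (b x) = x⁻¹
    rw [hb, h3]

private lemma ev3 {P : Type*} [Group P] (a b c : MulAut P) (x : P) (ha : a x = x) (hb : b x = x) (hc : c x = x⁻¹)
    (i j k : Bool) : ((if i then a else 1) * (if j then b else 1) * (if k then c else 1)) x = if k then x⁻¹ else x := by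
  rw [MulAut.mul_apply, MulAut.mul_apply]
  have h1 : (if j then b else 1 : MulAut P) x = x := by
    cases j
    · rfl
    · exact hb
  have h2 : (if i then a else 1 : MulAut P) x = x := by
    cases i
    · rfl
    · exact ha
  have h1' : (if j then b else 1 : MulAut P) x⁻¹ = x⁻¹ := by rw [map_inv, h1]
  have h3 : (if i then a else 1 : MulAut P) x⁻¹ = x⁻¹ := by rw [map_inv, h2]
  cases k
  · change (if i then a else 1 : MulAut P) ((if j then b else 1 : MulAut P) x) = x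
    rw [h1, h2]
  · change (if i then a else 1 : MulAut P) ((if j then b else 1 : MulAut P) (c x)) = x⁻¹
    rw [hc, h1', h3]

private lemma bool_of {P : Type*} [Group P] (x : P) (hx : x ≠ x⁻¹) (i i' : Bool)
    (h : (if i then x⁻¹ else x) = (if i' then x⁻¹ else x)) : i = i' := by
  cases i <;> cases i'
  · rfl
  · exact absurd h hx
  · exact absurd h.symm hx
  · rfl

set_option maxHeartbeats 4000000

/-- Let p be an odd prime, P a finite p-group and I an elementary abelian subgroup of order 8 of Aut(P). Call T ∈ I, T ≠ 1, broad when its fixed-point subgroup C_P(T) is not cyclic. Suppose I has a proper subgroup I₀ containing no broad element such that the product of any two broad elements lies in I₀. Then P is abelian of rank exactly 3 (generated by three elements but not by two), there are exactly three broad elements and they generate I, and I₀ is exactly the set of products of two broad elements. -/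
theorem result
    {P : Type*} [Group P] [Finite P] (p : ℕ) (hp : p.Prime) (hp2 : p ≠ 2) (hP : IsPGroup p P)
    (I : Subgroup (MulAut P)) (hI : Cfsg.IsElementaryAbelian 2 I) (hI8 : Nat.card ↥I = 8)
    (I₀ : Subgroup (MulAut P)) (hI₀ : I₀ < I)
    (hdisj : ∀ T ∈ I₀, T ≠ 1 → ∃ g : P, ∀ x : P, (T x = x ↔ x ∈ Subgroup.zpowers g))
    (hprod : ∀ T ∈ I, ∀ T' ∈ I, T ≠ 1 → T' ≠ 1 → (¬ ∃ g : P, ∀ x : P, (T x = x ↔ x ∈ Subgroup.zpowers g)) →
      (¬ ∃ g : P, ∀ x : P, (T' x = x ↔ x ∈ Subgroup.zpowers g)) → T * T' ∈ I₀) :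
    IsMulCommutative P ∧ (∃ a b c : P, Subgroup.closure {a, b, c} = ⊤) ∧ (¬ ∃ a b : P, Subgroup.closure {a, b} = ⊤) ∧
      Nat.card {T : MulAut P // T ∈ I ∧ T ≠ 1 ∧ ¬ ∃ g : P, ∀ x : P, (T x = x ↔ x ∈ Subgroup.zpowers g)} = 3 ∧
      Subgroup.closure {T : MulAut P | T ∈ I ∧ T ≠ 1 ∧ ¬ ∃ g : P, ∀ x : P, (T x = x ↔ x ∈ Subgroup.zpowers g)} = I ∧
      (I₀ : Set (MulAut P)) = {S : MulAut P | ∃ T T' : MulAut P, T ∈ I ∧ T' ∈ I ∧ T ≠ 1 ∧ T' ≠ 1 ∧
        (¬ ∃ g : P, ∀ x : P, (T x = x ↔ x ∈ Subgroup.zpowers g)) ∧ (¬ ∃ g : P, ∀ x : P, (T' x = x ↔ x ∈ Subgroup.zpowers g)) ∧ S = T * T'} := by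
  classical
  haveI : Fact p.Prime := ⟨hp⟩
  haveI : Fact (Nat.Prime 2) := ⟨Nat.prime_two⟩
  have hodd : Odd (Nat.card P) := by
    obtain ⟨n, hn⟩ := hP.exists_card_eq
    rw [hn]
    exact (hp.odd_of_ne_two hp2).pow
  have hII : ∀ T ∈ I, T * T = 1 := fun T hT => by
    have := hI.2 T hT
    rwa [pow_two] at this
  have hI1 : ∀ T ∈ I, ∀ x, T (T x) = x := fun T hT x => by rw [← MulAut.mul_apply, hII T hT, MulAut.one_apply]
  have hIcm : ∀ S ∈ I, ∀ T ∈ I, S * T = T * S := fun S hS T hT =>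
    congrArg Subtype.val (hI.1.is_comm.comm (⟨S, hS⟩ : I) ⟨T, hT⟩)
  have hIc : ∀ S ∈ I, ∀ T ∈ I, ∀ x, S (T x) = T (S x) := fun S hS T hT x => by
    rw [← MulAut.mul_apply, hIcm S hS T hT, MulAut.mul_apply]
  have hI2 : IsPGroup 2 I := IsPGroup.of_card (n := 3) (by rw [hI8]; norm_num)
  have hinv : ∀ x : P, x ≠ 1 → x ≠ x⁻¹ := fun x hx h => hx (sq1 hodd h)
  have L1 := lem1 hP hodd I hI1 hIc hI2
  have hnar0 : ∀ T ∈ I₀, T ≠ 1 → Nar T := hdisj
  have hI0I : I₀ ≤ I := hI₀.le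
  have hpr : ∀ T ∈ I, ∀ T' ∈ I, T ≠ 1 → T' ≠ 1 → ¬ Nar T → ¬ Nar T' → T * T' ∈ I₀ := hprod
  -- a nontrivial element of I moves some eigen-element
  have hmove : ∀ T ∈ I, T ≠ 1 → ∃ x, Eig I x ∧ T x = x⁻¹ ∧ x ≠ 1 := by
    intro T hT hT1
    by_contra hcon
    push Not at hcon
    apply hT1
    have h1 : (⊤ : Subgroup P) ≤ T.toMonoidHom.eqLocus (MonoidHom.id P) := by
      apply L1 ⊤ _ (fun _ _ _ _ => trivial)
      intro x _ hx
      change T x = x
      rcases hx T hT with h | h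
      · exact h
      · have h2 := hcon x hx h
        rw [h2, map_one]
    ext x
    have h2 : x ∈ T.toMonoidHom.eqLocus (MonoidHom.id P) := h1 trivial
    exact h2
  -- narrow elements
  have hN : ∀ T ∈ I, ∀ x y, Eig I x → Eig I y → x ≠ 1 → y ≠ 1 → T x = x → T y = y → ∀ S ∈ I, S x = x → S y = y⁻¹ → ¬ Nar T :=
    fun T _ x y _ _ hx1 hy1 hx hy S _ hSx hSy hT => lemN hP hodd T hT hx1 hy1 hx hy S hSx hSy
  obtain ⟨T0, hT0, hT01⟩ : ∃ T ∈ I, T ≠ 1 := by
    by_contra hcon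
    push Not at hcon
    have h1 : I = ⊥ := (eq_bot_iff_forall I).mpr hcon
    rw [h1, card_bot] at hI8
    omega
  -- kernels of signs
  have hker : ∀ y, y ≠ 1 → Eig I y → (∃ T ∈ I, T y = y⁻¹) → ∃ S ∈ I, ∃ T ∈ I, S ≠ 1 ∧ T ≠ 1 ∧ S ≠ T ∧ S y = y ∧ T y = y := by
    rintro y hy1 hy ⟨T, hT, hTy⟩
    let J : Subgroup I :=
      { carrier := {T | (T : MulAut P) y = y}
        one_mem' := rfl
        mul_mem' := fun {a b} ha hb => by
          change (a : MulAut P) ((b : MulAut P) y) = y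
          rw [show (b : MulAut P) y = y from hb]; exact ha
        inv_mem' := fun {a} ha => by
          change (a : MulAut P)⁻¹ y = y
          exact (MulEquiv.symm_apply_eq (a : MulAut P)).mpr (show (a : MulAut P) y = y from ha).symm }
    have hJm : ∀ U : I, U ∈ J ↔ (U : MulAut P) y = y := fun U => Iff.rfl
    have hJ : J.index = 2 := by
      rw [index_eq_two_iff]
      refine ⟨⟨T, hT⟩, fun U => ?_⟩
      rw [hJm, hJm]
      change Xor' (((U : MulAut P) * T) y = y) ((U : MulAut P) y = y)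
      rw [MulAut.mul_apply, hTy, map_inv]
      rcases hy U U.2 with h | h
      · rw [h]
        exact Or.inr ⟨rfl, fun h2 => hinv y hy1 h2.symm⟩
      · rw [h, inv_inv]
        exact Or.inl ⟨rfl, fun h2 => hinv y hy1 h2.symm⟩
    have hJc : Nat.card J = 4 := by
      have h1 := J.index_mul_card
      rw [hJ, hI8] at h1
      omega
    obtain ⟨S1, hS1, hS11⟩ : ∃ S ∈ J, S ≠ 1 := by
      by_contra hcon
      push Not at hcon
      rw [(eq_bot_iff_forall J).mpr hcon, card_bot] at hJc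
      omega
    obtain ⟨S2, hS2, hS21, hS22⟩ : ∃ S ∈ J, S ≠ 1 ∧ S ≠ S1 := by
      by_contra hcon
      push Not at hcon
      have h1 : (J : Set I) ⊆ {1, S1} := by
        intro U hU
        by_cases hU1 : U = 1
        · exact Or.inl hU1
        · exact Or.inr (hcon U hU hU1)
      have h2 := Set.ncard_le_ncard h1 (Set.toFinite _)
      have h3 : (J : Set I).ncard = 4 := by rw [← Nat.card_coe_set_eq]; exact hJc
      have h4 : ({1, S1} : Set I).ncard ≤ 2 := Set.ncard_insert_le _ _ |>.trans (by rw [Set.ncard_singleton])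
      omega
    exact ⟨S1, S1.2, S2, S2.2, fun h => hS11 (Subtype.ext h), fun h => hS21 (Subtype.ext h),
      fun h => hS22 (Subtype.ext h).symm, hS1, hS2⟩
  have hne1 : ∀ T : MulAut P, ∀ x : P, x ≠ 1 → T x = x⁻¹ → T ≠ 1 := by
    rintro T x hx h rfl
    exact hinv x hx h
  -- no nontrivial element fixed by I
  have hD : ∀ x, Eig I x → x ≠ 1 → ∃ T ∈ I, T x = x⁻¹ := by
    intro x hx hx1
    by_contra hcon
    push Not at hcon
    have hfix : ∀ T ∈ I, T x = x := fun T hT => (hx T hT).resolve_right (hcon T hT)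
    obtain ⟨y, hy, hTy, hy1⟩ := hmove T0 hT0 hT01
    obtain ⟨S, hS, T, hT, hS1, hT1, hST, hSy, hTy'⟩ := hker y hy1 hy ⟨T0, hT0, hTy⟩
    have hb : ∀ W ∈ I, W y = y → ¬ Nar W := fun W hW hWy =>
      hN W hW x y hx hy hx1 hy1 (hfix W hW) hWy T0 hT0 (hfix T0 hT0) hTy
    have h1 := hpr S hS T hT hS1 hT1 (hb S hS hSy) (hb T hT hTy')
    apply hb (S * T) (mul_mem hS hT) (by rw [MulAut.mul_apply, hTy', hSy])
    apply hnar0 _ h1
    intro h2
    apply hST
    have h3 := hII T hT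
    rw [← h2] at h3
    exact (mul_right_cancel h3).symm
  obtain ⟨x1, hx1, hT01', hx11⟩ := hmove T0 hT0 hT01
  obtain ⟨u, hu, v, hv, hu1, hv1, huv, hux, hvx⟩ := hker x1 hx11 hx1 ⟨T0, hT0, hT01'⟩
  obtain ⟨x2, hx2, hux2, hx21⟩ := hmove u hu hu1
  obtain ⟨c, hc, hc1, hc2, hcn⟩ : ∃ c ∈ I, c x1 = x1 ∧ c x2 = x2 ∧ c ≠ 1 := by
    rcases hx2 v hv with h | h
    · exact ⟨v, hv, hvx, h, hv1⟩
    · refine ⟨u * v, mul_mem hu hv, by rw [MulAut.mul_apply, hvx, hux], by rw [MulAut.mul_apply, h, map_inv, hux2, inv_inv], ?_⟩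
      intro h2
      apply huv
      have h3 := hII v hv
      rw [← h2] at h3
      exact (mul_right_cancel h3).symm
  obtain ⟨x3, hx3, hc3, hx31⟩ := hmove c hc hcn
  obtain ⟨b, hb, hb1, hb2, hb3⟩ : ∃ b ∈ I, b x1 = x1 ∧ b x2 = x2⁻¹ ∧ b x3 = x3 := by
    rcases hx3 u hu with h | h
    · exact ⟨u, hu, hux, hux2, h⟩
    · exact ⟨c * u, mul_mem hc hu, by rw [MulAut.mul_apply, hux, hc1], by rw [MulAut.mul_apply, hux2, map_inv, hc2],
        by rw [MulAut.mul_apply, h, map_inv, hc3, inv_inv]⟩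
  obtain ⟨a', ha', ha'1, ha'2⟩ : ∃ a ∈ I, a x1 = x1⁻¹ ∧ a x2 = x2 := by
    rcases hx2 T0 hT0 with h | h
    · exact ⟨T0, hT0, hT01', h⟩
    · exact ⟨b * T0, mul_mem hb hT0, by rw [MulAut.mul_apply, hT01', map_inv, hb1], by rw [MulAut.mul_apply, h, map_inv, hb2, inv_inv]⟩
  obtain ⟨a, ha, ha1, ha2, ha3⟩ : ∃ a ∈ I, a x1 = x1⁻¹ ∧ a x2 = x2 ∧ a x3 = x3 := by
    rcases hx3 a' ha' with h | h
    · exact ⟨a', ha', ha'1, ha'2, h⟩
    · exact ⟨c * a', mul_mem hc ha', by rw [MulAut.mul_apply, ha'1, map_inv, hc1], by rw [MulAut.mul_apply, ha'2, hc2],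
        by rw [MulAut.mul_apply, h, map_inv, hc3, inv_inv]⟩
  have han := hne1 a x1 hx11 ha1
  have hbn := hne1 b x2 hx21 hb2
  have hcn := hne1 c x3 hx31 hc3
  -- classification of I
  have hcls : ∀ T ∈ I, ∃ i j k : Bool, T = (if i then a else 1) * (if j then b else 1) * (if k then c else 1) := by
    let F : Bool × Bool × Bool → I := fun q => ⟨(if q.1 then a else 1) * (if q.2.1 then b else 1) * (if q.2.2 then c else 1), by
      refine mul_mem (mul_mem ?_ ?_) ?_
      · split_ifs; exacts [ha, one_mem _]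
      · split_ifs; exacts [hb, one_mem _]
      · split_ifs; exacts [hc, one_mem _]⟩
    have hF : Function.Injective F := by
      rintro ⟨i, j, k⟩ ⟨i', j', k'⟩ hh
      have e0 : (if i then a else 1) * (if j then b else 1) * (if k then c else 1) =
        (if i' then a else 1) * (if j' then b else 1) * (if k' then c else 1) := congrArg Subtype.val hh
      have e1 := congrArg (fun T : MulAut P => T x1) e0
      have e2 := congrArg (fun T : MulAut P => T x2) e0
      have e3 := congrArg (fun T : MulAut P => T x3) e0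
      have g1 : i = i' := by
        apply bool_of x1 (hinv x1 hx11)
        rw [← ev1 a b c x1 ha1 hb1 hc1 i j k, ← ev1 a b c x1 ha1 hb1 hc1 i' j' k']
        exact e1
      have g2 : j = j' := by
        apply bool_of x2 (hinv x2 hx21)
        rw [← ev2 a b c x2 ha2 hb2 hc2 i j k, ← ev2 a b c x2 ha2 hb2 hc2 i' j' k']
        exact e2
      have g3 : k = k' := by
        apply bool_of x3 (hinv x3 hx31)
        rw [← ev3 a b c x3 ha3 hb3 hc3 i j k, ← ev3 a b c x3 ha3 hb3 hc3 i' j' k']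
        exact e3
      rw [g1, g2, g3]
    have hFb := hF.bijective_of_nat_card_le (by
      rw [hI8, Nat.card_prod, Nat.card_prod, Nat.card_eq_fintype_card, Fintype.card_bool])
    intro T hT
    obtain ⟨⟨i, j, k⟩, h⟩ := hFb.2 ⟨T, hT⟩
    exact ⟨i, j, k, (congrArg Subtype.val h).symm⟩
  have hab := mul_mem ha hb
  have hac := mul_mem ha hc
  have hbc := mul_mem hb hc
  have hBa : ¬ Nar a := hN a ha x3 x2 hx3 hx2 hx31 hx21 ha3 ha2 b hb hb3 hb2
  have hBb : ¬ Nar b := hN b hb x3 x1 hx3 hx1 hx31 hx11 hb3 hb1 a ha ha3 ha1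
  have hBc : ¬ Nar c := hN c hc x2 x1 hx2 hx1 hx21 hx11 hc2 hc1 a ha ha2 ha1
  have hab0 := hpr a ha b hb han hbn hBa hBb
  have hac0 := hpr a ha c hc han hcn hBa hBc
  have hbc0 := hpr b hb c hc hbn hcn hBb hBc
  have habn : a * b ≠ 1 := hne1 (a * b) x1 hx11 (by rw [MulAut.mul_apply, hb1, ha1])
  have hacn : a * c ≠ 1 := hne1 (a * c) x1 hx11 (by rw [MulAut.mul_apply, hc1, ha1])
  have hbcn : b * c ≠ 1 := hne1 (b * c) x2 hx21 (by rw [MulAut.mul_apply, hc2, hb2])
  have hNab := hnar0 _ hab0 habn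
  have hNac := hnar0 _ hac0 hacn
  have hNbc := hnar0 _ hbc0 hbcn
  -- eigen-elements
  have hE : ∀ y, Eig I y → y ≠ 1 → (a y = y⁻¹ ∧ b y = y ∧ c y = y) ∨ (a y = y ∧ b y = y⁻¹ ∧ c y = y) ∨ (a y = y ∧ b y = y ∧ c y = y⁻¹) := by
    intro y hy hy1
    have k1 : a y = y⁻¹ → b y = y⁻¹ → False := by
      intro h1 h2
      exact hN (a * b) hab x3 y hx3 hy hx31 hy1 (by rw [MulAut.mul_apply, hb3, ha3]) (by rw [MulAut.mul_apply, h2, map_inv, h1, inv_inv])
        a ha ha3 h1 hNab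
    have k2 : a y = y⁻¹ → c y = y⁻¹ → False := by
      intro h1 h2
      exact hN (a * c) hac x2 y hx2 hy hx21 hy1 (by rw [MulAut.mul_apply, hc2, ha2]) (by rw [MulAut.mul_apply, h2, map_inv, h1, inv_inv])
        a ha ha2 h1 hNac
    have k3 : b y = y⁻¹ → c y = y⁻¹ → False := by
      intro h1 h2
      exact hN (b * c) hbc x1 y hx1 hy hx11 hy1 (by rw [MulAut.mul_apply, hc1, hb1]) (by rw [MulAut.mul_apply, h2, map_inv, h1, inv_inv])
        b hb hb1 h1 hNbc
    rcases hy a ha with h1 | h1 <;> rcases hy b hb with h2 | h2 <;> rcases hy c hc with h3 | h3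
    · exfalso
      obtain ⟨T, hT, hTy⟩ := hD y hy hy1
      obtain ⟨i, j, k, rfl⟩ := hcls T hT
      apply hinv y hy1
      rw [← hTy]
      cases i <;> cases j <;> cases k <;> simp [MulAut.mul_apply, h1, h2, h3]
    · exact Or.inr (Or.inr ⟨h1, h2, h3⟩)
    · exact Or.inr (Or.inl ⟨h1, h2, h3⟩)
    · exact absurd (k3 h2 h3) id
    · exact Or.inl ⟨h1, h2, h3⟩
    · exact absurd (k2 h1 h3) id
    · exact absurd (k1 h1 h2) id
    · exact absurd (k1 h1 h2) id
  obtain ⟨t, ht⟩ : ∃ t, t = a * b * c := ⟨_, rfl⟩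
  have htI : t ∈ I := by rw [ht]; exact mul_mem hab hc
  have hty : ∀ y, Eig I y → y ≠ 1 → t y = y⁻¹ := by
    intro y hy hy1
    rw [ht, MulAut.mul_apply, MulAut.mul_apply]
    rcases hE y hy hy1 with ⟨h1, h2, h3⟩ | ⟨h1, h2, h3⟩ | ⟨h1, h2, h3⟩
    · rw [h3, h2, h1]
    · rw [h3, h2, map_inv, h1]
    · rw [h3, map_inv, h2, map_inv, h1]
  have htfix : ∀ x, t x = x → x = 1 := by
    have h1 := L1 (t.toMonoidHom.eqLocus (MonoidHom.id P)) ⊥ (by
      intro T hT x hx
      change t (T x) = T x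
      rw [hIc t htI T hT]
      exact congrArg T (show t x = x from hx)) (by
      intro x hx hxe
      rw [mem_bot]
      by_contra hx1
      have h2 := hty x hxe hx1
      rw [show t x = x from hx] at h2
      exact hinv x hx1 h2)
    intro x hx
    exact mem_bot.mp (h1 (show x ∈ t.toMonoidHom.eqLocus (MonoidHom.id P) from hx))
  have htinv : ∀ x, t x = x⁻¹ := by
    intro x
    obtain ⟨c', i, -, -, h1, h2, h3⟩ := half hodd t (hI1 t htI) ⊤ (fun _ _ => trivial) x trivial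
    rw [htfix c' h1, one_mul] at h3
    rw [h3, h2]
  have hcomm : ∀ x y : P, x * y = y * x := by
    intro x y
    have h1 : t (y⁻¹ * x⁻¹) = t y⁻¹ * t x⁻¹ := map_mul _ _ _
    rw [htinv, htinv, htinv, inv_inv, inv_inv, mul_inv_rev, inv_inv, inv_inv] at h1
    exact h1
  have hNt : Nar t := ⟨1, fun x => by
    rw [zpowers_one_eq_bot, mem_bot]
    exact ⟨htfix x, fun h => by rw [h, map_one]⟩⟩
  have hbset : ∀ T : MulAut P, (T ∈ I ∧ T ≠ 1 ∧ ¬ Nar T) ↔ (T = a ∨ T = b ∨ T = c) := by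
    intro T
    constructor
    · rintro ⟨hT, hT1, hTN⟩
      obtain ⟨i, j, k, h⟩ := hcls T hT
      cases i <;> cases j <;> cases k <;> simp only [if_true, if_false, one_mul, mul_one, Bool.false_eq_true] at h
      · exact absurd h hT1
      · exact Or.inr (Or.inr h)
      · exact Or.inr (Or.inl h)
      · exact absurd (h ▸ hNbc) hTN
      · exact Or.inl h
      · exact absurd (h ▸ hNac) hTN
      · exact absurd (h ▸ hNab) hTN
      · exact absurd (h ▸ ht ▸ hNt) hTN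
    · rintro (rfl | rfl | rfl)
      · exact ⟨ha, han, hBa⟩
      · exact ⟨hb, hbn, hBb⟩
      · exact ⟨hc, hcn, hBc⟩
  have hab' : a ≠ b := by
    rintro rfl
    exact hinv x1 hx11 (hb1.symm.trans ha1)
  have hac' : a ≠ c := by
    rintro rfl
    exact hinv x1 hx11 (hc1.symm.trans ha1)
  have hbc' : b ≠ c := by
    rintro rfl
    exact hinv x2 hx21 (hc2.symm.trans hb2)
  have hbseteq : {T : MulAut P | T ∈ I ∧ T ≠ 1 ∧ ¬ Nar T} = {a, b, c} := by
    ext T
    rw [Set.mem_setOf_eq, hbset]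
    rfl
  refine ⟨⟨⟨hcomm⟩⟩, ?_, ?_, ?_, ?_, ?_⟩
  · obtain ⟨g1, hg1⟩ := hNbc
    obtain ⟨g2, hg2⟩ := hNac
    obtain ⟨g3, hg3⟩ := hNab
    refine ⟨g1, g2, g3, ?_⟩
    rw [eq_top_iff]
    apply L1 ⊤ _ (fun _ _ _ _ => trivial)
    intro y _ hy
    by_cases hy1 : y = 1
    · rw [hy1]; exact one_mem _
    · rcases hE y hy hy1 with ⟨h1, h2, h3⟩ | ⟨h1, h2, h3⟩ | ⟨h1, h2, h3⟩
      · have h4 := (hg1 y).mp (by rw [MulAut.mul_apply, h3, h2])
        exact (zpowers_le.mpr (subset_closure (by simp))) h4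
      · have h4 := (hg2 y).mp (by rw [MulAut.mul_apply, h3, h1])
        exact (zpowers_le.mpr (subset_closure (by simp))) h4
      · have h4 := (hg3 y).mp (by rw [MulAut.mul_apply, h2, h1])
        exact (zpowers_le.mpr (subset_closure (by simp))) h4
  · rintro ⟨g, h, hgh⟩
    have key : ∀ w : P, w ≠ 1 → ∃ k : ℕ, w ^ k ≠ 1 ∧ (w ^ k) ^ p = 1 := by
      intro w hw
      obtain ⟨n, hn⟩ := (IsPGroup.iff_orderOf.mp hP) w
      have hn0 : n ≠ 0 := by
        rintro rfl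
        rw [pow_zero, orderOf_eq_one_iff] at hn
        exact hw hn
      refine ⟨p ^ (n - 1), ?_, ?_⟩
      · intro h
        have h1 := orderOf_dvd_of_pow_eq_one h
        rw [hn, Nat.pow_dvd_pow_iff_le_right hp.one_lt] at h1
        omega
      · rw [← pow_mul, ← pow_succ, show n - 1 + 1 = n by omega, ← hn, pow_orderOf_eq_one]
    obtain ⟨k1, e1, f1⟩ := key x1 hx11
    obtain ⟨k2, e2, f2⟩ := key x2 hx21
    obtain ⟨k3, e3, f3⟩ := key x3 hx31
    exact not2 (p := p) hodd hcomm a b c (x1 ^ k1) (x2 ^ k2) (x3 ^ k3) e1 e2 e3 f1 f2 f3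
      (by rw [map_pow, ha1, inv_pow]) (by rw [map_pow, ha2]) (by rw [map_pow, ha3])
      (by rw [map_pow, hb1]) (by rw [map_pow, hb2, inv_pow]) (by rw [map_pow, hb3])
      (by rw [map_pow, hc1]) (by rw [map_pow, hc2]) (by rw [map_pow, hc3, inv_pow]) g h hgh
  · change Nat.card {T : MulAut P | T ∈ I ∧ T ≠ 1 ∧ ¬ Nar T} = 3
    rw [hbseteq, Nat.card_coe_set_eq, Set.ncard_insert_of_notMem, Set.ncard_insert_of_notMem, Set.ncard_singleton]
    · rw [Set.mem_singleton_iff]; exact hbc'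
    · simp only [Set.mem_insert_iff, Set.mem_singleton_iff, not_or]; exact ⟨hab', hac'⟩
  · change closure {T : MulAut P | T ∈ I ∧ T ≠ 1 ∧ ¬ Nar T} = I
    rw [hbseteq]
    apply le_antisymm
    · rw [closure_le]
      rintro T (rfl | rfl | rfl)
      · exact ha
      · exact hb
      · exact hc
    · intro T hT
      obtain ⟨i, j, k, rfl⟩ := hcls T hT
      refine mul_mem (mul_mem ?_ ?_) ?_
      · split_ifs
        · exact subset_closure (by simp)
        · exact one_mem _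
      · split_ifs
        · exact subset_closure (by simp)
        · exact one_mem _
      · split_ifs
        · exact subset_closure (by simp)
        · exact one_mem _
  · change (I₀ : Set (MulAut P)) = {S : MulAut P | ∃ T T' : MulAut P, T ∈ I ∧ T' ∈ I ∧ T ≠ 1 ∧ T' ≠ 1 ∧ ¬ Nar T ∧ ¬ Nar T' ∧ S = T * T'}
    ext S
    rw [SetLike.mem_coe, Set.mem_setOf_eq]
    constructor
    · intro hS
      obtain ⟨i, j, k, h⟩ := hcls S (hI0I hS)
      cases i <;> cases j <;> cases k <;> simp only [if_true, if_false, one_mul, mul_one, Bool.false_eq_true] at h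
      · exact ⟨a, a, ha, ha, han, han, hBa, hBa, by rw [h, hII a ha]⟩
      · exact absurd (hnar0 S hS (h ▸ hcn)) (h ▸ hBc)
      · exact absurd (hnar0 S hS (h ▸ hbn)) (h ▸ hBb)
      · exact ⟨b, c, hb, hc, hbn, hcn, hBb, hBc, h⟩
      · exact absurd (hnar0 S hS (h ▸ han)) (h ▸ hBa)
      · exact ⟨a, c, ha, hc, han, hcn, hBa, hBc, h⟩
      · exact ⟨a, b, ha, hb, han, hbn, hBa, hBb, h⟩
      · exfalso
        have h2 := mul_mem (inv_mem hab0) hS
        rw [h, inv_mul_cancel_left] at h2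
        exact hBc (hnar0 c h2 hcn)
    · rintro ⟨T, T', hT, hT', hT1, hT1', hTN, hTN', rfl⟩
      exact hpr T hT T' hT' hT1 hT1' hTN hTN'

end Cfsg.Agent.S4412
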