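import Cfsg.Statements.S4413
import Cfsg.Agent.LibExS5

set_option autoImplicit false
open Cfsg

namespace Cfsg.Agent.S4413

/-- Let P be an extraspecial 2-group of order 32 with no elementary abelian subgroup of order 8 (the central product of a dihedral and a quaternion group of order 8). Then the inner automorphism group of P has order 16 and the outer automorphism group Aut(P)/Inn(P) is isomorphic to the symmetric group of degree 5; in particular Aut(P) has order 1920. -/
theorem result {P : Type*} [Group P] [Finite P]
    (hex : Cfsg.IsExtraspecial 2 P) (h32 : Nat.card P = 32)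
    (hminus : ∀ A : Subgroup P, Cfsg.IsElementaryAbelian 2 A → Nat.card ↥A ≤ 4)
    [(MulAut.conj : P →* MulAut P).range.Normal] :
    Nat.card ↥(MulAut.conj : P →* MulAut P).range = 16 ∧ Nat.card (MulAut P) = 1920 ∧
      Nonempty ((MulAut P ⧸ (MulAut.conj : P →* MulAut P).range) ≃* Equiv.Perm (Fin 5)) := by
  obtain ⟨m, t, hm, hc, ht⟩ := CfsgLib.ExForm.exists_hasType hex
  have hm2 : m = 2 := by
    rw [h32] at hc
    have h1 : 2 ^ 5 = 2 ^ (2 * m + 1) := by rw [← hc]; norm_num
    have := Nat.pow_right_injective (le_refl 2) h1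
    omega
  subst hm2
  have h0 : t = 1 := by
    apply CfsgLib.QuadF2.eq_one_of_ne
    intro h1
    obtain ⟨A, hA, hAc⟩ := (ht.eq_zero_iff hm).mp h1
    have := hminus A hA
    rw [hAc] at this
    norm_num at this
  subst h0
  obtain ⟨e⟩ := CfsgLib.ExForm.out_of_type hex ht
  have e2 : (MulAut P ⧸ (MulAut.conj : P →* MulAut P).range) ≃* Equiv.Perm (Fin 5) :=
    e.trans CfsgLib.ExForm.isoS5.symm
  have hInn : Nat.card ↥(MulAut.conj : P →* MulAut P).range = 16 := by
    have h1 : (MulAut.conj : P →* MulAut P).ker = Subgroup.center P := by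
      ext x
      rw [MonoidHom.mem_ker, Subgroup.mem_center_iff]
      constructor
      · intro h g
        have h2 : (MulAut.conj x) g = g := by rw [h]; rfl
        rw [MulAut.conj_apply] at h2
        calc g * x = (x * g * x⁻¹) * x := by rw [h2]
          _ = x * g := by group
      · intro h
        ext g
        rw [MulAut.conj_apply, ← h g]
        simp
    have h2 := (MulAut.conj : P →* MulAut P).ker.card_mul_index
    rw [Subgroup.index_ker, h1, hex.2, h32] at h2
    omega
  refine ⟨hInn, ?_, ⟨e2⟩⟩
  have h3 := (MulAut.conj : P →* MulAut P).range.card_mul_index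
  rw [hInn, Subgroup.index_eq_card, Nat.card_congr e2.toEquiv, Nat.card_perm, Nat.card_fin] at h3
  rw [← h3]
  rfl

end Cfsg.Agent.S4413
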