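import Cfsg.Statements.S4417
import Mathlib
import Cfsg.Agent.LibH7Der

set_option autoImplicit false
open Cfsg

namespace Cfsg.Agent.S4417

open CfsgLib.H7Der
open scoped commutatorElement

/-- an irreducible submodule on which a `p`-group acts non-trivially: some element acts as a scalar of order `p` -/
theorem exists_scalar {Γ : Type*} [Group Γ] [Finite Γ] {K : Type*} [Field K] [IsAlgClosed K] {V : Type*} [AddCommGroup V]
    [Module K V] [FiniteDimensional K V] (ρ : Γ →* Module.End K V) {p : ℕ} [hp : Fact p.Prime] (hΓ : IsPGroup p Γ)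
    {U : Submodule K V} (hU : Irr ρ ⊤ U) (hnt : ¬ ∀ x : Γ, ∀ u ∈ U, ρ x u = u) :
    ∃ z : Γ, ∃ c : K, orderOf c = p ∧ ∀ u ∈ U, ρ z u = c • u := by
  classical
  let T : Subgroup Γ :=
    { carrier := {x | ∀ u ∈ U, ρ x u = u}
      one_mem' := fun u _ => by rw [map_one]; rfl
      mul_mem' := by
        intro x y hx hy u hu
        rw [rho_mul, hy u hu, hx u hu]
      inv_mem' := by
        intro x hx u hu
        have := rho_inv ρ x u
        rwa [hx u hu] at this }
  have hnil : Group.IsNilpotent (⊤ : Subgroup Γ) := (hΓ.to_subgroup ⊤).isNilpotent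
  obtain ⟨n, hn⟩ := (Subgroup.isNilpotent_iff_lowerCentralSeries _).1 hnil
  have hex : ∃ n, (⊤ : Subgroup Γ).lowerCentralSeries n ≤ T := ⟨n, by rw [hn]; exact bot_le⟩
  obtain ⟨m, hm⟩ : ∃ m, m = Nat.find hex := ⟨_, rfl⟩
  have hm1 : (⊤ : Subgroup Γ).lowerCentralSeries m ≤ T := by rw [hm]; exact Nat.find_spec hex
  have hm0 : m ≠ 0 := by
    rintro rfl
    exact hnt (fun x => hm1 (Subgroup.mem_top x))
  obtain ⟨k, rfl⟩ := Nat.exists_eq_succ_of_ne_zero hm0
  have hk : ¬ (⊤ : Subgroup Γ).lowerCentralSeries k ≤ T := Nat.find_min hex (by rw [← hm]; exact Nat.lt_succ_self k)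
  obtain ⟨a, ha, haT⟩ := SetLike.not_le_iff_exists.1 hk
  have hcom : ∀ x : Γ, ⁅a, x⁆ ∈ T := by
    intro x
    apply hm1
    rw [Subgroup.lowerCentralSeries_succ]
    exact Subgroup.commutator_mem_commutator ha (Subgroup.mem_top x)
  obtain ⟨c, hc⟩ := schur ρ hU (ρ a) (hU.1 a (Subgroup.mem_top a)) (by
    intro x _ u hu
    rw [← rho_mul, ← rho_mul]
    have h1 : a * x = ⁅a, x⁆ * (x * a) := by rw [commutatorElement_def]; group
    rw [h1, rho_mul]
    exact hcom x _ (hU.1 _ (Subgroup.mem_top _) u hu))
  have hcpow : ∀ j : ℕ, ∀ u ∈ U, ρ (a ^ j) u = (c ^ j) • u := by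
    intro j
    induction j with
    | zero => intro u _; simp
    | succ j ih =>
      intro u hu
      rw [pow_succ, rho_mul, hc u hu, map_smul, ih u hu, smul_smul, pow_succ, mul_comm]
  have hc1 : c ≠ 1 := by
    rintro rfl
    apply haT
    intro u hu
    rw [hc u hu, one_smul]
  obtain ⟨u0, hu0, hu00⟩ := (Submodule.ne_bot_iff _).1 hU.2.1
  obtain ⟨s, hs⟩ := IsPGroup.iff_orderOf.1 hΓ a
  have hcs : c ^ (p ^ s) = 1 := by
    have h1 := hcpow (p ^ s) u0 hu0
    rw [← hs, pow_orderOf_eq_one, map_one] at h1
    have h2 : (c ^ orderOf a - 1) • u0 = 0 := by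
      rw [sub_smul, one_smul, ← h1]; simp
    rcases smul_eq_zero.1 h2 with h | h
    · rw [hs] at h; exact sub_eq_zero.1 h
    · exact absurd h hu00
  obtain ⟨j, hjs, hj⟩ := (Nat.dvd_prime_pow hp.out).1 (orderOf_dvd_of_pow_eq_one hcs)
  have hj0 : j ≠ 0 := by
    rintro rfl
    rw [pow_zero, orderOf_eq_one_iff] at hj
    exact hc1 hj
  obtain ⟨i, rfl⟩ := Nat.exists_eq_succ_of_ne_zero hj0
  refine ⟨a ^ (p ^ i), c ^ (p ^ i), ?_, hcpow _⟩
  rw [orderOf_pow_of_dvd (pow_ne_zero _ hp.out.ne_zero) (by rw [hj]; exact pow_dvd_pow p (Nat.le_succ i)), hj,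
    pow_succ, Nat.mul_div_cancel_left _ (pow_pos hp.out.pos i)]

/-- Let F be a field with q elements, p a prime not dividing q, and e the multiplicative order of q modulo p; assume e ≤ n. Then every p-subgroup of GL_n(F) has derived length at most ⌊log₂(n/e)⌋ + 1: that term of its derived series is trivial (n/e is the integer quotient). -/
theorem result {F : Type*} [Field F] [Fintype F] (q : ℕ) (hF : Fintype.card F = q) (p : ℕ) [Fact p.Prime] (hpq : ¬ p ∣ q) (n e : ℕ) (he : e = orderOf (q : ZMod p)) (hen : e ≤ n) (P : Subgroup (GL (Fin n) F)) (hP : IsPGroup p P) : derivedSeries ↥P (Nat.log 2 (n / e) + 1) = ⊥ := by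
  classical
  obtain ⟨ℓ, hℓ⟩ := CharP.exists F
  haveI := hℓ
  obtain ⟨f, hℓp, hcard⟩ := FiniteField.card F ℓ
  haveI : Fact ℓ.Prime := ⟨hℓp⟩
  have hpp : p.Prime := Fact.out
  rw [hF] at hcard
  let K := AlgebraicClosure F
  haveI : CharP K ℓ := charP_of_injective_algebraMap (algebraMap F K).injective ℓ
  have hq0 : 0 < q := by rw [← hF]; exact Fintype.card_pos
  have hpℓ : p ≠ ℓ := by
    rintro rfl
    apply hpq
    rw [hcard]
    exact dvd_pow_self p f.ne_zero
  have hpK : (p : K) ≠ 0 := by
    rw [Ne, CharP.cast_eq_zero_iff K ℓ]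
    intro h
    exact hpℓ ((Nat.prime_dvd_prime_iff_eq hℓp hpp).1 h).symm
  let Φ : ℕ → (K →+* K) := fun j => iterateFrobenius K ℓ (f * j)
  have hΦ : ∀ j x, Φ j x = x ^ (q ^ j) := by
    intro j x
    change iterateFrobenius K ℓ (f * j) x = _
    rw [iterateFrobenius_def, pow_mul, ← hcard]
  have hΦF : ∀ j (a : F), Φ j (algebraMap F K a) = algebraMap F K a := by
    intro j a
    rw [hΦ, ← map_pow, ← hF, FiniteField.pow_card_pow]
  have hΦs : ∀ j, Function.Surjective (Φ j) := by
    intro j x
    obtain ⟨z, hz⟩ := IsAlgClosed.exists_pow_nat_eq x (n := q ^ j) (pow_pos hq0 j)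
    exact ⟨z, by rw [hΦ, hz]⟩
  let ρ : P →* Module.End K (Fin n → K) :=
    ((Matrix.toLinAlgEquiv' : Matrix (Fin n) (Fin n) K ≃ₐ[K] _) : Matrix (Fin n) (Fin n) K →* Module.End K (Fin n → K)).comp
      (((RingHom.mapMatrix (algebraMap F K) : Matrix (Fin n) (Fin n) F →+* Matrix (Fin n) (Fin n) K) : Matrix (Fin n) (Fin n) F →* Matrix (Fin n) (Fin n) K).comp
        ((Units.coeHom _).comp P.subtype))
  have hρ : ∀ (g : P) (v : Fin n → K) (i : Fin n), ρ g v i = ∑ k, algebraMap F K ((g : GL (Fin n) F) i k) * v k := by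
    intro g v i
    rfl
  have hρinj : ∀ g : P, ρ g = 1 → g = 1 := by
    intro g hg
    apply Subtype.ext
    apply Units.ext
    ext i k
    have h1 : ρ g (Pi.single k 1) i = (Pi.single k 1 : Fin n → K) i := by rw [hg]; rfl
    rw [hρ] at h1
    rw [Finset.sum_eq_single k] at h1
    · rw [Pi.single_eq_same, mul_one, Pi.single_apply] at h1
      by_cases hik : i = k
      · subst hik
        rw [if_pos rfl] at h1
        rw [OneMemClass.coe_one, Units.val_one, Matrix.one_apply_eq]
        apply (algebraMap F K).injective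
        rw [h1, map_one]
      · rw [if_neg hik] at h1
        rw [OneMemClass.coe_one, Units.val_one, Matrix.one_apply_ne hik]
        apply (algebraMap F K).injective
        rw [h1, map_zero]
    · intro b _ hb
      rw [Pi.single_eq_of_ne hb, mul_zero]
    · intro h; exact absurd (Finset.mem_univ k) h
  have hqunit : (q : ZMod p) ≠ 0 := by
    rw [Ne, ZMod.natCast_eq_zero_iff]; exact hpq
  have he0 : 0 < e := by
    rw [he]
    have h1 : (q : ZMod p) ^ (p - 1) = 1 := ZMod.pow_card_sub_one_eq_one hqunit
    exact orderOf_pos_iff.2 (isOfFinOrder_iff_pow_eq_one.2 ⟨p - 1, Nat.sub_pos_of_lt hpp.one_lt, h1⟩)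
  have hne1 : 1 ≤ n / e := Nat.div_pos hen he0
  have key := main ρ hP hpK (Nat.log 2 (n / e) + 1) ⊤ ⊤ (fun x _ w _ => Submodule.mem_top) (by
    intro U _ hU
    refine lt_of_le_of_lt ?_ (Nat.lt_pow_succ_log_self (by norm_num) (n / e))
    by_cases hnt : ∀ x : P, ∀ u ∈ U, ρ x u = u
    · obtain ⟨u, hu, hu0⟩ := (Submodule.ne_bot_iff _).1 hU.2.1
      have h1 : Submodule.span K {u} = U := by
        apply hU.2.2
        · rw [Submodule.span_singleton_le_iff_mem]; exact hu
        · intro x _ w hw
          have : w ∈ U := by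
            have h2 : Submodule.span K {u} ≤ U := by rw [Submodule.span_singleton_le_iff_mem]; exact hu
            exact h2 hw
          rw [hnt x w this]; exact hw
        · rw [Ne, Submodule.span_singleton_eq_bot]; exact hu0
      rw [← h1, finrank_span_singleton hu0]
      exact hne1
    · obtain ⟨z, ζ, hζ, hz⟩ := exists_scalar ρ hP hU hnt
      have hinj : Function.Injective (fun j : Fin e => ζ ^ (q ^ (j : ℕ))) := by
        intro i j hij
        have h1 : ζ ^ (q ^ (i : ℕ)) = ζ ^ (q ^ (j : ℕ)) := hij
        have hζ0 : ζ ≠ 0 := by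
          rintro rfl
          have : (0 : K) ^ p = 1 := by rw [← hζ]; exact pow_orderOf_eq_one _
          rw [zero_pow hpp.ne_zero] at this
          exact zero_ne_one this
        have h2 : q ^ (i : ℕ) ≡ q ^ (j : ℕ) [MOD p] := by
          have h3 : (Units.mk0 ζ hζ0) ^ (q ^ (i : ℕ)) = (Units.mk0 ζ hζ0) ^ (q ^ (j : ℕ)) := by
            ext; exact h1
          rw [pow_eq_pow_iff_modEq] at h3
          have h4 : orderOf (Units.mk0 ζ hζ0) = p := by rw [← orderOf_units]; exact hζ
          rwa [h4] at h3
        have h3 : (q : ZMod p) ^ (i : ℕ) = (q : ZMod p) ^ (j : ℕ) := by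
          have := (ZMod.natCast_eq_natCast_iff _ _ p).2 h2
          rwa [Nat.cast_pow, Nat.cast_pow] at this
        apply Fin.ext
        exact pow_injOn_Iio_orderOf (x := (q : ZMod p)) (by rw [← he]; exact i.2) (by rw [← he]; exact j.2) h3
      set E : Fin e → Submodule K (Fin n → K) := fun j => (ρ z).eigenspace (ζ ^ (q ^ (j : ℕ))) with hE
      have hind : iSupIndep E := (Module.End.eigenspaces_iSupIndep (ρ z)).comp hinj
      have hrank : ∀ j : Fin e, Module.finrank K U ≤ Module.finrank K (E j) := by
        intro j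
        let b := Module.finBasis K U
        let φ : (Fin n → K) → (Fin n → K) := fun v i => Φ j (v i)
        have hφsum : ∀ (d : Fin (Module.finrank K U) → K), φ (∑ i, d i • (b i : Fin n → K)) = ∑ i, Φ j (d i) • φ (b i) := by
          intro d
          ext k
          change Φ j ((∑ i, d i • (b i : Fin n → K)) k) = _
          rw [Finset.sum_apply, Finset.sum_apply, map_sum]
          apply Finset.sum_congr rfl
          intro i _
          rw [Pi.smul_apply, smul_eq_mul, map_mul]; rfl
        have hφz : ∀ v, ρ z (φ v) = φ (ρ z v) := by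
          intro v
          ext i
          change _ = Φ j (ρ z v i)
          rw [hρ, hρ, map_sum]
          apply Finset.sum_congr rfl
          intro k _
          rw [map_mul, hΦF]
        have hmem : ∀ i, φ (b i) ∈ E j := by
          intro i
          rw [hE]
          change φ (b i) ∈ (ρ z).eigenspace (ζ ^ (q ^ (j : ℕ)))
          rw [Module.End.mem_eigenspace_iff, hφz, hz _ (b i).2]
          ext k
          change Φ j ((ζ • (b i : Fin n → K)) k) = _
          rw [Pi.smul_apply, smul_eq_mul, map_mul, hΦ j ζ]; rfl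
        have hli : LinearIndependent K (fun i => (⟨φ (b i), hmem i⟩ : E j)) := by
          rw [Fintype.linearIndependent_iff]
          intro g hg
          choose d hd using fun i => hΦs j (g i)
          have h1 : ∑ i, g i • φ (b i) = 0 := by
            have := congrArg Subtype.val hg
            rw [Submodule.coe_sum] at this
            exact this
          have h2 : φ (∑ i, d i • (b i : Fin n → K)) = 0 := by
            rw [hφsum, ← h1]
            apply Finset.sum_congr rfl
            intro i _
            rw [hd]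
          have h3 : ∑ i, d i • (b i : Fin n → K) = 0 := by
            ext k
            have := congrFun h2 k
            change Φ j ((∑ i, d i • (b i : Fin n → K)) k) = 0 at this
            exact (map_eq_zero (Φ j)).1 this
          have h4 : ∑ i, d i • b i = 0 := by
            apply Subtype.ext
            rw [Submodule.coe_sum]
            exact h3
          have h5 := Fintype.linearIndependent_iff.1 b.linearIndependent d h4
          intro i
          rw [← hd i, h5 i, map_zero]
        have := hli.fintype_card_le_finrank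
        rwa [Fintype.card_fin] at this
      have h1 := sum_finrank E hind Finset.univ
      have h2 : Module.finrank K ↥(⨆ j ∈ (Finset.univ : Finset (Fin e)), E j) ≤ n := by
        have := Submodule.finrank_le (⨆ j ∈ (Finset.univ : Finset (Fin e)), E j)
        rwa [Module.finrank_fin_fun] at this
      have h3 : e * Module.finrank K U ≤ ∑ j ∈ (Finset.univ : Finset (Fin e)), Module.finrank K (E j) := by
        have := Finset.card_nsmul_le_sum (Finset.univ : Finset (Fin e)) (fun j => Module.finrank K (E j)) (Module.finrank K U)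
          (fun j _ => hrank j)
        rwa [Finset.card_univ, Fintype.card_fin, smul_eq_mul] at this
      rw [Nat.le_div_iff_mul_le he0, mul_comm]
      omega)
  rw [eq_bot_iff]
  intro x hx
  rw [Subgroup.mem_bot]
  apply hρinj
  rw [DD_top] at key
  exact LinearMap.ext (fun v => key x hx v Submodule.mem_top)

end Cfsg.Agent.S4417
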