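import Cfsg.Statements.S4420
import Mathlib

set_option autoImplicit false
open Cfsg

namespace Cfsg.Agent.S4420

theorem comm_of_inv {H : Type*} [Group H] (B : Subgroup H) (x : H)
    (h : ∀ b ∈ B, x * b * x⁻¹ = b⁻¹) : IsMulCommutative B := by
  refine ⟨⟨fun a b => Subtype.ext ?_⟩⟩
  change (a : H) * b = b * a
  have h1 := h _ (B.mul_mem a.2 b.2)
  have h2 : x * ((a : H) * b) * x⁻¹ = (x * a * x⁻¹) * (x * b * x⁻¹) := by group
  rw [h2, h _ a.2, h _ b.2, mul_inv_rev] at h1
  have h3 := congrArg (·⁻¹) h1
  simpa using h3.symm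

theorem comm_of_sq {H : Type*} [Group H] (h : ∀ x : H, x ^ 2 = 1) (a b : H) : a * b = b * a := by
  have ha : a⁻¹ = a := inv_eq_of_mul_eq_one_right (by rw [← pow_two]; exact h a)
  have hb : b⁻¹ = b := inv_eq_of_mul_eq_one_right (by rw [← pow_two]; exact h b)
  have hab : (a * b)⁻¹ = a * b := inv_eq_of_mul_eq_one_right (by rw [← pow_two]; exact h _)
  rw [mul_inv_rev, ha, hb] at hab
  exact hab.symm

/-- Structure of groups in which every element outside some proper subgroup has square 1. Let H be a finite group with a proper subgroup A such that every element outside A has square 1. Then H has an abelian normal subgroup B of index 2 such that every element outside B is an involution inverting every element of B; and if H is not an elementary abelian 2-group, B is the only abelian normal subgroup of index 2 with this property. -/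
theorem result {H : Type*} [Group H] [Finite H] (A : Subgroup H) (hA : A ≠ ⊤) (hD : ∀ x : H, x ∉ A → x ^ 2 = 1) :
    ∃ B : Subgroup H, B.Normal ∧ IsMulCommutative ↥B ∧ B.index = 2 ∧
      (∀ x : H, x ∉ B → x ^ 2 = 1 ∧ ∀ b ∈ B, x * b * x⁻¹ = b⁻¹) ∧
      (¬ (IsMulCommutative H ∧ ∀ x : H, x ^ 2 = 1) →
        ∀ B' : Subgroup H, B'.Normal → IsMulCommutative ↥B' → B'.index = 2 →
          (∀ x : H, x ∉ B' → x ^ 2 = 1 ∧ ∀ b ∈ B', x * b * x⁻¹ = b⁻¹) → B' = B) := by
  classical
  obtain ⟨x, hx⟩ : ∃ x : H, x ∉ A := by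
    by_contra hcon
    push Not at hcon
    exact hA (eq_top_iff.mpr fun y _ => hcon y)
  have hinv : ∀ x : H, x ∉ A → ∀ a ∈ A, x * a * x⁻¹ = a⁻¹ := by
    intro x hx a ha
    have h1 : x * a ∉ A := by
      intro h
      apply hx
      have := A.mul_mem h (inv_mem ha)
      rwa [mul_inv_cancel_right] at this
    have h2 := hD _ h1
    have h3 : x⁻¹ = x := inv_eq_of_mul_eq_one_right (by rw [← pow_two]; exact hD x hx)
    rw [h3]
    rw [pow_two] at h2
    exact eq_inv_of_mul_eq_one_left (by simpa [mul_assoc] using h2)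
  -- uniqueness part
  have huniq : ∀ B : Subgroup H, B.Normal → IsMulCommutative B → B.index = 2 →
      (∀ x : H, x ∉ B → x ^ 2 = 1 ∧ ∀ b ∈ B, x * b * x⁻¹ = b⁻¹) →
      ¬ (IsMulCommutative H ∧ ∀ x : H, x ^ 2 = 1) →
        ∀ B' : Subgroup H, B'.Normal → IsMulCommutative ↥B' → B'.index = 2 →
          (∀ x : H, x ∉ B' → x ^ 2 = 1 ∧ ∀ b ∈ B', x * b * x⁻¹ = b⁻¹) → B' = B := by
    intro B _ hBc hB2 hB hne B' _ _ hB'2 hB'
    by_contra hcon
    apply hne
    -- an element of `B` outside `B'`
    obtain ⟨c, hcB, hcB'⟩ : ∃ c ∈ B, c ∉ B' := by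
      by_contra h
      push Not at h
      apply hcon
      have hle : B ≤ B' := h
      symm
      apply Subgroup.eq_of_le_of_card_ge hle
      have h1 := B.card_mul_index
      have h2 := B'.card_mul_index
      rw [hB2] at h1
      rw [hB'2] at h2
      omega
    have hsqB : ∀ b ∈ B, b ^ 2 = 1 := by
      intro b hb
      by_cases hbB' : b ∈ B'
      · have h1 : c * b ∉ B' := by
          intro h
          apply hcB'
          have := B'.mul_mem h (inv_mem hbB')
          rwa [mul_inv_cancel_right] at this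
        have h2 := (hB' _ h1).1
        have h3 : c * b = b * c := congrArg Subtype.val (mul_comm' (⟨c, hcB⟩ : B) ⟨b, hb⟩)
        have h4 := (show Commute c b from h3).mul_pow 2
        rw [h4, (hB' c hcB').1, one_mul] at h2
        exact h2
      · exact (hB' b hbB').1
    have hall : ∀ x : H, x ^ 2 = 1 := by
      intro y
      by_cases hy : y ∈ B
      · exact hsqB y hy
      · exact (hB y hy).1
    exact ⟨⟨⟨comm_of_sq hall⟩⟩, hall⟩
  by_cases h2 : A.index = 2
  · haveI : A.Normal := Subgroup.normal_of_index_eq_two h2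
    have hc := comm_of_inv A x (hinv x hx)
    exact ⟨A, inferInstance, hc, h2, fun y hy => ⟨hD y hy, hinv y hy⟩,
      huniq A inferInstance hc h2 (fun y hy => ⟨hD y hy, hinv y hy⟩)⟩
  · -- then `H` is elementary abelian
    have hAfin : A.index ≠ 0 := Subgroup.index_ne_zero_of_finite
    have hA1 : A.index ≠ 1 := fun h => hA (Subgroup.index_eq_one.mp h)
    obtain ⟨y, hy, hxy⟩ : ∃ y, y ∉ A ∧ x⁻¹ * y ∉ A := by
      by_contra hcon
      push Not at hcon
      apply h2
      rw [Subgroup.index_eq_two_iff]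
      refine ⟨x, fun b => ?_⟩
      have hx2 : x⁻¹ = x := inv_eq_of_mul_eq_one_right (by rw [← pow_two]; exact hD x hx)
      by_cases hb : b ∈ A
      · right
        refine ⟨hb, fun h => hx ?_⟩
        have hb1 := hinv x hx b hb
        have : b * x = x * b⁻¹ := by
          have h5 : x * b⁻¹ * x⁻¹ = b := by
            have := hinv x hx b⁻¹ (inv_mem hb)
            rwa [inv_inv] at this
          calc b * x = (x * b⁻¹ * x⁻¹) * x := by rw [h5]
            _ = x * b⁻¹ := by group
        rw [this] at h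
        have := A.mul_mem h hb
        rwa [inv_mul_cancel_right] at this
      · left
        refine ⟨?_, hb⟩
        have h5 := hcon b hb
        rw [hx2] at h5
        have h6 : b⁻¹ = b := inv_eq_of_mul_eq_one_right (by rw [← pow_two]; exact hD b hb)
        have h7 := inv_mem h5
        rw [mul_inv_rev, hx2, h6] at h7
        exact h7
    have hsqA : ∀ a ∈ A, a ^ 2 = 1 := by
      intro a ha
      have h3 := hinv (x⁻¹ * y) hxy a ha
      have h4 : x⁻¹ * y * a * (x⁻¹ * y)⁻¹ = x⁻¹ * (y * a * y⁻¹) * x := by group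
      rw [h4, hinv y hy a ha] at h3
      have h5 := hinv x hx a ha
      have h6 : x⁻¹ * a⁻¹ * x = a := by
        rw [← h5]; group
      rw [h6] at h3
      rw [pow_two]
      nth_rewrite 1 [h3]
      exact inv_mul_cancel a
    have hall : ∀ z : H, z ^ 2 = 1 := by
      intro z
      by_cases hz : z ∈ A
      · exact hsqA z hz
      · exact hD z hz
    have hcomm := comm_of_sq hall
    haveI : Fact (Nat.Prime 2) := ⟨Nat.prime_two⟩
    have hp : IsPGroup 2 H := fun z => ⟨1, by rw [pow_one]; exact hall z⟩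
    obtain ⟨n, hn⟩ := IsPGroup.iff_card.mp hp
    have hn0 : n ≠ 0 := by
      rintro rfl
      rw [pow_zero] at hn
      apply hA1
      have := A.index_dvd_card
      rw [hn] at this
      exact Nat.dvd_one.mp this
    obtain ⟨B, hB⟩ := Sylow.exists_subgroup_card_pow_prime (G := H) 2 (n := n - 1)
      (by rw [hn]; exact pow_dvd_pow 2 (Nat.sub_le _ _))
    have hB2 : B.index = 2 := by
      have h3 := B.card_mul_index
      rw [hB, hn] at h3
      obtain ⟨m, rfl⟩ := Nat.exists_eq_succ_of_ne_zero hn0
      simp only [Nat.succ_eq_add_one, Nat.add_sub_cancel] at h3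
      rw [pow_succ] at h3
      exact Nat.eq_of_mul_eq_mul_left (by positivity) h3
    have hBn : B.Normal := Subgroup.normal_of_index_eq_two hB2
    have hBc : IsMulCommutative B := ⟨⟨fun a b => Subtype.ext (hcomm a b)⟩⟩
    have hBp : ∀ z : H, z ∉ B → z ^ 2 = 1 ∧ ∀ b ∈ B, z * b * z⁻¹ = b⁻¹ := by
      intro z _
      refine ⟨hall z, fun b _ => ?_⟩
      rw [hcomm z b, mul_inv_cancel_right]
      exact (inv_eq_of_mul_eq_one_right (by rw [← pow_two]; exact hall b)).symm
    exact ⟨B, hBn, hBc, hB2, hBp, huniq B hBn hBc hB2 hBp⟩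

end Cfsg.Agent.S4420
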