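import Cfsg.Statements.S4520
import Cfsg.Agent.S4519
import Cfsg.Agent.LibPBNormal

set_option autoImplicit false
set_option linter.all false
open Cfsg

namespace Cfsg.Agent.S4520

open CfsgLib.CharBasic CfsgLib.Clifford CfsgLib.CharNorm CfsgLib.BlockR CfsgLib.BlockCore CfsgLib.BlockIdem CfsgLib.BlockIdeal
  CfsgLib.BlockBrauer CfsgLib.GalChar CfsgLib.PBNormal

/-- Let N be a normal subgroup of odd index in the finite group G, M a maximal ideal of the algebraic integers containing 2, and k coprime to the order of G with k ^ (2 ^ e) ≡ 1 modulo the order of G for some e and g ^ k = g⁻¹ for every element g of odd order. Let θ be an irreducible character of N and χ an irreducible character of G over θ, both unchanged by composing with g ↦ g ^ k. Then χ lies in the principal 2-block of G if and only if θ lies in the principal 2-block of N. -/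
theorem result {G : Type*} [Group G] [Fintype G] (M : Ideal Cfsg.AlgInt) (hM : Cfsg.IsPModular 2 M) (N : Subgroup G) [N.Normal] [Fintype N] (hidx : Odd N.index) (k e : ℕ) (hk : Nat.Coprime k (Nat.card G)) (hke : k ^ (2 ^ e) ≡ 1 [MOD Nat.card G]) (hk₂ : ∀ g : G, Odd (orderOf g) → g ^ k = g⁻¹) (θ : Cfsg.IrrCharacter N) (hθ : ∀ n : N, (θ : N → ℂ) (n ^ k) = (θ : N → ℂ) n) (χ : Cfsg.IrrCharacter G) (hχ : ∀ g : G, (χ : G → ℂ) (g ^ k) = (χ : G → ℂ) g) (hover : Cfsg.classInner (fun n : N => (χ : G → ℂ) n) (θ : N → ℂ) ≠ 0) : χ ∈ Cfsg.principalBlock M G ↔ θ ∈ Cfsg.principalBlock M N := by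
  classical
  haveI : Fact (Nat.Prime 2) := ⟨Nat.prime_two⟩
  have hp := isPrime_of_modular hM
  constructor
  · intro h
    exact mem_of_above hM N θ χ hover h
  · intro h
    obtain ⟨τ, hτ⟩ := CfsgLib.GalCliff.exists_gal_pow hk
    have hpow : ∀ (ψ : G → ℂ), IsCharacter G ψ → ∀ g, ψ (g ^ k) = τ (ψ g) := by
      intro ψ hψ g
      rw [CfsgLib.GalCliff.char_gal_pow hτ dvd_rfl hψ]
    have hiter : ∀ (j : ℕ) (ψ : IrrCharacter G) (n : G), (((galIrr (G := G) τ) ^ j) ψ : G → ℂ) n = (ψ : G → ℂ) (n ^ (k ^ j)) := by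
      intro j
      induction j with
      | zero => intro ψ n; simp
      | succ j ih =>
        intro ψ n
        rw [pow_succ, Equiv.Perm.mul_apply, ih, galIrr_apply, ← hpow _ (irr_isCharacter ψ.2), ← pow_mul, ← pow_succ]
    have hσ : (galIrr (G := G) τ) ^ (2 ^ e) = 1 := by
      ext ψ n
      rw [Equiv.Perm.one_apply, hiter]
      congr 1
      have h1 : n ^ (k ^ 2 ^ e) = n ^ 1 := by
        rw [pow_eq_pow_iff_modEq]
        exact hke.of_dvd (orderOf_dvd_natCard n)
      rw [h1, pow_one]
    -- a fixed character above θ in the principal block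
    obtain ⟨ψ, hψB, hψfix, hψ0⟩ : ∃ ψ : IrrCharacter G, ψ ∈ principalBlock M G ∧ galIrr τ ψ = ψ ∧
        classInner (fun n : N => (ψ : G → ℂ) n) (θ : N → ℂ) ≠ 0 := by
      by_contra hcon
      push Not at hcon
      have h1 := sum_fixed_ideal hM (galIrr (G := G) τ) e hσ (wt M N (θ : N → ℂ)) (fun ψ => by
        unfold wt
        have h2 : galIrr τ ψ ∈ principalBlock M G ↔ ψ ∈ principalBlock M G := by
          refine principal_stable (fun g => g ^ k) ?_ ?_ (one_pow k) ?_
          · intro g
            obtain ⟨m, hm⟩ := exists_pow_eq_self_of_coprime (Nat.Coprime.coprime_dvd_right (orderOf_dvd_natCard g) hk)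
            exact ⟨g ^ m, by show (g ^ m) ^ k = g; rw [← pow_mul, mul_comm, pow_mul, hm]⟩
          · intro g
            exact centralizer_pow hk g
          · intro g
            rw [galIrr_apply, hpow _ (irr_isCharacter ψ.2)]
        have h3 : classInner (fun n : N => (galIrr τ ψ : G → ℂ) n) (θ : N → ℂ) = classInner (fun n : N => (ψ : G → ℂ) n) (θ : N → ℂ) := by
          have h4 : (θ : N → ℂ) = τ ∘ (θ : N → ℂ) := by
            ext n
            change (θ : N → ℂ) n = τ ((θ : N → ℂ) n)
            rw [← CfsgLib.GalCliff.char_gal_pow hτ (Subgroup.card_subgroup_dvd_card N) (irr_isCharacter θ.2), hθ]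
          have h5 : (fun n : N => (galIrr τ ψ : G → ℂ) n) = τ ∘ (fun n : N => (ψ : G → ℂ) n) := rfl
          obtain ⟨r, hr⟩ := char_mult (isCharacter_restrict (irr_isCharacter ψ.2) N) (irr_isCharacter θ.2)
          rw [h5, h4, CfsgLib.GalChar.inner_gal τ (isCharacter_restrict (irr_isCharacter ψ.2) N) (irr_isCharacter θ.2), ← h4, hr, map_natCast]
        have h4 : (galIrr τ ψ : G → ℂ) 1 = (ψ : G → ℂ) 1 := by
          obtain ⟨d, -, hd⟩ := irr_one_nat ψ.2
          rw [galIrr_apply, hd, map_natCast]
        simp only [h2, h3, h4]) (wt_ring hM N θ)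
      have h2 : ∑ x : IrrCharacter G with galIrr τ x = x, wt M N (θ : N → ℂ) x = 0 := by
        refine Finset.sum_eq_zero fun x hx => ?_
        rw [Finset.mem_filter] at hx
        unfold wt
        split_ifs with hx2
        · rw [hcon x hx2 hx.2]; simp
        · rfl
      rw [h2, sub_zero] at h1
      exact wt_sum_not_ideal hM N hidx θ h h1
    obtain ⟨χ₀, -, huniq⟩ := Cfsg.Agent.S4519.result N hidx k e hk hke hk₂ θ hθ
    have h1 := huniq χ hover hχ
    have h2 := huniq ψ hψ0 (fun g => by
      rw [hpow _ (irr_isCharacter ψ.2)]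
      have h3 := congrArg (fun x : IrrCharacter G => (x : G → ℂ) g) hψfix
      simpa only [galIrr_apply] using h3)
    rw [h1, ← h2]
    exact hψB

end Cfsg.Agent.S4520
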