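import Cfsg.Statements.S4540
import Cfsg.Agent.LibContrib20b

set_option autoImplicit false
set_option linter.all false
open Cfsg

namespace Cfsg.Agent.S4540

open CfsgLib.Contrib20 CfsgLib.Contrib20b CfsgLib.BlockR CfsgLib.BlockDefect CfsgLib.Zeta20

/-- Let B be a 2-block of the finite group G (relative to a maximal ideal M of the algebraic integers containing 2) of defect d with defect group D. Let z be an element of D commuting with every element of D, and let b be a block of the centralizer C of z with defect group D that induces B (a major subsection (z, b)). If b has 2-regular rank at most three, then 3·k(B) ≤ 3·k₀(B) + 2·Σ 2 ^ h(χ), where k(B) is the number of members of B, k₀(B) the number of members of height zero, and the sum runs over the members χ of B of positive height h(χ); this bound is at most 3·2 ^ d, so in particular B contains at most 2 ^ d irreducible characters. -/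
theorem result {G : Type*} [Group G] [Finite G] (M : Ideal Cfsg.AlgInt) (hM : Cfsg.IsPModular 2 M) (B : Set (Cfsg.IrrCharacter G)) (hB : Cfsg.IsPBlock M B) (D : Subgroup G) (hD : Cfsg.IsDefectGroup 2 M B D) (z : G) (hzD : z ∈ D) (hzc : ∀ d ∈ D, d * z = z * d) (b : Set (Cfsg.IrrCharacter ↥(Subgroup.centralizer ({z} : Set G)))) (hb : Cfsg.IsInducedBlock M (Subgroup.centralizer ({z} : Set G)) b B) (hbD : Cfsg.IsDefectGroup 2 M b (D.subgroupOf (Subgroup.centralizer ({z} : Set G)))) (hl : Cfsg.blockRank 2 b ≤ 3) : 3 * Nat.card B ≤ 3 * Nat.card {χ : Cfsg.IrrCharacter G // χ ∈ B ∧ Cfsg.blockHeight 2 B (χ : G → ℂ) = 0} + 2 * (∑ᶠ χ ∈ {χ : Cfsg.IrrCharacter G | χ ∈ B ∧ 1 ≤ Cfsg.blockHeight 2 B (χ : G → ℂ)}, 2 ^ Cfsg.blockHeight 2 B (χ : G → ℂ)) ∧ 3 * Nat.card {χ : Cfsg.IrrCharacter G // χ ∈ B ∧ Cfsg.blockHeight 2 B (χ : G → ℂ) = 0} + 2 * (∑ᶠ χ ∈ {χ : Cfsg.IrrCharacter G | χ ∈ B ∧ 1 ≤ Cfsg.blockHeight 2 B (χ : G → ℂ)}, 2 ^ Cfsg.blockHeight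 2 B (χ : G → ℂ)) ≤ 3 * 2 ^ Cfsg.blockDefect 2 B := by
  classical
  letI : Fintype G := Fintype.ofFinite G
  letI : Fintype (Subgroup.centralizer ({z} : Set G)) := Fintype.ofFinite _
  obtain ⟨hd, hx⟩ := major_setup hM hB hD hzD hzc hb hbD
  obtain ⟨n, hn⟩ := exists_n (p := 2) hx
  have hp := isPrime_of_modular hM
  obtain ⟨χ₀, hχ₀, h00⟩ := exists_height_zero hM hB
  have h00' : Cfsg.blockHeight 2 B (χ₀ : G → ℂ) = 0 := (height_zero_iff hM hB hχ₀).mpr h00
  rw [← hd]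
  set d := Cfsg.blockDefect 2 b with hdd
  obtain ⟨S, hS⟩ : ∃ S : Set (Cfsg.IrrCharacter G), S = {χ | χ ∈ B ∧ Cfsg.blockHeight 2 B (χ : G → ℂ) = 0} := ⟨_, rfl⟩
  obtain ⟨T, hT⟩ : ∃ T : Set (Cfsg.IrrCharacter G), T = {χ | χ ∈ B ∧ 1 ≤ Cfsg.blockHeight 2 B (χ : G → ℂ)} := ⟨_, rfl⟩
  have hcard : Nat.card {χ : Cfsg.IrrCharacter G // χ ∈ B ∧ Cfsg.blockHeight 2 B (χ : G → ℂ) = 0} = Nat.card S := by
    rw [hS]; rfl
  rw [hcard, ← hT]
  have hmS : ∀ χ, χ ∈ S ↔ χ ∈ B ∧ Cfsg.blockHeight 2 B (χ : G → ℂ) = 0 := by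
    intro χ; rw [hS]; rfl
  have hmT : ∀ χ, χ ∈ T ↔ χ ∈ B ∧ 1 ≤ Cfsg.blockHeight 2 B (χ : G → ℂ) := by
    intro χ; rw [hT]; rfl
  clear hS hT
  have hST : ∀ χ, χ ∈ S → χ ∉ T := fun χ h h' => by
    have h1 := ((hmS χ).mp h).2
    have h2 := ((hmT χ).mp h').2
    omega
  have hSTB : ∀ χ, χ ∈ B ↔ χ ∈ S ∨ χ ∈ T := by
    intro χ
    constructor
    · intro h
      rcases Nat.eq_zero_or_pos (Cfsg.blockHeight 2 B (χ : G → ℂ)) with h0 | h0
      · exact Or.inl ((hmS χ).mpr ⟨h, h0⟩)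
      · exact Or.inr ((hmT χ).mpr ⟨h, h0⟩)
    · rintro (h | h)
      · exact ((hmS χ).mp h).1
      · exact ((hmT χ).mp h).1
  have hkc : ∀ U : Set (Cfsg.IrrCharacter G), Nat.card U = ∑ χ : Cfsg.IrrCharacter G, (if χ ∈ U then 1 else 0) := by
    intro U
    rw [Nat.card_eq_fintype_card, Fintype.card_subtype, Finset.card_eq_sum_ones, Finset.sum_filter]
  have hfs : (∑ᶠ χ ∈ T, 2 ^ Cfsg.blockHeight 2 B (χ : G → ℂ)) =
      ∑ χ : Cfsg.IrrCharacter G, (if χ ∈ T then 2 ^ Cfsg.blockHeight 2 B (χ : G → ℂ) else 0) := by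
    rw [finsum_mem_eq_finite_toFinset_sum _ (Set.toFinite T), ← Finset.sum_filter]
    apply Finset.sum_congr
    · ext χ; simp
    · intro χ _; rfl
  rw [hfs, hkc B, hkc S]
  constructor
  · rw [Finset.mul_sum, Finset.mul_sum, Finset.mul_sum, ← Finset.sum_add_distrib]
    apply Finset.sum_le_sum
    intro χ _
    by_cases h1 : χ ∈ S
    · rw [if_pos h1, if_neg (hST χ h1)]
      split_ifs <;> omega
    · by_cases h2 : χ ∈ T
      · rw [if_neg h1, if_pos h2, if_pos ((hSTB χ).mpr (Or.inr h2))]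
        have h3 : 2 ^ 1 ≤ 2 ^ Cfsg.blockHeight 2 B (χ : G → ℂ) := Nat.pow_le_pow_right (by norm_num) ((hmT χ).mp h2).2
        omega
      · rw [if_neg h1, if_neg h2, if_neg (fun h => by rcases (hSTB χ).mp h with h | h; exact h1 h; exact h2 h)]
        omega
  -- the main estimate
  have hA : ∀ χ : Cfsg.IrrCharacter G, ∃ A : ℕ, aa 2 n b χ = A ∧ (χ ∈ S → Odd A) ∧
      (χ ∈ T → 2 * 2 ^ Cfsg.blockHeight 2 B (χ : G → ℂ) ≤ A) := by
    intro χ
    obtain ⟨A, h1, h2, h3⟩ := aa_two hM hx hb.1 hn χ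
    obtain ⟨A', rfl⟩ := Int.eq_ofNat_of_zero_le h2
    refine ⟨A', by rw [h1]; simp, ?_, ?_⟩
    · intro hχ
      rw [hmS] at hχ
      have h4 := con_unit hM hχ.1 hχ.2 hχ.1 hχ.2 hx hb hn
      rw [h3] at h4
      rw [← Nat.not_even_iff_odd, even_iff_two_dvd]
      intro h5
      exact h4 (by exact_mod_cast h5)
    · intro hχ
      rw [hmT] at hχ
      have h0 : Cfsg.blockHeight 2 B (χ : G → ℂ) ≠ 0 := by have := hχ.2; omega
      have h4 := major_pos hM hx hn hb hd hχ.1 h0 hχ.1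
      obtain ⟨A2, h5⟩ := aa_two_div hM hx hb.1 hn χ (by exact_mod_cast h4)
      have h8 : 0 < aa 2 n b χ := by
        apply aa_pos hM hb.1 hn (ψ := χ₀)
        intro h7
        have h8 := con_conj (p := 2) (b := b) χ χ₀
        rw [h7, map_zero] at h8
        exact major_ne hM hx hb hd hχ₀ h00' hχ.1 hn h8.symm
      rw [h1] at h5 h8
      have h6 : (A' : ℤ) = 2 ^ (Cfsg.blockHeight 2 B (χ : G → ℂ) + 1) * A2 := by exact_mod_cast h5
      have h9 : (0 : ℤ) < (A' : ℤ) := by exact_mod_cast h8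
      have h10 : ((2 * 2 ^ Cfsg.blockHeight 2 B (χ : G → ℂ) : ℕ) : ℤ) ∣ (A' : ℤ) := by
        rw [h6]
        refine ⟨A2, ?_⟩
        push_cast
        ring
      have h11 := Int.le_of_dvd h9 h10
      exact_mod_cast h11
  choose A hA1 hA2 hA3 using hA
  have hsum : ∑ χ : Cfsg.IrrCharacter G, A χ = 2 ^ d * Cfsg.blockRank 2 b := by
    have h1 := sum_aa hM hx hb.1 hn
    simp only [hA1] at h1
    exact_mod_cast h1
  rw [Finset.mul_sum, Finset.mul_sum, ← Finset.sum_add_distrib]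
  by_cases hcase : ∃ χ ∈ S, A χ = 1
  · obtain ⟨χ, hχ, h1⟩ := hcase
    rw [hmS] at hχ
    have h2 := sum_avN 2 n b χ
    rw [hA1, h1, Nat.cast_one, mul_one] at h2
    have h3 : ((∑ ψ : Cfsg.IrrCharacter G, (3 * (if ψ ∈ S then 1 else 0) +
        2 * (if ψ ∈ T then 2 ^ Cfsg.blockHeight 2 B (ψ : G → ℂ) else 0)) : ℕ) : ℝ) ≤
        ((3 * 2 ^ d : ℕ) : ℝ) := by
      push_cast
      have h4 : (3 : ℝ) * 2 ^ d = 3 * ∑ ψ : Cfsg.IrrCharacter G, avN 2 n (con 2 b χ ψ) := by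
        rw [h2]; push_cast; rfl
      rw [h4, Finset.mul_sum]
      apply Finset.sum_le_sum
      intro ψ _
      by_cases h1 : ψ ∈ S
      · rw [if_pos h1, if_neg (hST ψ h1)]
        rw [hmS] at h1
        have h5 := avN_pow hM hx hn hb hd hχ.1 hχ.2 h1.1
        rw [h1.2, mul_zero, pow_zero] at h5
        linarith
      · by_cases h2 : ψ ∈ T
        · rw [if_neg h1, if_pos h2]
          rw [hmT] at h2
          have h5 := avN_pow hM hx hn hb hd hχ.1 hχ.2 h2.1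
          have h6 : (1 : ℝ) ≤ 2 ^ Cfsg.blockHeight 2 B (ψ : G → ℂ) := one_le_pow₀ (by norm_num)
          have h7 : ((2 : ℕ) : ℝ) ^ (2 * Cfsg.blockHeight 2 B (ψ : G → ℂ)) =
              2 ^ Cfsg.blockHeight 2 B (ψ : G → ℂ) * 2 ^ Cfsg.blockHeight 2 B (ψ : G → ℂ) := by
            rw [Nat.cast_ofNat, two_mul, pow_add]
          rw [h7] at h5
          nlinarith
        · rw [if_neg h1, if_neg h2]
          have := avN_nonneg (p := 2) (n := n) (con 2 b χ ψ)
          linarith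
    exact_mod_cast h3
  · push Not at hcase
    calc ∑ ψ : Cfsg.IrrCharacter G, (3 * (if ψ ∈ S then 1 else 0) +
        2 * (if ψ ∈ T then 2 ^ Cfsg.blockHeight 2 B (ψ : G → ℂ) else 0)) ≤ ∑ χ : Cfsg.IrrCharacter G, A χ := by
          apply Finset.sum_le_sum
          intro ψ _
          by_cases h1 : ψ ∈ S
          · rw [if_pos h1, if_neg (hST ψ h1)]
            obtain ⟨a, ha⟩ := hA2 ψ h1
            have := hcase ψ h1
            omega
          · by_cases h2 : ψ ∈ T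
            · rw [if_neg h1, if_pos h2]
              have := hA3 ψ h2
              omega
            · rw [if_neg h1, if_neg h2]
              omega
      _ = 2 ^ d * Cfsg.blockRank 2 b := hsum
      _ ≤ 2 ^ d * 3 := Nat.mul_le_mul_left _ hl
      _ = _ := Nat.mul_comm _ _

end Cfsg.Agent.S4540
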