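import Cfsg.Statements.S4541
import Cfsg.Agent.LibContrib20

set_option autoImplicit false
set_option linter.all false
open Cfsg

namespace Cfsg.Agent.S4541

open CfsgLib.Contrib20 CfsgLib.BlockR

/-- Let B be a 2-block of the finite group G (relative to a maximal ideal M of the algebraic integers containing 2), u a 2-element, and b a block of the centralizer of u inducing B (a subsection (u, b)), of defect q and 2-regular rank l; write s for the integer square root of l and k₀(B) for the number of members of B of height zero. If s is odd then k₀(B) ≤ s·2 ^ q, and otherwise (s + 1)·k₀(B) ≤ l·2 ^ q; in particular k₀(B) ≤ 2 ^ q when l ≤ 3. -/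
theorem result {G : Type*} [Group G] [Finite G] (M : Ideal Cfsg.AlgInt) (hM : Cfsg.IsPModular 2 M) (B : Set (Cfsg.IrrCharacter G)) (hB : Cfsg.IsPBlock M B) (u : G) (hu : ∃ j : ℕ, orderOf u = 2 ^ j) (b : Set (Cfsg.IrrCharacter ↥(Subgroup.centralizer ({u} : Set G)))) (hb : Cfsg.IsInducedBlock M (Subgroup.centralizer ({u} : Set G)) b B) : (Odd (Nat.sqrt (Cfsg.blockRank 2 b)) → Nat.card {χ : Cfsg.IrrCharacter G // χ ∈ B ∧ Cfsg.blockHeight 2 B (χ : G → ℂ) = 0} ≤ Nat.sqrt (Cfsg.blockRank 2 b) * 2 ^ Cfsg.blockDefect 2 b) ∧ (¬ Odd (Nat.sqrt (Cfsg.blockRank 2 b)) → (Nat.sqrt (Cfsg.blockRank 2 b) + 1) * Nat.card {χ : Cfsg.IrrCharacter G // χ ∈ B ∧ Cfsg.blockHeight 2 B (χ : G → ℂ) = 0} ≤ Cfsg.blockRank 2 b * 2 ^ Cfsg.blockDefect 2 b) ∧ (Cfsg.blockRank 2 b ≤ 3 → Nat.card {χ : Cfsg.IrrCharacter G // χ ∈ B ∧ Cfsg.blockHeight 2 B (χ : G → ℂ) = 0} ≤ 2 ^ Cfsg.blockDefect 2 b) := by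
  classical
  letI : Fintype G := Fintype.ofFinite G
  letI : Fintype (Subgroup.centralizer ({u} : Set G)) := Fintype.ofFinite _
  obtain ⟨n, hn⟩ := exists_n (p := 2) hu
  have hp := isPrime_of_modular hM
  set S : Set (Cfsg.IrrCharacter G) := {χ | χ ∈ B ∧ Cfsg.blockHeight 2 B (χ : G → ℂ) = 0} with hS
  have hcard : Nat.card {χ : Cfsg.IrrCharacter G // χ ∈ B ∧ Cfsg.blockHeight 2 B (χ : G → ℂ) = 0} = Nat.card S := rfl
  rw [hcard]
  set k := Nat.card S with hk
  set l := Cfsg.blockRank 2 b with hl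
  set q := Cfsg.blockDefect 2 b with hq
  -- the integers
  have hA : ∀ χ : Cfsg.IrrCharacter G, ∃ A : ℕ, aa 2 n b χ = A ∧ (χ ∈ S → Odd A) := by
    intro χ
    obtain ⟨A, h1, h2, h3⟩ := aa_two hM hu hb.1 hn χ
    obtain ⟨A', rfl⟩ := Int.eq_ofNat_of_zero_le h2
    refine ⟨A', by rw [h1]; simp, ?_⟩
    intro hχ
    have h4 := con_unit hM hχ.1 hχ.2 hχ.1 hχ.2 hu hb hn
    rw [h3] at h4
    rw [← Nat.not_even_iff_odd, even_iff_two_dvd]
    intro h5
    exact h4 (by exact_mod_cast h5)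
  choose A hA1 hA2 using hA
  have hle : ∀ χ ∈ S, k ≤ 2 ^ q * A χ := by
    intro χ hχ
    have h1 := card_le_aa hM hb.1 hn S χ (fun ψ hψ h0 => by
      apply con_unit hM hχ.1 hχ.2 hψ.1 hψ.2 hu hb hn
      rw [h0]; exact ideal_zero hp)
    rw [hA1] at h1
    exact_mod_cast h1
  have hsum : ∑ χ : Cfsg.IrrCharacter G, A χ = 2 ^ q * l := by
    have h1 := sum_aa hM hu hb.1 hn
    simp only [hA1] at h1
    exact_mod_cast h1
  have hkey : ∀ m : ℕ, (∀ χ ∈ S, m ≤ A χ) → k * m ≤ 2 ^ q * l := by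
    intro m hm
    rw [← hsum, hk, Nat.card_eq_fintype_card, ← Set.toFinset_card, ← smul_eq_mul, ← Finset.sum_const]
    calc ∑ i ∈ S.toFinset, m ≤ ∑ χ ∈ S.toFinset, A χ :=
          Finset.sum_le_sum fun i hi => hm i (Set.mem_toFinset.mp hi)
      _ ≤ _ := Finset.sum_le_sum_of_subset (Finset.subset_univ _)
  set s := Nat.sqrt l with hs
  have hs1 : s * s ≤ l := Nat.sqrt_le l
  have hs2 : l < (s + 1) * (s + 1) := Nat.lt_succ_sqrt l
  have hodd : Odd s → k ≤ s * 2 ^ q := by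
    intro ho
    by_cases h : ∃ χ ∈ S, A χ ≤ s
    · obtain ⟨χ, hχ, h1⟩ := h
      calc k ≤ 2 ^ q * A χ := hle χ hχ
        _ ≤ 2 ^ q * s := Nat.mul_le_mul_left _ h1
        _ = _ := Nat.mul_comm _ _
    · push Not at h
      have h1 := hkey (s + 2) (fun χ hχ => by
        have h2 := h χ hχ
        have h3 := hA2 χ hχ
        rcases Nat.lt_or_ge (s + 1) (A χ) with h4 | h4
        · omega
        · have h5 : A χ = s + 1 := by omega
          rw [h5] at h3
          rcases ho with ⟨a, ha⟩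
          rcases h3 with ⟨c, hc⟩
          omega)
      have h2 : 2 ^ q * l ≤ 2 ^ q * (s * (s + 2)) := Nat.mul_le_mul_left _ (by nlinarith)
      have h3 : k * (s + 2) ≤ (s * 2 ^ q) * (s + 2) := by
        calc k * (s + 2) ≤ 2 ^ q * l := h1
          _ ≤ _ := h2
          _ = _ := by ring
      exact Nat.le_of_mul_le_mul_right h3 (by omega)
  have heven : ¬ Odd s → (s + 1) * k ≤ l * 2 ^ q := by
    intro ho
    rw [Nat.not_odd_iff_even] at ho
    by_cases h : ∃ χ ∈ S, A χ ≤ s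
    · obtain ⟨χ, hχ, h1⟩ := h
      have h3 := hA2 χ hχ
      have h4 : A χ + 1 ≤ s := by
        rcases ho with ⟨a, ha⟩
        rcases h3 with ⟨c, hc⟩
        omega
      obtain ⟨t, ht⟩ : ∃ t, s = t + 1 := ⟨s - 1, by omega⟩
      have h5 : k ≤ 2 ^ q * t := (hle χ hχ).trans (Nat.mul_le_mul_left _ (by omega))
      calc (s + 1) * k ≤ (s + 1) * (2 ^ q * t) := Nat.mul_le_mul_left _ h5
        _ = ((s + 1) * t) * 2 ^ q := by ring
        _ ≤ (s * s) * 2 ^ q := Nat.mul_le_mul_right _ (by rw [ht]; nlinarith)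
        _ ≤ l * 2 ^ q := Nat.mul_le_mul_right _ hs1
    · push Not at h
      have h1 := hkey (s + 1) (fun χ hχ => h χ hχ)
      calc (s + 1) * k = k * (s + 1) := Nat.mul_comm _ _
        _ ≤ 2 ^ q * l := h1
        _ = _ := Nat.mul_comm _ _
  refine ⟨hodd, heven, ?_⟩
  intro hl3
  have hs3 : s ≤ 1 := by
    by_contra h
    push Not at h
    nlinarith
  rcases Nat.eq_zero_or_pos s with h0 | h0
  · have h1 := heven (by rw [h0]; decide)
    rw [h0] at h1 hs2
    have : l = 0 := by omega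
    rw [this] at h1
    simp only [zero_add, one_mul, zero_mul] at h1
    exact h1.trans (Nat.zero_le _)
  · have h1 : s = 1 := by omega
    have h2 := hodd (by rw [h1]; decide)
    rw [h1, one_mul] at h2
    exact h2

end Cfsg.Agent.S4541
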