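import Cfsg.Statements.S4550
import Cfsg.Agent.LibPBSigma

set_option autoImplicit false
set_option linter.all false
open Cfsg

namespace Cfsg.Agent.S4550

open CfsgLib.CharBasic CfsgLib.Clifford CfsgLib.CharNorm CfsgLib.BlockR CfsgLib.BlockCore CfsgLib.BlockIdem CfsgLib.BlockIdeal
  CfsgLib.BlockBrauer CfsgLib.GalChar CfsgLib.BlockOrth CfsgLib.PBNormal CfsgLib.PB20 CfsgLib.PBSigma

/-- Let G be a finite group of even order and M a maximal ideal of the algebraic integers containing 2. Let k be a natural number with g ^ k = g ^ 3 for every 2-element g and g ^ k = g for every element g of odd order (such k exist); an irreducible character χ is unchanged by g ↦ g ^ k exactly when it is fixed by the field automorphism that cubes the 2-power roots of unity and fixes the roots of unity of odd order. Then the number of members χ of the principal 2-block of odd degree with χ (g ^ k) = χ g for all g is even. -/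
theorem result {G : Type*} [Group G] [Finite G] (M : Ideal Cfsg.AlgInt) (hM : Cfsg.IsPModular 2 M) (hev : Even (Nat.card G)) (k : ℕ) (hk₁ : ∀ g : G, (∃ j : ℕ, orderOf g = 2 ^ j) → g ^ k = g ^ 3) (hk₂ : ∀ g : G, Odd (orderOf g) → g ^ k = g) : Even (Nat.card {χ : Cfsg.IrrCharacter G // χ ∈ Cfsg.principalBlock M G ∧ Odd (Cfsg.charDegree (χ : G → ℂ)) ∧ ∀ g : G, (χ : G → ℂ) (g ^ k) = (χ : G → ℂ) g}) := by
  classical
  haveI := Fintype.ofFinite G
  haveI : Fact (Nat.Prime 2) := ⟨Nat.prime_two⟩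
  have hp := isPrime_of_modular hM
  obtain ⟨P⟩ : Nonempty (Sylow 2 G) := inferInstance
  haveI := Fintype.ofFinite (P : Subgroup G)
  obtain ⟨σ, hσ, hσe⟩ := exists_perm hk₁ hk₂
  have hcop := coprime_of hk₁ hk₂
  set f : IrrCharacter G → ℂ := fun χ => ind (principalBlock M G) χ * ((χ : G → ℂ) 1 * (χ : G → ℂ) 1) with hf
  have hind : ∀ χ : IrrCharacter G, MemLocalRing M (ind (principalBlock M G) χ) := by
    intro χ
    unfold ind
    by_cases h : χ ∈ principalBlock M G
    · rw [Set.indicator_of_mem h]; exact ring_one hp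
    · rw [Set.indicator_of_notMem h]; exact ring_zero hp
  have h1 : MemLocalIdeal M (∑ χ : IrrCharacter G, f χ) := by
    have h2 := sum_w hM P 1
    have hP0 : (Nat.card (P : Subgroup G) : ℂ) ≠ 0 := by exact_mod_cast Nat.card_pos.ne'
    have h3 : ∑ χ : IrrCharacter G, f χ = (Nat.card (P : Subgroup G) : ℂ) * ∑ χ : IrrCharacter G, w M (P : Subgroup G) 1 χ := by
      rw [h2, ← mul_assoc, mul_inv_cancel₀ hP0, one_mul]
    rw [h3]
    apply ideal_mul_right hp
    · rw [ideal_nat_iff hM]
      exact P.dvd_card_of_dvd_card (even_iff_two_dvd.mp hev)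
    · exact ring_sum hp _ _ fun χ _ => w_ring hp _ 1 χ
  have h2 := sum_fixed_ideal hM σ (Nat.card G) hσe f (fun χ => by
    simp only [hf]
    rw [ind_pow hcop (hσ χ), hσ, one_pow]) (fun χ => ring_mul hp (hind χ) (ring_mul hp (irr_ring hp χ 1) (irr_ring hp χ 1)))
  have h3 := ideal_sub hp h1 h2
  rw [sub_sub_cancel, Finset.sum_filter] at h3
  set S : Finset (IrrCharacter G) := Finset.univ.filter (fun χ => χ ∈ principalBlock M G ∧ Odd (charDegree (χ : G → ℂ)) ∧ ∀ g : G, (χ : G → ℂ) (g ^ k) = (χ : G → ℂ) g) with hS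
  have hcard : Nat.card {χ : IrrCharacter G // χ ∈ principalBlock M G ∧ Odd (charDegree (χ : G → ℂ)) ∧ ∀ g : G, (χ : G → ℂ) (g ^ k) = (χ : G → ℂ) g} = S.card := by
    rw [Nat.card_eq_fintype_card, Fintype.card_subtype]
  rw [hcard, even_iff_two_dvd, ← ideal_nat_iff hM]
  have h4 : (S.card : ℂ) = ∑ χ : IrrCharacter G, if (χ ∈ principalBlock M G ∧ Odd (charDegree (χ : G → ℂ)) ∧ ∀ g : G, (χ : G → ℂ) (g ^ k) = (χ : G → ℂ) g) then (1 : ℂ) else 0 := by
    rw [Finset.sum_ite, Finset.sum_const_zero, add_zero, Finset.sum_const, nsmul_eq_mul, mul_one]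
  have h5 : (S.card : ℂ) = (∑ χ : IrrCharacter G, if σ χ = χ then f χ else 0) - ∑ χ : IrrCharacter G, ((if σ χ = χ then f χ else 0) - if (χ ∈ principalBlock M G ∧ Odd (charDegree (χ : G → ℂ)) ∧ ∀ g : G, (χ : G → ℂ) (g ^ k) = (χ : G → ℂ) g) then (1 : ℂ) else 0) := by
    rw [Finset.sum_sub_distrib, sub_sub_cancel, h4]
  rw [h5]
  refine ideal_sub hp h3 (ideal_sum hp _ _ fun χ _ => ?_)
  have hfix : σ χ = χ ↔ ∀ g : G, (χ : G → ℂ) (g ^ k) = (χ : G → ℂ) g := by
    constructor
    · intro h g; rw [← hσ, h]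
    · intro h
      apply Subtype.ext
      funext g
      rw [hσ, h]
  simp only [hfix]
  by_cases hfx : ∀ g : G, (χ : G → ℂ) (g ^ k) = (χ : G → ℂ) g
  · by_cases hB : χ ∈ principalBlock M G
    · have hi : ind (principalBlock M G) χ = 1 := by unfold ind; rw [Set.indicator_of_mem hB]
      rw [if_pos hfx]
      simp only [hf, hi, one_mul]
      rw [CfsgLib.CharInt.irr_one_eq_charDegree χ.2]
      rcases Nat.even_or_odd (charDegree (χ : G → ℂ)) with he | ho
      · rw [if_neg (fun h => (Nat.not_even_iff_odd.mpr h.2.1) he), sub_zero, ← Nat.cast_mul, ideal_nat_iff hM]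
        exact (even_iff_two_dvd.mp he).mul_right _
      · rw [if_pos ⟨hB, ho, hfx⟩]
        obtain ⟨r, hr⟩ := ho
        rw [hr]
        have : ((2 * r + 1 : ℕ) : ℂ) * ((2 * r + 1 : ℕ) : ℂ) - 1 = ((2 * (2 * r * r + 2 * r) : ℕ) : ℂ) := by
          push_cast; ring
        rw [this, ideal_nat_iff hM]
        exact Dvd.intro _ rfl
    · have hi : ind (principalBlock M G) χ = 0 := by unfold ind; rw [Set.indicator_of_notMem hB]
      rw [if_pos hfx, if_neg (fun h => hB h.1)]
      simp only [hf, hi, zero_mul, sub_zero]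
      exact ideal_zero hp
  · rw [if_neg hfx, if_neg (fun h => hfx h.2.2), sub_zero]
    exact ideal_zero hp

end Cfsg.Agent.S4550
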