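import Cfsg.Statements.S4558
import Cfsg.Agent.EqBase
import Cfsg.Agent.LibBlockQP
import Cfsg.Agent.LibBlockReg2

set_option autoImplicit false
open Cfsg

namespace Cfsg.Agent.S4558



/-- Let χ be a character of the finite group G and g an element of p-power order for the prime p. If χ g = 0, then p divides the degree of χ. -/
theorem result {G : Type*} [Group G] [Finite G] (p : ℕ) [Fact p.Prime] (χ : G → ℂ) (hχ : Cfsg.IsCharacter G χ) (g : G) (hg : ∃ j : ℕ, orderOf g = p ^ j) (h0 : χ g = 0) : p ∣ Cfsg.charDegree χ := by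
  classical
  obtain ⟨M, hM⟩ := CfsgLib.BlockReg2.exists_modular p Fact.out
  have h1 := CfsgLib.BlockQP.char_congr hM hχ (u := g) (x := 1) (Commute.one_right g) hg
  rw [mul_one, h0, zero_sub] at h1
  have h2 := CfsgLib.BlockR.ideal_neg h1
  rw [neg_neg, CfsgLib.CharInt.char_one_eq_charDegree hχ] at h2
  exact (CfsgLib.BlockR.ideal_nat_iff hM).1 h2

end Cfsg.Agent.S4558
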