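import Cfsg.Statements.S4560
import Cfsg.Agent.LibAltZC19

set_option autoImplicit false
open Cfsg

namespace Cfsg.Agent.S4560


/-- For n ≥ 7 the alternating group on n letters has an irreducible character that vanishes at some 2-element and is the restriction of an irreducible character of the symmetric group, and an irreducible character that vanishes at some element of order 3 and is the restriction of an irreducible character of the symmetric group. -/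
theorem result (n : ℕ) (hn : 7 ≤ n) : (∃ χ : Cfsg.IrrCharacter (alternatingGroup (Fin n)), (∃ x : alternatingGroup (Fin n), (∃ j : ℕ, orderOf x = 2 ^ j) ∧ (χ : alternatingGroup (Fin n) → ℂ) x = 0) ∧ ∃ ψ : Cfsg.IrrCharacter (Equiv.Perm (Fin n)), ∀ x : alternatingGroup (Fin n), (ψ : Equiv.Perm (Fin n) → ℂ) x = (χ : alternatingGroup (Fin n) → ℂ) x) ∧ (∃ χ : Cfsg.IrrCharacter (alternatingGroup (Fin n)), (∃ y : alternatingGroup (Fin n), orderOf y = 3 ∧ (χ : alternatingGroup (Fin n) → ℂ) y = 0) ∧ ∃ ψ : Cfsg.IrrCharacter (Equiv.Perm (Fin n)), ∀ x : alternatingGroup (Fin n), (ψ : Equiv.Perm (Fin n) → ℂ) x = (χ : alternatingGroup (Fin n) → ℂ) x) := by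
  classical
  letI := Fintype.ofFinite (alternatingGroup (Fin n))
  have hcard : 4 ≤ Fintype.card (Fin n) := by rw [Fintype.card_fin]; omega
  have hcard' : Nat.card (Fin n) = n := by rw [Nat.card_eq_fintype_card, Fintype.card_fin]
  haveI hA : MulAction.IsMultiplyPretransitive (alternatingGroup (Fin n)) (Fin n) 4 := by
    haveI := alternatingGroup.isMultiplyPretransitive (Fin n)
    exact MulAction.isMultiplyPretransitive_of_le (n := Nat.card (Fin n) - 2) (by omega) (by omega)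
  haveI hS : MulAction.IsMultiplyPretransitive (Equiv.Perm (Fin n)) (Fin n) 4 := by
    haveI := Equiv.Perm.isMultiplyPretransitive (Fin n) (Nat.card (Fin n))
    exact MulAction.isMultiplyPretransitive_of_le (n := Nat.card (Fin n)) (by omega) le_rfl
  have key1 : ∀ x : alternatingGroup (Fin n), Nat.card (MulAction.fixedBy (Fin n) (x : Equiv.Perm (Fin n))) = 1 →
      ∃ χ : Cfsg.IrrCharacter (alternatingGroup (Fin n)), (χ : alternatingGroup (Fin n) → ℂ) x = 0 ∧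
        ∃ ψ : Cfsg.IrrCharacter (Equiv.Perm (Fin n)), ∀ x : alternatingGroup (Fin n), (ψ : Equiv.Perm (Fin n) → ℂ) x = (χ : alternatingGroup (Fin n) → ℂ) x := by
    intro x hx
    refine ⟨⟨_, CfsgLib.AltZ19.irr_one (Γ := alternatingGroup (Fin n)) (X := Fin n) hcard⟩, ?_,
      ⟨_, CfsgLib.AltZ19.irr_one (Γ := Equiv.Perm (Fin n)) (X := Fin n) hcard⟩, fun y => rfl⟩
    change ((Nat.card (MulAction.fixedBy (Fin n) (x : Equiv.Perm (Fin n))) : ℕ) : ℂ) - 1 = 0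
    rw [hx]
    simp
  have key2 : ∀ x : alternatingGroup (Fin n), Nat.card (MulAction.fixedBy (Fin n) (x : Equiv.Perm (Fin n))) = 0 →
      Nat.card (CfsgLib.AltZ19.D (X := Fin n) (x : Equiv.Perm (Fin n))) = 0 →
      ∃ χ : Cfsg.IrrCharacter (alternatingGroup (Fin n)), (χ : alternatingGroup (Fin n) → ℂ) x = 0 ∧
        ∃ ψ : Cfsg.IrrCharacter (Equiv.Perm (Fin n)), ∀ x : alternatingGroup (Fin n), (ψ : Equiv.Perm (Fin n) → ℂ) x = (χ : alternatingGroup (Fin n) → ℂ) x := by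
    intro x hx hx2
    refine ⟨⟨_, CfsgLib.AltZ19.irr_two (Γ := alternatingGroup (Fin n)) (X := Fin n) hcard⟩, ?_,
      ⟨_, CfsgLib.AltZ19.irr_two (Γ := Equiv.Perm (Fin n)) (X := Fin n) hcard⟩, fun y => rfl⟩
    change (((Nat.card (MulAction.fixedBy (Fin n) (x : Equiv.Perm (Fin n))) : ℕ) : ℂ) * (((Nat.card (MulAction.fixedBy (Fin n) (x : Equiv.Perm (Fin n))) : ℕ) : ℂ) - 3) + ((Nat.card (CfsgLib.AltZ19.D (X := Fin n) (x : Equiv.Perm (Fin n))) : ℕ) : ℂ)) / 2 = 0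
    rw [hx, hx2]
    simp
  have key3 : ∀ x : alternatingGroup (Fin n), Nat.card (MulAction.fixedBy (Fin n) (x : Equiv.Perm (Fin n))) = 2 →
      Nat.card (CfsgLib.AltZ19.D (X := Fin n) (x : Equiv.Perm (Fin n))) = 0 →
      ∃ χ : Cfsg.IrrCharacter (alternatingGroup (Fin n)), (χ : alternatingGroup (Fin n) → ℂ) x = 0 ∧
        ∃ ψ : Cfsg.IrrCharacter (Equiv.Perm (Fin n)), ∀ x : alternatingGroup (Fin n), (ψ : Equiv.Perm (Fin n) → ℂ) x = (χ : alternatingGroup (Fin n) → ℂ) x := by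
    intro x hx hx2
    refine ⟨⟨_, CfsgLib.AltZ19.irr_three (Γ := alternatingGroup (Fin n)) (X := Fin n) hcard⟩, ?_,
      ⟨_, CfsgLib.AltZ19.irr_three (Γ := Equiv.Perm (Fin n)) (X := Fin n) hcard⟩, fun y => rfl⟩
    change ((((Nat.card (MulAction.fixedBy (Fin n) (x : Equiv.Perm (Fin n))) : ℕ) : ℂ) - 1) * (((Nat.card (MulAction.fixedBy (Fin n) (x : Equiv.Perm (Fin n))) : ℕ) : ℂ) - 2) - ((Nat.card (CfsgLib.AltZ19.D (X := Fin n) (x : Equiv.Perm (Fin n))) : ℕ) : ℂ)) / 2 = 0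
    rw [hx, hx2]
    simp
  constructor
  · rcases (by omega : n % 2 = 1 ∨ (n - 0) % 4 = 0 ∨ (n - 2) % 4 = 0) with h | h | h
    · obtain ⟨x, hx, hf⟩ := CfsgLib.AltZ19.elem_odd hn h
      obtain ⟨χ, hχ, hψ⟩ := key1 x hf
      exact ⟨χ, ⟨x, hx, hχ⟩, hψ⟩
    · obtain ⟨x, hx, hf, hd⟩ := CfsgLib.AltZ19.elem_even hn (by norm_num) h
      obtain ⟨χ, hχ, hψ⟩ := key2 x hf hd
      exact ⟨χ, ⟨x, hx, hχ⟩, hψ⟩
    · obtain ⟨x, hx, hf, hd⟩ := CfsgLib.AltZ19.elem_even hn (by norm_num) h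
      obtain ⟨χ, hχ, hψ⟩ := key3 x hf hd
      exact ⟨χ, ⟨x, hx, hχ⟩, hψ⟩
  · rcases (by omega : (n - 0) % 3 = 0 ∨ (n - 1) % 3 = 0 ∨ (n - 2) % 3 = 0) with h | h | h
    · obtain ⟨x, hx, hf, hd⟩ := CfsgLib.AltZ19.elem_three hn (by norm_num) h
      obtain ⟨χ, hχ, hψ⟩ := key2 x hf hd
      exact ⟨χ, ⟨x, hx, hχ⟩, hψ⟩
    · obtain ⟨x, hx, hf, hd⟩ := CfsgLib.AltZ19.elem_three hn (by norm_num) h
      obtain ⟨χ, hχ, hψ⟩ := key1 x hf
      exact ⟨χ, ⟨x, hx, hχ⟩, hψ⟩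
    · obtain ⟨x, hx, hf, hd⟩ := CfsgLib.AltZ19.elem_three hn (by norm_num) h
      obtain ⟨χ, hχ, hψ⟩ := key3 x hf hd
      exact ⟨χ, ⟨x, hx, hχ⟩, hψ⟩

end Cfsg.Agent.S4560
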