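import Cfsg.Statements.S4567
import Cfsg.Agent.LibCentChar20
import Cfsg.Agent.LibPermLemma
import Cfsg.Agent.LibQuot19

set_option autoImplicit false
set_option linter.all false
open Cfsg

namespace Cfsg.Agent.S4567

open CfsgLib.CharBasic
open scoped ComplexConjugate

/-- Let N be a central subgroup of the finite group G and ψ a faithful irreducible (hence degree-one) character of N. Call a coset g N special when every x ∈ G whose commutator x⁻¹ g⁻¹ x g lies in N actually commutes with g (this depends only on the coset). Then the number of irreducible characters of G whose restriction to N contains ψ equals the number of conjugacy classes of G/N consisting of special cosets. -/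
theorem result {G : Type*} [Group G] [Fintype G] (N : Subgroup G) [N.Normal] [Fintype N] (hN : N ≤ Subgroup.center G) (ψ : Cfsg.IrrCharacter ↥N) (hfaith : ∀ n : ↥N, (ψ : ↥N → ℂ) n = (ψ : ↥N → ℂ) 1 → n = 1) : Nat.card {χ : Cfsg.IrrCharacter G // Cfsg.classInner (fun n : ↥N => (χ : G → ℂ) n) (ψ : ↥N → ℂ) ≠ 0} = Nat.card {C : ConjClasses (G ⧸ N) // ∃ g : G, ConjClasses.mk (g : G ⧸ N) = C ∧ ∀ x : G, x⁻¹ * g⁻¹ * x * g ∈ N → x * g = g * x} := by
  classical
  haveI := Fintype.ofFinite (G ⧸ N)
  haveI := Fintype.ofFinite (ConjClasses (G ⧸ N))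
  have hab : ∀ a b : N, a * b = b * a := fun a b => Subtype.ext (Subgroup.mem_center_iff.mp (hN b.2) a)
  have hψ1 := irr_degree_one_of_comm hab ψ.2
  have hNc : (Nat.card N : ℂ) ≠ 0 := by exact_mod_cast Nat.card_pos.ne'
  have hGc : (Nat.card G : ℂ) ≠ 0 := by exact_mod_cast Nat.card_pos.ne'
  let Sp : G → Prop := fun g => ∀ x : G, x⁻¹ * g⁻¹ * x * g ∈ N → x * g = g * x
  let S : Finset (IrrCharacter G) := Finset.univ.filter fun χ => classInner (fun n : N => (χ : G → ℂ) n) (ψ : N → ℂ) ≠ 0
  have hcen : ∀ (n : N) (x : G), x * n = n * x := fun n x => Subgroup.mem_center_iff.mp (hN n.2) x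
  -- the column sums
  have hcol : ∀ g : G, ∑ χ ∈ S, (χ : G → ℂ) g * conj ((χ : G → ℂ) g) =
      if Sp g then (Nat.card (Subgroup.centralizer ({(g : G ⧸ N)} : Set (G ⧸ N))) : ℂ) else 0 := by
    intro g
    by_cases hg : Sp g
    · rw [if_pos hg]
      -- the centralizer in the quotient
      have hcc : Nat.card (Subgroup.centralizer ({g} : Set G)) = Nat.card (Subgroup.centralizer ({(g : G ⧸ N)} : Set (G ⧸ N))) * Nat.card N := by
        have h1 : Subgroup.centralizer ({g} : Set G) = (Subgroup.centralizer ({(g : G ⧸ N)} : Set (G ⧸ N))).comap (QuotientGroup.mk' N) := by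
          ext x
          rw [Subgroup.mem_comap, Subgroup.mem_centralizer_singleton_iff, Subgroup.mem_centralizer_singleton_iff]
          constructor
          · intro h
            show (x : G ⧸ N) * g = g * x
            rw [← QuotientGroup.mk_mul, ← QuotientGroup.mk_mul, h]
          · intro h
            apply hg
            have h2 : ((g * x : G) : G ⧸ N) = ((x * g : G) : G ⧸ N) := h.symm
            have h3 := QuotientGroup.eq.mp h2
            have h4 : (g * x)⁻¹ * (x * g) = x⁻¹ * g⁻¹ * x * g := by group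
            rwa [h4] at h3
        rw [h1]
        set C' := Subgroup.centralizer ({(g : G ⧸ N)} : Set (G ⧸ N))
        have h2 := Subgroup.card_mul_index (C'.comap (QuotientGroup.mk' N))
        rw [Subgroup.index_comap_of_surjective _ (QuotientGroup.mk'_surjective N)] at h2
        have h3 := Subgroup.card_mul_index C'
        have h4 := Subgroup.card_eq_card_quotient_mul_card_subgroup N
        have h5 : 0 < C'.index := Nat.pos_of_ne_zero Subgroup.index_ne_zero_of_finite
        apply Nat.eq_of_mul_eq_mul_right h5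
        rw [h2, h4, ← h3]; ring
      have hk : ∀ χ : IrrCharacter G, ∃ c : N → ℂ, (∀ (n : N) (x : G), (χ : G → ℂ) (n * x) = c n * (χ : G → ℂ) x) ∧
          (Nat.card N : ℂ)⁻¹ * ∑ n : N, conj ((ψ : N → ℂ) n) * c n = if χ ∈ S then 1 else 0 := by
        intro χ
        obtain ⟨l, hl⟩ := CfsgLib.BrLeon.central_hom N.subtype (fun z c => (Subgroup.mem_center_iff.mp (hN z.2) c).symm) χ.2
        refine ⟨fun n => (l n : ℂ), hl, ?_⟩
        have h1 : (fun n : N => (χ : G → ℂ) n) = ((χ : G → ℂ) 1) • (fun n : N => (l n : ℂ)) := by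
          funext n
          have := hl n 1
          rw [mul_one] at this
          rw [Pi.smul_apply, smul_eq_mul, mul_comm]
          exact this
        have h2 : (Nat.card N : ℂ)⁻¹ * ∑ n : N, conj ((ψ : N → ℂ) n) * (l n : ℂ) = classInner (fun n : N => (l n : ℂ)) (ψ : N → ℂ) := by
          unfold classInner
          congr 1
          exact Finset.sum_congr rfl fun n _ => mul_comm _ _
        rw [h2, CfsgLib.Exc.irr_inner_ite (isIrrCharacter_hom l) ψ.2]
        congr 1
        simp only [S, Finset.mem_filter, Finset.mem_univ, true_and, h1]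
        rw [CfsgLib.CharBasic.inner_smul_left, CfsgLib.Exc.irr_inner_ite (isIrrCharacter_hom l) ψ.2]
        apply propext
        constructor
        · intro h
          rw [if_pos h, mul_one]; exact irr_one_ne_zero χ.2
        · intro h
          by_contra h3
          rw [if_neg h3, mul_zero] at h
          exact h rfl
      choose c hc1 hc2 using hk
      have h3 : ∑ χ ∈ S, (χ : G → ℂ) g * conj ((χ : G → ℂ) g) =
          (Nat.card N : ℂ)⁻¹ * ∑ n : N, conj ((ψ : N → ℂ) n) * ∑ χ : IrrCharacter G, (χ : G → ℂ) (n * g) * conj ((χ : G → ℂ) g) := by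
        have h4 : ∀ n : N, conj ((ψ : N → ℂ) n) * ∑ χ : IrrCharacter G, (χ : G → ℂ) (n * g) * conj ((χ : G → ℂ) g) =
            ∑ χ : IrrCharacter G, (conj ((ψ : N → ℂ) n) * c χ n) * ((χ : G → ℂ) g * conj ((χ : G → ℂ) g)) := by
          intro n
          rw [Finset.mul_sum]
          refine Finset.sum_congr rfl fun χ _ => ?_
          rw [hc1]; ring
        simp only [h4]
        rw [Finset.sum_comm, Finset.mul_sum]
        have h5 : ∀ χ : IrrCharacter G, (Nat.card N : ℂ)⁻¹ * ∑ n : N, (conj ((ψ : N → ℂ) n) * c χ n) * ((χ : G → ℂ) g * conj ((χ : G → ℂ) g)) =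
            if χ ∈ S then (χ : G → ℂ) g * conj ((χ : G → ℂ) g) else 0 := by
          intro χ
          rw [← Finset.sum_mul, ← mul_assoc, hc2]
          split_ifs <;> simp
        simp only [h5]
        rw [Finset.sum_ite_mem, Finset.univ_inter]
      rw [h3]
      simp only [column_orthogonality]
      rw [Finset.sum_eq_single (1 : N)]
      · rw [Subgroup.coe_one, one_mul, if_pos (IsConj.refl g), hψ1, map_one, one_mul, hcc]
        push_cast
        field_simp
      · intro n _ hn
        rw [if_neg, mul_zero]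
        intro h
        obtain ⟨x, hx⟩ := isConj_iff.mp h
        apply hn
        -- x (n g) x⁻¹ = g
        have h6 : x * g = (n : G)⁻¹ * (g * x) := by
          have h7 : (n : G) * (x * g) = g * x := by
            calc (n : G) * (x * g) = ((n : G) * x) * g := by group
              _ = (x * n) * g := by rw [hcen]
              _ = (x * (n * g) * x⁻¹) * x := by group
              _ = g * x := by rw [hx]
          rw [← h7]; group
        have h8 := hg x (by
          have h9 : x⁻¹ * g⁻¹ * x * g = (n : G)⁻¹ := by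
            calc x⁻¹ * g⁻¹ * x * g = x⁻¹ * g⁻¹ * (x * g) := by group
              _ = (x⁻¹ * (g⁻¹ * (n : G)⁻¹)) * (g * x) := by rw [h6]; group
              _ = (x⁻¹ * ((n : G)⁻¹ * g⁻¹)) * (g * x) := by
                  have := hcen n⁻¹ g⁻¹
                  rw [Subgroup.coe_inv] at this
                  rw [this]
              _ = x⁻¹ * (n : G)⁻¹ * x := by group
              _ = (n : G)⁻¹ := by
                  have := hcen n⁻¹ x⁻¹
                  rw [Subgroup.coe_inv] at this
                  rw [this]; group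
          rw [h9]; exact inv_mem n.2)
        rw [h8] at h6
        apply Subtype.ext
        rw [Subgroup.coe_one]
        exact inv_eq_one.mp (mul_eq_right.mp h6.symm)
      · intro h; exact absurd (Finset.mem_univ _) h
    · rw [if_neg hg]
      apply Finset.sum_eq_zero
      intro χ hχ
      simp only [S, Finset.mem_filter, Finset.mem_univ, true_and] at hχ
      simp only [Sp] at hg
      push Not at hg
      obtain ⟨x, hx1, hx2⟩ := hg
      rw [CfsgLib.CentChar20.vanish N hN ψ.2 hfaith χ.2 hχ g x hx1 (fun h => hx2 (by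
        have h5 : x⁻¹ * g⁻¹ * x * g = (g * x)⁻¹ * (x * g) := by group
        rw [h5, inv_mul_eq_one] at h
        exact h.symm)), zero_mul]
  -- the class function
  let F : ConjClasses (G ⧸ N) → ℂ := fun C => if ∃ g : G, ConjClasses.mk (g : G ⧸ N) = C ∧ Sp g then 1 else 0
  have hF : ∀ g : G, F (ConjClasses.mk (g : G ⧸ N)) = if Sp g then 1 else 0 := by
    intro g
    have h1 : (∃ g' : G, ConjClasses.mk (g' : G ⧸ N) = ConjClasses.mk (g : G ⧸ N) ∧ Sp g') ↔ Sp g := by
      constructor
      · rintro ⟨g', h1, h2⟩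
        obtain ⟨q, hq⟩ := isConj_iff.mp (ConjClasses.mk_eq_mk_iff_isConj.mp h1)
        obtain ⟨y, rfl⟩ := QuotientGroup.mk_surjective q
        have h3 : ((y * g' * y⁻¹ : G) : G ⧸ N) = (g : G ⧸ N) := hq
        have h4 := QuotientGroup.eq.mp h3
        obtain ⟨n, hn⟩ : ∃ n : N, g = y * g' * y⁻¹ * n := ⟨⟨_, h4⟩, by group⟩
        intro x hx
        have e1 : (y⁻¹ * x * y)⁻¹ * g'⁻¹ * (y⁻¹ * x * y) * g' = y⁻¹ * (x⁻¹ * g⁻¹ * x * g) * y := by
          have e2 : x⁻¹ * g⁻¹ * x * g = x⁻¹ * (y * g' * y⁻¹)⁻¹ * x * (y * g' * y⁻¹) := by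
            have e3 : x⁻¹ * g⁻¹ * x * g = x⁻¹ * (((n : G)⁻¹ * (y * g' * y⁻¹)⁻¹) * x) * (y * g' * y⁻¹ * n) := by rw [hn]; group
            have e4 : (n : G)⁻¹ * (y * g' * y⁻¹)⁻¹ * x = (y * g' * y⁻¹)⁻¹ * x * (n : G)⁻¹ := by
              have := hcen n⁻¹ ((y * g' * y⁻¹)⁻¹ * x)
              rw [Subgroup.coe_inv] at this
              rw [this]; group
            rw [e3, e4]
            calc x⁻¹ * ((y * g' * y⁻¹)⁻¹ * x * (n : G)⁻¹) * (y * g' * y⁻¹ * n) = x⁻¹ * (y * g' * y⁻¹)⁻¹ * x * ((n : G)⁻¹ * ((y * g' * y⁻¹) * n)) := by group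
              _ = x⁻¹ * (y * g' * y⁻¹)⁻¹ * x * ((n : G)⁻¹ * (n * (y * g' * y⁻¹))) := by rw [hcen n (y * g' * y⁻¹)]
              _ = _ := by group
          rw [e2]; group
        have h5 := h2 (y⁻¹ * x * y) (by
          rw [e1]
          have := (inferInstance : N.Normal).conj_mem _ hx y⁻¹
          rwa [inv_inv] at this)
        have h6 : x * (y * g' * y⁻¹) = (y * g' * y⁻¹) * x := by
          calc x * (y * g' * y⁻¹) = y * ((y⁻¹ * x * y) * g') * y⁻¹ := by group
            _ = y * (g' * (y⁻¹ * x * y)) * y⁻¹ := by rw [h5]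
            _ = _ := by group
        rw [hn]
        calc x * (y * g' * y⁻¹ * n) = (x * (y * g' * y⁻¹)) * n := by group
          _ = (y * g' * y⁻¹) * (x * n) := by rw [h6]; group
          _ = (y * g' * y⁻¹) * (n * x) := by rw [hcen]
          _ = _ := by group
      · intro h; exact ⟨g, rfl, h⟩
    show (if _ then (1 : ℂ) else 0) = _
    simp only [h1]
  have hcount : (Nat.card {χ : IrrCharacter G // classInner (fun n : N => (χ : G → ℂ) n) (ψ : N → ℂ) ≠ 0} : ℂ) = (S.card : ℂ) := by
    rw [Nat.card_eq_fintype_card, Fintype.card_subtype]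
  have h1 : (S.card : ℂ) = (Nat.card G : ℂ)⁻¹ * ∑ g : G, ∑ χ ∈ S, (χ : G → ℂ) g * conj ((χ : G → ℂ) g) := by
    rw [Finset.sum_comm, Finset.mul_sum]
    have h2 : ∀ χ ∈ S, (Nat.card G : ℂ)⁻¹ * ∑ g : G, (χ : G → ℂ) g * conj ((χ : G → ℂ) g) = 1 := fun χ _ => irr_inner_self χ.2
    rw [Finset.sum_congr rfl h2]; simp
  have h2 : ∑ g : G, ∑ χ ∈ S, (χ : G → ℂ) g * conj ((χ : G → ℂ) g) =
      ∑ g : G, F (ConjClasses.mk (g : G ⧸ N)) * (Nat.card (Subgroup.centralizer ({(g : G ⧸ N)} : Set (G ⧸ N))) : ℂ) := by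
    refine Finset.sum_congr rfl fun g _ => ?_
    rw [hcol, hF]
    split_ifs <;> simp
  have h3 := CfsgLib.PermLemma.sum_centralizer_class F
  have h4 : (Nat.card {C : ConjClasses (G ⧸ N) // ∃ g : G, ConjClasses.mk (g : G ⧸ N) = C ∧ ∀ x : G, x⁻¹ * g⁻¹ * x * g ∈ N → x * g = g * x} : ℂ) = ∑ C : ConjClasses (G ⧸ N), F C := by
    rw [Nat.card_eq_fintype_card, Fintype.card_subtype]
    simp only [F]
    rw [Finset.sum_boole]
  have h5 := CfsgLib.Quot19.sum_quot N (fun q : G ⧸ N => F (ConjClasses.mk q) * (Nat.card (Subgroup.centralizer ({q} : Set (G ⧸ N))) : ℂ))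
  have h6 : (Nat.card {χ : IrrCharacter G // classInner (fun n : N => (χ : G → ℂ) n) (ψ : N → ℂ) ≠ 0} : ℂ) =
      (Nat.card {C : ConjClasses (G ⧸ N) // ∃ g : G, ConjClasses.mk (g : G ⧸ N) = C ∧ ∀ x : G, x⁻¹ * g⁻¹ * x * g ∈ N → x * g = g * x} : ℂ) := by
    rw [hcount, h1, h2, h4, h5, h3]
    have h7 : (Nat.card G : ℂ) = (Nat.card (G ⧸ N) : ℂ) * Nat.card N := by
      rw [← Nat.cast_mul, ← Subgroup.card_eq_card_quotient_mul_card_subgroup N]
    rw [h7] at hGc
    rw [h7, mul_left_comm (Nat.card N : ℂ), ← mul_assoc (Nat.card (G ⧸ N) : ℂ), inv_mul_cancel_left₀ hGc]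
  exact_mod_cast h6


end Cfsg.Agent.S4567
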