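import Cfsg.Statements.S4574
import Cfsg.Agent.EqBase
import Cfsg.Agent.LibGalChar
import Cfsg.Agent.LibCharInt

set_option autoImplicit false
open Cfsg

namespace Cfsg.Agent.S4574

open scoped ComplexConjugate
open CfsgLib.CharBasic CfsgLib.GalChar

/-- Let χ be an irreducible character of the finite group G, of degree d, and let Z(χ) be the set of elements g with |χ g| = d (the centre of χ). Then χ vanishes on at least (d ^ 2 - 1) · |Z(χ)| elements of G, with equality when every value |χ g| is 0, 1 or d. -/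
theorem result {G : Type*} [Group G] [Fintype G] [DecidableEq G] (χ : G → ℂ) (hχ : Cfsg.IsIrrCharacter G χ) : (Cfsg.charDegree χ ^ 2 - 1) * (Finset.univ.filter (fun g : G => ‖χ g‖ = (Cfsg.charDegree χ : ℝ))).card ≤ (Finset.univ.filter (fun g : G => χ g = 0)).card ∧ ((∀ g : G, ‖χ g‖ = 0 ∨ ‖χ g‖ = 1 ∨ ‖χ g‖ = (Cfsg.charDegree χ : ℝ)) → (Cfsg.charDegree χ ^ 2 - 1) * (Finset.univ.filter (fun g : G => ‖χ g‖ = (Cfsg.charDegree χ : ℝ))).card = (Finset.univ.filter (fun g : G => χ g = 0)).card) := by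
  classical
  obtain ⟨n, ρ, hρ, hχe⟩ := id hχ
  have hχc : IsCharacter G χ := irr_isCharacter hχ
  set d := charDegree χ with hd
  have hd1 : χ 1 = (d : ℂ) := CfsgLib.CharInt.char_one_eq_charDegree hχc
  have hdn : d = n := by
    have h1 : χ 1 = (n : ℂ) := by rw [← hχe]; simp
    rw [hd1] at h1
    exact_mod_cast h1
  have hdpos : 0 < d := by
    rcases Nat.eq_zero_or_pos d with h | h
    · exfalso
      apply irr_one_ne_zero hχ
      rw [hd1, h, Nat.cast_zero]
    · exact h
  set Z := Finset.univ.filter (fun g : G => ‖χ g‖ = (d : ℝ)) with hZ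
  set O := Finset.univ.filter (fun g : G => χ g = 0) with hO
  set S := Finset.univ.filter (fun g : G => χ g ≠ 0 ∧ ‖χ g‖ ≠ (d : ℝ)) with hS
  have hnorm : ∀ g : G, ‖χ g‖ = (d : ℝ) ↔ ∃ ω : ℂ, ρ g = ω • (LinearMap.id : (Fin n → ℂ) →ₗ[ℂ] _) := by
    intro g
    have := norm_character_eq_iff ρ g
    rw [Module.finrank_fin_fun] at this
    rw [← this, hχe, hdn]
  have hsum : ∑ g : G, ‖χ g‖ ^ 2 = (Fintype.card G : ℝ) := by
    have h1 := irr_inner_self hχ
    unfold classInner at h1
    have hG : (Nat.card G : ℂ) ≠ 0 := by exact_mod_cast Nat.card_pos.ne'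
    have h2 : ∑ g : G, χ g * conj (χ g) = (Nat.card G : ℂ) := by
      field_simp at h1
      exact h1
    have h3 : ((∑ g : G, ‖χ g‖ ^ 2 : ℝ) : ℂ) = ((Fintype.card G : ℝ) : ℂ) := by
      push_cast
      rw [← Nat.card_eq_fintype_card, ← h2]
      refine Finset.sum_congr rfl fun g _ => ?_
      rw [Complex.mul_conj, Complex.normSq_eq_norm_sq]
      push_cast; rfl
    exact_mod_cast h3
  have hZO : Disjoint Z O := by
    rw [Finset.disjoint_left]
    intro g hg hg'
    rw [hZ, Finset.mem_filter] at hg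
    rw [hO, Finset.mem_filter] at hg'
    rw [hg'.2, norm_zero] at hg
    have : (d : ℝ) ≠ 0 := by exact_mod_cast hdpos.ne'
    exact this hg.2.symm
  have hZOS : Disjoint (Z ∪ O) S := by
    rw [Finset.disjoint_left]
    intro g hg hg'
    rw [hS, Finset.mem_filter] at hg'
    rw [Finset.mem_union, hZ, hO, Finset.mem_filter, Finset.mem_filter] at hg
    rcases hg with h | h
    · exact hg'.2.2 h.2
    · exact hg'.2.1 h.2
  have huniv : (Z ∪ O) ∪ S = Finset.univ := by
    ext g
    simp only [hZ, hO, hS, Finset.mem_union, Finset.mem_filter, Finset.mem_univ, true_and, iff_true]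
    tauto
  have hcard : (Z.card : ℝ) + O.card + S.card = Fintype.card G := by
    rw [← Finset.card_univ, ← huniv, Finset.card_union_of_disjoint hZOS,
      Finset.card_union_of_disjoint hZO]
    push_cast; ring
  have hs1 : ∑ g ∈ Z, ‖χ g‖ ^ 2 = Z.card * (d : ℝ) ^ 2 := by
    rw [Finset.sum_congr rfl (g := fun _ => (d : ℝ) ^ 2)]
    · rw [Finset.sum_const, nsmul_eq_mul]
    · intro g hg
      rw [hZ, Finset.mem_filter] at hg
      rw [hg.2]
  have hs2 : ∑ g ∈ O, ‖χ g‖ ^ 2 = 0 := by
    refine Finset.sum_eq_zero fun g hg => ?_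
    rw [hO, Finset.mem_filter] at hg
    rw [hg.2, norm_zero]; ring
  have hs3 : (Z.card : ℝ) * (d : ℝ) ^ 2 + ∑ g ∈ S, ‖χ g‖ ^ 2 = Fintype.card G := by
    rw [← hsum, ← huniv, Finset.sum_union hZOS, Finset.sum_union hZO, hs1, hs2, add_zero]
  have hle : (S.card : ℝ) ≤ ∑ g ∈ S, ‖χ g‖ ^ 2 := by
    refine char_card_le_sum hχc S ?_ ?_
    · intro g hg k hk
      rw [hS, Finset.mem_filter] at hg ⊢
      refine ⟨Finset.mem_univ _, ?_, ?_⟩
      · rw [Ne, char_pow_eq_zero_iff hχc g hk]; exact hg.2.1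
      · intro h
        apply hg.2.2
        rw [hnorm] at h ⊢
        obtain ⟨ω, hω⟩ := h
        obtain ⟨l, hl⟩ : ∃ l : ℕ, (g ^ k) ^ l = g := by
          have hk' : k.Coprime (orderOf g) := Nat.Coprime.coprime_dvd_right (orderOf_dvd_natCard g) hk
          exact exists_pow_eq_self_of_coprime hk'
        refine ⟨ω ^ l, ?_⟩
        conv_lhs => rw [← hl]
        rw [map_pow, hω, smul_pow]
        congr 1
        exact one_pow l
    · intro g hg
      rw [hS, Finset.mem_filter] at hg
      exact hg.2.1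
  have hcast : (((d ^ 2 - 1 : ℕ) : ℝ)) = (d : ℝ) ^ 2 - 1 := by
    rw [Nat.cast_sub (Nat.one_le_pow _ _ hdpos)]
    push_cast; ring
  constructor
  · have : (((d ^ 2 - 1) * Z.card : ℕ) : ℝ) ≤ (O.card : ℝ) := by
      rw [Nat.cast_mul, hcast]
      nlinarith
    exact_mod_cast this
  · intro hv
    have hS1 : ∑ g ∈ S, ‖χ g‖ ^ 2 = S.card := by
      rw [Finset.sum_congr rfl (g := fun _ => (1 : ℝ))]
      · simp
      · intro g hg
        rw [hS, Finset.mem_filter] at hg
        rcases hv g with h | h | h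
        · exact absurd (norm_eq_zero.1 h) hg.2.1
        · rw [h]; norm_num
        · exact absurd h hg.2.2
    have : (((d ^ 2 - 1) * Z.card : ℕ) : ℝ) = (O.card : ℝ) := by
      rw [Nat.cast_mul, hcast]
      rw [hS1] at hs3
      linarith
    exact_mod_cast this

end Cfsg.Agent.S4574
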