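import Cfsg.Statements.S4575
import Cfsg.Agent.LibContrib20b

set_option autoImplicit false
set_option linter.all false
open Cfsg

namespace Cfsg.Agent.S4575

open CfsgLib.Contrib20 CfsgLib.Contrib20b CfsgLib.BlockR CfsgLib.BlockDefect CfsgLib.Zeta20

/-- Let B be a 2-block of the finite group G (relative to a maximal ideal M of the algebraic integers containing 2) of defect d with defect group D. Let z be an element of D commuting with every element of D, and let b be a block of the centralizer of z with defect group D that induces B (a major subsection (z, b)). If the number of irreducible characters in B exceeds the 2-regular rank of b by at most three, then B contains at most 2 ^ d irreducible characters. -/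
theorem result {G : Type*} [Group G] [Finite G] (M : Ideal Cfsg.AlgInt) (hM : Cfsg.IsPModular 2 M) (B : Set (Cfsg.IrrCharacter G)) (hB : Cfsg.IsPBlock M B) (D : Subgroup G) (hD : Cfsg.IsDefectGroup 2 M B D) (z : G) (hzD : z ∈ D) (hzc : ∀ d ∈ D, d * z = z * d) (b : Set (Cfsg.IrrCharacter ↥(Subgroup.centralizer ({z} : Set G)))) (hb : Cfsg.IsInducedBlock M (Subgroup.centralizer ({z} : Set G)) b B) (hbD : Cfsg.IsDefectGroup 2 M b (D.subgroupOf (Subgroup.centralizer ({z} : Set G)))) (h : Nat.card B ≤ Cfsg.blockRank 2 b + 3) : Nat.card B ≤ 2 ^ Cfsg.blockDefect 2 B := by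
  classical
  letI : Fintype G := Fintype.ofFinite G
  letI : Fintype (Subgroup.centralizer ({z} : Set G)) := Fintype.ofFinite _
  obtain ⟨hd, hx⟩ := major_setup hM hB hD hzD hzc hb hbD
  obtain ⟨n, hn⟩ := exists_n (p := 2) hx
  have hp := isPrime_of_modular hM
  obtain ⟨χ₀, hχ₀, h00⟩ := exists_height_zero hM hB
  have h00' : Cfsg.blockHeight 2 B (χ₀ : G → ℂ) = 0 := (height_zero_iff hM hB hχ₀).mpr h00
  rw [← hd]
  set d := Cfsg.blockDefect 2 b with hdd
  -- integrality
  have hA : ∀ χ : Cfsg.IrrCharacter G, ∃ A : ℕ, aa 2 n b χ = A ∧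
      (χ ∈ B → Cfsg.blockHeight 2 B (χ : G → ℂ) = 0 → Odd A) ∧
      (χ ∈ B → Cfsg.blockHeight 2 B (χ : G → ℂ) ≠ 0 → 4 ∣ A) := by
    intro χ
    obtain ⟨A, h1, h2, h3⟩ := aa_two hM hx hb.1 hn χ
    obtain ⟨A', rfl⟩ := Int.eq_ofNat_of_zero_le h2
    refine ⟨A', by rw [h1]; simp, ?_, ?_⟩
    · intro hχ h0
      have h4 := con_unit hM hχ h0 hχ h0 hx hb hn
      rw [h3] at h4
      rw [← Nat.not_even_iff_odd, even_iff_two_dvd]
      intro h5
      exact h4 (by exact_mod_cast h5)
    · intro hχ h0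
      have h4 := major_pos hM hx hn hb hd hχ h0 hχ
      obtain ⟨A2, h5⟩ := aa_two_div hM hx hb.1 hn χ (by exact_mod_cast h4)
      rw [h1] at h5
      have h6 : (A' : ℤ) = 2 ^ (Cfsg.blockHeight 2 B (χ : G → ℂ) + 1) * A2 := by exact_mod_cast h5
      obtain ⟨t, ht⟩ : ∃ t, Cfsg.blockHeight 2 B (χ : G → ℂ) = t + 1 :=
        ⟨Cfsg.blockHeight 2 B (χ : G → ℂ) - 1, by omega⟩
      have h7 : (4 : ℤ) ∣ (A' : ℤ) := by
        rw [h6, ht]
        exact ⟨2 ^ t * A2, by ring⟩
      exact_mod_cast h7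
  choose A hA1 hA2 hA3 using hA
  have hAle : ∀ χ, A χ ≤ 2 ^ d := by
    intro χ
    have h1 := aa_le hM hx hb.1 hn χ
    rw [hA1] at h1
    exact_mod_cast h1
  have hfN : ∀ χ, ∑ ψ : Cfsg.IrrCharacter G, fN 2 n b χ ψ = ((2 ^ d * (2 ^ d - A χ) : ℕ) : ℝ) := by
    intro χ
    have h1 := sum_fN hM hx hb.1 hn χ
    rw [h1, hA1, Nat.cast_mul, Nat.cast_sub (hAle χ)]
  -- trivial defect
  by_cases hd0 : d = 0
  · have h1 := card_le_aa hM hb.1 hn B χ₀ (fun ψ hψ => major_ne hM hx hb hd hχ₀ h00' hψ hn)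
    have h2 := aa_le hM hx hb.1 hn χ₀
    rw [← hdd, hd0] at h1 h2
    rw [hd0]
    have h3 : (Nat.card B : ℝ) ≤ ((2 ^ 0 : ℕ) : ℝ) := by
      simp only [pow_zero, Nat.cast_one, one_mul] at h1 h2 ⊢
      exact h1.trans h2
    exact_mod_cast h3
  by_cases hcase : ∃ χ ∈ B, Cfsg.blockHeight 2 B (χ : G → ℂ) = 0 ∧ 2 ^ d - A χ = 1
  · obtain ⟨χ, hχ, h0, h1⟩ := hcase
    have h2 : (Nat.card B : ℝ) ≤ ∑ ψ : Cfsg.IrrCharacter G, fN 2 n b χ ψ := by
      apply card_le_sum B _ (fun ψ => fN_nonneg 2 n b χ ψ)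
      intro ψ hψ
      unfold fN
      split_ifs with h
      · apply one_le_avN
        · exact sub_mem (nat_mem _) (con_mem hM hb.1 hn χ χ)
        · intro h3
          apply con_unit hM hχ h0 hχ h0 hx hb hn
          rw [← sub_eq_zero.mp h3, ideal_nat_iff hM]
          exact dvd_pow_self 2 hd0
      · exact one_le_avN (con_mem hM hb.1 hn χ ψ) (major_ne hM hx hb hd hχ h0 hψ hn)
    rw [hfN, h1, mul_one] at h2
    exact_mod_cast h2
  · push Not at hcase
    have h3 : ∀ χ ∈ B, 3 ≤ 2 ^ d - A χ := by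
      intro χ hχ
      have hev : 2 ∣ 2 ^ d := dvd_pow_self 2 hd0
      by_cases h0 : Cfsg.blockHeight 2 B (χ : G → ℂ) = 0
      · have h1 := hA2 χ hχ h0
        have h2 := hcase χ hχ h0
        have h4 := hAle χ
        obtain ⟨a, ha⟩ := h1
        obtain ⟨c, hc⟩ := hev
        omega
      · have h1 := hA3 χ hχ h0
        have h2 := height_bound hM hB hχ h0
        rw [← hd] at h2
        have h4 : 4 ∣ 2 ^ d := by
          obtain ⟨t, ht⟩ : ∃ t, d = t + 2 := ⟨d - 2, by omega⟩
          rw [ht, pow_add]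
          exact ⟨2 ^ t, by ring⟩
        have h5 : 0 < ((2 ^ d * (2 ^ d - A χ) : ℕ) : ℝ) := by
          rw [← hfN χ]
          apply Finset.sum_pos' (fun ψ _ => fN_nonneg 2 n b χ ψ)
          refine ⟨χ₀, Finset.mem_univ _, ?_⟩
          have hne : χ₀ ≠ χ := by rintro rfl; exact h0 h00'
          have h6 : fN 2 n b χ χ₀ = avN 2 n (con 2 b χ χ₀) := by unfold fN; rw [if_neg hne]
          rw [h6]
          apply lt_of_lt_of_le zero_lt_one
          apply one_le_avN (con_mem hM hb.1 hn χ χ₀)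
          intro h7
          have h8 := con_conj (p := 2) (b := b) χ χ₀
          rw [h7, map_zero] at h8
          exact major_ne hM hx hb hd hχ₀ h00' hχ hn h8.symm
        have h6 : 0 < 2 ^ d * (2 ^ d - A χ) := by exact_mod_cast h5
        have h7 : 0 < 2 ^ d - A χ := Nat.pos_of_mul_pos_left h6 |> fun _ => by
          rcases Nat.eq_zero_or_pos (2 ^ d - A χ) with h8 | h8
          · rw [h8] at h6; simp at h6
          · exact h8
        have h8 := hAle χ
        obtain ⟨a, ha⟩ := h1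
        obtain ⟨c, hc⟩ := h4
        omega
    -- sum
    have hsum : ∑ χ : Cfsg.IrrCharacter G, A χ = 2 ^ d * Cfsg.blockRank 2 b := by
      have h1 := sum_aa hM hx hb.1 hn
      simp only [hA1] at h1
      exact_mod_cast h1
    have hzero : ∀ χ, χ ∉ B → A χ = 0 := by
      intro χ hχ
      have h1 : aa 2 n b χ = 0 := by
        unfold aa
        rw [Finset.sum_eq_zero, mul_zero]
        intro ψ _
        rw [con_zero_left hM hx hb hχ ψ]
        unfold avN
        simp
      rw [hA1] at h1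
      exact_mod_cast h1
    have hsumB : ∑ χ ∈ B.toFinset, A χ = 2 ^ d * Cfsg.blockRank 2 b := by
      rw [← hsum]
      apply Finset.sum_subset (Finset.subset_univ _)
      intro χ _ hχ
      exact hzero χ (fun h => hχ (Set.mem_toFinset.mpr h))
    have hkc : Nat.card B = B.toFinset.card := by rw [Set.toFinset_card, Nat.card_eq_fintype_card]
    have h4 : 3 * Nat.card B + ∑ χ ∈ B.toFinset, A χ ≤ 2 ^ d * Nat.card B := by
      rw [hkc, mul_comm 3, mul_comm (2 ^ d), ← smul_eq_mul, ← smul_eq_mul, ← Finset.sum_const, ← Finset.sum_const,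
        ← Finset.sum_add_distrib]
      apply Finset.sum_le_sum
      intro χ hχ
      have h5 := h3 χ (Set.mem_toFinset.mp hχ)
      have h6 := hAle χ
      omega
    rw [hsumB] at h4
    have h5 : 2 ^ d * Nat.card B ≤ 2 ^ d * (Cfsg.blockRank 2 b + 3) := Nat.mul_le_mul_left _ h
    have h6 : 3 * Nat.card B ≤ 3 * 2 ^ d := by
      have h7 : 3 * Nat.card B + 2 ^ d * Cfsg.blockRank 2 b ≤ 2 ^ d * (Cfsg.blockRank 2 b + 3) := h4.trans h5
      rw [mul_add] at h7
      omega
    omega

end Cfsg.Agent.S4575
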