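import Cfsg.Statements.S4580
import Cfsg.Agent.LibExtend8
import Cfsg.Agent.LibBlockReal
import Cfsg.Agent.LibBlockOrth2
import Cfsg.Agent.LibPB20
import Cfsg.Agent.LibGlaub4
import Cfsg.Agent.LibExtend4

set_option autoImplicit false
set_option linter.all false
open Cfsg

namespace Cfsg.Agent.S4580

open CfsgLib.Extend CfsgLib.CharBasic CfsgLib.Clifford
open scoped ComplexConjugate

/-- Let N be a normal subgroup of the finite group G, M a maximal ideal of the algebraic integers containing 2, and θ a real-valued irreducible character of N of odd degree that extends to G (some irreducible character of G restricts to θ). Then θ has an extension to G lying in the principal 2-block of G. -/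
theorem result {G : Type*} [Group G] [Finite G] (N : Subgroup G) [N.Normal] (M : Ideal Cfsg.AlgInt) (hM : Cfsg.IsPModular 2 M) (θ : Cfsg.IrrCharacter N) (hreal : ∀ n : N, ((θ : N → ℂ) n).im = 0) (hodd : Odd (Cfsg.charDegree (θ : N → ℂ))) (hext : ∃ η : Cfsg.IrrCharacter G, ∀ n : N, (η : G → ℂ) n = (θ : N → ℂ) n) :
    ∃ η : Cfsg.IrrCharacter G, (∀ n : N, (η : G → ℂ) n = (θ : N → ℂ) n) ∧ η ∈ Cfsg.principalBlock M G := by
  classical
  haveI := Fintype.ofFinite G
  haveI := Fintype.ofFinite N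
  haveI : Fact (Nat.Prime 2) := ⟨Nat.prime_two⟩
  obtain ⟨η, hη⟩ := hext
  have hηN : (fun n : N => (η : G → ℂ) n) = (θ : N → ℂ) := funext hη
  have hηNi : IsIrrCharacter N (fun n : N => (η : G → ℂ) n) := by rw [hηN]; exact θ.2
  have hηb : IsIrrCharacter G (fun g => conj ((η : G → ℂ) g)) := isIrrCharacter_conj η.2
  have hbar : (fun n : N => conj ((η : G → ℂ) n)) = fun n : N => (η : G → ℂ) n := by
    ext n
    rw [hη n]
    exact Complex.conj_eq_iff_im.mpr (hreal n)
  obtain ⟨hβi, hβ⟩ := CfsgLib.Gallagher.gallagher_exists (N := N) η.2 hηNi hηb (by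
    rw [hbar, irr_inner_self hηNi]; exact one_ne_zero)
  set β0 := CfsgLib.Gallagher.avg N (fun g => conj ((η : G → ℂ) g) * conj ((η : G → ℂ) g)) with hβ0
  have hη1 : (η : G → ℂ) 1 ≠ 0 := CfsgLib.CharInt.irr_one_ne_zero η.2
  have hβ1 : β0 1 = 1 := by
    have h1 := congrFun hβ 1
    have h2 : conj ((η : G → ℂ) 1) = (η : G → ℂ) 1 := by rw [CfsgLib.CharInt.irr_one_eq_charDegree η.2, map_natCast]
    rw [h2] at h1
    have h3 : β0 1 * (η : G → ℂ) 1 = 1 * (η : G → ℂ) 1 := by rw [one_mul]; exact h1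
    exact mul_right_cancel₀ hη1 h3
  obtain ⟨β, hβe⟩ := exists_hom_of_linear (irr_isCharacter hβi) hβ1
  have hβη : ∀ g, conj ((η : G → ℂ) g) = β g * (η : G → ℂ) g := fun g => by
    rw [← hβe g]; exact (congrFun hβ g).symm
  -- β is trivial on N
  have hβN : ∀ n : N, β n = 1 := by
    intro n
    have h1 : β0 n = β0 1 := CfsgLib.Gallagher.avg_ker N (n : G) n.2
    rw [hβe, hβ1] at h1
    exact Units.ext (by rw [h1, Units.val_one])
  have hord0 : orderOf β ≠ 0 := (CfsgLib.Extend.orderOf_pos_hom β).ne'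
  obtain ⟨a, m, hm, hord⟩ := Nat.exists_eq_pow_mul_and_not_dvd hord0 2 (by norm_num)
  have hmodd : m % 2 = 1 := by omega
  set k := (m + 1) / 2 with hk
  have h2k : 2 * k = m + 1 := by omega
  set μ := β ^ k with hμ
  have hχi : IsIrrCharacter G (fun g => (η : G → ℂ) g * μ g) := CfsgLib.Glaub4.irr_mul_linear η.2 μ
  set χ : IrrCharacter G := ⟨_, hχi⟩ with hχ
  have hχv : ∀ g, (χ : G → ℂ) g = (η : G → ℂ) g * μ g := fun g => rfl
  have hμN : ∀ n : N, μ n = 1 := by
    intro n
    rw [hμ, MonoidHom.pow_apply, hβN, one_pow]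
  have hχN : ∀ n : N, (χ : G → ℂ) n = (θ : N → ℂ) n := by
    intro n
    rw [hχv, hμN, Units.val_one, mul_one, hη]
  -- χ is real on elements of odd order
  have hreg : ∀ x : G, ¬ 2 ∣ orderOf x → (χ : G → ℂ) x⁻¹ = (χ : G → ℂ) x := by
    intro x hx
    rw [char_inv_eq_conj (irr_isCharacter χ.2), hχv, map_mul, hβη]
    have h1 : conj ((μ x : ℂˣ) : ℂ) = ((μ x : ℂˣ) : ℂ)⁻¹ := by
      have h2 := char_inv_eq_conj (isCharacter_hom μ) x
      have h3 : conj ((μ x : ℂˣ) : ℂ) = ((μ x⁻¹ : ℂˣ) : ℂ) := h2.symm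
      rw [h3, map_inv, Units.val_inv_eq_inv_val]
    have h2 : (β x) ^ m = 1 := by
      have h3 : ((β x) ^ m) ^ (2 ^ a) = 1 := by
        rw [← pow_mul, mul_comm, ← hord]
        exact CfsgLib.Extend.apply_pow_orderOf β x
      have h4 : ((β x) ^ m) ^ (orderOf x) = 1 := by
        rw [← pow_mul, mul_comm, pow_mul, ← map_pow, pow_orderOf_eq_one, map_one, one_pow]
      have h5 : Nat.Coprime (2 ^ a) (orderOf x) := Nat.Coprime.pow_left _ ((Nat.Prime.coprime_iff_not_dvd Nat.prime_two).mpr hx)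
      have h6 := orderOf_dvd_of_pow_eq_one h3
      have h7 := orderOf_dvd_of_pow_eq_one h4
      have h8 := Nat.dvd_gcd h6 h7
      rw [h5] at h8
      exact orderOf_eq_one_iff.mp (Nat.dvd_one.mp h8)
    have h3 : (β x) * (μ x)⁻¹ = μ x := by
      rw [mul_inv_eq_iff_eq_mul, hμ, MonoidHom.pow_apply, ← pow_add, ← two_mul, h2k, pow_succ, h2, one_mul]
    rw [h1]
    have h4 : (β x : ℂ) * (μ x : ℂ)⁻¹ = (μ x : ℂ) := by
      rw [← Units.val_inv_eq_inv_val, ← Units.val_mul, h3]
    calc _ = (η : G → ℂ) x * ((β x : ℂ) * (μ x : ℂ)⁻¹) := by ring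
      _ = _ := by rw [h4]
  refine ⟨χ, hχN, ?_⟩
  have hp := CfsgLib.BlockR.isPrime_of_modular hM
  by_contra hnot
  have hns : ¬ SameBlock M (χ : G → ℂ) (CfsgLib.PB20.one G : G → ℂ) := fun h => hnot (CfsgLib.BlockIdem.mem_of_sameBlock hp CfsgLib.PB20.isPBlock_principal (CfsgLib.PB20.one_mem hM) (CfsgLib.BlockIdem.sameBlock_symm h))
  have h0 := CfsgLib.BlockOrth.regular_orth hM hns
  set f : G → ℂ := fun x => if 2 ∣ orderOf x then 0 else (χ : G → ℂ) x with hf
  have h1 := CfsgLib.BlockReal.sum_real_congr hM f (fun x => by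
    simp only [hf]
    split_ifs
    · exact CfsgLib.BlockR.ring_zero hp
    · exact CfsgLib.BlockIdem.irr_ring hp χ x) (fun x => by
    simp only [hf, orderOf_inv]
    split_ifs with h
    · rfl
    · exact hreg x h) (fun x hx => by simp only [hf, if_pos hx])
  have h2 : ∑ x : G, f x = 0 := by
    rw [← h0, Finset.sum_filter]
    refine Finset.sum_congr rfl fun x _ => ?_
    simp only [hf, CfsgLib.PB20.one_apply, map_one, mul_one]
    by_cases h : 2 ∣ orderOf x
    · rw [if_pos h, if_neg (not_not.mpr h)]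
    · rw [if_neg h, if_pos h]
  have h3 : f 1 = (charDegree (θ : N → ℂ) : ℂ) := by
    have h4 : f 1 = (χ : G → ℂ) 1 := by
      simp only [hf, orderOf_one]
      norm_num
    have h5 := hχN 1
    rw [h4, ← CfsgLib.CharInt.irr_one_eq_charDegree θ.2]
    exact h5
  rw [h2, h3, zero_sub] at h1
  have h4 := CfsgLib.BlockR.ideal_neg h1
  rw [neg_neg, CfsgLib.BlockR.ideal_nat_iff hM] at h4
  exact (Nat.not_even_iff_odd.mpr hodd) (even_iff_two_dvd.mpr h4)

end Cfsg.Agent.S4580
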