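import Cfsg.Statements.S4581
import Cfsg.Agent.LibRealOdd7
import Cfsg.Agent.LibSolvFrat
import Cfsg.Agent.LibCharInt

set_option autoImplicit false
set_option linter.all false
open Cfsg

namespace Cfsg.Agent.S4581

open CfsgLib.RealOdd
open scoped commutatorElement

universe u

theorem key (G : Type u) [Group G] [Finite G] (χ : IrrCharacter G) :
    ((∀ g : G, ((χ : G → ℂ) g).im = 0) ∧ Odd (charDegree (χ : G → ℂ))) ↔ isRO (χ : G → ℂ) := by
  have h1 := CfsgLib.CharInt.irr_one_eq_charDegree χ.2
  constructor
  · rintro ⟨h2, h3⟩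
    exact ⟨fun g => Complex.conj_eq_iff_im.mpr (h2 g), _, h3, h1⟩
  · rintro ⟨h2, d, hd, hd1⟩
    refine ⟨fun g => Complex.conj_eq_iff_im.mp (h2 g), ?_⟩
    rw [hd1] at h1
    have h3 : d = charDegree (χ : G → ℂ) := by exact_mod_cast h1
    rw [← h3]; exact hd

theorem lin_iff (P : Type u) [Group P] [Finite P] (hP : IsPGroup 2 P) : Lin P ↔ commutator P = frattini P := by
  constructor
  · intro hL
    apply le_antisymm (CfsgLib.SolvFrat.commutator_le_frattini Nat.prime_two hP)
    apply CfsgLib.SolvFrat.frattini_le_of_elementary Nat.prime_two _ le_rfl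
    intro x
    by_contra hx
    have hab : ∀ a b : P ⧸ commutator P, a * b = b * a := by
      intro a b
      obtain ⟨a, rfl⟩ := QuotientGroup.mk_surjective a
      obtain ⟨b, rfl⟩ := QuotientGroup.mk_surjective b
      rw [← QuotientGroup.mk_mul, ← QuotientGroup.mk_mul, QuotientGroup.eq]
      have h1 : (a * b)⁻¹ * (b * a) = ⁅b⁻¹, a⁻¹⁆ := by rw [commutatorElement_def]; group
      rw [h1]
      exact Subgroup.commutator_mem_commutator (Subgroup.mem_top _) (Subgroup.mem_top _)
    obtain ⟨f, hf⟩ := CfsgLib.CharBasic.exists_hom_ne_one hab (g := ((x ^ 2 : P) : P ⧸ commutator P))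
      (fun h => hx ((QuotientGroup.eq_one_iff _).mp h))
    apply hf
    have h2 := hL (f.comp (QuotientGroup.mk' _)) x
    rw [QuotientGroup.mk_pow, map_pow, pow_two]
    exact h2
  · intro hc ν y
    have h1 := CfsgLib.SolvFrat.pow_mem_frattini Nat.prime_two hP y
    rw [← hc] at h1
    have h2 : y ^ 2 ∈ ν.ker := Abelianization.commutator_subset_ker ν h1
    rw [MonoidHom.mem_ker, map_pow, pow_two] at h2
    exact h2

/-- Let G be a finite solvable group, P a Sylow 2-subgroup and N its normalizer. Then G and N have the same number of real-valued irreducible characters of odd degree; and every odd-degree irreducible character of G is real-valued exactly when the derived subgroup of P equals the Frattini subgroup of P and P is its own normalizer in G. -/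
theorem result {G : Type*} [Group G] [Finite G] [Group.IsSolvable G] (P : Sylow 2 G) :
    Nat.card {χ : Cfsg.IrrCharacter G // (∀ g : G, ((χ : G → ℂ) g).im = 0) ∧ Odd (Cfsg.charDegree (χ : G → ℂ))} =
      Nat.card {ψ : Cfsg.IrrCharacter (Subgroup.normalizer ((P : Subgroup G) : Set G)) // (∀ g, ((ψ : Subgroup.normalizer ((P : Subgroup G) : Set G) → ℂ) g).im = 0) ∧ Odd (Cfsg.charDegree (ψ : Subgroup.normalizer ((P : Subgroup G) : Set G) → ℂ))} ∧
    ((∀ χ : Cfsg.IrrCharacter G, Odd (Cfsg.charDegree (χ : G → ℂ)) → ∀ g : G, ((χ : G → ℂ) g).im = 0) ↔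
      (commutator (P : Subgroup G) = frattini (P : Subgroup G) ∧ Subgroup.normalizer ((P : Subgroup G) : Set G) = (P : Subgroup G))) := by
  classical
  haveI hf2 : Fact (Nat.Prime 2) := ⟨Nat.prime_two⟩
  have hs : Group.IsSolvable G := inferInstance
  refine ⟨?_, ?_⟩
  · have h1 := ro_eq _ G rfl hs P
    unfold ro at h1
    rw [Nat.card_congr (Equiv.subtypeEquivRight fun χ => key G χ), Nat.card_congr (Equiv.subtypeEquivRight fun χ => key _ χ)]
    exact h1
  · rw [← lin_iff (P : Subgroup G) P.isPGroup']
    constructor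
    · intro h
      have hR : AllReal G := by
        intro χ hχ d hd hd1 g
        have h1 : charDegree χ = d := by
          have h2 := CfsgLib.CharInt.irr_one_eq_charDegree hχ
          rw [hd1] at h2
          exact_mod_cast h2.symm
        exact Complex.conj_eq_iff_im.mpr (h ⟨χ, hχ⟩ (by show Odd (charDegree χ); rw [h1]; exact hd) g)
      obtain ⟨h1, h2⟩ := conv _ G rfl hs P hR
      exact ⟨h1, le_antisymm h2 Subgroup.le_normalizer⟩
    · rintro ⟨h1, h2⟩ χ hodd g
      exact Complex.conj_eq_iff_im.mp (real_of _ G rfl hs P h1 h2.le χ χ.2 _ hodd (CfsgLib.CharInt.irr_one_eq_charDegree χ.2) g)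


end Cfsg.Agent.S4581
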