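import Cfsg.Statements.S4582
import Cfsg.Agent.LibRealOdd8
import Cfsg.Agent.LibCharInt2

set_option autoImplicit false
set_option linter.all false
open Cfsg

namespace Cfsg.Agent.S4582

open CfsgLib.RealOdd CfsgLib.CharBasic CfsgLib.CharIndA CfsgLib.Clifford CfsgLib.CharNorm CfsgLib.CharMore
open scoped commutatorElement ComplexConjugate

universe u

theorem conj_of_sq (c : ℂˣ) (h : c * c = 1) : conj (c : ℂ) = c := by
  have h1 : (c : ℂ) * (c : ℂ) = 1 := by rw [← Units.val_mul, h, Units.val_one]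
  rcases mul_self_eq_one_iff.mp h1 with h | h <;> rw [h] <;> simp

theorem main {G : Type u} [Group G] [Finite G] (N : Subgroup G) [hN : N.Normal] (P : Sylow 2 G) (l : (P : Subgroup G) →* ℂˣ)
    (hl2 : ∀ z : (P : Subgroup G), (z : G) ∈ N → l z * l z = 1) (hodd : Odd (Nat.card (Abelianization N))) :
    ∃ ψ : (P : Subgroup G) →* ℂˣ, (∀ z, ψ z * ψ z = 1) ∧ ∀ z : (P : Subgroup G), (z : G) ∈ N → ψ z = l z := by
  classical
  haveI hf2 : Fact (Nat.Prime 2) := ⟨Nat.prime_two⟩
  haveI := Fintype.ofFinite G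
  haveI := Fintype.ofFinite N
  haveI := Fintype.ofFinite (P : Subgroup G)
  set Q : Subgroup N := (P : Subgroup G).subgroupOf N with hQ
  haveI := Fintype.ofFinite Q
  have hQP : ∀ x : Q, (((x : N) : G)) ∈ (P : Subgroup G) := fun x => Subgroup.mem_subgroupOf.mp x.2
  have hQodd : Odd Q.index := by
    obtain ⟨Q', hQ'⟩ := CfsgLib.LE.sylow_inf_normal P N hN
    rw [hQ, ← hQ', ← Nat.not_even_iff_odd, even_iff_two_dvd]
    exact Q'.not_dvd_index
  let incl : Q →* (P : Subgroup G) := { toFun := fun x => ⟨((x : N) : G), hQP x⟩, map_one' := rfl, map_mul' := fun x y => rfl }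
  let μh : Q →* ℂˣ := l.comp incl
  let μ : Q → ℂ := fun x => (μh x : ℂ)
  have hμirr : IsIrrCharacter Q μ := isIrrCharacter_hom μh
  have hμreal : ∀ x, conj (μ x) = μ x := fun x => conj_of_sq _ (hl2 _ (x : N).2)
  set I : N → ℂ := indFun Q μ with hI
  have hIchar : IsCharacter N I := isCharacter_ind Q (irr_isCharacter hμirr)
  have hIreal : ∀ x, conj (I x) = I x := by
    intro x
    rw [hI, ind_real]
    congr 1
    exact funext hμreal
  have hI1 : I 1 = Q.index := by rw [hI, ind_one]; simp [μ]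
  have hIinv : ∀ x ∈ (P : Subgroup G), cj hN x I = I := by
    intro x hx
    funext n
    rw [cj_apply, hI, ind_apply, ind_apply]
    congr 1
    refine Fintype.sum_equiv (MulAut.conjNormal (x⁻¹ : G) : MulAut N).toEquiv _ _ fun y => ?_
    set z : N := (MulAut.conjNormal (x⁻¹ : G) : MulAut N) y with hz
    have hzv : (z : G) = x⁻¹ * y * x := by rw [hz, MulAut.conjNormal_apply, inv_inv]
    have e1 : (((y⁻¹ * ⟨x * n * x⁻¹, hN.conj_mem n n.2 x⟩ * y : N)) : G) = x * ((z⁻¹ * n * z : N) : G) * x⁻¹ := by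
      simp only [Subgroup.coe_mul, Subgroup.coe_inv, hzv]
      group
    show extendByZero Q μ (y⁻¹ * ⟨x * n * x⁻¹, hN.conj_mem n n.2 x⟩ * y) = extendByZero Q μ (z⁻¹ * n * z)
    by_cases hmem : z⁻¹ * n * z ∈ Q
    · have hm1 := Subgroup.mem_subgroupOf.mp hmem
      have hmem2 : y⁻¹ * ⟨x * n * x⁻¹, hN.conj_mem n n.2 x⟩ * y ∈ Q := by
        rw [hQ, Subgroup.mem_subgroupOf, e1]
        exact mul_mem (mul_mem hx hm1) (inv_mem hx)
      rw [ext_mem Q μ hmem, ext_mem Q μ hmem2]
      show ((l _ : ℂˣ) : ℂ) = l _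
      congr 1
      have e2 : (incl ⟨_, hmem2⟩ : (P : Subgroup G)) = ⟨x, hx⟩ * incl ⟨_, hmem⟩ * ⟨x, hx⟩⁻¹ := Subtype.ext e1
      rw [e2, map_mul, map_mul, map_inv, mul_comm (l ⟨x, hx⟩), mul_inv_cancel_right]
    · have hmem2 : y⁻¹ * ⟨x * n * x⁻¹, hN.conj_mem n n.2 x⟩ * y ∉ Q := by
        intro h
        apply hmem
        rw [hQ, Subgroup.mem_subgroupOf, e1] at h
        rw [hQ, Subgroup.mem_subgroupOf]
        have h2 := mul_mem (mul_mem (inv_mem hx) h) hx
        have e3 : x⁻¹ * (x * ((z⁻¹ * n * z : N) : G) * x⁻¹) * x = ((z⁻¹ * n * z : N) : G) := by group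
        rwa [e3] at h2
      rw [ext_not_mem Q μ hmem, ext_not_mem Q μ hmem2]
  obtain ⟨m, hm, hexp, -⟩ := char_expand hIchar
  choose n hn0 hn using fun θ : IrrCharacter N => irr_one_nat θ.2
  have hsum : Odd (∑ θ : IrrCharacter N, m θ * n θ) := by
    have h2 := congrFun hexp 1
    rw [hI1] at h2
    simp only [Finset.sum_apply, Pi.smul_apply, smul_eq_mul, hn] at h2
    have h3 : Q.index = ∑ θ : IrrCharacter N, m θ * n θ := by exact_mod_cast h2
    rw [← h3]; exact hQodd
  letI act : MulAction (P : Subgroup G) (IrrCharacter N) :=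
    { smul := fun x θ => ⟨cj hN (x : G)⁻¹ (θ : N → ℂ), cj_irr hN _ θ.2⟩
      one_smul := fun θ => by
        apply Subtype.ext
        show cj hN ((1 : (P : Subgroup G)) : G)⁻¹ (θ : N → ℂ) = θ
        rw [Subgroup.coe_one, inv_one, cj_one]
      mul_smul := fun x y θ => by
        apply Subtype.ext
        show cj hN ((x * y : (P : Subgroup G)) : G)⁻¹ (θ : N → ℂ) = cj hN (x : G)⁻¹ (cj hN (y : G)⁻¹ (θ : N → ℂ))
        rw [cj_cj, Subgroup.coe_mul, mul_inv_rev] }
  have hact : ∀ (x : (P : Subgroup G)) (θ : IrrCharacter N), ((x • θ : IrrCharacter N) : N → ℂ) = cj hN (x : G)⁻¹ (θ : N → ℂ) := fun x θ => rfl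
  let c : IrrCharacter N → IrrCharacter N := fun θ => ⟨fun x => conj ((θ : N → ℂ) x), isIrrCharacter_conj θ.2⟩
  have hmw : ∀ (x : (P : Subgroup G)) θ, m (x • θ) = m θ := by
    intro x θ
    have h1 := hm (x • θ)
    rw [hact] at h1
    have h2 : classInner I (cj hN (x : G)⁻¹ (θ : N → ℂ)) = classInner I (θ : N → ℂ) := by
      conv_lhs => rw [← hIinv (x : G)⁻¹ (inv_mem x.2)]
      rw [ci_cj]
    rw [h2, hm θ] at h1
    exact_mod_cast h1.symm
  have hnw : ∀ (x : (P : Subgroup G)) θ, n (x • θ) = n θ := by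
    intro x θ
    have h1 := hn (x • θ)
    rw [hact, cj_one_apply, hn θ] at h1
    exact_mod_cast h1.symm
  have hmc : ∀ θ, m (c θ) = m θ := by
    intro θ
    have h1 := hm (c θ)
    have h2 : classInner I ((c θ : IrrCharacter N) : N → ℂ) = conj (classInner I (θ : N → ℂ)) := by
      rw [← inner_conj_conj]
      have h3 : (fun x => conj (I x)) = I := funext hIreal
      rw [h3]
    rw [h2, hm θ, Complex.conj_natCast] at h1
    exact_mod_cast h1.symm
  have hnc : ∀ θ, n (c θ) = n θ := by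
    intro θ
    have h1 := hn (c θ)
    have h2 : ((c θ : IrrCharacter N) : N → ℂ) 1 = conj ((θ : N → ℂ) 1) := rfl
    rw [h2, hn θ, Complex.conj_natCast] at h1
    exact_mod_cast h1.symm
  obtain ⟨θ, hθinv, hθc, hθodd⟩ := exists_fixed_odd (X := IrrCharacter N) (P := (P : Subgroup G)) P.isPGroup' (fun θ => m θ * n θ)
    (fun x θ => by show m (x • θ) * n (x • θ) = m θ * n θ; rw [hmw, hnw]) c (fun θ => Subtype.ext (funext fun x => Complex.conj_conj _))
    (fun θ => by show m (c θ) * n (c θ) = m θ * n θ; rw [hmc, hnc]) (fun x θ => rfl) hsum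
  have hθreal : ∀ x, conj ((θ : N → ℂ) x) = (θ : N → ℂ) x := fun x => congrFun (congrArg Subtype.val hθc) x
  obtain ⟨hmθ, hnθ⟩ := Nat.odd_mul.mp hθodd
  -- extension to `N P`
  set H : Subgroup G := N ⊔ (P : Subgroup G) with hH
  have hNH : N ≤ H := le_sup_left
  have hPH : (P : Subgroup G) ≤ H := le_sup_right
  haveI := Fintype.ofFinite H
  haveI : (N.subgroupOf H).Normal := subgroupOf_normal hN H
  haveI := Fintype.ofFinite (N.subgroupOf H)
  have hHi : H ≤ inertia hN (θ : N → ℂ) := by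
    rw [hH, sup_le_iff]
    constructor
    · exact le_inertia hN (irr_classFun θ.2)
    · intro x hx
      have h1 := congrArg Subtype.val (hθinv ⟨x, hx⟩)
      rw [hact] at h1
      have h2 : x⁻¹ ∈ inertia hN (θ : N → ℂ) := h1
      have h3 := inv_mem h2
      rwa [inv_inv] at h3
  have hirr' : IsIrrCharacter (N.subgroupOf H) (toSub H (θ : N → ℂ)) := (toSub_irr hNH).mpr θ.2
  have hreal' : ∀ x, conj (toSub H (θ : N → ℂ) x) = toSub H (θ : N → ℂ) x := fun x => hθreal _
  have hdet : detOrder (toSub H (θ : N → ℂ)) = 1 := by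
    obtain ⟨f, hf⟩ := CfsgLib.Extend.detChar_irr hirr'
    have h1 := det_real hirr' hreal' f hf
    unfold detOrder
    rw [hf, CfsgLib.Extend.orderOf_val, orderOf_eq_one_iff]
    apply MonoidHom.ext
    intro x
    rw [MonoidHom.one_apply]
    let e : N.subgroupOf H ≃* N := Subgroup.subgroupOfEquivOfLe hNH
    let f' : N →* ℂˣ := f.comp e.symm.toMonoidHom
    have h2 : f' (e x) = f x := by
      show f (e.symm (e x)) = f x
      rw [e.symm_apply_apply]
    have h3 : f' (e x) ^ Nat.card (Abelianization N) = 1 := by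
      have h4 : f' (e x) = Abelianization.lift f' (Abelianization.of (e x)) := (Abelianization.lift_apply_of _ _).symm
      rw [h4, ← map_pow, pow_card_eq_one', map_one]
    rw [h2] at h3
    have h4 : f x ^ 2 = 1 := by rw [pow_two]; exact h1 x
    have h5 := pow_gcd_eq_one.mpr ⟨h4, h3⟩
    rw [(Nat.coprime_two_left.mpr hodd).gcd_eq_one, pow_one] at h5
    exact h5
  obtain ⟨χ, hχ, hχN, hχreal⟩ := exists_real_ext (N := N.subgroupOf H) hirr' (by
    intro g x
    have h1 : cj hN (g : G) (θ : N → ℂ) = (θ : N → ℂ) := hHi g.2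
    exact congrFun h1 ⟨(x : H), Subgroup.mem_subgroupOf.mp x.2⟩) (n θ) (hn θ) hreal' hdet (by
      have h1 : (N.subgroupOf H).index ∣ Nat.card (P : Subgroup G) := by
        show N.relIndex H ∣ _
        rw [hH, Subgroup.relIndex_sup_left]
        exact Subgroup.relIndex_dvd_card N (P : Subgroup G)
      obtain ⟨a, ha⟩ := IsPGroup.iff_card.mp P.isPGroup'
      rw [ha] at h1
      exact Nat.Coprime.coprime_dvd_left h1 (Nat.Coprime.pow_left a (Nat.coprime_two_left.mpr hnθ)))
  -- restriction to `P`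
  let χP : ↥(P : Subgroup G) → ℂ := fun x => χ ⟨x, hPH x.2⟩
  have hχP : IsCharacter (P : Subgroup G) χP := isCharacter_comp (irr_isCharacter hχ) (Subgroup.inclusion hPH)
  have hχPreal : ∀ x, conj (χP x) = χP x := fun x => hχreal _
  set R : Subgroup (P : Subgroup G) := N.subgroupOf (P : Subgroup G) with hR
  have hRn : R.Normal := subgroupOf_normal hN _
  haveI := Fintype.ofFinite R
  let νh : R →* ℂˣ := l.comp R.subtype
  let ν : R → ℂ := fun x => (νh x : ℂ)
  have hνirr : IsIrrCharacter R ν := isIrrCharacter_hom νh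
  have hνreal : ∀ x, conj (ν x) = ν x := fun x => conj_of_sq _ (hl2 _ (Subgroup.mem_subgroupOf.mp x.2))
  have hνinv : ∀ g, cj hRn g ν = ν := by
    intro g
    funext x
    show ((l (g * x * g⁻¹) : ℂˣ) : ℂ) = l x
    rw [map_mul, map_mul, map_inv, mul_comm (l g), mul_inv_cancel_right]
  obtain ⟨m', hm', hexp', -⟩ := char_expand hχP
  have hk : ∀ ψ : IrrCharacter (P : Subgroup G), ∃ k : ℕ, classInner (fun q : R => (ψ : ↥(P : Subgroup G) → ℂ) q) ν = k := fun ψ =>
    (isCharacter_iff.mp (isCharacter_restrict (irr_isCharacter ψ.2) R)).2 _ hνirr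
  choose k hk using hk
  have htot : m θ = ∑ ψ : IrrCharacter (P : Subgroup G), m' ψ * k ψ := by
    have h1 : classInner (fun q : R => χP q) ν = ∑ ψ : IrrCharacter (P : Subgroup G), (m' ψ : ℂ) * k ψ := by
      have h2 : (fun q : R => χP q) = ∑ ψ : IrrCharacter (P : Subgroup G), (m' ψ : ℂ) • (fun q : R => (ψ : ↥(P : Subgroup G) → ℂ) q) := by
        funext q
        have h3 := congrFun hexp' q
        simp only [Finset.sum_apply, Pi.smul_apply, smul_eq_mul] at h3 ⊢
        exact h3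
      rw [h2, ci_sum_l]
      simp only [ci_smul_l, hk]
    let e : Q ≃* R :=
      { toFun := fun x => ⟨⟨((x : N) : G), hQP x⟩, Subgroup.mem_subgroupOf.mpr (x : N).2⟩
        invFun := fun x => ⟨⟨((x : (P : Subgroup G)) : G), Subgroup.mem_subgroupOf.mp x.2⟩, Subgroup.mem_subgroupOf.mpr (x : (P : Subgroup G)).2⟩
        left_inv := fun x => rfl
        right_inv := fun x => rfl
        map_mul' := fun x y => rfl }
    have h4 : classInner (fun q : Q => (θ : N → ℂ) q) μ = classInner (fun q : R => χP q) ν := by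
      rw [← ci_equiv e (fun q : R => χP q) ν]
      congr 1
      funext q
      exact (hχN ⟨⟨((q : N) : G), hNH (q : N).2⟩, Subgroup.mem_subgroupOf.mpr (q : N).2⟩).symm
    have h5 : classInner (fun q : Q => (θ : N → ℂ) q) μ = m θ := by
      rw [← CfsgLib.CharBasic.inner_conj_symm, ← frobenius Q μ (irr_classFun θ.2), hm θ, Complex.conj_natCast]
    rw [h4, h1] at h5
    exact_mod_cast h5.symm
  rw [htot] at hmθ
  letI act2 : MulAction PUnit.{1} (IrrCharacter (P : Subgroup G)) :=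
    { smul := fun _ ψ => ψ
      one_smul := fun _ => rfl
      mul_smul := fun _ _ _ => rfl }
  let c' : IrrCharacter (P : Subgroup G) → IrrCharacter (P : Subgroup G) := fun θ => ⟨fun x => conj ((θ : ↥(P : Subgroup G) → ℂ) x), isIrrCharacter_conj θ.2⟩
  have hmc' : ∀ ψ, m' (c' ψ) = m' ψ := by
    intro ψ
    have h1 := hm' (c' ψ)
    have h2 : classInner χP ((c' ψ : IrrCharacter (P : Subgroup G)) : ↥(P : Subgroup G) → ℂ) = conj (classInner χP (ψ : ↥(P : Subgroup G) → ℂ)) := by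
      rw [← inner_conj_conj]
      have h3 : (fun x => conj (χP x)) = χP := funext hχPreal
      rw [h3]
    rw [h2, hm' ψ, Complex.conj_natCast] at h1
    exact_mod_cast h1.symm
  have hkc' : ∀ ψ, k (c' ψ) = k ψ := by
    intro ψ
    have h1 := hk (c' ψ)
    have h2 : classInner (fun q : R => ((c' ψ : IrrCharacter (P : Subgroup G)) : ↥(P : Subgroup G) → ℂ) q) ν =
        conj (classInner (fun q : R => (ψ : ↥(P : Subgroup G) → ℂ) q) ν) := by
      rw [← inner_conj_conj]
      have h3 : (fun x => conj (ν x)) = ν := funext hνreal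
      rw [h3]
    rw [h2, hk ψ, Complex.conj_natCast] at h1
    exact_mod_cast h1.symm
  obtain ⟨ψ, -, hψc, hψodd⟩ := exists_fixed_odd (X := IrrCharacter (P : Subgroup G)) (P := PUnit.{1}) (IsPGroup.of_card (n := 0) (by simp))
    (fun ψ => m' ψ * k ψ) (fun x ψ => rfl) c' (fun θ => Subtype.ext (funext fun x => Complex.conj_conj _))
    (fun ψ => by show m' (c' ψ) * k (c' ψ) = m' ψ * k ψ; rw [hmc', hkc']) (fun x θ => rfl) hmθ
  have hψreal : ∀ x, conj ((ψ : ↥(P : Subgroup G) → ℂ) x) = (ψ : ↥(P : Subgroup G) → ℂ) x := fun x => congrFun (congrArg Subtype.val hψc) x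
  obtain ⟨-, hkψ⟩ := Nat.odd_mul.mp hψodd
  have hkne : k ψ ≠ 0 := by rintro h; rw [h] at hkψ; exact absurd hkψ (by decide)
  have hres := restrict_of_invariant hRn ψ.2 hνirr hνinv (by rw [hk]; exact_mod_cast hkne)
  rw [hk] at hres
  have hψ1 : (ψ : ↥(P : Subgroup G) → ℂ) 1 = k ψ := by
    have h1 := congrFun hres 1
    simp only [Pi.smul_apply, smul_eq_mul] at h1
    have h2 : ν 1 = 1 := by simp [ν]
    rw [h2, mul_one] at h1
    exact h1
  have hk1 : k ψ = 1 := by
    have h1 := CfsgLib.CharInt2.charDegree_dvd_card ψ.2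
    have h2 := CfsgLib.CharInt.irr_one_eq_charDegree ψ.2
    rw [hψ1] at h2
    have h3 : k ψ = charDegree (ψ : ↥(P : Subgroup G) → ℂ) := by exact_mod_cast h2
    rw [← h3] at h1
    obtain ⟨a, ha⟩ := IsPGroup.iff_card.mp P.isPGroup'
    rw [ha] at h1
    obtain ⟨b, -, hb⟩ := (Nat.dvd_prime_pow Nat.prime_two).mp h1
    rcases Nat.eq_zero_or_pos b with h4 | h4
    · rw [hb, h4, pow_zero]
    · exfalso
      rw [hb] at hkψ
      exact absurd (Nat.even_pow.mpr ⟨even_two, h4.ne'⟩) (Nat.not_even_iff_odd.mpr hkψ)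
  rw [hk1, Nat.cast_one] at hψ1
  obtain ⟨ψh, hψh⟩ := exists_hom_of_linear (irr_isCharacter ψ.2) hψ1
  refine ⟨ψh, hom_real_iff ψh (fun x => by rw [← hψh]; exact hψreal x), fun z hz => ?_⟩
  apply Units.ext
  have h1 := congrFun hres ⟨z, Subgroup.mem_subgroupOf.mpr hz⟩
  simp only [Pi.smul_apply, smul_eq_mul] at h1
  rw [hk1, Nat.cast_one, one_mul, hψh] at h1
  exact h1

/-- Let N be a normal subgroup of the finite group G, P a Sylow 2-subgroup of G and Q = P ∩ N. Suppose that P/QP' and Q/Q' are elementary abelian (every square of an element of P lies in the subgroup generated by Q and the derived subgroup of P, and every square of an element of Q lies in the derived subgroup of Q), and that the commutator factor group N/N' has odd order. Then P/P' is elementary abelian. -/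
theorem result {G : Type*} [Group G] [Finite G] (N : Subgroup G) [N.Normal] (P : Sylow 2 G)
    (hP : ∀ x ∈ (P : Subgroup G), x ^ 2 ∈ ((P : Subgroup G) ⊓ N) ⊔ ⁅(P : Subgroup G), (P : Subgroup G)⁆)
    (hQ : ∀ x ∈ (P : Subgroup G) ⊓ N, x ^ 2 ∈ ⁅(P : Subgroup G) ⊓ N, (P : Subgroup G) ⊓ N⁆)
    (hodd : Odd (Nat.card (Abelianization N))) :
    ∀ x ∈ (P : Subgroup G), x ^ 2 ∈ ⁅(P : Subgroup G), (P : Subgroup G)⁆ := by
  classical
  haveI hf2 : Fact (Nat.Prime 2) := ⟨Nat.prime_two⟩
  intro x hx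
  by_contra hcon
  have hab : ∀ a b : (P : Subgroup G) ⧸ commutator (P : Subgroup G), a * b = b * a := by
    intro a b
    obtain ⟨a, rfl⟩ := QuotientGroup.mk_surjective a
    obtain ⟨b, rfl⟩ := QuotientGroup.mk_surjective b
    rw [← QuotientGroup.mk_mul, ← QuotientGroup.mk_mul, QuotientGroup.eq]
    have h1 : (a * b)⁻¹ * (b * a) = ⁅b⁻¹, a⁻¹⁆ := by rw [commutatorElement_def]; group
    rw [h1]
    exact Subgroup.commutator_mem_commutator (Subgroup.mem_top _) (Subgroup.mem_top _)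
  set y : (P : Subgroup G) := ⟨x, hx⟩ with hy
  obtain ⟨f, hf⟩ := CfsgLib.CharBasic.exists_hom_ne_one hab (g := ((y ^ 2 : (P : Subgroup G)) : (P : Subgroup G) ⧸ commutator (P : Subgroup G)))
    (fun h => by
      apply hcon
      have h1 := (QuotientGroup.eq_one_iff _).mp h
      rw [← Subgroup.map_subtype_commutator]
      exact ⟨y ^ 2, h1, rfl⟩)
  set l : (P : Subgroup G) →* ℂˣ := f.comp (QuotientGroup.mk' _) with hl
  have hlne : l (y ^ 2) ≠ 1 := hf
  have hker : ∀ (ν : (P : Subgroup G) →* ℂˣ) (z : (P : Subgroup G)), (z : G) ∈ ⁅(P : Subgroup G), (P : Subgroup G)⁆ → ν z = 1 := by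
    intro ν z hz
    rw [← Subgroup.map_subtype_commutator] at hz
    obtain ⟨z', hz', hzz⟩ := hz
    have h2 : z' = z := Subtype.ext hzz
    rw [← h2]
    exact Abelianization.commutator_subset_ker ν hz'
  obtain ⟨ψ, hψ2, hψ⟩ := main N P l (by
    intro z hz
    rw [← map_mul]
    apply hker l
    have h1 := hQ z ⟨z.2, hz⟩
    rw [pow_two] at h1
    exact Subgroup.commutator_mono inf_le_left inf_le_left h1) hodd
  apply hlne
  -- `l ψ⁻¹` is trivial on `Q P'`
  set β : (P : Subgroup G) →* ℂˣ := l * ψ with hβ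
  have h1 : ∀ z (hz : z ∈ (P : Subgroup G)), z ∈ ((P : Subgroup G) ⊓ N) ⊔ ⁅(P : Subgroup G), (P : Subgroup G)⁆ → β ⟨z, hz⟩ = 1 := by
    have h2 : ((P : Subgroup G) ⊓ N) ⊔ ⁅(P : Subgroup G), (P : Subgroup G)⁆ ≤ β.ker.map (P : Subgroup G).subtype := by
      rw [sup_le_iff]
      constructor
      · rintro z ⟨hz1, hz2⟩
        refine ⟨⟨z, hz1⟩, ?_, rfl⟩
        show β ⟨z, hz1⟩ = 1
        rw [hβ, MonoidHom.mul_apply, ← hψ ⟨z, hz1⟩ hz2, hψ2]
      · intro z hz
        have hz1 : z ∈ (P : Subgroup G) := Subgroup.commutator_le_self _ hz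
        exact ⟨⟨z, hz1⟩, hker β ⟨z, hz1⟩ hz, rfl⟩
    intro z hz hz2
    obtain ⟨z', hz', hzz⟩ := h2 hz2
    have h3 : z' = ⟨z, hz⟩ := Subtype.ext hzz
    rw [← h3]; exact hz'
  have h2 := h1 (x ^ 2) (pow_mem hx 2) (hP x hx)
  have h3 : (⟨x ^ 2, pow_mem hx 2⟩ : (P : Subgroup G)) = y ^ 2 := rfl
  rw [h3, hβ, MonoidHom.mul_apply] at h2
  have h4 : ψ (y ^ 2) = 1 := by rw [map_pow, pow_two]; exact hψ2 y
  rwa [h4, mul_one] at h2


end Cfsg.Agent.S4582
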