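import Cfsg.Statements.S4584
import Cfsg.Agent.LibAbIdx20

set_option autoImplicit false
set_option linter.all false
open Cfsg

namespace Cfsg.Agent.S4584


open Subgroup CfsgLib.AbIdx20
open scoped commutatorElement

/-- Let p be a prime and P a group of order p^4. Then the derived subgroup P' has order p if and only if the centre Z(P) has index p^2 in P. -/
theorem result {P : Type*} [Group P] [Finite P] (p : ℕ) [Fact p.Prime] (hP : Nat.card P = p ^ 4) :
    Nat.card (commutator P) = p ↔ (Subgroup.center P).index = p ^ 2 := by

  have hp : p.Prime := Fact.out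
  have hPg : IsPGroup p P := IsPGroup.of_card hP
  haveI : Nontrivial P := by
    rw [← Finite.one_lt_card_iff_nontrivial, hP]
    exact Nat.one_lt_pow (by norm_num) hp.one_lt
  constructor
  · intro h
    have hna : ¬ ∀ x y : P, x * y = y * x := by
      intro hc
      have h1 : commutator P = ⊥ := by
        rw [eq_bot_iff, _root_.commutator_def, Subgroup.commutator_le]
        intro a _ b _
        rw [Subgroup.mem_bot, commutatorElement_eq_one_iff_mul_comm]
        exact hc a b
      rw [h1, Subgroup.card_bot] at h
      exact hp.one_lt.ne h
    obtain ⟨x, hx⟩ : ∃ x : P, x ∉ center P := by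
      by_contra h1
      push Not at h1
      exact hna fun a b => (mem_center_iff.mp (h1 b) a)
    -- the centralizer of x
    set C := centralizer ({x} : Set P) with hC
    have hCi : C.index ∣ p ^ 4 := by rw [← hP]; exact C.index_dvd_card
    have hCle : C.index ≤ p := by
      rw [← h, Subgroup.index]
      refine Nat.card_le_card_of_injective (fun q : P ⧸ C => (⟨⁅q.out, x⁆, Subgroup.commutator_mem_commutator (mem_top _) (mem_top _)⟩ : commutator P)) ?_
      intro q r hqr
      have h1 : ⁅q.out, x⁆ = ⁅r.out, x⁆ := congrArg Subtype.val hqr
      rw [commutatorElement_def, commutatorElement_def] at h1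
      have h2 : q.out * x * q.out⁻¹ = r.out * x * r.out⁻¹ := mul_right_cancel h1
      rw [← q.out_eq', ← r.out_eq', QuotientGroup.eq]
      refine mem_centralizer_singleton_iff.mpr ?_
      calc q.out⁻¹ * r.out * x = q.out⁻¹ * (r.out * x * r.out⁻¹) * r.out := by group
        _ = q.out⁻¹ * (q.out * x * q.out⁻¹) * r.out := by rw [h2]
        _ = x * (q.out⁻¹ * r.out) := by group
    have hC1 : C.index ≠ 1 := by
      intro h1
      rw [Subgroup.index_eq_one] at h1
      apply hx
      rw [mem_center_iff]
      intro g
      exact mem_centralizer_singleton_iff.mp (by rw [← hC, h1]; exact mem_top g)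
    have hCp : C.index = p := by
      obtain ⟨k, hk, hk2⟩ := (Nat.dvd_prime_pow hp).mp hCi
      rcases k with _ | _ | k
      · exact absurd hk2 (by rw [pow_zero]; exact hC1)
      · rw [hk2]; simp
      · exfalso
        rw [hk2] at hCle
        have : p ^ 1 < p ^ (k + 2) := Nat.pow_lt_pow_right hp.one_lt (by omega)
        rw [pow_one] at this
        have e : k + 1 + 1 = k + 2 := rfl
        rw [e] at hCle
        omega
    haveI hCn : C.Normal := index_prime_normal hPg hCp
    have hCc : Nat.card C = p ^ 3 := by
      have h1 := C.card_mul_index
      rw [hCp, hP] at h1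
      exact Nat.eq_of_mul_eq_mul_right hp.pos (by rw [h1]; ring)
    -- C is abelian
    have hCab : ∀ a ∈ C, ∀ b ∈ C, a * b = b * a := by
      have hZC : Nat.card (center C) ∣ p ^ 3 := by rw [← hCc]; exact Subgroup.card_subgroup_dvd_card _
      obtain ⟨k, hk, hk2⟩ := (Nat.dvd_prime_pow hp).mp hZC
      have hZle : center P ≤ C := fun z hz => mem_centralizer_singleton_iff.mpr (mem_center_iff.mp hz x).symm
      have hxC : x ∈ C := mem_centralizer_singleton_iff.mpr rfl
      have hlt : Nat.card (center P) < Nat.card (center C) := by
        have h1 : center P < (center C).map C.subtype := by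
          apply lt_of_le_of_ne
          · intro z hz
            refine ⟨⟨z, hZle hz⟩, ?_, rfl⟩
            rw [SetLike.mem_coe, mem_center_iff]
            intro g
            exact Subtype.ext (mem_center_iff.mp hz g)
          · intro h1
            apply hx
            rw [h1]
            refine ⟨⟨x, hxC⟩, ?_, rfl⟩
            rw [SetLike.mem_coe, mem_center_iff]
            intro g
            exact Subtype.ext (mem_centralizer_singleton_iff.mp g.2)
        have h2 : Nat.card ((center C).map C.subtype) = Nat.card (center C) :=
          Subgroup.card_map_of_injective C.subtype_injective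
        rw [← h2]
        by_contra h3
        push Not at h3
        exact h1.ne (Subgroup.eq_of_le_of_card_ge h1.le h3)
      have hZ1 : p ≤ Nat.card (center P) := by
        haveI := hPg.center_nontrivial
        obtain ⟨m, hm⟩ := IsPGroup.iff_card.mp (hPg.to_subgroup (center P))
        rcases m with _ | m
        · exfalso
          rw [pow_zero] at hm
          have := Finite.one_lt_card_iff_nontrivial.mpr this
          omega
        · rw [hm, pow_succ]
          exact Nat.le_mul_of_pos_left _ (pow_pos hp.pos _)
      have hk1 : 2 ≤ k := by
        by_contra h1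
        push Not at h1
        have h2 : p ^ k ≤ p ^ 1 := Nat.pow_le_pow_right hp.pos (by omega)
        rw [pow_one] at h2
        omega
      have hind : (center C).index ∣ p := by
        have h1 := (center C).card_mul_index
        rw [hk2, hCc] at h1
        have h2 : p ^ 3 = p ^ k * p ^ (3 - k) := by rw [← pow_add]; congr 1; omega
        rw [h2] at h1
        have h3 := Nat.eq_of_mul_eq_mul_left (pow_pos hp.pos k) h1
        rw [h3]
        calc p ^ (3 - k) ∣ p ^ 1 := pow_dvd_pow p (by omega)
          _ = p := pow_one p
      haveI : IsCyclic (C ⧸ center C) := by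
        rcases (Nat.dvd_prime hp).mp hind with h1 | h1
        · haveI : Subsingleton (C ⧸ center C) := by
            rw [← Finite.card_le_one_iff_subsingleton]
            exact h1.le
          infer_instance
        · exact isCyclic_of_prime_card (p := p) h1
      have h3 := commutative_of_cyclic_center_quotient (QuotientGroup.mk' (center C)) (by rw [QuotientGroup.ker_mk'])
      intro a ha b hb
      exact congrArg Subtype.val (h3 ⟨a, ha⟩ ⟨b, hb⟩)
    have h1 := card_eq_center hCab hp hCp hna
    rw [hCc, h] at h1
    have h2 : Nat.card (center P) = p ^ 2 := Nat.eq_of_mul_eq_mul_left hp.pos (by rw [← h1]; ring)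
    have h3 := (center P).card_mul_index
    rw [h2, hP] at h3
    exact Nat.eq_of_mul_eq_mul_left (pow_pos hp.pos 2) (by rw [h3]; ring)
  · intro h
    have hna : ¬ ∀ x y : P, x * y = y * x := by
      intro hc
      have h1 : center P = ⊤ := by
        rw [eq_top_iff]
        intro z _
        rw [mem_center_iff]
        intro g; exact hc g z
      rw [h1, Subgroup.index_top] at h
      have := Nat.one_lt_pow (n := 2) (by norm_num) hp.one_lt
      omega
    obtain ⟨x, hx⟩ : ∃ x : P, x ∉ center P := by
      by_contra h1
      push Not at h1
      exact hna fun a b => (mem_center_iff.mp (h1 b) a)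
    set A := center P ⊔ zpowers x with hA
    have hAc : ∀ a ∈ A, ∀ b ∈ A, a * b = b * a := by
      have h1 : ∀ u ∈ (center P : Set P) ∪ {x}, ∀ v ∈ (center P : Set P) ∪ {x}, u * v = v * u := by
        rintro u (hu | hu) v (hv | hv)
        · exact (mem_center_iff.mp hu v).symm
        · exact (mem_center_iff.mp hu v).symm
        · exact (mem_center_iff.mp hv u)
        · rw [Set.mem_singleton_iff.mp hu, Set.mem_singleton_iff.mp hv]
      have h2 := Subgroup.isMulCommutative_closure h1
      have h3 : closure ((center P : Set P) ∪ {x}) = A := by
        rw [Subgroup.closure_union, Subgroup.closure_eq, ← Subgroup.zpowers_eq_closure]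
      rw [h3] at h2
      intro a ha b hb
      exact congrArg Subtype.val (h2.is_comm.comm ⟨a, ha⟩ ⟨b, hb⟩)
    have hAi : A.index = p := by
      have h1 : center P ≤ A := le_sup_left
      have h2 := Subgroup.relIndex_mul_index h1
      rw [h] at h2
      have h3 : A.index ∣ p ^ 2 := ⟨_, by rw [mul_comm]; exact h2.symm⟩
      obtain ⟨k, hk, hk2⟩ := (Nat.dvd_prime_pow hp).mp h3
      rcases k with _ | _ | _ | k
      · exfalso
        rw [pow_zero, Subgroup.index_eq_one] at hk2
        exact hna fun a b => hAc a (by rw [hk2]; exact mem_top a) b (by rw [hk2]; exact mem_top b)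
      · rw [hk2]; simp
      · exfalso
        rw [hk2] at h2
        have h4 : (center P).relIndex A = 1 := Nat.eq_of_mul_eq_mul_right (pow_pos hp.pos 2) (by rw [one_mul]; exact h2)
        rw [Subgroup.relIndex_eq_one] at h4
        exact hx (h4 (Subgroup.mem_sup_right (mem_zpowers x)))
      · omega
    haveI hAn : A.Normal := index_prime_normal hPg hAi
    have h1 := card_eq_center hAc hp hAi hna
    have h2 := (center P).card_mul_index
    rw [h, hP] at h2
    have h3 : Nat.card (center P) = p ^ 2 := Nat.eq_of_mul_eq_mul_right (pow_pos hp.pos 2) (by rw [h2]; ring)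
    have h4 := A.card_mul_index
    rw [hAi, hP] at h4
    have h5 : Nat.card A = p ^ 3 := Nat.eq_of_mul_eq_mul_right hp.pos (by rw [h4]; ring)
    rw [h5, h3] at h1
    exact Nat.eq_of_mul_eq_mul_right (pow_pos hp.pos 2) (by rw [← h1]; ring)


end Cfsg.Agent.S4584
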