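import Cfsg.Statements.S4585
import Cfsg.Agent.LibAbIdx20
import Cfsg.Agent.S4584

set_option autoImplicit false
set_option linter.all false
open Cfsg

namespace Cfsg.Agent.S4585


open Subgroup CfsgLib.AbIdx20
open scoped commutatorElement

/-- Let p be a prime and P a group of order p^4. Then P' has index p^2 in P if and only if P has maximal nilpotency class, that is, nilpotency class exactly 3. -/
theorem result {P : Type*} [Group P] [Finite P] (p : ℕ) [Fact p.Prime] (hP : Nat.card P = p ^ 4) :
    (commutator P).index = p ^ 2 ↔ Group.nilpotencyClass P = 3 := by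

  have hp : p.Prime := Fact.out
  have hPg : IsPGroup p P := IsPGroup.of_card hP
  haveI hnil : Group.IsNilpotent P := hPg.isNilpotent
  haveI : Nontrivial P := by
    rw [← Finite.one_lt_card_iff_nontrivial, hP]
    exact Nat.one_lt_pow (by norm_num) hp.one_lt
  set L : ℕ → Subgroup P := fun n => (⊤ : Subgroup P).lowerCentralSeries n with hLdef
  have hanti : Antitone L := (⊤ : Subgroup P).lowerCentralSeries_antitone
  have hsucc : ∀ n, L (n + 1) = ⁅L n, (⊤ : Subgroup P)⁆ := fun n => rfl
  have h0 : L 0 = ⊤ := rfl
  have hbot : ∀ {n}, L n = ⊥ ↔ Group.nilpotencyClass P ≤ n := Subgroup.lowerCentralSeries_eq_bot_iff_nilpotencyClass_le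
  have h1 : L 1 = commutator P := Subgroup.top_lowerCentralSeries_one
  have hstep : ∀ n, L n ≠ ⊥ → L (n + 1) < L n := by
    intro n hn
    refine lt_of_le_of_ne (hanti (Nat.le_succ n)) ?_
    intro he
    have h2 : ∀ k, L (n + k) = L n := by
      intro k
      induction k with
      | zero => rfl
      | succ k ih =>
        rw [← add_assoc, hsucc, ih, ← hsucc, he]
    obtain ⟨m, hm⟩ := Subgroup.nilpotent_iff_lowerCentralSeries.mp hnil
    apply hn
    rw [← h2 m]
    rw [eq_bot_iff, ← hm]
    exact hanti (Nat.le_add_left m n)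
  have hcard := (commutator P).card_mul_index
  rw [hP] at hcard
  constructor
  · intro h
    rw [h] at hcard
    have h2 : Nat.card (commutator P) = p ^ 2 := Nat.eq_of_mul_eq_mul_right (pow_pos hp.pos 2) (by rw [hcard]; ring)
    have hle : Group.nilpotencyClass P ≤ 3 := by
      rw [← hbot]
      by_contra h3
      have h4 : L 2 ≠ ⊥ := by
        intro h5
        apply h3
        rw [eq_bot_iff, ← h5]
        exact hanti (by norm_num)
      have h5 := hstep 2 h4
      have h6 : L 2 < commutator P := by
        rw [← h1]
        apply hstep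
        rw [h1]; intro h7
        rw [h7, Subgroup.card_bot] at h2
        exact (Nat.one_lt_pow (n := 2) (by norm_num) hp.one_lt).ne h2
      have h7 : Nat.card (L 2) ∣ p ^ 2 := by
        rw [← h2]; exact Subgroup.card_dvd_of_le h6.le
      obtain ⟨k, hk, hk2⟩ := (Nat.dvd_prime_pow hp).mp h7
      have h8 : k ≤ 1 := by
        by_contra h9
        have : k = 2 := by omega
        rw [this, ← h2] at hk2
        exact h6.ne (Subgroup.eq_of_le_of_card_ge h6.le hk2.ge)
      have h9 : Nat.card (L 3) ∣ p ^ k := by
        rw [← hk2]; exact Subgroup.card_dvd_of_le h5.le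
      obtain ⟨l, hl, hl2⟩ := (Nat.dvd_prime_pow hp).mp h9
      have h10 : l ≠ 0 := by
        rintro rfl
        rw [pow_zero, Subgroup.card_eq_one] at hl2
        exact h3 hl2
      have : l = k := by omega
      rw [this, ← hk2] at hl2
      exact h5.ne (Subgroup.eq_of_le_of_card_ge h5.le hl2.ge)
    refine le_antisymm hle ?_
    by_contra h3
    have h4 : Group.nilpotencyClass P ≤ 2 := by omega
    rw [← hbot] at h4
    have h5 : commutator P ≤ center P := by
      rw [hsucc] at h4
      intro z hz
      rw [mem_center_iff]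
      intro g
      have h6 : ⁅z, g⁆ ∈ (⊥ : Subgroup P) := by
        rw [← h4]
        exact Subgroup.commutator_mem_commutator (by rw [h1]; exact hz) (mem_top _)
      rw [Subgroup.mem_bot] at h6
      exact (commutatorElement_eq_one_iff_mul_comm.mp h6).symm
    have h6 : p ^ 2 ∣ Nat.card (center P) := by rw [← h2]; exact Subgroup.card_dvd_of_le h5
    have hna : ¬ ∀ x y : P, x * y = y * x := by
      intro hc
      have h7 : commutator P = ⊥ := by
        rw [eq_bot_iff, _root_.commutator_def, Subgroup.commutator_le]
        intro a _ b _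
        rw [Subgroup.mem_bot, commutatorElement_eq_one_iff_mul_comm]
        exact hc a b
      rw [h7, Subgroup.card_bot] at h2
      exact (Nat.one_lt_pow (n := 2) (by norm_num) hp.one_lt).ne h2
    have h7 : Nat.card (center P) ∣ p ^ 4 := by rw [← hP]; exact Subgroup.card_subgroup_dvd_card _
    obtain ⟨k, hk, hk2⟩ := (Nat.dvd_prime_pow hp).mp h7
    have h8 : 2 ≤ k := by
      rw [hk2] at h6
      exact (Nat.pow_dvd_pow_iff_le_right hp.one_lt).mp h6
    have h9 := (center P).card_mul_index
    rw [hk2, hP] at h9
    have h10 : (center P).index = p ^ (4 - k) := by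
      apply Nat.eq_of_mul_eq_mul_left (pow_pos hp.pos k)
      rw [h9, ← pow_add]; congr 1; omega
    have h11 : k = 2 := by
      by_contra h12
      apply hna
      have h13 : (center P).index ∣ p := by
        rw [h10]
        calc p ^ (4 - k) ∣ p ^ 1 := pow_dvd_pow p (by omega)
          _ = p := pow_one p
      haveI : IsCyclic (P ⧸ center P) := by
        rcases (Nat.dvd_prime hp).mp h13 with h1 | h1
        · haveI : Subsingleton (P ⧸ center P) := by
            rw [← Finite.card_le_one_iff_subsingleton]
            exact h1.le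
          infer_instance
        · exact isCyclic_of_prime_card (p := p) h1
      exact commutative_of_cyclic_center_quotient (QuotientGroup.mk' (center P)) (by rw [QuotientGroup.ker_mk'])
    rw [h11] at h10
    have h12 := (Cfsg.Agent.S4584.result p hP).mpr h10
    rw [h2] at h12
    have : p ^ 1 < p ^ 2 := Nat.pow_lt_pow_right hp.one_lt (by norm_num)
    rw [pow_one] at this
    omega
  · intro h
    have hn2 : L 2 ≠ ⊥ := by
      intro h2
      rw [hbot] at h2
      omega
    have hind : (commutator P).index ∣ p ^ 4 := by rw [← hP]; exact (commutator P).index_dvd_card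
    obtain ⟨k, hk, hk2⟩ := (Nat.dvd_prime_pow hp).mp hind
    have hcc : Nat.card (commutator P) = p ^ (4 - k) := by
      rw [hk2] at hcard
      apply Nat.eq_of_mul_eq_mul_right (pow_pos hp.pos k)
      rw [hcard, ← pow_add]; congr 1; omega
    -- P' of order at most p is impossible
    have hk3 : k ≤ 2 := by
      by_contra h3
      have h4 : Nat.card (L 2) ∣ p ^ (4 - k) := by
        rw [← hcc, ← h1]; exact Subgroup.card_dvd_of_le (hanti (by norm_num))
      have h5 : L 1 ≠ ⊥ := by
        intro h6
        apply hn2
        rw [eq_bot_iff, ← h6]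
        exact hanti (by norm_num)
      have h6 := hstep 1 h5
      rw [h1] at h6
      obtain ⟨l, hl, hl2⟩ := (Nat.dvd_prime_pow hp).mp h4
      have h7 : l ≠ 0 := by
        rintro rfl
        rw [pow_zero, Subgroup.card_eq_one] at hl2
        exact hn2 hl2
      have h8 : l = 4 - k := by omega
      rw [h8, ← hcc] at hl2
      exact h6.ne (Subgroup.eq_of_le_of_card_ge h6.le hl2.ge)
    rw [hk2]
    congr 1
    by_contra hk4
    have hk5 : k ≤ 1 := by omega
    -- pick x outside P'
    obtain ⟨x, hx⟩ : ∃ x : P, x ∉ commutator P := by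
      by_contra h3
      push Not at h3
      have h4 : commutator P = ⊤ := by rw [eq_top_iff]; intro x _; exact h3 x
      have h5 := hstep 0 (by rw [h0]; exact top_ne_bot)
      rw [zero_add, h1, h4, h0] at h5
      exact lt_irrefl _ h5
    have hz : Nat.card (zpowers x) ∣ p ^ 4 := by rw [← hP]; exact Subgroup.card_subgroup_dvd_card _
    obtain ⟨m, hm, hm2⟩ := (Nat.dvd_prime_pow hp).mp hz
    have hm3 : m ≤ 3 := by
      by_contra h3
      have h4 : m = 4 := by omega
      rw [h4, ← hP] at hm2
      have h5 : zpowers x = ⊤ := Subgroup.eq_top_of_card_eq _ hm2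
      apply hn2
      rw [eq_bot_iff]
      refine (hanti (show 1 ≤ 2 by norm_num)).trans ?_
      rw [h1, _root_.commutator_def, Subgroup.commutator_le]
      intro a _ b _
      rw [Subgroup.mem_bot, commutatorElement_eq_one_iff_mul_comm]
      obtain ⟨i, rfl⟩ := Subgroup.mem_zpowers_iff.mp (by rw [h5]; exact mem_top a : a ∈ zpowers x)
      obtain ⟨j, rfl⟩ := Subgroup.mem_zpowers_iff.mp (by rw [h5]; exact mem_top b : b ∈ zpowers x)
      rw [← zpow_add, ← zpow_add, add_comm]
    obtain ⟨K, hK, hKle⟩ := Sylow.exists_subgroup_card_pow_prime_le p (n := m) (m := 3) (by rw [hP]; exact pow_dvd_pow p (by norm_num)) (zpowers x) hm2 hm3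
    have hKi : K.index = p := by
      have h3 := K.card_mul_index
      rw [hK, hP] at h3
      exact Nat.eq_of_mul_eq_mul_left (pow_pos hp.pos 3) (by rw [h3]; ring)
    haveI hKn : K.Normal := index_prime_normal hPg hKi
    have hKc : commutator P ≤ K := by
      rw [← Subgroup.Normal.quotient_commutative_iff_commutator_le]
      haveI : IsCyclic (P ⧸ K) := isCyclic_of_prime_card (p := p) hKi
      exact ⟨⟨fun a b => by
        obtain ⟨g, hg⟩ := IsCyclic.exists_generator (α := P ⧸ K)
        obtain ⟨i, rfl⟩ := Subgroup.mem_zpowers_iff.mp (hg a)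
        obtain ⟨j, rfl⟩ := Subgroup.mem_zpowers_iff.mp (hg b)
        rw [← zpow_add, ← zpow_add, add_comm]⟩⟩
    have h3 : commutator P = K := by
      apply Subgroup.eq_of_le_of_card_ge hKc
      rw [hK, hcc]
      exact Nat.pow_le_pow_right hp.pos (by omega)
    apply hx
    rw [h3]
    exact hKle (mem_zpowers x)


end Cfsg.Agent.S4585
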