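import Cfsg.Statements.S4586
import Cfsg.Agent.LibAbIdx20

set_option autoImplicit false
set_option linter.all false
open Cfsg

namespace Cfsg.Agent.S4586


open Subgroup CfsgLib.AbIdx20
open scoped commutatorElement

theorem key {P : Type*} [Group P] [Finite P] (p : ℕ) [Fact p.Prime] (hP : IsPGroup p P) (N : Subgroup P) [N.Normal] (hN : N.index = p)
    (x : P) (hx : x ∉ N) :
    Nat.card N * Nat.card (commutator N) = Nat.card (commutator P) *
      Nat.card {n : N // x * n * x⁻¹ * (n : P)⁻¹ ∈ (commutator N).map N.subtype} := by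
  have hp : p.Prime := Fact.out
  haveI hDn : ((commutator N).map N.subtype).Normal := inferInstance
  set D := (commutator N).map N.subtype with hD
  have hDN : D ≤ N := Subgroup.map_subtype_le _
  set π := QuotientGroup.mk' D with hπ
  have hπs : Function.Surjective π := QuotientGroup.mk'_surjective D
  have hker : π.ker = D := QuotientGroup.ker_mk' D
  haveI hAn : (N.map π).Normal := Subgroup.Normal.map inferInstance π hπs
  have hcomap : (N.map π).comap π = N := by
    rw [Subgroup.comap_map_eq, hker, sup_eq_left.mpr hDN]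
  have hAi : (N.map π).index = p := by
    rw [← Subgroup.index_comap_of_surjective _ hπs, hcomap, hN]
  have hxA : π x ∉ N.map π := by
    intro h
    apply hx
    rw [← hcomap]
    exact h
  have hc : ∀ a ∈ N.map π, ∀ b ∈ N.map π, a * b = b * a := by
    rintro _ ⟨a, ha, rfl⟩ _ ⟨b, hb, rfl⟩
    rw [← commutatorElement_eq_one_iff_mul_comm, ← map_commutatorElement, ← MonoidHom.mem_ker, hker, hD]
    exact ⟨⁅(⟨a, ha⟩ : N), ⟨b, hb⟩⁆, Subgroup.commutator_mem_commutator (mem_top _) (mem_top _), rfl⟩
  have h1 := card_eq hc hp hAi hxA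
  -- translate cardinalities
  have h2 : ∀ K : Subgroup P, D ≤ K → Nat.card K = Nat.card (K.map π) * Nat.card D := by
    intro K hK
    have h3 := Subgroup.card_mul_index (π.comp K.subtype).ker
    rw [Subgroup.index_ker] at h3
    have h4 : Nat.card (π.comp K.subtype).ker = Nat.card D := by
      have h5 : (π.comp K.subtype).ker = D.subgroupOf K := by
        rw [← MonoidHom.comap_ker, hker]; rfl
      rw [h5]
      exact Nat.card_congr (Subgroup.subgroupOfEquivOfLe hK).toEquiv
    have h6 : (π.comp K.subtype).range = K.map π := by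
      rw [MonoidHom.range_comp, Subgroup.range_subtype]
    rw [h4, h6] at h3
    rw [← h3, mul_comm]
  have hDc : Nat.card D = Nat.card (commutator N) := Subgroup.card_map_of_injective N.subtype_injective
  have hPD : D ≤ commutator P := by
    rw [hD, Subgroup.map_le_iff_le_comap, _root_.commutator_def, Subgroup.commutator_le]
    intro a _ b _
    exact Subgroup.commutator_mem_commutator (mem_top _) (mem_top _)
  have hPc : (commutator P).map π = commutator (P ⧸ D) := by
    rw [_root_.commutator_def, _root_.commutator_def, Subgroup.map_commutator,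
      Subgroup.map_top_of_surjective _ hπs]
  have h3 := h2 N hDN
  have h4 := h2 (commutator P) hPD
  rw [hPc] at h4
  -- the set
  have h5 : Nat.card {n : N // x * n * x⁻¹ * (n : P)⁻¹ ∈ D} =
      Nat.card {a : N.map π // π x * a = a * π x} * Nat.card D := by
    let S : Subgroup P := (centralizer {π x}).comap π ⊓ N
    have hS : D ≤ S := by
      intro d hd
      refine Subgroup.mem_inf.mpr ⟨?_, hDN hd⟩
      rw [Subgroup.mem_comap]
      have : π d = 1 := by rw [← MonoidHom.mem_ker, hker]; exact hd
      rw [this]; exact one_mem _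
    have h6 := h2 S hS
    have h7 : Nat.card {n : N // x * n * x⁻¹ * (n : P)⁻¹ ∈ D} = Nat.card S := by
      have hiff : ∀ n : P, x * n * x⁻¹ * n⁻¹ ∈ D ↔ n ∈ (centralizer {π x}).comap π := by
        intro n
        rw [Subgroup.mem_comap, mem_centralizer_singleton_iff]
        have e : x * n * x⁻¹ * n⁻¹ ∈ D ↔ π (x * n * x⁻¹ * n⁻¹) = 1 := by
          rw [← MonoidHom.mem_ker, hker]
        rw [e, ← commutatorElement_def,
          map_commutatorElement, commutatorElement_eq_one_iff_mul_comm]
        exact eq_comm
      refine Nat.card_congr ⟨fun n => ⟨n.1.1, Subgroup.mem_inf.mpr ⟨(hiff _).mp n.2, n.1.2⟩⟩,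
        fun s => ⟨⟨s.1, (Subgroup.mem_inf.mp s.2).2⟩, (hiff _).mpr (Subgroup.mem_inf.mp s.2).1⟩, fun _ => rfl, fun _ => rfl⟩
    have h8 : Nat.card (S.map π) = Nat.card {a : N.map π // π x * a = a * π x} := by
      have hS2 : S.map π = centralizer {π x} ⊓ N.map π := by
        apply le_antisymm
        · rintro _ ⟨s, hs, rfl⟩
          exact Subgroup.mem_inf.mpr ⟨(Subgroup.mem_inf.mp hs).1, ⟨s, (Subgroup.mem_inf.mp hs).2, rfl⟩⟩
        · rintro a ha
          obtain ⟨h9, n, hn, rfl⟩ := Subgroup.mem_inf.mp ha
          exact ⟨n, Subgroup.mem_inf.mpr ⟨h9, hn⟩, rfl⟩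
      rw [hS2]
      refine Nat.card_congr ⟨fun s => ⟨⟨s.1, (Subgroup.mem_inf.mp s.2).2⟩, (mem_centralizer_singleton_iff.mp (Subgroup.mem_inf.mp s.2).1).symm⟩,
        fun a => ⟨a.1.1, Subgroup.mem_inf.mpr ⟨mem_centralizer_singleton_iff.mpr a.2.symm, a.1.2⟩⟩, fun _ => rfl, fun _ => rfl⟩
    rw [h7, h6, h8]
  rw [h5, h3, h4, ← hDc, h1]
  ring

/-- Let p be a prime, P a finite p-group and N a normal subgroup of P of index p. For x ∈ P write c(x) for the number of elements n of N whose commutator x n x⁻¹ n⁻¹ lies in the derived subgroup N' (so c(x)/#N' is the order of the centralizer of x acting on N/N'). Then [P : P'] = p² if and only if c(x) = p·#N' for every x ∈ P outside N, and also if and only if c(x) = p·#N' for some x ∈ P outside N. -/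
theorem result {P : Type*} [Group P] [Finite P] (p : ℕ) [Fact p.Prime] (hP : IsPGroup p P) (N : Subgroup P) [N.Normal] (hN : N.index = p) :
    ((commutator P).index = p ^ 2 ↔ ∀ x : P, x ∉ N →
        Nat.card {n : N // x * n * x⁻¹ * (n : P)⁻¹ ∈ (commutator N).map N.subtype} = p * Nat.card (commutator N)) ∧
    ((commutator P).index = p ^ 2 ↔ ∃ x : P, x ∉ N ∧
        Nat.card {n : N // x * n * x⁻¹ * (n : P)⁻¹ ∈ (commutator N).map N.subtype} = p * Nat.card (commutator N)) := by

  have hp : p.Prime := Fact.out
  have hk := fun x hx => key p hP N hN x hx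
  have hN1 := N.card_mul_index
  have hP1 := (commutator P).card_mul_index
  rw [hN] at hN1
  have hpos1 : 0 < Nat.card (commutator P) := Nat.card_pos
  have hpos2 : 0 < Nat.card (commutator N) := Nat.card_pos
  obtain ⟨x0, hx0⟩ : ∃ x, x ∉ N := by
    by_contra h
    push Not at h
    have : N = ⊤ := by rw [eq_top_iff]; intro x _; exact h x
    rw [this, Subgroup.index_top] at hN
    exact hp.one_lt.ne hN
  have hA : ∀ x, x ∉ N → ((commutator P).index = p ^ 2 ↔
      Nat.card {n : N // x * n * x⁻¹ * (n : P)⁻¹ ∈ (commutator N).map N.subtype} = p * Nat.card (commutator N)) := by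
    intro x hx
    have h1 := hk x hx
    constructor
    · intro h2
      rw [h2] at hP1
      have h3 : Nat.card N = Nat.card (commutator P) * p := by
        apply Nat.eq_of_mul_eq_mul_right hp.pos
        rw [hN1, ← hP1]; ring
      rw [h3] at h1
      apply Nat.eq_of_mul_eq_mul_left hpos1
      rw [← h1]; ring
    · intro h2
      rw [h2] at h1
      have h3 : Nat.card N = Nat.card (commutator P) * p := by
        apply Nat.eq_of_mul_eq_mul_right hpos2
        rw [h1]; ring
      rw [h3] at hN1
      apply Nat.eq_of_mul_eq_mul_left hpos1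
      rw [hP1, ← hN1]; ring
  constructor
  · constructor
    · intro h x hx
      exact (hA x hx).mp h
    · intro h
      exact (hA x0 hx0).mpr (h x0 hx0)
  · constructor
    · intro h
      exact ⟨x0, hx0, (hA x0 hx0).mp h⟩
    · rintro ⟨x, hx, h⟩
      exact (hA x hx).mpr h


end Cfsg.Agent.S4586
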