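import Cfsg.Statements.S4591
import Cfsg.Agent.LibFgKer

set_option autoImplicit false
open Cfsg

namespace Cfsg.Agent.S4591

set_option linter.style.haveILetI false
set_option linter.unusedSectionVars false
set_option linter.unusedVariables false

/-- Let G be a finite group, p a prime and P a Sylow p-subgroup, and let N be the largest normal subgroup of G in which P has trivial centralizer (N is normal with C_N(P) = 1 and contains every normal subgroup with that property). Then the intersection of the kernels of the irreducible characters of G of degree prime to p is the normal core in G of the subgroup N·P' (P' the derived subgroup of P). In particular, when G has no nontrivial normal subgroup of order prime to p, that intersection is the normal core of P'. -/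
theorem result {G : Type*} [Group G] [Finite G] (p : ℕ) [Fact p.Prime] (P : Sylow p G) (N : Subgroup G) [N.Normal]
    (hN : N ⊓ Subgroup.centralizer ((P : Subgroup G) : Set G) = ⊥)
    (hmax : ∀ L : Subgroup G, L.Normal → L ⊓ Subgroup.centralizer ((P : Subgroup G) : Set G) = ⊥ → L ≤ N) :
    {g : G | ∀ χ : Cfsg.IrrCharacter G, ¬ p ∣ Cfsg.charDegree (χ : G → ℂ) → (χ : G → ℂ) g = (χ : G → ℂ) 1} =
      ((N ⊔ ⁅(P : Subgroup G), (P : Subgroup G)⁆).normalCore : Set G) := by
  haveI := Fintype.ofFinite G
  classical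
  obtain ⟨K, hK⟩ : ∃ K : Subgroup G, ∀ g, g ∈ K ↔ ∀ χ : Cfsg.IrrCharacter G, ¬ p ∣ Cfsg.charDegree (χ : G → ℂ) → (χ : G → ℂ) g = (χ : G → ℂ) 1 := by
    choose k hk using fun χ : Cfsg.IrrCharacter G =>
      CfsgLib.CharBasic.exists_kernel (CfsgLib.CharBasic.irr_isCharacter χ.2)
    refine ⟨⨅ χ : {χ : Cfsg.IrrCharacter G // ¬ p ∣ Cfsg.charDegree (χ : G → ℂ)}, k χ.1, fun g => ?_⟩
    rw [Subgroup.mem_iInf]
    constructor
    · intro h χ hχ
      exact ((hk χ).2 g).mp (h ⟨χ, hχ⟩)
    · intro h χ
      exact ((hk χ.1).2 g).mpr (h χ.1 χ.2)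
  have hKn : K.Normal := by
    refine ⟨fun x hx g => ?_⟩
    rw [hK] at hx ⊢
    intro χ hχ
    rw [CfsgLib.CharBasic.irr_classFun χ.2 x g]
    exact hx χ hχ
  ext g
  rw [Set.mem_setOf_eq, ← hK, SetLike.mem_coe]
  constructor
  · intro hg
    have h1 : K ≤ N ⊔ ⁅(P : Subgroup G), (P : Subgroup G)⁆ :=
      CfsgLib.FgKer.ker_le P hKn hmax (fun x hx χ hχ hd => (hK x).mp hx ⟨χ, hχ⟩ hd)
    exact (Subgroup.normal_le_normalCore.mpr h1) hg
  · intro hg
    rw [hK]
    intro χ hχ
    exact CfsgLib.FgKer.le_ker P (N := N) inferInstance (Subgroup.normalCore_normal _) hN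
      (Subgroup.normal_le_normalCore.mpr le_sup_left) (Subgroup.normalCore_le _) χ.2 hχ ⟨g, hg⟩

end Cfsg.Agent.S4591
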