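import Cfsg.Statements.S4593
import Cfsg.Agent.LibIsoAb

set_option autoImplicit false
set_option linter.all false
open Cfsg

namespace Cfsg.Agent.S4593

open Subgroup SemidirectProduct
open scoped Pointwise


/-- Let G be a finite group with trivial centre and no nontrivial normal subgroup of odd order, whose Sylow 2-subgroups are abelian, and let P be a Sylow 2-subgroup. Every automorphism of G of 2-power order that fixes P elementwise is inner. -/
theorem result {G : Type*} [Group G] [Finite G] (hZ : Subgroup.center G = ⊥) (hcore : Cfsg.pPrimeCore 2 G = ⊥) (P : Sylow 2 G) (hab : IsMulCommutative (P : Subgroup G))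
    (α : MulAut G) (h2 : ∃ j : ℕ, orderOf α = 2 ^ j) (hfix : ∀ x ∈ (P : Subgroup G), α x = x) :
    ∃ g : G, ∀ x : G, α x = g * x * g⁻¹ := by
  classical
  haveI : Fact (Nat.Prime 2) := ⟨Nat.prime_two⟩
  haveI : Finite (MulAut G) := Finite.of_injective (fun f : MulAut G => (f : G → G)) DFunLike.coe_injective
  obtain ⟨j, hj⟩ := h2
  have hPc : ∀ a ∈ (P : Subgroup G), ∀ b ∈ (P : Subgroup G), a * b = b * a := fun a ha b hb =>
    congrArg Subtype.val (hab.is_comm.comm (⟨a, ha⟩ : (P : Subgroup G)) ⟨b, hb⟩)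
  let φ : zpowers α →* MulAut G := (zpowers α).subtype
  have hφ : ∀ s g, φ s g = (s : MulAut G) g := fun s g => rfl
  have hsP : ∀ (s : zpowers α), ∀ x ∈ (P : Subgroup G), (s : MulAut G) x = x := by
    intro s x hx
    have h1 : zpowers α ≤ MulAction.stabilizer (MulAut G) x := by
      rw [zpowers_le, MulAction.mem_stabilizer_iff]
      exact hfix x hx
    exact MulAction.mem_stabilizer_iff.mp (h1 s.2)
  haveI : Finite (G ⋊[φ] zpowers α) := Finite.of_equiv _ SemidirectProduct.equivProd.symm
  have hcomm : ∀ s s' : zpowers α, s * s' = s' * s := by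
    rintro ⟨_, i, rfl⟩ ⟨_, k, rfl⟩
    exact Subtype.ext (zpow_mul_comm α i k)
  have h2Z : IsPGroup 2 (zpowers α) := by
    apply IsPGroup.of_card (n := j)
    rw [Nat.card_zpowers, hj]
  set D : Subgroup (G ⋊[φ] zpowers α) := (SemidirectProduct.inl : G →* G ⋊[φ] zpowers α).range with hD
  have hDk : D = (SemidirectProduct.rightHom : G ⋊[φ] zpowers α →* zpowers α).ker := SemidirectProduct.range_inl_eq_ker_rightHom
  have hDn : D.Normal := by rw [hDk]; infer_instance
  have hDc : ∀ x y : G ⋊[φ] zpowers α, x * y * x⁻¹ * y⁻¹ ∈ D := by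
    intro x y
    rw [hDk, MonoidHom.mem_ker]
    simp only [map_mul, map_inv]
    rw [hcomm (SemidirectProduct.rightHom x) (SemidirectProduct.rightHom y)]; group
  have hcoreG : Cfsg.oddCore (G ⋊[φ] zpowers α) = ⊥ := by
    have h1 := CfsgLib.ZStar.oddCore_odd (G := G ⋊[φ] zpowers α)
    have h3 : Cfsg.oddCore (G ⋊[φ] zpowers α) ≤ D := by
      intro x hx
      rw [hDk, MonoidHom.mem_ker]
      have h4 : Odd (orderOf x) := Odd.of_dvd_nat h1 (Subgroup.orderOf_dvd_natCard _ hx)
      obtain ⟨k, hk⟩ := (IsPGroup.iff_orderOf.1 h2Z) (SemidirectProduct.rightHom x)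
      have h5 : orderOf (SemidirectProduct.rightHom x : zpowers α) ∣ orderOf x := orderOf_map_dvd _ x
      have h6 : Odd (orderOf (SemidirectProduct.rightHom x : zpowers α)) := Odd.of_dvd_nat h4 h5
      rw [hk] at h6
      have h7 : k = 0 := by
        by_contra h
        rw [Nat.odd_pow_iff h] at h6
        exact absurd h6 (by decide)
      rw [h7, pow_zero, orderOf_eq_one_iff] at hk
      exact hk
    haveI hn : (Cfsg.oddCore (G ⋊[φ] zpowers α)).Normal := inferInstance
    have h5 : (Cfsg.oddCore (G ⋊[φ] zpowers α)).comap (SemidirectProduct.inl : G →* G ⋊[φ] zpowers α) ≤ pPrimeCore 2 G := by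
      apply CfsgLib.Cores.le_pPrimeCore inferInstance
      rw [Nat.coprime_two_right]
      apply Odd.of_dvd_nat h1
      exact Subgroup.card_dvd_of_injective ((SemidirectProduct.inl : G →* G ⋊[φ] zpowers α).subgroupComap (Cfsg.oddCore (G ⋊[φ] zpowers α)))
        (fun a b hab => by
          apply Subtype.ext
          apply SemidirectProduct.inl_injective (φ := φ)
          exact congrArg Subtype.val hab)
    rw [eq_bot_iff]
    intro x hx
    obtain ⟨g, rfl⟩ := h3 hx
    have h6 := h5 (Subgroup.mem_comap.mpr hx)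
    rw [hcore, mem_bot] at h6
    rw [h6, map_one]; exact one_mem _
  -- the Sylow subgroup
  have hinl_pg : IsPGroup 2 ((P : Subgroup G).map (SemidirectProduct.inl : G →* G ⋊[φ] zpowers α)) := P.isPGroup'.map _
  obtain ⟨a, ha⟩ : ∃ a : G ⋊[φ] zpowers α, a = SemidirectProduct.inr ⟨α, mem_zpowers α⟩ := ⟨_, rfl⟩
  have hconj : ∀ (s : zpowers α) (g : G), (SemidirectProduct.inr s : G ⋊[φ] zpowers α) * SemidirectProduct.inl g =
      SemidirectProduct.inl ((s : MulAut G) g) * SemidirectProduct.inr s := by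
    intro s g
    have h1 := SemidirectProduct.inl_aut (φ := φ) s g
    rw [hφ, map_inv] at h1
    rw [h1, inv_mul_cancel_right]
  have hconjP : ∀ (s : zpowers α), ∀ g ∈ (P : Subgroup G), (SemidirectProduct.inr s : G ⋊[φ] zpowers α) * SemidirectProduct.inl g =
      SemidirectProduct.inl g * SemidirectProduct.inr s := by
    intro s g hg
    rw [hconj, hsP s g hg]
  have hRpg : IsPGroup 2 ((SemidirectProduct.inr : zpowers α →* G ⋊[φ] zpowers α).range) := by
    rw [MonoidHom.range_eq_map]
    exact (h2Z.of_equiv (Subgroup.topEquiv.symm)).map _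
  have hsup : IsPGroup 2 (((P : Subgroup G).map (SemidirectProduct.inl : G →* G ⋊[φ] zpowers α)) ⊔
      (SemidirectProduct.inr : zpowers α →* G ⋊[φ] zpowers α).range : Subgroup _) := by
    apply IsPGroup.to_sup_of_normal_right' hinl_pg hRpg
    rintro _ ⟨g, hg, rfl⟩
    rw [mem_normalizer_iff]
    rintro h
    constructor
    · rintro ⟨s, rfl⟩
      rw [← hconjP s g hg, mul_inv_cancel_right]
      exact ⟨s, rfl⟩
    · rintro ⟨s, hs⟩
      have h1 : h = (SemidirectProduct.inl g)⁻¹ * SemidirectProduct.inr s * SemidirectProduct.inl g := by rw [hs]; group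
      rw [h1, mul_assoc, hconjP s g hg, inv_mul_cancel_left]
      exact ⟨s, rfl⟩
  obtain ⟨T, hT⟩ := hsup.exists_le_sylow
  have hPT : ∀ g ∈ (P : Subgroup G), (SemidirectProduct.inl g : G ⋊[φ] zpowers α) ∈ (T : Subgroup _) := fun g hg =>
    hT (mem_sup_left ⟨g, hg, rfl⟩)
  have hRT : ∀ s : zpowers α, (SemidirectProduct.inr s : G ⋊[φ] zpowers α) ∈ (T : Subgroup _) := fun s =>
    hT (mem_sup_right ⟨s, rfl⟩)
  have hTP : ∀ g : G, (SemidirectProduct.inl g : G ⋊[φ] zpowers α) ∈ (T : Subgroup _) → g ∈ (P : Subgroup G) := by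
    have h1 : IsPGroup 2 ((T : Subgroup (G ⋊[φ] zpowers α)).comap SemidirectProduct.inl) :=
      T.isPGroup'.comap_of_injective _ SemidirectProduct.inl_injective
    have h2 := P.is_maximal' h1 (fun g hg => hPT g hg)
    intro g hg
    rw [← h2]; exact hg
  have hTdec : ∀ t ∈ (T : Subgroup (G ⋊[φ] zpowers α)), ∃ g ∈ (P : Subgroup G), ∃ s : zpowers α,
      t = SemidirectProduct.inl g * SemidirectProduct.inr s := by
    intro t ht
    refine ⟨t.left, ?_, t.right, (SemidirectProduct.inl_left_mul_inr_right t).symm⟩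
    apply hTP
    have h1 : (SemidirectProduct.inl t.left : G ⋊[φ] zpowers α) = t * (SemidirectProduct.inr t.right)⁻¹ := by
      rw [eq_mul_inv_iff_mul_eq]; exact SemidirectProduct.inl_left_mul_inr_right t
    rw [h1]
    exact mul_mem ht (inv_mem (hRT _))
  have hTc : ∀ x ∈ (T : Subgroup (G ⋊[φ] zpowers α)), ∀ y ∈ (T : Subgroup (G ⋊[φ] zpowers α)), x * y = y * x := by
    intro x hx y hy
    obtain ⟨g, hg, s, rfl⟩ := hTdec x hx
    obtain ⟨g', hg', s', rfl⟩ := hTdec y hy
    calc SemidirectProduct.inl g * SemidirectProduct.inr s * (SemidirectProduct.inl g' * SemidirectProduct.inr s')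
        = SemidirectProduct.inl g * (SemidirectProduct.inr s * SemidirectProduct.inl g') * SemidirectProduct.inr s' := by group
      _ = (SemidirectProduct.inl g * SemidirectProduct.inl g') * (SemidirectProduct.inr s * SemidirectProduct.inr s') := by
          rw [hconjP s g' hg']; group
      _ = (SemidirectProduct.inl g' * SemidirectProduct.inl g) * (SemidirectProduct.inr s' * SemidirectProduct.inr s) := by
          rw [← map_mul, ← map_mul, ← map_mul, ← map_mul, hPc g hg g' hg', hcomm s s']
      _ = SemidirectProduct.inl g' * (SemidirectProduct.inl g * SemidirectProduct.inr s') * SemidirectProduct.inr s := by group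
      _ = _ := by rw [← hconjP s' g hg]; group
  obtain ⟨x, hxT, hxD, hc⟩ := CfsgLib.IsoAb.exists_central T hTc hcoreG D hDc (a := a) (by rw [ha]; exact hRT _)
  obtain ⟨g, rfl⟩ := hxD
  have hgP := hTP g hxT
  refine ⟨g, fun y => ?_⟩
  have h1 := mem_center_iff.mp hc (SemidirectProduct.inl (g * y * g⁻¹))
  -- inl (g y g⁻¹) * (a * (inl g)⁻¹) = a * (inl g)⁻¹ * inl (g y g⁻¹)
  have h2 : a * (SemidirectProduct.inl g)⁻¹ * SemidirectProduct.inl (g * y * g⁻¹) = SemidirectProduct.inl (α y) * a * (SemidirectProduct.inl g)⁻¹ := by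
    have h3 : (SemidirectProduct.inl g : G ⋊[φ] zpowers α)⁻¹ * SemidirectProduct.inl (g * y * g⁻¹) = SemidirectProduct.inl y * (SemidirectProduct.inl g)⁻¹ := by
      rw [map_mul, map_mul, map_inv]; group
    rw [mul_assoc, h3, ← mul_assoc, ha, hconj]
  rw [h2, ← mul_assoc] at h1
  have h3 := mul_right_cancel h1
  have h4 := mul_right_cancel h3
  exact (SemidirectProduct.inl_injective h4).symm

end Cfsg.Agent.S4593
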