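import Cfsg.Statements.S4604
import Cfsg.Agent.LibBlockQP
import Cfsg.Agent.LibPLocalInd

set_option autoImplicit false
set_option linter.all false
open Cfsg

namespace Cfsg.Agent.S4604

open CfsgLib.CharInt hiding irr_isCharacter irr_classFun irr_one_ne_zero schur_scalar
open Cfsg CfsgLib.CharInt2 CfsgLib.CharBasic CfsgLib.BlockR

theorem pow_ppow_one {G : Type*} [Group G] [Finite G] {p : ℕ} (hp : p.Prime) {u : G} (hu : ∃ k : ℕ, orderOf u = p ^ k) :
    u ^ p ^ (Nat.card G).factorization p = 1 := by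
  obtain ⟨k, hk⟩ := hu
  have h1 : p ^ k ∣ Nat.card G := by rw [← hk]; exact orderOf_dvd_natCard u
  have h2 : k ≤ (Nat.card G).factorization p := (hp.pow_dvd_iff_le_factorization Nat.card_pos.ne').mp h1
  rw [← orderOf_dvd_iff_pow_eq_one, hk]
  exact pow_dvd_pow p h2

theorem pow_part {G : Type*} [Group G] [Finite G] {p : ℕ} (hp : p.Prime) {x x' : G}
    (hx : (∃ k : ℕ, orderOf (x * x'⁻¹) = p ^ k) ∧ Commute (x * x'⁻¹) x' ∧ ¬ p ∣ orderOf x') :
    x ^ p ^ (Nat.card G).factorization p = x' ^ p ^ (Nat.card G).factorization p := by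
  have h1 : x = (x * x'⁻¹) * x' := by group
  have h2 := pow_ppow_one hp hx.1
  calc x ^ p ^ (Nat.card G).factorization p = ((x * x'⁻¹) * x') ^ p ^ (Nat.card G).factorization p := by rw [← h1]
    _ = _ := by rw [hx.2.1.mul_pow, h2, one_mul]

theorem sum_pow_eq {R : Type*} [CommRing R] {p : ℕ} (hp : p.Prime) {ι : Type*} (s : Finset ι) (f : ι → R) (k : ℕ) :
    ∃ r : R, (∑ i ∈ s, f i) ^ p ^ k = ∑ i ∈ s, f i ^ p ^ k + p * r := by
  classical
  induction s using Finset.induction_on with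
  | empty => exact ⟨0, by simp [zero_pow (pow_ne_zero k hp.ne_zero)]⟩
  | insert a s ha ih =>
    obtain ⟨r, hr⟩ := ih
    rw [Finset.sum_insert ha, Finset.sum_insert ha]
    obtain ⟨t, ht⟩ := exists_add_pow_prime_pow_eq hp (f a) (∑ i ∈ s, f i) k
    refine ⟨r + f a * (∑ i ∈ s, f i) * t, ?_⟩
    have h3 : (f a + ∑ i ∈ s, f i) ^ p ^ k = f a ^ p ^ k + (∑ i ∈ s, f i ^ p ^ k + p * r) + p * f a * (∑ i ∈ s, f i) * t := by rw [ht, hr]
    rw [h3]; ring

theorem pow_congr {G : Type*} [Group G] [Finite G] {p : ℕ} (hp : p.Prime) {χ : G → ℂ} (hχ : IsIrrCharacter G χ) (g : G) (k : ℕ) :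
    ∃ r : AlgInt, χ g ^ p ^ k = χ (g ^ p ^ k) + p * (r : ℂ) := by
  classical
  obtain ⟨n, ρ, hρ, rfl⟩ := hχ
  obtain ⟨b, ω, hω, hb⟩ := exists_diag_rep ρ g
  have h1 : ∀ m : ℕ, ρ.character (g ^ m) = ∑ i, ω i ^ m := by
    intro m
    exact trace_of_diag b (ρ (g ^ m)) (fun i => ω i ^ m) (fun i => diag_pow ρ g (hb i) m)
  have h2 := h1 1
  simp only [pow_one] at h2
  have hint : ∀ i, IsIntegral ℤ (ω i) := fun i => IsIntegral.of_pow (orderOf_pos g) (by rw [hω i]; exact isIntegral_one)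
  obtain ⟨r, hr⟩ := sum_pow_eq hp Finset.univ (fun i => (⟨ω i, hint i⟩ : AlgInt)) k
  refine ⟨r, ?_⟩
  rw [h1 (p ^ k), h2]
  have h3 := congrArg (fun z : AlgInt => (z : ℂ)) hr
  simpa using h3

/-- Let G be a finite group, p a prime and p^a the p-part of the order of G. Let x, y ∈ G and let x′, y′ be their p-regular parts: x′ has order prime to p, commutes with x·x′⁻¹, and x·x′⁻¹ has p-power order (likewise for y). Then x′ and y′ are conjugate in G if and only if for every irreducible character χ of G the algebraic integer χ(x)^(p^a) − χ(y)^(p^a) is p times an algebraic integer. -/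
theorem result {G : Type*} [Group G] [Finite G] (p : ℕ) [Fact p.Prime] (x y x' y' : G)
    (hx : (∃ k : ℕ, orderOf (x * x'⁻¹) = p ^ k) ∧ Commute (x * x'⁻¹) x' ∧ ¬ p ∣ orderOf x')
    (hy : (∃ k : ℕ, orderOf (y * y'⁻¹) = p ^ k) ∧ Commute (y * y'⁻¹) y' ∧ ¬ p ∣ orderOf y') :
    IsConj x' y' ↔ ∀ χ : Cfsg.IrrCharacter G, ∃ γ : Cfsg.AlgInt,
      (χ : G → ℂ) x ^ (p ^ (Nat.card G).factorization p) - (χ : G → ℂ) y ^ (p ^ (Nat.card G).factorization p) = (p : ℂ) * (γ : ℂ) := by
  classical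
  haveI := Fintype.ofFinite G
  have hp : p.Prime := Fact.out
  set a := (Nat.card G).factorization p with ha
  have hx' := pow_part hp hx
  have hy' := pow_part hp hy
  constructor
  · intro hconj χ
    obtain ⟨r, hr⟩ := pow_congr hp χ.2 x a
    obtain ⟨s, hs⟩ := pow_congr hp χ.2 y a
    refine ⟨r - s, ?_⟩
    have h1 : (χ : G → ℂ) (x ^ p ^ a) = (χ : G → ℂ) (y ^ p ^ a) := by
      rw [hx', hy']
      obtain ⟨g, hg⟩ := isConj_iff.mp hconj
      rw [← hg]
      have h2 : (g * x' * g⁻¹) ^ p ^ a = g * x' ^ p ^ a * g⁻¹ := conj_pow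
      rw [h2]
      exact (irr_classFun χ.2 _ _).symm
    rw [hr, hs, h1]
    push_cast
    ring
  · intro h
    obtain ⟨M, hM⟩ := CfsgLib.BlockReg2.exists_modular p hp
    have hMp := isPrime_of_modular hM
    haveI := CfsgLib.LocR.isPrime hM
    have hcong : ∀ χ : IrrCharacter G, MemLocalIdeal M ((χ : G → ℂ) x - (χ : G → ℂ) y) := by
      intro χ
      obtain ⟨γ, hγ⟩ := h χ
      apply CfsgLib.LocR.memI_sub_of_pow_ppow hM
        (CfsgLib.LocR.memR_of_isIntegral (CfsgLib.CharBasic.char_isIntegral (CfsgLib.CharBasic.irr_isCharacter χ.2) _))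
        (CfsgLib.LocR.memR_of_isIntegral (CfsgLib.CharBasic.char_isIntegral (CfsgLib.CharBasic.irr_isCharacter χ.2) _)) a
      rw [hγ]
      refine ⟨(p : AlgInt) * γ, 1, M.mul_mem_right _ hM.2.2, fun h1 => hMp.ne_top ((Ideal.eq_top_iff_one _).mpr h1), ?_⟩
      push_cast
      rw [div_one]
    let f : G → ℂ := fun g => if IsConj (g ^ p ^ a) (x ^ p ^ a) then 1 else 0
    have hf : IsClassFunction G f := by
      intro g c
      have h1 : IsConj ((c * g * c⁻¹) ^ p ^ a) (x ^ p ^ a) ↔ IsConj (g ^ p ^ a) (x ^ p ^ a) := by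
        have h2 : (c * g * c⁻¹) ^ p ^ a = c * g ^ p ^ a * c⁻¹ := conj_pow
        have h3 : IsConj (g ^ p ^ a) ((c * g * c⁻¹) ^ p ^ a) := isConj_iff.mpr ⟨c, h2.symm⟩
        exact ⟨fun h4 => h3.trans h4, fun h4 => h3.symm.trans h4⟩
      simp only [f, h1]
    have hsec : CfsgLib.PLocalInd.SecConst p f := by
      intro s u hus hs hu
      obtain ⟨k, hk⟩ := hu
      have h1 : (u * s) ^ p ^ a = s ^ p ^ a := by
        rw [hus.mul_pow, pow_ppow_one hp ⟨k, hk⟩, one_mul]
      simp only [f, h1]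
    have hRC := CfsgLib.PLocalInd.rcomb_of_secConst hM hf (fun g => by
      simp only [f]
      split_ifs
      · have := ring_nat hMp 1
        simpa using this
      · have := ring_nat hMp 0
        simpa using this) hsec
    have hexp := CfsgLib.PLocalInd.rcomb_expand hRC
    have hdiff : MemLocalIdeal M (f x - f y) := by
      have h1 : f x - f y = ∑ χ : IrrCharacter G, classInner f (χ : G → ℂ) * ((χ : G → ℂ) x - (χ : G → ℂ) y) := by
        have h2 := congrFun hexp x
        have h3 := congrFun hexp y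
        simp only [Finset.sum_apply, Pi.smul_apply, smul_eq_mul] at h2 h3
        rw [h2, h3, ← Finset.sum_sub_distrib]
        exact Finset.sum_congr rfl fun χ _ => by ring
      rw [h1]
      apply ideal_sum hMp
      intro χ _
      exact ideal_mul_left hMp (hRC.2 χ) (hcong χ)
    have hfx : f x = 1 := by simp only [f]; rw [if_pos (IsConj.refl _)]
    have hconj : IsConj (y ^ p ^ a) (x ^ p ^ a) := by
      by_contra hne
      have hfy : f y = 0 := by simp only [f]; rw [if_neg hne]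
      rw [hfx, hfy, sub_zero] at hdiff
      have h1 : MemLocalIdeal M ((1 : ℕ) : ℂ) := by simpa using hdiff
      rw [ideal_nat_iff hM] at h1
      exact hp.one_lt.ne' (Nat.dvd_one.mp h1)
    rw [hx', hy'] at hconj
    have hcop : IsCoprime ((p ^ a : ℕ) : ℤ) ((orderOf x' * orderOf y' : ℕ) : ℤ) := by
      rw [Nat.isCoprime_iff_coprime]
      apply Nat.Coprime.pow_left
      exact Nat.Coprime.mul_right ((Nat.Prime.coprime_iff_not_dvd hp).mpr hx.2.2) ((Nat.Prime.coprime_iff_not_dvd hp).mpr hy.2.2)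
    obtain ⟨u, v, huv⟩ := hcop
    have hpw : ∀ z : G, (orderOf z : ℤ) ∣ ((orderOf x' * orderOf y' : ℕ) : ℤ) → (z ^ p ^ a) ^ u = z := by
      intro z hz
      rw [← zpow_natCast, ← zpow_mul]
      have h1 : ((p ^ a : ℕ) : ℤ) * u = 1 - v * ((orderOf x' * orderOf y' : ℕ) : ℤ) := by linarith
      rw [h1, zpow_sub, zpow_one]
      have h2 : z ^ (v * ((orderOf x' * orderOf y' : ℕ) : ℤ)) = 1 := by
        rw [← orderOf_dvd_iff_zpow_eq_one]
        exact Dvd.dvd.mul_left hz v
      rw [h2]; simp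
    obtain ⟨g, hg⟩ := isConj_iff.mp hconj
    have h1 := hpw x' (by push_cast; exact dvd_mul_right _ _)
    have h2 := hpw y' (by push_cast; exact dvd_mul_left _ _)
    rw [← hg] at h1
    have h3 : (g * y' ^ p ^ a * g⁻¹) ^ u = g * (y' ^ p ^ a) ^ u * g⁻¹ := conj_zpow
    rw [h3, h2] at h1
    exact (isConj_iff.mpr ⟨g, h1⟩ : IsConj y' x').symm


end Cfsg.Agent.S4604
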