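import Cfsg.Statements.S4619
import Cfsg.Agent.EqBase

set_option autoImplicit false
open scoped Pointwise
open Cfsg

namespace Cfsg.Agent.S4619



/-- Let P be a Sylow p-subgroup of the finite group G that is a trivial-intersection set: P meets each conjugate g P g⁻¹ with g outside N_G(P) trivially. Then for every nontrivial subgroup Q of P the normalizer of Q lies in the normalizer of P, and any g ∈ G conjugating Q into P lies in N_G(P). -/
theorem result {G : Type*} [Group G] [Finite G] (p : ℕ) [Fact p.Prime] (P : Sylow p G) (hTI : (∀ g : G, g ∉ Subgroup.normalizer ((P : Subgroup G) : Set G) → (P : Subgroup G) ⊓ (MulAut.conj g • (P : Subgroup G)) = ⊥)) (Q : Subgroup G) (hQ : Q ≤ (P : Subgroup G)) (hQ1 : Q ≠ ⊥) :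
    Subgroup.normalizer (Q : Set G) ≤ Subgroup.normalizer ((P : Subgroup G) : Set G) ∧
      ∀ g : G, MulAut.conj g • Q ≤ (P : Subgroup G) → g ∈ Subgroup.normalizer ((P : Subgroup G) : Set G) := by
  have key : ∀ g : G, MulAut.conj g • Q ≤ (P : Subgroup G) →
      g ∈ Subgroup.normalizer ((P : Subgroup G) : Set G) := by
    intro g hg
    by_contra hn
    have hn' : g⁻¹ ∉ Subgroup.normalizer ((P : Subgroup G) : Set G) := by
      intro h
      apply hn
      have := Subgroup.inv_mem _ h
      rwa [inv_inv] at this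
    have h1 := hTI g⁻¹ hn'
    apply hQ1
    rw [eq_bot_iff, ← h1]
    intro x hx
    refine Subgroup.mem_inf.2 ⟨hQ hx, ?_⟩
    rw [Subgroup.mem_pointwise_smul_iff_inv_smul_mem]
    apply hg
    have : (MulAut.conj g⁻¹)⁻¹ • x = MulAut.conj g • x := by
      rw [map_inv, inv_inv]
    rw [this]
    exact Subgroup.smul_mem_pointwise_smul _ _ _ hx
  refine ⟨fun g hg => key g ?_, key⟩
  intro x hx
  rw [Subgroup.mem_pointwise_smul_iff_inv_smul_mem] at hx
  apply hQ
  rw [Subgroup.mem_normalizer_iff] at hg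
  have h2 : (MulAut.conj g)⁻¹ • x = g⁻¹ * x * g := by
    rw [← map_inv]; simp [MulAut.smul_def]
  rw [h2] at hx
  have h3 := (hg (g⁻¹ * x * g)).1 hx
  have h4 : g * (g⁻¹ * x * g) * g⁻¹ = x := by group
  rwa [h4] at h3

end Cfsg.Agent.S4619
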