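import Cfsg.Statements.S4620
import Cfsg.Agent.LibCores
import Cfsg.Agent.LibLE4

set_option autoImplicit false
open scoped Pointwise
open Cfsg

namespace Cfsg.Agent.S4620


open Subgroup CfsgLib.LE

theorem mem_conj {H : Type*} [Group H] (P : Subgroup H) (g x : H) :
    x ∈ MulAut.conj g • P ↔ g⁻¹ * x * g ∈ P := by
  rw [Subgroup.mem_pointwise_smul_iff_inv_smul_mem, ← map_inv, MulAut.smul_def,
          MulAut.conj_apply, inv_inv]

theorem ppc_subnormal {H : Type*} [Group H] [Finite H] {p : ℕ} (hO : Cfsg.pPrimeCore p H = ⊥)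
    {K : Subgroup H} (hK : K.IsSubnormal) : Cfsg.pPrimeCore p K = ⊥ := by
  induction hK with
  | top =>
    have h1 := CfsgLib.Cores.map_pPrimeCore_equiv (G := (⊤ : Subgroup H)) (H := H) p Subgroup.topEquiv
    rw [hO] at h1
    exact (Subgroup.map_eq_bot_iff_of_injective _ (MulEquiv.injective _)).mp h1
  | step A B hAB hB hn ih =>
    haveI := hn
    have h1 := CfsgLib.Cores.map_pPrimeCore_of_normal (G := ↥B) p (A.subgroupOf B)
    rw [ih, bot_inf_eq] at h1
    have h2 : Cfsg.pPrimeCore p ↥(A.subgroupOf B) = ⊥ :=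
      (Subgroup.map_eq_bot_iff_of_injective _ (Subgroup.subtype_injective _)).mp h1
    have h3 := CfsgLib.Cores.map_pPrimeCore_equiv p (Subgroup.subgroupOfEquivOfLe hAB)
    rw [h2, Subgroup.map_bot] at h3
    exact h3.symm

theorem inf_ne_bot {H : Type*} [Group H] [Finite H] {p : ℕ} [Fact p.Prime]
    (hO : Cfsg.pPrimeCore p H = ⊥) (P : Sylow p H)
    {K : Subgroup H} (hK : K.IsSubnormal) (hK1 : K ≠ ⊥) : (P : Subgroup H) ⊓ K ≠ ⊥ := by
  intro h0
  obtain ⟨Q, hQ⟩ := sylow_inf_isSubnormal P hK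
  have h1 : (Q : Subgroup K) = ⊥ := by
    rw [hQ, Subgroup.subgroupOf_eq_bot]
    exact disjoint_iff.mpr h0
  have h2 : (Nat.card K).Coprime p := by
    have h3 := Q.card_eq_multiplicity
    rw [h1, Subgroup.card_bot] at h3
    rw [Nat.coprime_comm, Nat.Prime.coprime_iff_not_dvd (Fact.out : p.Prime)]
    intro hd
    have h4 : (Nat.card K).factorization p ≠ 0 := by
      have := (Fact.out : p.Prime).factorization_pos_of_dvd Nat.card_pos.ne' hd
      omega
    have h5 : 1 < p ^ (Nat.card K).factorization p :=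
      Nat.one_lt_pow h4 (Fact.out : p.Prime).one_lt
    omega
  have h3 := ppc_subnormal hO hK
  have h4 : (⊤ : Subgroup K) ≤ Cfsg.pPrimeCore p K := by
    apply CfsgLib.Cores.le_pPrimeCore inferInstance
    rw [Subgroup.card_top]; exact h2
  rw [h3] at h4
  apply hK1
  rw [Subgroup.eq_bot_iff_forall]
  intro x hx
  have := h4 (Subgroup.mem_top (⟨x, hx⟩ : K))
  rw [Subgroup.mem_bot] at this
  exact congrArg Subtype.val this

/-- two commuting nontrivial subnormal subgroups are impossible. -/
theorem no_comm {H : Type*} [Group H] [Finite H] {p : ℕ} [Fact p.Prime]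
    (hOp : Cfsg.pCore p H = ⊥)
    (hO : Cfsg.pPrimeCore p H = ⊥) (P : Sylow p H)
    (hTI : ∀ g : H, g ∉ Subgroup.normalizer ((P : Subgroup H) : Set H) →
      (P : Subgroup H) ⊓ (MulAut.conj g • (P : Subgroup H)) = ⊥)
    {M L : Subgroup H} (hM : M.IsSubnormal) (hM1 : M ≠ ⊥) (hL : L.IsSubnormal) (hL1 : L ≠ ⊥)
    (hc : ∀ m ∈ M, ∀ l ∈ L, m * l = l * m) : False := by
  obtain ⟨x, hx, hx1⟩ := (Subgroup.ne_bot_iff_exists_ne_one.mp (inf_ne_bot hO P hL hL1))|> fun ⟨a, ha⟩ =>
    (⟨a.1, a.2, fun h => ha (Subtype.ext h)⟩ : ∃ x : H, x ∈ (P : Subgroup H) ⊓ L ∧ x ≠ 1)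
  have h1 : M ≤ Subgroup.normalizer ((P : Subgroup H) : Set H) := by
    intro m hm
    by_contra h
    have h2 := hTI m h
    have h3 : x ∈ (P : Subgroup H) ⊓ (MulAut.conj m • (P : Subgroup H)) := by
      refine Subgroup.mem_inf.mpr ⟨hx.1, ?_⟩
      rw [mem_conj]
      have : m⁻¹ * x * m = x := by
        rw [mul_assoc, ← hc m hm x hx.2]
        group
      rw [this]; exact hx.1
    rw [h2, Subgroup.mem_bot] at h3
    exact hx1 h3
  have h2 : (P : Subgroup H) ⊓ M ≤ Cfsg.pCoreOf p M := by
    apply le_pCoreOf inf_le_right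
    · intro m hm
      have h3 := h1 hm
      rw [Subgroup.mem_normalizer_iff] at h3 ⊢
      intro y
      rw [Subgroup.mem_inf, Subgroup.mem_inf, h3 y]
      refine and_congr_right fun _ => ?_
      constructor
      · intro hy; exact M.mul_mem (M.mul_mem hm hy) (M.inv_mem hm)
      · intro hy
        have := M.mul_mem (M.mul_mem (M.inv_mem hm) hy) hm
        have e : m⁻¹ * (m * y * m⁻¹) * m = y := by group
        rwa [e] at this
    · exact P.2.to_le inf_le_left
  have h3 := h2.trans (pCoreOf_le_pCore_of_isSubnormal hM)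
  rw [hOp] at h3
  exact inf_ne_bot hO P hM hM1 (le_bot_iff.mp h3)

/-- Let H be a finite group with no nontrivial normal p-subgroup and no nontrivial normal subgroup of order prime to p, whose Sylow p-subgroup P is nontrivial and a trivial-intersection set (P meets its conjugates by elements outside N_H(P) trivially). Then H has a unique minimal normal subgroup N; N is non-abelian simple with trivial centralizer in H (so H embeds in Aut(N)), and a Sylow p-subgroup of N is again a nontrivial trivial-intersection set in N. -/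
theorem result {H : Type*} [Group H] [Finite H] (p : ℕ) [Fact p.Prime] (hOp : Cfsg.pCore p H = ⊥) (hOp' : Cfsg.pPrimeCore p H = ⊥) (P : Sylow p H) (hP1 : (P : Subgroup H) ≠ ⊥)
    (hTI : ∀ g : H, g ∉ Subgroup.normalizer ((P : Subgroup H) : Set H) → (P : Subgroup H) ⊓ (MulAut.conj g • (P : Subgroup H)) = ⊥) :
    ∃ N : Subgroup H, N.Normal ∧ N ≠ ⊥ ∧ (∀ K : Subgroup H, K.Normal → K ≠ ⊥ → N ≤ K) ∧
      IsSimpleGroup N ∧ ¬ IsMulCommutative N ∧ Subgroup.centralizer (N : Set H) = ⊥ ∧
      ∀ Q : Sylow p N, (Q : Subgroup N) ≠ ⊥ ∧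
        ∀ n : N, n ∉ Subgroup.normalizer ((Q : Subgroup N) : Set N) → (Q : Subgroup N) ⊓ (MulAut.conj n • (Q : Subgroup N)) = ⊥ := by

  open Subgroup CfsgLib.LE in
  have hTop : (⊤ : Subgroup H) ≠ ⊥ := by
    intro h
    apply hP1
    exact le_bot_iff.mp (le_top.trans h.le)
  obtain ⟨N, hNn, -, hN1, hNmin⟩ := CfsgLib.Cores.exists_minimal_normal (⊤ : Subgroup H) hTop
  have hNs : N.IsSubnormal := hNn.isSubnormal
  haveI hNtriv : Nontrivial N := (Subgroup.nontrivial_iff_ne_bot N).mpr hN1
  obtain ⟨M, hMn, -, hM1, hMmin⟩ := CfsgLib.Cores.exists_minimal_normal (⊤ : Subgroup N) top_ne_bot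
  -- M is normal in H
  have hconj : ∀ h : H, (MulAut.conjNormal (H := N) h).toMonoidHom = (MulAut.conjNormal (H := N) h).toMonoidHom := fun _ => rfl
  have hkey : ∀ h : H, M.map (MulAut.conjNormal (H := N) h).toMonoidHom = M := by
    intro h
    set f := (MulAut.conjNormal (H := N) h) with hf
    have hLn : (M.map f.toMonoidHom).Normal := hMn.map _ f.surjective
    have hL1 : M.map f.toMonoidHom ≠ ⊥ := fun e =>
      hM1 ((Subgroup.map_eq_bot_iff_of_injective _ f.injective).mp e)
    by_contra hne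
    have hinf : M ⊓ M.map f.toMonoidHom = ⊥ := by
      rcases hMmin (M ⊓ M.map f.toMonoidHom) (Subgroup.normal_inf_normal M _) inf_le_left with h1 | h1
      · exact h1
      · exfalso
        apply hne
        have h2 : M ≤ M.map f.toMonoidHom := inf_eq_left.mp h1
        symm
        apply Subgroup.eq_of_le_of_card_ge h2
        exact (Subgroup.card_map_of_injective f.injective).le
    have hcomm : ∀ m ∈ M, ∀ l ∈ M.map f.toMonoidHom, m * l = l * m := by
      intro m hm l hl
      exact Subgroup.commute_of_normal_of_disjoint M _ hMn hLn (disjoint_iff.mpr hinf) m l hm hl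
    have hsub : ∀ K : Subgroup N, K.Normal → (K.map N.subtype).IsSubnormal := by
      intro K hK
      refine Subgroup.IsSubnormal.step _ N (Subgroup.map_subtype_le _) hNs ?_
      rw [Subgroup.subgroupOf, Subgroup.comap_map_eq_self_of_injective N.subtype_injective]
      exact hK
    refine no_comm hOp hOp' P hTI (hsub M hMn) ?_ (hsub _ hLn) ?_ ?_
    · exact fun e => hM1 ((Subgroup.map_eq_bot_iff_of_injective _ N.subtype_injective).mp e)
    · exact fun e => hL1 ((Subgroup.map_eq_bot_iff_of_injective _ N.subtype_injective).mp e)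
    · rintro _ ⟨m, hm, rfl⟩ _ ⟨l, hl, rfl⟩
      have := hcomm m hm l hl
      exact congrArg (N.subtype) this
  have hMH : (M.map N.subtype).Normal := by
    constructor
    rintro _ ⟨m, hm, rfl⟩ g
    have h1 := hkey g
    have h2 : (MulAut.conjNormal (H := N) g) m ∈ M := by
      have : (MulAut.conjNormal (H := N) g) m ∈ M.map (MulAut.conjNormal (H := N) g).toMonoidHom := ⟨m, hm, rfl⟩
      rwa [h1] at this
    refine ⟨_, h2, ?_⟩
    simp [MulAut.conjNormal_apply]
  have hMtop : M = ⊤ := by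
    rcases hNmin _ hMH (Subgroup.map_subtype_le M) with h1 | h1
    · exact absurd ((Subgroup.map_eq_bot_iff_of_injective _ N.subtype_injective).mp h1) hM1
    · rw [eq_top_iff]
      intro x _
      have hx : (x : H) ∈ M.map N.subtype := by rw [h1]; exact x.2
      obtain ⟨y, hy, hxy⟩ := hx
      have : y = x := Subtype.ext hxy
      rwa [← this]
  have hsimple : IsSimpleGroup N := by
    refine ⟨fun K hK => ?_⟩
    rcases hMmin K hK (by rw [hMtop]; exact le_top) with h1 | h1
    · exact Or.inl h1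
    · exact Or.inr (h1.trans hMtop)
  have hnc : ¬ IsMulCommutative N := by
    intro hc
    exact no_comm hOp hOp' P hTI hNs hN1 hNs hN1 (fun m hm l hl => by
      have := hc.is_comm.comm (⟨m, hm⟩ : N) ⟨l, hl⟩
      exact congrArg Subtype.val this)
  have hle : ∀ K : Subgroup H, K.Normal → K ≠ ⊥ → N ≤ K := by
    intro K hK hK1
    rcases hNmin (N ⊓ K) (Subgroup.normal_inf_normal N K) inf_le_left with h1 | h1
    · exfalso
      exact no_comm hOp hOp' P hTI hNs hN1 hK.isSubnormal hK1 (fun m hm l hl =>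
        Subgroup.commute_of_normal_of_disjoint N K hNn hK (disjoint_iff.mpr h1) m l hm hl)
    · exact inf_eq_left.mp h1
  refine ⟨N, hNn, hN1, hle, hsimple, hnc, ?_, ?_⟩
  · by_contra hC
    have hCn : (Subgroup.centralizer (N : Set H)).Normal := inferInstance
    have h1 := hle _ hCn hC
    apply hnc
    refine ⟨⟨fun a b => Subtype.ext ?_⟩⟩
    exact (Subgroup.mem_centralizer_iff.mp (h1 b.2)) a.1 a.2
  · intro Q
    have hQ1 : (Q : Subgroup N) ≠ ⊥ := by
      obtain ⟨Q', hQ'⟩ := sylow_inf_normal P N hNn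
      intro h0
      apply inf_ne_bot hOp' P hNs hN1
      have h1 : Nat.card Q' = Nat.card Q := by
        rw [Sylow.card_eq_multiplicity, Sylow.card_eq_multiplicity]
      have h2 : (Q' : Subgroup N) = ⊥ := by
        have h3 : Nat.card (Q' : Subgroup N) = Nat.card (Q : Subgroup N) := h1
        rw [h0, Subgroup.card_bot] at h3
        exact Subgroup.card_eq_one.mp h3
      rw [hQ', Subgroup.subgroupOf_eq_bot] at h2
      exact disjoint_iff.mp h2
    refine ⟨hQ1, ?_⟩
    intro n hn
    -- choose P'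
    obtain ⟨P', hP'⟩ := (Q.2.map N.subtype).exists_le_sylow
    obtain ⟨g, hg⟩ := MulAction.exists_smul_eq H P P'
    have hPg : ((P' : Sylow p H) : Subgroup H) = MulAut.conj g • (P : Subgroup H) := by
      rw [← hg]; rfl
    obtain ⟨R, hR⟩ := sylow_inf_normal P' N hNn
    have hQR : (Q : Subgroup N) = (P' : Subgroup H).subgroupOf N := by
      apply Subgroup.eq_of_le_of_card_ge
      · exact Subgroup.map_le_iff_le_comap.mp hP'
      · rw [← hR]
        exact (show Nat.card R = Nat.card Q by
          rw [Sylow.card_eq_multiplicity, Sylow.card_eq_multiplicity]).le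
    rw [Subgroup.eq_bot_iff_forall]
    intro x hx
    by_contra hx1
    apply hn
    -- n normalizes P'
    have h1 : (n : H) ∈ Subgroup.normalizer ((P' : Subgroup H) : Set H) := by
      by_contra hnn
      have h2 : g⁻¹ * n * g ∉ Subgroup.normalizer ((P : Subgroup H) : Set H) := by
        intro h3
        apply hnn
        rw [Subgroup.mem_normalizer_iff] at h3 ⊢
        intro y
        have e : g⁻¹ * n * g * (g⁻¹ * y * g) * (g⁻¹ * n * g)⁻¹ = g⁻¹ * ((n : H) * y * (n : H)⁻¹) * g := by group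
        have e1 : y ∈ (P' : Subgroup H) ↔ g⁻¹ * y * g ∈ (P : Subgroup H) := by
          rw [hPg, mem_conj]
        have e2 : (n : H) * y * (n : H)⁻¹ ∈ (P' : Subgroup H) ↔ g⁻¹ * ((n : H) * y * (n : H)⁻¹) * g ∈ (P : Subgroup H) := by
          rw [hPg, mem_conj]
        rw [e1, e2, ← e]
        exact h3 _
      have h4 := hTI _ h2
      have hxP : (x : H) ∈ (P' : Subgroup H) := by
        have := hx.1
        rw [hQR] at this
        exact this
      have hxn : (n : H)⁻¹ * x * n ∈ (P' : Subgroup H) := by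
        have := hx.2
        have h5 := (mem_conj _ _ _).mp this
        rw [hQR] at h5
        exact h5
      rw [hPg, mem_conj] at hxP hxn
      have h6 : g⁻¹ * (x : H) * g ∈ (P : Subgroup H) ⊓ (MulAut.conj (g⁻¹ * n * g) • (P : Subgroup H)) := by
        refine Subgroup.mem_inf.mpr ⟨hxP, ?_⟩
        rw [mem_conj]
        have e : (g⁻¹ * (n : H) * g)⁻¹ * (g⁻¹ * (x : H) * g) * (g⁻¹ * n * g) = g⁻¹ * ((n : H)⁻¹ * x * n) * g := by group
        rw [e]; exact hxn
      rw [h4, Subgroup.mem_bot] at h6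
      apply hx1
      apply Subtype.ext
      have h7 : (x : H) = g * (g⁻¹ * (x : H) * g) * g⁻¹ := by group
      rw [h7, h6]; simp
    rw [Subgroup.mem_normalizer_iff] at h1 ⊢
    intro y
    have h2 := h1 (y : H)
    have e1 : y ∈ ((Q : Subgroup N)) ↔ (y : H) ∈ (P' : Subgroup H) := by
      rw [hQR]; exact Iff.rfl
    have e2 : n * y * n⁻¹ ∈ ((Q : Subgroup N)) ↔ (n : H) * y * (n : H)⁻¹ ∈ (P' : Subgroup H) := by
      rw [hQR]; exact Iff.rfl
    rw [e1, e2]
    exact h2


end Cfsg.Agent.S4620
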