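import Cfsg.Statements.S4627
import Cfsg.Agent.LibH22Wr12

set_option autoImplicit false
open Cfsg

namespace Cfsg.Agent.S4627
open CfsgLib.H22Wr Module

/-- Let F be a finite field of odd order q and m ≥ 1. If 4 divides q + 1, or if 4 divides q − 1 and m is a power of 2, then a Sylow 2-subgroup P of SL_{2m}(F) has P/P' elementary abelian: the square of every element of P lies in the derived subgroup of P. -/
theorem result {F : Type*} [Field F] [Fintype F] (hF : Odd (Fintype.card F)) (m : ℕ) (hm : 1 ≤ m)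
    (hq : 4 ∣ Fintype.card F + 1 ∨ (4 ∣ Fintype.card F - 1 ∧ ∃ j : ℕ, m = 2 ^ j)) (P : Sylow 2 (Matrix.SpecialLinearGroup (Fin (2 * m)) F)) :
    ∀ x : (P : Subgroup (Matrix.SpecialLinearGroup (Fin (2 * m)) F)), x ^ 2 ∈ commutator (P : Subgroup (Matrix.SpecialLinearGroup (Fin (2 * m)) F)) := by
  have h1 : 1 < Fintype.card F := Fintype.one_lt_card
  rcases hq with hq | ⟨hq, j, rfl⟩
  · exact (se_sl_even hF (by omega) m).se P
  · have hq1 : Fintype.card F % 4 = 1 := by omega
    rcases Nat.eq_zero_or_pos j with rfl | hj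
    · obtain ⟨e1⟩ := nonempty_sl (F := F) (V := Fin 2 → F) (N := 2) (by simp)
      obtain ⟨e2⟩ := nonempty_sl (F := F) (V := Fin 2 → F) (N := 2 * 2 ^ 0) (by simp)
      exact ((se_sl2 hF).congr (e1.symm.trans e2)).se P
    · have h2 := se_sl_one hF hq1 (j + 1) (by omega)
      obtain ⟨e1⟩ := nonempty_sl (F := F) (V := Fin (2 ^ (j + 1)) → F) (N := 2 ^ (j + 1)) (by simp)
      obtain ⟨e2⟩ := nonempty_sl (F := F) (V := Fin (2 ^ (j + 1)) → F) (N := 2 * 2 ^ j) (by simp [pow_succ, mul_comm])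
      exact (h2.congr (e1.symm.trans e2)).se P

end Cfsg.Agent.S4627
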