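import Cfsg.Statements.S4628
import Cfsg.Agent.LibH22Wr9

set_option autoImplicit false
open Cfsg

namespace Cfsg.Agent.S4628
open CfsgLib.H22Wr Module

theorem card_of_sylow {G : Type*} [Group G] [Finite G] (H : Subgroup G) (hp : IsPGroup 2 H) (hi : ¬ 2 ∣ H.index) :
    Nat.card H = 2 ^ padicValNat 2 (Nat.card G) := by
  haveI : Fact (Nat.Prime 2) := ⟨Nat.prime_two⟩
  have := (hp.toSylow hi).card_eq_multiplicity
  rw [Nat.factorization_def _ Nat.prime_two] at this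
  exact this

/-- adding a coordinate -/
noncomputable def jL (F : Type*) [Field F] (V : Type*) [AddCommGroup V] [Module F V] : (V ≃ₗ[F] V) →* ((V × F) ≃ₗ[F] (V × F)) where
  toFun g := LinearEquiv.prodCongr g (LinearEquiv.smulOfUnit (LinearEquiv.det g)⁻¹)
  map_one' := by
    apply LinearEquiv.ext
    rintro ⟨v, x⟩
    refine Prod.ext rfl ?_
    show ((LinearEquiv.det (1 : V ≃ₗ[F] V))⁻¹ : Fˣ) • x = x
    rw [map_one, inv_one, one_smul]
  map_mul' g h := by
    apply LinearEquiv.ext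
    rintro ⟨v, x⟩
    refine Prod.ext rfl ?_
    show ((LinearEquiv.det (g * h))⁻¹ : Fˣ) • x = ((LinearEquiv.det g)⁻¹ : Fˣ) • (((LinearEquiv.det h)⁻¹ : Fˣ) • x)
    rw [map_mul, mul_inv, mul_smul]

theorem jL_inj (F : Type*) [Field F] (V : Type*) [AddCommGroup V] [Module F V] : Function.Injective (jL F V) := by
  intro g h hgh
  apply LinearEquiv.ext
  intro v
  exact congrArg Prod.fst (LinearEquiv.congr_fun hgh (v, 0))

theorem jL_det {F : Type*} [Field F] {V : Type*} [AddCommGroup V] [Module F V] [FiniteDimensional F V] (g : V ≃ₗ[F] V) :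
    LinearEquiv.det (jL F V g) = 1 := by
  apply Units.ext
  rw [LinearEquiv.coe_det, Units.val_one]
  have h1 : ((jL F V g : (V × F) ≃ₗ[F] (V × F)) : (V × F) →ₗ[F] (V × F)) =
      (g : V →ₗ[F] V).prodMap ((LinearEquiv.smulOfUnit (LinearEquiv.det g)⁻¹ : F ≃ₗ[F] F) : F →ₗ[F] F) := rfl
  rw [h1, LinearMap.det_prodMap, LinearMap.det_ring]
  show LinearMap.det (g : V →ₗ[F] V) * (((LinearEquiv.det g)⁻¹ : Fˣ) • (1 : F)) = 1
  rw [← LinearEquiv.coe_det, Units.smul_def, smul_eq_mul, mul_one, Units.mul_inv]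

/-- Let F be a finite field of odd order q with 4 dividing q + 1, and m ≥ 1. Then a Sylow 2-subgroup P of SL_{2m+1}(F) has P/P' elementary abelian: the square of every element of P lies in the derived subgroup of P. -/
theorem result {F : Type*} [Field F] [Fintype F] (hF : Odd (Fintype.card F)) (hq : 4 ∣ Fintype.card F + 1) (m : ℕ) (hm : 1 ≤ m) (P : Sylow 2 (Matrix.SpecialLinearGroup (Fin (2 * m + 1)) F)) :
    ∀ x : (P : Subgroup (Matrix.SpecialLinearGroup (Fin (2 * m + 1)) F)), x ^ 2 ∈ commutator (P : Subgroup (Matrix.SpecialLinearGroup (Fin (2 * m + 1)) F)) := by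
  haveI : Fact (Nat.Prime 2) := ⟨Nat.prime_two⟩
  have h1 : 1 < Fintype.card F := Fintype.one_lt_card
  have hq3 : Fintype.card F % 4 = 3 := by omega
  obtain ⟨T, hT, hTg⟩ := CfsgLib.SOm.exists_T m
  rw [Nat.card_eq_fintype_card (α := Fin m), Fintype.card_fin] at hT
  obtain ⟨Q, t, htQ, htt, hdt, hdet, hQ0⟩ := exists_Q hF hq3
  have hQ : ∀ a ∈ (Q : Subgroup ((Fin 2 → F) ≃ₗ[F] (Fin 2 → F))), a ^ 2 ∈ ⁅(Q : Subgroup ((Fin 2 → F) ≃ₗ[F] (Fin 2 → F))), (Q : Subgroup ((Fin 2 → F) ≃ₗ[F] (Fin 2 → F)))⁆ := by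
    intro a ha
    have ht : t ∈ Sq (Q : Subgroup ((Fin 2 → F) ≃ₗ[F] (Fin 2 → F))) := ⟨htQ, by rw [pow_two, htt]; exact one_mem _⟩
    have h0 : ∀ b ∈ (Q : Subgroup ((Fin 2 → F) ≃ₗ[F] (Fin 2 → F))), LinearEquiv.det b = 1 → b ∈ Sq (Q : Subgroup ((Fin 2 → F) ≃ₗ[F] (Fin 2 → F))) :=
      fun b hb hb1 => ⟨hb, Subgroup.commutator_mono inf_le_left inf_le_left (hQ0 b ⟨hb, hb1⟩)⟩
    rcases hdet a ha with h | h
    · exact (h0 a ha h).2
    · have h2 := h0 (a * t) (mul_mem ha htQ) (by rw [map_mul, h, hdt]; simp)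
      have h3 := (Sq _).mul_mem h2 ht
      rw [mul_assoc, htt, mul_one] at h3
      exact h3.2
  obtain ⟨hp, hi⟩ := WG2_sylow hF m Q T hT
  have hse := W_se (wrG F (Fin 2 → F) m) (Q : Subgroup ((Fin 2 → F) ≃ₗ[F] (Fin 2 → F))) T hQ hTg
  haveI : Finite ((Fin m → Fin 2 → F) ≃ₗ[F] (Fin m → Fin 2 → F)) := finite_glV
  have hcard := card_of_sylow _ hp hi
  have hfr : finrank F (Fin m → Fin 2 → F) = 2 * m := by rw [Module.finrank_pi_fintype]; simp [mul_comm]
  obtain ⟨e⟩ := nonempty_sl (F := F) (V := (Fin m → Fin 2 → F) × F) (N := 2 * m + 1) (by rw [Module.finrank_prod, hfr]; simp)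
  let j : ((Fin m → Fin 2 → F) ≃ₗ[F] (Fin m → Fin 2 → F)) →* (LinearEquiv.det : (((Fin m → Fin 2 → F) × F) ≃ₗ[F] ((Fin m → Fin 2 → F) × F)) →* Fˣ).ker :=
    (jL F (Fin m → Fin 2 → F)).codRestrict _ (fun g => jL_det g)
  have hj : Function.Injective j := fun a b hab => jL_inj F _ (congrArg Subtype.val hab)
  have hej : Function.Injective (e.toMonoidHom.comp j) := e.injective.comp hj
  have hSE : CfsgLib.SOm.SE' (Matrix.SpecialLinearGroup (Fin (2 * m + 1)) F) := by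
    have hs : IsPGroup 2 ((W (wrG F (Fin 2 → F) m) (Q : Subgroup ((Fin 2 → F) ≃ₗ[F] (Fin 2 → F))) T).map (e.toMonoidHom.comp j)) ∧
        ¬ 2 ∣ ((W (wrG F (Fin 2 → F) m) (Q : Subgroup ((Fin 2 → F) ≃ₗ[F] (Fin 2 → F))) T).map (e.toMonoidHom.comp j)).index := by
      apply sylow_of_card
      rw [← Nat.card_congr (Subgroup.equivMapOfInjective _ _ hej).toEquiv, hcard, card_glV hfr, val_gl hF h1]
      have h5 := Cfsg.Agent.H22.card_SL (F := F) rfl (2 * m + 1) (by omega)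
      have h6 := congrArg (padicValNat 2) h5
      rw [padicValNat.mul (by omega) Nat.card_pos.ne', val_gl hF h1] at h6
      rw [show (2 * m + 1) / 2 = m by omega, show (2 * m + 1 + 1) / 2 = m + 1 by omega] at h6
      rw [show (2 * m + 1) / 2 = m by omega, show 2 * m / 2 = m by omega]
      congr 1
      have h7 : (m + 1) * padicValNat 2 (Fintype.card F - 1) = m * padicValNat 2 (Fintype.card F - 1) + padicValNat 2 (Fintype.card F - 1) := by ring
      omega
    refine ⟨_, hs.1, hs.2, ?_⟩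
    rintro _ ⟨x, hx, rfl⟩
    rw [← map_pow, ← Subgroup.map_commutator]
    exact Subgroup.mem_map_of_mem _ (hse x hx)
  exact hSE.se P

end Cfsg.Agent.S4628
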