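import Cfsg.Statements.S4702
import Mathlib
import Cfsg.Agent.S0680
import Cfsg.Agent.S0727

set_option autoImplicit false
open Cfsg

namespace Cfsg.Agent.S4702

open Matrix in
theorem pgl_sl {F : Type*} [Field F] [Finite F] [CharP F 2] :
    Nonempty (Matrix.ProjGenLinGroup (Fin 2) F ≃* Matrix.SpecialLinearGroup (Fin 2) F) := by
  classical
  have hsq : ∀ c : F, ∃ s : F, s ^ 2 = c := by
    intro c
    have hinj : Function.Injective (frobenius F 2) := frobenius_inj F 2
    obtain ⟨s, hs⟩ := (Finite.injective_iff_surjective.mp hinj) c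
    exact ⟨s, hs⟩
  let φ : Matrix.SpecialLinearGroup (Fin 2) F →* Matrix.ProjGenLinGroup (Fin 2) F :=
    (QuotientGroup.mk' (Subgroup.center (GL (Fin 2) F))).comp Matrix.SpecialLinearGroup.toGL
  refine ⟨(MulEquiv.ofBijective φ ⟨?_, ?_⟩).symm⟩
  · rw [injective_iff_map_eq_one]
    intro g hg
    have h1 : Matrix.SpecialLinearGroup.toGL g ∈ Subgroup.center (GL (Fin 2) F) :=
      (QuotientGroup.eq_one_iff _).mp hg
    obtain ⟨r, hr⟩ := Matrix.GeneralLinearGroup.mem_center_iff_val_mem_range_scalar.mp h1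
    have h2 : (Matrix.scalar (Fin 2) r) = (g : Matrix (Fin 2) (Fin 2) F) := hr
    have h3 := g.2
    rw [← h2, Matrix.scalar_apply, Matrix.det_diagonal, Fin.prod_univ_two] at h3
    have h4 : (r - 1) ^ 2 = 0 := by
      rw [sub_pow_char, one_pow, sq, h3, sub_self]
    have h5 : r = 1 := by
      rw [← sub_eq_zero]
      exact pow_eq_zero_iff (two_ne_zero) |>.mp h4
    apply Subtype.ext
    rw [← h2, h5, map_one]; rfl
  · intro x
    obtain ⟨A, rfl⟩ := QuotientGroup.mk_surjective x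
    obtain ⟨s, hs⟩ := hsq (A.det : F)
    have hs0 : s ≠ 0 := by
      rintro rfl
      have := A.det.ne_zero
      rw [← hs] at this
      simp at this
    let B : Matrix (Fin 2) (Fin 2) F := s⁻¹ • (A : Matrix (Fin 2) (Fin 2) F)
    have hB : B.det = 1 := by
      simp only [B]
      rw [Matrix.det_smul, Fintype.card_fin]
      have : ((A : Matrix (Fin 2) (Fin 2) F)).det = s ^ 2 := by rw [hs]; rfl
      rw [this, ← mul_pow, inv_mul_cancel₀ hs0, one_pow]
    refine ⟨⟨B, hB⟩, ?_⟩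
    refine (QuotientGroup.eq).mpr ?_
    rw [Matrix.GeneralLinearGroup.mem_center_iff_val_mem_range_scalar]
    refine ⟨s, ?_⟩
    have h1 : (Matrix.SpecialLinearGroup.toGL (⟨B, hB⟩ : Matrix.SpecialLinearGroup (Fin 2) F)) *
        ((Matrix.SpecialLinearGroup.toGL (⟨B, hB⟩ : Matrix.SpecialLinearGroup (Fin 2) F))⁻¹ * A) = A := by group
    have h2 : (Matrix.SpecialLinearGroup.toGL (⟨B, hB⟩ : Matrix.SpecialLinearGroup (Fin 2) F)) *
        (Matrix.GeneralLinearGroup.scalar (Fin 2) (Units.mk0 s hs0)) = A := by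
      apply Units.ext
      rw [Units.val_mul]
      have h3 : ((Matrix.GeneralLinearGroup.scalar (Fin 2) (Units.mk0 s hs0) : GL (Fin 2) F) : Matrix (Fin 2) (Fin 2) F) = Matrix.scalar (Fin 2) s := rfl
      have h4 : ((Matrix.SpecialLinearGroup.toGL (⟨B, hB⟩ : Matrix.SpecialLinearGroup (Fin 2) F) : GL (Fin 2) F) : Matrix (Fin 2) (Fin 2) F) = s⁻¹ • (A : Matrix (Fin 2) (Fin 2) F) := rfl
      rw [h3, h4, smul_mul_assoc]
      rw [← Matrix.scalar_comm s (fun r' => Commute.all _ _), Matrix.scalar_apply, ← Matrix.smul_eq_diagonal_mul, smul_smul,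
        inv_mul_cancel₀ hs0, one_smul]
    have h3 := mul_left_cancel (h2.trans h1.symm)
    rw [← h3]; rfl

theorem emb {α : Type*} (a b c : α) (hab : a ≠ b) (hac : a ≠ c) (hbc : b ≠ c) :
    ∃ e : Fin 3 ↪ α, e 0 = a ∧ e 1 = b ∧ e 2 = c := by
  refine ⟨⟨![a, b, c], ?_⟩, rfl, rfl, rfl⟩
  intro i j hij
  fin_cases i <;> fin_cases j <;> simp_all [eq_comm]

theorem degree {α : Type*} [Fintype α] [DecidableEq α] (hm : 3 ≤ Fintype.card α) (G : Subgroup (Equiv.Perm α))
    (h3 : MulAction.IsMultiplyPretransitive G α 3)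
    (hsharp : ∀ (g : G) (a b c : α), a ≠ b → a ≠ c → b ≠ c → g • a = a → g • b = b → g • c = c → g = 1) :
    ∃ p j : ℕ, p.Prime ∧ 1 ≤ j ∧ Fintype.card α = p ^ j + 1 := by
  classical
  obtain ⟨a⟩ : Nonempty α := Fintype.card_pos_iff.mp (by omega)
  let β := {x : α // x ≠ a}
  let H : Subgroup (Equiv.Perm β) :=
    { carrier := {σ | ∃ g ∈ G, g a = a ∧ ∀ x : β, (σ x : α) = g x}
      one_mem' := ⟨1, G.one_mem, rfl, fun x => rfl⟩
      mul_mem' := by
        rintro σ τ ⟨g, hg, hga, hgx⟩ ⟨h, hh, hha, hhx⟩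
        refine ⟨g * h, G.mul_mem hg hh, ?_, fun x => ?_⟩
        · rw [Equiv.Perm.mul_apply, hha, hga]
        · rw [Equiv.Perm.mul_apply, hgx, hhx, Equiv.Perm.mul_apply]
      inv_mem' := by
        rintro σ ⟨g, hg, hga, hgx⟩
        refine ⟨g⁻¹, G.inv_mem hg, ?_, fun x => ?_⟩
        · rw [Equiv.Perm.inv_eq_iff_eq, hga]
        · rw [eq_comm, Equiv.Perm.inv_eq_iff_eq, ← hgx, ← Equiv.Perm.mul_apply, mul_inv_cancel, Equiv.Perm.one_apply] }
  have h2t : MulAction.IsMultiplyPretransitive H β 2 := by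
    refine ⟨fun e e' => ?_⟩
    have he : (e 0 : α) ≠ e 1 := fun h => by
      have := e.injective (Subtype.ext h)
      exact absurd this (by decide)
    have he' : (e' 0 : α) ≠ e' 1 := fun h => by
      have := e'.injective (Subtype.ext h)
      exact absurd this (by decide)
    obtain ⟨f, f0, f1, f2⟩ := emb a (e 0 : α) (e 1 : α) (e 0).2.symm (e 1).2.symm he
    obtain ⟨f', f0', f1', f2'⟩ := emb a (e' 0 : α) (e' 1 : α) (e' 0).2.symm (e' 1).2.symm he'
    obtain ⟨g, hg⟩ := h3.exists_smul_eq f f'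
    have h1 : ∀ i, (g : Equiv.Perm α) (f i) = f' i := fun i => congrArg (fun k : Fin 3 ↪ α => k i) hg
    have ha : (g : Equiv.Perm α) a = a := by rw [← f0, h1, f0', f0]
    have hne : ∀ x : α, x ≠ a ↔ (g : Equiv.Perm α) x ≠ a := by
      intro x
      rw [not_iff_not]
      constructor
      · rintro rfl; exact ha
      · intro h; exact (g : Equiv.Perm α).injective (h.trans ha.symm)
    let σ : Equiv.Perm β := (g : Equiv.Perm α).subtypePerm (fun x => (hne x).symm)
    refine ⟨⟨σ, g, g.2, ha, fun x => rfl⟩, ?_⟩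
    ext i
    change ((σ (e i) : β) : α) = e' i
    change (g : Equiv.Perm α) (e i) = e' i
    fin_cases i
    · change (g : Equiv.Perm α) (e 0) = e' 0; rw [← f1, h1, f1']
    · change (g : Equiv.Perm α) (e 1) = e' 1; rw [← f2, h1, f2']
  haveI := h2t
  have hs : ∀ x : Fin 2 ↪ β, MulAction.stabilizer H x = ⊥ := by
    intro e
    have he : (e 0 : α) ≠ e 1 := fun h => by
      have := e.injective (Subtype.ext h)
      exact absurd this (by decide)
    rw [eq_bot_iff]
    rintro ⟨σ, g, hg, hga, hgx⟩ hσ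
    rw [MulAction.mem_stabilizer_iff] at hσ
    have h1 : ∀ i, (σ (e i) : α) = e i := fun i => congrArg (fun k : Fin 2 ↪ β => (k i : α)) hσ
    have h2 : ∀ i, g (e i) = e i := fun i => by rw [← hgx, h1]
    have h4 := hsharp ⟨g, hg⟩ a (e 0) (e 1) (e 0).2.symm (e 1).2.symm he hga (h2 0) (h2 1)
    have h5 : g = 1 := congrArg Subtype.val h4
    rw [Subgroup.mem_bot]
    apply Subtype.ext
    ext x
    change (σ x : α) = x
    rw [hgx, h5]; rfl
  have hcard : Fintype.card β = Fintype.card α - 1 := by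
    simp only [β]
    rw [Fintype.card_subtype_compl, Fintype.card_subtype_eq]
  obtain ⟨p, j, hp, hj, hc, -⟩ := Cfsg.Agent.S0680.result H hs (by rw [hcard]; omega)
  exact ⟨p, j, hp, hj, by rw [← hc, hcard]; omega⟩


/-- Let G be a triply transitive permutation group on a finite set of odd size m ≥ 3 in which only the identity fixes three or more points. Then m = 2^a + 1 for some a ≥ 1 and G is isomorphic to SL(2, 2^a). -/
theorem result {α : Type*} [Fintype α] [DecidableEq α] (hm : 3 ≤ Fintype.card α) (hodd : Odd (Fintype.card α)) (G : Subgroup (Equiv.Perm α)) (h3 : MulAction.IsMultiplyPretransitive G α 3) (hfix : ∀ g : G, 3 ≤ Nat.card (MulAction.fixedBy α g) → g = 1) : ∃ a : ℕ, 1 ≤ a ∧ Fintype.card α = 2 ^ a + 1 ∧ ∃ (F : Type) (_ : Field F) (_ : Fintype F), Fintype.card F = 2 ^ a ∧ Nonempty (G ≃* Matrix.SpecialLinearGroup (Fin 2) F) := by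
  classical
  have hs : ∀ (g : G) (a b c : α), a ≠ b → a ≠ c → b ≠ c → g • a = a → g • b = b → g • c = c → g = 1 := by
    intro g a b c hab hac hbc ha hb hc
    apply hfix
    have h1 : ({a, b, c} : Set α) ⊆ MulAction.fixedBy α g := by
      rintro x (rfl | rfl | rfl)
      · exact ha
      · exact hb
      · exact hc
    have h2 : Nat.card ({a, b, c} : Set α) = 3 := by
      rw [Nat.card_coe_set_eq, Set.ncard_eq_three]
      exact ⟨a, b, c, hab, hac, hbc, rfl⟩
    rw [← h2]
    exact Nat.card_mono (Set.toFinite _) h1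
  obtain ⟨p, j, hp, hj, hc⟩ := degree hm G h3 hs
  have hp2 : p = 2 := by
    rcases hp.eq_two_or_odd' with h | h
    · exact h
    · exfalso
      rw [hc] at hodd
      have h1 : Odd (p ^ j) := h.pow
      exact (Nat.not_even_iff_odd.mpr hodd) (h1.add_odd odd_one)
  subst hp2
  refine ⟨j, hj, hc, ?_⟩
  obtain ⟨F, _, _, hF, ⟨e⟩⟩ := Cfsg.Agent.S0727.result hj hc G h3 (by
    intro x
    rw [eq_bot_iff]
    intro g hg
    rw [MulAction.mem_stabilizer_iff] at hg
    have h1 : ∀ i, g • x i = x i := fun i => congrArg (fun k : Fin 3 ↪ α => k i) hg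
    exact hs g (x 0) (x 1) (x 2) (fun h => absurd (x.injective h) (by decide)) (fun h => absurd (x.injective h) (by decide))
      (fun h => absurd (x.injective h) (by decide)) (h1 0) (h1 1) (h1 2))
  haveI : CharP F 2 := by
    obtain ⟨q, hq⟩ := CharP.exists F
    haveI := hq
    obtain ⟨n, hqp, hqn⟩ := FiniteField.card F q
    rw [hF] at hqn
    have h1 : q ∣ 2 ^ j := by rw [hqn]; exact dvd_pow_self _ n.pos.ne'
    have h2 := (Nat.prime_dvd_prime_iff_eq hqp Nat.prime_two).mp (hqp.dvd_of_dvd_pow h1)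
    rw [← h2]; exact hq
  obtain ⟨e'⟩ := pgl_sl (F := F)
  exact ⟨F, inferInstance, inferInstance, hF, ⟨e.trans e'⟩⟩

end Cfsg.Agent.S4702
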