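import Cfsg.Statements.S4741
import Cfsg.Agent.LibClassAlg2
import Cfsg.Agent.LibBlockDefect
import Cfsg.Agent.LibBlockFMT
import Cfsg.Agent.LibReg19

set_option autoImplicit false
open Cfsg

namespace Cfsg.Agent.S4741

open CfsgLib.CharBasic CfsgLib.ClassAlg
open scoped ComplexConjugate

/-- selecting a basis from a spanning family, with a nonzero determinant -/
theorem select {F : Type*} [Field F] {ι : Type*} [Finite ι] {r : ℕ} (v : ι → Fin r → F)
    (hs : ⊤ ≤ Submodule.span F (Set.range v)) :
    ∃ f : Fin r → ι, IsUnit (Matrix.det (Matrix.of fun i j : Fin r => v (f i) j)) := by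
  classical
  obtain ⟨κ, a, ha, hsp, hli⟩ := exists_linearIndependent' F v
  haveI : Finite κ := Finite.of_injective a ha
  haveI : Fintype κ := Fintype.ofFinite κ
  let b := Module.Basis.mk hli (by rw [hsp]; exact hs)
  have h1 := Module.finrank_eq_card_basis b
  rw [Module.finrank_fintype_fun_eq_card, Fintype.card_fin] at h1
  let e : Fin r ≃ κ := Fintype.equivOfCardEq (by rw [Fintype.card_fin]; exact h1)
  refine ⟨fun i => a (e i), ?_⟩
  rw [← Matrix.isUnit_iff_isUnit_det]
  rw [← Matrix.linearIndependent_rows_iff_isUnit]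
  exact hli.comp e e.injective

variable {G : Type*} [Group G] [Finite G]

theorem centralizer_inv (x : G) : Subgroup.centralizer ({x⁻¹} : Set G) = Subgroup.centralizer ({x} : Set G) := by
  ext y
  rw [Subgroup.mem_centralizer_singleton_iff, Subgroup.mem_centralizer_singleton_iff]
  constructor
  · intro h
    have := congrArg (fun z => x * z * x) h
    simpa [mul_assoc] using this.symm
  · intro h
    have := congrArg (fun z => x⁻¹ * z * x⁻¹) h
    simpa [mul_assoc] using this.symm

/-- the counting identity -/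
theorem count_identity {r : ℕ} (x : Fin r → G) (hx : ∀ i j : Fin r, IsConj (x i) (x j) → i = j) (P : Subgroup G)
    (hsep : ∀ i j : Fin r, ∀ g h : G, IsConj (x i) g → IsConj (x j) h → g * h⁻¹ ∈ P → g = h) :
    ∃ n : IrrCharacter G → ℕ, ∀ i j : Fin r,
      ∑ χ : IrrCharacter G, centralChar (χ : G → ℂ) (x i) * ((χ : G → ℂ) (x j)⁻¹ * n χ) =
        if i = j then (P.index : ℂ) else 0 := by
  classical
  have hm : ∀ χ : IrrCharacter G, ∃ m : ℕ, ∑ᶠ z : P, conj ((χ : G → ℂ) z) = (Nat.card P : ℂ) * m :=
    fun χ => sum_subgroup P (irr_isCharacter χ.2)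
  choose n hn using hm
  refine ⟨n, fun i j => ?_⟩
  haveI : Fintype G := Fintype.ofFinite G
  have hcount := card_pairs_subgroup P (x i) (x j)⁻¹
  have hGc : (Nat.card G : ℂ) ≠ 0 := by exact_mod_cast Nat.card_pos.ne'
  have hPc : (Nat.card P : ℂ) ≠ 0 := by exact_mod_cast Nat.card_pos.ne'
  have hKc : ((Subgroup.centralizer ({x j} : Set G)).index : ℂ) ≠ 0 := by
    exact_mod_cast Subgroup.index_ne_zero_of_finite
  -- evaluate the count
  have hN : (Nat.card {q : G × G // IsConj (x i) q.1 ∧ IsConj (x j)⁻¹ q.2 ∧ q.1 * q.2 ∈ P} : ℂ) =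
      if i = j then ((Subgroup.centralizer ({x j} : Set G)).index : ℂ) else 0 := by
    have key : ∀ q : G × G, IsConj (x i) q.1 → IsConj (x j)⁻¹ q.2 → q.1 * q.2 ∈ P → q.1 = q.2⁻¹ ∧ i = j := by
      intro q h1 h2 h3
      have h4 : IsConj (x j) q.2⁻¹ := by
        obtain ⟨c, hc⟩ := isConj_iff.1 h2
        refine isConj_iff.2 ⟨c, ?_⟩
        rw [← hc]; group
      have h5 := hsep i j q.1 q.2⁻¹ h1 h4 (by rwa [inv_inv])
      refine ⟨h5, hx i j ?_⟩
      rw [h5] at h1
      exact h1.trans h4.symm
    split_ifs with hij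
    · subst hij
      rw [← card_class_eq_index]
      norm_cast
      symm
      apply Nat.card_congr
      refine ⟨fun y => ⟨(y.1, y.1⁻¹), y.2, ?_, ?_⟩, fun q => ⟨q.1.1, q.2.1⟩, fun y => rfl, fun q => ?_⟩
      · obtain ⟨c, hc⟩ := isConj_iff.1 y.2
        refine isConj_iff.2 ⟨c, ?_⟩
        simp only
        rw [← hc]; group
      · simp only [mul_inv_cancel]; exact P.one_mem
      · apply Subtype.ext
        have h6 := (key q.1 q.2.1 q.2.2.1 q.2.2.2).1
        apply Prod.ext
        · rfl
        · change q.1.1⁻¹ = q.1.2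
          rw [h6, inv_inv]
    · rw [Nat.cast_eq_zero, Nat.card_eq_zero]
      left
      exact ⟨fun q => hij (key q.1 q.2.1 q.2.2.1 q.2.2.2).2⟩
  rw [hN] at hcount
  have h1 : (Nat.card G : ℂ) * (if i = j then ((Subgroup.centralizer ({x j} : Set G)).index : ℂ) else 0) =
      ((Subgroup.centralizer ({x j} : Set G)).index : ℂ) * Nat.card P *
        ∑ χ : IrrCharacter G, centralChar (χ : G → ℂ) (x i) * ((χ : G → ℂ) (x j)⁻¹ * n χ) := by
    rw [hcount, ← mul_assoc, mul_inv_cancel₀ hGc, one_mul, Finset.mul_sum]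
    refine Finset.sum_congr rfl fun χ _ => ?_
    have h4 : centralChar (χ : G → ℂ) (x j)⁻¹ * (χ : G → ℂ) 1 = ((Subgroup.centralizer ({x j} : Set G)).index : ℂ) * (χ : G → ℂ) (x j)⁻¹ := by
      unfold centralChar
      rw [centralizer_inv, div_mul_cancel₀]
      exact irr_one_ne_zero χ.2
    rw [hn χ]
    linear_combination (centralChar (χ : G → ℂ) (x i) * (Nat.card P * n χ)) * h4
  have h2 : (Nat.card G : ℂ) = Nat.card P * P.index := by exact_mod_cast P.card_mul_index.symm
  apply mul_left_cancel₀ (mul_ne_zero hKc hPc)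
  rw [← h1]
  split_ifs
  · rw [h2]; ring
  · simp


/-- Let p be a prime, M a maximal ideal of the algebraic integers containing p, and D a subgroup of the finite group G. Let x₁, …, x_r be pairwise non-conjugate elements of G such that D is a Sylow p-subgroup of the centralizer of each xᵢ, and such that for any conjugates g of some xᵢ and h of some xⱼ the element g h⁻¹ is never a non-identity p-element. Then there are r distinct p-blocks B₁, …, B_r of G, each having D as a defect group, such that for every choice of characters χᵢ ∈ Bᵢ of height zero the determinant of the r × r matrix (χᵢ(xⱼ)) does not lie in the local ideal at M. -/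
theorem result {G : Type*} [Group G] [Finite G] (p : ℕ) [Fact p.Prime] (M : Ideal Cfsg.AlgInt) (hM : Cfsg.IsPModular p M) (D : Subgroup G) {r : ℕ} (x : Fin r → G) (hx : ∀ i j : Fin r, IsConj (x i) (x j) → i = j) (hD : ∀ i : Fin r, ∃ S : Sylow p ↥(Subgroup.centralizer ({x i} : Set G)), (S : Subgroup ↥(Subgroup.centralizer ({x i} : Set G))).map (Subgroup.centralizer ({x i} : Set G)).subtype = D) (hsep : ∀ i j : Fin r, ∀ g h : G, IsConj (x i) g → IsConj (x j) h → ∀ k : ℕ, 0 < k → orderOf (g * h⁻¹) ≠ p ^ k) : ∃ B : Fin r → Set (Cfsg.IrrCharacter G), Function.Injective B ∧ (∀ i : Fin r, Cfsg.IsPBlock M (B i) ∧ Cfsg.IsDefectGroup p M (B i) D) ∧ ∀ χ : Fin r → Cfsg.IrrCharacter G, (∀ i : Fin r, χ i ∈ B i ∧ Cfsg.blockHeight p (B i) (χ i : G → ℂ) = 0) → ¬ Cfsg.MemLocalIdeal M (Matrix.det (Matrix.of fun i j : Fin r => (χ i : G → ℂ) (x j))) := by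
  classical
  have hp : p.Prime := Fact.out
  have hMp := CfsgLib.BlockR.isPrime_of_modular hM
  obtain ⟨P⟩ : Nonempty (Sylow p G) := inferInstance
  have hsep' : ∀ i j : Fin r, ∀ g h : G, IsConj (x i) g → IsConj (x j) h → g * h⁻¹ ∈ (P : Subgroup G) → g = h := by
    intro i j g h hg hh hgh
    by_contra hne
    obtain ⟨k, hk⟩ := P.isPGroup' ⟨g * h⁻¹, hgh⟩
    have h1 : (g * h⁻¹) ^ p ^ k = 1 := congrArg Subtype.val hk
    obtain ⟨m, -, hm⟩ := (Nat.dvd_prime_pow hp).1 (orderOf_dvd_of_pow_eq_one h1)
    apply hsep i j g h hg hh m _ hm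
    rcases Nat.eq_zero_or_pos m with h0 | h0
    · exfalso
      rw [h0, pow_zero, orderOf_eq_one_iff] at hm
      exact hne (mul_inv_eq_one.1 hm)
    · exact h0
  obtain ⟨n, hn⟩ := count_identity x hx (P : Subgroup G) hsep'
  -- the residue field
  letI : Field (AlgInt ⧸ M) := by haveI := hM.2.1; exact Ideal.Quotient.field M
  let W : IrrCharacter G → Fin r → AlgInt := fun χ i => ⟨centralChar (χ : G → ℂ) (x i), CfsgLib.CharInt.centralChar_isIntegral χ.2 _⟩
  let Cc : IrrCharacter G → Fin r → AlgInt := fun χ j => ⟨(χ : G → ℂ) (x j)⁻¹, CfsgLib.CharInt.irr_isIntegral χ.2 _⟩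
  have hid : ∀ i j, ∑ χ : IrrCharacter G, W χ i * (Cc χ j * (n χ : AlgInt)) = if i = j then ((P : Subgroup G).index : AlgInt) else 0 := by
    intro i j
    apply Subtype.val_injective
    have := hn i j
    push_cast
    rw [this]
    split_ifs <;> simp
  set d := (Nat.card D).factorization p with hd
  have hSyl : ∀ j, (Nat.card (Subgroup.centralizer ({x j} : Set G))).factorization p = d := by
    intro j
    obtain ⟨S, hS⟩ := hD j
    have h1 : CfsgLib.BlockFMT.SylIn p (Subgroup.centralizer ({x j} : Set G)) D := ⟨S, hS⟩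
    rw [hd, h1.card, Nat.factorization_pow]
    simp [hp.factorization_self]
  -- characters in blocks of small defect vanish modulo M
  have hsmall : ∀ χ : IrrCharacter G, blockDefect p (blockOf M (χ : G → ℂ)) < d → ∀ j, Cc χ j ∈ M := by
    intro χ hχ j
    rw [← CfsgLib.BlockR.ideal_algInt_iff hMp]
    change MemLocalIdeal M ((χ : G → ℂ) (x j)⁻¹)
    have h1 := CfsgLib.BlockDefect.degree_ge_defect hM (B := blockOf M (χ : G → ℂ)) ⟨χ, rfl⟩
      (CfsgLib.BlockIdem.mem_blockOf_self hMp χ)
    have h2 := CfsgLib.BlockDefect.card_factorization (p := p) (Subgroup.centralizer ({x j} : Set G))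
    rw [hSyl j] at h2
    have h3 : (χ : G → ℂ) (x j)⁻¹ = centralChar (χ : G → ℂ) (x j)⁻¹ *
        ((charDegree (χ : G → ℂ) : ℂ) / ((Subgroup.centralizer ({x j} : Set G)).index : ℂ)) := by
      unfold centralChar
      rw [centralizer_inv, CfsgLib.CharInt.irr_one_eq_charDegree χ.2]
      have h4 : ((Subgroup.centralizer ({x j} : Set G)).index : ℂ) ≠ 0 := by
        exact_mod_cast Subgroup.index_ne_zero_of_finite
      have h5 : (charDegree (χ : G → ℂ) : ℂ) ≠ 0 := by
        exact_mod_cast (CfsgLib.CharInt.irr_charDegree_pos χ.2).ne'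
      field_simp
    rw [h3]
    apply CfsgLib.BlockR.ideal_mul_left hMp (CfsgLib.BlockIdem.centralChar_ring hMp χ _)
    apply CfsgLib.BlockDefect.ideal_div_nat hM Subgroup.index_ne_zero_of_finite
    omega
  -- the family of columns indexed by characters in blocks of large defect
  let S := {χ : IrrCharacter G // d ≤ blockDefect p (blockOf M (χ : G → ℂ))}
  let v : S → Fin r → AlgInt ⧸ M := fun χ i => Ideal.Quotient.mk M (W χ.1 i)
  have hu : (Ideal.Quotient.mk M) ((P : Subgroup G).index : AlgInt) ≠ 0 := by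
    rw [Ne, Ideal.Quotient.eq_zero_iff_mem, ← CfsgLib.BlockR.ideal_algInt_iff hMp]
    have : (((P : Subgroup G).index : AlgInt) : ℂ) = (((P : Subgroup G).index : ℕ) : ℂ) := by push_cast; rfl
    rw [this, CfsgLib.BlockR.ideal_nat_iff hM]
    exact P.not_dvd_index
  have hspan : ⊤ ≤ Submodule.span (AlgInt ⧸ M) (Set.range v) := by
    have hbasis : ∀ j : Fin r, (Pi.single j (1 : AlgInt ⧸ M) : Fin r → AlgInt ⧸ M) ∈ Submodule.span (AlgInt ⧸ M) (Set.range v) := by
      intro j
      have h1 : (Pi.single j (1 : AlgInt ⧸ M) : Fin r → AlgInt ⧸ M) =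
          ∑ χ : S, ((Ideal.Quotient.mk M ((P : Subgroup G).index : AlgInt))⁻¹ * Ideal.Quotient.mk M (Cc χ.1 j * (n χ.1 : AlgInt))) • v χ := by
        funext i
        rw [Finset.sum_apply]
        simp only [Pi.smul_apply, smul_eq_mul, v]
        have h2 := congrArg (Ideal.Quotient.mk M) (hid i j)
        rw [map_sum] at h2
        have h3 : ∑ χ : IrrCharacter G, (Ideal.Quotient.mk M) (W χ i * (Cc χ j * (n χ : AlgInt))) =
            ∑ χ : S, (Ideal.Quotient.mk M) (W χ.1 i * (Cc χ.1 j * (n χ.1 : AlgInt))) := by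
          rw [← Finset.sum_subtype (Finset.univ.filter fun χ : IrrCharacter G => d ≤ blockDefect p (blockOf M (χ : G → ℂ)))
            (p := fun χ : IrrCharacter G => d ≤ blockDefect p (blockOf M (χ : G → ℂ))) (by intro χ; simp)
            (fun χ => (Ideal.Quotient.mk M) (W χ i * (Cc χ j * (n χ : AlgInt))))]
          symm
          apply Finset.sum_subset (Finset.filter_subset _ _)
          intro χ _ hχ
          rw [Finset.mem_filter, not_and] at hχ
          have h5 := hsmall χ (not_le.1 (hχ (Finset.mem_univ _))) j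
          rw [Ideal.Quotient.eq_zero_iff_mem]
          exact M.mul_mem_left _ (M.mul_mem_right _ h5)
        rw [h3] at h2
        have h4 : ∑ χ : S, ((Ideal.Quotient.mk M ((P : Subgroup G).index : AlgInt))⁻¹ * Ideal.Quotient.mk M (Cc χ.1 j * (n χ.1 : AlgInt))) * (Ideal.Quotient.mk M (W χ.1 i)) =
            (Ideal.Quotient.mk M ((P : Subgroup G).index : AlgInt))⁻¹ * ∑ χ : S, (Ideal.Quotient.mk M) (W χ.1 i * (Cc χ.1 j * (n χ.1 : AlgInt))) := by
          rw [Finset.mul_sum]
          refine Finset.sum_congr rfl fun χ _ => ?_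
          rw [map_mul _ (W χ.1 i)]; ring
        rw [h4, h2]
        by_cases hij : i = j
        · subst hij
          rw [Pi.single_eq_same, if_pos rfl, inv_mul_cancel₀ hu]
        · rw [Pi.single_eq_of_ne hij, if_neg hij, map_zero, mul_zero]
      rw [h1]
      exact Submodule.sum_mem _ fun χ _ => Submodule.smul_mem _ _ (Submodule.subset_span ⟨χ, rfl⟩)
    intro w _
    have h1 : w = ∑ j, w j • (Pi.single j (1 : AlgInt ⧸ M) : Fin r → AlgInt ⧸ M) := by
      funext i
      simp [Finset.sum_apply, Pi.single_apply]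
    rw [h1]
    exact Submodule.sum_mem _ fun j _ => Submodule.smul_mem _ _ (hbasis j)
  obtain ⟨f, hf⟩ := select v hspan
  have hdet : Matrix.det (Matrix.of fun i j : Fin r => v (f i) j) ≠ 0 := hf.ne_zero
  -- blocks
  have hdefgrp : ∀ i, IsPBlock M (blockOf M ((f i).1 : G → ℂ)) ∧ IsDefectGroup p M (blockOf M ((f i).1 : G → ℂ)) D := by
    intro i
    have hB : IsPBlock M (blockOf M ((f i).1 : G → ℂ)) := ⟨(f i).1, rfl⟩
    refine ⟨hB, ?_⟩
    -- some entry in the row is nonzero
    have h1 : ∃ j, v (f i) j ≠ 0 := by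
      by_contra hcon
      push Not at hcon
      apply hdet
      exact Matrix.det_eq_zero_of_row_eq_zero i hcon
    obtain ⟨j, hj⟩ := h1
    have h2 : ¬ MemLocalIdeal M (centralChar ((f i).1 : G → ℂ) (x j)) := by
      intro h3
      apply hj
      simp only [v]
      rw [Ideal.Quotient.eq_zero_iff_mem, ← CfsgLib.BlockR.ideal_algInt_iff hMp]
      exact h3
    obtain ⟨E, hE⟩ := CfsgLib.BlockIdeal.exists_defectGroup hM hB
    obtain ⟨S', hS'⟩ := hD j
    obtain ⟨y, hy⟩ := CfsgLib.BlockIdeal.defect_le_cent hM hB hE (CfsgLib.BlockIdem.mem_blockOf_self hMp _) h2 S'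
    rw [hS'] at hy
    apply CfsgLib.BlockFMT.defectGroup_of_le hE hy
    rw [CfsgLib.BlockDefect.card_defectGroup hM hB hE]
    have h3 : CfsgLib.BlockFMT.SylIn p (Subgroup.centralizer ({x j} : Set G)) D := ⟨S', hS'⟩
    rw [h3.card, hSyl j]
    exact Nat.pow_le_pow_right hp.pos (f i).2
  refine ⟨fun i => blockOf M ((f i).1 : G → ℂ), ?_, hdefgrp, ?_⟩
  · intro i j hij
    by_contra hne
    apply hdet
    apply Matrix.det_zero_of_row_eq hne
    funext k
    change v (f i) k = v (f j) k
    simp only [v]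
    rw [Ideal.Quotient.eq, ← CfsgLib.BlockR.ideal_algInt_iff hMp]
    have h1 : (f j).1 ∈ blockOf M ((f i).1 : G → ℂ) := by
      simp only at hij
      rw [hij]; exact CfsgLib.BlockIdem.mem_blockOf_self hMp _
    exact h1 (x k)
  · intro ψ hψ hcon
    have hdefect : ∀ i, blockDefect p (blockOf M ((f i).1 : G → ℂ)) = d := by
      intro i
      have hB : IsPBlock M (blockOf M ((f i).1 : G → ℂ)) := ⟨(f i).1, rfl⟩
      have h1 := (hdefgrp i).2
      have h2 := CfsgLib.BlockDefect.card_defectGroup hM hB h1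
      have h3 : (Nat.card D).factorization p = blockDefect p (blockOf M ((f i).1 : G → ℂ)) := by
        rw [h2, Nat.factorization_pow]
        simp [hp.factorization_self]
      exact h3.symm
    set a := (Nat.card G).factorization p with ha
    have hdeg : ∀ i, (charDegree (ψ i : G → ℂ)).factorization p + d = a := by
      intro i
      have h1 : blockHeight p (blockOf M ((f i).1 : G → ℂ)) (ψ i : G → ℂ) = 0 := (hψ i).2
      have h2 := hdefect i
      unfold blockHeight at h1
      unfold blockDefect at h2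
      have h3 : sInf ((fun ψ : IrrCharacter G => (charDegree (ψ : G → ℂ)).factorization p) '' (blockOf M ((f i).1 : G → ℂ))) ≤ (charDegree (ψ i : G → ℂ)).factorization p :=
        Nat.sInf_le ⟨ψ i, (hψ i).1, rfl⟩
      have h4 : (charDegree (ψ i : G → ℂ)).factorization p ≤ a :=
        (Nat.factorization_le_iff_dvd (CfsgLib.CharInt.irr_charDegree_pos (ψ i).2).ne' Nat.card_pos.ne').2
            (CfsgLib.CharInt2.charDegree_dvd_card (ψ i).2) p
      rw [← ha] at h2
      omega
    have hidx : ∀ j, (Subgroup.centralizer ({x j} : Set G)).index.factorization p + d = a := by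
      intro j
      have h2 := CfsgLib.BlockDefect.card_factorization (p := p) (Subgroup.centralizer ({x j} : Set G))
      rw [hSyl j] at h2
      omega
    let t : Fin r → ℕ := fun j => (Subgroup.centralizer ({x j} : Set G)).index / p ^ (Subgroup.centralizer ({x j} : Set G)).index.factorization p
    let u : Fin r → ℕ := fun i => charDegree (ψ i : G → ℂ) / p ^ (charDegree (ψ i : G → ℂ)).factorization p
    have ht : ∀ j, (Subgroup.centralizer ({x j} : Set G)).index = p ^ (a - d) * t j := by
      intro j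
      have h1 : (Subgroup.centralizer ({x j} : Set G)).index.factorization p = a - d := by have := hidx j; omega
      rw [← h1]
      exact (Nat.ordProj_mul_ordCompl_eq_self _ p).symm
    have hu' : ∀ i, charDegree (ψ i : G → ℂ) = p ^ (a - d) * u i := by
      intro i
      have h1 : (charDegree (ψ i : G → ℂ)).factorization p = a - d := by have := hdeg i; omega
      rw [← h1]
      exact (Nat.ordProj_mul_ordCompl_eq_self _ p).symm
    have hup : ∀ i, ¬ p ∣ u i := fun i => Nat.not_dvd_ordCompl hp (CfsgLib.CharInt.irr_charDegree_pos (ψ i).2).ne'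
    let A : Matrix (Fin r) (Fin r) AlgInt := Matrix.of fun i j => (⟨(ψ i : G → ℂ) (x j), CfsgLib.CharInt.irr_isIntegral (ψ i).2 _⟩ : AlgInt)
    let Om : Matrix (Fin r) (Fin r) AlgInt := Matrix.of fun i j => W (ψ i) j
    have hrel : ∀ i j, ((t j : ℕ) : AlgInt) * A i j = ((u i : ℕ) : AlgInt) * Om i j := by
      intro i j
      apply Subtype.val_injective
      have h1 : ((t j : ℕ) : ℂ) * (ψ i : G → ℂ) (x j) = ((u i : ℕ) : ℂ) * centralChar (ψ i : G → ℂ) (x j) := by
        unfold centralChar
        rw [CfsgLib.CharInt.irr_one_eq_charDegree (ψ i).2, ht j, hu' i]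
        have h2 : (u i : ℂ) ≠ 0 := by
          intro h0
          have : u i = 0 := by exact_mod_cast h0
          exact hup i (by rw [this]; exact dvd_zero p)
        have h3 : (p : ℂ) ≠ 0 := by exact_mod_cast hp.ne_zero
        push_cast
        field_simp
      rw [MulMemClass.coe_mul, MulMemClass.coe_mul]
      push_cast
      exact h1
    have hdet1 : (∏ j, ((t j : ℕ) : AlgInt)) * A.det = (∏ i, ((u i : ℕ) : AlgInt)) * Om.det := by
      rw [← Matrix.det_mul_row, ← Matrix.det_mul_column]
      congr 1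
      ext i j
      exact congrArg Subtype.val (hrel i j)
    have hA : A.det ∈ M := by
      rw [← CfsgLib.BlockR.ideal_algInt_iff hMp]
      have h1 : ((A.det : AlgInt) : ℂ) = Matrix.det (Matrix.of fun i j : Fin r => (ψ i : G → ℂ) (x j)) := by
        have := RingHom.map_det (AlgInt.subtype : AlgInt →+* ℂ) A
        rw [show ((A.det : AlgInt) : ℂ) = (AlgInt.subtype : AlgInt →+* ℂ) A.det from rfl, this]
        rfl
      rw [h1]; exact hcon
    have h2 : (∏ i, ((u i : ℕ) : AlgInt)) * Om.det ∈ M := by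
      rw [← hdet1]; exact M.mul_mem_left _ hA
    rcases hMp.mem_or_mem h2 with h3 | h3
    · rw [Ideal.IsPrime.prod_mem_iff] at h3
      obtain ⟨i, -, hi⟩ := h3
      rw [← CfsgLib.BlockR.ideal_algInt_iff hMp] at hi
      have h4 : (((u i : ℕ) : AlgInt) : ℂ) = ((u i : ℕ) : ℂ) := by push_cast; rfl
      rw [h4, CfsgLib.BlockR.ideal_nat_iff hM] at hi
      exact hup i hi
    · apply hdet
      have h4 : Matrix.det (Matrix.of fun i j : Fin r => v (f i) j) = Ideal.Quotient.mk M Om.det := by
        rw [RingHom.map_det]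
        congr 1
        ext i j
        change v (f i) j = Ideal.Quotient.mk M (W (ψ i) j)
        simp only [v]
        rw [Ideal.Quotient.eq, ← CfsgLib.BlockR.ideal_algInt_iff hMp]
        exact (hψ i).1 (x j)
      rw [h4, Ideal.Quotient.eq_zero_iff_mem]
      exact h3

end Cfsg.Agent.S4741
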