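import Cfsg.Statements.S4742
import Cfsg.Agent.LibClassAlg2

set_option autoImplicit false
open Cfsg

namespace Cfsg.Agent.S4742


/-- Let p ≠ q be primes dividing the order of the finite group G, and suppose the centralizer of every non-identity p-element of G has order prime to q. Then either G has an irreducible character of p-defect zero, or for every non-identity q-element z of G there are conjugates g, h of z such that g h⁻¹ is a non-identity p-element. -/
theorem result {G : Type*} [Group G] [Finite G] (p q : ℕ) [Fact p.Prime] [Fact q.Prime] (hppq : p ≠ q) (hpG : p ∣ Nat.card G) (hqG : q ∣ Nat.card G) (hC : ∀ g : G, g ≠ 1 → (∃ k : ℕ, orderOf g = p ^ k) → ¬ q ∣ Nat.card ↥(Subgroup.centralizer ({g} : Set G))) : (∃ χ : Cfsg.IrrCharacter G, (Cfsg.charDegree (χ : G → ℂ)).factorization p = (Nat.card G).factorization p) ∨ ∀ z : G, z ≠ 1 → (∃ k : ℕ, orderOf z = q ^ k) → ∃ g h : G, IsConj z g ∧ IsConj z h ∧ g * h⁻¹ ≠ 1 ∧ ∃ k : ℕ, orderOf (g * h⁻¹) = p ^ k := by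
  classical
  by_contra hcon
  push Not at hcon
  obtain ⟨h1, z, hz1, ⟨k, hk⟩, h2⟩ := hcon
  obtain ⟨P⟩ : Nonempty (Sylow p G) := inferInstance
  have hPc : Nat.card P = p ^ (Nat.card G).factorization p := P.card_eq_multiplicity
  have hCz : (Nat.card (Subgroup.centralizer ({z} : Set G))).factorization p = 0 := by
    apply Nat.factorization_eq_zero_of_not_dvd
    intro hdvd
    obtain ⟨y, hy⟩ := exists_prime_orderOf_dvd_card' p hdvd
    have hy' : orderOf (y : G) = p := by rw [Subgroup.orderOf_coe]; exact hy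
    have hyne : (y : G) ≠ 1 := by
      intro h0
      rw [h0, orderOf_one] at hy'
      exact (Fact.out : p.Prime).one_lt.ne hy'
    have h3 := hC (y : G) hyne ⟨1, by rw [hy', pow_one]⟩
    apply h3
    have hzmem : z ∈ Subgroup.centralizer ({(y : G)} : Set G) := by
      rw [Subgroup.mem_centralizer_iff]
      intro w hw
      rw [Set.mem_singleton_iff] at hw
      subst hw
      have := Subgroup.mem_centralizer_iff.mp y.2 z (Set.mem_singleton z)
      exact this.symm
    have h4 : orderOf (⟨z, hzmem⟩ : Subgroup.centralizer ({(y : G)} : Set G)) = q ^ k := by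
      rw [Subgroup.orderOf_mk, hk]
    have hk0 : k ≠ 0 := by
      rintro rfl
      rw [pow_zero, orderOf_eq_one_iff] at hk
      exact hz1 hk
    exact (dvd_pow_self q hk0).trans (h4 ▸ orderOf_dvd_natCard _)
  obtain ⟨χ, hχ⟩ := CfsgLib.ClassAlg.exists_degree_dvd p z (P : Subgroup G) ((Nat.card G).factorization p) 0 hPc hCz (by
    intro g h hg hh hgh
    by_contra hne
    have h5 : g * h⁻¹ ≠ 1 := fun h0 => hne (mul_inv_eq_one.mp h0)
    obtain ⟨j, hj⟩ := (IsPGroup.iff_orderOf.mp P.isPGroup') ⟨g * h⁻¹, hgh⟩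
    rw [Subgroup.orderOf_mk] at hj
    exact h2 g h hg hh h5 j hj)
  apply h1 χ
  apply le_antisymm
  · exact (Nat.factorization_le_iff_dvd (CfsgLib.CharInt.irr_charDegree_pos χ.2).ne' Nat.card_pos.ne').mpr
      (CfsgLib.CharInt2.charDegree_dvd_card χ.2) p
  · rw [Nat.sub_zero] at hχ
    exact ((Fact.out : p.Prime).pow_dvd_iff_le_factorization (CfsgLib.CharInt.irr_charDegree_pos χ.2).ne').mp hχ

end Cfsg.Agent.S4742
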