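import Cfsg.Statements.S4744
import Cfsg.Agent.LibInv19

set_option autoImplicit false
open Cfsg

namespace Cfsg.Agent.S4744


/-- Let p be an odd prime and G a finite group of even order divisible by p in which the centralizer of every non-identity p-element has odd order. Then either G has an irreducible character of p-defect zero, or the normalizer of every Sylow p-subgroup P of G has even order and P is abelian. -/
theorem result {G : Type*} [Group G] [Finite G] (p : ℕ) [Fact p.Prime] (hp2 : p ≠ 2) (hpG : p ∣ Nat.card G) (h2G : 2 ∣ Nat.card G) (hC : ∀ g : G, g ≠ 1 → (∃ k : ℕ, orderOf g = p ^ k) → Odd (Nat.card ↥(Subgroup.centralizer ({g} : Set G)))) : (∃ χ : Cfsg.IrrCharacter G, (Cfsg.charDegree (χ : G → ℂ)).factorization p = (Nat.card G).factorization p) ∨ ∀ P : Sylow p G, Even (Nat.card ↥(Subgroup.normalizer ((P : Subgroup G) : Set G))) ∧ IsMulCommutative ↥(P : Subgroup G) := by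
  by_cases hno : ∃ χ : IrrCharacter G, (charDegree (χ : G → ℂ)).factorization p = (Nat.card G).factorization p
  · exact Or.inl hno
  right
  push Not at hno
  intro P
  obtain ⟨x, hx⟩ := CfsgLib.Invol.exists_involution (even_iff_two_dvd.2 h2G)
  obtain ⟨u, hxu, hu⟩ := CfsgLib.Inv19.exists_inverting hp2 hpG
    (fun y hy => hC y (by rintro rfl; rw [orderOf_one] at hy; exact (Fact.out : p.Prime).one_lt.ne hy) ⟨1, by rw [hy, pow_one]⟩)
    hno hx P
  have hu2 : orderOf u = 2 := (CfsgLib.Inv19.orderOf_of_isConj hxu).trans hx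
  refine ⟨?_, CfsgLib.Inv19.comm_of_inverted hu⟩
  rw [even_iff_two_dvd]
  apply CfsgLib.Invol.two_dvd_card_of_mem _ hu2
  rw [Subgroup.mem_normalizer_iff]
  intro y
  constructor
  · intro hy
    change u * y * u⁻¹ ∈ (P : Subgroup G)
    rw [hu y hy]
    exact inv_mem hy
  · intro hy
    have h1 := hu _ hy
    have h2 := CfsgLib.Invol.mul_self hu2
    have h3 : u * (u * y * u⁻¹) * u⁻¹ = y := by
      calc u * (u * y * u⁻¹) * u⁻¹ = (u * u) * y * (u * u)⁻¹ := by group
        _ = y := by rw [h2]; simp
    rw [h3] at h1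
    rw [h1]
    exact inv_mem hy

end Cfsg.Agent.S4744
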