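import Cfsg.Statements.S4748
import Cfsg.Agent.LibPSolvB19
import Cfsg.Agent.LibDade2
import Cfsg.Agent.LibCharIndA
import Cfsg.Agent.LibCharInt
import Cfsg.Agent.LibCharMore
import Cfsg.Agent.LibBGPi

set_option autoImplicit false
open scoped Pointwise
open Cfsg

namespace Cfsg.Agent.S4748

open CfsgLib.CharBasic
open scoped ComplexConjugate Pointwise

theorem sum_prod {M : Type*} [Group M] [Finite M] {A B E : Subgroup M} [Fintype A] [Fintype B] [Fintype E]
    (hAE : A ≤ E) (hBE : B ≤ E) (hd : A ⊓ B = ⊥) (hE : ∀ e ∈ E, ∃ a ∈ A, ∃ b ∈ B, a * b = e) (F : M → ℂ) :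
    ∑ e : E, F e = ∑ b : B, ∑ a : A, F ((a : M) * (b : M)) := by
  rw [Finset.sum_comm, ← Fintype.sum_prod_type']
  symm
  refine Fintype.sum_bijective (fun x : A × B => (⟨(x.1 : M) * (x.2 : M), E.mul_mem (hAE x.1.2) (hBE x.2.2)⟩ : E)) ⟨?_, ?_⟩ _ _ ?_
  · rintro ⟨a, b⟩ ⟨a', b'⟩ h
    have h1 : (a : M) * (b : M) = (a' : M) * (b' : M) := congrArg Subtype.val h
    have h2 : (a' : M)⁻¹ * a = b' * (b : M)⁻¹ := by
      calc (a' : M)⁻¹ * a = (a' : M)⁻¹ * (a * b) * (b : M)⁻¹ := by group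
        _ = (a' : M)⁻¹ * (a' * b') * (b : M)⁻¹ := by rw [h1]
        _ = _ := by group
    have h3 : (a' : M)⁻¹ * a ∈ A ⊓ B := ⟨A.mul_mem (A.inv_mem a'.2) a.2, by rw [h2]; exact B.mul_mem b'.2 (B.inv_mem b.2)⟩
    rw [hd, Subgroup.mem_bot] at h3
    have h4 : (a : M) = a' := by rw [inv_mul_eq_one] at h3; exact h3.symm
    have h5 : (b : M) = b' := by rw [h4] at h1; exact mul_left_cancel h1
    ext
    · exact h4
    · exact h5
  · rintro ⟨e, he⟩
    obtain ⟨a, ha, b, hb, h⟩ := hE e he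
    exact ⟨(⟨a, ha⟩, ⟨b, hb⟩), Subtype.ext h⟩
  · intro x; rfl

theorem lemA {M : Type*} [Group M] [Finite M] {p : ℕ} [Fact p.Prime] {K P : Subgroup M} [hK : K.Normal]
    (hKp : ¬ p ∣ Nat.card K) (hP : IsPGroup p P) (hKP : K ⊔ P = ⊤) {z : M} (hz : z ∈ P) (hzc : ∀ y ∈ P, z * y = y * z)
    (hC : ∀ y ∈ P, y ≠ 1 → ∀ k ∈ K, k * y = y * k → ∀ y' ∈ P, k * y' = y' * k)
    {ψ : M → ℂ} (hψ : IsIrrCharacter M ψ) (hdeg : charDegree ψ ^ 2 ≤ Nat.card P) : ‖ψ z‖ = (ψ 1).re := by
  classical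
  letI := Fintype.ofFinite M
  letI : Fintype K := Fintype.ofFinite K
  letI : Fintype P := Fintype.ofFinite P
  have hpp : p.Prime := Fact.out
  have hd : K ⊓ P = ⊥ := by
    rw [Subgroup.eq_bot_iff_card]
    obtain ⟨m, hm⟩ := IsPGroup.iff_card.1 hP
    have h1 : Nat.card (K ⊓ P : Subgroup M) ∣ Nat.card K := Subgroup.card_dvd_of_le inf_le_left
    have h2 : Nat.card (K ⊓ P : Subgroup M) ∣ p ^ m := by rw [← hm]; exact Subgroup.card_dvd_of_le inf_le_right
    obtain ⟨j, _, hj⟩ := (Nat.dvd_prime_pow hpp).1 h2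
    rw [hj] at h1 ⊢
    by_cases hj0 : j = 0
    · rw [hj0, pow_zero]
    · exact absurd ((dvd_pow_self p hj0).trans h1) hKp
  set C : Subgroup M := K ⊓ Subgroup.centralizer (P : Set M) with hCdef
  letI : Fintype C := Fintype.ofFinite C
  set E : Subgroup M := C ⊔ P with hEdef
  letI : Fintype E := Fintype.ofFinite E
  have hCP : C ≤ Subgroup.normalizer (P : Set M) := inf_le_right.trans (Subgroup.centralizer_le_normalizer _)
  have hEmem : ∀ e ∈ E, ∃ a ∈ C, ∃ b ∈ P, a * b = e := fun e he => (CfsgLib.BGPi.mem_sup_of_nz hCP).1 he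
  have hMmem : ∀ e ∈ (⊤ : Subgroup M), ∃ a ∈ K, ∃ b ∈ P, a * b = e := by
    intro e he
    rw [← hKP] at he
    exact Subgroup.mem_sup_of_normal_left.1 he
  have hCd : C ⊓ P = ⊥ := by
    rw [eq_bot_iff, ← hd]
    exact inf_le_inf_right _ inf_le_left
  set F : M → ℂ := fun g => ψ g * conj (ψ g) with hF
  have hFcf : IsClassFunction M F := by
    intro g h
    simp only [hF]
    rw [irr_classFun hψ g h]
  set SK : M → ℂ := fun y => (Nat.card K : ℂ)⁻¹ * ∑ k : K, F ((k : M) * y) with hSK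
  set SC : M → ℂ := fun y => (Nat.card C : ℂ)⁻¹ * ∑ k : C, F ((k : M) * y) with hSC
  have hsub : ∀ (X : Subgroup M) [Fintype X] (f : M → ℂ), ∑ z : M, (if z ∈ X then f z else 0) = ∑ z : X, f z := by
    intro X _ f
    rw [← Finset.sum_filter]
    refine (Finset.sum_subtype _ (by simp) f)
  have hcos : ∀ y : P, y ≠ 1 → SK y = SC y := by
    intro y hy
    have hy1 : (y : M) ≠ 1 := fun h => hy (Subtype.ext h)
    have hcop : Nat.Coprime (orderOf (y : M)) (Nat.card K) := by
      obtain ⟨m, hm⟩ := IsPGroup.iff_orderOf.1 hP y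
      rw [Subgroup.orderOf_coe, hm]
      exact Nat.Coprime.pow_left _ ((Nat.Prime.coprime_iff_not_dvd hpp).2 hKp)
    have h1 := CfsgLib.Dade.coset_sum (K := K) (a := (y : M)) (fun k hk => hK.conj_mem k hk y) hcop hFcf
    have h2 : K ⊓ Subgroup.centralizer ({(y : M)} : Set M) = C := by
      apply le_antisymm
      · rintro k ⟨hk, hky⟩
        have h3 : k * y = y * k := by
          have := Subgroup.mem_centralizer_iff.1 hky y rfl
          exact this.symm
        exact ⟨hk, Subgroup.mem_centralizer_iff.2 fun y' hy' => (hC y y.2 hy1 k hk h3 y' hy').symm⟩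
      · rintro k ⟨hk, hky⟩
        refine ⟨hk, Subgroup.mem_centralizer_iff.2 fun y' hy' => ?_⟩
        rw [Set.mem_singleton_iff] at hy'
        rw [hy']
        exact Subgroup.mem_centralizer_iff.1 hky y y.2
    rw [h2] at h1
    have h3 := hsub K (fun z => F (z * y))
    have h4 := hsub C (fun z => F (z * y))
    simp only [hSK, hSC]
    rw [← h3, ← h4]
    exact h1
  have hMsum : ∑ y : P, SK y = (Nat.card P : ℂ) := by
    have h1 : ∑ g : M, F g = (Nat.card M : ℂ) := by
      have h2 := irr_inner_self hψ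
      unfold classInner at h2
      have hM0 : (Nat.card M : ℂ) ≠ 0 := by exact_mod_cast Nat.card_pos.ne'
      field_simp at h2
      exact h2
    letI : Fintype (⊤ : Subgroup M) := Fintype.ofFinite _
    have h2 := sum_prod (A := K) (B := P) (E := ⊤) le_top le_top hd hMmem F
    have h3 : ∑ e : (⊤ : Subgroup M), F e = ∑ g : M, F g := by
      refine Fintype.sum_equiv Subgroup.topEquiv.toEquiv _ _ ?_
      intro x; rfl
    rw [h3, h1] at h2
    have h4 : Nat.card M = Nat.card K * Nat.card P := by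
      have h5 : Nat.card (K ⊔ P : Subgroup M) = Nat.card K * Nat.card P := by
        have h6 := CfsgLib.BGPi.card_sup_of_disjoint (H := P) (K := K) (by rw [Subgroup.normalizer_eq_top]; exact le_top) (by rw [inf_comm]; exact hd)
        rw [sup_comm, h6, mul_comm]
      rw [hKP, Subgroup.card_top] at h5
      exact h5
    have hK0 : (Nat.card K : ℂ) ≠ 0 := by exact_mod_cast Nat.card_pos.ne'
    simp only [hSK]
    rw [← Finset.mul_sum, ← h2, h4]
    push_cast
    field_simp
  have hEsum : classInner (fun e : E => ψ e) (fun e : E => ψ e) = (Nat.card P : ℂ)⁻¹ * ∑ y : P, SC y := by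
    unfold classInner
    have h2 := sum_prod (A := C) (B := P) (E := E) le_sup_left le_sup_right hCd hEmem F
    have h3 : ∑ g : E, ψ g * conj (ψ g) = ∑ e : E, F e := rfl
    have h5 : Nat.card E = Nat.card C * Nat.card P := CfsgLib.BGPi.card_sup_of_disjoint hCP hCd
    have hC0 : (Nat.card C : ℂ) ≠ 0 := by exact_mod_cast Nat.card_pos.ne'
    have hP0 : (Nat.card P : ℂ) ≠ 0 := by exact_mod_cast Nat.card_pos.ne'
    rw [h3, h2, h5]
    simp only [hSC]
    rw [← Finset.mul_sum]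
    push_cast
    field_simp
  have hdiff : ∑ y : P, SC y = (Nat.card P : ℂ) - SK 1 + SC 1 := by
    rw [← hMsum]
    rw [← Finset.add_sum_erase _ _ (Finset.mem_univ (1 : P)), ← Finset.add_sum_erase Finset.univ (fun y : P => SK y) (Finset.mem_univ (1 : P))]
    have h1 : ∑ x ∈ Finset.univ.erase (1 : P), SC x = ∑ x ∈ Finset.univ.erase (1 : P), SK x := by
      refine Finset.sum_congr rfl fun y hy => ?_
      rw [hcos y (Finset.ne_of_mem_erase hy)]
    rw [h1]
    simp only [Subgroup.coe_one]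
    ring
  -- real bounds
  obtain ⟨d, hd0, hd1⟩ := irr_one_nat hψ
  have hcd : charDegree ψ = d := by simp [charDegree, hd1]
  rw [hcd] at hdeg
  have hFre : ∀ g, F g = ((‖ψ g‖ ^ 2 : ℝ) : ℂ) := by
    intro g
    simp only [hF]
    rw [Complex.mul_conj, Complex.normSq_eq_norm_sq]
  have hFle : ∀ g, ‖ψ g‖ ^ 2 ≤ (d : ℝ) ^ 2 := by
    intro g
    have := char_norm_le (irr_isCharacter hψ) g
    rw [hd1] at this
    exact pow_le_pow_left₀ (norm_nonneg _) (by simpa using this) 2
  obtain ⟨sc, hsc, hscle⟩ : ∃ r : ℝ, SC 1 = (r : ℂ) ∧ r ≤ (d : ℝ) ^ 2 := by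
    refine ⟨(Nat.card C : ℝ)⁻¹ * ∑ k : C, ‖ψ ((k : M) * 1)‖ ^ 2, ?_, ?_⟩
    · simp only [hSC, hFre]
      push_cast
      rfl
    · have hC0 : (0 : ℝ) < (Nat.card C : ℝ) := by exact_mod_cast Nat.card_pos
      have h1 : ∑ k : C, ‖ψ ((k : M) * 1)‖ ^ 2 ≤ (Nat.card C : ℝ) * (d : ℝ) ^ 2 := by
        calc ∑ k : C, ‖ψ ((k : M) * 1)‖ ^ 2 ≤ ∑ k : C, (d : ℝ) ^ 2 := Finset.sum_le_sum (fun k _ => hFle _)
          _ = _ := by rw [Finset.sum_const, nsmul_eq_mul, Finset.card_univ, Nat.card_eq_fintype_card]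
      calc (Nat.card C : ℝ)⁻¹ * ∑ k : C, ‖ψ ((k : M) * 1)‖ ^ 2 ≤ (Nat.card C : ℝ)⁻¹ * ((Nat.card C : ℝ) * (d : ℝ) ^ 2) :=
            mul_le_mul_of_nonneg_left h1 (inv_nonneg.2 hC0.le)
        _ = _ := by rw [← mul_assoc, inv_mul_cancel₀ hC0.ne', one_mul]
  obtain ⟨sk, hsk, hskpos⟩ : ∃ r : ℝ, SK 1 = (r : ℂ) ∧ 0 < r := by
    refine ⟨(Nat.card K : ℝ)⁻¹ * ∑ k : K, ‖ψ ((k : M) * 1)‖ ^ 2, ?_, ?_⟩
    · simp only [hSK, hFre]
      push_cast
      rfl
    · have hK0 : (0 : ℝ) < (Nat.card K : ℝ) := by exact_mod_cast Nat.card_pos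
      apply mul_pos (inv_pos.2 hK0)
      have h1 : ‖ψ (((1 : K) : M) * 1)‖ ^ 2 ≤ ∑ k : K, ‖ψ ((k : M) * 1)‖ ^ 2 :=
        Finset.single_le_sum (f := fun k : K => ‖ψ ((k : M) * 1)‖ ^ 2) (fun _ _ => by positivity) (Finset.mem_univ _)
      refine lt_of_lt_of_le ?_ h1
      rw [Subgroup.coe_one, mul_one, hd1]
      simp only [Complex.norm_natCast]
      have : (0 : ℝ) < d := by exact_mod_cast hd0
      positivity
  have hEchar : IsCharacter E (fun e : E => ψ e) := isCharacter_restrict (irr_isCharacter hψ) E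
  have hP0 : (0 : ℝ) < (Nat.card P : ℝ) := by exact_mod_cast Nat.card_pos
  obtain ⟨n, hn⟩ := char_mult hEchar hEchar
  have hn1 : (n : ℝ) = (Nat.card P : ℝ)⁻¹ * ((Nat.card P : ℝ) - sk + sc) := by
    rw [hEsum, hdiff, hsk, hsc] at hn
    have h1 : ((n : ℝ) : ℂ) = (((Nat.card P : ℝ)⁻¹ * ((Nat.card P : ℝ) - sk + sc) : ℝ) : ℂ) := by
      push_cast
      exact hn.symm
    exact Complex.ofReal_injective h1
  have hn2 : n < 2 := by
    have h1 : (n : ℝ) < 2 := by
      rw [hn1, inv_mul_lt_iff₀ hP0]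
      have : (d : ℝ) ^ 2 ≤ (Nat.card P : ℝ) := by exact_mod_cast hdeg
      linarith
    exact_mod_cast h1
  have hn0 : n ≠ 0 := by
    intro h0
    rw [h0, Nat.cast_zero] at hn
    have h1 := inner_self_eq_zero hn
    have h2 := congrFun h1 1
    simp only [Subgroup.coe_one, Pi.zero_apply] at h2
    exact irr_one_ne_zero hψ h2
  have hirr : IsIrrCharacter E (fun e : E => ψ e) := by
    rw [irr_iff_norm_one]
    refine ⟨hEchar, ?_⟩
    rw [hn]
    have : n = 1 := by omega
    rw [this, Nat.cast_one]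
  have hzE : z ∈ E := (le_sup_right : P ≤ C ⊔ P) hz
  have hzcen : (⟨z, hzE⟩ : E) ∈ Subgroup.center E := by
    rw [Subgroup.mem_center_iff]
    rintro ⟨e, he⟩
    apply Subtype.ext
    show e * z = z * e
    obtain ⟨c, hc, y, hy, rfl⟩ := hEmem e he
    have h1 : z * c = c * z := Subgroup.mem_centralizer_iff.1 hc.2 z hz
    have h2 := hzc y hy
    rw [mul_assoc, ← h2, ← mul_assoc, ← h1, mul_assoc]
  exact irr_center hirr hzcen

/-- Let G be a finite p-solvable group whose Sylow p-subgroup P meets each conjugate g P g⁻¹ with g outside N_G(P) trivially, and let χ be a faithful character of G (χ g = χ 1 only for g = 1) whose degree d satisfies d² ≤ |P|. Then P is normal in G. -/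
theorem result {G : Type*} [Group G] [Finite G] (p : ℕ) [Fact p.Prime] (hsolv : Cfsg.IsPSolvable p G) (P : Sylow p G) (hTI : ∀ g : G, g ∉ Subgroup.normalizer ((P : Subgroup G) : Set G) → (P : Subgroup G) ⊓ (MulAut.conj g • (P : Subgroup G)) = ⊥) (χ : G → ℂ) (hχ : Cfsg.IsCharacter G χ) (hfaith : ∀ g : G, χ g = χ 1 → g = 1) (hdeg : Cfsg.charDegree χ ^ 2 ≤ Nat.card ↥(P : Subgroup G)) : (P : Subgroup G).Normal := by
  classical
  letI := Fintype.ofFinite G
  have hpp : p.Prime := Fact.out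
  have hPp : IsPGroup p (P : Subgroup G) := P.isPGroup'
  by_cases hP1 : (P : Subgroup G) = ⊥
  · rw [hP1]; infer_instance
  by_cases hO : pCore p G = ⊥
  swap
  · -- the TI property gives normality
    have hn : Subgroup.normalizer ((P : Subgroup G) : Set G) = ⊤ := by
      rw [eq_top_iff]
      intro g _
      by_contra hg
      apply hO
      rw [eq_bot_iff, ← hTI g hg]
      refine le_inf (CfsgLib.Cores.pCore_le_sylow P) ?_
      intro x hx
      rw [Subgroup.mem_smul_pointwise_iff_exists]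
      refine ⟨g⁻¹ * x * g, CfsgLib.Cores.pCore_le_sylow P ?_, ?_⟩
      · have := (inferInstance : (pCore p G).Normal).conj_mem x hx g⁻¹
        rwa [inv_inv] at this
      · rw [MulAut.smul_def, MulAut.conj_apply]; group
    rw [← Subgroup.normalizer_eq_top_iff]
    exact hn
  exfalso
  have hHH := CfsgLib.PSolvB19.hall_higman' hsolv hO
  set K := pPrimeCore p G with hK
  haveI : K.Normal := inferInstance
  have hKp : ¬ p ∣ Nat.card K := by
    have := CfsgLib.Cores.pPrimeCore_coprime (G := G) p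
    exact (Nat.Prime.coprime_iff_not_dvd hpp).1 this.symm
  -- a central element of P
  haveI : Nontrivial (P : Subgroup G) := (Subgroup.nontrivial_iff_ne_bot _).2 hP1
  haveI := hPp.center_nontrivial
  obtain ⟨⟨z0, hz0⟩, hz1⟩ := exists_ne (1 : Subgroup.center (P : Subgroup G))
  set z : G := (z0 : G) with hzdef
  have hzP : z ∈ (P : Subgroup G) := z0.2
  have hzc : ∀ y ∈ (P : Subgroup G), z * y = y * z := by
    intro y hy
    have h1 := Subgroup.mem_center_iff.1 hz0 ⟨y, hy⟩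
    have h2 := congrArg Subtype.val h1
    exact h2.symm
  have hz1' : z ≠ 1 := by
    intro h
    apply hz1
    apply Subtype.ext
    apply Subtype.ext
    exact h
  -- coprimality
  have hd : K ⊓ (P : Subgroup G) = ⊥ := by
    rw [Subgroup.eq_bot_iff_card]
    obtain ⟨m, hm⟩ := IsPGroup.iff_card.1 hPp
    have h1 : Nat.card (K ⊓ P : Subgroup G) ∣ Nat.card K := Subgroup.card_dvd_of_le inf_le_left
    have h2 : Nat.card (K ⊓ P : Subgroup G) ∣ p ^ m := by rw [← hm]; exact Subgroup.card_dvd_of_le inf_le_right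
    obtain ⟨j, _, hj⟩ := (Nat.dvd_prime_pow hpp).1 h2
    rw [hj] at h1 ⊢
    by_cases hj0 : j = 0
    · rw [hj0, pow_zero]
    · exact absurd ((dvd_pow_self p hj0).trans h1) hKp
  have hC : ∀ y ∈ (P : Subgroup G), y ≠ 1 → ∀ k ∈ K, k * y = y * k → ∀ y' ∈ (P : Subgroup G), k * y' = y' * k := by
    intro y hy hy1 k hk hky y' hy'
    have hkN : k ∈ Subgroup.normalizer ((P : Subgroup G) : Set G) := by
      by_contra hn
      have h1 := hTI k hn
      have h2 : y ∈ (P : Subgroup G) ⊓ (MulAut.conj k • (P : Subgroup G)) := by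
        have h3 : y ∈ (MulAut.conj k • (P : Subgroup G) : Subgroup G) := by
          rw [Subgroup.mem_smul_pointwise_iff_exists]
          refine ⟨y, hy, ?_⟩
          rw [MulAut.smul_def, MulAut.conj_apply, hky]; group
        exact ⟨hy, h3⟩
      rw [h1, Subgroup.mem_bot] at h2
      exact hy1 h2
    have h3 : k * y' * k⁻¹ * y'⁻¹ ∈ K ⊓ (P : Subgroup G) := by
      constructor
      · have e : k * y' * k⁻¹ * y'⁻¹ = k * (y' * k⁻¹ * y'⁻¹) := by group
        rw [e]
        exact K.mul_mem hk ((inferInstance : K.Normal).conj_mem _ (K.inv_mem hk) y')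
      · exact (P : Subgroup G).mul_mem ((Subgroup.mem_normalizer_iff.1 hkN y').1 hy') ((P : Subgroup G).inv_mem hy')
    rw [hd, Subgroup.mem_bot] at h3
    calc k * y' = (k * y' * k⁻¹ * y'⁻¹) * y' * k := by group
      _ = _ := by rw [h3, one_mul]
  -- the subgroup K P
  set L : Subgroup G := K ⊔ (P : Subgroup G) with hL
  have hKL : K ≤ L := le_sup_left
  have hPL : (P : Subgroup G) ≤ L := le_sup_right
  letI : Fintype L := Fintype.ofFinite L
  have hscal : ∀ ψ : IrrCharacter L, classInner (fun l : L => χ l) (ψ : L → ℂ) ≠ 0 →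
      ‖(ψ : L → ℂ) ⟨z, hPL hzP⟩‖ = ((ψ : L → ℂ) 1).re := by
    intro ψ hψ
    haveI : (K.subgroupOf L).Normal := Subgroup.normal_subgroupOf
    refine lemA (p := p) (K := K.subgroupOf L) (P := (P : Subgroup G).subgroupOf L) ?_ ?_ ?_ ?_ ?_ ?_ ψ.2 ?_
    · rwa [Nat.card_congr (Subgroup.subgroupOfEquivOfLe hKL).toEquiv]
    · exact hPp.of_equiv (Subgroup.subgroupOfEquivOfLe hPL).symm
    · rw [← Subgroup.subgroupOf_sup hKL hPL]
      exact Subgroup.subgroupOf_self _
    · exact hzP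
    · intro y hy
      apply Subtype.ext
      exact hzc y hy
    · intro y hy hy1 k hk hky y' hy'
      apply Subtype.ext
      exact hC y hy (fun h => hy1 (Subtype.ext h)) k hk (congrArg Subtype.val hky) y' hy'
    · obtain ⟨a, ha0, ha⟩ := irr_one_nat ψ.2
      obtain ⟨b, hb⟩ := char_one_nat hχ
      have hab : a ≤ b := CfsgLib.CharMore.degree_le_of_mult (isCharacter_restrict hχ L) ψ.2 hψ ha (by simpa using hb)
      have h1 : charDegree (ψ : L → ℂ) = a := by simp [charDegree, ha]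
      have h2 : charDegree χ = b := by simp [charDegree, hb]
      rw [h1, Nat.card_congr (Subgroup.subgroupOfEquivOfLe hPL).toEquiv]
      rw [h2] at hdeg
      exact (Nat.pow_le_pow_left hab 2).trans hdeg
  -- z centralizes K
  have hzK : ∀ k ∈ K, z * k * z⁻¹ * k⁻¹ = 1 := by
    intro k hk
    apply hfaith
    have hmem : z * k * z⁻¹ * k⁻¹ ∈ L := L.mul_mem (L.mul_mem (L.mul_mem (hPL hzP) (hKL hk)) (L.inv_mem (hPL hzP))) (L.inv_mem (hKL hk))
    have hcf := char_classFun (isCharacter_restrict hχ L)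
    have h1 := classFun_expand_apply hcf (⟨_, hmem⟩ : L)
    have h2 := classFun_expand_apply hcf (1 : L)
    simp only [Subgroup.coe_one] at h1 h2
    rw [h1, h2]
    refine Finset.sum_congr rfl fun ψ _ => ?_
    by_cases hψ : classInner (fun l : L => χ l) (ψ : L → ℂ) = 0
    · rw [hψ, zero_mul, zero_mul]
    · congr 1
      have h3 := hscal ψ hψ
      have h4 := irr_one_ne_zero ψ.2
      set zz : L := ⟨z, hPL hzP⟩ with hzz
      set kk : L := ⟨k, hKL hk⟩ with hkk
      have e1 : (⟨z * k * z⁻¹ * k⁻¹, hmem⟩ : L) = zz * (kk * zz⁻¹ * kk⁻¹) := by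
        apply Subtype.ext
        simp only [hzz, hkk, Subgroup.coe_mul, Subgroup.coe_inv]
        group
      rw [e1, char_mul_of_scalar (irr_isCharacter ψ.2) h4 h3, irr_classFun ψ.2 zz⁻¹ kk]
      have h5 := char_mul_of_scalar (irr_isCharacter ψ.2) h4 h3 zz⁻¹
      rw [mul_inv_cancel] at h5
      exact h5.symm
  have hzC : z ∈ K := by
    apply hHH
    rw [Subgroup.mem_centralizer_iff]
    intro k hk
    have := hzK k hk
    rw [mul_inv_eq_one] at this
    calc k * z = (z * k * z⁻¹) * z := by rw [this]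
      _ = z * k := by group
  have : z ∈ K ⊓ (P : Subgroup G) := ⟨hzC, hzP⟩
  rw [hd, Subgroup.mem_bot] at this
  exact hz1' this

end Cfsg.Agent.S4748
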