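import Cfsg.Statements.S4754
import Cfsg.Agent.LibClassAlg2

set_option autoImplicit false
open Cfsg

namespace Cfsg.Agent.S4754


/-- For elements x, y of a finite group G, the conjugacy class of x y equals the set of all products of a conjugate of x with a conjugate of y if and only if χ(1) χ(a x a⁻¹ b y b⁻¹) = χ(x) χ(y) for all a, b ∈ G and every irreducible character χ. -/
theorem result {G : Type*} [Group G] [Finite G] (x y : G) : (∀ z : G, IsConj (x * y) z ↔ ∃ a b : G, z = a * x * a⁻¹ * (b * y * b⁻¹)) ↔ ∀ (a b : G) (χ : Cfsg.IrrCharacter G), (χ : G → ℂ) 1 * (χ : G → ℂ) (a * x * a⁻¹ * (b * y * b⁻¹)) = (χ : G → ℂ) x * (χ : G → ℂ) y := by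
  classical
  haveI := Fintype.ofFinite G
  constructor
  · intro hcl a b χ
    -- average over conjugates of x
    have h1 := CfsgLib.ClassAlg.sum_conj_mul χ.2 x y
    have h2 : ∀ g : G, (χ : G → ℂ) (g * x * g⁻¹ * y) = (χ : G → ℂ) (x * y) := by
      intro g
      apply (CfsgLib.CharInt.irr_isConj χ.2 _).symm
      exact (hcl _).mpr ⟨g, 1, by group⟩
    rw [Finset.sum_congr rfl fun g _ => h2 g, Finset.sum_const, Finset.card_univ, nsmul_eq_mul,
      ← Nat.card_eq_fintype_card] at h1
    have hG : (Nat.card G : ℂ) ≠ 0 := by exact_mod_cast Nat.card_pos.ne'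
    have h3 := mul_left_cancel₀ hG h1
    have h4 : (χ : G → ℂ) (a * x * a⁻¹ * (b * y * b⁻¹)) = (χ : G → ℂ) (x * y) := by
      apply (CfsgLib.CharInt.irr_isConj χ.2 _).symm
      exact (hcl _).mpr ⟨a, b, rfl⟩
    have hne := CfsgLib.CharInt.irr_one_ne_zero χ.2
    rw [h4, h3]
    field_simp
  · intro h z
    constructor
    · intro hc
      obtain ⟨c, hc⟩ := isConj_iff.mp hc
      exact ⟨c, c, by rw [← hc]; group⟩
    · rintro ⟨a, b, rfl⟩
      rw [CfsgLib.CharBasic.isConj_iff_irr]
      intro χ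
      have hne := CfsgLib.CharInt.irr_one_ne_zero χ.2
      have h1 := h a b χ
      have h2 := h 1 1 χ
      simp only [one_mul, inv_one, mul_one] at h2
      rw [← h1] at h2
      exact mul_left_cancel₀ hne h2

end Cfsg.Agent.S4754
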