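import Cfsg.Statements.S4755
import Cfsg.Agent.LibClassAlg2

set_option autoImplicit false
open Cfsg

namespace Cfsg.Agent.S4755


/-- Let x, y be non-identity elements of the finite group G such that χ(x' y') = χ(x') χ(y') for all conjugates x' of x, y' of y and every irreducible character χ. Then the conjugacy class of x y is the set of all products of a conjugate of x with a conjugate of y; every irreducible character of degree greater than 1 vanishes at x y; and the conjugacy class of x y is the coset of the commutator subgroup containing x y. -/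
theorem result {G : Type*} [Group G] [Finite G] (x y : G) (hx : x ≠ 1) (hy : y ≠ 1) (h : ∀ (a b : G) (χ : Cfsg.IrrCharacter G), (χ : G → ℂ) (a * x * a⁻¹ * (b * y * b⁻¹)) = (χ : G → ℂ) (a * x * a⁻¹) * (χ : G → ℂ) (b * y * b⁻¹)) : (∀ z : G, IsConj (x * y) z ↔ ∃ a b : G, z = a * x * a⁻¹ * (b * y * b⁻¹)) ∧ (∀ χ : Cfsg.IrrCharacter G, (χ : G → ℂ) 1 ≠ 1 → (χ : G → ℂ) (x * y) = 0) ∧ (∀ z : G, IsConj (x * y) z ↔ (x * y)⁻¹ * z ∈ commutator G) := by
  classical
  haveI := Fintype.ofFinite G
  have hconst : ∀ (a b : G) (χ : IrrCharacter G), (χ : G → ℂ) (a * x * a⁻¹ * (b * y * b⁻¹)) = (χ : G → ℂ) (x * y) := by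
    intro a b χ
    rw [h a b χ, CfsgLib.CharInt.irr_classFun χ.2, CfsgLib.CharInt.irr_classFun χ.2]
    have := h 1 1 χ
    simp only [one_mul, inv_one, mul_one] at this
    exact this.symm
  have hcl : ∀ z : G, IsConj (x * y) z ↔ ∃ a b : G, z = a * x * a⁻¹ * (b * y * b⁻¹) := by
    intro z
    constructor
    · intro hc
      obtain ⟨c, hc⟩ := isConj_iff.mp hc
      exact ⟨c, c, by rw [← hc]; group⟩
    · rintro ⟨a, b, rfl⟩
      rw [CfsgLib.CharBasic.isConj_iff_irr]
      intro χ
      exact (hconst a b χ).symm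
  have hvan : ∀ χ : IrrCharacter G, (χ : G → ℂ) 1 ≠ 1 → (χ : G → ℂ) (x * y) = 0 := by
    intro χ hχ
    have h1 := CfsgLib.ClassAlg.sum_conj_mul χ.2 x y
    have h2 : ∀ g : G, (χ : G → ℂ) (g * x * g⁻¹ * y) = (χ : G → ℂ) (x * y) := by
      intro g
      have := hconst g 1 χ
      simpa using this
    rw [Finset.sum_congr rfl fun g _ => h2 g, Finset.sum_const, Finset.card_univ, nsmul_eq_mul,
      ← Nat.card_eq_fintype_card] at h1
    have hG : (Nat.card G : ℂ) ≠ 0 := by exact_mod_cast Nat.card_pos.ne'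
    have h3 := mul_left_cancel₀ hG h1
    have hne := CfsgLib.CharInt.irr_one_ne_zero χ.2
    have h4 := h 1 1 χ
    simp only [one_mul, inv_one, mul_one] at h4
    rw [← h4] at h3
    have h5 : ((χ : G → ℂ) 1 - 1) * (χ : G → ℂ) (x * y) = 0 := by
      rw [sub_mul, one_mul]
      nth_rewrite 1 [h3]
      field_simp
      ring
    rcases mul_eq_zero.mp h5 with h6 | h6
    · exact absurd (sub_eq_zero.mp h6) hχ
    · exact h6
  refine ⟨hcl, hvan, ?_⟩
  -- linear characters have absolute value one
  have hcol := CfsgLib.CharBasic.column_orthogonality (x * y) (x * y)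
  rw [if_pos (IsConj.refl _)] at hcol
  have hsplit : ∑ χ : IrrCharacter G, (χ : G → ℂ) (x * y) * (starRingEnd ℂ) ((χ : G → ℂ) (x * y)) =
      ∑ χ : IrrCharacter G, if (χ : G → ℂ) 1 = 1 then (1 : ℂ) else 0 := by
    refine Finset.sum_congr rfl fun χ _ => ?_
    by_cases h1 : (χ : G → ℂ) 1 = 1
    · rw [if_pos h1]
      rw [← CfsgLib.CharBasic.char_inv_eq_conj (CfsgLib.CharBasic.irr_isCharacter χ.2),
        ← CfsgLib.CharBasic.linear_mul (CfsgLib.CharBasic.irr_isCharacter χ.2) h1]
      rw [mul_inv_cancel, h1]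
    · rw [if_neg h1, hvan χ h1, zero_mul]
  rw [hsplit, Finset.sum_boole, ← Fintype.card_subtype, ← Nat.card_eq_fintype_card,
    CfsgLib.CharBasic.card_linear] at hcol
  have hcent : (commutator G).index = Nat.card (Subgroup.centralizer ({x * y} : Set G)) := by exact_mod_cast hcol
  have hcard : Nat.card {z : G // IsConj (x * y) z} = Nat.card (commutator G) := by
    have h1 := CfsgLib.CharBasic.card_class_mul_card_centralizer (x * y)
    have h2 := Subgroup.card_mul_index (commutator G)
    rw [← hcent, ← h2] at h1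
    exact Nat.eq_of_mul_eq_mul_right (Nat.pos_of_ne_zero Subgroup.index_ne_zero_of_finite) h1
  have hsub : ∀ z : G, IsConj (x * y) z → (x * y)⁻¹ * z ∈ commutator G := by
    intro z hz
    obtain ⟨c, rfl⟩ := isConj_iff.mp hz
    have h9 := Subgroup.commutator_mem_commutator (Subgroup.mem_top (x * y)⁻¹) (Subgroup.mem_top c)
    rw [commutatorElement_def] at h9
    have h10 : (x * y)⁻¹ * (c * (x * y) * c⁻¹) = (x * y)⁻¹ * c * (x * y)⁻¹⁻¹ * c⁻¹ := by group
    rw [h10]
    exact h9
  -- injective map between finite sets of the same size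
  let f : {z : G // IsConj (x * y) z} → commutator G := fun z => ⟨(x * y)⁻¹ * z.1, hsub z.1 z.2⟩
  have hinj : Function.Injective f := by
    intro a b hab
    have := congrArg Subtype.val hab
    simp only [f] at this
    exact Subtype.ext (mul_left_cancel this)
  have hbij : Function.Bijective f := (Nat.bijective_iff_injective_and_card f).mpr ⟨hinj, hcard⟩
  intro z
  refine ⟨hsub z, fun hz => ?_⟩
  obtain ⟨w, hw⟩ := hbij.2 ⟨(x * y)⁻¹ * z, hz⟩
  have := congrArg Subtype.val hw
  simp only [f] at this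
  have h7 : w.1 = z := mul_left_cancel this
  rw [← h7]; exact w.2

end Cfsg.Agent.S4755
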