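import Cfsg.Statements.S4756
import Cfsg.Agent.LibMco4

set_option autoImplicit false
open Cfsg

namespace Cfsg.Agent.S4756

/-- For a finite group G the following are equivalent. (1) χ(x y) = χ(x) χ(y) for every irreducible character χ and all non-identity elements x, y of prime power orders for two different primes. (2) G is a p-group for some prime p, or G is abelian, or for some prime p: G = A P with P a normal Sylow p-subgroup and A a nontrivial cyclic subgroup of order prime to p such that, with C = C_P(A) and D = [A, P], one has P = C D, C abelian, D normal in G, C ∩ D = 1, and A acts fixed-point-freely on D (no non-identity element of A centralizes a non-identity element of D). -/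
theorem result {G : Type*} [Group G] [Finite G] : (∀ (x y : G) (χ : Cfsg.IrrCharacter G), x ≠ 1 → y ≠ 1 → (∃ p q a b : ℕ, p.Prime ∧ q.Prime ∧ p ≠ q ∧ orderOf x = p ^ a ∧ orderOf y = q ^ b) → (χ : G → ℂ) (x * y) = (χ : G → ℂ) x * (χ : G → ℂ) y) ↔ ((∃ p : ℕ, p.Prime ∧ IsPGroup p G) ∨ IsMulCommutative G ∨ ∃ (p : ℕ) (_ : Fact p.Prime) (P : Sylow p G) (A : Subgroup G), (P : Subgroup G).Normal ∧ IsCyclic ↥A ∧ A ≠ ⊥ ∧ (Nat.card ↥A).Coprime p ∧ A ⊔ (P : Subgroup G) = ⊤ ∧ IsMulCommutative ↥((P : Subgroup G) ⊓ Subgroup.centralizer (A : Set G)) ∧ (⁅A, (P : Subgroup G)⁆).Normal ∧ ((P : Subgroup G) ⊓ Subgroup.centralizer (A : Set G)) ⊔ ⁅A, (P : Subgroup G)⁆ = (P : Subgroup G) ∧ ((P : Subgroup G) ⊓ Subgroup.centralizer (A : Set G)) ⊓ ⁅A, (P : Subgroup G)⁆ = ⊥ ∧ ∀ a ∈ A, a ≠ 1 → ∀ d ∈ ⁅A, (P : Subgroup G)⁆, a * d = d * a → d = 1) := by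
  classical
  haveI : Fintype G := Fintype.ofFinite G
  constructor
  · intro h
    by_cases hp : ∃ p : ℕ, p.Prime ∧ IsPGroup p G
    · exact Or.inl hp
    by_cases hc : ∀ a b : G, a * b = b * a
    · exact Or.inr (Or.inl ⟨⟨fun a b => hc a b⟩⟩)
    exact Or.inr (Or.inr (CfsgLib.Mco.forward h hc hp))
  · rintro (⟨p, hp, hG⟩ | hc | ⟨p, hpf, P, A, hPn, hAcyc, hA1, hAcop, hsup, hCcomm, hDn, hCD, hCDbot, hfix⟩)
    · rintro x y χ hx hy ⟨p₁, q₁, a, b, hp₁, hq₁, hne, hxo, hyo⟩
      have hord : ∀ z : G, z ≠ 1 → ∀ r c : ℕ, r.Prime → orderOf z = r ^ c → r = p := by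
        intro z hz1 r c hr hzo
        haveI : Fact p.Prime := ⟨hp⟩
        obtain ⟨k, hk⟩ := IsPGroup.iff_orderOf.1 hG z
        rw [hzo] at hk
        have hc0 : c ≠ 0 := by
          rintro rfl
          rw [pow_zero] at hzo
          exact hz1 (orderOf_eq_one_iff.1 hzo)
        have h1 : r ∣ p ^ k := by rw [← hk]; exact dvd_pow_self r hc0
        exact (Nat.prime_dvd_prime_iff_eq hr hp).1 (hr.dvd_of_dvd_pow h1)
      exact absurd ((hord x hx _ _ hp₁ hxo).trans (hord y hy _ _ hq₁ hyo).symm) hne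
    · have hcm : ∀ a b : G, a * b = b * a := fun a b => hc.is_comm.comm a b
      intro x y χ _ _ _
      exact CfsgLib.CharBasic.linear_mul (CfsgLib.CharBasic.irr_isCharacter χ.2) (CfsgLib.Mco.lin_of_comm hcm χ) x y
    · haveI := hpf
      have hAcomm : ∀ a ∈ A, ∀ b ∈ A, a * b = b * a := by
        intro a ha b hb
        haveI := hAcyc
        letI : CommGroup A := IsCyclic.commGroup
        have h1 : (⟨a, ha⟩ : A) * ⟨b, hb⟩ = ⟨b, hb⟩ * ⟨a, ha⟩ := mul_comm _ _
        exact congrArg Subtype.val h1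
      have hCc : ∀ a ∈ (P : Subgroup G) ⊓ Subgroup.centralizer (A : Set G),
          ∀ b ∈ (P : Subgroup G) ⊓ Subgroup.centralizer (A : Set G), a * b = b * a := by
        intro a ha b hb
        exact congrArg Subtype.val (hCcomm.is_comm.comm ⟨a, ha⟩ ⟨b, hb⟩)
      exact CfsgLib.Mco.backward P hPn hAcomm hAcop hsup rfl hCc hDn hCD hCDbot hfix

end Cfsg.Agent.S4756
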