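import Cfsg.Statements.S4757
import Cfsg.Agent.LibClassAlg2
import Cfsg.Agent.LibCores
import Mathlib

set_option autoImplicit false
open Cfsg

namespace Cfsg.Agent.S4757


/-- Let u ≠ 1 be an element of the finite group G and c a complex number such that every non-principal irreducible character χ satisfies χ(1) − χ(u) = c or χ(u) = 0. Then the following are equivalent: (a) u has order 2, G is generated by u together with O(G), the largest normal subgroup of G of odd order, and the centralizer of u is {1, u}; (b) G is not perfect; (c) c = 2. -/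
theorem result {G : Type*} [Group G] [Finite G] (u : G) (hu : u ≠ 1) (c : ℂ) (hyp : ∀ χ : Cfsg.IrrCharacter G, (χ : G → ℂ) ≠ (fun _ => (1 : ℂ)) → ((χ : G → ℂ) 1 - (χ : G → ℂ) u = c ∨ (χ : G → ℂ) u = 0)) : ((orderOf u = 2 ∧ Subgroup.zpowers u ⊔ Cfsg.oddCore G = ⊤ ∧ Subgroup.centralizer ({u} : Set G) = Subgroup.zpowers u) ↔ commutator G ≠ ⊤) ∧ (commutator G ≠ ⊤ ↔ c = 2) := by
  classical
  haveI := Fintype.ofFinite G
  -- degrees
  have hdeg : ∀ χ : IrrCharacter G, ∃ n : ℕ, 0 < n ∧ (χ : G → ℂ) 1 = n := fun χ => CfsgLib.CharBasic.irr_one_nat χ.2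
  choose d hd0 hd using hdeg
  let triv : IrrCharacter G := ⟨fun _ => 1, CfsgLib.CharBasic.isIrrCharacter_one⟩
  have hsum := CfsgLib.CharBasic.sum_degree_mul u hu
  -- not perfect gives a nontrivial linear character
  have hlin_of : commutator G ≠ ⊤ → ∃ χ : IrrCharacter G, (χ : G → ℂ) 1 = 1 ∧ χ ≠ triv := by
    intro hne
    by_contra hcon
    push Not at hcon
    apply hne
    have h1 := CfsgLib.CharBasic.card_linear (G := G)
    have h2 : Nat.card {χ : IrrCharacter G // (χ : G → ℂ) 1 = 1} = 1 := by
      rw [Nat.card_eq_one_iff_unique]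
      exact ⟨⟨fun a b => Subtype.ext ((hcon a.1 a.2).trans (hcon b.1 b.2).symm)⟩, ⟨⟨triv, rfl⟩⟩⟩
    rw [h2] at h1
    exact Subgroup.index_eq_one.mp h1.symm
  have hperf_of : (∃ χ : IrrCharacter G, (χ : G → ℂ) 1 = 1 ∧ χ ≠ triv) → commutator G ≠ ⊤ := by
    rintro ⟨χ, h1, hne⟩ htop
    have h3 := CfsgLib.CharBasic.card_linear (G := G)
    rw [htop, Subgroup.index_top, Nat.card_eq_one_iff_unique] at h3
    have := @Subsingleton.elim _ h3.1 (⟨χ, h1⟩ : {χ : IrrCharacter G // (χ : G → ℂ) 1 = 1}) ⟨triv, rfl⟩
    exact hne (congrArg Subtype.val this)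
  have hlinval : ∀ χ : IrrCharacter G, (χ : G → ℂ) 1 = 1 → (χ : G → ℂ) u ≠ 0 := by
    intro χ h1 h0
    have := CfsgLib.CharBasic.linear_mul (CfsgLib.CharBasic.irr_isCharacter χ.2) h1 u u⁻¹
    rw [mul_inv_cancel, h1, h0, zero_mul] at this
    exact one_ne_zero this
  have hnetriv : ∀ χ : IrrCharacter G, χ ≠ triv → (χ : G → ℂ) ≠ fun _ => (1 : ℂ) :=
    fun χ h h' => h (Subtype.ext h')
  -- (b) -> (c)
  have hbc : commutator G ≠ ⊤ → c = 2 := by
    intro hb
    obtain ⟨χ, h1, hne⟩ := hlin_of hb
    have h2 : (χ : G → ℂ) 1 - (χ : G → ℂ) u = c := (hyp χ (hnetriv χ hne)).resolve_right (hlinval χ h1)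
    have hchar := CfsgLib.CharBasic.irr_isCharacter χ.2
    -- conj
    let χ' : IrrCharacter G := ⟨fun g => (starRingEnd ℂ) ((χ : G → ℂ) g), CfsgLib.CharBasic.isIrrCharacter_conj χ.2⟩
    have h1' : (χ' : G → ℂ) 1 = 1 := by
      show (starRingEnd ℂ) ((χ : G → ℂ) 1) = 1
      rw [h1, map_one]
    have hne' : χ' ≠ triv := by
      intro h
      apply hne
      apply Subtype.ext
      ext g
      have h3 := congrFun (congrArg Subtype.val h) g
      have h4 : (starRingEnd ℂ) ((χ : G → ℂ) g) = 1 := h3
      have := congrArg (starRingEnd ℂ) h4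
      simpa using this
    have h2' : (χ' : G → ℂ) 1 - (χ' : G → ℂ) u = c := (hyp χ' (hnetriv χ' hne')).resolve_right (hlinval χ' h1')
    have hreal : (starRingEnd ℂ) ((χ : G → ℂ) u) = (χ : G → ℂ) u := by
      have h3 : (χ' : G → ℂ) u = (χ : G → ℂ) u := by
        have := h2'.trans h2.symm
        rw [h1, h1'] at this
        linear_combination -this
      exact h3
    have hinv : (χ : G → ℂ) u * (χ : G → ℂ) u = 1 := by
      have h3 := CfsgLib.CharBasic.linear_mul hchar h1 u u⁻¹
      rw [mul_inv_cancel, h1, CfsgLib.CharBasic.char_inv_eq_conj hchar, hreal] at h3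
      exact h3.symm
    have h5 : (χ : G → ℂ) u = 1 ∨ (χ : G → ℂ) u = -1 := by
      have : ((χ : G → ℂ) u - 1) * ((χ : G → ℂ) u + 1) = 0 := by linear_combination hinv
      rcases mul_eq_zero.mp this with h | h
      · left; linear_combination h
      · right; linear_combination h
    rcases h5 with h5 | h5
    · exfalso
      rw [h1, h5, sub_self] at h2
      -- c = 0 : every term of the sum is nonneg, trivial one is 1
      have hre : ∀ ψ : IrrCharacter G, 0 ≤ ((ψ : G → ℂ) 1 * (ψ : G → ℂ) u).re := by
        intro ψ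
        by_cases hψ : ψ = triv
        · rw [hψ]; simp [triv]
        · rcases hyp ψ (hnetriv ψ hψ) with h6 | h6
          · rw [← h2, sub_eq_zero] at h6
            rw [← h6, hd, ← Nat.cast_mul, Complex.natCast_re]
            positivity
          · rw [h6]; simp
      have hre0 := congrArg Complex.re hsum
      rw [Complex.re_sum, Complex.zero_re] at hre0
      have h7 := (Finset.sum_eq_zero_iff_of_nonneg (fun ψ _ => hre ψ)).mp hre0 triv (Finset.mem_univ _)
      simp [triv] at h7
    · rw [h1, h5] at h2
      rw [← h2]; norm_num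
  -- key sum identity when c = 2
  have hkey : c = 2 → (∃ χ : IrrCharacter G, (χ : G → ℂ) 1 = 1 ∧ χ ≠ triv) := by
    intro hc
    by_contra hcon
    push Not at hcon
    have hre : ∀ ψ : IrrCharacter G, 0 ≤ ((ψ : G → ℂ) 1 * (ψ : G → ℂ) u).re := by
      intro ψ
      by_cases hψ : ψ = triv
      · rw [hψ]; simp [triv]
      · rcases hyp ψ (hnetriv ψ hψ) with h6 | h6
        · have h8 : (ψ : G → ℂ) u = (d ψ : ℂ) - 2 := by rw [← hd, ← hc, ← h6]; ring
          have h9 : 2 ≤ d ψ := by
            have := hd0 ψ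
            rcases Nat.lt_or_ge (d ψ) 2 with h | h
            · exfalso
              have h10 : d ψ = 1 := by omega
              exact hψ (hcon ψ (by rw [hd, h10]; simp))
            · exact h
          rw [h8, hd]
          have h11 : ((d ψ : ℂ) * ((d ψ : ℂ) - 2)) = ((d ψ * (d ψ - 2) : ℕ) : ℂ) := by
            push_cast [Nat.cast_sub h9]; ring
          rw [h11, Complex.natCast_re]
          positivity
        · rw [h6]; simp
    have hre0 := congrArg Complex.re hsum
    rw [Complex.re_sum, Complex.zero_re] at hre0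
    have h7 := (Finset.sum_eq_zero_iff_of_nonneg (fun ψ _ => hre ψ)).mp hre0 triv (Finset.mem_univ _)
    simp [triv] at h7
  have hcb : c = 2 → commutator G ≠ ⊤ := fun h => hperf_of (hkey h)
  refine ⟨⟨?_, ?_⟩, hbc, hcb⟩
  · -- (a) -> (b)
    rintro ⟨hu2, hgen, hcent⟩ htop
    -- G / O(G) is cyclic generated by u, so abelian
    have hon : (oddCore G).Normal := inferInstance
    have hodd : Nat.Coprime (Nat.card (oddCore G)) 2 := by
      exact CfsgLib.Cores.pPrimeCore_coprime 2
    have hcomm_le : commutator G ≤ oddCore G := by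
      have : IsMulCommutative (G ⧸ oddCore G) := by
        have hcyc : ∀ q : G ⧸ oddCore G, ∃ k : ℤ, q = (QuotientGroup.mk u : G ⧸ oddCore G) ^ k := by
          intro q
          obtain ⟨g, rfl⟩ := QuotientGroup.mk_surjective q
          have hg : g ∈ Subgroup.zpowers u ⊔ oddCore G := by rw [hgen]; trivial
          rw [Subgroup.mem_sup_of_normal_right] at hg
          obtain ⟨a, ha, b, hb, rfl⟩ := hg
          obtain ⟨k, rfl⟩ := Subgroup.mem_zpowers_iff.mp ha
          refine ⟨k, ?_⟩
          rw [QuotientGroup.mk_mul, (QuotientGroup.eq_one_iff b).mpr hb, mul_one]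
          rfl
        refine ⟨⟨fun a b => ?_⟩⟩
        obtain ⟨i, rfl⟩ := hcyc a
        obtain ⟨j, rfl⟩ := hcyc b
        rw [← zpow_add, ← zpow_add, add_comm]
      rw [← QuotientGroup.ker_mk' (oddCore G)]
      rw [commutator_def, Subgroup.commutator_le]
      intro a _ b _
      rw [MonoidHom.mem_ker, map_commutatorElement, commutatorElement_eq_one_iff_mul_comm]
      exact this.is_comm.comm _ _
    rw [htop, top_le_iff] at hcomm_le
    have h1 : Nat.card (oddCore G) = Nat.card G := by rw [hcomm_le]; exact Subgroup.card_top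
    rw [h1] at hodd
    have h2 : 2 ∣ Nat.card G := hu2 ▸ orderOf_dvd_natCard u
    have := Nat.Coprime.eq_one_of_dvd hodd.symm h2
    omega
  · intro hb
    have hc := hbc hb
    obtain ⟨lam, hlam1, hlamne⟩ := hlin_of hb
    -- every nontrivial linear character has value -1
    have hlamval : ∀ χ : IrrCharacter G, (χ : G → ℂ) 1 = 1 → χ ≠ triv → (χ : G → ℂ) u = -1 := by
      intro χ h1 hne
      have h2 : (χ : G → ℂ) 1 - (χ : G → ℂ) u = c := (hyp χ (hnetriv χ hne)).resolve_right (hlinval χ h1)
      rw [h1, hc] at h2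
      linear_combination -h2
    -- uniqueness of the nontrivial linear character
    have huniq : ∀ χ : IrrCharacter G, (χ : G → ℂ) 1 = 1 → χ ≠ triv → χ = lam := by
      intro χ h1 hne
      by_contra hneq
      -- χ * conj lam is linear nontrivial with value 1
      have hprod : IsCharacter G ((χ : G → ℂ) * fun g => (starRingEnd ℂ) ((lam : G → ℂ) g)) :=
        CfsgLib.CharBasic.isCharacter_mul (CfsgLib.CharBasic.irr_isCharacter χ.2)
          (CfsgLib.CharBasic.isCharacter_conj (CfsgLib.CharBasic.irr_isCharacter lam.2))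
      have hprod1 : ((χ : G → ℂ) * fun g => (starRingEnd ℂ) ((lam : G → ℂ) g)) 1 = 1 := by
        simp [h1, hlam1]
      let ψ : IrrCharacter G := ⟨_, CfsgLib.CharBasic.irr_of_degree_one hprod hprod1⟩
      have hψne : ψ ≠ triv := by
        intro h
        apply hneq
        apply Subtype.ext
        ext g
        have h3 := congrFun (congrArg Subtype.val h) g
        have h4 : (χ : G → ℂ) g * (starRingEnd ℂ) ((lam : G → ℂ) g) = 1 := h3
        have h5 := CfsgLib.CharBasic.linear_mul (CfsgLib.CharBasic.irr_isCharacter lam.2) hlam1 g⁻¹ g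
        rw [inv_mul_cancel, hlam1, CfsgLib.CharBasic.char_inv_eq_conj (CfsgLib.CharBasic.irr_isCharacter lam.2)] at h5
        calc (χ : G → ℂ) g = (χ : G → ℂ) g * ((starRingEnd ℂ) ((lam : G → ℂ) g) * (lam : G → ℂ) g) := by rw [← h5, mul_one]
          _ = (lam : G → ℂ) g := by rw [← mul_assoc, h4, one_mul]
      have h6 := hlamval ψ hprod1 hψne
      have h7 : (χ : G → ℂ) u * (starRingEnd ℂ) ((lam : G → ℂ) u) = -1 := h6
      rw [hlamval χ h1 hne, hlamval lam hlam1 hlamne] at h7
      norm_num at h7
    -- evaluate the sum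
    have hterm : ∀ ψ : IrrCharacter G, ψ ≠ triv → ψ ≠ lam → (ψ : G → ℂ) u = 0 ∧ 0 ≤ ((ψ : G → ℂ) 1 * (ψ : G → ℂ) u).re := by
      have hterm0 : ∀ ψ : IrrCharacter G, ψ ≠ triv → ψ ≠ lam → 0 ≤ ((ψ : G → ℂ) 1 * (ψ : G → ℂ) u).re := by
        intro ψ h1 h2
        rcases hyp ψ (hnetriv ψ h1) with h6 | h6
        · have h8 : (ψ : G → ℂ) u = (d ψ : ℂ) - 2 := by rw [← hd, ← hc, ← h6]; ring
          have h9 : 2 ≤ d ψ := by
            have := hd0 ψ
            rcases Nat.lt_or_ge (d ψ) 2 with h | h
            · exfalso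
              have h10 : d ψ = 1 := by omega
              exact h2 (huniq ψ (by rw [hd, h10]; simp) h1)
            · exact h
          rw [h8, hd]
          have h11 : ((d ψ : ℂ) * ((d ψ : ℂ) - 2)) = ((d ψ * (d ψ - 2) : ℕ) : ℂ) := by
            push_cast [Nat.cast_sub h9]; ring
          rw [h11, Complex.natCast_re]
          positivity
        · rw [h6]; simp
      intro ψ h1 h2
      refine ⟨?_, hterm0 ψ h1 h2⟩
      -- the total over the others is zero
      have htl : triv ≠ lam := hlamne.symm
      have hre0 := congrArg Complex.re hsum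
      rw [Complex.re_sum, Complex.zero_re, ← Finset.add_sum_erase _ _ (Finset.mem_univ triv),
        ← Finset.add_sum_erase _ _ (show lam ∈ Finset.univ.erase triv by simp [hlamne])] at hre0
      have ht : ((triv : G → ℂ) 1 * (triv : G → ℂ) u).re = 1 := by simp [triv]
      have hl : ((lam : G → ℂ) 1 * (lam : G → ℂ) u).re = -1 := by
        rw [hlam1, hlamval lam hlam1 hlamne]; simp
      rw [ht, hl] at hre0
      have hz : ∑ x ∈ (Finset.univ.erase triv).erase lam, ((x : G → ℂ) 1 * (x : G → ℂ) u).re = 0 := by linarith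
      have h7 := (Finset.sum_eq_zero_iff_of_nonneg (fun x hx => by
        simp only [Finset.mem_erase, Finset.mem_univ, and_true] at hx
        exact hterm0 x hx.2 hx.1)).mp hz ψ (by simp [h1, h2])
      rcases hyp ψ (hnetriv ψ h1) with h6 | h6
      · have h8 : (ψ : G → ℂ) u = (d ψ : ℂ) - 2 := by rw [← hd, ← hc, ← h6]; ring
        rw [h8, hd] at h7
        have h9 : ((d ψ : ℂ) * ((d ψ : ℂ) - 2)) = (((d ψ : ℝ) * ((d ψ : ℝ) - 2) : ℝ) : ℂ) := by push_cast; ring
        rw [h9, Complex.ofReal_re] at h7
        have h10 : (d ψ : ℝ) ≠ 0 := by exact_mod_cast (hd0 ψ).ne'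
        have h11 : (d ψ : ℝ) - 2 = 0 := (mul_eq_zero.mp h7).resolve_left h10
        rw [h8]
        exact_mod_cast h11
      · exact h6
    -- centralizer order
    have hcol := CfsgLib.CharBasic.column_orthogonality u u
    rw [if_pos (IsConj.refl _), ← Finset.add_sum_erase _ _ (Finset.mem_univ triv),
        ← Finset.add_sum_erase _ _ (show lam ∈ Finset.univ.erase triv by simp [hlamne])] at hcol
    have hrest : ∑ x ∈ (Finset.univ.erase triv).erase lam, (x : G → ℂ) u * (starRingEnd ℂ) ((x : G → ℂ) u) = 0 := by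
      apply Finset.sum_eq_zero
      intro x hx
      simp only [Finset.mem_erase, Finset.mem_univ, and_true] at hx
      rw [(hterm x hx.2 hx.1).1, zero_mul]
    rw [hrest, hlamval lam hlam1 hlamne] at hcol
    have hC2 : Nat.card (Subgroup.centralizer ({u} : Set G)) = 2 := by
      have : ((2 : ℕ) : ℂ) = (Nat.card (Subgroup.centralizer ({u} : Set G)) : ℂ) := by
        rw [← hcol]; simp [triv]; norm_num
      exact_mod_cast this.symm
    have huC : u ∈ Subgroup.centralizer ({u} : Set G) := by
      rw [Subgroup.mem_centralizer_iff]; intro w hw; rw [Set.mem_singleton_iff] at hw; rw [hw]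
    have hu2 : orderOf u = 2 := by
      have h1 : orderOf (⟨u, huC⟩ : Subgroup.centralizer ({u} : Set G)) ∣ 2 := hC2 ▸ orderOf_dvd_natCard _
      rw [Subgroup.orderOf_mk] at h1
      rcases (Nat.dvd_prime Nat.prime_two).mp h1 with h | h
      · exact absurd (orderOf_eq_one_iff.mp h) hu
      · exact h
    have hCz : Subgroup.centralizer ({u} : Set G) = Subgroup.zpowers u := by
      symm
      apply Subgroup.eq_of_le_of_card_ge
      · rw [Subgroup.zpowers_le]; exact huC
      · rw [hC2, Nat.card_zpowers, hu2]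
    refine ⟨hu2, ?_, hCz⟩
    haveI : Fact (Nat.Prime 2) := ⟨Nat.prime_two⟩
    have hU2 : IsPGroup 2 (Subgroup.zpowers u) := by
      apply IsPGroup.of_card (n := 1)
      rw [Nat.card_zpowers, hu2, pow_one]
    obtain ⟨P, hP⟩ := hU2.exists_le_sylow
    have huP : u ∈ (P : Subgroup G) := hP (Subgroup.mem_zpowers u)
    have hPeq : (P : Subgroup G) = Subgroup.zpowers u := by
      haveI : Nontrivial (P : Subgroup G) := ⟨⟨⟨u, huP⟩, 1, fun h => hu (congrArg Subtype.val h)⟩⟩
      haveI := P.isPGroup'.center_nontrivial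
      obtain ⟨z, hz⟩ := exists_ne (1 : Subgroup.center (P : Subgroup G))
      have hzc : ((z : (P : Subgroup G)) : G) ∈ Subgroup.centralizer ({u} : Set G) := by
        rw [Subgroup.mem_centralizer_iff]
        intro w hw
        rw [Set.mem_singleton_iff] at hw
        subst hw
        have := Subgroup.mem_center_iff.mp z.2 ⟨w, huP⟩
        exact congrArg Subtype.val this
      rw [hCz] at hzc
      have hzu : ((z : (P : Subgroup G)) : G) = u := by
        obtain ⟨k, hk⟩ := Subgroup.mem_zpowers_iff.mp hzc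
        rcases Int.even_or_odd' k with ⟨m, hm | hm⟩
        · exfalso
          rw [hm, zpow_mul] at hk
          have h2 : u ^ (2 : ℤ) = 1 := by
            have := pow_orderOf_eq_one u
            rw [hu2] at this
            exact_mod_cast this
          rw [h2, one_zpow] at hk
          apply hz
          apply Subtype.ext
          apply Subtype.ext
          exact hk.symm
        · rw [hm, zpow_add, zpow_mul] at hk
          have h2 : u ^ (2 : ℤ) = 1 := by
            have := pow_orderOf_eq_one u
            rw [hu2] at this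
            exact_mod_cast this
          rw [h2, one_zpow, one_mul, zpow_one] at hk
          exact hk.symm
      apply le_antisymm _ hP
      intro w hw
      rw [← hCz, Subgroup.mem_centralizer_iff]
      intro v hv
      rw [Set.mem_singleton_iff] at hv
      subst hv
      have h3 := Subgroup.mem_center_iff.mp z.2 ⟨w, hw⟩
      have h4 := congrArg Subtype.val h3
      simp only [Subgroup.coe_mul, hzu] at h4
      exact h4.symm
    have hcyc : IsCyclic (P : Subgroup G) := by rw [hPeq]; infer_instance
    have h2G : 2 ∣ Nat.card G := hu2 ▸ orderOf_dvd_natCard u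
    have hmin : (Nat.card G).minFac = 2 := (Nat.minFac_eq_two_iff _).mpr h2G
    have hcompl := IsCyclic.isComplement' hmin hcyc
    have hnd := MonoidHom.not_dvd_card_ker_transferSylow P (hcyc.normalizer_le_centralizer hmin)
    set N := (MonoidHom.transferSylow P (hcyc.normalizer_le_centralizer hmin)).ker with hN
    have hNle : N ≤ oddCore G := by
      apply CfsgLib.Cores.le_pPrimeCore
      · exact MonoidHom.normal_ker _
      · exact ((Nat.Prime.coprime_iff_not_dvd Nat.prime_two).mpr hnd).symm
    have hsup := hcompl.sup_eq_top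
    rw [eq_top_iff, ← hsup, hPeq, sup_comm]
    exact sup_le_sup_left hNle _

end Cfsg.Agent.S4757
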