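import Cfsg.Statements.S4784
import Cfsg.Agent.LibCon19
import Cfsg.Agent.LibQuot19
import Cfsg.Agent.LibFS

set_option autoImplicit false
open Cfsg

namespace Cfsg.Agent.S4784

open CfsgLib.CharBasic CfsgLib.CharIndA CfsgLib.Con19 CfsgLib.FS

theorem real_one {G : Type*} [Group G] [Fintype G] (H : Subgroup G) (hodd : Odd H.normalCore.index)
    (χ : IrrCharacter G) (h1 : classInner (indFun H (fun _ : H => (1 : ℂ))) (χ : G → ℂ) ≠ 0)
    (h3 : (Nat.card G : ℂ)⁻¹ * ∑ g : G, (χ : G → ℂ) (g * g) = 1) :
    (χ : G → ℂ) = fun _ => 1 := by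
  classical
  by_contra hne
  haveI : Fintype H := Fintype.ofFinite _
  haveI : Fintype (G ⧸ H.normalCore) := Fintype.ofFinite _
  have hker : ∀ n ∈ H.normalCore, (χ : G → ℂ) n = (χ : G → ℂ) 1 := by
    by_contra hk
    apply h1
    rw [CfsgLib.CharIndA.frobenius _ _ (irr_classFun χ.2), ← CfsgLib.CharBasic.inner_conj_symm, inner_one_right]
    have h4 : ∑ h : H, (χ : G → ℂ) h = 0 := by
      have h5 := fun y : H => CfsgLib.Quot19.sum_coset_zero H.normalCore χ.2 hk (y : G)
      haveI : Fintype H.normalCore := Fintype.ofFinite _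
      have h6 : ∑ y : H, ∑ n : H.normalCore, (χ : G → ℂ) (n * y) = 0 := by
        apply Finset.sum_eq_zero
        intro y _
        rw [← finsum_eq_sum_of_fintype]; exact h5 y
      rw [Finset.sum_comm] at h6
      have h7 : ∀ n : H.normalCore, ∑ y : H, (χ : G → ℂ) (n * y) = ∑ h : H, (χ : G → ℂ) h := by
        intro n
        exact Fintype.sum_equiv (Equiv.mulLeft (⟨n, H.normalCore_le n.2⟩ : H)) _ _ fun y => rfl
      rw [Finset.sum_congr rfl fun n _ => h7 n, Finset.sum_const, nsmul_eq_mul] at h6
      rcases mul_eq_zero.1 h6 with h | h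
      · exfalso
        rw [Nat.cast_eq_zero, Finset.card_univ] at h
        exact Fintype.card_ne_zero h
      · exact h
    rw [h4]; simp
  obtain ⟨χ', hχ', hc⟩ := CfsgLib.Quot19.irr_deflate H.normalCore χ.2 hker
  have h8 : ∑ g : G, (χ : G → ℂ) (g * g) = ∑ g : G, (χ : G → ℂ) g := by
    have e1 : ∑ g : G, (χ : G → ℂ) (g * g) = ∑ g : G, (fun q : G ⧸ H.normalCore => χ' (q * q)) g :=
      Finset.sum_congr rfl fun g _ => by rw [← hc]; rfl
    have e2 : ∑ g : G, (χ : G → ℂ) g = ∑ g : G, (fun q : G ⧸ H.normalCore => χ' q) g :=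
      Finset.sum_congr rfl fun g _ => by rw [← hc]
    rw [e1, e2, CfsgLib.Quot19.sum_quot H.normalCore (fun q => χ' (q * q)),
      CfsgLib.Quot19.sum_quot H.normalCore (fun q => χ' q)]
    congr 1
    have hcop : (Nat.card (G ⧸ H.normalCore)).Coprime 2 := by
      rw [← Subgroup.index_eq_card]; exact Nat.coprime_two_right.2 hodd
    refine Fintype.sum_equiv (powCoprime hcop) _ _ fun q => ?_
    rw [powCoprime_apply, sq]
  have h9 := irr_inner_ne χ.2 isIrrCharacter_one hne
  rw [inner_one_right, ← h8, h3] at h9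
  exact one_ne_zero h9

/-- Let H be a subgroup of the finite group G and consider the permutation character of G on the cosets of H (the function induced from the principal character of H). Then exactly one irreducible constituent of it is real-valued with Frobenius–Schur indicator +1 (namely the principal character) if and only if the normal core of H has odd index in G. -/
theorem result {G : Type*} [Group G] [Fintype G] (H : Subgroup G) : Nat.card {χ : Cfsg.IrrCharacter G // Cfsg.classInner (Cfsg.indFun H (fun _ : H => (1 : ℂ))) (χ : G → ℂ) ≠ 0 ∧ (∀ g : G, (starRingEnd ℂ) ((χ : G → ℂ) g) = (χ : G → ℂ) g) ∧ (Nat.card G : ℂ)⁻¹ * ∑ g : G, (χ : G → ℂ) (g * g) = 1} = 1 ↔ Odd H.normalCore.index := by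
  classical
  haveI : Fintype H := Fintype.ofFinite _
  have hH : (Nat.card H : ℂ) ≠ 0 := by exact_mod_cast Nat.card_pos.ne'
  have hG : (Nat.card G : ℂ) ≠ 0 := by exact_mod_cast Nat.card_pos.ne'
  have hone : classInner (indFun H (fun _ : H => (1 : ℂ))) (fun _ : G => (1 : ℂ)) ≠ 0 := by
    rw [CfsgLib.CharIndA.frobenius _ _ (irr_classFun isIrrCharacter_one)]
    have := irr_inner_self (isIrrCharacter_one (G := H))
    rw [this]; exact one_ne_zero
  have hone' : (Nat.card G : ℂ)⁻¹ * ∑ g : G, (fun _ : G => (1 : ℂ)) (g * g) = 1 := by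
    simp [← Nat.card_eq_fintype_card, hG]
  let e : {χ : IrrCharacter G // classInner (indFun H (fun _ : H => (1 : ℂ))) (χ : G → ℂ) ≠ 0 ∧ (∀ g : G, (starRingEnd ℂ) ((χ : G → ℂ) g) = (χ : G → ℂ) g) ∧ (Nat.card G : ℂ)⁻¹ * ∑ g : G, (χ : G → ℂ) (g * g) = 1} :=
    ⟨⟨fun _ => 1, isIrrCharacter_one⟩, hone, by simp, hone'⟩
  constructor
  · intro hcard
    rw [Nat.card_eq_one_iff_unique] at hcard
    have hsub := hcard.1
    -- the multiplicities
    obtain ⟨m, hm1, -, -⟩ := char_expand (isCharacter_ind H (irr_isCharacter (isIrrCharacter_one (G := H))))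
    have hms : ∀ χ : IrrCharacter G, ∑ h : H, (χ : G → ℂ) h = (Nat.card H : ℂ) * m χ := by
      intro χ
      have h1 := hm1 χ
      rw [CfsgLib.CharIndA.frobenius _ _ (irr_classFun χ.2), ← CfsgLib.CharBasic.inner_conj_symm, inner_one_right] at h1
      have h2 := congrArg (starRingEnd ℂ) h1
      rw [Complex.conj_conj, Complex.conj_natCast] at h2
      rw [← h2]; field_simp
    have hcount : ((∑ h : H, Nat.card {x : G // x * x = h} : ℕ) : ℂ) = (Nat.card H : ℂ) * ∑ χ : IrrCharacter G, fsInd (χ : G → ℂ) * m χ := by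
      push_cast
      have hsc : ∀ h : H, (Nat.card {x : G // x * x = h} : ℂ) =
        ∑ χ : IrrCharacter G, fsInd (χ : G → ℂ) * (χ : G → ℂ) h := fun h => sqrt_count (h : G)
      rw [Finset.sum_congr rfl fun h _ => hsc h, Finset.sum_comm, Finset.mul_sum]
      refine Finset.sum_congr rfl fun χ _ => ?_
      rw [← Finset.mul_sum, hms χ]; ring
    have hbound : (∑ χ : IrrCharacter G, fsInd (χ : G → ℂ) * m χ).re ≤ 1 := by
      rw [Complex.re_sum]
      rw [← Finset.add_sum_erase _ _ (Finset.mem_univ e.1)]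
      have h1 : (fsInd (e.1 : G → ℂ) * (m e.1 : ℂ)).re ≤ 1 := by
        have h2 : fsInd (e.1 : G → ℂ) = 1 := fsInd_one
        have h3 : (m e.1 : ℂ) = 1 := by
          rw [← hm1 e.1]
          rw [CfsgLib.CharIndA.frobenius _ _ (irr_classFun isIrrCharacter_one)]
          exact irr_inner_self (isIrrCharacter_one (G := H))
        rw [h2, h3]; simp
      have h4 : ∑ i ∈ Finset.univ.erase e.1, (fsInd (i : G → ℂ) * (m i : ℂ)).re ≤ 0 := by
        apply Finset.sum_nonpos
        intro χ hχ
        by_cases hm : m χ = 0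
        · rw [hm]; simp
        rcases fs_cases χ.2 with h | ⟨h | h, hr⟩
        · rw [h.1]; simp
        · exfalso
          have h5 : (⟨χ, by rw [hm1 χ]; exact_mod_cast hm, fun g => Complex.conj_eq_iff_im.2 (hr g),
            by rw [← fsInd_eq]; exact h⟩ : {χ : IrrCharacter G // classInner (indFun H (fun _ : H => (1 : ℂ))) (χ : G → ℂ) ≠ 0 ∧ (∀ g : G, (starRingEnd ℂ) ((χ : G → ℂ) g) = (χ : G → ℂ) g) ∧ (Nat.card G : ℂ)⁻¹ * ∑ g : G, (χ : G → ℂ) (g * g) = 1}) = e := hsub.elim _ _
          exact (Finset.mem_erase.1 hχ).1 (congrArg Subtype.val h5)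
        · rw [h]; simp
      linarith
    have hle : ∑ h : H, Nat.card {x : G // x * x = h} ≤ Nat.card H := by
      have h1 := congrArg Complex.re hcount
      rw [Complex.natCast_re, ← Complex.ofReal_natCast, Complex.re_ofReal_mul] at h1
      have h2 : ((∑ h : H, Nat.card {x : G // x * x = h} : ℕ) : ℝ) ≤ (Nat.card H : ℝ) := by
        rw [h1]
        calc (Nat.card H : ℝ) * _ ≤ (Nat.card H : ℝ) * 1 := by gcongr
          _ = _ := by ring
      exact_mod_cast h2
    -- squares in H come from H
    have hsq : ∀ g : G, g * g ∈ H → g ∈ H := by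
      intro g hg
      by_contra hgH
      have hcards : ∑ h : H, Nat.card {x : G // x * x = h} = Nat.card {x : G // x * x ∈ H} := by
        have : ∀ h : H, Nat.card {x : G // x * x = h} = (Finset.univ.filter fun x : G => x * x = h).card := by
          intro h; rw [Nat.card_eq_fintype_card, Fintype.card_subtype]
        rw [Finset.sum_congr rfl fun h _ => this h, Nat.card_eq_fintype_card, Fintype.card_subtype]
        have h1 := Finset.card_eq_sum_card_image (fun x : G => x * x) (Finset.univ.filter fun x : G => x * x ∈ H)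
        rw [← Finset.card_biUnion]
        · congr 1
          ext x
          simp
        · intro a _ b _ hab
          apply Finset.disjoint_left.2
          intro x hx hx'
          apply hab
          rw [Finset.mem_filter] at hx hx'
          exact Subtype.ext (hx.2.symm.trans hx'.2)
      rw [hcards] at hle
      have h1 : Nat.card H < Nat.card {x : G // x * x ∈ H} := by
        have h2 : Nat.card {x : G // x * x ∈ H} = Nat.card {x : G | x * x ∈ H} := rfl
        rw [h2]
        have h3 : (H : Set G) ⊂ {x : G | x * x ∈ H} := by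
          refine ⟨fun x hx => H.mul_mem hx hx, fun h => hgH (h hg)⟩
        exact Set.ncard_lt_ncard h3 (Set.toFinite _)
      omega
    rw [← Nat.not_even_iff_odd, even_iff_two_dvd, Subgroup.index_eq_card]
    intro h2
    haveI : Fact (Nat.Prime 2) := ⟨Nat.prime_two⟩
    obtain ⟨q, hq⟩ := exists_prime_orderOf_dvd_card' 2 h2
    obtain ⟨g, rfl⟩ := QuotientGroup.mk_surjective q
    have hg2 : g * g ∈ H.normalCore := by
      rw [← QuotientGroup.eq_one_iff, QuotientGroup.mk_mul, ← sq, ← hq, pow_orderOf_eq_one]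
    have hg : g ∉ H.normalCore := by
      rw [← QuotientGroup.eq_one_iff]
      intro h
      rw [h, orderOf_one] at hq
      norm_num at hq
    apply hg
    intro x
    apply hsq
    have := hg2 x
    have he : x * g * x⁻¹ * (x * g * x⁻¹) = x * (g * g) * x⁻¹ := by group
    rw [he]; exact this
  · intro hodd
    rw [Nat.card_eq_one_iff_unique]
    refine ⟨⟨fun a b => ?_⟩, ⟨e⟩⟩
    apply Subtype.ext
    apply Subtype.ext
    rw [real_one H hodd a.1 a.2.1 a.2.2.2, real_one H hodd b.1 b.2.1 b.2.2.2]

end Cfsg.Agent.S4784
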