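import Cfsg.Statements.S4796
import Cfsg.Agent.LibCodeg19
import Cfsg.Agent.LibFrob19

set_option autoImplicit false
open Cfsg

namespace Cfsg.Agent.S4796


/-- Let G be a finite group with a faithful irreducible complex character χ whose codegree #G / χ(1) is a prime p (for a faithful character the kernel is trivial, so the codegree is #G / χ(1)). Then either G is cyclic of order p, or G is a Frobenius group whose Frobenius kernel has order p: some proper non-trivial subgroup H satisfies H ∩ gHg⁻¹ = 1 for every element g outside H, and the set of elements lying in no conjugate of H, together with the identity, has exactly p elements. -/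
theorem result {G : Type*} [Group G] [Finite G] (χ : Cfsg.IrrCharacter G) (hfaith : ∀ g : G, (χ : G → ℂ) g = (χ : G → ℂ) 1 → g = 1) (p : ℕ) (hp : p.Prime) (hcod : Nat.card G = p * Cfsg.charDegree (χ : G → ℂ)) : (IsCyclic G ∧ Nat.card G = p) ∨ ∃ H : Subgroup G, Cfsg.IsFrobeniusComplement H ∧ Nat.card ↥(Cfsg.frobeniusKernel H) = p := by
  haveI : Fact p.Prime := ⟨hp⟩
  obtain ⟨P, hPn, hPc, hcop, hcent⟩ := CfsgLib.Codeg19.prime_codegree χ hfaith hcod
  obtain ⟨H, hH⟩ := Subgroup.exists_right_complement'_of_coprime hcop
  have hPne : P ≠ ⊥ := by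
    intro h
    rw [h, Subgroup.card_bot] at hPc
    exact hp.one_lt.ne hPc
  by_cases hHb : H = ⊥
  · left
    have hPt : P = ⊤ := by
      rw [hHb] at hH
      exact Subgroup.isComplement'_bot_right.1 hH
    have hc : Nat.card G = p := by rw [← hPc, hPt, Subgroup.card_top]
    exact ⟨isCyclic_of_prime_card hc, hc⟩
  · right
    obtain ⟨h1, h2⟩ := CfsgLib.Frob19.frob_of_centralizers P H hH hPne hHb hcent
    refine ⟨H, h1, ?_⟩
    rw [h2]; exact hPc

end Cfsg.Agent.S4796
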