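import Cfsg.Statements.S4797
import Cfsg.Agent.LibCodeg19

set_option autoImplicit false
open Cfsg

namespace Cfsg.Agent.S4797

open CfsgLib.CharBasic CfsgLib.Codeg19
open scoped commutatorElement

theorem not_perfect {Q : Type*} [Group Q] [Finite Q] {p : ℕ} [hp : Fact p.Prime] (P : Subgroup Q) [P.Normal]
    (hPc : Nat.card P = p) (hcent : ∀ z ∈ P, z ≠ 1 → ∀ x : Q, x * z = z * x → x ∈ P) : commutator Q ≠ ⊤ := by
  intro htop
  haveI : IsCyclic P := isCyclic_of_prime_card hPc
  obtain ⟨z, hz1⟩ : ∃ z : P, z ≠ 1 := by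
    haveI : Nontrivial P := by
      rw [← Finite.one_lt_card_iff_nontrivial, hPc]; exact hp.out.one_lt
    exact exists_ne 1
  have hz1' : (z : Q) ≠ 1 := fun h => hz1 (Subtype.ext h)
  -- commutators centralize P
  have hcomm : ∀ x y : Q, ⁅x, y⁆ ∈ P := by
    intro x y
    apply hcent z z.2 hz1'
    obtain ⟨a, ha⟩ := MonoidHom.map_cyclic (MulAut.conjNormal x : MulAut P).toMonoidHom
    obtain ⟨b, hb⟩ := MonoidHom.map_cyclic (MulAut.conjNormal y : MulAut P).toMonoidHom
    have ha' : ∀ w : P, x * w * x⁻¹ = ((w ^ a : P) : Q) := fun w => congrArg Subtype.val (ha w)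
    have hb' : ∀ w : P, y * w * y⁻¹ = ((w ^ b : P) : Q) := fun w => congrArg Subtype.val (hb w)
    have h1 : ∀ w : P, (x * y) * w * (x * y)⁻¹ = (y * x) * w * (y * x)⁻¹ := by
      intro w
      calc (x * y) * (w : Q) * (x * y)⁻¹ = x * (y * w * y⁻¹) * x⁻¹ := by group
        _ = x * ((w ^ b : P) : Q) * x⁻¹ := by rw [hb']
        _ = (((w ^ b) ^ a : P) : Q) := ha' _
        _ = (((w ^ a) ^ b : P) : Q) := by rw [← zpow_mul, ← zpow_mul, mul_comm]
        _ = y * ((w ^ a : P) : Q) * y⁻¹ := (hb' _).symm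
        _ = y * (x * w * x⁻¹) * y⁻¹ := by rw [ha']
        _ = _ := by group
    rw [commutatorElement_def]
    have h2 := h1 ⟨x⁻¹ * y⁻¹ * z * (x⁻¹ * y⁻¹)⁻¹, ‹P.Normal›.conj_mem z z.2 _⟩
    simp only at h2
    have h3 : x * y * (x⁻¹ * y⁻¹ * (z : Q) * (x⁻¹ * y⁻¹)⁻¹) * (x * y)⁻¹ = x * y * x⁻¹ * y⁻¹ * z * (x * y * x⁻¹ * y⁻¹)⁻¹ := by group
    have h4 : y * x * (x⁻¹ * y⁻¹ * (z : Q) * (x⁻¹ * y⁻¹)⁻¹) * (y * x)⁻¹ = z := by group
    rw [h3, h4] at h2
    calc x * y * x⁻¹ * y⁻¹ * z = (x * y * x⁻¹ * y⁻¹ * z * (x * y * x⁻¹ * y⁻¹)⁻¹) * (x * y * x⁻¹ * y⁻¹) := by group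
      _ = z * (x * y * x⁻¹ * y⁻¹) := by rw [h2]
  have hle : commutator Q ≤ P := by
    rw [commutator_def, Subgroup.commutator_le]
    intro x _ y _
    exact hcomm x y
  have hPt : P = ⊤ := by
    rw [htop] at hle
    exact top_le_iff.1 hle
  have hcQ : Nat.card Q = p := by rw [← hPc, hPt, Subgroup.card_top]
  haveI : IsCyclic Q := isCyclic_of_prime_card hcQ
  have hab : commutator Q = ⊥ := by
    rw [eq_bot_iff, commutator_def, Subgroup.commutator_le]
    intro x _ y _
    rw [Subgroup.mem_bot, commutatorElement_eq_one_iff_mul_comm]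
    exact (IsCyclic.commGroup (α := Q)).mul_comm x y
  rw [hab] at htop
  have : Nat.card Q = 1 := by
    rw [← Subgroup.card_top, ← htop, Subgroup.card_bot]
  rw [hcQ] at this
  exact hp.out.one_lt.ne' this


/-- The codegree of an irreducible complex character χ of a finite group G is [G : ker χ] / χ(1), where ker χ is the set of elements at which χ takes the value χ(1). A non-trivial finite group is perfect if and only if no irreducible complex character of it has prime codegree. -/
theorem result {G : Type*} [Group G] [Finite G] [Nontrivial G] : commutator G = ⊤ ↔ ∀ χ : Cfsg.IrrCharacter G, ¬ ((Nat.card G / (Nat.card {g : G // (χ : G → ℂ) g = (χ : G → ℂ) 1} * Cfsg.charDegree (χ : G → ℂ)))).Prime := by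
  classical
  haveI : Fintype G := Fintype.ofFinite G
  constructor
  · intro htop χ hpr
    obtain ⟨K, hK, χ', h1, h2, h3, h4, h5⟩ := exists_faithful χ
    haveI : Fact (Nat.Prime _) := ⟨hpr⟩
    obtain ⟨P, hPn, hPc, -, hcent⟩ := prime_codegree χ' h3 h5
    apply not_perfect P hPc hcent
    have h6 : (commutator G).map (QuotientGroup.mk' K) = commutator (G ⧸ K) := by
      rw [commutator_def, commutator_def, Subgroup.map_commutator, Subgroup.map_top_of_surjective _ (QuotientGroup.mk'_surjective K)]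
    rw [← h6, htop, Subgroup.map_top_of_surjective _ (QuotientGroup.mk'_surjective K)]
  · intro hall
    by_contra hne
    have hcard := card_hom (G := G)
    have hidx : (commutator G).index ≠ 1 := by rwa [Ne, Subgroup.index_eq_one]
    have hfin : Finite (G →* ℂˣ) := Nat.finite_of_card_ne_zero (by rw [hcard]; exact Subgroup.index_ne_zero_of_finite)
    obtain ⟨p, hp, hpd⟩ := Nat.exists_prime_and_dvd hidx
    haveI : Fact p.Prime := ⟨hp⟩
    rw [← hcard] at hpd
    obtain ⟨f, hf⟩ := exists_prime_orderOf_dvd_card' p hpd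
    have hf1 : f ≠ 1 := by
      rintro rfl
      rw [orderOf_one] at hf
      exact hp.one_lt.ne hf
    -- the image has order p
    have hpow : ∀ g, f g ^ p = 1 := by
      intro g
      have := pow_orderOf_eq_one f
      rw [hf] at this
      exact DFunLike.congr_fun this g
    haveI : Finite f.range := inferInstance
    have hrange : Nat.card f.range = p := by
      haveI : IsCyclic f.range := inferInstance
      have h1 : Monoid.exponent f.range ∣ p := by
        apply Monoid.exponent_dvd_of_forall_pow_eq_one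
        rintro ⟨_, g, rfl⟩
        exact Subtype.ext (hpow g)
      rw [IsCyclic.exponent_eq_card] at h1
      rcases (Nat.dvd_prime hp).1 h1 with h2 | h2
      · exfalso
        apply hf1
        ext g
        have h3 : f g ∈ f.range := ⟨g, rfl⟩
        rw [Subgroup.card_eq_one.1 h2, Subgroup.mem_bot] at h3
        rw [h3]; rfl
      · exact h2
    have hki : f.ker.index = p := by
      rw [Subgroup.index_ker, hrange]
    let χ : IrrCharacter G := ⟨fun g => (f g : ℂ), isIrrCharacter_hom f⟩
    apply hall χ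
    have hd : charDegree (χ : G → ℂ) = 1 := by
      have := CfsgLib.CharInt.irr_one_eq_charDegree χ.2
      have h5 : (χ : G → ℂ) 1 = 1 := by simp [χ]
      rw [h5] at this
      exact_mod_cast this.symm
    have hk : Nat.card {g : G // (χ : G → ℂ) g = (χ : G → ℂ) 1} = Nat.card f.ker := by
      apply Nat.card_congr
      refine Equiv.subtypeEquivRight fun g => ?_
      rw [MonoidHom.mem_ker]
      simp [χ]
    rw [hk, hd, mul_one, ← Subgroup.card_mul_index f.ker, Nat.mul_div_cancel_left _ Nat.card_pos, hki]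
    exact hp

end Cfsg.Agent.S4797
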