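import Cfsg.Statements.S4798
import Cfsg.Agent.LibCon19

set_option autoImplicit false
open Cfsg

namespace Cfsg.Agent.S4798

open CfsgLib.CharBasic CfsgLib.CharIndA CfsgLib.Con19

theorem exists_small {P : Type*} [Group P] [Fintype P] {p : ℕ} [Fact p.Prime] (hP : IsPGroup p P) {φ : P → ℂ}
    (hφ : IsCharacter P φ) (b : ℕ) (d : ℕ) (hd : φ 1 = d) (hnd : ¬ p ^ (b + 1) ∣ d) :
    ∃ θ : IrrCharacter P, classInner φ (θ : P → ℂ) ≠ 0 ∧ charDegree (θ : P → ℂ) ∣ p ^ b := by
  classical
  by_contra hno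
  push Not at hno
  apply hnd
  obtain ⟨m, hm1, hm2, -⟩ := char_expand hφ
  have h1 : φ 1 = ((∑ χ : IrrCharacter P, m χ * charDegree (χ : P → ℂ) : ℕ) : ℂ) := by
    have := congrFun hm2 1
    rw [this]
    push_cast
    rw [Finset.sum_apply]
    exact Finset.sum_congr rfl fun χ _ => by
      rw [Pi.smul_apply, smul_eq_mul, CfsgLib.CharInt.irr_one_eq_charDegree χ.2]
  rw [hd] at h1
  have h2 : d = ∑ χ : IrrCharacter P, m χ * charDegree (χ : P → ℂ) := by exact_mod_cast h1
  rw [h2]
  apply Finset.dvd_sum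
  intro χ _
  by_cases hmχ : m χ = 0
  · rw [hmχ, zero_mul]; exact dvd_zero _
  apply dvd_mul_of_dvd_right
  have h3 := hno χ (by rw [hm1 χ]; exact_mod_cast hmχ)
  obtain ⟨k, hk⟩ := (IsPGroup.iff_card).1 hP
  have h4 := CfsgLib.CharInt2.charDegree_dvd_card χ.2
  rw [hk] at h4
  obtain ⟨j, hj, hj2⟩ := (Nat.dvd_prime_pow Fact.out).1 h4
  rw [hj2] at h3 ⊢
  apply pow_dvd_pow
  by_contra hlt
  exact h3 (pow_dvd_pow p (by omega))

/-- Let p be a prime and χ a faithful irreducible complex character of the finite group G (χ(g) = χ(1) only for g = 1), so that its codegree is #G / χ(1). Then #G / χ(1) is a power of p if and only if χ is induced from a character of a Sylow p-subgroup of G. -/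
theorem result {G : Type*} [Group G] [Fintype G] (p : ℕ) [Fact p.Prime] (χ : Cfsg.IrrCharacter G) (hfaith : ∀ g : G, (χ : G → ℂ) g = (χ : G → ℂ) 1 → g = 1) : (∃ k : ℕ, Nat.card G = p ^ k * Cfsg.charDegree (χ : G → ℂ)) ↔ ∃ (P : Sylow p G) (θ : ↥(P : Subgroup G) → ℂ), Cfsg.IsCharacter ↥(P : Subgroup G) θ ∧ (χ : G → ℂ) = Cfsg.indFun (P : Subgroup G) θ := by
  have hp : p.Prime := Fact.out
  constructor
  · rintro ⟨k, hk⟩
    obtain ⟨P⟩ : Nonempty (Sylow p G) := inferInstance
    haveI : Fintype (P : Subgroup G) := Fintype.ofFinite _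
    obtain ⟨a, ha⟩ := (IsPGroup.iff_card).1 P.isPGroup'
    have hidx := P.not_dvd_index
    have hcard := (P : Subgroup G).card_mul_index
    rw [ha] at hcard
    have hpos := CfsgLib.CharInt.irr_charDegree_pos χ.2
    have hka : k ≤ a := by
      by_contra hlt
      push Not at hlt
      apply hidx
      have h1 : p ^ (a + 1) ∣ p ^ a * (P : Subgroup G).index := by
        rw [hcard, hk]
        exact dvd_mul_of_dvd_left (pow_dvd_pow p hlt) _
      rw [pow_succ] at h1
      exact Nat.dvd_of_mul_dvd_mul_left (pow_pos hp.pos a) h1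
    have hdeg : charDegree (χ : G → ℂ) = p ^ (a - k) * (P : Subgroup G).index := by
      have h1 : p ^ k * charDegree (χ : G → ℂ) = p ^ k * (p ^ (a - k) * (P : Subgroup G).index) := by
        rw [← hk, ← hcard, ← mul_assoc, ← pow_add]
        congr 2; omega
      exact Nat.eq_of_mul_eq_mul_left (pow_pos hp.pos k) h1
    have hres : IsCharacter (P : Subgroup G) (fun x => (χ : G → ℂ) x) :=
      isCharacter_restrict (irr_isCharacter χ.2) _
    obtain ⟨θ, hθ1, hθ2⟩ := exists_small (p := p) P.isPGroup' hres (a - k) (charDegree (χ : G → ℂ))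
      (by
        change (χ : G → ℂ) 1 = _
        exact CfsgLib.CharInt.irr_one_eq_charDegree χ.2) (by
        rw [hdeg, pow_succ]
        intro h
        exact hidx (Nat.dvd_of_mul_dvd_mul_left (pow_pos hp.pos _) h))
    refine ⟨P, θ, irr_isCharacter θ.2, ?_⟩
    symm
    apply eq_of_degree_le (isCharacter_ind _ (irr_isCharacter θ.2)) χ.2
    · rw [CfsgLib.CharIndA.frobenius _ _ (irr_classFun χ.2), ← CfsgLib.CharBasic.inner_conj_symm]
      intro h
      apply hθ1
      rw [map_eq_zero] at h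
      exact h
    · rw [ind_one, CfsgLib.CharInt.irr_one_eq_charDegree χ.2, CfsgLib.CharInt.irr_one_eq_charDegree θ.2, hdeg]
      have h1 := Nat.le_of_dvd (pow_pos hp.pos _) hθ2
      have h2 : ((P : Subgroup G).index * charDegree (θ : ↥(P : Subgroup G) → ℂ) : ℕ) ≤
        (p ^ (a - k) * (P : Subgroup G).index : ℕ) := by
        rw [mul_comm]
        exact Nat.mul_le_mul_right _ h1
      rw [← Nat.cast_mul, Complex.natCast_re, Complex.natCast_re]
      exact_mod_cast h2
  · rintro ⟨P, θ, hθ, he⟩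
    haveI : Fintype (P : Subgroup G) := Fintype.ofFinite _
    have hirr := irr_of_ind_irr _ hθ (he ▸ χ.2)
    obtain ⟨a, ha⟩ := (IsPGroup.iff_card).1 P.isPGroup'
    have hcard := (P : Subgroup G).card_mul_index
    obtain ⟨c, hc⟩ := CfsgLib.CharInt2.charDegree_dvd_card hirr
    rw [ha] at hc hcard
    have hcd : c ∣ p ^ a := Dvd.intro_left _ hc.symm
    obtain ⟨j, -, hj⟩ := (Nat.dvd_prime_pow hp).1 hcd
    refine ⟨j, ?_⟩
    have h1 : charDegree (χ : G → ℂ) = (P : Subgroup G).index * charDegree θ := by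
      have h2 := congrFun he 1
      rw [ind_one, CfsgLib.CharInt.irr_one_eq_charDegree χ.2, CfsgLib.CharInt.irr_one_eq_charDegree hirr] at h2
      exact_mod_cast h2
    rw [h1, ← hcard, hc, hj]
    ring

end Cfsg.Agent.S4798
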