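import Cfsg.Statements.S4801
import Cfsg.Agent.LibQuot19

set_option autoImplicit false
open Cfsg

namespace Cfsg.Agent.S4801

open CfsgLib.CharBasic in
theorem exists_ker {G : Type*} [Group G] [Finite G] (χ : IrrCharacter G) :
    ∃ K : Subgroup G, K.Normal ∧ (∀ g, g ∈ K ↔ (χ : G → ℂ) g = (χ : G → ℂ) 1) ∧
      Nat.card {g : G // (χ : G → ℂ) g = (χ : G → ℂ) 1} = Nat.card K := by
  obtain ⟨K, h1, h2⟩ := exists_kernel (irr_isCharacter χ.2)
  refine ⟨K, h1, h2, ?_⟩
  apply Nat.card_congr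
  exact Equiv.subtypeEquivRight fun g => (h2 g).symm

open CfsgLib.CharBasic in
theorem codeg_dvd {G : Type*} [Group G] [Finite G] (ψ : IrrCharacter G) :
    Nat.card G / (Nat.card {g : G // (ψ : G → ℂ) g = (ψ : G → ℂ) 1} * charDegree (ψ : G → ℂ)) ∣ Nat.card G := by
  obtain ⟨K, hK, hm, hc⟩ := exists_ker ψ
  rw [hc]
  have h1 := CfsgLib.Quot19.charDegree_dvd_index K ψ.2 (fun n hn => (hm n).1 hn)
  apply Nat.div_dvd_of_dvd
  rw [← Subgroup.card_mul_index K]
  exact Nat.mul_dvd_mul_left _ h1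

open CfsgLib.CharBasic in
theorem exists_char {S : Type*} [Group S] [Finite S] (p : ℕ) (hp : p.Prime) (hd : p ∣ Nat.card S) :
    ∃ χ : IrrCharacter S, (χ : S → ℂ) ≠ (fun _ => 1) ∧ ¬ p ∣ charDegree (χ : S → ℂ) := by
  classical
  haveI : Fintype S := Fintype.ofFinite S
  by_contra hno
  push Not at hno
  have h1 := sum_sq_degree (G := S)
  have h2 : ∑ χ : IrrCharacter S, charDegree (χ : S → ℂ) ^ 2 = Nat.card S := by
    have : ((∑ χ : IrrCharacter S, charDegree (χ : S → ℂ) ^ 2 : ℕ) : ℂ) = (Nat.card S : ℂ) := by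
      rw [← h1]; push_cast
      exact Finset.sum_congr rfl fun χ _ => by rw [CfsgLib.CharInt.irr_one_eq_charDegree χ.2]
    exact_mod_cast this
  let e : IrrCharacter S := ⟨fun _ => 1, isIrrCharacter_one⟩
  rw [← Finset.add_sum_erase _ _ (Finset.mem_univ e)] at h2
  have h3 : p ∣ ∑ x ∈ Finset.univ.erase e, charDegree (x : S → ℂ) ^ 2 := by
    apply Finset.dvd_sum
    intro χ hχ
    apply dvd_pow _ (by norm_num)
    apply hno χ
    intro h
    exact (Finset.mem_erase.1 hχ).1 (Subtype.ext h)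
  have h4 : charDegree (e : S → ℂ) = 1 := by
    have := CfsgLib.CharInt.irr_one_eq_charDegree e.2
    have h5 : (e : S → ℂ) 1 = 1 := rfl
    rw [h5] at this
    exact_mod_cast this.symm
  rw [h4, one_pow] at h2
  rw [← h2] at hd
  have := (Nat.dvd_add_left h3).1 hd
  exact hp.one_lt.ne' (Nat.dvd_one.1 this)

/-- The codegree of an irreducible complex character χ of a finite group G is [G : ker χ] / χ(1), where ker χ is the set of elements at which χ takes the value χ(1). Let S be a finite simple group and G a finite group such that every codegree of an irreducible character of S is a codegree of an irreducible character of G. Then the order of S divides the order of G. -/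
theorem result {S : Type*} [Group S] [Finite S] (hS : IsSimpleGroup S) {G : Type*} [Group G] [Finite G] (hsub : ∀ χ : Cfsg.IrrCharacter S, ∃ ψ : Cfsg.IrrCharacter G, (Nat.card S / (Nat.card {g : S // (χ : S → ℂ) g = (χ : S → ℂ) 1} * Cfsg.charDegree (χ : S → ℂ))) = (Nat.card G / (Nat.card {g : G // (ψ : G → ℂ) g = (ψ : G → ℂ) 1} * Cfsg.charDegree (ψ : G → ℂ)))) : Nat.card S ∣ Nat.card G := by
  haveI := hS
  haveI : Fintype S := Fintype.ofFinite S
  rw [Nat.dvd_iff_prime_pow_dvd_dvd]
  intro p k hp hk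
  rcases Nat.eq_zero_or_pos k with h0 | h0
  · subst h0; simp
  have hpS : p ∣ Nat.card S := (dvd_pow_self p h0.ne').trans hk
  obtain ⟨χ, hχ1, hχ2⟩ := exists_char p hp hpS
  obtain ⟨K, hK, hm, hc⟩ := exists_ker χ
  obtain ⟨ψ, hψ⟩ := hsub χ
  have hKbot : K = ⊥ := by
    rcases hK.eq_bot_or_eq_top with h | h
    · exact h
    · exfalso
      apply hχ1
      apply CfsgLib.Quot19.irr_eq_one_of_ker_top χ.2
      intro g
      rw [← hm g, h]; trivial
  rw [hc, hKbot, Subgroup.card_bot, one_mul] at hψ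
  have h1 : p ^ k ∣ Nat.card S / charDegree (χ : S → ℂ) := by
    obtain ⟨c, hc⟩ := CfsgLib.CharInt2.charDegree_dvd_card χ.2
    have hpos := CfsgLib.CharInt.irr_charDegree_pos χ.2
    rw [hc, Nat.mul_div_cancel_left _ hpos]
    rw [hc] at hk
    exact (Nat.Coprime.pow_left k ((Nat.Prime.coprime_iff_not_dvd hp).2 hχ2)).dvd_of_dvd_mul_left hk
  rw [hψ] at h1
  exact h1.trans (codeg_dvd ψ)

end Cfsg.Agent.S4801
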