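import Cfsg.Statements.S4802
import Cfsg.Agent.LibQuot19

set_option autoImplicit false
open Cfsg

namespace Cfsg.Agent.S4802


/-- Let N < M be normal subgroups of the finite group G and g ∈ M ∖ N. Then the conjugacy class of g is exactly M ∖ N if and only if every irreducible complex character of G whose kernel contains N takes the same value at all elements of M ∖ N, and every irreducible complex character of G whose kernel does not contain N vanishes at g. -/
theorem result {G : Type*} [Group G] [Finite G] (N M : Subgroup G) [N.Normal] [M.Normal] (hNM : N < M) (g : G) (hgM : g ∈ M) (hgN : g ∉ N) : {h : G | IsConj g h} = (M : Set G) \ (N : Set G) ↔ ((∀ χ : Cfsg.IrrCharacter G, (∀ x ∈ N, (χ : G → ℂ) x = (χ : G → ℂ) 1) → ∀ x ∈ M, x ∉ N → ∀ y ∈ M, y ∉ N → (χ : G → ℂ) x = (χ : G → ℂ) y) ∧ (∀ χ : Cfsg.IrrCharacter G, (∃ x ∈ N, (χ : G → ℂ) x ≠ (χ : G → ℂ) 1) → (χ : G → ℂ) g = 0)) := by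
  classical
  haveI : Fintype G := Fintype.ofFinite G
  constructor
  · intro hset
    have hc : ∀ h : G, h ∈ M → h ∉ N → IsConj g h := by
      intro h h1 h2
      have : h ∈ {h : G | IsConj g h} := by rw [hset]; exact ⟨h1, h2⟩
      exact this
    refine ⟨?_, ?_⟩
    · intro χ _ x hx hxN y hy hyN
      rw [← CfsgLib.CharInt.irr_isConj χ.2 (hc x hx hxN), ← CfsgLib.CharInt.irr_isConj χ.2 (hc y hy hyN)]
    · rintro χ ⟨x, hx, hxne⟩
      have h1 := CfsgLib.Quot19.sum_coset_zero N χ.2 (fun h => hxne (h x hx)) g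
      haveI : Fintype N := Fintype.ofFinite _
      rw [finsum_eq_sum_of_fintype] at h1
      have h2 : ∀ n : N, (χ : G → ℂ) (n * g) = (χ : G → ℂ) g := by
        intro n
        have hm : (n : G) * g ∈ M := M.mul_mem (hNM.le n.2) hgM
        have hn : (n : G) * g ∉ N := fun h => hgN ((N.mul_mem_cancel_left n.2).1 h)
        exact (CfsgLib.CharInt.irr_isConj χ.2 (hc _ hm hn)).symm
      rw [Finset.sum_congr rfl fun n _ => h2 n, Finset.sum_const, nsmul_eq_mul] at h1
      rcases mul_eq_zero.1 h1 with h | h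
      · exfalso
        rw [Nat.cast_eq_zero, Finset.card_univ] at h
        exact Fintype.card_ne_zero h
      · exact h
  · rintro ⟨hA, hB⟩
    ext h
    simp only [Set.mem_setOf_eq, Set.mem_diff, SetLike.mem_coe]
    constructor
    · intro hgh
      obtain ⟨c, hc⟩ := isConj_iff.1 hgh
      rw [← hc]
      refine ⟨‹M.Normal›.conj_mem g hgM c, fun hN => hgN ?_⟩
      have := ‹N.Normal›.conj_mem _ hN c⁻¹
      simpa [mul_assoc] using this
    · rintro ⟨hM, hN⟩
      by_contra hcon
      have h1 := CfsgLib.CharBasic.column_orthogonality g h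
      rw [if_neg hcon] at h1
      have h2 : ∑ χ : IrrCharacter G, (χ : G → ℂ) g * (starRingEnd ℂ) ((χ : G → ℂ) h) =
          ∑ χ : IrrCharacter G, (if ∀ n ∈ N, (χ : G → ℂ) n = (χ : G → ℂ) 1 then
            (χ : G → ℂ) g * (starRingEnd ℂ) ((χ : G → ℂ) g) else 0) := by
        refine Finset.sum_congr rfl fun χ _ => ?_
        split_ifs with hk
        · rw [hA χ hk g hgM hgN h hM hN]
        · push Not at hk
          rw [hB χ hk, zero_mul]
      have h3 := CfsgLib.Quot19.column_quot N g g
      rw [if_pos (IsConj.refl _)] at h3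
      have h4 : (Nat.card (Subgroup.centralizer {(g : G ⧸ N)}) : ℂ) = 0 := by
        rw [h2] at h1
        rw [← h3]
        refine Eq.trans ?_ h1
        exact Finset.sum_congr rfl fun χ _ => by split_ifs <;> rfl
      have : (Nat.card (Subgroup.centralizer {(g : G ⧸ N)})) ≠ 0 := Nat.card_pos.ne'
      exact this (by exact_mod_cast h4)

end Cfsg.Agent.S4802
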