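import Cfsg.Statements.S4808
import Cfsg.Agent.LibCodeg19

set_option autoImplicit false
open Cfsg

namespace Cfsg.Agent.S4808

open CfsgLib.CharBasic CfsgLib.Codeg19

/-- The codegree of an irreducible complex character χ of a finite group G is [G : ker χ] / χ(1), where ker χ is the set of elements at which χ takes the value χ(1). A prime divides the order of G if and only if it divides the codegree of some irreducible complex character of G. -/
theorem result {G : Type*} [Group G] [Finite G] (p : ℕ) (hp : p.Prime) : p ∣ Nat.card G ↔ ∃ χ : Cfsg.IrrCharacter G, p ∣ (Nat.card G / (Nat.card {g : G // (χ : G → ℂ) g = (χ : G → ℂ) 1} * Cfsg.charDegree (χ : G → ℂ))) := by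
  classical
  haveI : Fact p.Prime := ⟨hp⟩
  haveI : Fintype G := Fintype.ofFinite G
  constructor
  · intro hpG
    by_contra hno
    push Not at hno
    obtain ⟨x, hx⟩ := exists_prime_orderOf_dvd_card' p hpG
    have hx1 : x ≠ 1 := by
      rintro rfl
      rw [orderOf_one] at hx
      exact hp.one_lt.ne hx
    have key : ∀ χ : IrrCharacter G, (χ : G → ℂ) x = 0 ∨ (χ : G → ℂ) x = (χ : G → ℂ) 1 := by
      intro χ
      obtain ⟨K, hK, χ', h1, h2, h3, h4, h5⟩ := exists_faithful χ
      by_cases hxK : x ∈ K
      · right; exact (h1 x).1 hxK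
      left
      rw [← h2]
      apply CfsgLib.DZ19.vanish χ'.2 (p := p)
      · rw [← CfsgLib.BlockReg.not_dvd_div_iff (CfsgLib.CharInt.irr_charDegree_pos χ'.2).ne' Nat.card_pos.ne'
          (CfsgLib.CharInt2.charDegree_dvd_card χ'.2), h5, Nat.mul_div_cancel _ (CfsgLib.CharInt.irr_charDegree_pos χ'.2)]
        exact hno χ
      · have h6 : orderOf (x : G ⧸ K) ∣ p := by
          rw [← hx]; exact orderOf_map_dvd (QuotientGroup.mk' K) x
        rcases (Nat.dvd_prime hp).1 h6 with h7 | h7
        · rw [orderOf_eq_one_iff] at h7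
          exact absurd ((QuotientGroup.eq_one_iff x).1 h7) hxK
        · rw [h7]
    have h1 := sum_degree_mul x hx1
    have h2 : 0 < (∑ χ : IrrCharacter G, (χ : G → ℂ) 1 * (χ : G → ℂ) x).re := by
      rw [Complex.re_sum]
      apply Finset.sum_pos'
      · intro χ _
        obtain ⟨n, -, hn⟩ := irr_one_nat χ.2
        rcases key χ with h | h
        · rw [h]; simp
        · rw [h, hn, ← Nat.cast_mul, Complex.natCast_re]; positivity
      · refine ⟨⟨fun _ => 1, isIrrCharacter_one⟩, Finset.mem_univ _, ?_⟩
        simp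
    rw [h1] at h2
    simp at h2
  · rintro ⟨χ, hχ⟩
    exact hχ.trans (codeg_dvd χ)

end Cfsg.Agent.S4808
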