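import Cfsg.Statements.S4814
import Cfsg.Agent.LibComm19

set_option autoImplicit false
open Cfsg

namespace Cfsg.Agent.S4814


/-- Let G be a finite group such that the sum, over the irreducible complex characters χ of G, of 1/χ(1)² is less than 2. Then every element of G is a product of two commutators. -/
theorem result {G : Type*} [Group G] [Finite G]
    (h : ∑ᶠ χ : Cfsg.IrrCharacter G, 1 / ‖(χ : G → ℂ) 1‖ ^ 2 < (2 : ℝ)) (g : G) :
    ∃ a b c d : G, (a * b * a⁻¹ * b⁻¹) * (c * d * c⁻¹ * d⁻¹) = g := by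
  classical
  haveI : Fintype G := Fintype.ofFinite G
  rw [finsum_eq_sum_of_fintype] at h
  by_contra hno
  have h0 : (Nat.card {x : (G × G) × (G × G) // (x.1.1 * x.1.2 * x.1.1⁻¹ * x.1.2⁻¹) * (x.2.1 * x.2.2 * x.2.1⁻¹ * x.2.2⁻¹) = g} : ℂ) = 0 := by
    rw [Nat.cast_eq_zero]
    apply Nat.card_eq_zero.2
    left
    exact ⟨fun x => hno ⟨_, _, _, _, x.2⟩⟩
  have h1 := CfsgLib.Comm19.card_prod_two_comm g
  rw [h0] at h1
  have hc : (Nat.card G : ℂ) ≠ 0 := by exact_mod_cast Nat.card_pos.ne'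
  have h2 : ∑ χ : IrrCharacter G, (χ : G → ℂ) g⁻¹ / (χ : G → ℂ) 1 ^ 3 = 0 := by
    rcases mul_eq_zero.1 h1.symm with h | h
    · exact absurd (pow_eq_zero_iff (by norm_num) |>.1 h) hc
    · convert h using 2
  let e : IrrCharacter G := ⟨fun _ => 1, CfsgLib.CharBasic.isIrrCharacter_one⟩
  rw [← Finset.add_sum_erase _ _ (Finset.mem_univ e)] at h2 h
  have h3 : ‖∑ x ∈ Finset.univ.erase e, (x : G → ℂ) g⁻¹ / (x : G → ℂ) 1 ^ 3‖ ≤
      ∑ x ∈ Finset.univ.erase e, 1 / ‖(x : G → ℂ) 1‖ ^ 2 := by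
    refine (norm_sum_le _ _).trans (Finset.sum_le_sum fun χ _ => ?_)
    obtain ⟨n, hn, hn1⟩ := CfsgLib.CharBasic.irr_one_nat χ.2
    have h4 := CfsgLib.CharBasic.char_norm_le (CfsgLib.CharBasic.irr_isCharacter χ.2) g⁻¹
    rw [hn1] at h4 ⊢
    rw [Complex.natCast_re] at h4
    rw [norm_div, norm_pow, Complex.norm_natCast]
    have hn' : (0 : ℝ) < n := by exact_mod_cast hn
    rw [div_le_div_iff₀ (by positivity) (by positivity)]
    calc ‖(χ : G → ℂ) g⁻¹‖ * (n : ℝ) ^ 2 ≤ n * (n : ℝ) ^ 2 := by gcongr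
      _ = 1 * (n : ℝ) ^ 3 := by ring
  have h5 : (1 : ℂ) + ∑ x ∈ Finset.univ.erase e, (x : G → ℂ) g⁻¹ / (x : G → ℂ) 1 ^ 3 = 0 := by
    rw [← h2]
    congr 1
    simp [e]
  have h6 : ‖∑ x ∈ Finset.univ.erase e, (x : G → ℂ) g⁻¹ / (x : G → ℂ) 1 ^ 3‖ = 1 := by
    have : ∑ x ∈ Finset.univ.erase e, (x : G → ℂ) g⁻¹ / (x : G → ℂ) 1 ^ 3 = -1 := by
      linear_combination h5
    rw [this]; simp
  rw [h6] at h3
  have h7 : (1 : ℝ) / ‖(e : G → ℂ) 1‖ ^ 2 = 1 := by simp [e]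
  rw [h7] at h
  linarith

end Cfsg.Agent.S4814
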