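import Cfsg.Statements.S4825
import Cfsg.Agent.LibPB19
import Cfsg.Agent.LibBlockQP
import Cfsg.Agent.LibClifford

set_option autoImplicit false
open Cfsg

namespace Cfsg.Agent.S4825

open CfsgLib.CharBasic CfsgLib.PB19 CfsgLib.BlockR CfsgLib.CharIndA
open scoped ComplexConjugate

/-- the block sum against a character of a normal subgroup vanishes at `p`-elements outside -/
theorem sum_zero {G : Type*} [Group G] [Fintype G] {p : ℕ} [Fact p.Prime] {M : Ideal AlgInt} (hM : IsPModular p M)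
    {B : Set (IrrCharacter G)} (hB : IsPBlock M B) {N : Subgroup G} [N.Normal] [Fintype N] (θ : N → ℂ) {x : G}
    (hx : ∃ k : ℕ, orderOf x = p ^ k) (hxN : x ∉ N) :
    ∑ᶠ χ ∈ B, classInner (fun n : N => (χ : G → ℂ) n) θ * conj ((χ : G → ℂ) x) = 0 := by
  classical
  have h1 := proj_section hM hB (fun z => conj (extendByZero N θ z)) (y := x) (y' := x) (isPPart_self hx) (by
    intro z z' hz hc
    have hz' : z ∉ N := by
      intro hzN
      apply hxN
      obtain ⟨k, hk⟩ := CfsgLib.BlockOrth.ppart_eq_zpow hz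
      have h2 : z' ∈ N := by rw [hk]; exact N.zpow_mem hzN k
      obtain ⟨c, hc⟩ := isConj_iff.1 hc
      rw [← hc]
      exact (inferInstance : N.Normal).conj_mem z' h2 c
    simp only [ext_not_mem N θ hz', map_zero])
  have h2 : ∀ χ : IrrCharacter G, ∑ z : G, conj (extendByZero N θ z) * (χ : G → ℂ) z =
      (Nat.card N : ℂ) * classInner (fun n : N => (χ : G → ℂ) n) θ := by
    intro χ
    have h3 : ∀ z : G, conj (extendByZero N θ z) * (χ : G → ℂ) z =
        extendByZero N (fun n => conj (θ n)) z * (χ : G → ℂ) z := by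
      intro z
      by_cases hz : z ∈ N
      · rw [ext_mem N θ hz, ext_mem N _ hz]
      · rw [ext_not_mem N θ hz, ext_not_mem N _ hz, map_zero]
    rw [Finset.sum_congr rfl fun z _ => h3 z, sum_ext]
    unfold classInner
    rw [mul_inv_cancel_left₀ (by exact_mod_cast Nat.card_pos.ne')]
    exact Finset.sum_congr rfl fun n _ => mul_comm _ _
  simp only [h2] at h1
  have h3 : ∑ᶠ χ ∈ B, (Nat.card N : ℂ) * classInner (fun n : N => (χ : G → ℂ) n) θ * conj ((χ : G → ℂ) x) =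
      (Nat.card N : ℂ) * ∑ᶠ χ ∈ B, classInner (fun n : N => (χ : G → ℂ) n) θ * conj ((χ : G → ℂ) x) := by
    rw [finsum_mem_eq_finite_toFinset_sum _ (Set.toFinite B), finsum_mem_eq_finite_toFinset_sum _ (Set.toFinite B),
      Finset.mul_sum]
    exact Finset.sum_congr rfl fun χ _ => by ring
  rw [h3] at h1
  rcases mul_eq_zero.1 h1 with h | h
  · exact absurd h (by exact_mod_cast Nat.card_pos.ne')
  · exact h

theorem dvd_sum {G : Type*} [Group G] [Fintype G] {p : ℕ} [Fact p.Prime] {M : Ideal AlgInt} (hM : IsPModular p M)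
    {B : Set (IrrCharacter G)} (hB : IsPBlock M B) {N : Subgroup G} [hN : N.Normal] [Fintype N] (θ : IrrCharacter N) {x : G}
    (hx : ∃ k : ℕ, orderOf x = p ^ k) (hxN : x ∉ N) [DecidablePred (fun χ : IrrCharacter G => χ ∈ B ∧ classInner (fun n : N => (χ : G → ℂ) n) (θ : N → ℂ) ≠ 0)] :
    p ∣ ∑ χ ∈ Finset.univ.filter (fun χ : IrrCharacter G => χ ∈ B ∧ classInner (fun n : N => (χ : G → ℂ) n) (θ : N → ℂ) ≠ 0),
      charDegree (χ : G → ℂ) ^ 2 := by
  classical
  have hp := isPrime_of_modular hM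
  have h1 := sum_zero hM hB (θ : N → ℂ) hx hxN
  have hnat : ∀ χ : IrrCharacter G, ∃ m : ℕ, classInner (fun n : N => (χ : G → ℂ) n) (θ : N → ℂ) = m := fun χ =>
    char_mult (isCharacter_restrict (irr_isCharacter χ.2) N) (irr_isCharacter θ.2)
  choose e he using hnat
  have hcong : ∀ χ : IrrCharacter G, MemLocalIdeal M (conj ((χ : G → ℂ) x) - (χ : G → ℂ) 1) := by
    intro χ
    rw [← char_inv_eq_conj (irr_isCharacter χ.2)]
    have h2 := CfsgLib.BlockQP.char_congr hM (irr_isCharacter χ.2) (u := x⁻¹) (x := 1) (Commute.one_right _) (by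
      obtain ⟨k, hk⟩ := hx
      exact ⟨k, by rw [orderOf_inv, hk]⟩)
    rwa [mul_one] at h2
  set S := Finset.univ.filter (fun χ : IrrCharacter G => χ ∈ B ∧ classInner (fun n : N => (χ : G → ℂ) n) (θ : N → ℂ) ≠ 0) with hS
  have h3 : ∑ χ ∈ S, (e χ : ℂ) * conj ((χ : G → ℂ) x) = 0 := by
    rw [finsum_mem_eq_finite_toFinset_sum _ (Set.toFinite B)] at h1
    rw [← h1]
    apply Finset.sum_subset_zero_on_sdiff
    · intro χ hχ
      rw [hS, Finset.mem_filter] at hχ
      simpa using hχ.2.1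
    · intro χ hχ
      rw [Finset.mem_sdiff, Set.Finite.mem_toFinset, hS, Finset.mem_filter] at hχ
      have : classInner (fun n : N => (χ : G → ℂ) n) (θ : N → ℂ) = 0 := by
        by_contra hne
        exact hχ.2 ⟨Finset.mem_univ _, hχ.1, hne⟩
      rw [this, zero_mul]
    · intro χ _
      rw [he]
  have h4 : MemLocalIdeal M (∑ χ ∈ S, (e χ : ℂ) * (χ : G → ℂ) 1) := by
    have h5 : ∑ χ ∈ S, (e χ : ℂ) * (χ : G → ℂ) 1 = -(∑ χ ∈ S, (e χ : ℂ) * (conj ((χ : G → ℂ) x) - (χ : G → ℂ) 1)) := by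
      simp only [mul_sub, Finset.sum_sub_distrib]
      rw [h3]; ring
    rw [h5]
    exact ideal_neg (ideal_sum hp _ _ fun χ _ => ideal_mul_left hp (ring_nat hp _) (hcong χ))
  -- clifford
  have h6 : ∀ χ ∈ S, (charDegree (χ : G → ℂ)) = e χ * ((CfsgLib.Clifford.inertia hN (θ : N → ℂ)).index * charDegree (θ : N → ℂ)) := by
    intro χ hχ
    rw [hS, Finset.mem_filter] at hχ
    have h7 := CfsgLib.Clifford.clifford_degree hN χ.2 θ.2 hχ.2.2
    rw [he, CfsgLib.CharInt.irr_one_eq_charDegree χ.2, CfsgLib.CharInt.irr_one_eq_charDegree θ.2] at h7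
    have h8 : ((charDegree (χ : G → ℂ) : ℕ) : ℂ) = ((e χ * ((CfsgLib.Clifford.inertia hN (θ : N → ℂ)).index * charDegree (θ : N → ℂ)) : ℕ) : ℂ) := by
      rw [h7]; push_cast; ring
    exact_mod_cast h8
  have h9 : p ∣ ∑ χ ∈ S, e χ * charDegree (χ : G → ℂ) := by
    rw [← ideal_nat_iff hM]
    push_cast
    have h10 : ∑ χ ∈ S, (e χ : ℂ) * (χ : G → ℂ) 1 = ∑ χ ∈ S, (e χ : ℂ) * (charDegree (χ : G → ℂ) : ℂ) :=
      Finset.sum_congr rfl fun χ _ => by rw [CfsgLib.CharInt.irr_one_eq_charDegree χ.2]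
    rwa [h10] at h4
  have h11 : ∑ χ ∈ S, charDegree (χ : G → ℂ) ^ 2 =
      ((CfsgLib.Clifford.inertia hN (θ : N → ℂ)).index * charDegree (θ : N → ℂ)) * ∑ χ ∈ S, e χ * charDegree (χ : G → ℂ) := by
    rw [Finset.mul_sum]
    apply Finset.sum_congr rfl
    intro χ hχ
    rw [pow_two]
    nth_rewrite 1 [h6 χ hχ]
    ring
  rw [h11]
  exact Dvd.dvd.mul_left h9 _

/-- Let p be a prime, G a finite group with Sylow p-subgroup P, M a maximal ideal of the algebraic integers containing p, and B a p-block of G with defect group P. Let N be a normal subgroup of G not containing P and θ an irreducible character of N. Then the number of irreducible characters in B of degree prime to p lying over θ (having θ as a constituent on restriction to N) is either 0 or at least 2, and when p ≤ 3 it is divisible by p. -/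
theorem result {G : Type*} [Group G] [Fintype G] (p : ℕ) [Fact p.Prime] (P : Sylow p G) (M : Ideal Cfsg.AlgInt) (hM : Cfsg.IsPModular p M) (B : Set (Cfsg.IrrCharacter G)) (hB : Cfsg.IsPBlock M B) (hBP : Cfsg.IsDefectGroup p M B P) (N : Subgroup G) [N.Normal] [Fintype N] (hPN : ¬ (P : Subgroup G) ≤ N) (θ : Cfsg.IrrCharacter N) :
    (Nat.card {χ : Cfsg.IrrCharacter G // χ ∈ B ∧ ¬ p ∣ Cfsg.charDegree (χ : G → ℂ) ∧ Cfsg.classInner (fun n : N => (χ : G → ℂ) n) (θ : N → ℂ) ≠ 0} = 0 ∨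
      2 ≤ Nat.card {χ : Cfsg.IrrCharacter G // χ ∈ B ∧ ¬ p ∣ Cfsg.charDegree (χ : G → ℂ) ∧ Cfsg.classInner (fun n : N => (χ : G → ℂ) n) (θ : N → ℂ) ≠ 0}) ∧
    (p ≤ 3 → p ∣ Nat.card {χ : Cfsg.IrrCharacter G // χ ∈ B ∧ ¬ p ∣ Cfsg.charDegree (χ : G → ℂ) ∧ Cfsg.classInner (fun n : N => (χ : G → ℂ) n) (θ : N → ℂ) ≠ 0}) := by
  classical
  have hp : p.Prime := Fact.out
  obtain ⟨x, hxP, hxN⟩ := SetLike.not_le_iff_exists.1 hPN
  have hx : ∃ k : ℕ, orderOf x = p ^ k := by
    obtain ⟨k, hk⟩ := IsPGroup.iff_orderOf.1 P.isPGroup' ⟨x, hxP⟩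
    exact ⟨k, by rw [← hk, Subgroup.orderOf_mk]⟩
  have h1 := dvd_sum hM hB θ hx hxN
  set S := Finset.univ.filter (fun χ : IrrCharacter G => χ ∈ B ∧ classInner (fun n : N => (χ : G → ℂ) n) (θ : N → ℂ) ≠ 0) with hS
  set T := Finset.univ.filter (fun χ : IrrCharacter G => χ ∈ B ∧ ¬ p ∣ charDegree (χ : G → ℂ) ∧ classInner (fun n : N => (χ : G → ℂ) n) (θ : N → ℂ) ≠ 0) with hT
  have hTc : Nat.card {χ : IrrCharacter G // χ ∈ B ∧ ¬ p ∣ charDegree (χ : G → ℂ) ∧ classInner (fun n : N => (χ : G → ℂ) n) (θ : N → ℂ) ≠ 0} = T.card := by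
    rw [Nat.card_eq_fintype_card, Fintype.card_subtype]
  have h2 : p ∣ ∑ χ ∈ T, charDegree (χ : G → ℂ) ^ 2 := by
    have h3 : ∑ χ ∈ S, charDegree (χ : G → ℂ) ^ 2 = ∑ χ ∈ T, charDegree (χ : G → ℂ) ^ 2 +
        ∑ χ ∈ S \ T, charDegree (χ : G → ℂ) ^ 2 := by
      rw [add_comm, Finset.sum_sdiff]
      intro χ hχ
      rw [hT, Finset.mem_filter] at hχ
      rw [hS, Finset.mem_filter]
      exact ⟨Finset.mem_univ _, hχ.2.1, hχ.2.2.2⟩
    rw [h3] at h1
    refine (Nat.dvd_add_left ?_).1 h1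
    apply Finset.dvd_sum
    intro χ hχ
    rw [Finset.mem_sdiff, hS, hT, Finset.mem_filter, Finset.mem_filter] at hχ
    have : p ∣ charDegree (χ : G → ℂ) := by
      by_contra hne
      exact hχ.2 ⟨Finset.mem_univ _, hχ.1.2.1, hne, hχ.1.2.2⟩
    exact Dvd.dvd.pow this two_ne_zero
  rw [hTc]
  have h4 : ∀ χ ∈ T, ¬ p ∣ charDegree (χ : G → ℂ) := by
    intro χ hχ
    rw [hT, Finset.mem_filter] at hχ
    exact hχ.2.2.1
  constructor
  · rcases Nat.lt_or_ge T.card 2 with h | h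
    · left
      interval_cases hh : T.card
      · rfl
      · exfalso
        obtain ⟨a, ha⟩ := Finset.card_eq_one.1 hh
        rw [ha, Finset.sum_singleton] at h2
        exact h4 a (by rw [ha]; exact Finset.mem_singleton_self a) (hp.dvd_of_dvd_pow h2)
    · right; exact h
  · intro hp3
    have h5 : ∀ χ ∈ T, charDegree (χ : G → ℂ) ^ 2 ≡ 1 [MOD p] := by
      intro χ hχ
      have h6 := h4 χ hχ
      have h7 : p = 2 ∨ p = 3 := by
        have := hp.two_le
        omega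
      rcases h7 with rfl | rfl
      · have h8 : charDegree (χ : G → ℂ) % 2 = 1 := by omega
        have : charDegree (χ : G → ℂ) ≡ 1 [MOD 2] := h8
        simpa using this.pow 2
      · have h8 : charDegree (χ : G → ℂ) % 3 = 1 ∨ charDegree (χ : G → ℂ) % 3 = 2 := by omega
        rcases h8 with h8 | h8
        · have : charDegree (χ : G → ℂ) ≡ 1 [MOD 3] := h8
          simpa using this.pow 2
        · have : charDegree (χ : G → ℂ) ≡ 2 [MOD 3] := h8
          exact (this.pow 2).trans (by decide)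
    have h6 : ∑ χ ∈ T, charDegree (χ : G → ℂ) ^ 2 ≡ ∑ χ ∈ T, 1 [MOD p] := by
      have h7 : ∀ U : Finset (IrrCharacter G), (∀ χ ∈ U, charDegree (χ : G → ℂ) ^ 2 ≡ 1 [MOD p]) →
          ∑ χ ∈ U, charDegree (χ : G → ℂ) ^ 2 ≡ ∑ χ ∈ U, 1 [MOD p] := by
        intro U
        induction U using Finset.induction with
        | empty => intro _; simp; rfl
        | insert a s ha ih =>
          intro hU
          rw [Finset.sum_insert ha, Finset.sum_insert ha]
          exact Nat.ModEq.add (hU a (Finset.mem_insert_self _ _)) (ih fun χ hχ => hU χ (Finset.mem_insert_of_mem hχ))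
      exact h7 T h5
    rw [Finset.sum_const, smul_eq_mul, mul_one] at h6
    exact (Nat.modEq_zero_iff_dvd.1 (h6.symm.trans (Nat.modEq_zero_iff_dvd.2 h2)))

end Cfsg.Agent.S4825
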