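import Cfsg.Statements.S4828
import Cfsg.Agent.EqBase
import Cfsg.Agent.LibBrP22

set_option autoImplicit false
open Cfsg

namespace Cfsg.Agent.S4828

open CfsgLib.BrP CfsgLib.Car

/-- Let p be a prime, M a maximal ideal of the algebraic integers containing p, and (Q, e) a Brauer pair of the finite group G (Q a p-subgroup, e a block of C_G(Q)). Then (Q, e) is a maximal Brauer pair of some block of G if and only if e contains an irreducible character θ such that θ takes the value θ(1) at every element of Z(Q) = Q ∩ C_G(Q), the p-part of θ(1) times the p-part of the order of Z(Q) equals the p-part of the order of C_G(Q) (θ has defect zero as a character of C_G(Q)/Z(Q)), and every element of N_G(Q) of p-power order that stabilizes e lies in Q·C_G(Q) (the stabilizer of e in N_G(Q) has index prime to p over Q·C_G(Q)). -/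
theorem result {G : Type*} [Group G] [Finite G] (p : ℕ) [Fact p.Prime] (M : Ideal Cfsg.AlgInt) (hM : Cfsg.IsPModular p M) (Q : Subgroup G) (e : Set (Cfsg.IrrCharacter (Subgroup.centralizer (Q : Set G)))) (he : Cfsg.IsBrauerPair p M Q e) :
    (∃ B : Set (Cfsg.IrrCharacter G), Cfsg.IsMaximalBrauerPair p M B Q e) ↔
      ∃ θ ∈ e, (∀ z : Subgroup.centralizer (Q : Set G), (z : G) ∈ Q → (θ : Subgroup.centralizer (Q : Set G) → ℂ) z = (θ : Subgroup.centralizer (Q : Set G) → ℂ) 1) ∧
        (Cfsg.charDegree (θ : Subgroup.centralizer (Q : Set G) → ℂ)).factorization p + (Nat.card ↥(Q ⊓ Subgroup.centralizer (Q : Set G))).factorization p = (Nat.card (Subgroup.centralizer (Q : Set G))).factorization p ∧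
        (∀ g : G, g ∈ Subgroup.normalizer (Q : Set G) → Cfsg.StabilizesBlock (Subgroup.centralizer (Q : Set G)) e g → (∃ k : ℕ, orderOf g = p ^ k) → g ∈ Q ⊔ Subgroup.centralizer (Q : Set G)) := by
  classical
  have := Fintype.ofFinite G
  have : M.IsPrime := hM.2.1.isPrime
  have : M.IsMaximal := hM.2.1
  have := charP_kM hM
  have heb := he.2
  have hQp := he.1
  have hbp : BP p ⊤ Q (J M Q e) := (g_bp heb).2 hQp
  letI : Fintype (Subgroup.centralizer (Q : Set G)) := Fintype.ofFinite _
  set Z : Subgroup (Subgroup.centralizer (Q : Set G)) :=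
    (Q ⊓ Subgroup.centralizer (Q : Set G)).subgroupOf (Subgroup.centralizer (Q : Set G)) with hZ
  have hZmem : ∀ z : Subgroup.centralizer (Q : Set G), z ∈ Z ↔ (z : G) ∈ Q := by
    intro z
    rw [hZ, Subgroup.mem_subgroupOf]
    exact ⟨fun h => h.1, fun h => ⟨h, z.2⟩⟩
  have hZc : Z ≤ Subgroup.center (Subgroup.centralizer (Q : Set G)) := by
    intro z hz
    rw [hZmem] at hz
    rw [Subgroup.mem_center_iff]
    intro g
    apply Subtype.ext
    exact (Subgroup.mem_centralizer_iff.1 g.2 z hz).symm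
  have hZcard : Nat.card Z = Nat.card ↥(Q ⊓ Subgroup.centralizer (Q : Set G)) := by
    have h1 : Z.map (Subgroup.centralizer (Q : Set G)).subtype =
        Q ⊓ Subgroup.centralizer (Q : Set G) := Subgroup.map_subgroupOf_eq_of_le inf_le_right
    rw [← h1]
    exact Nat.card_congr (Z.equivMapOfInjective _ (Subgroup.subtype_injective _)).toEquiv
  have hdef : IsDefectGroup p M e Z ↔
      IsDef p (CH ⊤ Q) (J M Q e) (Q ⊓ Subgroup.centralizer (Q : Set G)) := by
    rw [CH_top]
    exact h_def' hM heb inf_le_right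
  constructor
  · rintro ⟨B, hmB⟩
    have hB := hmB.1.2.1
    obtain ⟨-, hmx⟩ := (g_mx hM hB).1 hmB
    have hZd := hdef.2 (mx_zdef (g_blk hB) hmx)
    obtain ⟨θ, hθ, hker, hdeg⟩ := canon_of_central hM hZc heb hZd
    refine ⟨θ, hθ, fun z hz => hker z ((hZmem z).2 hz), by rw [← hZcard]; exact hdeg, ?_⟩
    intro g hg hst ho
    have h1 : g ∈ TS ⊤ Q (J M Q e) := (g_stab heb).1 ⟨hg, hst⟩
    have h2 : Subgroup.zpowers g ≤ TS ⊤ Q (J M Q e) := by rwa [Subgroup.zpowers_le]
    have h3 := mx_pelem (g_blk hB) hmx h2 (CfsgLib.BlockOrth.isPGroup_zpowers ho)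
    rw [CH_top] at h3
    exact h3 (Subgroup.mem_zpowers g)
  · rintro ⟨θ, hθ, hker, hdeg, hel⟩
    have hZp : IsPGroup p Z := by
      refine (hQp.to_le (inf_le_left : Q ⊓ Subgroup.centralizer (Q : Set G) ≤ Q)).comap_of_injective
        (Subgroup.centralizer (Q : Set G)).subtype (Subgroup.subtype_injective _)
    have hZd := def_of_central hM hZc hZp heb hθ (fun z hz => hker z ((hZmem z).1 hz))
      (by rw [hZcard]; exact hdeg)
    have hzd := hdef.1 hZd
    obtain ⟨x, hx⟩ := exists_le_pair hbp (bot_le : (⊥ : Subgroup G) ≤ Q)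
    have hxb : BP p ⊤ ⊥ x := hx.bp_left hbp
    have hxB : IsBlk ⊤ x := by
      have h1 := hxb.blk
      have h2 : CH (⊤ : Subgroup G) ⊥ = ⊤ := by
        rw [CH_top, eq_top_iff]
        intro g _
        rw [Subgroup.mem_centralizer_iff]
        intro z hz
        rw [Subgroup.mem_bot.1 hz, one_mul, mul_one]
      rwa [h2] at h1
    obtain ⟨B, hB, rfl⟩ := g_blk_surj hxB
    have hof : Of p ⊤ (JB M B) Q (J M Q e) := (of_iff_le (g_blk hB) hbp).2 hx
    refine ⟨B, (g_mx hM hB).2 ⟨heb, mx_of_zdef (g_blk hB) hof hzd ?_⟩⟩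
    intro g hg ho
    have h1 := (g_stab heb).2 hg
    rw [CH_top]
    exact hel g h1.1 h1.2 ho

end Cfsg.Agent.S4828
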