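import Cfsg.Statements.S4837
import Cfsg.Agent.LibGag19

set_option autoImplicit false
open Cfsg

namespace Cfsg.Agent.S4837

open CfsgLib.CharBasic CfsgLib.Gag19 CfsgLib.Clifford

theorem isSylow_of_card {G : Type*} [Group G] [Finite G] {p : ℕ} [Fact p.Prime] (H : Subgroup G)
    (a c : ℕ) (h1 : Nat.card H = p ^ a) (h2 : Nat.card G = p ^ a * c) (hc : ¬ p ∣ c) :
    ∃ P : Sylow p G, H = P := by
  have hp : p.Prime := Fact.out
  refine ⟨Sylow.ofCard H ?_, rfl⟩
  rw [h1, h2]
  congr 1
  have hc0 : c ≠ 0 := by rintro rfl; exact hc (dvd_zero _)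
  rw [Nat.factorization_mul (pow_ne_zero _ hp.ne_zero) hc0, Nat.factorization_pow]
  simp [hp.factorization_self, Nat.factorization_eq_zero_of_not_dvd hc]


/-- Let G be a finite group of order greater than 2 with an irreducible character χ nonzero on exactly two conjugacy classes, and let N be the set of elements where χ is nonzero, given as a nontrivial normal p-subgroup of G for the prime p. Then for every nonidentity x in N the centralizer C_G(x) is a Sylow p-subgroup of G, and for every irreducible character λ ≠ 1 of N the stabilizer of λ in G (its inertia group) is a Sylow p-subgroup of G. -/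
theorem result {G : Type*} [Group G] [Finite G] (hG : 2 < Nat.card G) (χ : Cfsg.IrrCharacter G) (hχ : Nat.card {C : ConjClasses G // ∃ g ∈ C.carrier, (χ : G → ℂ) g ≠ 0} = 2) (p : ℕ) [Fact p.Prime] (N : Subgroup G) [N.Normal] (hN : ∀ g : G, g ∈ N ↔ (χ : G → ℂ) g ≠ 0) (hNp : IsPGroup p N) (hN1 : N ≠ ⊥) :
    (∀ x ∈ N, x ≠ 1 → ∃ P : Sylow p G, Subgroup.centralizer ({x} : Set G) = P) ∧
      (∀ μ : Cfsg.IrrCharacter N, (μ : N → ℂ) ≠ (fun _ => (1 : ℂ)) → ∃ P : Sylow p G, ∀ g : G, g ∈ (P : Subgroup G) ↔ ∀ n n' : N, (n' : G) = g * n * g⁻¹ → (μ : N → ℂ) n' = (μ : N → ℂ) n) := by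
  classical
  haveI : Fintype G := Fintype.ofFinite G
  haveI : Fintype N := Fintype.ofFinite _
  have hp : p.Prime := Fact.out
  obtain ⟨N', k, m, h⟩ := exists_data hG χ hχ
  have hNN : N' = N := by
    ext x
    rw [hN x, h.mem x]
  subst hNN
  obtain ⟨a, ha⟩ := h.m_pow χ.2 hNp
  obtain ⟨b, hb⟩ := (IsPGroup.iff_card).1 hNp
  have hk1 : k + 1 = p ^ b := by rw [← h.cardN, hb]
  have hpk : ¬ p ∣ k := by
    intro hpk
    have hb0 : b ≠ 0 := by
      rintro rfl
      have := h.kpos
      rw [pow_zero] at hk1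
      omega
    have h1 : p ∣ k + 1 := by rw [hk1]; exact dvd_pow_self p hb0
    have h2 : p ∣ 1 := (Nat.dvd_add_right hpk).1 h1
    exact hp.one_lt.ne' (Nat.dvd_one.1 h2)
  have hcardG : Nat.card G = p ^ (2 * a + b) * k := by
    rw [h.cardG, hk1, ha, pow_add, pow_mul']; ring
  constructor
  · intro x hx hx1
    apply isSylow_of_card _ (2 * a + b) k _ hcardG hpk
    rw [h.cent x hx hx1, hk1, ha, pow_add, pow_mul']
  · intro μ hμ
    have hNn : N'.Normal := h.normal
    have hm0 : (m : ℂ) ≠ 0 := by exact_mod_cast h.mpos.ne'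
    have hk0 : (k : ℂ) ≠ 0 := by exact_mod_cast h.kpos.ne'
    -- N' is abelian
    obtain ⟨q, hq, hel⟩ := h.elem
    have hab : ∀ a b : N', a * b = b * a := hel.1.1.comm
    have hμ1 := irr_degree_one_of_comm hab μ.2
    have hmult : classInner (fun x : N' => (χ : G → ℂ) x) (μ : N' → ℂ) = m := by
      have h1 : ∀ x : N', (χ : G → ℂ) x = (if x = 1 then (m * (k + 1) : ℂ) else 0) - m := by
        intro x
        split_ifs with hx
        · rw [hx]; change (χ : G → ℂ) 1 = _; rw [h.one]; ring
        · rw [h.val x x.2 (fun hc => hx (Subtype.ext hc))]; ring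
      unfold classInner
      have h2 : ∑ x : N', (χ : G → ℂ) x * (starRingEnd ℂ) ((μ : N' → ℂ) x) = m * (k + 1) := by
        rw [Finset.sum_congr rfl fun x _ => by rw [h1 x, sub_mul]]
        rw [Finset.sum_sub_distrib, ← Finset.mul_sum]
        have h3 : ∑ x : N', (starRingEnd ℂ) ((μ : N' → ℂ) x) = 0 := by
          rw [← map_sum]
          have h4 := irr_inner_ne μ.2 (isIrrCharacter_one (G := N')) hμ
          rw [inner_one_right] at h4
          rcases mul_eq_zero.1 h4 with h | h
          · exact absurd (inv_eq_zero.1 h) (by exact_mod_cast Nat.card_pos.ne')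
          · rw [h, map_zero]
        rw [h3, mul_zero, sub_zero]
        rw [Finset.sum_eq_single (1 : N')]
        · rw [if_pos rfl, hμ1]; simp
        · intro b _ hb; rw [if_neg hb, zero_mul]
        · intro hc; exact absurd (Finset.mem_univ _) hc
      rw [h2, h.cardN]
      push_cast
      have : (k : ℂ) + 1 ≠ 0 := by exact_mod_cast Nat.succ_ne_zero k
      field_simp
    have hdeg := clifford_degree hNn χ.2 μ.2 (by rw [hmult]; exact hm0)
    rw [hmult, hμ1, h.one, mul_one] at hdeg
    have hidx : (inertia hNn (μ : N' → ℂ)).index = k := by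
      have := mul_left_cancel₀ hm0 hdeg
      exact_mod_cast this.symm
    have hcardT : Nat.card (inertia hNn (μ : N' → ℂ)) = p ^ (2 * a + b) := by
      have h1 := (inertia hNn (μ : N' → ℂ)).card_mul_index
      rw [hidx, hcardG] at h1
      exact Nat.eq_of_mul_eq_mul_right h.kpos h1
    obtain ⟨P, hP⟩ := isSylow_of_card (inertia hNn (μ : N' → ℂ)) (2 * a + b) k hcardT hcardG hpk
    refine ⟨P, fun g => ?_⟩
    rw [← hP, mem_inertia]
    constructor
    · intro hg n n' hn
      have h1 := congrFun hg n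
      rw [cj_apply] at h1
      have h2 : n' = ⟨g * n * g⁻¹, hNn.conj_mem n n.2 g⟩ := Subtype.ext hn
      rw [h2]
      exact h1
    · intro hg
      funext n
      rw [cj_apply]
      exact hg n ⟨g * n * g⁻¹, hNn.conj_mem n n.2 g⟩ rfl

end Cfsg.Agent.S4837
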