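import Cfsg.Statements.S4838
import Cfsg.Agent.LibGag19

set_option autoImplicit false
open Cfsg

namespace Cfsg.Agent.S4838

open CfsgLib.CharBasic CfsgLib.Gag19

theorem cent_eq {G : Type*} [Group G] [Finite G] (χ : IrrCharacter G) (N : Subgroup G) [N.Normal] (k m : ℕ)
    (h : Data G χ N k m) (x : G) (hx : x ∉ N) :
    Nat.card (Subgroup.centralizer ({x} : Set G)) = Nat.card (Subgroup.centralizer ({(x : G ⧸ N)} : Set (G ⧸ N))) := by
  classical
  haveI : Fintype G := Fintype.ofFinite G
  have h1 := CfsgLib.Quot19.column_quot N x x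
  have h2 := column_orthogonality x x
  rw [if_pos (IsConj.refl _)] at h1 h2
  have h3 : (Nat.card (Subgroup.centralizer ({x} : Set G)) : ℂ) = Nat.card (Subgroup.centralizer ({(x : G ⧸ N)} : Set (G ⧸ N))) := by
    rw [← h1, ← h2]
    refine Finset.sum_congr rfl fun ψ _ => ?_
    have hx0 : (χ : G → ℂ) x = 0 := by
      by_contra hc
      exact hx ((h.mem x).2 hc)
    by_cases he : (ψ : G → ℂ) = χ
    · rw [he, hx0]; simp
    · rw [if_pos (h.other ψ he)]
  exact_mod_cast h3

/-- Let G be a finite group of order greater than 2 with an irreducible character χ nonzero on exactly two conjugacy classes, N the normal p-subgroup of elements where χ is nonzero, and P a Sylow p-subgroup of G. Then (a) for every x outside N the centralizer of x in G has the same order as the centralizer of xN in G/N; (b) the centre of P lies in N, and equals N exactly when P is normal in G; (c) N, viewed inside P, is a term of the upper central series of P. -/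
theorem result {G : Type*} [Group G] [Finite G] (hG : 2 < Nat.card G) (χ : Cfsg.IrrCharacter G) (hχ : Nat.card {C : ConjClasses G // ∃ g ∈ C.carrier, (χ : G → ℂ) g ≠ 0} = 2) (p : ℕ) [Fact p.Prime] (N : Subgroup G) [N.Normal] (hN : ∀ g : G, g ∈ N ↔ (χ : G → ℂ) g ≠ 0) (hNp : IsPGroup p N) (hN1 : N ≠ ⊥) (P : Sylow p G) :
    (∀ x : G, x ∉ N → Nat.card (Subgroup.centralizer ({x} : Set G)) = Nat.card (Subgroup.centralizer ({(x : G ⧸ N)} : Set (G ⧸ N)))) ∧
      ((Subgroup.center ↥(P : Subgroup G)).map (P : Subgroup G).subtype ≤ N ∧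
        ((Subgroup.center ↥(P : Subgroup G)).map (P : Subgroup G).subtype = N ↔ (P : Subgroup G).Normal)) ∧
      (∃ i : ℕ, Subgroup.upperCentralSeries ↥(P : Subgroup G) i = N.subgroupOf (P : Subgroup G)) := by
  classical
  haveI : Fintype G := Fintype.ofFinite G
  have hp : p.Prime := Fact.out
  obtain ⟨N', k, m, h⟩ := exists_data hG χ hχ
  have hNN : N' = N := by
    ext x
    rw [hN x, h.mem x]
  subst hNN
  have hNn : N'.Normal := h.normal
  obtain ⟨a, ha⟩ := h.m_pow χ.2 hNp
  obtain ⟨b, hb⟩ := (IsPGroup.iff_card).1 hNp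
  have hk1 : k + 1 = p ^ b := by rw [← h.cardN, hb]
  have hb0 : b ≠ 0 := by
    rintro rfl
    have := h.kpos
    rw [pow_zero] at hk1
    omega
  have hpk : ¬ p ∣ k := by
    intro hpk
    have h1 : p ∣ k + 1 := by rw [hk1]; exact dvd_pow_self p hb0
    have h2 : p ∣ 1 := (Nat.dvd_add_right hpk).1 h1
    exact hp.one_lt.ne' (Nat.dvd_one.1 h2)
  have hcardG : Nat.card G = p ^ (2 * a + b) * k := by
    rw [h.cardG, hk1, ha, pow_add, pow_mul']; ring
  have hcardP : Nat.card (P : Subgroup G) = p ^ (2 * a + b) := by
    rw [Sylow.card_eq_multiplicity]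
    congr 1
    rw [hcardG, Nat.factorization_mul (pow_ne_zero _ hp.ne_zero) h.kpos.ne', Nat.factorization_pow]
    simp [hp.factorization_self, Nat.factorization_eq_zero_of_not_dvd hpk]
  have hNP : N' ≤ (P : Subgroup G) := by
    have h1 : IsPGroup p ((P : Subgroup G) ⊔ N' : Subgroup G) := IsPGroup.to_sup_of_normal_right P.isPGroup' hNp
    have h2 := P.is_maximal' h1 le_sup_left
    rw [← h2]; exact le_sup_right
  have hquot : Nat.card (G ⧸ N') * p ^ b = p ^ (2 * a + b) * k := by
    rw [← hb, ← Subgroup.card_eq_card_quotient_mul_card_subgroup, hcardG]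
  have hquot' : Nat.card (G ⧸ N') = p ^ (2 * a) * k := by
    apply Nat.eq_of_mul_eq_mul_right (pow_pos hp.pos b)
    rw [hquot, pow_add]; ring
  -- p-subgroups centralizing an element outside N are small
  have hsmall : ∀ x : G, x ∉ N' → ∀ Q : Subgroup G, IsPGroup p Q → Q ≤ Subgroup.centralizer ({x} : Set G) →
      Nat.card Q ∣ p ^ (2 * a) := by
    intro x hx Q hQ hle
    have h1 : Nat.card Q ∣ Nat.card (Subgroup.centralizer ({x} : Set G)) := Subgroup.card_dvd_of_le hle
    rw [cent_eq χ N' k m h x hx] at h1
    have h2 := h1.trans (Subgroup.card_subgroup_dvd_card _)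
    rw [hquot'] at h2
    obtain ⟨c, hc⟩ := (IsPGroup.iff_card).1 hQ
    rw [hc] at h2 ⊢
    exact (Nat.Coprime.pow_left c ((Nat.Prime.coprime_iff_not_dvd hp).2 hpk)).dvd_of_dvd_mul_right h2
  refine ⟨fun x hx => cent_eq χ N' k m h x hx, ⟨?_, ?_⟩, ?_⟩
  · -- centre of P in N
    rintro z ⟨z', hz', rfl⟩
    by_contra hzN
    have h1 := hsmall _ hzN (P : Subgroup G) P.isPGroup' (by
      intro y hy
      rw [Subgroup.mem_centralizer_singleton_iff]
      have := (Subgroup.mem_center_iff.1 hz') ⟨y, hy⟩
      exact congrArg Subtype.val this)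
    rw [hcardP] at h1
    have h2 := (Nat.pow_dvd_pow_iff_le_right hp.one_lt).1 h1
    omega
  · -- equality iff P normal
    have hcent : ((Subgroup.center ↥(P : Subgroup G)).map (P : Subgroup G).subtype ≤ N') := by
      rintro z ⟨z', hz', rfl⟩
      by_contra hzN
      have h1 := hsmall _ hzN (P : Subgroup G) P.isPGroup' (by
        intro y hy
        rw [Subgroup.mem_centralizer_singleton_iff]
        have := (Subgroup.mem_center_iff.1 hz') ⟨y, hy⟩
        exact congrArg Subtype.val this)
      rw [hcardP] at h1
      have h2 := (Nat.pow_dvd_pow_iff_le_right hp.one_lt).1 h1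
      omega
    constructor
    · intro heq
      obtain ⟨⟨x, hx⟩, hx1⟩ := Subgroup.ne_bot_iff_exists_ne_one.1 hN1
      have hx1 : x ≠ 1 := fun h => hx1 (Subtype.ext h)
      have hcx : ∀ x ∈ N', x ≠ 1 → Subgroup.centralizer ({x} : Set G) = (P : Subgroup G) := by
        intro x hx hx1
        symm
        apply Subgroup.eq_of_le_of_card_ge
        · intro y hy
          rw [Subgroup.mem_centralizer_singleton_iff]
          rw [← heq] at hx
          obtain ⟨z', hz', rfl⟩ := hx
          have := (Subgroup.mem_center_iff.1 hz') ⟨y, hy⟩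
          exact congrArg Subtype.val this
        · rw [h.cent x hx hx1, hcardP, hk1, ha, pow_add, pow_mul']
      refine ⟨fun y hy g => ?_⟩
      rw [← hcx x hx hx1, Subgroup.mem_centralizer_singleton_iff]
      have hx' : g⁻¹ * x * g ∈ N' := by
        have := hNn.conj_mem x hx g⁻¹
        simpa using this
      have hx1' : g⁻¹ * x * g ≠ 1 := by
        intro hc
        apply hx1
        have : x = g * (g⁻¹ * x * g) * g⁻¹ := by group
        rw [this, hc]; simp
      rw [← hcx _ hx' hx1', Subgroup.mem_centralizer_singleton_iff] at hy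
      calc g * y * g⁻¹ * x = g * (y * (g⁻¹ * x * g)) * g⁻¹ := by group
        _ = g * ((g⁻¹ * x * g) * y) * g⁻¹ := by rw [hy]
        _ = x * (g * y * g⁻¹) := by group
    · intro hPn
      refine le_antisymm hcent ?_
      haveI := hPn
      apply h.minimal χ.2
      · refine ⟨?_⟩
        rintro _ ⟨z, hz, rfl⟩ g
        refine ⟨⟨g * z * g⁻¹, hPn.conj_mem z z.2 g⟩, ?_, rfl⟩
        change _ ∈ Subgroup.center _
        rw [Subgroup.mem_center_iff]
        rintro ⟨y, hy⟩
        apply Subtype.ext
        change y * (g * z * g⁻¹) = g * z * g⁻¹ * y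
        have hy' : g⁻¹ * y * g ∈ (P : Subgroup G) := by
          have := hPn.conj_mem y hy g⁻¹
          simpa using this
        have h1 : (g⁻¹ * y * g) * (z : G) = z * (g⁻¹ * y * g) := congrArg Subtype.val ((Subgroup.mem_center_iff.1 hz) ⟨_, hy'⟩)
        calc y * (g * z * g⁻¹) = g * ((g⁻¹ * y * g) * z) * g⁻¹ := by group
          _ = g * (z * (g⁻¹ * y * g)) * g⁻¹ := by rw [h1]
          _ = _ := by group
      · haveI : Nontrivial ↥(P : Subgroup G) := by
          rw [Subgroup.nontrivial_iff_ne_bot]
          intro hc
          rw [hc] at hNP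
          exact hN1 (le_bot_iff.1 hNP)
        have h1 := (P.isPGroup').center_nontrivial
        rw [Subgroup.nontrivial_iff_ne_bot] at h1
        intro hc
        apply h1
        rw [Subgroup.map_eq_bot_iff] at hc
        rw [Subgroup.ker_subtype] at hc
        exact le_bot_iff.1 hc
  · -- term of the upper central series
    haveI : Group.IsNilpotent ↥(P : Subgroup G) := P.isPGroup'.isNilpotent
    have hex : ∃ n : ℕ, ¬ (Subgroup.upperCentralSeries ↥(P : Subgroup G) n < N'.subgroupOf (P : Subgroup G)) :=
      ⟨Group.nilpotencyClass ↥(P : Subgroup G), by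
        rw [Subgroup.upperCentralSeries_nilpotencyClass]
        exact not_top_lt⟩
    have hspec := Nat.find_spec hex
    have hmin := fun j hj => not_not.1 (Nat.find_min (m := j) hex hj)
    set i := Nat.find hex with hi
    refine ⟨i, ?_⟩
    rcases Nat.eq_zero_or_pos i with hi0 | hi0
    · exfalso
      apply hspec
      rw [hi0, Subgroup.upperCentralSeries_zero, bot_lt_iff_ne_bot]
      intro hc
      rw [Subgroup.subgroupOf_eq_bot] at hc
      exact hN1 (hc.eq_bot_of_le hNP)
    · obtain ⟨j, hj⟩ := Nat.exists_eq_succ_of_ne_zero hi0.ne'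
      have hlt := hmin j (by omega)
      have hle : Subgroup.upperCentralSeries ↥(P : Subgroup G) i ≤ N'.subgroupOf (P : Subgroup G) := by
        intro x hx
        by_contra hxN
        have hxN' : (x : G) ∉ N' := fun hc => hxN (Subgroup.mem_subgroupOf.2 hc)
        haveI : Fintype ↥(P : Subgroup G) := Fintype.ofFinite _
        -- class size bound
        have hcls : (Subgroup.centralizer ({x} : Set ↥(P : Subgroup G))).index ≤ Nat.card (Subgroup.upperCentralSeries ↥(P : Subgroup G) j) := by
          rw [← CfsgLib.CharInt.card_conj, Nat.card_eq_fintype_card, ← Finset.card_univ]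
          apply Finset.card_le_card_of_injOn (fun y => if hy : x * y⁻¹ ∈ Subgroup.upperCentralSeries ↥(P : Subgroup G) j then (⟨x * y⁻¹, hy⟩ : Subgroup.upperCentralSeries ↥(P : Subgroup G) j) else 1)
          · intro y _; exact Finset.mem_coe.2 (Finset.mem_univ _)
          · have hmemj : ∀ y, IsConj x y → x * y⁻¹ ∈ Subgroup.upperCentralSeries ↥(P : Subgroup G) j := by
              intro y hy
              obtain ⟨c, hc⟩ := isConj_iff.1 hy
              rw [hj, Nat.succ_eq_add_one, Subgroup.mem_upperCentralSeries_succ_iff] at hx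
              have := hx c
              rw [commutatorElement_def] at this
              rw [← hc]
              have he : x * (c * x * c⁻¹)⁻¹ = x * c * x⁻¹ * c⁻¹ := by group
              rw [he]; exact this
            intro y hy z hz hyz
            have hy' := hmemj y (by simpa using hy)
            have hz' := hmemj z (by simpa using hz)
            simp only [dif_pos hy', dif_pos hz'] at hyz
            have := congrArg Subtype.val hyz
            simp only at this
            exact inv_injective (mul_left_cancel this)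
        have hQ := hsmall x hxN' ((Subgroup.centralizer ({x} : Set ↥(P : Subgroup G))).map (P : Subgroup G).subtype)
          ((P.isPGroup'.to_subgroup _).map _) (by
            rintro _ ⟨y, hy, rfl⟩
            rw [Subgroup.mem_centralizer_singleton_iff]
            have := Subgroup.mem_centralizer_singleton_iff.1 hy
            exact congrArg Subtype.val this)
        rw [Subgroup.card_map_of_injective (Subgroup.subtype_injective _)] at hQ
        have h1 := Nat.le_of_dvd (pow_pos hp.pos _) hQ
        have h2 := (Subgroup.centralizer ({x} : Set ↥(P : Subgroup G))).card_mul_index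
        rw [hcardP] at h2
        have h3 : Nat.card (Subgroup.upperCentralSeries ↥(P : Subgroup G) j) < p ^ b := by
          have h4 : Nat.card (N'.subgroupOf (P : Subgroup G)) = p ^ b := by
            rw [← hb]
            exact Nat.card_congr (Subgroup.subgroupOfEquivOfLe hNP).toEquiv
          rw [← h4]
          exact Set.ncard_lt_ncard hlt (Set.toFinite _)
        have h4 : p ^ (2 * a + b) ≤ p ^ (2 * a) * Nat.card (Subgroup.upperCentralSeries ↥(P : Subgroup G) j) := by
          rw [← h2]; exact Nat.mul_le_mul h1 hcls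
        rw [pow_add] at h4
        have h5 := Nat.le_of_mul_le_mul_left h4 (pow_pos hp.pos _)
        omega
      by_contra hne
      exact hspec (lt_of_le_of_ne hle hne)

end Cfsg.Agent.S4838
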