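import Cfsg.Statements.S4856
import Cfsg.Agent.LibCharBasic2

set_option autoImplicit false
set_option linter.all false
open Pointwise
open Cfsg

namespace Cfsg.Agent.S4856

open CfsgLib.CharBasic ComplexConjugate

theorem conv {G : Type*} [Group G] [Fintype G] {χ : G → ℂ} (hχ : IsIrrCharacter G χ) (h : G) :
    ∑ x : G, conj (χ x) * χ (x * h) = (Nat.card G : ℂ) / χ 1 * χ h := by
  have h1 := irr_inner_self hχ
  have hcf : IsClassFunction G (fun g => conj (χ g)) := by
    intro g c
    have := irr_classFun hχ g c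
    simp only [this]
  obtain ⟨n, ρ, hρ, rfl⟩ := hχ
  have hG : (Nat.card G : ℂ) ≠ 0 := by exact_mod_cast Nat.card_pos.ne'
  have h2 := opOf_eq_smul ρ hcf
  have h3 : ∑ g, conj (ρ.character g) * ρ.character g = (Nat.card G : ℂ) := by
    rw [classInner] at h1
    have h4 : ∑ g, conj (ρ.character g) * ρ.character g = ∑ g, ρ.character g * conj (ρ.character g) :=
      Finset.sum_congr rfl fun g _ => mul_comm _ _
    rw [h4]
    have h5 := congrArg (fun z => (Nat.card G : ℂ) * z) h1
    simp only [mul_one] at h5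
    rw [← mul_assoc, mul_inv_cancel₀ hG, one_mul] at h5
    exact h5
  rw [h3] at h2
  have h6 : LinearMap.trace ℂ _ (opOf ρ (fun g => conj (ρ.character g)) * ρ h) =
      (Nat.card G : ℂ) / ρ.character 1 * ρ.character h := by
    rw [h2, smul_mul_assoc, map_smul, smul_eq_mul, Representation.char_one]
    rfl
  rw [← h6]
  simp only [opOf, Finset.sum_mul, smul_mul_assoc, map_sum, map_smul, smul_eq_mul,
    Representation.character, map_mul]

/-- For an element z of a finite group G, the number of pairs (x, y) of elements with x y x⁻¹ y⁻¹ = z equals the order of G times the sum over the irreducible characters χ of χ(z)/χ(1). -/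
theorem result {G : Type*} [Group G] [Finite G] (z : G) : (Nat.card {xy : G × G // xy.1 * xy.2 * xy.1⁻¹ * xy.2⁻¹ = z} : ℂ) = (Nat.card G : ℂ) * ∑ᶠ χ : Cfsg.IrrCharacter G, (χ : G → ℂ) z / (χ : G → ℂ) 1 := by
  classical
  haveI := Fintype.ofFinite G
  rw [finsum_eq_sum_of_fintype]
  -- number of y with y u y⁻¹ = v
  have hcount : ∀ u v : G, (Nat.card {y : G // y * u * y⁻¹ = v} : ℂ) =
      ∑ χ : IrrCharacter G, (χ : G → ℂ) u * conj ((χ : G → ℂ) v) := by
    intro u v
    rw [column_orthogonality]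
    split_ifs with hc
    · obtain ⟨c, hc⟩ := isConj_iff.1 hc
      congr 1
      apply Nat.card_congr
      refine (Equiv.mulLeft c⁻¹).subtypeEquiv fun y => ?_
      rw [Subgroup.mem_centralizer_iff, Equiv.coe_mulLeft]
      simp only [Set.mem_singleton_iff, forall_eq]
      rw [← hc]
      constructor
      · intro h
        calc u * (c⁻¹ * y) = c⁻¹ * (c * u * c⁻¹) * y := by group
          _ = c⁻¹ * y * u := by rw [← h]; group
      · intro h
        calc y * u * y⁻¹ = c * (c⁻¹ * y * u) * y⁻¹ := by group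
          _ = c * u * c⁻¹ := by rw [← h]; group
    · have : Nat.card {y : G // y * u * y⁻¹ = v} = 0 := by
        rw [Nat.card_eq_zero]; left
        exact ⟨fun y => hc (isConj_iff.2 ⟨y.1, y.2⟩)⟩
      rw [this, Nat.cast_zero]
  have hsplit : (Nat.card {xy : G × G // xy.1 * xy.2 * xy.1⁻¹ * xy.2⁻¹ = z} : ℂ) =
      ∑ x : G, (Nat.card {y : G // y * x⁻¹ * y⁻¹ = x⁻¹ * z} : ℂ) := by
    have e : {xy : G × G // xy.1 * xy.2 * xy.1⁻¹ * xy.2⁻¹ = z} ≃
        Σ x : G, {y : G // y * x⁻¹ * y⁻¹ = x⁻¹ * z} :=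
      { toFun := fun p => ⟨p.1.1, p.1.2, by
          have h1 := p.2
          calc p.1.2 * p.1.1⁻¹ * p.1.2⁻¹ = p.1.1⁻¹ * (p.1.1 * p.1.2 * p.1.1⁻¹ * p.1.2⁻¹) := by group
            _ = p.1.1⁻¹ * z := by rw [h1]⟩
        invFun := fun p => ⟨(p.1, p.2.1), by
          have h1 := p.2.2
          calc p.1 * p.2.1 * p.1⁻¹ * (p.2.1)⁻¹ = p.1 * (p.2.1 * (p.1)⁻¹ * (p.2.1)⁻¹) := by group
            _ = z := by rw [h1]; group⟩
        left_inv := fun p => rfl
        right_inv := fun p => rfl }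
    rw [Nat.card_congr e, Nat.card_sigma]
    push_cast
    rfl
  have hconj : conj (Nat.card {xy : G × G // xy.1 * xy.2 * xy.1⁻¹ * xy.2⁻¹ = z} : ℂ) =
      (Nat.card {xy : G × G // xy.1 * xy.2 * xy.1⁻¹ * xy.2⁻¹ = z} : ℂ) := Complex.conj_natCast _
  rw [← hconj, hsplit]
  simp only [hcount, map_sum, map_mul, Complex.conj_conj]
  rw [Finset.sum_comm, Finset.mul_sum]
  refine Finset.sum_congr rfl fun χ _ => ?_
  have h1 := conv χ.2 z
  rw [mul_div_assoc', mul_comm (Nat.card G : ℂ), ← mul_div_assoc', mul_comm, ← h1]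
  exact Fintype.sum_equiv (Equiv.inv G) _ _ fun x => rfl

end Cfsg.Agent.S4856
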