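import Cfsg.Statements.S4888
import Cfsg.Agent.LibPB20
import Cfsg.Agent.LibTate
import Cfsg.Agent.LibQuot19

set_option autoImplicit false
set_option linter.all false
open Cfsg CfsgLib.CharInt CfsgLib.PB20
open scoped ComplexConjugate

namespace Cfsg.Agent.S4888

theorem exists_linear_ne_one {A : Type*} [Group A] [Finite A] {x : A} (hx : x ∉ commutator A) :
    ∃ μ : A →* ℂˣ, μ x ≠ 1 := by
  have h1 : (Abelianization.of x : Abelianization A) ≠ 1 := by
    intro h
    apply hx
    rwa [← Abelianization.ker_of, MonoidHom.mem_ker]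
  obtain ⟨φ, hφ⟩ := CommGroup.exists_apply_ne_one_of_hasEnoughRootsOfUnity (Abelianization A) ℂ h1
  exact ⟨φ.comp Abelianization.of, hφ⟩

theorem part1 {G : Type*} [Group G] [Finite G] {p : ℕ} [Fact p.Prime] {M : Ideal Cfsg.AlgInt} (hM : Cfsg.IsPModular p M)
    (P : Sylow p G)
    (hd : ∀ χ : Cfsg.IrrCharacter G, χ ∈ (Cfsg.principalBlock M G) → Cfsg.blockHeight p (Cfsg.principalBlock M G) (χ : G → ℂ) = 0 → Cfsg.charDegree (χ : G → ℂ) = 1) :
    Cfsg.HasNormalPComplement p G := by
  classical
  haveI := Fintype.ofFinite G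
  haveI := Fintype.ofFinite (P : Subgroup G)
  have hext : ∀ μ : (P : Subgroup G) →* ℂˣ, ∃ lam : G →* ℂˣ, ∀ y : (P : Subgroup G), lam y = μ y := by
    intro μ
    obtain ⟨χ, hχ, hχd, hχs⟩ := exists_over_linear hM P μ
    have h1 := hd χ hχ ((height_zero_principal_iff hM).mpr hχd)
    have h2 : (χ : G → ℂ) 1 = 1 := by rw [irr_one_eq_charDegree χ.2, h1, Nat.cast_one]
    obtain ⟨lam, hlam⟩ := CfsgLib.CharBasic.exists_hom_of_linear (CfsgLib.CharBasic.irr_isCharacter χ.2) h2
    refine ⟨lam, ?_⟩
    by_contra hne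
    apply hχs
    have h3 := CfsgLib.CharBasic.irr_inner_ne (CfsgLib.CharBasic.isIrrCharacter_hom (lam.comp (P : Subgroup G).subtype)) (CfsgLib.CharBasic.isIrrCharacter_hom μ) (by
      intro h
      apply hne
      intro y
      exact Units.ext (congrFun h y))
    unfold classInner at h3
    have hP0 : (Nat.card (P : Subgroup G) : ℂ)⁻¹ ≠ 0 := inv_ne_zero (by exact_mod_cast Nat.card_pos.ne')
    rcases mul_eq_zero.mp h3 with h | h
    · exact absurd h hP0
    · rw [finsum_eq_sum_of_fintype, ← h]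
      exact Finset.sum_congr rfl fun y _ => by rw [hlam]; rfl
  have hfoc : commutator G ⊓ (P : Subgroup G) ≤ ⁅(P : Subgroup G), (P : Subgroup G)⁆ := by
    rintro x ⟨hx, hxP⟩
    by_contra hcon
    have h5 : (⟨x, hxP⟩ : (P : Subgroup G)) ∉ commutator (P : Subgroup G) := by
      intro h
      apply hcon
      have h6 : x ∈ (commutator (P : Subgroup G)).map (P : Subgroup G).subtype := ⟨_, h, rfl⟩
      rwa [commutator_def, Subgroup.map_commutator, ← MonoidHom.range_eq_map, Subgroup.range_subtype] at h6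
    obtain ⟨μ, hμ⟩ := exists_linear_ne_one h5
    obtain ⟨lam, hlam⟩ := hext μ
    apply hμ
    rw [← hlam]
    have h7 : commutator G ≤ lam.ker := by
      rw [commutator_def, Subgroup.commutator_le]
      intro a _ b _
      rw [MonoidHom.mem_ker, map_commutatorElement]
      exact commutatorElement_eq_one_iff_mul_comm.mpr (mul_comm _ _)
    exact h7 hx
  have h4 := CfsgLib.Tate.inf_pResidual_eq P (P : Subgroup G) le_rfl hfoc
  rw [CfsgLib.TransFus.hasNPC_iff_pResidual]
  intro hdvd
  haveI : (pResidual p G).Normal := CfsgLib.TransFus.pResidual_normal p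
  obtain ⟨y, hy⟩ := exists_prime_orderOf_dvd_card' p hdvd
  have hyG : orderOf (y : G) = p := by rw [Subgroup.orderOf_coe, hy]
  have hz : IsPGroup p (Subgroup.zpowers (y : G)) := by
    rw [IsPGroup.iff_card]
    exact ⟨1, by rw [Nat.card_zpowers, hyG, pow_one]⟩
  obtain ⟨Q, hQ⟩ := hz.exists_le_sylow
  obtain ⟨g, hg⟩ := MulAction.exists_smul_eq G Q P
  have h8 : g * y * g⁻¹ ∈ (P : Subgroup G) := by
    rw [← hg]
    exact (Subgroup.mem_pointwise_smul_iff_inv_smul_mem).mpr (by
      have : (MulAut.conj g)⁻¹ • (g * (y : G) * g⁻¹) = y := by rw [← map_inv]; simp [mul_assoc]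
      rw [this]; exact hQ (Subgroup.mem_zpowers _))
  have h9 : g * y * g⁻¹ ∈ (P : Subgroup G) ⊓ pResidual p G := ⟨h8, (‹(pResidual p G).Normal›).conj_mem _ y.2 g⟩
  rw [h4] at h9
  obtain ⟨-, z, hz1, hz2⟩ := h9
  have h10 : z = 1 := by
    have h11 : (pResidual p (P : Subgroup G)) ≤ ⊥ := by
      unfold pResidual
      rw [Subgroup.closure_le]
      intro w hw
      obtain ⟨k, hk⟩ := IsPGroup.iff_orderOf.mp P.2 w
      have h12 : Nat.Coprime (orderOf w) p := hw
      rw [hk] at h12
      rcases Nat.eq_zero_or_pos k with h13 | h13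
      · rw [h13, pow_zero, orderOf_eq_one_iff] at hk
        exact hk
      · rw [Nat.coprime_pow_left_iff h13] at h12
        exact absurd ((Nat.coprime_self p).mp h12) (Fact.out : p.Prime).one_lt.ne'
    exact h11 hz1
  rw [h10, map_one] at hz2
  have h14 : (y : G) = 1 := by
    have : (y : G) = g⁻¹ * (g * y * g⁻¹) * g := by group
    rw [this, ← hz2]; group
  rw [h14, orderOf_one] at hyG
  exact (Fact.out : p.Prime).one_lt.ne hyG

/-- Let G be a finite group, p a prime and M a maximal ideal of the algebraic integers containing p. Then all height-zero irreducible characters of the principal p-block of G (equivalently, all its characters of degree prime to p) have the same degree if and only if G has a normal p-complement. -/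
theorem result {G : Type*} [Group G] [Finite G] (p : ℕ) [Fact p.Prime] (M : Ideal Cfsg.AlgInt) (hM : Cfsg.IsPModular p M) : (∃ d : ℕ, ∀ χ : Cfsg.IrrCharacter G, χ ∈ (Cfsg.principalBlock M G) → Cfsg.blockHeight p (Cfsg.principalBlock M G) (χ : G → ℂ) = 0 → Cfsg.charDegree (χ : G → ℂ) = d) ↔ Cfsg.HasNormalPComplement p G := by
  constructor
  · rintro ⟨d, hd⟩
    have hd1 : d = 1 := by
      rw [← hd (one G) (one_mem hM) ((height_zero_principal_iff hM).mpr (by rw [charDegree_one]; exact (Fact.out : p.Prime).one_lt.ne' ∘ Nat.dvd_one.mp)), charDegree_one]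
    subst hd1
    obtain ⟨P⟩ := (inferInstance : Nonempty (Sylow p G))
    exact part1 hM P hd
  · intro h
    refine ⟨1, fun χ hχ h0 => ?_⟩
    rw [CfsgLib.TransPC.hasNPC_iff] at h
    obtain ⟨N, hN⟩ := h
    haveI := hN.1
    have hker := CfsgLib.PB19.ker_principal hM hχ
    have hNle : N ≤ pPrimeCore p G := CfsgLib.Cores.le_pPrimeCore inferInstance hN.coprime
    have h1 := CfsgLib.Quot19.charDegree_dvd_index N χ.2 (fun n hn => hker n (hNle hn))
    obtain ⟨k, hk⟩ := hN.2.2
    rw [hk] at h1
    obtain ⟨j, -, hj⟩ := (Nat.dvd_prime_pow (Fact.out : p.Prime)).mp h1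
    rw [height_zero_principal_iff hM, hj] at h0
    rcases Nat.eq_zero_or_pos j with h2 | h2
    · rw [hj, h2, pow_zero]
    · exact absurd (dvd_pow_self p h2.ne') h0

end Cfsg.Agent.S4888
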