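import Cfsg.Statements.S4911
import Cfsg.Agent.LibGlaub3

set_option autoImplicit false
open Cfsg

namespace Cfsg.Agent.S4911

/-- Let P and K be subgroups of a finite group with P a p-group normalizing K and K of order prime to p. Then the number of P-invariant real-valued irreducible complex characters of K equals the number of conjugacy classes of K that are real (closed under inversion) and P-invariant. Moreover, if every real-valued irreducible character of K is P-invariant, then every real element of K (one conjugate in K to its inverse) is conjugate in K to an element centralized by P. -/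
theorem result {G : Type*} [Group G] [Finite G] (p : ℕ) [Fact p.Prime] (P K : Subgroup G) (hP : IsPGroup p ↥P) (hK : ¬ p ∣ Nat.card ↥K) (hPK : P ≤ Subgroup.normalizer (K : Set G)) : Nat.card {θ : Cfsg.IrrCharacter ↥K // (∀ k : ↥K, ((θ : ↥K → ℂ) k).im = 0) ∧ (∀ x ∈ P, ∀ k k' : ↥K, (k' : G) = x * (k : G) * x⁻¹ → (θ : ↥K → ℂ) k' = (θ : ↥K → ℂ) k)} = Nat.card {c : ConjClasses ↥K // (∀ k : ↥K, ConjClasses.mk k = c → IsConj k k⁻¹) ∧ ∀ k : ↥K, ConjClasses.mk k = c → ∀ x ∈ P, ∀ k' : ↥K, (k' : G) = x * (k : G) * x⁻¹ → ConjClasses.mk k' = c} ∧ ((∀ θ : Cfsg.IrrCharacter ↥K, (∀ k : ↥K, ((θ : ↥K → ℂ) k).im = 0) → (∀ x ∈ P, ∀ k k' : ↥K, (k' : G) = x * (k : G) * x⁻¹ → (θ : ↥K → ℂ) k' = (θ : ↥K → ℂ) k)) → ∀ k : ↥K, IsConj k k⁻¹ → ∃ k' : ↥K, IsConj k k' ∧ ∀ x ∈ P, x * (k' : G) * x⁻¹ = (k' : G)) := by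
  classical
  have hp : p.Prime := Fact.out
  haveI := Fintype.ofFinite K
  have hnorm : ∀ s ∈ P, ∀ g ∈ K, s * g * s⁻¹ ∈ K := fun s hs g hg =>
    (Subgroup.mem_normalizer_iff.mp (hPK hs) g).mp hg
  have h1 := CfsgLib.Glaub3.card_real_inv (CfsgLib.GlaubG.conjHom K P hnorm) hp hP hK
  have h2 := CfsgLib.Glaub3.card_real_inv_classes (CfsgLib.GlaubG.conjHom K P hnorm) hp hP hK
  have e1 : Nat.card {θ : Cfsg.IrrCharacter ↥K // (∀ k : ↥K, ((θ : ↥K → ℂ) k).im = 0) ∧ (∀ x ∈ P, ∀ k k' : ↥K, (k' : G) = x * (k : G) * x⁻¹ → (θ : ↥K → ℂ) k' = (θ : ↥K → ℂ) k)} =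
      Nat.card {c : ConjClasses ↥K // (∀ k : ↥K, ConjClasses.mk k = c → IsConj k k⁻¹) ∧ ∀ k : ↥K, ConjClasses.mk k = c → ∀ x ∈ P, ∀ k' : ↥K, (k' : G) = x * (k : G) * x⁻¹ → ConjClasses.mk k' = c} := by
    have h3 : Nat.card {θ : Cfsg.IrrCharacter ↥K // (∀ k : ↥K, ((θ : ↥K → ℂ) k).im = 0) ∧ (∀ x ∈ P, ∀ k k' : ↥K, (k' : G) = x * (k : G) * x⁻¹ → (θ : ↥K → ℂ) k' = (θ : ↥K → ℂ) k)} =
        Nat.card {χ : Cfsg.IrrCharacter K // (∀ g, ((χ : K → ℂ) g).im = 0) ∧ CfsgLib.Glaub.Inv (CfsgLib.GlaubG.conjHom K P hnorm) (χ : K → ℂ)} :=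
      Nat.card_congr (Equiv.subtypeEquivRight fun χ => and_congr_right fun _ => (CfsgLib.GlaubG.inv_iff K P hnorm _).symm)
    rw [h3, h1, ← h2]
    refine Nat.card_congr (Equiv.subtypeEquivRight fun c => and_congr_right fun _ => ⟨fun h k hk x hx k' hk' => ?_, fun h a k hk => ?_⟩)
    · have h4 := h ⟨x, hx⟩ k hk
      have h5 : CfsgLib.GlaubG.conjHom K P hnorm ⟨x, hx⟩ k = k' := Subtype.ext hk'.symm
      rwa [h5] at h4
    · exact h k hk a a.2 _ rfl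
  refine ⟨e1, fun hall k hk => ?_⟩
  have e2 : Nat.card {θ : Cfsg.IrrCharacter ↥K // (∀ k : ↥K, ((θ : ↥K → ℂ) k).im = 0) ∧ (∀ x ∈ P, ∀ k k' : ↥K, (k' : G) = x * (k : G) * x⁻¹ → (θ : ↥K → ℂ) k' = (θ : ↥K → ℂ) k)} =
      Nat.card {θ : Cfsg.IrrCharacter ↥K // (∀ k : ↥K, ((θ : ↥K → ℂ) k).im = 0)} :=
    Nat.card_congr (Equiv.subtypeEquivRight fun χ => ⟨fun h => h.1, fun h => ⟨h, hall χ h⟩⟩)
  have e3 : Nat.card {θ : Cfsg.IrrCharacter ↥K // (∀ k : ↥K, ((θ : ↥K → ℂ) k).im = 0)} =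
    Nat.card {c : ConjClasses ↥K // (∀ k : ↥K, ConjClasses.mk k = c → IsConj k k⁻¹)} := CfsgLib.GalChar.card_real_irr
  rw [e2, e3] at e1
  -- the inclusion is a bijection
  let f : {c : ConjClasses ↥K // (∀ k : ↥K, ConjClasses.mk k = c → IsConj k k⁻¹) ∧ ∀ k : ↥K, ConjClasses.mk k = c → ∀ x ∈ P, ∀ k' : ↥K, (k' : G) = x * (k : G) * x⁻¹ → ConjClasses.mk k' = c} →
      {c : ConjClasses ↥K // (∀ k : ↥K, ConjClasses.mk k = c → IsConj k k⁻¹)} := fun c => ⟨c.1, c.2.1⟩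
  have hf : Function.Injective f := fun a b h => Subtype.ext (by
    have h' := congrArg Subtype.val h
    exact h')
  have hfs : Function.Surjective f := ((Nat.bijective_iff_injective_and_card f).mpr ⟨hf, e1.symm⟩).2
  have hreal : ∀ k' : ↥K, ConjClasses.mk k' = ConjClasses.mk k → IsConj k' k'⁻¹ := by
    intro k' hk'
    rw [ConjClasses.mk_eq_mk_iff_isConj] at hk'
    obtain ⟨x, hx⟩ := isConj_iff.mp hk'.symm
    refine (hk'.trans hk).trans (isConj_iff.mpr ⟨x, ?_⟩)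
    rw [← hx]; group
  obtain ⟨⟨c, hc1, hc2⟩, hc⟩ := hfs ⟨ConjClasses.mk k, hreal⟩
  have hck : c = ConjClasses.mk k := congrArg Subtype.val hc
  obtain ⟨d, hd⟩ := CfsgLib.Glaub.exists_in_fix (CfsgLib.GlaubG.conjHom K P hnorm) (CfsgLib.Glaub.fix (CfsgLib.GlaubG.conjHom K P hnorm))
    rfl hp hP hK (g := k) (fun a => by
      have := hc2 k hck.symm a a.2 (CfsgLib.GlaubG.conjHom K P hnorm a k) rfl
      rw [hck, ConjClasses.mk_eq_mk_iff_isConj] at this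
      exact this.symm)
  exact ⟨d, hd, fun x hx => congrArg Subtype.val (d.2 ⟨x, hx⟩)⟩

end Cfsg.Agent.S4911
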