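import Cfsg.Statements.S4916
import Cfsg.Agent.LibBlockDefect
import Cfsg.Agent.LibCharMore
import Cfsg.Agent.LibCharBasic3

set_option autoImplicit false
set_option linter.all false
open Cfsg CfsgLib.CharInt CfsgLib.BlockR CfsgLib.BlockCore CfsgLib.BlockIdem CfsgLib.BlockDefect CfsgLib.BlockOrth
open scoped ComplexConjugate

namespace Cfsg.Agent.S4916

theorem part1 {G : Type*} [Group G] [Finite G] (p : ℕ) [Fact p.Prime] (M : Ideal Cfsg.AlgInt) (hM : Cfsg.IsPModular p M)
    (h : ∀ χ : Cfsg.IrrCharacter G, χ ∈ Cfsg.principalBlock M G → ¬ p ∣ Cfsg.charDegree (χ : G → ℂ) → (χ : G → ℂ) = fun _ => (1 : ℂ)) :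
    ¬ p ∣ Nat.card G := by
  classical
  haveI := Fintype.ofFinite G
  have hp := isPrime_of_modular hM
  have hpp : p.Prime := Fact.out
  have hone : IsIrrCharacter G (fun _ => (1 : ℂ)) := CfsgLib.CharBasic.isIrrCharacter_one
  obtain ⟨τ, hτ⟩ : ∃ τ : IrrCharacter G, (τ : G → ℂ) = fun _ => 1 := ⟨⟨_, hone⟩, rfl⟩
  have hB : IsPBlock M (principalBlock M G) := ⟨τ, by rw [hτ]; rfl⟩
  have hmem1 : τ ∈ principalBlock M G := by
    have := mem_blockOf_self hp τ
    rwa [hτ] at this
  intro hdvd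
  obtain ⟨y, hy⟩ := exists_prime_orderOf_dvd_card' p hdvd
  have h1 := weak_block_orth hM hB (x := (1 : G)) (y := y) (by
    rw [orderOf_one, Nat.dvd_one]; exact hpp.ne_one) (by rw [hy])
  rw [← sum_ind] at h1
  apply not_ideal_one hp
  have h2 : (1 : ℂ) = - ∑ χ ∈ Finset.univ.erase τ,
      ind (principalBlock M G) χ * ((χ : G → ℂ) 1 * conj ((χ : G → ℂ) y)) := by
    rw [← Finset.add_sum_erase _ _ (Finset.mem_univ τ)] at h1
    have h3 : ind (principalBlock M G) τ = 1 := by
      unfold ind; rw [Set.indicator_of_mem hmem1]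
    rw [h3, hτ] at h1
    simp only [map_one, mul_one] at h1
    linear_combination h1
  rw [h2]
  apply ideal_neg
  refine ideal_sum hp _ _ fun χ hχ => ?_
  by_cases hm : χ ∈ principalBlock M G
  · have h4 : p ∣ charDegree (χ : G → ℂ) := by
      by_contra hnd
      apply Finset.ne_of_mem_erase hχ
      exact Subtype.ext ((h χ hm hnd).trans hτ.symm)
    have h5 : MemLocalIdeal M ((χ : G → ℂ) 1) := by
      rw [irr_one_eq_charDegree χ.2]
      exact (ideal_nat_iff hM).mpr h4
    refine ideal_mul_left hp ?_ (ideal_mul_right hp h5 ?_)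
    · unfold ind; rw [Set.indicator_of_mem hm]; exact ring_one hp
    · rw [← CfsgLib.CharBasic.char_inv_eq_conj (CfsgLib.CharBasic.irr_isCharacter χ.2)]
      exact irr_ring hp χ _
  · have h4 : ind (principalBlock M G) χ = 0 := by unfold ind; rw [Set.indicator_of_notMem hm]
    rw [h4, zero_mul]; exact ideal_zero hp

theorem part2 {G : Type*} [Group G] [Finite G] (p : ℕ) [Fact p.Prime] (M : Ideal Cfsg.AlgInt) (hM : Cfsg.IsPModular p M)
    (hnd : ¬ p ∣ Nat.card G) : ∀ χ : Cfsg.IrrCharacter G, χ ∈ Cfsg.principalBlock M G → ¬ p ∣ Cfsg.charDegree (χ : G → ℂ) → (χ : G → ℂ) = fun _ => (1 : ℂ) := by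
  classical
  haveI := Fintype.ofFinite G
  have hp := isPrime_of_modular hM
  have hpp : p.Prime := Fact.out
  have hone : IsIrrCharacter G (fun _ => (1 : ℂ)) := CfsgLib.CharBasic.isIrrCharacter_one
  obtain ⟨τ, hτ⟩ : ∃ τ : IrrCharacter G, (τ : G → ℂ) = fun _ => 1 := ⟨⟨_, hone⟩, rfl⟩
  have hB : IsPBlock M (principalBlock M G) := ⟨τ, by rw [hτ]; rfl⟩
  have hmem1 : τ ∈ principalBlock M G := by
    have := mem_blockOf_self hp τ
    rwa [hτ] at this
  intro χ hχ _
  set v : IrrCharacter G → ℂ := fun ψ => if ψ = χ then 1 else 0 with hv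
  have hAR : AR M v := by
    intro g
    unfold fou
    refine ring_mul hp (ring_inv_nat hM hnd) (ring_sum hp _ _ fun ψ _ => ?_)
    refine ring_mul hp ?_ (ring_mul hp (irr_ring hp ψ _) ?_)
    · simp only [hv]; split_ifs
      · exact ring_one hp
      · exact ring_zero hp
    · rw [← CfsgLib.CharBasic.char_inv_eq_conj (CfsgLib.CharBasic.irr_isCharacter ψ.2)]
      exact irr_ring hp ψ _
  have h1 := sameBlock_val hp hAR (sameBlock_of_mem hp hB hχ hmem1)
  by_contra hne
  have hne2 : τ ≠ χ := fun h => hne (by rw [← h, hτ])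
  simp only [hv, if_pos, if_neg hne2, sub_zero] at h1
  exact not_ideal_one hp h1

/-- Let G be a finite group, p a prime and M a maximal ideal of the algebraic integers containing p. Then the principal character is the only irreducible character of degree prime to p in the principal p-block of G if and only if p does not divide the order of G. -/
theorem result {G : Type*} [Group G] [Finite G] (p : ℕ) [Fact p.Prime] (M : Ideal Cfsg.AlgInt) (hM : Cfsg.IsPModular p M) : (∀ χ : Cfsg.IrrCharacter G, χ ∈ Cfsg.principalBlock M G → ¬ p ∣ Cfsg.charDegree (χ : G → ℂ) → (χ : G → ℂ) = fun _ => (1 : ℂ)) ↔ ¬ p ∣ Nat.card G := by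
  exact ⟨part1 p M hM, part2 p M hM⟩

end Cfsg.Agent.S4916
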