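import Cfsg.Statements.S4989
import Cfsg.Agent.LibGalChar

set_option autoImplicit false
open Pointwise
open Cfsg

namespace Cfsg.Agent.S4989

open CfsgLib.CharBasic CfsgLib.GalChar

/-- Let H be a subgroup of the finite group G and χ an irreducible complex character of G. Then the inner product of the restriction of χ to H with itself, (1/#H)·Σ_{h ∈ H} |χ(h)|², is at most 1 + #(Z ∖ H)/#H, where Z is the set of zeros of χ in G. -/
theorem result {G : Type*} [Group G] [Finite G] (H : Subgroup G) (χ : Cfsg.IrrCharacter G) : (Nat.card ↥H : ℝ)⁻¹ * ∑ᶠ h : ↥H, ‖(χ : G → ℂ) h‖ ^ 2 ≤ 1 + (Set.ncard ({x : G | (χ : G → ℂ) x = 0} \ (H : Set G)) : ℝ) / (Nat.card ↥H : ℝ) := by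
  classical
  haveI := Fintype.ofFinite G
  have hHpos : (0 : ℝ) < Nat.card H := by exact_mod_cast Nat.card_pos
  have hχ := irr_isCharacter χ.2
  -- total sum
  have htot : ∑ g : G, ‖(χ : G → ℂ) g‖ ^ 2 = (Nat.card G : ℝ) := by
    have h1 := irr_inner_self χ.2
    rw [inner_self_eq] at h1
    have h2 : (Nat.card G : ℝ)⁻¹ * ∑ g : G, ‖(χ : G → ℂ) g‖ ^ 2 = 1 := by exact_mod_cast h1
    have h3 : (Nat.card G : ℝ) ≠ 0 := by exact_mod_cast Nat.card_pos.ne'
    field_simp at h2
    linarith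
  let A : Finset G := Finset.univ.filter fun g => g ∈ H
  let B : Finset G := Finset.univ.filter fun g => g ∉ H ∧ (χ : G → ℂ) g ≠ 0
  let C : Finset G := Finset.univ.filter fun g => g ∉ H ∧ (χ : G → ℂ) g = 0
  have hsplit : ∀ f : G → ℝ, ∑ g : G, f g = ∑ g ∈ A, f g + (∑ g ∈ B, f g + ∑ g ∈ C, f g) := by
    intro f
    rw [← Finset.sum_filter_add_sum_filter_not Finset.univ (fun g => g ∈ H) f]
    congr 1
    rw [← Finset.sum_filter_add_sum_filter_not (Finset.univ.filter fun g => g ∉ H)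
      (fun g => (χ : G → ℂ) g ≠ 0) f, Finset.filter_filter, Finset.filter_filter]
    congr 2
    ext g; simp [C]
  have hB : (B.card : ℝ) ≤ ∑ g ∈ B, ‖(χ : G → ℂ) g‖ ^ 2 := by
    apply char_card_le_sum hχ
    · intro g hg k hk
      simp only [B, Finset.mem_filter, Finset.mem_univ, true_and] at hg ⊢
      refine ⟨fun hmem => hg.1 ?_, fun h0 => hg.2 ((char_pow_eq_zero_iff hχ g hk).1 h0)⟩
      -- g is a power of g ^ k
      have h1 : g ∈ Subgroup.zpowers (g ^ k) := by
        have h2 : k.Coprime (orderOf g) := Nat.Coprime.coprime_dvd_right (orderOf_dvd_natCard g) hk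
        have h3 : Subgroup.zpowers (g ^ k) = Subgroup.zpowers g := by
          apply Subgroup.eq_of_le_of_card_ge
          · exact Subgroup.zpowers_le.2 (Subgroup.pow_mem _ (Subgroup.mem_zpowers g) k)
          · rw [Nat.card_zpowers, Nat.card_zpowers, Nat.Coprime.orderOf_pow h2.symm]
        rw [h3]; exact Subgroup.mem_zpowers g
      exact (Subgroup.zpowers_le.2 hmem) h1
    · intro g hg
      simp only [B, Finset.mem_filter, Finset.mem_univ, true_and] at hg
      exact hg.2
  have hC : ∑ g ∈ C, ‖(χ : G → ℂ) g‖ ^ 2 = 0 := by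
    apply Finset.sum_eq_zero
    intro g hg
    simp only [C, Finset.mem_filter, Finset.mem_univ, true_and] at hg
    simp [hg.2]
  have hcards : (Nat.card G : ℝ) = A.card + (B.card + C.card) := by
    have := hsplit (fun _ => 1)
    simpa [Nat.card_eq_fintype_card] using this
  have hAcard : A.card = Nat.card H := by
    rw [Nat.card_eq_fintype_card, Fintype.card_subtype]
  have hCcard : Set.ncard ({x : G | (χ : G → ℂ) x = 0} \ (H : Set G)) = C.card := by
    rw [← Set.ncard_coe_finset]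
    congr 1
    ext x
    simp [C, and_comm]
  have hAsum : ∑ᶠ h : ↥H, ‖(χ : G → ℂ) h‖ ^ 2 = ∑ g ∈ A, ‖(χ : G → ℂ) g‖ ^ 2 := by
    rw [finsum_eq_sum_of_fintype]
    rw [← Finset.sum_subtype A (p := fun g => g ∈ H) (by simp [A]) (fun g => ‖(χ : G → ℂ) g‖ ^ 2)]
  have hmain := hsplit (fun g => ‖(χ : G → ℂ) g‖ ^ 2)
  rw [htot, hC, add_zero] at hmain
  rw [hAsum, hCcard, inv_mul_le_iff₀ hHpos, mul_add, mul_one, mul_div_cancel₀ _ hHpos.ne']
  rw [hAcard] at hcards
  linarith

end Cfsg.Agent.S4989
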