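import Cfsg.Statements.S4996
import Cfsg.Agent.LibGalChar2

set_option autoImplicit false
set_option linter.all false
open Pointwise
open Cfsg

namespace Cfsg.Agent.S4996

open CfsgLib.CharBasic CfsgLib.GalChar CfsgLib.GalChar2 ComplexConjugate

/-- Let N be a normal subgroup of the finite group G and χ an irreducible complex character of G. Then the restriction of χ to N is not irreducible if and only if χ vanishes on some whole coset Nx of N in G. -/
theorem result {G : Type*} [Group G] [Finite G] (N : Subgroup G) [N.Normal] (χ : Cfsg.IrrCharacter G) : ¬ Cfsg.IsIrrCharacter ↥N (fun n : ↥N => (χ : G → ℂ) n) ↔ ∃ x : G, ∀ n : ↥N, (χ : G → ℂ) ((n : G) * x) = 0 := by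
  classical
  haveI := Fintype.ofFinite G
  have hNr : (Nat.card N : ℝ) ≠ 0 := by exact_mod_cast Nat.card_pos.ne'
  have hNc : (Nat.card N : ℂ) ≠ 0 := by exact_mod_cast Nat.card_pos.ne'
  have hGr : (Nat.card G : ℝ) ≠ 0 := by exact_mod_cast Nat.card_pos.ne'
  have hχ := irr_isCharacter χ.2
  let φ : G → ℂ := (χ : G → ℂ) * fun g => conj ((χ : G → ℂ) g)
  have hφ : IsCharacter G φ := isCharacter_mul hχ (isCharacter_conj hχ)
  let Φ : G → ℂ := fun x => (Nat.card N : ℂ)⁻¹ * ∑ n : N, φ (n * x)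
  have hΦ : IsCharacter G Φ := isCharacter_avg N hφ
  have hval : ∀ x, Φ x = (((Nat.card N : ℝ)⁻¹ * ∑ n : N, ‖(χ : G → ℂ) (n * x)‖ ^ 2 : ℝ) : ℂ) := by
    intro x
    simp only [Φ, φ, Pi.mul_apply, Complex.mul_conj, Complex.normSq_eq_norm_sq]
    push_cast
    rfl
  have hnn : ∀ x, 0 ≤ (Nat.card N : ℝ)⁻¹ * ∑ n : N, ‖(χ : G → ℂ) (n * x)‖ ^ 2 := fun x => by positivity
  have hnorm : ∀ x, ‖Φ x‖ = (Nat.card N : ℝ)⁻¹ * ∑ n : N, ‖(χ : G → ℂ) (n * x)‖ ^ 2 := by
    intro x
    rw [hval, Complex.norm_real, Real.norm_of_nonneg (hnn x)]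
  have hzero : ∀ x, Φ x = 0 ↔ ∀ n : N, (χ : G → ℂ) ((n : G) * x) = 0 := by
    intro x
    rw [← norm_eq_zero, hnorm, mul_eq_zero, inv_eq_zero, or_iff_right hNr,
      Finset.sum_eq_zero_iff_of_nonneg (fun _ _ => by positivity)]
    simp
  have h1 : Φ 1 = classInner (fun n : N => (χ : G → ℂ) n) (fun n : N => (χ : G → ℂ) n) := by
    simp only [Φ, φ, classInner, Pi.mul_apply, mul_one]
  have hirr : IsIrrCharacter ↥N (fun n : ↥N => (χ : G → ℂ) n) ↔ Φ 1 = 1 := by
    rw [irr_iff_norm_one, h1]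
    exact ⟨fun h => h.2, fun h => ⟨isCharacter_restrict hχ N, h⟩⟩
  rw [hirr]
  constructor
  · intro hne
    by_contra hcon
    push Not at hcon
    apply hne
    have hne' : ∀ x ∈ (Finset.univ : Finset G), Φ x ≠ 0 := by
      intro x _ h0
      obtain ⟨n, hn⟩ := hcon x
      exact hn ((hzero x).1 h0 n)
    have hint : ∀ x ∈ (Finset.univ : Finset G), IsIntegral ℤ (Φ x) := fun x _ => isIntegral_char hΦ x
    have hprod := prod_fixed_of_closed (Finset.univ : Finset G) Φ
      (gal_data_of_pow_closed hΦ Finset.univ (fun _ _ _ _ => Finset.mem_univ _))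
    have hsum : ∑ x : G, ‖Φ x‖ = ((Finset.univ : Finset G).card : ℝ) := by
      simp only [hnorm]
      rw [← Finset.mul_sum, Finset.sum_comm]
      have h2 : ∀ n : N, ∑ x : G, ‖(χ : G → ℂ) (n * x)‖ ^ 2 = (Nat.card G : ℝ) := by
        intro n
        have h3 := irr_inner_self χ.2
        rw [inner_self_eq] at h3
        have h4 : (Nat.card G : ℝ)⁻¹ * ∑ g : G, ‖(χ : G → ℂ) g‖ ^ 2 = 1 := by exact_mod_cast h3
        have h5 : ∑ g : G, ‖(χ : G → ℂ) g‖ ^ 2 = (Nat.card G : ℝ) := by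
          field_simp at h4
          linarith
        rw [← h5]
        exact Fintype.sum_equiv (Equiv.mulLeft (n : G)) _ _ fun x => rfl
      rw [Finset.sum_congr rfl fun n _ => h2 n, Finset.sum_const, nsmul_eq_mul, Finset.card_univ,
        ← Nat.card_eq_fintype_card, ← mul_assoc, inv_mul_cancel₀ hNr, one_mul, Finset.card_univ,
        ← Nat.card_eq_fintype_card]
    have h6 := norm_eq_one_of_sum_norm_le Finset.univ Φ hint hne' hprod hsum.le 1 (Finset.mem_univ _)
    obtain ⟨n, hn⟩ := char_one_nat hΦ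
    rw [hn] at h6 ⊢
    simpa using h6
  · rintro ⟨x, hx⟩ h1'
    have h2 := norm_linear hΦ h1' x
    rw [(hzero x).2 hx, norm_zero] at h2
    exact zero_ne_one h2

end Cfsg.Agent.S4996
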