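import Cfsg.Statements.S5001
import Cfsg.Agent.LibBlockDefect
import Cfsg.Agent.LibCharMore
import Cfsg.Agent.LibCharBasic3

set_option autoImplicit false
set_option linter.all false
open Cfsg CfsgLib.CharInt CfsgLib.BlockR CfsgLib.BlockDefect
open scoped ComplexConjugate

namespace Cfsg.Agent.S5001

/-- Let p be a prime, G a finite group and B a p-block of G (relative to a maximal ideal M of the algebraic integers containing p) with defect group D. Let Z be a central p-subgroup of G contained in D and λ a linear character of Z (a homomorphism to the nonzero complex numbers). Say an irreducible character χ of G lies over λ when χ(z) = χ(1)λ(z) for all z ∈ Z. If some irreducible character in B lying over λ has height zero, then λ extends to a linear character of D. -/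
theorem result {G : Type*} [Group G] [Finite G] (p : ℕ) [Fact p.Prime] (M : Ideal Cfsg.AlgInt) (hM : Cfsg.IsPModular p M) (B : Set (Cfsg.IrrCharacter G)) (hB : Cfsg.IsPBlock M B) (D : Subgroup G) (hD : Cfsg.IsDefectGroup p M B D) (Z : Subgroup G) (hZc : Z ≤ Subgroup.center G) (hZp : IsPGroup p ↥Z) (hZD : Z ≤ D) (lam : ↥Z →* ℂˣ) (χ : Cfsg.IrrCharacter G) (hχ : χ ∈ B) (hover : (∀ z : ↥Z, (χ : G → ℂ) z = (χ : G → ℂ) 1 * (lam z : ℂ))) (h0 : Cfsg.blockHeight p B (χ : G → ℂ) = 0) : (∃ μ : ↥D →* ℂˣ, ∀ z : ↥Z, μ ⟨(z : G), hZD z.2⟩ = lam z) := by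
  haveI := Fintype.ofFinite G
  have hp := isPrime_of_modular hM
  have hpp : p.Prime := Fact.out
  obtain ⟨g, hg, hS⟩ := CfsgLib.BlockFMT.isDefectGroup_iff.mp hD
  have hcc := hg.2.2 χ hχ
  have hdeg : (charDegree (χ : G → ℂ)).factorization p =
      (Subgroup.centralizer ({g} : Set G)).index.factorization p := by
    have h1 := (height_zero_iff hM hB hχ).mp h0
    rw [blockDefect_eq hM hB hg, card_factorization (Subgroup.centralizer ({g} : Set G))] at h1
    omega
  have hval : ¬ MemLocalIdeal M ((χ : G → ℂ) g) := by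
    intro hcon
    apply hcc
    have h2 : centralChar (χ : G → ℂ) g = ((Subgroup.centralizer ({g} : Set G)).index : ℂ) /
        (charDegree (χ : G → ℂ) : ℂ) * (χ : G → ℂ) g := by
      unfold centralChar
      rw [irr_one_eq_charDegree χ.2]
      ring
    rw [h2]
    exact ideal_mul_left hp (ring_div_nat hM (irr_charDegree_pos χ.2).ne' hdeg.le) hcon
  -- the group D × ⟨g⟩
  have hcomm : ∀ (d : D) (z : Subgroup.zpowers g), Commute (D.subtype d) ((Subgroup.zpowers g).subtype z) := by
    rintro ⟨d, hd⟩ ⟨z, k, rfl⟩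
    have := Subgroup.mem_centralizer_singleton_iff.mp (hS.le hd)
    exact (show Commute d g from this).zpow_right k
  set f : D × Subgroup.zpowers g →* G := MonoidHom.noncommCoprod D.subtype (Subgroup.zpowers g).subtype hcomm with hf
  haveI := Fintype.ofFinite (D × Subgroup.zpowers g)
  haveI := Fintype.ofFinite (IrrCharacter (D × Subgroup.zpowers g))
  have hfc : IsCharacter (D × Subgroup.zpowers g) ((χ : G → ℂ) ∘ f) :=
    CfsgLib.CharMore.char_comp f (CfsgLib.CharBasic.irr_isCharacter χ.2)
  set g₁ : Subgroup.zpowers g := ⟨g, Subgroup.mem_zpowers g⟩ with hg₁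
  have hfg : f (1, g₁) = g := by simp [hf, hg₁]
  have hDp : IsPGroup p D := hS.isPGroup
  have hcen : ∀ z : Subgroup.zpowers g, ((1, z) : D × Subgroup.zpowers g) ∈ Subgroup.center (D × Subgroup.zpowers g) := by
    intro z
    rw [Subgroup.mem_center_iff]
    rintro ⟨d, w⟩
    ext
    · simp
    · simp only [Prod.mk_mul_mk]
      have : Commute w z := by
        obtain ⟨w, a, rfl⟩ := w
        obtain ⟨z, b, rfl⟩ := z
        apply Subtype.ext
        simp [← zpow_add, add_comm]
      exact congrArg Subtype.val this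
  -- some linear constituent
  obtain ⟨ψ, hψ1, hψ0⟩ : ∃ ψ : IrrCharacter (D × Subgroup.zpowers g), (ψ : (D × Subgroup.zpowers g) → ℂ) 1 = 1 ∧
      classInner ((χ : G → ℂ) ∘ f) (ψ : (D × Subgroup.zpowers g) → ℂ) ≠ 0 := by
    by_contra hcon
    push Not at hcon
    apply hval
    have h3 : (χ : G → ℂ) g = ∑ ψ : IrrCharacter (D × Subgroup.zpowers g), classInner ((χ : G → ℂ) ∘ f) ψ * (ψ : (D × Subgroup.zpowers g) → ℂ) (1, g₁) := by
      have := CfsgLib.CharBasic.classFun_expand_apply (CfsgLib.CharBasic.char_classFun hfc) (1, g₁)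
      simp only [Function.comp_apply, hfg] at this
      convert this
    rw [h3]
    obtain ⟨m, hm, -, -⟩ := CfsgLib.CharBasic.char_expand hfc
    refine ideal_sum hp _ _ fun ψ _ => ?_
    by_cases h4 : (ψ : (D × Subgroup.zpowers g) → ℂ) 1 = 1
    · have := hcon ψ h4
      rw [this, zero_mul]; exact ideal_zero hp
    · have h5 : charDegree (ψ : (D × Subgroup.zpowers g) → ℂ) ∣ (MonoidHom.fst D (Subgroup.zpowers g)).ker.index :=
        CfsgLib.CharMore.degree_dvd_index_of_scalar ψ.2 _ (by
          rintro ⟨d, z⟩ hz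
          rw [MonoidHom.mem_ker] at hz
          simp only [MonoidHom.coe_fst] at hz
          subst hz
          exact CfsgLib.CharBasic.irr_center ψ.2 (hcen z))
      have h6 : (MonoidHom.fst D (Subgroup.zpowers g)).ker.index = Nat.card D := by
        rw [Subgroup.index_ker, MonoidHom.range_eq_top.mpr (Prod.fst_surjective), Subgroup.card_top]
      rw [h6] at h5
      obtain ⟨n, hn⟩ := hDp.exists_card_eq
      rw [hn] at h5
      obtain ⟨k, hk, hk2⟩ := (Nat.dvd_prime_pow hpp).mp h5
      have h7 : p ∣ charDegree (ψ : (D × Subgroup.zpowers g) → ℂ) := by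
        rw [hk2]
        apply dvd_pow_self
        rintro rfl
        apply h4
        rw [irr_one_eq_charDegree ψ.2, hk2]; simp
      have h8 : (ψ : (D × Subgroup.zpowers g) → ℂ) (1, g₁) = centralChar (ψ : (D × Subgroup.zpowers g) → ℂ) (1, g₁) * (charDegree (ψ : (D × Subgroup.zpowers g) → ℂ) : ℂ) := by
        unfold centralChar
        have h9 : Subgroup.centralizer ({(1, g₁)} : Set (D × Subgroup.zpowers g)) = ⊤ := by
          rw [eq_top_iff]; intro x _
          rw [Subgroup.mem_centralizer_singleton_iff]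
          exact Subgroup.mem_center_iff.mp (hcen g₁) x
        have h10 := CfsgLib.CharInt.irr_one_ne_zero ψ.2
        rw [h9, Subgroup.index_top, ← irr_one_eq_charDegree ψ.2]
        field_simp
        simp
      rw [h8, hm ψ]
      apply ideal_mul_left hp (ring_nat hp _)
      apply ideal_mul_left hp (ringOfInt hp (centralChar_isIntegral ψ.2 _))
      exact (ideal_nat_iff hM).mpr h7
  obtain ⟨ν, hν⟩ := CfsgLib.CharBasic.exists_hom_of_linear (CfsgLib.CharBasic.irr_isCharacter ψ.2) hψ1
  refine ⟨ν.comp (MonoidHom.inl D (Subgroup.zpowers g)), fun z => ?_⟩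
  have hz : (z : G) ∈ Subgroup.center G := hZc z.2
  have hne := CfsgLib.CharInt.irr_one_ne_zero χ.2
  have hmul : ∀ x : G, (χ : G → ℂ) (z * x) = lam z * (χ : G → ℂ) x := by
    intro x
    rw [CfsgLib.CharBasic.char_mul_of_scalar (CfsgLib.CharBasic.irr_isCharacter χ.2) hne (CfsgLib.CharBasic.irr_center χ.2 hz) x, hover z]
    field_simp
  set d : D := ⟨(z : G), hZD z.2⟩ with hd
  have hfz : f (d, 1) = z := by simp [hf, hd]
  have key : classInner ((χ : G → ℂ) ∘ f) (ψ : (D × Subgroup.zpowers g) → ℂ) = (lam z : ℂ) * conj (ν (d, 1) : ℂ) * classInner ((χ : G → ℂ) ∘ f) (ψ : (D × Subgroup.zpowers g) → ℂ) := by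
    unfold classInner
    rw [mul_left_comm]
    congr 1
    refine (Equiv.sum_comp (Equiv.mulLeft ((d, 1) : D × Subgroup.zpowers g)) _).symm.trans ?_
    rw [Finset.mul_sum]
    refine Finset.sum_congr rfl fun x _ => ?_
    simp only [Function.comp_apply, Equiv.coe_mulLeft, map_mul, hfz, hmul, hν, Units.val_mul]
    ring
  have h11 : (lam z : ℂ) * conj (ν (d, 1) : ℂ) = 1 := by
    have := key
    have h12 : (1 - (lam z : ℂ) * conj (ν (d, 1) : ℂ)) * classInner ((χ : G → ℂ) ∘ f) (ψ : (D × Subgroup.zpowers g) → ℂ) = 0 := by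
      linear_combination this
    rcases mul_eq_zero.mp h12 with h13 | h13
    · linear_combination -h13
    · exact absurd h13 hψ0
  have h14 : conj (ν (d, 1) : ℂ) = (ν (d, 1) : ℂ)⁻¹ := by
    rw [← hν, ← CfsgLib.CharBasic.char_inv_eq_conj (CfsgLib.CharBasic.irr_isCharacter ψ.2), hν, hν, map_inv, Units.val_inv_eq_inv_val]
  rw [h14] at h11
  have h15 : (lam z : ℂ) = (ν (d, 1) : ℂ) := by
    have := Units.ne_zero (ν (d, 1))
    field_simp at h11
    exact h11
  exact (Units.ext h15).symm

end Cfsg.Agent.S5001
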