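import Cfsg.Statements.S5011
import Mathlib

set_option autoImplicit false
set_option linter.all false
open Pointwise
open Cfsg

namespace Cfsg.Agent.S5011

/-- Let G be a finite non-abelian simple group and ρ an irreducible complex representation of G on a space of dimension greater than one (irreducible in the sense that the only subspaces invariant under every ρ(x) are 0 and the whole space). Then for every non-identity element g of G, the centralizer of g does not act irreducibly: there is a non-zero proper subspace invariant under ρ(c) for every c commuting with g. -/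
theorem result {G : Type*} [Group G] [Finite G] [IsSimpleGroup G]
    (hG : ¬ IsMulCommutative G) {V : Type*} [AddCommGroup V] [Module ℂ V] [FiniteDimensional ℂ V]
    (ρ : Representation ℂ G V)
    (hirr : ∀ W : Submodule ℂ V, (∀ x : G, ∀ v ∈ W, ρ x v ∈ W) → W = ⊥ ∨ W = ⊤)
    (hdim : 1 < Module.finrank ℂ V) (g : G) (hg : g ≠ 1) :
    ∃ W : Submodule ℂ V, W ≠ ⊥ ∧ W ≠ ⊤ ∧ ∀ c ∈ Subgroup.centralizer ({g} : Set G), ∀ v ∈ W, ρ c v ∈ W := by
  by_contra hcon
  push Not at hcon
  haveI : Nontrivial V := Module.finrank_pos_iff.1 (lt_trans Nat.zero_lt_one hdim)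
  obtain ⟨μ, hμ⟩ := Module.End.exists_eigenvalue (ρ g)
  -- the eigenspace is invariant under the centralizer
  have htop : Module.End.eigenspace (ρ g) μ = ⊤ := by
    by_contra hne
    obtain ⟨c, hc, v, hv, hcv⟩ := hcon (Module.End.eigenspace (ρ g) μ) hμ hne
    apply hcv
    rw [Module.End.mem_eigenspace_iff] at hv ⊢
    have hcomm : g * c = c * g := by
      have := Subgroup.mem_centralizer_iff.1 hc g rfl
      exact this
    rw [← Module.End.mul_apply, ← map_mul, hcomm, map_mul, Module.End.mul_apply, hv, map_smul]
  have hgs : ∀ v, ρ g v = μ • v := fun v => Module.End.mem_eigenspace_iff.1 (htop ▸ Submodule.mem_top)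
  -- the normal subgroup of scalars
  let K : Subgroup G :=
    { carrier := {x | ∃ μ : ℂ, ∀ v, ρ x v = μ • v}
      mul_mem' := by
        rintro a b ⟨α, ha⟩ ⟨β, hb⟩
        exact ⟨β * α, fun v => by rw [map_mul, Module.End.mul_apply, hb, map_smul, ha, smul_smul]⟩
      one_mem' := ⟨1, fun v => by simp⟩
      inv_mem' := by
        rintro a ⟨α, ha⟩
        have hα : α ≠ 0 := by
          rintro rfl
          obtain ⟨v, hv⟩ := exists_ne (0 : V)
          apply hv
          have h1 : ρ a⁻¹ (ρ a v) = v := by
            rw [← Module.End.mul_apply, ← map_mul, inv_mul_cancel, map_one, Module.End.one_apply]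
          rw [ha v, zero_smul, map_zero] at h1
          exact h1.symm
        refine ⟨α⁻¹, fun v => ?_⟩
        have h1 : ρ a⁻¹ (ρ a v) = v := by
          rw [← Module.End.mul_apply, ← map_mul, inv_mul_cancel, map_one, Module.End.one_apply]
        rw [ha v, map_smul] at h1
        rw [eq_inv_smul_iff₀ hα]
        exact h1 }
  have hKn : K.Normal := ⟨by
    rintro a ⟨α, ha⟩ b
    refine ⟨α, fun v => ?_⟩
    rw [map_mul, map_mul, Module.End.mul_apply, Module.End.mul_apply, ha, map_smul,
      ← Module.End.mul_apply, ← map_mul, mul_inv_cancel, map_one, Module.End.one_apply]⟩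
  have hKtop : K = ⊤ := by
    rcases hKn.eq_bot_or_eq_top with h | h
    · exfalso
      have : g ∈ K := ⟨μ, hgs⟩
      rw [h] at this
      exact hg (Subgroup.mem_bot.1 this)
    · exact h
  -- now every line is invariant
  obtain ⟨v, hv⟩ := exists_ne (0 : V)
  rcases hirr (Submodule.span ℂ {v}) (by
      intro x w hw
      have hx : x ∈ K := hKtop ▸ Subgroup.mem_top x
      obtain ⟨α, hα⟩ := hx
      rw [hα w]
      exact Submodule.smul_mem _ _ hw) with h | h
  · exact hv (Submodule.span_singleton_eq_bot.1 h)
  · have h1 := finrank_span_singleton (K := ℂ) hv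
    rw [h, finrank_top] at h1
    omega

end Cfsg.Agent.S5011
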