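import Cfsg.Statements.S5125
import Cfsg.Agent.LibFus21Norm2

set_option autoImplicit false
open Cfsg

namespace Cfsg.Agent.S5125

open CfsgLib.Fus21



/-- Let F be a saturated fusion system over a finite p-group S and Q a subgroup strongly closed in F. If Q has a subgroup Q₁ that is normal in F, with Q/Q₁ abelian and Aut_F(Q₁) a p-group, then Q is normal in F. -/
theorem result {Ω : Type*} [Group Ω] {S : Subgroup Ω} [Finite S] (p : ℕ) [Fact p.Prime] (hS : IsPGroup p S) (F : Cfsg.FusionSystem S) (hF : F.IsSaturated p) (Q Q₁ : Subgroup Ω) (hQ : F.StronglyClosed Q) (hQ₁Q : Q₁ ≤ Q) (hQ₁ : F.IsNormal Q₁) (hab : ⁅Q, Q⁆ ≤ Q₁) (hAut : IsPGroup p ↥(F.autGroup Q₁)) : F.IsNormal Q := by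
  refine isNormal_of_radical hS hF hQ fun P hP => ?_
  have hQ₁s := normal_stronglyClosed hQ₁
  have hQ₁P : Q₁ ≤ P := normal_le_radical hS hQ₁ hP.1 (essential_radical hS hP)
  have hPS := hP.1.1
  refine le_of_chain hS 1 (fun i => if i = 0 then Q₁ else Q) (by simp) ?_ ?_ ?_ hP.1 (essential_radical hS hP) ?_
  · refine monotone_nat_of_le_succ fun i => ?_
    rcases i with _ | i
    · simpa using hQ₁Q
    · simp
  · intro i hi
    interval_cases i
    · simpa using hQ₁s
    · simpa using hQ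
  · intro i hi
    interval_cases i
    simpa using hab
  · intro α hα
    obtain ⟨β, hβ, hβx⟩ := aut_restrict hPS hQ₁P hα (fun x => normal_aut_iff hQ₁ hPS hα x)
    obtain ⟨k, hk⟩ := hAut ⟨β, hβ⟩
    refine ⟨k, fun x hx => ?_⟩
    have h1 := pow_restrict hQ₁P hβx (p ^ k) ⟨x, hx⟩
    have h2 : β ^ p ^ k = 1 := congrArg Subtype.val hk
    rw [h2] at h1
    exact Subtype.ext h1.symm

end Cfsg.Agent.S5125
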