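import Cfsg.Statements.S5196
import Cfsg.Agent.LibFus21Ctl3

set_option autoImplicit false
universe u
open Cfsg

namespace Cfsg.Agent.S5196

open Cfsg Cfsg.FusionSystem CfsgLib.Fus21



/-- Let p be an odd prime and W a positive characteristic p-functor: W assigns to every finite p-group Q (in a fixed universe) a subgroup W(Q), nontrivial when Q is, carried to W(R) by every isomorphism Q ≅ R; assume also Z(Q) ≤ W(Q) for every finite p-group Q. Suppose W satisfies the local condition: for every finite group G with Sylow p-subgroup P, O_p(G) ∩ Z(G) = O_p(G) ∩ Z(N_G(W(P))). Then W controls weak closure of elements in every saturated fusion system F over a finite p-group S: the centre of the normalizer fusion system of W(S) in F equals the centre of F. (For p = 2 no functor satisfies the local condition, so p is taken odd.) -/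
theorem result {p : ℕ} [Fact p.Prime] (hp : p ≠ 2) (W : ∀ (Q : Type u) [Group Q], Subgroup Q) (hW1 : ∀ (Q : Type u) [Group Q] [Finite Q], IsPGroup p Q → Nontrivial Q → W Q ≠ ⊥) (hW2 : ∀ (Q R : Type u) [Group Q] [Group R] [Finite Q], IsPGroup p Q → ∀ φ : Q ≃* R, (W Q).map φ.toMonoidHom = W R) (hWZ : ∀ (Q : Type u) [Group Q] [Finite Q], IsPGroup p Q → Subgroup.center Q ≤ W Q) (hC : ∀ (G : Type u) [Group G] [Finite G] (P : Sylow p G), Cfsg.pCore p G ⊓ Subgroup.center G = Cfsg.pCore p G ⊓ (Subgroup.center ↥(Subgroup.normalizer (((W ↥(P : Subgroup G)).map (P : Subgroup G).subtype : Subgroup G) : Set G))).map (Subgroup.normalizer (((W ↥(P : Subgroup G)).map (P : Subgroup G).subtype : Subgroup G) : Set G)).subtype) {Ω : Type u} [Group Ω] {S : Subgroup Ω} [Finite S] (hS : IsPGroup p S) (F : Cfsg.FusionSystem S) (hF : F.IsSaturated p) (N : Cfsg.FusionSystem (Cfsg.FusionSystem.normalizerIn S ((W ↥S).map S.subtype))) (hN : F.IsNormalizerSystem ((W ↥S).map S.subtype) N) : N.center = F.center := by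
  have hg := gfun_ofW hW1 hW2 Ω
  have hwZ : ∀ P : Subgroup Ω, Finite P → IsPGroup p P → centralizerIn P P ≤ ofW W P := by
    intro P hf hP x hx
    have : (⟨x, hx.1⟩ : P) ∈ W P :=
      hWZ P hP (Subgroup.mem_center_iff.2 fun g => Subtype.ext ((mem_centralizerIn.1 hx).2 g g.2))
    exact ⟨⟨x, hx.1⟩, this, rfl⟩
  have hfn := hg.fn hS F
  have hNe := normSys_unique hfn.1 hN
  subst hNe
  apply le_antisymm
  · have key := control_center (p := p) hg hwZ (fun S => centralizerIn S S) (fun S => le_rfl) (fun S T hT hZ x hx => by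
      rw [mem_centralizerIn']
      exact ⟨hZ hx, fun y hy => (mem_centralizerIn'.1 hx).2 y (hT hy)⟩) (fun _ _ => True) (fun _ _ _ _ _ _ _ _ => trivial)
      (by
        intro S F hf hS hF _ x hx
        obtain ⟨hxZ, hxN⟩ := hx
        obtain ⟨G, hGg, ι, hm⟩ := model_exists hS hF
        rw [mem_center_model (p := p) hS hF.1 hm]
        refine ⟨hxZ.1, ?_⟩
        obtain ⟨hfG, hr, ⟨T, hT⟩, hCC⟩ := id hm
        have h1 := hC G T
        have h2 : ι ⟨x, hxZ.1⟩ ∈ Cfsg.pCore p G := model_Z_core (p := p) hm hxZ
        have hwx : x ∈ ofW W S := hwZ S hf hS hxZ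
        have himg : ofW W (T : Subgroup G) = img ι (ofW W S) := ofW_img hW2 hS hr.1 hT
        have h3 : ι ⟨x, hxZ.1⟩ ∈ Cfsg.pCore p G ⊓ (Subgroup.center ↥(Subgroup.normalizer (((W ↥(T : Subgroup G)).map (T : Subgroup G).subtype : Subgroup G) : Set G))).map (Subgroup.normalizer (((W ↥(T : Subgroup G)).map (T : Subgroup G).subtype : Subgroup G) : Set G)).subtype := by
          refine ⟨h2, ?_⟩
          have h4 : ι ⟨x, hxZ.1⟩ ∈ Subgroup.normalizer (((W ↥(T : Subgroup G)).map (T : Subgroup G).subtype : Subgroup G) : Set G) := by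
            apply Subgroup.le_normalizer
            show _ ∈ ofW W (T : Subgroup G)
            rw [himg]
            exact mem_img_of (ι := ι) (hg.le S) hwx
          refine ⟨⟨_, h4⟩, Subgroup.mem_center_iff.2 fun g => Subtype.ext ?_, rfl⟩
          have hg2 : (g : G) ∈ Subgroup.normalizer (img ι (ofW W S) : Set G) := by
            rw [← himg]; exact g.2
          exact model_normalizer_center hr (hg.le S)
            ((le_normalizerIn le_rfl).trans ((hg.wfun hS F).normalizer le_rfl)) hwx hxN hg2
        rw [← h1] at h3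
        exact h3.2) _ S F inferInstance hS hF trivial rfl
    refine le_trans (le_inf ?_ le_rfl) key
    intro x hx
    haveI : Finite (normalizerIn S (ofW W S)) := finite_of_le (normalizerIn_le _ _)
    have h1 := center_le_Z (normSys F (ofW W S) hfn.1) hx
    have h2 : S ≤ normalizerIn S (ofW W S) := (le_normalizerIn le_rfl).trans ((hg.wfun hS F).normalizer le_rfl)
    rw [mem_centralizerIn'] at h1 ⊢
    exact ⟨normalizerIn_le _ _ h1.1, fun y hy => h1.2 y (h2 hy)⟩
  · exact center_le_normSys hS hF hfn

end Cfsg.Agent.S5196
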