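import Cfsg.Statements.S5247
import Cfsg.Agent.LibPStF9B

set_option autoImplicit false
open Cfsg

namespace Cfsg.Agent.S5247

open CfsgLib.Fus21 CfsgLib.PStF9

theorem aut_comm {Q : Type*} [Group Q] [IsCyclic Q] (α β : MulAut Q) : α * β = β * α := by
  obtain ⟨m, hm⟩ := MonoidHom.map_cyclic (α : Q ≃* Q).toMonoidHom
  obtain ⟨n, hn⟩ := MonoidHom.map_cyclic (β : Q ≃* Q).toMonoidHom
  ext x
  have h1 : ∀ y, α y = y ^ m := hm
  have h2 : ∀ y, β y = y ^ n := hn
  rw [MulAut.mul_apply, MulAut.mul_apply, h1, h2, h1, h2, ← zpow_mul, ← zpow_mul, mul_comm]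

theorem quad_pow {Q : Type*} [Group Q] [IsCyclic Q] [Finite Q] (χ : MulAut Q)
    (h : ∀ a : Q, (χ a⁻¹) * a * (χ a⁻¹) * (χ (χ a)) = 1) : χ ^ Nat.card Q = 1 := by
  letI : CommGroup Q := IsCyclic.commGroup
  have h1 : ∀ a : Q, χ (χ a * a⁻¹) = χ a * a⁻¹ := by
    intro a
    have h2 := h a
    rw [map_mul, map_inv]
    rw [map_inv] at h2
    have h3 : χ (χ a) = χ a * (a⁻¹ * χ a) := by
      have h4 := eq_inv_of_mul_eq_one_right h2
      rw [h4]
      simp only [mul_inv_rev, inv_inv]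
      
    rw [h3]
    rw [mul_assoc, mul_assoc, mul_inv_cancel, mul_one]
  have h2 : ∀ (n : ℕ) (a : Q), (χ ^ n) a = a * (χ a * a⁻¹) ^ n := by
    intro n
    induction n with
    | zero => intro a; simp
    | succ n ih =>
      intro a
      rw [pow_succ', MulAut.mul_apply, ih, map_mul, map_pow, h1, pow_succ']
      rw [← mul_assoc]
      congr 1
      rw [mul_comm (χ a) a⁻¹, mul_inv_cancel_left]
  ext a
  rw [h2, pow_card_eq_one', mul_one]
  rfl

/-- Let p be an odd prime and F a saturated fusion system over a finite p-group S. Call a fusion system E (over any subgroup) p-stable when, for every fully E-normalized subgroup Q and every χ ∈ Aut_E(Q) with χ(a⁻¹)·a·χ(a⁻¹)·χ(χ(a)) = 1 for all a ∈ Q (χ acts quadratically), χ lies in O_p(Aut_E(Q)). Then F is p-stable if and only if every normalizer fusion system N_F(R) of every non-cyclic fully F-normalized subgroup R of S is p-stable. -/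
theorem result {Ω : Type*} [Group Ω] {S : Subgroup Ω} [Finite S] (p : ℕ) [Fact p.Prime] (hS : IsPGroup p S) (F : Cfsg.FusionSystem S) (hF : F.IsSaturated p) (hp : p ≠ 2) : (∀ Q : Subgroup Ω, F.IsFullyNormalized Q → ∀ χ : MulAut ↥Q, χ ∈ F.autGroup Q → (∀ a : ↥Q, (χ a⁻¹) * a * (χ a⁻¹) * (χ (χ a)) = 1) → χ ∈ ((Cfsg.pCore p ↥(F.autGroup Q)).map (F.autGroup Q).subtype : Subgroup (MulAut ↥Q))) ↔ ∀ R : Subgroup Ω, F.IsFullyNormalized R → ¬ IsCyclic ↥R → ∀ N : Cfsg.FusionSystem (Cfsg.FusionSystem.normalizerIn S R), F.IsNormalizerSystem R N → (∀ Q : Subgroup Ω, N.IsFullyNormalized Q → ∀ χ : MulAut ↥Q, χ ∈ N.autGroup Q → (∀ a : ↥Q, (χ a⁻¹) * a * (χ a⁻¹) * (χ (χ a)) = 1) → χ ∈ ((Cfsg.pCore p ↥(N.autGroup Q)).map (N.autGroup Q).subtype : Subgroup (MulAut ↥Q))) := by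
  constructor
  · intro h R hR _ N hN
    have hNe := normSys_unique hR.1 hN
    subst hNe
    exact PSt.sub h (normalizerIn_le _ _) (normSys_sub F R hR.1)
  · intro h Q hQ χ hχ hq
    by_cases hc : IsCyclic ↥Q
    · haveI : Finite Q := finite_of_le hQ.1
      have h1 := quad_pow χ hq
      have h2 : Subgroup.zpowers χ ≤ (Cfsg.pCore p ↥(F.autGroup Q)).map (F.autGroup Q).subtype := by
        refine le_Op ((Subgroup.zpowers_le).2 hχ) ?_ ?_
        · obtain ⟨k, hk⟩ := (IsPGroup.iff_card).1 (hS.to_le hQ.1)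
          rw [hk] at h1
          rintro ⟨y, hy⟩
          obtain ⟨n, rfl⟩ := Subgroup.mem_zpowers_iff.1 hy
          refine ⟨k, Subtype.ext ?_⟩
          show (χ ^ n) ^ p ^ k = 1
          rw [← zpow_natCast, ← zpow_mul, mul_comm, zpow_mul, zpow_natCast, h1, one_zpow]
        · intro a _ b hb
          rw [aut_comm a b, mul_inv_cancel_right]
          exact hb
      exact h2 (Subgroup.mem_zpowers χ)
    · have h1 := h Q hQ hc _ (normSys_is F Q hQ.1)
      haveI : Finite (Cfsg.FusionSystem.normalizerIn S Q) := finite_of_le (normalizerIn_le _ _)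
      have h2 := PSt.all (F := normSys F Q hQ.1) h1 (le_normalizerIn hQ.1) (by rw [normSys_autGroup]; exact hχ) hq
      rw [normSys_autGroup] at h2
      exact h2

end Cfsg.Agent.S5247
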