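import Cfsg.Statements.S5301
import Cfsg.Agent.LibFus21Norm2

set_option autoImplicit false
universe u
open Cfsg

namespace Cfsg.Agent.S5301

open CfsgLib.Fus21



/-- Let F be a saturated fusion system over a finite p-group S. If for every subgroup P of S that is fully normalized, centric and radical in F the automorphism group that F induces on P has a normal Sylow p-subgroup, then S is normal in F. -/
theorem result {Ω : Type u} [Group Ω] {S : Subgroup Ω} [Finite S] (p : ℕ) [Fact p.Prime] (hS : IsPGroup p S)
    (F : Cfsg.FusionSystem S) (hF : F.IsSaturated p)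
    (hcl : ∀ P : Subgroup Ω, F.IsFullyNormalized P → F.IsCentric P → F.IsRadical p P →
      ∃ R : Sylow p ↥(F.autGroup P), (R : Subgroup ↥(F.autGroup P)).Normal) :
    F.IsNormal S := by
  refine isNormal_S_of_no_essential hS hF fun P hP => ?_
  have hlt := essential_lt hS hF hP
  have hPS := hP.1.1
  obtain ⟨R, hR⟩ := hcl P hP.2.1 hP.1 (essential_radical hS hP)
  have hfA : Finite (F.autGroup P) := finite_autGroup F hPS
  have hp1 : IsPGroup p ((autInducedBy S P).subgroupOf (F.autGroup P)) :=
    (isPGroup_autInducedBy hS P).comap_of_injective _ (F.autGroup P).subtype_injective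
  obtain ⟨R', hR'⟩ := hp1.exists_le_sylow
  have hRR : (R' : Subgroup (F.autGroup P)) = pCore p (F.autGroup P) := by
    obtain ⟨g, hg⟩ := MulAction.exists_smul_eq (F.autGroup P) R R'
    have h2 : g • R = R := Sylow.smul_eq_of_normal
    rw [h2] at hg
    rw [← hg]
    exact CfsgLib.Cores.sylow_eq_pCore_of_normal R hR
  have h3 : autInducedBy S P ≤ Cfsg.Inn P := by
    rw [← (essential_radical hS hP).2, ← hRR]
    intro α hα
    exact ⟨⟨α, autInducedBy_le_autGroup F hPS hα⟩, hR' hα, rfl⟩
  refine (lt_normalizer_inf hS hlt).not_ge ?_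
  rintro g ⟨hg, hgN⟩
  obtain ⟨α, hα⟩ := exists_conjAut hgN
  exact mem_of_conjAut_inner hP.1 hg hα (h3 (mem_autInducedBy.2 ⟨g, hg, hα⟩))

end Cfsg.Agent.S5301
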