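import Cfsg.Statements.S5318
import Cfsg.Agent.LibWre5

set_option autoImplicit false
open Cfsg

namespace Cfsg.Agent.S5318


open Cfsg Cfsg.FusionSystem CfsgLib.Fus21 CfsgLib.Wre


/-- For a finite field F of odd order, the 2-fusion system of PSL(3,F) on a Sylow 2-subgroup (semidihedral or wreathed according as |F| ≡ 3 or 1 mod 4) is simple. -/
theorem result {F : Type*} [Field F] [Fintype F] (hodd : Fintype.card F % 2 = 1) (S : Sylow 2 (Matrix.ProjectiveSpecialLinearGroup (Fin 3) F)) :
    (Cfsg.groupFusionSystem (S : Subgroup (Matrix.ProjectiveSpecialLinearGroup (Fin 3) F))).IsSimple 2 := by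
    have h2 : (2 : F) ≠ 0 := by
      intro h2
      have hc : ringChar F = 2 := by
        have h3 : ((2 : ℕ) : F) = 0 := by exact_mod_cast h2
        have h4 := ringChar.dvd h3
        exact (Nat.prime_dvd_prime_iff_eq (CharP.char_is_prime F (ringChar F)) Nat.prime_two).1 h4
      have h5 := FiniteField.even_card_iff_char_two.1 hc
      omega
    haveI : Fact (Nat.Prime 2) := ⟨Nat.prime_two⟩
    refine ((sl3_simpleData h2).of_cover (QuotientGroup.mk' (Subgroup.center (Matrix.SpecialLinearGroup (Fin 3) F)))
      (QuotientGroup.mk'_surjective _) ?_).simple S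
    intro z hz
    have hz' : z ∈ Subgroup.center (Matrix.SpecialLinearGroup (Fin 3) F) := (QuotientGroup.eq_one_iff z).1 hz
    refine ⟨fun h => ((Subgroup.mem_center_iff.1 hz') h).symm, fun k hk => ?_⟩
    obtain ⟨r, hr3, hr⟩ := Matrix.SpecialLinearGroup.mem_center_iff.1 hz'
    have h1 : (Matrix.scalar (Fin 3) r) ^ 2 ^ k = 1 := by
      rw [hr]
      exact congrArg Subtype.val hk
    have h3 : r ^ 2 ^ k = 1 := by
      rw [← map_pow] at h1
      have h3 := congrFun (congrFun h1 0) 0
      simpa using h3
    have h4 : r = 1 := by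
      rw [Fintype.card_fin] at hr3
      have hcop : Nat.Coprime 3 (2 ^ k) := Nat.Coprime.pow_right k (by norm_num)
      have := pow_gcd_eq_one.2 ⟨hr3, h3⟩
      rwa [hcop.gcd_eq_one, pow_one] at this
    apply Subtype.ext
    show (z : Matrix (Fin 3) (Fin 3) F) = 1
    rw [← hr, h4, map_one]

end Cfsg.Agent.S5318
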