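import Cfsg.Statements.S5319
import Cfsg.Agent.LibWre8

set_option autoImplicit false
open Cfsg

namespace Cfsg.Agent.S5319


open Cfsg Cfsg.FusionSystem CfsgLib.Fus21 CfsgLib.Wre CfsgLib.SU27 Cfsg.Agent.H22


/-- Let q be an odd prime power and F a field with q² elements. Then the 2-fusion system of PSU(3,q) (realised as the special unitary group of the standard Hermitian form over F modulo its centre) on a Sylow 2-subgroup is simple. -/
theorem result {F : Type*} [Field F] [Fintype F] (q : ℕ) (hq : Fintype.card F = q ^ 2) (hodd : q % 2 = 1) (S : Sylow 2 (Cfsg.PSU 3 F q)) :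
    (Cfsg.groupFusionSystem (S : Subgroup (Cfsg.PSU 3 F q))).IsSimple 2 := by
  classical
  obtain ⟨σ, hσ, hσ2, hσi⟩ := exists_sigma hq
  have hcard : Fintype.card F % 2 = 1 := by rw [hq, pow_two, Nat.mul_mod, hodd]
  have h2 : (2 : F) ≠ 0 := by
    intro h2
    have hc : ringChar F = 2 := by
      have h3 : ((2 : ℕ) : F) = 0 := by exact_mod_cast h2
      have h4 := ringChar.dvd h3
      exact (Nat.prime_dvd_prime_iff_eq (CharP.char_is_prime F (ringChar F)) Nat.prime_two).1 h4
    have h5 := FiniteField.even_card_iff_char_two.1 hc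
    omega
  have : Fact (Nat.Prime 2) := ⟨Nat.prime_two⟩
  obtain ⟨l, hl⟩ := CfsgLib.Herm27.exists_norm_eq σ hσi hσ2 (1 / 2) (one_div_ne_zero h2) (by rw [map_div₀, map_one, map_ofNat])
  have hsq : ∃ i : F, i * i = -1 := by
    have h3 : IsSquare (-1 : F) := by
      rw [FiniteField.isSquare_neg_one_iff]
      rw [hq]
      rcases Nat.even_or_odd' q with ⟨m, hm | hm⟩
      · omega
      · rw [hm]
        have : (2 * m + 1) ^ 2 = 4 * (m * m + m) + 1 := by ring
        omega
    obtain ⟨i, hi⟩ := h3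
    exact ⟨i, hi.symm⟩
  refine ((su3_simpleData h2 hq hσ hσ2 hσi hl hsq).of_cover (QuotientGroup.mk' (Subgroup.center (Cfsg.SU 3 F q)))
    (QuotientGroup.mk'_surjective _) ?_).simple S
  intro z hz
  have hz' : z ∈ Subgroup.center (Cfsg.SU 3 F q) := (QuotientGroup.eq_one_iff z).1 hz
  refine ⟨fun h => ((Subgroup.mem_center_iff.1 hz') h).symm, fun k hk => ?_⟩
  have hq3 : 3 ≤ q := by
    have h3 : 1 < Fintype.card F := Fintype.one_lt_card
    rw [hq] at h3
    rcases Nat.lt_or_ge q 3 with h4 | h4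
    · interval_cases q <;> omega
    · exact h4
  have hex : ∃ ζ : F, ζ ^ (q + 1) = 1 ∧ ζ ^ 2 ≠ 1 := by
    obtain ⟨g, hg⟩ := IsCyclic.exists_generator (α := Fˣ)
    have hord : orderOf g = (q - 1) * (q + 1) := by
      rw [orderOf_eq_card_of_forall_mem_zpowers hg, Nat.card_eq_fintype_card, Fintype.card_units, hq]
      have : q ^ 2 - 1 = (q + 1) * (q - 1) := by
        have := Nat.sq_sub_sq q 1
        simpa using this
      rw [this, mul_comm]
    refine ⟨((g ^ (q - 1) : Fˣ) : F), ?_, ?_⟩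
    · rw [← Units.val_pow_eq_pow_val, ← pow_mul, ← hord, pow_orderOf_eq_one, Units.val_one]
    · intro h3
      rw [← Units.val_pow_eq_pow_val, ← pow_mul] at h3
      have h4 := orderOf_dvd_of_pow_eq_one (Units.ext (h3.trans Units.val_one.symm))
      rw [hord, Nat.mul_dvd_mul_iff_left (by omega)] at h4
      have := Nat.le_of_dvd (by norm_num) h4
      omega
  obtain ⟨r, hr⟩ := center_scalar σ hσ hσ2 hex z hz'
  have hr3 : r ^ 3 = 1 := by
    have h3 := (z : Matrix.SpecialLinearGroup (Fin 3) F).2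
    have h4 : ((z : Matrix.SpecialLinearGroup (Fin 3) F) : Matrix (Fin 3) (Fin 3) F).det = 1 := h3
    rw [hr, Matrix.det_smul, Matrix.det_one, mul_one, Fintype.card_fin] at h4
    exact h4
  have h1 : (r • (1 : Matrix (Fin 3) (Fin 3) F)) ^ 2 ^ k = 1 := by
    rw [← hr]
    exact congrArg (fun w : Cfsg.SU 3 F q => ((w : Matrix.SpecialLinearGroup (Fin 3) F) : Matrix (Fin 3) (Fin 3) F)) hk
  have h3 : r ^ 2 ^ k = 1 := by
    rw [smul_pow, one_pow] at h1
    have h3 := congrFun (congrFun h1 0) 0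
    simpa using h3
  have h4 : r = 1 := by
    have hcop : Nat.Coprime 3 (2 ^ k) := Nat.Coprime.pow_right k (by norm_num)
    have := pow_gcd_eq_one.2 ⟨hr3, h3⟩
    rwa [hcop.gcd_eq_one, pow_one] at this
  apply Subtype.ext
  apply Subtype.ext
  show ((z : Matrix.SpecialLinearGroup (Fin 3) F) : Matrix (Fin 3) (Fin 3) F) = 1
  rw [hr, h4, one_smul]

end Cfsg.Agent.S5319
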