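import Cfsg.Statements.S5320
import Cfsg.Agent.LibWrx7

set_option autoImplicit false
open Cfsg

namespace Cfsg.Agent.S5320


open Cfsg Cfsg.FusionSystem CfsgLib.Fus21 CfsgLib.Wrx


/-- For a finite field F of odd order, the 2-fusion system of the projective symplectic group PSp(4,F) on a Sylow 2-subgroup is simple. -/
theorem result {F : Type*} [Field F] [Fintype F] (hodd : Fintype.card F % 2 = 1) (S : Sylow 2 (Cfsg.PSp 2 F)) :
    (Cfsg.groupFusionSystem (S : Subgroup (Cfsg.PSp 2 F))).IsSimple 2 := by
  have h2 : (2 : F) ≠ 0 := by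
    intro h2
    have hc : ringChar F = 2 := by
      have h3 : ((2 : ℕ) : F) = 0 := by exact_mod_cast h2
      have h4 := ringChar.dvd h3
      exact (Nat.prime_dvd_prime_iff_eq (CharP.char_is_prime F (ringChar F)) Nat.prime_two).1 h4
    have h5 := FiniteField.even_card_iff_char_two.1 hc
    omega
  have : Fact (Nat.Prime 2) := ⟨Nat.prime_two⟩
  obtain ⟨a, b, hab⟩ := sumsq hodd (-1 : F)
  have h := w4 h2 hodd a b hab
  refine (h.simpleData (QuotientGroup.mk' (Subgroup.center (Matrix.symplecticGroup (Fin 2) F))) (QuotientGroup.mk'_surjective _) ?_).simple S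
  intro x
  have h1 : QuotientGroup.mk' (Subgroup.center (Matrix.symplecticGroup (Fin 2) F)) x = 1 ↔ x ∈ Subgroup.center (Matrix.symplecticGroup (Fin 2) F) :=
    QuotientGroup.eq_one_iff x
  rw [h1, Subgroup.mem_center_iff]
  constructor
  · intro hx
    obtain ⟨c, d, hcd⟩ := h.H1 x (hx _).symm
    have e1 : iH (c, d) = iH (d, c) := by
      have h3 := hx (tH F)
      rw [← hcd, h.tc] at h3
      exact (mul_right_cancel h3).symm
    have e2 := h.inj e1
    simp only [Prod.mk.injEq] at e2
    have hcom : ∀ y, c * y = y * c := by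
      intro y
      have h3 := hx (iH (y, 1))
      rw [← hcd, ← map_mul, ← map_mul] at h3
      have h4 := h.inj h3
      simp only [Prod.mk_mul_mk, Prod.mk.injEq] at h4
      exact h4.1.symm
    have hc2 : c * c = 1 := by
      have h3 := h.inv c (hcom _)
      rw [← hcom, mul_inv_cancel_right] at h3
      nth_rw 2 [h3]; exact mul_inv_cancel c
    rcases h.L1 c hc2 with h3 | h3
    · left; rw [← hcd, ← e2.1, h3]; exact map_one _
    · right; rw [← hcd, ← e2.1, h3]
  · rintro (rfl | rfl)
    · intro g; rw [mul_one, one_mul]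
    · intro g; exact h.zz g

end Cfsg.Agent.S5320
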