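import Cfsg.Statements.S5376
import Mathlib
import Cfsg.Agent.LibM22G

set_option autoImplicit false
open Cfsg

namespace Cfsg.Agent.S5376

open Cfsg Subgroup CfsgLib.M22 CfsgLib.R3 CfsgLib.TT28

/-- Let G be a finite group with trivial centre generated by a conjugation-invariant set D of 3-transpositions on which it acts primitively, of type M(22), and suppose some finite primitive 3-transposition group of type M(23) exists. Then G is simple, and for every d in D the subgroup generated by the members of D other than d commuting with d contains d and is quasisimple with centre generated by d. -/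
theorem result {G : Type*} [Group G] [Finite G] {D : Set G} (hD : Cfsg.IsThreeTranspositionGroup D) (hprim : Cfsg.IsPrimitiveUnderConj D) (ht : Cfsg.IsOfTypeM22 G D) (hex : ∃ (X : Type) (_ : Group X) (_ : Finite X) (E : Set X), Cfsg.IsThreeTranspositionClass E ∧ Cfsg.IsPrimitiveUnderConj E ∧ Cfsg.IsOfTypeM23 X E) : IsSimpleGroup G ∧ ∀ d ∈ D, d ∈ Subgroup.closure {y : G | y ∈ D ∧ y ≠ d ∧ Commute d y} ∧ Cfsg.IsQuasisimple ↥(Subgroup.closure {y : G | y ∈ D ∧ y ≠ d ∧ Commute d y}) ∧ Subgroup.center ↥(Subgroup.closure {y : G | y ∈ D ∧ y ≠ d ∧ Commute d y}) = (Subgroup.zpowers d).subgroupOf (Subgroup.closure {y : G | y ∈ D ∧ y ≠ d ∧ Commute d y}) := by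
  refine ⟨T22_simple hD hprim ht, ?_⟩
  intro d hd
  obtain ⟨hq, hdm⟩ := T22_quasi hD hprim ht d hd
  obtain ⟨-, -, -, -, hsmall⟩ := T22_six hD hprim ht
  refine ⟨hdm, hq, ?_⟩
  ext z
  rw [Subgroup.mem_subgroupOf, Subgroup.mem_zpowers_iff]
  constructor
  · intro hz
    have h1 : ∀ u ∈ Dd D d, Commute (z : G) u := by
      intro u hu
      have := mem_center_iff.1 hz ⟨u, Subgroup.subset_closure hu⟩
      exact (congrArg Subtype.val this).symm
    have h2 : Commute (z : G) d := (Md_comm (closure_Dd_le z.2)).symm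
    rcases hsmall d hd z h1 h2 with h | h
    · exact ⟨0, by rw [zpow_zero, h]⟩
    · exact ⟨1, by rw [zpow_one, h]⟩
  · rintro ⟨k, hk⟩
    rw [mem_center_iff]
    intro g
    apply Subtype.ext
    show (g : G) * z = z * g
    rw [← hk]
    exact ((Md_comm (closure_Dd_le g.2)).symm.zpow_right k).eq

end Cfsg.Agent.S5376
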