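import Cfsg.Statements.S5463
import Mathlib
import Cfsg.Agent.LibM22D

set_option autoImplicit false
open Cfsg

namespace Cfsg.Agent.S5463

open Cfsg Subgroup CfsgLib.M22 CfsgLib.R3 CfsgLib.TT28

/-- Let G be a finite group with trivial centre generated by a conjugation-invariant set D of 3-transpositions on which it acts primitively, such that for some d in D the subgroup generated by the members of D other than d commuting with d has central largest normal 2- and 3-subgroups, and suppose G with D is of type M(22). A product j of two distinct commuting members of D determines the pair: any two 2-element sets of commuting members of D with product j coincide. A product j of three distinct pairwise commuting members of D arises from exactly two such 3-element sets. -/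
theorem result {G : Type*} [Group G] [Finite G] {D : Set G} (hD : Cfsg.IsThreeTranspositionGroup D) (hprim : Cfsg.IsPrimitiveUnderConj D) (d₀ : G) (hd₀ : d₀ ∈ D) (h3 : Cfsg.pCore 3 ↥(Subgroup.closure {y : G | y ∈ D ∧ y ≠ d₀ ∧ Commute d₀ y}) ≤ Subgroup.center ↥(Subgroup.closure {y : G | y ∈ D ∧ y ≠ d₀ ∧ Commute d₀ y})) (h2 : Cfsg.pCore 2 ↥(Subgroup.closure {y : G | y ∈ D ∧ y ≠ d₀ ∧ Commute d₀ y}) ≤ Subgroup.center ↥(Subgroup.closure {y : G | y ∈ D ∧ y ≠ d₀ ∧ Commute d₀ y})) (h22 : Cfsg.IsOfTypeM22 G D) : (∀ (j : G) (l l' : List G), (l.Nodup ∧ l.length = 2 ∧ (∀ a ∈ l, a ∈ D) ∧ (∀ a ∈ l, ∀ b ∈ l, Commute a b) ∧ l.prod = j) → (l'.Nodup ∧ l'.length = 2 ∧ (∀ a ∈ l', a ∈ D) ∧ (∀ a ∈ l', ∀ b ∈ l', Commute a b) ∧ l'.prod = j) → (∀ x : G, x ∈ l ↔ x ∈ l')) ∧ ∀ (j : G) (l₀ : List G), (l₀.Nodup ∧ l₀.length = 3 ∧ (∀ a ∈ l₀, a ∈ D) ∧ (∀ a ∈ l₀, ∀ b ∈ l₀, Commute a b) ∧ l₀.prod = j) → ∃ l₁ l₂ : List G, (l₁.Nodup ∧ l₁.length = 3 ∧ (∀ a ∈ l₁, a ∈ D) ∧ (∀ a ∈ l₁, ∀ b ∈ l₁, Commute a b) ∧ l₁.prod =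 j) ∧ (l₂.Nodup ∧ l₂.length = 3 ∧ (∀ a ∈ l₂, a ∈ D) ∧ (∀ a ∈ l₂, ∀ b ∈ l₂, Commute a b) ∧ l₂.prod = j) ∧ ¬ (∀ x : G, x ∈ l₁ ↔ x ∈ l₂) ∧ ∀ l : List G, (l.Nodup ∧ l.length = 3 ∧ (∀ a ∈ l, a ∈ D) ∧ (∀ a ∈ l, ∀ b ∈ l, Commute a b) ∧ l.prod = j) → ((∀ x : G, x ∈ l ↔ x ∈ l₁) ∨ (∀ x : G, x ∈ l ↔ x ∈ l₂)) := by
  obtain ⟨n3, n4, n5, hsix, hsmall⟩ := T22_six hD hprim h22
  have hS := hD.1
  refine ⟨?_, ?_⟩
  · intro j l l' hl hl'
    refine unique_of_NR hD.1 (m := 2) ?_ (by norm_num) ⟨hl.1, hl.2.2.1, hl.2.2.2.1⟩ ⟨hl'.1, hl'.2.2.1, hl'.2.2.2.1⟩ hl.2.1 hl'.2.1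
      (hl.2.2.2.2.trans hl'.2.2.2.2.symm)
    intro t ht h1
    have : t = 2 := by omega
    subst this
    exact n4
  · intro j l₀ hl
    obtain ⟨a, b, c, rfl⟩ := List.length_eq_three.1 hl.2.1
    have hcl0 : CL D [a, b, c] := ⟨hl.1, hl.2.2.1, hl.2.2.2.1⟩
    have hnd := hl.1
    simp only [List.nodup_cons, List.mem_cons, List.not_mem_nil, or_false, not_or, not_false_iff, List.nodup_nil, and_true] at hnd
    have ma : a ∈ D := hcl0.2.1 a (by simp)
    have hb : b ∈ Dd D a := ⟨hcl0.2.1 b (by simp), Ne.symm hnd.1.1, hcl0.2.2 a (by simp) b (by simp)⟩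
    have hc : c ∈ Dd D a := ⟨hcl0.2.1 c (by simp), Ne.symm hnd.1.2, hcl0.2.2 a (by simp) c (by simp)⟩
    obtain ⟨x, y, w, h1, h2, h3⟩ := hsix a ma b hb c hc hnd.2 (hcl0.2.2 b (by simp) c (by simp))
    have hnd6 := h1.1
    simp only [List.nodup_cons, List.mem_cons, List.not_mem_nil, or_false, not_or, not_false_iff, List.nodup_nil, and_true] at hnd6
    have hj : a * b * c = j := by
      have := hl.2.2.2.2
      simp only [List.prod_cons, List.prod_nil, mul_one] at this
      rw [← this, mul_assoc]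
    refine ⟨[a, b, c], [x, y, w], hl, ⟨?_, rfl, ?_, ?_, ?_⟩, ?_, ?_⟩
    · simp only [List.nodup_cons, List.mem_cons, List.not_mem_nil, or_false, not_or, not_false_iff, List.nodup_nil, and_true]
      tauto
    · intro u hu; exact h1.2.1 u (by simp only [List.mem_cons, List.not_mem_nil, or_false] at hu ⊢; tauto)
    · intro u hu v hv
      exact h1.2.2 u (by simp only [List.mem_cons, List.not_mem_nil, or_false] at hu ⊢; tauto) v
        (by simp only [List.mem_cons, List.not_mem_nil, or_false] at hv ⊢; tauto)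
    · simp only [List.prod_cons, List.prod_nil, mul_one]
      rw [← hj, h2, mul_assoc]
    · intro h
      have := (h a).1 (by simp)
      simp only [List.mem_cons, List.not_mem_nil, or_false] at this
      tauto
    · intro l hl'
      have hcl : CL D l := ⟨hl'.1, hl'.2.2.1, hl'.2.2.2.1⟩
      have hpr : [a, b, c].prod = l.prod := by rw [hl.2.2.2.2, hl'.2.2.2.2]
      have hx := CfsgLib.M22.cross hS hcl0 hcl (by simp) hpr
      obtain ⟨k, t, hk, hk1, hk2, hk3, hk4, hk5⟩ := factor (WS_of hS) hcl0 hcl hx (by rw [hl'.2.1]; rfl) hpr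
      have ht : t = 0 ∨ t = 1 ∨ t = 2 ∨ t = 3 := by
        have : t ≤ 3 := hk3
        omega
      rcases ht with rfl | rfl | rfl | rfl
      · left; intro x; exact (hk4 rfl x).symm
      · exact (NR_two (WS_of hS) k hk2 hk hk1).elim
      · exact (n4 k hk2 hk hk1).elim
      · right
        have hdis := hk5 rfl
        obtain ⟨x', y', w', rfl⟩ := List.length_eq_three.1 hl'.2.1
        have hcl6 : CL D [a, b, c, x', y', w'] := by
          have e : [a, b, c, x', y', w'] = [a, b, c] ++ [x', y', w'] := rfl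
          rw [e]
          refine ⟨?_, ?_, ?_⟩
          · rw [List.nodup_append]
            exact ⟨hcl0.1, hcl.1, fun u hu v hv huv => hdis u hu (huv ▸ hv)⟩
          · intro u hu
            rcases List.mem_append.1 hu with hu | hu
            · exact hcl0.2.1 u hu
            · exact hcl.2.1 u hu
          · intro u hu v hv
            rcases List.mem_append.1 hu with hu | hu <;> rcases List.mem_append.1 hv with hv | hv
            · exact hcl0.2.2 u hu v hv
            · exact hx u hu v hv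
            · exact (hx v hv u hu).symm
            · exact hcl.2.2 u hu v hv
        have hpr' : a * b * c = x' * y' * w' := by
          simp only [List.prod_cons, List.prod_nil, mul_one] at hpr
          rw [mul_assoc, hpr, mul_assoc]
        have hsub := h3 x' y' w' hcl6 hpr'
        classical
        have hfin : ([x', y', w'] : List G).toFinset = ([x, y, w] : List G).toFinset := by
          apply Finset.eq_of_subset_of_card_le
          · intro u hu
            rw [List.mem_toFinset] at hu ⊢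
            exact hsub u hu
          · rw [List.toFinset_card_of_nodup hcl.1, List.toFinset_card_of_nodup]
            · rfl
            · simp only [List.nodup_cons, List.mem_cons, List.not_mem_nil, or_false, not_or, not_false_iff, List.nodup_nil, and_true]
              tauto
        intro u
        rw [← List.mem_toFinset, hfin, List.mem_toFinset]

end Cfsg.Agent.S5463
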