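import Cfsg.Statements.S5471
import Mathlib
import Cfsg.Agent.LibM22E

set_option autoImplicit false
open Cfsg

namespace Cfsg.Agent.S5471

open Cfsg Subgroup CfsgLib.M22 CfsgLib.R3 CfsgLib.TT28

/-- Let G be a finite group with trivial centre generated by a conjugation-invariant set D of 3-transpositions on which it acts primitively, such that for some d in D the subgroup generated by the members of D other than d commuting with d has central largest normal 2- and 3-subgroups, and suppose G with D is of type M(23). Let d₁, d₂, d₃ be distinct pairwise commuting members of D and j their product. Then the joint centralizer of d₁, d₂, d₃ is normal in the centralizer of j with quotient isomorphic to the symmetric group of degree 3. -/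
theorem result {G : Type*} [Group G] [Finite G] {D : Set G} (hD : Cfsg.IsThreeTranspositionGroup D) (hprim : Cfsg.IsPrimitiveUnderConj D) (d₀ : G) (hd₀ : d₀ ∈ D) (h3 : Cfsg.pCore 3 ↥(Subgroup.closure {y : G | y ∈ D ∧ y ≠ d₀ ∧ Commute d₀ y}) ≤ Subgroup.center ↥(Subgroup.closure {y : G | y ∈ D ∧ y ≠ d₀ ∧ Commute d₀ y})) (h2 : Cfsg.pCore 2 ↥(Subgroup.closure {y : G | y ∈ D ∧ y ≠ d₀ ∧ Commute d₀ y}) ≤ Subgroup.center ↥(Subgroup.closure {y : G | y ∈ D ∧ y ≠ d₀ ∧ Commute d₀ y})) (h23 : Cfsg.IsOfTypeM23 G D) (d₁ d₂ d₃ : G) (h₁ : d₁ ∈ D) (h₂ : d₂ ∈ D) (h₃ : d₃ ∈ D) (h12 : d₁ ≠ d₂) (h13 : d₁ ≠ d₃) (h23 : d₂ ≠ d₃) (c12 : Commute d₁ d₂) (c13 : Commute d₁ d₃) (c23 : Commute d₂ d₃) (K C : Subgroup G) (hK : K = Subgroup.centralizer ({d₁, d₂, d₃} : Set G)) (hC : C = Subgroup.centralizer ({d₁ * d₂ * d₃} : Set G)) : K ≤ C ∧ ∃ _ : (K.subgroupOf C).Normal, Nonempty (↥C ⧸ K.subgroupOf C ≃* Equiv.Perm (Fin 3)) := by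
  have ht : Cfsg.IsOfTypeM23 G D := by assumption
  have hS := hD.1
  have hC' : CI D := hD.2.1
  obtain ⟨x0, hx0, g1, g2, -⟩ := T23_descend hD hprim ht
  obtain ⟨-, n4, -, n6⟩ := T23_NR hD hprim ht
  set f : Fin 3 → G := ![d₁, d₂, d₃] with hf
  have f0 : f 0 = d₁ := rfl
  have f1 : f 1 = d₂ := rfl
  have f2 : f 2 = d₃ := rfl
  have hfD : ∀ i, f i ∈ D := by intro i; fin_cases i; exacts [h₁, h₂, h₃]
  have hfc : ∀ i j, Commute (f i) (f j) := by
    intro i j
    fin_cases i <;> fin_cases j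
    exacts [Commute.refl _, c12, c13, c12.symm, Commute.refl _, c23, c13.symm, c23.symm, Commute.refl _]
  have hinj : Function.Injective f := by
    intro i j h
    fin_cases i <;> fin_cases j <;> first | rfl | exact absurd h h12 | exact absurd h h13 | exact absurd h h23 | exact absurd h.symm h12 | exact absurd h.symm h13 | exact absurd h.symm h23
  have hprod : ∀ g : G, (∀ i, ∃ j, g * f i * g⁻¹ = f j) → g * (d₁ * d₂ * d₃) * g⁻¹ = d₁ * d₂ * d₃ := by
    intro g hg
    choose τ hτ using hg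
    have hi : Function.Injective τ := by
      intro i j h
      apply hinj
      have := (hτ i).trans ((congrArg f h).trans (hτ j).symm)
      exact mul_left_cancel (mul_right_cancel this)
    have := prod_perm f hfc (Equiv.ofBijective τ (Finite.injective_iff_bijective.1 hi))
    have e : g * (d₁ * d₂ * d₃) * g⁻¹ = (g * f 0 * g⁻¹) * (g * f 1 * g⁻¹) * (g * f 2 * g⁻¹) := by rw [f0, f1, f2]; group
    rw [e, hτ 0, hτ 1, hτ 2]
    exact this
  have hmemC : ∀ g : G, g ∈ C ↔ g * (d₁ * d₂ * d₃) * g⁻¹ = d₁ * d₂ * d₃ := by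
    intro g
    rw [hC, mem_centralizer_singleton_iff]
    exact ⟨fun h => mul_inv_eq_iff_eq_mul.2 h, fun h => mul_inv_eq_iff_eq_mul.1 h⟩
  have hmemK : ∀ g : G, g ∈ K ↔ ∀ i, g * f i * g⁻¹ = f i := by
    intro g
    rw [hK, mem_centralizer_iff]
    constructor
    · intro h i
      have h3 : ∀ i, f i ∈ ({d₁, d₂, d₃} : Set G) := by intro i; fin_cases i <;> simp [f]
      exact mul_inv_eq_iff_eq_mul.2 (h (f i) (h3 i)).symm
    · intro h y hy
      rcases hy with rfl | rfl | rfl
      · exact (mul_inv_eq_iff_eq_mul.1 (h 0)).symm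
      · exact (mul_inv_eq_iff_eq_mul.1 (h 1)).symm
      · exact (mul_inv_eq_iff_eq_mul.1 (h 2)).symm
  have hKC : K ≤ C := by
    intro g hg
    rw [hmemC]
    exact hprod g (fun i => ⟨i, (hmemK g).1 hg i⟩)
  refine ⟨hKC, ?_⟩
  have hCL : CL D [d₁, d₂, d₃] := by
    refine ⟨?_, ?_, ?_⟩
    · simp only [List.nodup_cons, List.mem_cons, List.not_mem_nil, or_false, not_or, not_false_iff, List.nodup_nil, and_true]
      exact ⟨⟨h12, h13⟩, h23⟩
    · intro a ha
      simp only [List.mem_cons, List.not_mem_nil, or_false] at ha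
      rcases ha with rfl | rfl | rfl
      exacts [h₁, h₂, h₃]
    · intro a ha b hb
      simp only [List.mem_cons, List.not_mem_nil, or_false] at ha hb
      rcases ha with rfl | rfl | rfl <;> rcases hb with rfl | rfl | rfl
      exacts [Commute.refl _, c12, c13, c12.symm, Commute.refl _, c23, c13.symm, c23.symm, Commute.refl _]
  apply triple_quot f hinj C K hmemK hKC
  · intro g hg i
    have h1 : (([d₁, d₂, d₃] : List G).map (fun x => g * x * g⁻¹)).prod = [d₁, d₂, d₃].prod := by
      rw [CfsgLib.M22.prod_conj]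
      have := (hmemC g).1 hg
      simp only [List.prod_cons, List.prod_nil, mul_one]
      rw [← mul_assoc d₁]; exact this
    have h2 := unique_of_NR hS (m := 3) (by
      intro t ht1 ht2
      have : t = 2 ∨ t = 3 := by omega
      rcases this with rfl | rfl
      · exact n4
      · exact n6) (le_refl 3) (hCL.conj hC' g) hCL (by simp) (by simp) h1
    have h3 : g * f i * g⁻¹ ∈ ([d₁, d₂, d₃] : List G).map (fun x => g * x * g⁻¹) := by
      rw [List.mem_map]
      exact ⟨f i, by fin_cases i <;> simp [f], rfl⟩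
    rw [h2] at h3
    simp only [List.mem_cons, List.not_mem_nil, or_false] at h3
    rcases h3 with h3 | h3 | h3
    · exact ⟨0, h3⟩
    · exact ⟨1, h3⟩
    · exact ⟨2, h3⟩
  · intro i j hij
    obtain ⟨k, hki, hkj, hall⟩ : ∃ k : Fin 3, k ≠ i ∧ k ≠ j ∧ ∀ l, l = i ∨ l = j ∨ l = k := by
      revert hij; revert i j; decide
    have mki : f i ∈ Dd D (f k) := ⟨hfD i, fun h => hki (hinj h).symm, hfc k i⟩
    have mkj : f j ∈ Dd D (f k) := ⟨hfD j, fun h => hkj (hinj h).symm, hfc k j⟩
    have hij' : f i ≠ f j := fun h => hij (hinj h)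
    obtain ⟨g, e1, e2, e3⟩ := triple_move hD hprim hx0 g1 g2 (hfD k) mki mkj hij' (hfc i j) (hfD k) mkj mki hij'.symm (hfc j i)
    have hg : ∀ l, g * f l * g⁻¹ = f (Equiv.swap i j l) := by
      intro l
      rcases hall l with rfl | rfl | rfl
      · rw [Equiv.swap_apply_left]; exact e2
      · rw [Equiv.swap_apply_right]; exact e3
      · rw [Equiv.swap_apply_of_ne_of_ne hki hkj]; exact e1
    exact ⟨g, (hmemC g).2 (hprod g (fun l => ⟨_, hg l⟩)), hg⟩

end Cfsg.Agent.S5471
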