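import Cfsg.Statements.S5521
import Cfsg.Agent.LibSixB28

set_option autoImplicit false
open Cfsg

namespace Cfsg.Agent.S5521

/-- The Mathieu group M₂₄ in its natural action on the 24 coordinate positions of the binary Golay code has minimal base size exactly 7: every set of at most 6 positions is fixed pointwise by some non-identity element of M₂₄, while some set of 7 positions is fixed pointwise only by the identity. -/
theorem result :
    (∀ B : Finset Cfsg.GolayPt, B.card ≤ 6 → ∃ g ∈ Cfsg.M24, g ≠ 1 ∧ ∀ b ∈ B, g b = b) ∧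
    (∃ B : Finset Cfsg.GolayPt, B.card = 7 ∧ ∀ g ∈ Cfsg.M24, (∀ b ∈ B, g b = b) → g = 1) := by
  constructor
  · intro B hB
    obtain ⟨E, hBE, _, hE⟩ := Finset.exists_subsuperset_card_eq (Finset.subset_univ B) hB (by
      rw [CfsgLib.M24.card_univ_pt]; norm_num)
    have h1 : 1 < Nat.card {g : Equiv.Perm GolayPt // g ∈ M24 ∧ ∀ p ∈ E, g p = p} := by
      by_cases hs : CfsgLib.Six28.Special E
      · rw [CfsgLib.SixB28.fix_special hE hs]; norm_num
      · rw [CfsgLib.SixB28.fix_umbral hE hs]; norm_num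
    rw [Finite.one_lt_card_iff_nontrivial] at h1
    obtain ⟨g, hg⟩ := exists_ne (⟨1, one_mem _, fun _ _ => rfl⟩ : {g : Equiv.Perm GolayPt // g ∈ M24 ∧ ∀ p ∈ E, g p = p})
    exact ⟨g.1, g.2.1, fun h => hg (Subtype.ext h), fun b hb => g.2.2 b (hBE hb)⟩
  · refine ⟨CfsgLib.Golay.fset (CfsgLib.M24.B5 ||| 48), ?_, ?_⟩
    · rw [CfsgLib.Golay.card_fset]; decide +kernel
    · intro g hg h
      have h1 : g ∈ CfsgLib.M24.fixL [23, 0, 1, 2, 3, 5, 4] := by
        refine ⟨hg, fun i hi => h _ ?_⟩
        revert i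
        decide +kernel
      rw [CfsgLib.M24.fixL_base] at h1
      exact Subgroup.mem_bot.1 h1

end Cfsg.Agent.S5521
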