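import Cfsg.Statements.S5562

set_option autoImplicit false
open Cfsg

namespace Cfsg.Agent.S5562

/-- Let G be a finite group, d an involution of G whose conjugates pairwise have products of odd order, and x any involution of G. Then the conjugacy class of d is the disjoint union, over the conjugates a of d commuting with x, of the sets of conjugates of d commuting with ax: every conjugate of d commutes with ax for exactly one conjugate a of d that commutes with x. -/
theorem result {G : Type*} [Group G] [Finite G] (d : G) (hd : orderOf d = 2)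
    (hodd : ∀ a ∈ conjugatesOf d, ∀ b ∈ conjugatesOf d, Odd (orderOf (a * b)))
    (x : G) (hx : orderOf x = 2) :
    ∀ e ∈ conjugatesOf d,
      ∃! a : G, a ∈ conjugatesOf d ∧ Commute a x ∧ Commute e (a * x) := by
  intro e he
  have hxx : x * x = 1 := by rw [← pow_two, ← hx, pow_orderOf_eq_one]
  have hxi : x⁻¹ = x := inv_eq_of_mul_eq_one_left hxx
  have sq : ∀ a ∈ conjugatesOf d, a * a = 1 := by
    intro a ha
    obtain ⟨c, hc⟩ := isConj_iff.mp (show IsConj d a from ha)
    have hdd : d * d = 1 := by rw [← pow_two, ← hd, pow_orderOf_eq_one]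
    rw [← hc]
    calc c * d * c⁻¹ * (c * d * c⁻¹) = c * (d * d) * c⁻¹ := by group
      _ = 1 := by rw [hdd]; group
  have conj : ∀ a ∈ conjugatesOf d, ∀ g : G, g * a * g⁻¹ ∈ conjugatesOf d := by
    intro a ha g
    exact IsConj.trans (show IsConj d a from ha) (isConj_iff.mpr ⟨g, rfl⟩)
  have hei : e⁻¹ = e := inv_eq_of_mul_eq_one_left (sq e he)
  set f : G := x * e * x with hf
  have hfD : f ∈ conjugatesOf d := by
    have := conj e he x
    rwa [hxi] at this
  obtain ⟨m, hm⟩ := hodd e he f hfD
  -- r = e f has odd order 2m+1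
  set r : G := e * f with hr
  have hr1 : r ^ (2 * m + 1) = 1 := by rw [← hm]; exact pow_orderOf_eq_one r
  have hff : f * f = 1 := sq f hfD
  have hfi : f⁻¹ = f := inv_eq_of_mul_eq_one_left hff
  -- e r e = r⁻¹
  have her : e * r * e⁻¹ = r⁻¹ := by
    rw [hr, mul_inv_rev, hfi, hei, ← mul_assoc, sq e he, one_mul]
  have herk : ∀ k : ℕ, e * r ^ k * e⁻¹ = (r ^ k)⁻¹ := by
    intro k
    rw [← conj_pow, her, inv_pow]
  -- x r x = r⁻¹
  have hxr : x * r * x⁻¹ = r⁻¹ := by
    rw [hr, mul_inv_rev, hfi, hei, hxi, hf]
    calc x * (e * (x * e * x)) * x = x * e * x * e * (x * x) := by group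
      _ = x * e * x * e := by rw [hxx, mul_one]
  have hxrk : ∀ k : ℕ, x * r ^ k * x⁻¹ = (r ^ k)⁻¹ := by
    intro k
    rw [← conj_pow, hxr, inv_pow]
  -- a = e * s where s = r^(m+1): s^2 = r
  set s : G := r ^ (m + 1) with hs
  have hss : s * s = r := by
    rw [hs, ← pow_add, show m + 1 + (m + 1) = (2 * m + 1) + 1 by ring, pow_succ, hr1, one_mul]
  have hses : e * s * e⁻¹ = s⁻¹ := herk _
  have hsxs : x * s * x⁻¹ = s⁻¹ := hxrk _
  have hes : e * s = s⁻¹ * e := by rw [← hses]; group
  have hxs : x * s = s⁻¹ * x := by rw [← hsxs]; group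
  have hxe : x * e = f * x := by
    rw [hf, mul_assoc, hxx, mul_one]
  have hfe : f = e * r := by rw [hr, ← mul_assoc, sq e he, one_mul]
  have uniq : ∀ a : G, a ∈ conjugatesOf d → Commute a x → Commute e (a * x) → a = e * s := by
    intro a ha hax heax
    have haa := sq a ha
    have hai : a⁻¹ = a := inv_eq_of_mul_eq_one_left haa
    -- (e a)^2 = r
    have h1 : e * a * (e * a) = r := by
      have h2 : a * x * e = e * (a * x) := heax.eq.symm
      -- a e a = x e x = f
      have h3 : a * e * a = f := by
        rw [hf]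
        have h4 : a * (x * e * x) = e * a := by
          calc a * (x * e * x) = (a * x * e) * x := by group
            _ = e * (a * x) * x := by rw [h2]
            _ = e * a * (x * x) := by group
            _ = e * a := by rw [hxx, mul_one]
        calc a * e * a = a * (e * a) := by group
          _ = a * (a * (x * e * x)) := by rw [h4]
          _ = (a * a) * (x * e * x) := by group
          _ = x * e * x := by rw [haa, one_mul]
      calc e * a * (e * a) = e * (a * e * a) := by group
        _ = r := by rw [h3]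
    obtain ⟨n, hn⟩ := hodd e he a ha
    have h5 : (e * a) ^ (2 * n + 1) = 1 := by rw [← hn]; exact pow_orderOf_eq_one _
    -- e a = r^(n+1)
    have h6 : e * a = r ^ (n + 1) := by
      rw [← h1, ← pow_two, ← pow_mul, show 2 * (n + 1) = 2 * n + 1 + 1 by ring, pow_succ, h5,
        one_mul]
    have h7 : r ^ (2 * n + 1) = 1 := by
      rw [← h1, ← pow_two, ← pow_mul, mul_comm, pow_mul, h5, one_pow]
    have h8 : e * a = s := by
      have h9 : r ^ (m + 1) = r ^ (n + 1) := by
        have e1 : r ^ ((m + 1) * (2 * n + 1) ) = r ^ 0 := by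
          rw [mul_comm, pow_mul, h7, one_pow, pow_zero]
        -- both are square roots in ⟨r⟩ of odd order
        have e2 : r ^ ((2 * m + 1) * (n + 1)) = 1 := by rw [pow_mul, hr1, one_pow]
        have e3 : r ^ ((2 * n + 1) * (m + 1)) = 1 := by rw [pow_mul, h7, one_pow]
        -- (2m+1)(n+1) = 2mn+2m+n+1 ; (2n+1)(m+1) = 2mn + 2n + m + 1
        -- r^(m+1) * r^(2mn+m+n) = 1 and r^(n+1) * r^(2mn + m + n) ... = 1
        have e4 : r ^ (n + 1) * r ^ (2 * m * (n + 1)) = 1 := by
          rw [← pow_add, ← e2]; congr 1; ring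
        have e5 : r ^ (m + 1) * r ^ (2 * n * (m + 1)) = 1 := by
          rw [← pow_add, ← e3]; congr 1; ring
        have e6 : r ^ (m + 1) * r ^ (2 * m * (n + 1)) = 1 := by
          have : (m + 1) + 2 * m * (n + 1) + n = (2 * m + 1) * (n + 1) + (2 * n + 1) * 0 + m := by
            ring
          -- order divides gcd; use r^(2m+1)=1, r^(2n+1)=1
          have key : orderOf r ∣ (2 * m + 1) := orderOf_dvd_of_pow_eq_one hr1
          have key2 : orderOf r ∣ (2 * n + 1) := orderOf_dvd_of_pow_eq_one h7
          rw [← pow_add, ← orderOf_dvd_iff_pow_eq_one]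
          have hodd' : Nat.Coprime (orderOf r) 2 := by
            have : Odd (orderOf r) := by
              obtain ⟨k, hk⟩ := key
              have : Odd (orderOf r * k) := by rw [← hk]; exact ⟨m, rfl⟩
              exact (Nat.odd_mul.mp this).1
            exact this.coprime_two_right
          have h2 : orderOf r ∣ (m + 1 + 2 * m * (n + 1)) * 2 := by
            have : (m + 1 + 2 * m * (n + 1)) * 2 =
                (2 * m + 1) * (1) + (2 * n + 1) * (2 * m) + (2 * m + 1) := by ring
            rw [this]
            exact dvd_add (dvd_add (key.mul_right _) (key2.mul_right _)) key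
          exact hodd'.dvd_of_dvd_mul_right h2
        exact mul_right_cancel (e6.trans e4.symm)
      rw [h6, hs, h9]
    rw [← h8, ← mul_assoc, sq e he, one_mul]
  refine ⟨e * s, ⟨?_, ?_, ?_⟩, fun a ⟨h1, h2, h3⟩ => uniq a h1 h2 h3⟩
  · -- e * s is a conjugate of e by a square root of s in ⟨r⟩ ; s = t^2 , t = r^((m+1)^2)
    have ht : ∃ t : G, e * t = t⁻¹ * e ∧ t * t = s := by
      refine ⟨s ^ (m + 1), ?_, ?_⟩
      · rw [hs, ← pow_mul, ← herk]; group
      · rw [← pow_add, show m + 1 + (m + 1) = (2 * m + 1) + 1 by ring, pow_succ]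
        have : s ^ (2 * m + 1) = 1 := by rw [hs, ← pow_mul, mul_comm, pow_mul, hr1, one_pow]
        rw [this, one_mul]
    obtain ⟨t, h1, h2⟩ := ht
    have h3 := conj e he t⁻¹
    have h4 : t⁻¹ * e * t⁻¹⁻¹ = e * s := by
      rw [inv_inv, ← h1, mul_assoc, h2]
    rwa [h4] at h3
  · -- commutes with x
    show e * s * x = x * (e * s)
    have h1 : x * (e * s) = f * (s⁻¹ * x) := by
      rw [← mul_assoc, hxe, mul_assoc, hxs]
    rw [h1, hfe, ← hss]; group
  · show e * (e * s * x) = e * s * x * e
    have h1 : e * s * x * e = e * s * (f * x) := by rw [← hxe]; group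
    rw [h1, hfe]
    calc e * (e * s * x) = (e * e) * s * x := by group
      _ = s * x := by rw [sq e he, one_mul]
      _ = s * s * s⁻¹ * x := by group
      _ = r * s⁻¹ * x := by rw [hss]
      _ = s⁻¹ * r * x := by
          rw [hs]; congr 1
          exact ((Commute.refl r).pow_right (m + 1)).inv_right.eq
      _ = (e * e) * s⁻¹ * r * x := by rw [sq e he, one_mul]
      _ = e * (e * s⁻¹) * r * x := by group
      _ = e * (s * e) * r * x := by
          have : e * s⁻¹ = s * e := by
            calc e * s⁻¹ = s * (s⁻¹ * e) * s⁻¹ := by group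
              _ = s * (e * s) * s⁻¹ := by rw [hes]
              _ = s * e := by group
          rw [this]
      _ = e * s * (e * r * x) := by group
      _ = e * s * (e * r * x) := rfl
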