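import Cfsg.Statements.S5722
import Mathlib
import Cfsg.Agent.LibCLD29

set_option autoImplicit false
open Cfsg

namespace Cfsg.Agent.S5722



/-- If a finite group G acts faithfully on a finite set with n points and r orbits, then the composition length of G is at most 4(n − r)/3. Here the composition length is expressed through chains: the conclusion bounds the length l of every chain of subgroups 1 = H₀ < H₁ < ⋯ < H_l = G in which each term is normal in the next (the longest such chains are exactly the composition series). -/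
theorem result {G Ω : Type*} [Group G] [Finite G] [MulAction G Ω] [FaithfulSMul G Ω] [Fintype Ω]
    (l : ℕ) (H : Fin (l + 1) → Subgroup G) (h0 : H 0 = ⊥) (hl : H (Fin.last l) = ⊤)
    (hchain : ∀ i : Fin l, H i.castSucc < H i.succ ∧ ((H i.castSucc).subgroupOf (H i.succ)).Normal) :
    3 * l ≤ 4 * (Fintype.card Ω - Nat.card (Quotient (MulAction.orbitRel G Ω))) := by
  classical
  haveI : Finite Ω := inferInstance
  let n := Fintype.card Ω
  let e₀ : Ω ≃ Fin n := Fintype.equivFin Ω
  let ψ : G →* Equiv.Perm (Fin n) := (e₀.permCongrHom.toMonoidHom).comp (MulAction.toPermHom G Ω)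
  have hψa : ∀ g ω, ψ g (e₀ ω) = e₀ (g • ω) := by
    intro g ω
    simp [ψ, Equiv.permCongrHom]
  have hψ : Function.Injective ψ := by
    rw [injective_iff_map_eq_one]
    intro g hg
    apply eq_of_smul_eq_smul (α := Ω)
    intro ω
    have h1 := hψa g ω
    rw [hg, Equiv.Perm.one_apply] at h1
    rw [one_smul]
    exact (e₀.injective h1).symm
  let E : G ≃* ψ.range := MonoidHom.ofInjective hψ
  have h1 := CfsgLib.CL29.bound ψ.range (Fin n)
  have h2 : CfsgLib.CL29.cl G = CfsgLib.CL29.cl ψ.range := CfsgLib.CL29.cl_congr E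
  have h3 : l ≤ CfsgLib.CL29.cl G := CfsgLib.CL29.chain_le l H h0 hl hchain
  have h4 : Nat.card (Quotient (MulAction.orbitRel G Ω)) ≤ CfsgLib.CL29.orb ψ.range (Fin n) := by
    apply CfsgLib.CL29.le_orb_of_surj (fun i : Fin n => (Quotient.mk _ (e₀.symm i) : Quotient (MulAction.orbitRel G Ω)))
    · intro q
      induction q using Quotient.inductionOn with | _ ω =>
      exact ⟨e₀ ω, by simp⟩
    · rintro ⟨_, g, rfl⟩ i
      apply Quotient.sound
      refine ⟨g, ?_⟩
      show g • e₀.symm i = e₀.symm (ψ g i)
      rw [Equiv.eq_symm_apply, ← hψa, Equiv.apply_symm_apply]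
  rw [Nat.card_fin] at h1
  omega

end Cfsg.Agent.S5722
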