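import Cfsg.Statements.S5729
import Mathlib


set_option autoImplicit false
open Cfsg

namespace Cfsg.Agent.S5729



/-- Let a finite group G act faithfully and transitively on a set with n ≥ 3 points. Then either G is a Frobenius permutation group (Frobenius as a permutation group: transitive, some non-identity element fixes a point, and no non-identity element fixes two points) of order n(n − 1) and exactly |G|/n of its elements are derangements (fix no point), or the number of derangements is greater than |G|/n. -/
theorem result {G Ω : Type*} [Group G] [Finite G] [MulAction G Ω] [FaithfulSMul G Ω] [Fintype Ω] (htr : MulAction.IsPretransitive G Ω) (hn : 3 ≤ Fintype.card Ω) :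
    ((MulAction.IsPretransitive G Ω ∧ (∃ g : G, g ≠ 1 ∧ ∃ ω : Ω, g • ω = ω) ∧ ∀ g : G, g ≠ 1 → Nat.card (MulAction.fixedBy Ω g) ≤ 1) ∧ Nat.card G = Fintype.card Ω * (Fintype.card Ω - 1) ∧ Fintype.card Ω * Nat.card {g : G // ∀ ω : Ω, g • ω ≠ ω} = Nat.card G) ∨
    Nat.card G < Fintype.card Ω * Nat.card {g : G // ∀ ω : Ω, g • ω ≠ ω} := by
  classical
  haveI : Fintype G := Fintype.ofFinite G
  set n := Fintype.card Ω with hndef
  haveI hne : Nonempty Ω := Fintype.card_pos_iff.mp (by omega)
  -- S1
  have S1 : ∑ g : G, Fintype.card (MulAction.fixedBy Ω g) = Fintype.card G := by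
    have h := MulAction.sum_card_fixedBy_eq_card_orbits_mul_card_group G Ω
    rw [h]
    have : Subsingleton (Quotient (MulAction.orbitRel G Ω)) := (MulAction.pretransitive_iff_subsingleton_quotient G Ω).mp htr
    have h1 : Fintype.card (Quotient (MulAction.orbitRel G Ω)) = 1 := by
      apply le_antisymm (Fintype.card_le_one_iff_subsingleton.mpr this)
      obtain ⟨ω⟩ := hne
      exact Fintype.card_pos_iff.mpr ⟨Quotient.mk _ ω⟩
    rw [h1, one_mul]
  have S2 : ∃ r : ℕ, 2 ≤ r ∧ ∑ g : G, (Fintype.card (MulAction.fixedBy Ω g)) ^ 2 = r * Fintype.card G := by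
    refine ⟨Fintype.card (Quotient (MulAction.orbitRel G (Ω × Ω))), ?_, ?_⟩
    · have h3 : 1 < Fintype.card Ω := by omega
      obtain ⟨x, y, hxy⟩ := Fintype.one_lt_card_iff.mp h3
      have : (1 : ℕ) < Fintype.card (Quotient (MulAction.orbitRel G (Ω × Ω))) := by
        rw [Fintype.one_lt_card_iff]
        refine ⟨Quotient.mk _ (x, x), Quotient.mk _ (x, y), ?_⟩
        intro h
        have h4 := Quotient.exact h
        obtain ⟨g, hg⟩ := h4
        have h5 : g • x = x := congrArg Prod.fst hg
        have h6 : g • y = x := congrArg Prod.snd hg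
        exact hxy (smul_left_cancel g (h5.trans h6.symm))
      exact this
    · rw [← MulAction.sum_card_fixedBy_eq_card_orbits_mul_card_group G (Ω × Ω)]
      apply Finset.sum_congr rfl
      intro g _
      rw [sq, ← Fintype.card_prod]
      apply Fintype.card_congr
      exact { toFun := fun p => ⟨(p.1.1, p.2.1), Prod.ext p.1.2 p.2.2⟩
              invFun := fun p => (⟨p.1.1, congrArg Prod.fst p.2⟩, ⟨p.1.2, congrArg Prod.snd p.2⟩)
              left_inv := fun p => rfl
              right_inv := fun p => rfl }
  obtain ⟨r, hr, S2⟩ := S2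
  set a : G → ℤ := fun g => (Fintype.card (MulAction.fixedBy Ω g) : ℤ) with ha
  have S1' : ∑ g : G, a g = Fintype.card G := by
    rw [ha, ← Nat.cast_sum, S1]
  have S2' : ∑ g : G, a g ^ 2 = r * Fintype.card G := by
    rw [ha]
    have := congrArg (fun z : ℕ => (z : ℤ)) S2
    push_cast at this
    exact this
  have hD : (Nat.card {g : G // ∀ ω : Ω, g • ω ≠ ω} : ℤ) = ∑ g : G, (if a g = 0 then 1 else 0 : ℤ) := by
    rw [Nat.card_eq_fintype_card, Fintype.card_subtype, Finset.card_filter]
    push_cast
    apply Finset.sum_congr rfl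
    intro g _
    congr 1
    apply propext
    simp only [ha, Nat.cast_eq_zero, Fintype.card_eq_zero_iff]
    constructor
    · intro h; exact ⟨fun x => h x.1 x.2⟩
    · intro h ω hω; exact h.false ⟨ω, hω⟩
  set D := Nat.card {g : G // ∀ ω : Ω, g • ω ≠ ω} with hDdef
  have hle : ∀ g, 0 ≤ a g ∧ a g ≤ n := by
    intro g
    refine ⟨Nat.cast_nonneg _, ?_⟩
    have : Fintype.card (MulAction.fixedBy Ω g) ≤ Fintype.card Ω := Fintype.card_subtype_le _
    simp only [ha]
    exact_mod_cast this
  set b : G → ℤ := fun g => (a g - 1) * (a g - n) - n * (if a g = 0 then 1 else 0) with hb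
  have hb0 : ∀ g, b g ≤ 0 := by
    intro g
    simp only [hb]
    obtain ⟨h1, h2⟩ := hle g
    split_ifs with h
    · rw [h]; ring_nf; exact le_refl _
    · have : 1 ≤ a g := by omega
      nlinarith
  have hbsum : ∑ g, b g = (r - 1) * Fintype.card G - n * D := by
    simp only [hb]
    rw [Finset.sum_sub_distrib, ← Finset.mul_sum, ← hD]
    have : ∀ g, (a g - 1) * (a g - n) = a g ^ 2 - (n + 1) * a g + n := fun g => by ring
    simp_rw [this]
    rw [Finset.sum_add_distrib, Finset.sum_sub_distrib, ← Finset.mul_sum, S1', S2', Finset.sum_const, Finset.card_univ]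
    rw [nsmul_eq_mul]
    ring
  by_cases hcase : Nat.card G < n * D
  · right; exact hcase
  left
  rw [Nat.card_eq_fintype_card] at hcase ⊢
  push Not at hcase
  have hcase' : (n : ℤ) * D ≤ Fintype.card G := by exact_mod_cast hcase
  have hGpos : (0 : ℤ) < Fintype.card G := by exact_mod_cast Fintype.card_pos
  have hsum_le : ∑ g, b g ≤ 0 := Finset.sum_nonpos (fun g _ => hb0 g)
  have hr' : (2 : ℤ) ≤ r := by exact_mod_cast hr
  have hr2 : (r : ℤ) = 2 := by
    rw [hbsum] at hsum_le
    nlinarith
  have hsum0 : ∑ g, b g = 0 := by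
    apply le_antisymm hsum_le
    rw [hbsum, hr2]; linarith
  have hnD : (n : ℤ) * D = Fintype.card G := by
    rw [hbsum, hr2] at hsum0; linarith
  have hall : ∀ g, b g = 0 := by
    intro g
    exact (Finset.sum_eq_zero_iff_of_nonpos (fun g _ => hb0 g)).mp hsum0 g (Finset.mem_univ _)
  have hfix : ∀ g : G, g ≠ 1 → a g ≤ 1 := by
    intro g hg
    have h1 := hall g
    simp only [hb] at h1
    by_contra hcon
    push Not at hcon
    rw [if_neg (by omega)] at h1
    have h2 : (a g - 1) * (a g - n) = 0 := by linarith
    rcases mul_eq_zero.mp h2 with h3 | h3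
    · omega
    · apply hg
      apply FaithfulSMul.eq_of_smul_eq_smul (α := Ω)
      intro ω
      rw [one_smul]
      have h4 : Fintype.card (MulAction.fixedBy Ω g) = Fintype.card Ω := by
        have : a g = n := by linarith
        simp only [ha] at this
        exact_mod_cast this
      have h5 : (MulAction.fixedBy Ω g) = Set.univ := by
        rw [← Set.toFinset_eq_univ] 
        apply Finset.eq_univ_of_card
        rw [Set.toFinset_card, h4]
      have : ω ∈ MulAction.fixedBy Ω g := h5 ▸ Set.mem_univ _
      exact this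
  have ha1 : a 1 = n := by
    simp only [ha]
    have : MulAction.fixedBy Ω (1 : G) = Set.univ := by ext; simp
    have h1 : Fintype.card (MulAction.fixedBy Ω (1 : G)) = Fintype.card Ω := by
      rw [← Nat.card_eq_fintype_card, ← Nat.card_eq_fintype_card, this, Nat.card_congr (Equiv.Set.univ Ω)]
    rw [h1]
  -- sum of a(a-1): only g = 1 contributes
  have hcard : (Fintype.card G : ℤ) = n * (n - 1) := by
    have h1 : ∑ g : G, (a g ^ 2 - a g) = Fintype.card G := by
      rw [Finset.sum_sub_distrib, S1', S2', hr2]; ring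
    have h2 : ∑ g : G, (a g ^ 2 - a g) = a 1 ^ 2 - a 1 := by
      apply Finset.sum_eq_single_of_mem 1 (Finset.mem_univ _)
      intro g _ hg
      have h3 := hfix g hg
      have h4 := (hle g).1
      have : a g = 0 ∨ a g = 1 := by omega
      rcases this with h | h <;> rw [h] <;> norm_num
    rw [← h1, h2, ha1]; ring
  have hcardN : Fintype.card G = n * (n - 1) := by
    have h1 : ((n - 1 : ℕ) : ℤ) = (n : ℤ) - 1 := by
      rw [Nat.cast_sub (by omega)]; rfl
    have : (Fintype.card G : ℤ) = ((n * (n - 1) : ℕ) : ℤ) := by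
      rw [hcard]; push_cast [h1]; ring
    exact_mod_cast this
  refine ⟨⟨htr, ?_, ?_⟩, hcardN, by exact_mod_cast hnD⟩
  · by_contra hcon
    push Not at hcon
    -- then all nonidentity elements are derangements
    have h1 : ∑ g : G, a g = a 1 := by
      apply Finset.sum_eq_single_of_mem 1 (Finset.mem_univ _)
      intro g _ hg
      simp only [ha, Nat.cast_eq_zero, Fintype.card_eq_zero_iff]
      exact ⟨fun x => hcon g hg x.1 x.2⟩
    rw [S1', hcard, ha1] at h1
    have hn3 : (3 : ℤ) ≤ n := by exact_mod_cast hn
    nlinarith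
  · intro g hg
    have := hfix g hg
    rw [Nat.card_eq_fintype_card]
    simp only [ha] at this
    exact_mod_cast this

end Cfsg.Agent.S5729
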