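import Cfsg.Statements.S5946
import Mathlib


set_option autoImplicit false
open Cfsg

namespace Cfsg.Agent.S5946

theorem mem_range_iff {F K : Type*} [Field F] [Field K] [Algebra F K] (g : (Module.End F K)ˣ) :
    g ∈ (Units.map ((Algebra.lmul F K : K →ₐ[F] Module.End F K) : K →* Module.End F K)).range ↔
      ∃ x : K, x ≠ 0 ∧ ∀ y, (g : Module.End F K) y = x * y := by
  constructor
  · rintro ⟨u, rfl⟩
    exact ⟨u, u.ne_zero, fun y => rfl⟩
  · rintro ⟨x, hx, h⟩
    refine ⟨Units.mk0 x hx, ?_⟩
    apply Units.ext
    ext y
    exact (h y).symm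

theorem commute_mem {F K : Type*} [Field F] [Field K] [Algebra F K] (g : (Module.End F K)ˣ)
    (h : ∀ x y : K, (g : Module.End F K) (x * y) = x * (g : Module.End F K) y) :
    g ∈ (Units.map ((Algebra.lmul F K : K →ₐ[F] Module.End F K) : K →* Module.End F K)).range := by
  rw [mem_range_iff]
  refine ⟨(g : Module.End F K) 1, ?_, fun y => ?_⟩
  · intro h0
    have h1 : ((g⁻¹ : (Module.End F K)ˣ) : Module.End F K) ((g : Module.End F K) 1) = 1 := by
      rw [← Module.End.mul_apply, ← Units.val_mul, inv_mul_cancel]; rfl
    rw [h0, map_zero] at h1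
    exact zero_ne_one h1
  · have := h y 1
    rw [mul_one] at this
    rw [this, mul_comm]

/-- Let F ⊆ K be finite fields with [K : F] = n ≥ 2 and regard K as an n-dimensional F-vector space. The Singer group M ≤ GL_F(K) of multiplications by the non-zero elements of K is self-centralizing: every F-linear automorphism of K commuting with all of M lies in M. -/
theorem result {F K : Type*} [Field F] [Fintype F] [Field K] [Fintype K] [Algebra F K] (n : ℕ) (hn : 2 ≤ n) (hdim : Module.finrank F K = n) :
    Subgroup.centralizer (((Units.map ((Algebra.lmul F K : K →ₐ[F] Module.End F K) : K →* Module.End F K)).range : Subgroup (Module.End F K)ˣ) : Set (Module.End F K)ˣ) = (Units.map ((Algebra.lmul F K : K →ₐ[F] Module.End F K) : K →* Module.End F K)).range := by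
  classical
  apply le_antisymm
  · intro g hg
    apply commute_mem
    intro x y
    by_cases hx : x = 0
    · subst hx; simp
    · have h1 := Subgroup.mem_centralizer_iff.mp hg (Units.map ((Algebra.lmul F K : K →ₐ[F] Module.End F K) : K →* Module.End F K) (Units.mk0 x hx)) ⟨_, rfl⟩
      have h2 := congrArg (fun u : (Module.End F K)ˣ => (u : Module.End F K) y) h1
      exact h2.symm
  · rintro _ ⟨u, rfl⟩
    rw [Subgroup.mem_centralizer_iff]
    rintro _ ⟨v, rfl⟩
    rw [← map_mul, ← map_mul, mul_comm]

end Cfsg.Agent.S5946
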