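import Cfsg.Statements.S5738
import Mathlib
import Cfsg.Agent.S5946

set_option autoImplicit false
open Cfsg

namespace Cfsg.Agent.S5738

open Cfsg.Agent.S5946 in
/-- an element normalizing the Singer group and fixing 1 is multiplicative -/
theorem mul_of_norm {F K : Type*} [Field F] [Field K] [Algebra F K] (g : (Module.End F K)ˣ)
    (h1 : (g : Module.End F K) 1 = 1)
    (h : ∀ x : K, x ≠ 0 → ∃ z : K, ∀ y, (g : Module.End F K) (x * y) = z * (g : Module.End F K) y) :
    ∀ x y, (g : Module.End F K) (x * y) = (g : Module.End F K) x * (g : Module.End F K) y := by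
  intro x y
  by_cases hx : x = 0
  · subst hx; simp
  · obtain ⟨z, hz⟩ := h x hx
    have := hz 1
    rw [mul_one, h1, mul_one] at this
    rw [hz y, this]

theorem inv_apply_self' {F K : Type*} [Field F] [Field K] [Algebra F K] (g : (Module.End F K)ˣ) (x : K) :
    ((g⁻¹ : (Module.End F K)ˣ) : Module.End F K) ((g : Module.End F K) x) = x := by
  rw [← Module.End.mul_apply, ← Units.val_mul, inv_mul_cancel]; rfl

theorem apply_inv_self' {F K : Type*} [Field F] [Field K] [Algebra F K] (g : (Module.End F K)ˣ) (x : K) :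
    (g : Module.End F K) (((g⁻¹ : (Module.End F K)ˣ) : Module.End F K) x) = x := by
  rw [← Module.End.mul_apply, ← Units.val_mul, mul_inv_cancel]; rfl

/-- Galois automorphisms as units -/
def galUnit {F K : Type*} [Field F] [Field K] [Algebra F K] (σ : K ≃ₐ[F] K) : (Module.End F K)ˣ where
  val := σ.toLinearMap
  inv := σ.symm.toLinearMap
  val_inv := by ext x; simp
  inv_val := by ext x; simp

/-- Let F ⊆ K be finite fields with |F| = q and [K : F] = n ≥ 2, so |K| = q^n. Regard K as an n-dimensional F-vector space; the multiplications by non-zero elements of K form a cyclic subgroup of GL_F(K) of order q^n − 1 acting regularly on the non-zero vectors (a Singer group). Its normaliser in GL_F(K) has order n·(q^n − 1). -/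
theorem result {F K : Type*} [Field F] [Fintype F] [Field K] [Fintype K] [Algebra F K] (n : ℕ) (hn : 2 ≤ n) (hdim : Module.finrank F K = n) :
    Nat.card (Subgroup.normalizer (((Units.map ((Algebra.lmul F K : K →ₐ[F] Module.End F K) : K →* Module.End F K)).range : Subgroup (Module.End F K)ˣ) : Set (Module.End F K)ˣ)) = n * (Fintype.card K - 1) := by
  classical
  set L : Kˣ →* (Module.End F K)ˣ := Units.map ((Algebra.lmul F K : K →ₐ[F] Module.End F K) : K →* Module.End F K) with hL
  have hLapp : ∀ (u : Kˣ) (y : K), (L u : Module.End F K) y = u * y := fun u y => rfl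
  have hmem : ∀ g, g ∈ L.range ↔ ∃ x : K, x ≠ 0 ∧ ∀ y, (g : Module.End F K) y = x * y :=
    Cfsg.Agent.S5946.mem_range_iff
  -- conjugation of L u by galUnit σ
  have hconj : ∀ (σ : K ≃ₐ[F] K) (u : Kˣ), galUnit σ * L u = L (Units.map (σ : K →* K) u) * galUnit σ := by
    intro σ u
    apply Units.ext
    ext y
    change σ (u * y) = σ u * σ y
    exact map_mul σ _ _
  have hgal : ∀ σ : K ≃ₐ[F] K, galUnit σ ∈ Subgroup.normalizer (L.range : Set (Module.End F K)ˣ) := by
    intro σ
    rw [Subgroup.mem_normalizer_iff]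
    intro h
    constructor
    · rintro ⟨u, rfl⟩
      rw [hconj, mul_assoc, mul_inv_cancel, mul_one]
      exact ⟨_, rfl⟩
    · rintro ⟨u, hu⟩
      have h1 : h = (galUnit σ)⁻¹ * (L u) * galUnit σ := by rw [hu]; group
      have h2 : L u * galUnit σ = galUnit σ * L (Units.map (σ.symm : K →* K) u) := by
        rw [hconj]
        congr 2
        ext; simp
      rw [mul_assoc, h2, inv_mul_cancel_left] at h1
      rw [h1]; exact ⟨_, rfl⟩
  let Φ : Kˣ × (K ≃ₐ[F] K) → Subgroup.normalizer (L.range : Set (Module.End F K)ˣ) := fun p =>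
    ⟨L p.1 * galUnit p.2, Subgroup.mul_mem _ (Subgroup.le_normalizer ⟨_, rfl⟩) (hgal _)⟩
  have hinj : Function.Injective Φ := by
    rintro ⟨u, σ⟩ ⟨v, τ⟩ h
    have h1 : L u * galUnit σ = L v * galUnit τ := congrArg Subtype.val h
    have h2 : ∀ y : K, (u : K) * σ y = v * τ y := fun y => congrArg (fun w : (Module.End F K)ˣ => (w : Module.End F K) y) h1
    have h3 : u = v := by
      have := h2 1
      rw [map_one, map_one, mul_one, mul_one] at this
      exact Units.ext this
    subst h3
    have h4 : σ = τ := by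
      ext y
      exact mul_left_cancel₀ u.ne_zero (h2 y)
    rw [h4]
  have hsurj : Function.Surjective Φ := by
    rintro ⟨g, hg⟩
    have hg1 : (g : Module.End F K) 1 ≠ 0 := by
      intro h0
      have h1 := inv_apply_self' g 1
      rw [h0, map_zero] at h1
      exact zero_ne_one h1
    set u : Kˣ := Units.mk0 _ hg1 with hu
    set k : (Module.End F K)ˣ := (L u)⁻¹ * g with hk
    have hkn : k ∈ Subgroup.normalizer (L.range : Set (Module.End F K)ˣ) :=
      Subgroup.mul_mem _ (Subgroup.inv_mem _ (Subgroup.le_normalizer ⟨_, rfl⟩)) hg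
    have hLinv : (L u)⁻¹ = L u⁻¹ := (map_inv L u).symm
    have hk1 : (k : Module.End F K) 1 = 1 := by
      rw [hk, hLinv]
      change ((u⁻¹ : Kˣ) : K) * (g : Module.End F K) 1 = 1
      have : ((u : Kˣ) : K) = (g : Module.End F K) 1 := rfl
      rw [← this, Units.inv_mul]
    have hkm : ∀ x y, (k : Module.End F K) (x * y) = (k : Module.End F K) x * (k : Module.End F K) y := by
      apply mul_of_norm k hk1
      intro x hx
      have h1 := (Subgroup.mem_normalizer_iff.mp hkn (L (Units.mk0 x hx))).mp ⟨_, rfl⟩
      obtain ⟨z, hz⟩ := h1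
      refine ⟨z, fun y => ?_⟩
      have h2 : k * L (Units.mk0 x hx) = L z * k := by rw [hz]; group
      exact congrArg (fun w : (Module.End F K)ˣ => (w : Module.End F K) y) h2
    let σ : K ≃ₐ[F] K := AlgEquiv.ofLinearEquiv
      (LinearEquiv.ofLinear (k : Module.End F K) ((k⁻¹ : (Module.End F K)ˣ) : Module.End F K)
        (by ext x; exact apply_inv_self' k x) (by ext x; exact inv_apply_self' k x)) hk1 hkm
    refine ⟨(u, σ), ?_⟩
    apply Subtype.ext
    change L u * galUnit σ = g
    have : galUnit σ = k := by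
      apply Units.ext; ext y; rfl
    rw [this, hk, mul_inv_cancel_left]
  rw [← Nat.card_congr (Equiv.ofBijective Φ ⟨hinj, hsurj⟩), Nat.card_prod]
  have h1 : Nat.card (K ≃ₐ[F] K) = n := by
    rw [← hdim]
    exact IsGalois.card_aut_eq_finrank F K
  have h2 : Nat.card Kˣ = Fintype.card K - 1 := by
    rw [Nat.card_eq_fintype_card, Fintype.card_units]
  rw [h1, h2, mul_comm]

end Cfsg.Agent.S5738
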