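import Cfsg.Statements.S5739
import Mathlib
import Cfsg.Agent.S5738

set_option autoImplicit false
open Cfsg

namespace Cfsg.Agent.S5739



/-- Let F ⊆ K be finite fields with |F| = q and [K : F] = n ≥ 2, and let M ≤ GL_F(K) be the Singer group of multiplications by non-zero elements of K. If g ∈ GL_F(K) does not normalise M, then the order of M ∩ gMg⁻¹ divides q^r − 1 for some proper divisor r of n. In particular, when n is prime, that order divides q − 1. -/
theorem result {F K : Type*} [Field F] [Fintype F] [Field K] [Fintype K] [Algebra F K] (n : ℕ) (hn : 2 ≤ n) (hdim : Module.finrank F K = n)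
    (g : (Module.End F K)ˣ) (hg : ((Units.map ((Algebra.lmul F K : K →ₐ[F] Module.End F K) : K →* Module.End F K)).range).map (MulAut.conj g).toMonoidHom ≠ (Units.map ((Algebra.lmul F K : K →ₐ[F] Module.End F K) : K →* Module.End F K)).range) :
    ∃ r : ℕ, 1 ≤ r ∧ r ∣ n ∧ r < n ∧ Nat.card ↥(((Units.map ((Algebra.lmul F K : K →ₐ[F] Module.End F K) : K →* Module.End F K)).range).map (MulAut.conj g).toMonoidHom ⊓ (Units.map ((Algebra.lmul F K : K →ₐ[F] Module.End F K) : K →* Module.End F K)).range) ∣ Fintype.card F ^ r - 1 := by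
  classical
  set L : Kˣ →* (Module.End F K)ˣ := Units.map ((Algebra.lmul F K : K →ₐ[F] Module.End F K) : K →* Module.End F K) with hL
  have hLapp : ∀ (u : Kˣ) (y : K), (L u : Module.End F K) y = u * y := fun u y => rfl
  have hLinj : Function.Injective L := by
    intro u v h
    have := congrArg (fun w : (Module.End F K)ˣ => (w : Module.End F K) 1) h
    simp only [hLapp, mul_one] at this
    exact Units.ext this
  -- the subfield
  let A : Subalgebra F K :=
    { carrier := {x | ∃ y : K, ∀ z, x * (g : Module.End F K) z = (g : Module.End F K) (y * z)}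
      mul_mem' := by
        rintro a b ⟨y, hy⟩ ⟨y', hy'⟩
        refine ⟨y * y', fun z => ?_⟩
        rw [mul_assoc, hy', hy, mul_assoc]
      add_mem' := by
        rintro a b ⟨y, hy⟩ ⟨y', hy'⟩
        refine ⟨y + y', fun z => ?_⟩
        rw [add_mul, hy', hy, add_mul, map_add]
      algebraMap_mem' := by
        intro r
        refine ⟨algebraMap F K r, fun z => ?_⟩
        rw [← Algebra.smul_def, ← Algebra.smul_def, map_smul] }
  have hAf : IsField A := by
    haveI : Algebra.IsAlgebraic F A := inferInstance
    exact Subalgebra.isField_of_algebraic A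
  letI : Field A := hAf.toField
  set r := Module.finrank F A with hr
  have hmul : Module.finrank F A * Module.finrank A K = n := by
    rw [← hdim]
    exact Module.finrank_mul_finrank F A K
  have hr1 : 1 ≤ r := Module.finrank_pos
  have hk1 : 1 ≤ Module.finrank A K := Module.finrank_pos
  -- A ≠ ⊤
  have hcardA : Nat.card A = Fintype.card F ^ r := by
    rw [Module.natCard_eq_pow_finrank (K := F) (V := A), Nat.card_eq_fintype_card]
  have hmem : ∀ u : Kˣ, L u ∈ L.range.map (MulAut.conj g).toMonoidHom ↔ (u : K) ∈ A := by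
    intro u
    constructor
    · rintro ⟨_, ⟨v, rfl⟩, hv⟩
      have h1 : g * L v = L u * g := by
        have : g * L v * g⁻¹ = L u := hv
        rw [← this]; group
      refine ⟨v, fun z => ?_⟩
      exact (congrArg (fun w : (Module.End F K)ˣ => (w : Module.End F K) z) h1).symm
    · rintro ⟨y, hy⟩
      have hy0 : y ≠ 0 := by
        rintro rfl
        have h1 := hy (((g⁻¹ : (Module.End F K)ˣ) : Module.End F K) 1)
        rw [Cfsg.Agent.S5738.apply_inv_self', zero_mul, map_zero, mul_one] at h1
        exact u.ne_zero h1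
      refine ⟨L (Units.mk0 y hy0), ⟨_, rfl⟩, ?_⟩
      have h1 : g * L (Units.mk0 y hy0) = L u * g := by
        apply Units.ext
        ext z
        exact (hy z).symm
      change g * L (Units.mk0 y hy0) * g⁻¹ = L u
      rw [h1]; group
  have hrn : r ≠ n := by
    intro hrn
    have h1 : A = ⊤ := by
      apply Subalgebra.toSubmodule_injective
      rw [Algebra.top_toSubmodule]
      apply Submodule.eq_top_of_finrank_eq
      rw [hdim, ← hrn]; rfl
    apply hg
    have h2 : L.range ≤ L.range.map (MulAut.conj g).toMonoidHom := by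
      rintro _ ⟨u, rfl⟩
      rw [hmem, h1]
      exact Algebra.mem_top
    have hfin : Finite (Module.End F K) := by
      exact Finite.of_injective (fun f : Module.End F K => (f : K → K)) DFunLike.coe_injective
    haveI : Finite (Module.End F K)ˣ := inferInstance
    refine (Subgroup.eq_of_le_of_card_ge h2 ?_).symm
    rw [Nat.card_congr (Subgroup.equivMapOfInjective L.range (MulAut.conj g).toMonoidHom (MulAut.conj g).injective).toEquiv]
  refine ⟨r, hr1, ⟨_, hmul.symm⟩, lt_of_le_of_ne (Nat.le_of_dvd (by omega) ⟨_, hmul.symm⟩) hrn, ?_⟩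
  -- count
  have e : ↥(L.range.map (MulAut.conj g).toMonoidHom ⊓ L.range) ≃ {x : A // x ≠ 0} := by
    refine (Equiv.ofBijective (fun x : {x : A // x ≠ 0} =>
      (⟨L (Units.mk0 (x.1 : K) (fun h => x.2 (Subtype.ext h))), (hmem _).mpr x.1.2, ⟨_, rfl⟩⟩ :
        ↥(L.range.map (MulAut.conj g).toMonoidHom ⊓ L.range))) ⟨?_, ?_⟩).symm
    · intro x y h
      have h1 := hLinj (congrArg Subtype.val h)
      apply Subtype.ext; apply Subtype.ext
      exact congrArg (fun u : Kˣ => (u : K)) h1
    · rintro ⟨_, h1, ⟨u, rfl⟩⟩
      refine ⟨⟨⟨u, (hmem u).mp h1⟩, fun h => u.ne_zero (congrArg Subtype.val h)⟩, ?_⟩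
      apply Subtype.ext
      change L _ = L _
      congr 1
      exact Units.ext rfl
  rw [Nat.card_congr e]
  haveI : Fintype A := Fintype.ofFinite A
  have h3 : Nat.card {x : A // x ≠ 0} = Fintype.card F ^ r - 1 := by
    rw [← hcardA, Nat.card_eq_fintype_card, Nat.card_eq_fintype_card, Fintype.card_subtype_compl]
    simp
  rw [h3]

end Cfsg.Agent.S5739
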