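import Cfsg.Statements.S5747
import Mathlib


set_option autoImplicit false
open Cfsg

namespace Cfsg.Agent.S5747

section
variable {G Ω : Type*} [Group G] [MulAction G Ω]

/-- base -/
def Bs {t : ℕ} (f : Fin t → Ω) : Prop := ∀ g : G, (∀ i : Fin t, g • f i = f i) → g = 1
/-- irredundant -/
def Ir {t : ℕ} (f : Fin t → Ω) : Prop := ∀ i : Fin t, ∃ g : G, (∀ j : Fin t, j < i → g • f j = f j) ∧ g • f i ≠ f i

theorem extract : ∀ (t : ℕ) (f : Fin t → Ω), Bs (G := G) f → ∃ t' ≤ t, ∃ f' : Fin t' → Ω, Bs (G := G) f' ∧ Ir (G := G) f' := by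
  intro t
  induction t with
  | zero => intro f hf; exact ⟨0, le_rfl, f, hf, fun i => i.elim0⟩
  | succ t ih =>
    intro f hf
    by_cases h : Ir (G := G) f
    · exact ⟨t + 1, le_rfl, f, hf, h⟩
    · rw [Ir] at h
      push Not at h
      obtain ⟨i, hi⟩ := h
      obtain ⟨t', ht', f', h1, h2⟩ := ih (fun j => f (i.succAbove j)) (by
        intro g hg
        apply hf
        have hall : ∀ j, j ≠ i → g • f j = f j := by
          intro j hj
          obtain ⟨k, rfl⟩ := Fin.exists_succAbove_eq hj
          exact hg k
        intro j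
        by_cases hj : j = i
        · rw [hj]
          exact hi g (fun l hl => hall l hl.ne)
        · exact hall j hj)
      exact ⟨t', by omega, f', h1, h2⟩

/-- as `extract`, with strict inequality for redundant bases -/
theorem extract_lt (t : ℕ) (f : Fin t → Ω) (hf : Bs (G := G) f) (h : ¬ Ir (G := G) f) : ∃ t' < t, ∃ f' : Fin t' → Ω, Bs (G := G) f' ∧ Ir (G := G) f' := by
  rw [Ir] at h
  push Not at h
  obtain ⟨i, hi⟩ := h
  cases t with
  | zero => exact i.elim0
  | succ t =>
    obtain ⟨t', ht', f', h1, h2⟩ := extract t (fun j => f (i.succAbove j)) (by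
        intro g hg
        apply hf
        have hall : ∀ j, j ≠ i → g • f j = f j := by
          intro j hj
          obtain ⟨k, rfl⟩ := Fin.exists_succAbove_eq hj
          exact hg k
        intro j
        by_cases hj : j = i
        · rw [hj]
          exact hi g (fun l hl => hall l hl.ne)
        · exact hall j hj)
    exact ⟨t', by omega, f', h1, h2⟩

theorem ir_snoc {t : ℕ} (f : Fin t → Ω) (y : Ω) (hf : Ir (G := G) f) (hy : ∃ g : G, (∀ j, g • f j = f j) ∧ g • y ≠ y) :
    Ir (G := G) (Fin.snoc f y : Fin (t + 1) → Ω) := by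
  intro i
  refine Fin.lastCases ?_ (fun i => ?_) i
  · obtain ⟨g, hg, hgy⟩ := hy
    refine ⟨g, fun j hj => ?_, by rwa [Fin.snoc_last]⟩
    obtain ⟨k, rfl⟩ : ∃ k : Fin t, j = k.castSucc := ⟨j.castPred (Fin.ne_last_of_lt hj), by simp⟩
    rw [Fin.snoc_castSucc]; exact hg k
  · obtain ⟨g, hg, hgi⟩ := hf i
    refine ⟨g, fun j hj => ?_, by rwa [Fin.snoc_castSucc]⟩
    obtain ⟨k, rfl⟩ : ∃ k : Fin t, j = k.castSucc := ⟨j.castPred (Fin.ne_last_of_lt hj), by simp⟩
    rw [Fin.snoc_castSucc]
    exact hg k (by simpa using hj)

/-- strong independence of a finite set -/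
def IS (S : Finset Ω) : Prop := (∀ g : G, (∀ x ∈ S, g • x = x) → g = 1) ∧ ∀ x ∈ S, ∃ g : G, (∀ y ∈ S, y ≠ x → g • y = y) ∧ g • x ≠ x

end

/-- Let a finite group G act on a finite set Ω. An irredundant base is a sequence of points ω₁, …, ω_t whose pointwise stabiliser is trivial and in which each ω_i is moved by some element fixing ω₁, …, ω_{i−1}. Then all irredundant bases have the same length if and only if every reordering of an irredundant base is again an irredundant base. -/
theorem result {G Ω : Type*} [Group G] [Finite G] [MulAction G Ω] [Fintype Ω] :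
    (∀ (t t' : ℕ) (f : Fin t → Ω) (f' : Fin t' → Ω), ((∀ g : G, (∀ i : Fin t, g • f i = f i) → g = 1) ∧ ∀ i : Fin t, ∃ g : G, (∀ j : Fin t, j < i → g • f j = f j) ∧ g • f i ≠ f i) → ((∀ g : G, (∀ i : Fin t', g • f' i = f' i) → g = 1) ∧ ∀ i : Fin t', ∃ g : G, (∀ j : Fin t', j < i → g • f' j = f' j) ∧ g • f' i ≠ f' i) → t = t') ↔
    (∀ (t : ℕ) (f : Fin t → Ω) (σ : Equiv.Perm (Fin t)), ((∀ g : G, (∀ i : Fin t, g • f i = f i) → g = 1) ∧ ∀ i : Fin t, ∃ g : G, (∀ j : Fin t, j < i → g • f j = f j) ∧ g • f i ≠ f i) → ((∀ g : G, (∀ i : Fin t, g • (f ∘ σ) i = (f ∘ σ) i) → g = 1) ∧ ∀ i : Fin t, ∃ g : G, (∀ j : Fin t, j < i → g • (f ∘ σ) j = (f ∘ σ) j) ∧ g • (f ∘ σ) i ≠ (f ∘ σ) i)) := by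
  classical
  constructor
  · intro h t f σ ⟨hf1, hf2⟩
    have hb : Bs (G := G) (f ∘ σ) := by
      intro g hg
      apply hf1
      intro i
      have := hg (σ.symm i)
      simpa using this
    refine ⟨hb, ?_⟩
    by_contra hcon
    obtain ⟨t', ht', f', h1, h2⟩ := extract_lt (G := G) t (f ∘ σ) hb hcon
    have := h t t' f f' ⟨hf1, hf2⟩ ⟨h1, h2⟩
    omega
  · intro hR
    -- put `i` last
    have hlast : ∀ (t : ℕ) (f : Fin t → Ω), Bs (G := G) f → Ir (G := G) f → ∀ i, ∃ g : G, (∀ j, j ≠ i → g • f j = f j) ∧ g • f i ≠ f i := by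
      intro t f hb hi i
      cases t with
      | zero => exact i.elim0
      | succ t =>
        obtain ⟨_, h2⟩ := hR (t + 1) f (Equiv.swap i (Fin.last t)) ⟨hb, hi⟩
        obtain ⟨g, hg, hgi⟩ := h2 (Fin.last t)
        simp only [Function.comp_apply, Equiv.swap_apply_right] at hgi
        refine ⟨g, fun j hj => ?_, hgi⟩
        by_cases hjl : j = Fin.last t
        · -- j = last ≠ i : it is at position i
          have h3 := hg i (by
            rw [← hjl]; exact lt_of_le_of_ne (by rw [hjl]; exact Fin.le_last i) (Ne.symm hj))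
          simp only [Function.comp_apply, Equiv.swap_apply_left] at h3
          rw [hjl]; exact h3
        · have h3 := hg j (lt_of_le_of_ne (Fin.le_last j) hjl)
          simp only [Function.comp_apply] at h3
          rwa [Equiv.swap_apply_of_ne_of_ne hj hjl] at h3
    -- from sequences to sets
    have hIS : ∀ (t : ℕ) (f : Fin t → Ω), Bs (G := G) f → Ir (G := G) f → IS (G := G) (Finset.univ.image f) ∧ (Finset.univ.image f).card = t := by
      intro t f hb hi
      have hinj : Function.Injective f := by
        intro i j hij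
        by_contra hne
        obtain ⟨g, hg, hgi⟩ := hlast t f hb hi i
        apply hgi
        rw [hij]
        exact hg j (Ne.symm hne)
      refine ⟨⟨?_, ?_⟩, ?_⟩
      · intro g hg
        apply hb
        intro i
        exact hg _ (Finset.mem_image_of_mem f (Finset.mem_univ i))
      · intro x hx
        obtain ⟨i, _, rfl⟩ := Finset.mem_image.mp hx
        obtain ⟨g, hg, hgi⟩ := hlast t f hb hi i
        refine ⟨g, fun y hy hne => ?_, hgi⟩
        obtain ⟨j, _, rfl⟩ := Finset.mem_image.mp hy
        exact hg j (fun h => hne (by rw [h]))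
      · rw [Finset.card_image_of_injective _ hinj, Finset.card_univ, Fintype.card_fin]
    -- enumerations
    have henum : ∀ (S : Finset Ω), (∀ x ∈ S, ∃ g : G, (∀ y ∈ S, y ≠ x → g • y = y) ∧ g • x ≠ x) → ∃ f : Fin S.card → Ω, Finset.univ.image f = S ∧ Ir (G := G) f := by
      intro S hS
      let e := S.equivFin
      refine ⟨fun i => (e.symm i).1, ?_, ?_⟩
      · ext x
        rw [Finset.mem_image]
        constructor
        · rintro ⟨i, _, rfl⟩; exact (e.symm i).2
        · intro hx; exact ⟨e ⟨x, hx⟩, Finset.mem_univ _, by simp⟩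
      · intro i
        obtain ⟨g, hg, hgi⟩ := hS _ (e.symm i).2
        refine ⟨g, fun j hj => ?_, hgi⟩
        apply hg _ (e.symm j).2
        intro h
        have := e.symm.injective (Subtype.ext h)
        exact hj.ne this
    -- exchange
    have hex : ∀ (S R : Finset Ω), IS (G := G) S → IS (G := G) R → ∀ x ∈ S, ∃ y ∈ R, y ∉ S.erase x ∧ IS (G := G) (insert y (S.erase x)) := by
      intro S R hS hRR x hx
      obtain ⟨g, hg, hgx⟩ := hS.2 x hx
      have hg1 : g ≠ 1 := by rintro rfl; exact hgx (one_smul _ _)
      obtain ⟨y, hyR, hgy⟩ : ∃ y ∈ R, g • y ≠ y := by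
        by_contra hcon
        push Not at hcon
        exact hg1 (hRR.1 g hcon)
      have hgS : ∀ z ∈ S.erase x, g • z = z := fun z hz => hg z (Finset.mem_of_mem_erase hz) (Finset.ne_of_mem_erase hz)
      have hyS : y ∉ S.erase x := fun h => hgy (hgS y h)
      obtain ⟨f, hf1, hf2⟩ := henum (S.erase x) (by
        intro z hz
        obtain ⟨g', hg', h2⟩ := hS.2 z (Finset.mem_of_mem_erase hz)
        exact ⟨g', fun w hw hne => hg' w (Finset.mem_of_mem_erase hw) hne, h2⟩)
      have hfmem : ∀ j, f j ∈ S.erase x := fun j => by rw [← hf1]; exact Finset.mem_image_of_mem f (Finset.mem_univ j)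
      have hir : Ir (G := G) (Fin.snoc f y : Fin ((S.erase x).card + 1) → Ω) := ir_snoc f y hf2 ⟨g, fun j => hgS _ (hfmem j), hgy⟩
      have himg : Finset.univ.image (Fin.snoc f y : Fin ((S.erase x).card + 1) → Ω) = insert y (S.erase x) := by
        ext z
        rw [Finset.mem_image, Finset.mem_insert]
        constructor
        · rintro ⟨i, _, rfl⟩
          refine Fin.lastCases ?_ (fun i => ?_) i
          · left; rw [Fin.snoc_last]
          · right; rw [Fin.snoc_castSucc]; exact hfmem i
        · rintro (rfl | hz)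
          · exact ⟨Fin.last _, Finset.mem_univ _, by rw [Fin.snoc_last]⟩
          · rw [← hf1] at hz
            obtain ⟨i, _, rfl⟩ := Finset.mem_image.mp hz
            exact ⟨i.castSucc, Finset.mem_univ _, by rw [Fin.snoc_castSucc]⟩
      have hbs : Bs (G := G) (Fin.snoc f y : Fin ((S.erase x).card + 1) → Ω) := by
        intro h hh
        have hhS : ∀ z ∈ insert y (S.erase x), h • z = z := by
          intro z hz
          rw [← himg] at hz
          obtain ⟨i, _, rfl⟩ := Finset.mem_image.mp hz
          exact hh i
        by_cases hhx : h • x = x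
        · apply hS.1
          intro z hz
          by_cases hzx : z = x
          · rw [hzx]; exact hhx
          · exact hhS z (Finset.mem_insert_of_mem (Finset.mem_erase.mpr ⟨hzx, hz⟩))
        · exfalso
          -- the longer sequence
          have hir2 := ir_snoc (G := G) (Fin.snoc f y : Fin ((S.erase x).card + 1) → Ω) x hir ⟨h, hh, hhx⟩
          have hbs2 : Bs (G := G) (Fin.snoc (Fin.snoc f y : Fin ((S.erase x).card + 1) → Ω) x : Fin ((S.erase x).card + 1 + 1) → Ω) := by
            intro h' hh'
            apply hS.1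
            intro z hz
            by_cases hzx : z = x
            · have := hh' (Fin.last _)
              rw [Fin.snoc_last] at this
              rw [hzx]; exact this
            · have hz' : z ∈ insert y (S.erase x) := Finset.mem_insert_of_mem (Finset.mem_erase.mpr ⟨hzx, hz⟩)
              rw [← himg] at hz'
              obtain ⟨i, _, rfl⟩ := Finset.mem_image.mp hz'
              have := hh' i.castSucc
              rwa [Fin.snoc_castSucc] at this
          obtain ⟨g', hg', hg'y⟩ := hlast _ _ hbs2 hir2 (Fin.last ((S.erase x).card)).castSucc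
          rw [Fin.snoc_castSucc, Fin.snoc_last] at hg'y
          apply hg'y
          have : g' = 1 := by
            apply hS.1
            intro z hz
            by_cases hzx : z = x
            · have := hg' (Fin.last _) (by
                intro h4
                exact (Fin.castSucc_lt_last _).ne h4.symm)
              rw [Fin.snoc_last] at this
              rw [hzx]; exact this
            · have hz' : z ∈ S.erase x := Finset.mem_erase.mpr ⟨hzx, hz⟩
              rw [← hf1] at hz'
              obtain ⟨i, _, rfl⟩ := Finset.mem_image.mp hz'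
              have := hg' i.castSucc.castSucc (by
                intro h4
                exact (Fin.castSucc_lt_last i).ne (Fin.castSucc_injective _ h4))
              rwa [Fin.snoc_castSucc, Fin.snoc_castSucc] at this
          rw [this, one_smul]
      refine ⟨y, hyR, hyS, ?_⟩
      have := (hIS _ _ hbs hir).1
      rwa [himg] at this
    -- equal cardinality
    have hcard : ∀ (k : ℕ) (S R : Finset Ω), (S \ R).card = k → IS (G := G) S → IS (G := G) R → S.card = R.card := by
      intro k
      induction k with
      | zero =>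
        intro S R h0 hS hRR
        have hsub : S ⊆ R := by
          rw [Finset.card_eq_zero, Finset.sdiff_eq_empty_iff_subset] at h0
          exact h0
        have : S = R := by
          apply Finset.Subset.antisymm hsub
          intro x hx
          by_contra hxS
          obtain ⟨g, hg, hgx⟩ := hRR.2 x hx
          apply hgx
          rw [hS.1 g (fun z hz => hg z (hsub hz) (fun h => hxS (h ▸ hz))), one_smul]
        rw [this]
      | succ k ih =>
        intro S R hk hS hRR
        obtain ⟨x, hx⟩ : (S \ R).Nonempty := by rw [← Finset.card_pos]; omega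
        rw [Finset.mem_sdiff] at hx
        obtain ⟨y, hyR, hyS, hnew⟩ := hex S R hS hRR x hx.1
        have h1 : (insert y (S.erase x)).card = S.card := by
          rw [Finset.card_insert_of_notMem hyS, Finset.card_erase_of_mem hx.1]
          have := Finset.card_pos.mpr ⟨x, hx.1⟩
          omega
        rw [← h1]
        apply ih _ _ _ hnew hRR
        have h2 : (insert y (S.erase x)) \ R = (S \ R).erase x := by
          ext z
          simp only [Finset.mem_sdiff, Finset.mem_insert, Finset.mem_erase]
          constructor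
          · rintro ⟨rfl | ⟨h3, h4⟩, h5⟩
            · exact absurd hyR h5
            · exact ⟨h3, h4, h5⟩
          · rintro ⟨h3, h4, h5⟩
            exact ⟨Or.inr ⟨h3, h4⟩, h5⟩
        rw [h2, Finset.card_erase_of_mem (Finset.mem_sdiff.mpr hx), hk]; rfl
    intro t t' f f' ⟨h1, h2⟩ ⟨h1', h2'⟩
    have e1 := hIS t f h1 h2
    have e2 := hIS t' f' h1' h2'
    rw [← e1.2, ← e2.2]
    exact hcard _ _ _ rfl e1.1 e2.1

end Cfsg.Agent.S5747
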