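import Cfsg.Statements.S5754
import Mathlib


set_option autoImplicit false
open Cfsg

namespace Cfsg.Agent.S5754

open QuadraticMap in
theorem witt {F V : Type*} [Field F] [AddCommGroup V] [Module F V]
    (Q : QuadraticForm F V) (hQ : Q.Anisotropic) (n : ℕ) (w w' : ℕ → V)
    (h0 : ∀ i < n, Q (w i) = Q (w' i))
    (h : ∀ i < n, ∀ j < n, polar Q (w i) (w j) = polar Q (w' i) (w' j)) :
    ∃ φ : Q.IsometryEquiv Q, ∀ i < n, φ (w i) = w' i := by
  induction n with
  | zero => exact ⟨QuadraticMap.IsometryEquiv.refl Q, fun i hi => absurd hi (Nat.not_lt_zero i)⟩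
  | succ n ih =>
    obtain ⟨φ, hφ⟩ := ih (fun i hi => h0 i (by omega)) (fun i hi j hj => h i (by omega) j (by omega))
    set v := φ (w n) - w' n with hv
    by_cases hv0 : v = 0
    · refine ⟨φ, fun i hi => ?_⟩
      rcases Nat.lt_succ_iff_lt_or_eq.mp hi with hi | rfl
      · exact hφ i hi
      · exact sub_eq_zero.mp hv0
    have hQv : Q v ≠ 0 := fun h => hv0 (hQ v h)
    have hpol : ∀ x y, polar Q (φ x) (φ y) = polar Q x y := by
      intro x y
      simp only [polar, ← map_add, QuadraticMap.IsometryEquiv.map_app]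
    -- the reflection
    let r : V →ₗ[F] V := LinearMap.id - ((Q v)⁻¹ • (Q.polarBilin v)).smulRight v
    have hr : ∀ x, r x = x - ((Q v)⁻¹ * polar Q v x) • v := by
      intro x; rfl
    have hQr : ∀ x, Q (r x) = Q x := by
      intro x
      rw [hr]
      set c := (Q v)⁻¹ * polar Q v x with hc
      have h1 : Q (x - c • v) = Q x + Q (-(c • v)) + polar Q x (-(c • v)) := by
        rw [sub_eq_add_neg, QuadraticMap.map_add Q]
      rw [h1, QuadraticMap.map_neg, QuadraticMap.map_smul, QuadraticMap.polar_neg_right, QuadraticMap.polar_smul_right, QuadraticMap.polar_comm Q x v]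
      rw [smul_eq_mul, smul_eq_mul]
      have : polar Q v x = c * Q v := by rw [hc]; field_simp
      rw [this]; ring
    have hrv : r v = -v := by
      rw [hr, QuadraticMap.polar_self, nsmul_eq_mul]
      have : (Q v)⁻¹ * (((2 : ℕ) : F) * Q v) = 2 := by push_cast; field_simp
      rw [this, two_smul]; abel
    have hrr : ∀ x, r (r x) = x := by
      intro x
      have h1 : r (r x) = r x - ((Q v)⁻¹ * polar Q v x) • r v := by
        conv_lhs => rw [hr x]
        rw [map_sub, map_smul]
      rw [h1, hrv, hr x, smul_neg]; abel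
    let re : V ≃ₗ[F] V := LinearEquiv.ofInvolutive r hrr
    let ρ : Q.IsometryEquiv Q := { re with map_app' := fun x => hQr x }
    have hρ : ∀ x, ρ x = r x := fun x => rfl
    refine ⟨φ.trans ρ, fun i hi => ?_⟩
    have htr : ∀ x, (φ.trans ρ) x = r (φ x) := fun x => rfl
    rw [htr]
    rcases Nat.lt_succ_iff_lt_or_eq.mp hi with hi' | rfl
    · rw [hφ i hi', hr]
      have h1 : polar Q v (w' i) = 0 := by
        rw [hv, QuadraticMap.polar_sub_left]
        rw [← h n (by omega) i (by omega), ← hφ i hi', hpol, sub_self]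
      rw [h1, mul_zero, zero_smul, sub_zero]
    · have h1 : polar Q v (φ (w i)) = Q v := by
        have e1 : Q v = Q (φ (w i)) + Q (w' i) - polar Q (φ (w i)) (w' i) := by
          rw [hv, sub_eq_add_neg, QuadraticMap.map_add Q, QuadraticMap.map_neg, QuadraticMap.polar_neg_right]; ring
        rw [e1, hv, QuadraticMap.polar_sub_left, QuadraticMap.polar_self, QuadraticMap.IsometryEquiv.map_app, ← h0 i (by omega),
          QuadraticMap.polar_comm Q (w' i)]
        rw [nsmul_eq_mul]; push_cast; ring
      rw [hr, h1, inv_mul_cancel₀ hQv, one_smul, hv]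
      abel

/-- Let V be a finite-dimensional vector space over a finite field F carrying an anisotropic quadratic form Q (Q(v) = 0 only for v = 0). Then the group of all maps v ↦ φ(v) + c, with φ an isometry of Q and c ∈ V, acts on V as a binary permutation group: given n ≥ 2 and two n-tuples u, u' of vectors such that every pair of corresponding entries of u is carried to that of u' by such a map, one such map carries u to u'. -/
theorem result {F V : Type*} [Field F] [Finite F] [AddCommGroup V] [Module F V] [Module.Finite F V]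
    (Q : QuadraticForm F V) (hQ : Q.Anisotropic) (n : ℕ) (hn : 2 ≤ n) (u u' : Fin n → V)
    (h2 : ∀ i j : Fin n, i ≠ j → ∃ (φ : Q.IsometryEquiv Q) (c : V), φ (u i) + c = u' i ∧ φ (u j) + c = u' j) :
    ∃ (φ : Q.IsometryEquiv Q) (c : V), ∀ i, φ (u i) + c = u' i := by
  classical
  have hn0 : 0 < n := by omega
  set z : Fin n := ⟨0, hn0⟩ with hz
  let w : ℕ → V := fun i => if h : i < n then u ⟨i, h⟩ - u z else 0
  let w' : ℕ → V := fun i => if h : i < n then u' ⟨i, h⟩ - u' z else 0
  have hd : ∀ i j : Fin n, Q (u i - u j) = Q (u' i - u' j) := by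
    intro i j
    by_cases hij : i = j
    · subst hij; simp
    obtain ⟨φ, c, h1, h3⟩ := h2 i j hij
    rw [← h1, ← h3, add_sub_add_right_eq_sub, ← map_sub, QuadraticMap.IsometryEquiv.map_app]
  have hpolar : ∀ i j k : Fin n, QuadraticMap.polar Q (u i - u k) (u j - u k) = QuadraticMap.polar Q (u' i - u' k) (u' j - u' k) := by
    intro i j k
    have h1 : ∀ x y : V, QuadraticMap.polar Q x y = Q x + Q y - Q (x - y) := by
      intro x y
      have : Q (x - y) = Q x + Q (-y) + QuadraticMap.polar Q x (-y) := by
        rw [sub_eq_add_neg, QuadraticMap.map_add Q]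
      rw [this, QuadraticMap.map_neg, QuadraticMap.polar_neg_right]; ring
    rw [h1, h1, sub_sub_sub_cancel_right, sub_sub_sub_cancel_right, hd, hd, hd]
  obtain ⟨φ, hφ⟩ := witt Q hQ n w w' (fun i hi => by simp only [w, w', hi, dif_pos]; exact hd _ _)
    (fun i hi j hj => by simp only [w, w', hi, hj, dif_pos]; exact hpolar _ _ _)
  refine ⟨φ, u' z - φ (u z), fun i => ?_⟩
  have := hφ i i.2
  simp only [w, w', i.2, dif_pos, Fin.eta] at this
  rw [map_sub] at this
  have h3 : φ (u i) = u' i - u' z + φ (u z) := by rw [← this]; abel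
  rw [h3]; abel

end Cfsg.Agent.S5754
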