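import Cfsg.Statements.S5763
import Mathlib
import Cfsg.Agent.LibSyl8H12

set_option autoImplicit false
open Cfsg

namespace Cfsg.Agent.S5763

/-- In the symmetric group on 8 letters any two Sylow 2-subgroups have non-trivial intersection: for a Sylow 2-subgroup H and every element x, H ∩ xHx⁻¹ ≠ 1. -/
theorem result (H : Sylow 2 (Equiv.Perm (Fin 8))) (x : Equiv.Perm (Fin 8)) :
    (H : Subgroup (Equiv.Perm (Fin 8))) ⊓ (H : Subgroup (Equiv.Perm (Fin 8))).map (MulAut.conj x).toMonoidHom ≠ ⊥ := by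
  open scoped Pointwise in
  -- the standard Sylow subgroup
  let P : Sylow 2 (Equiv.Perm (Fin 8)) :=
    IsPGroup.toSylow CfsgLib.Syl8H12.P0_pgroup CfsgLib.Syl8H12.P0_index
  obtain ⟨h, hh⟩ := MulAction.exists_smul_eq (Equiv.Perm (Fin 8)) P H
  have hmem : ∀ z, z ∈ H ↔ h⁻¹ * z * h ∈ CfsgLib.Syl8H12.P0 := by
    intro z
    rw [← hh]
    change z ∈ MulAut.conj h • CfsgLib.Syl8H12.P0 ↔ _
    rw [Subgroup.mem_pointwise_smul_iff_inv_smul_mem]
    rw [← map_inv, MulAut.smul_def, MulAut.conj_apply, inv_inv]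
  obtain ⟨g, hg1, hg2, hg3⟩ := CfsgLib.Syl8H12.main (h⁻¹ * x * h)
  intro hbot
  apply hg1
  have h1 : h * g * h⁻¹ ∈ (H : Subgroup (Equiv.Perm (Fin 8))) ⊓
      (H : Subgroup (Equiv.Perm (Fin 8))).map (MulAut.conj x).toMonoidHom := by
    refine ⟨?_, ?_⟩
    · change h * g * h⁻¹ ∈ H
      rw [hmem]
      convert hg2 using 1
      group
    · refine ⟨x⁻¹ * (h * g * h⁻¹) * x, ?_, ?_⟩
      · change x⁻¹ * (h * g * h⁻¹) * x ∈ H
        rw [hmem]
        convert hg3 using 1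
        group
      · change x * (x⁻¹ * (h * g * h⁻¹) * x) * x⁻¹ = _
        group
  rw [hbot, Subgroup.mem_bot] at h1
  have h2 : g = h⁻¹ * (h * g * h⁻¹) * h := by group
  rw [h2, h1]
  group

end Cfsg.Agent.S5763
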