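import Cfsg.Statements.S5885
import Mathlib
open scoped Pointwise

set_option autoImplicit false
open Cfsg

namespace Cfsg.Agent.S5885

open MulAction in
/-- even permutations are realized -/
theorem realize {G : Type*} [Group G] [Finite G] (n : ℕ)
    (hA : ∀ P : Subgroup (Equiv.Perm (Fin n)), MulAction.IsPreprimitive P (Fin n) → alternatingGroup (Fin n) ≤ P)
    (M : Subgroup G) (hM : IsCoatom M) (hn : M.index = n) [DecidableEq (G ⧸ M)] [Fintype (G ⧸ M)] (τ : Equiv.Perm (G ⧸ M)) (hτ : Equiv.Perm.sign τ = 1) :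
    ∃ g : G, ∀ ω : G ⧸ M, g • ω = τ ω := by
  have hne : M ≠ ⊤ := hM.1
  haveI : Nontrivial (G ⧸ M) := by
    rw [← Finite.one_lt_card_iff_nontrivial]
    have h1 : M.index ≠ 1 := fun h => hne (Subgroup.index_eq_one.mp h)
    have h2 : M.index ≠ 0 := Subgroup.index_ne_zero_of_finite
    rw [← Subgroup.index]; omega
  haveI hpr : IsPreprimitive G (G ⧸ M) := by
    rw [← isCoatom_stabilizer_iff_preprimitive G ((1 : G) : G ⧸ M), stabilizer_quotient]
    exact hM
  have hcard : Fintype.card (G ⧸ M) = n := by rw [← Nat.card_eq_fintype_card, ← hn]; rfl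
  let e : (G ⧸ M) ≃ Fin n := Fintype.equivFinOfCardEq hcard
  let ψ : G →* Equiv.Perm (Fin n) := (e.permCongrHom.toMonoidHom).comp (toPermHom G (G ⧸ M))
  have hprim : IsPreprimitive ψ.range (Fin n) := by
    let f : (G ⧸ M) →ₑ[ψ.rangeRestrict] Fin n :=
      { toFun := e
        map_smul' := by
          intro g ω
          show e (g • ω) = (ψ g) (e ω)
          simp [ψ, Equiv.permCongrHom] }
    exact (isPreprimitive_congr (f := f) ψ.rangeRestrict_surjective e.bijective).mp hpr
  have h1 := hA ψ.range hprim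
  have h2 : e.permCongr τ ∈ alternatingGroup (Fin n) := by
    rw [Equiv.Perm.mem_alternatingGroup, Equiv.Perm.sign_permCongr]; exact hτ
  obtain ⟨g, hg⟩ := h1 h2
  refine ⟨g, fun ω => ?_⟩
  have h3 := congrArg (fun p : Equiv.Perm (Fin n) => p (e ω)) hg
  simp only [ψ, Equiv.permCongrHom, MonoidHom.comp_apply] at h3
  simpa using h3

/-- the 3-cycle moving `x ↦ y ↦ z ↦ x` -/
theorem three {α : Type*} [DecidableEq α] [Fintype α] {x y z : α} (hxy : x ≠ y) (hyz : y ≠ z) (hxz : x ≠ z) :
    ∃ τ : Equiv.Perm α, Equiv.Perm.sign τ = 1 ∧ τ x = y ∧ τ y = z ∧ τ z = x ∧ ∀ w, w ≠ x → w ≠ y → w ≠ z → τ w = w := by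
  refine ⟨Equiv.swap x y * Equiv.swap y z, ?_, ?_, ?_, ?_, ?_⟩
  · rw [Equiv.Perm.sign_mul, Equiv.Perm.sign_swap hxy, Equiv.Perm.sign_swap hyz]; rfl
  · rw [Equiv.Perm.mul_apply, Equiv.swap_apply_of_ne_of_ne hxy hxz, Equiv.swap_apply_left]
  · rw [Equiv.Perm.mul_apply, Equiv.swap_apply_left, Equiv.swap_apply_of_ne_of_ne hxz.symm hyz.symm]
  · rw [Equiv.Perm.mul_apply, Equiv.swap_apply_right, Equiv.swap_apply_right]
  · intro w h1 h2 h3
    rw [Equiv.Perm.mul_apply, Equiv.swap_apply_of_ne_of_ne h2 h3, Equiv.swap_apply_of_ne_of_ne h1 h2]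

/-- Let n be an odd positive integer such that every primitive permutation group of degree n contains the alternating group (so the symmetric and alternating groups are the only primitive groups of degree n). Let G be a finite group, M a maximal subgroup of G of index n, and H a maximal subgroup of M. Then H is a second maximal subgroup of G: H is maximal in every maximal subgroup K of G containing H. -/
theorem result {G : Type*} [Group G]
    [Finite G] (n : ℕ) (hodd : Odd n)
    (hA : ∀ P : Subgroup (Equiv.Perm (Fin n)), MulAction.IsPreprimitive P (Fin n) → alternatingGroup (Fin n) ≤ P)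
    (M : Subgroup G) (hM : IsCoatom M) (hn : M.index = n) (H : Subgroup G) (hHM : H ≤ M)
    (hmax : IsCoatom (H.subgroupOf M)) (K : Subgroup G) (hK : IsCoatom K) (hHK : H ≤ K) :
    IsCoatom (H.subgroupOf K) := by
  classical
  haveI : Fintype (G ⧸ M) := Fintype.ofFinite _
  have hreal := realize n hA M hM hn
  -- H = K ⊓ M unless K = M
  by_cases hKM : K = M
  · subst hKM; exact hmax
  have hHcoatom : ∀ L : Subgroup G, H ≤ L → L ≤ M → L = H ∨ L = M := by
    intro L h1 h2
    by_cases h3 : L = H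
    · exact Or.inl h3
    · right
      have h4 : H.subgroupOf M < L.subgroupOf M := by
        refine lt_of_le_of_ne (fun x hx => h1 hx) ?_
        intro h5
        apply h3
        refine le_antisymm (fun x hx => ?_) h1
        have : (⟨x, h2 hx⟩ : M) ∈ L.subgroupOf M := hx
        rw [← h5] at this
        exact this
      have h6 := hmax.2 _ h4
      refine le_antisymm h2 (fun x hx => ?_)
      have : (⟨x, hx⟩ : M) ∈ L.subgroupOf M := by rw [h6]; trivial
      exact this
  have hMK : ¬ M ≤ K := fun h => hKM ((hM.le_iff.mp h).resolve_left hK.1)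
  have hHne : H ≠ M := by
    rintro rfl
    exact hMK hHK
  have hH : K ⊓ M = H := by
    rcases hHcoatom (K ⊓ M) (le_inf hHK hHM) inf_le_right with h | h
    · exact h
    · exact absurd (inf_eq_right.mp h) hMK
  have hKnM : ¬ K ≤ M := fun h => hKM ((hK.le_iff.mp h).resolve_left hM.1).symm
  have hHK' : H ≠ K := fun h => hKnM (h ▸ hHM)
  -- reduce
  suffices hmain : ∀ L : Subgroup G, H ≤ L → L ≤ K → L ≠ H → L ≠ K → False by
    constructor
    · intro h
      rw [Subgroup.subgroupOf_eq_top] at h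
      exact hHK' (le_antisymm hHK h)
    · intro L' hL'
      by_contra hcon
      refine hmain (L'.map K.subtype) ?_ (Subgroup.map_subtype_le _) ?_ ?_
      · intro x hx
        exact ⟨⟨x, hHK hx⟩, hL'.le (show (⟨x, hHK hx⟩ : K) ∈ H.subgroupOf K from hx), rfl⟩
      · intro h
        apply hL'.ne
        rw [← h]
        ext x
        rw [Subgroup.mem_subgroupOf]
        constructor
        · rintro ⟨y, hy, hyx⟩
          rwa [← Subtype.ext hyx]
        · intro hx
          exact ⟨x, hx, rfl⟩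
      · intro h
        apply hcon
        rw [eq_top_iff]
        intro x _
        have : (x : G) ∈ L'.map K.subtype := by rw [h]; exact x.2
        obtain ⟨y, hy, hyx⟩ := this
        rwa [← Subtype.ext hyx]
  intro L hHL hLK hLH hLK'
  set C := M.normalCore with hC
  have hCM : C ≤ M := M.normalCore_le
  by_cases hCK : C ≤ K
  swap
  · -- C not in K
    have h1 : C ⊔ L = ⊤ ∨ C ⊔ L = M := by
      have h2 : C ⊔ H = M := by
        rcases hHcoatom (C ⊔ H) le_sup_right (sup_le hCM hHM) with h | h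
        · exact absurd ((le_sup_left.trans h.le).trans hHK) hCK
        · exact h
      have h3 : M ≤ C ⊔ L := by rw [← h2]; exact sup_le_sup_left hHL _
      exact hM.le_iff.mp h3
    rcases h1 with h1 | h1
    · apply hLK'
      refine le_antisymm hLK (fun k hk => ?_)
      haveI : C.Normal := M.normalCore_normal
      have : k ∈ ((C ⊔ L : Subgroup G) : Set G) := by rw [h1]; trivial
      rw [Subgroup.normal_mul, Set.mem_mul] at this
      obtain ⟨c, hc, l, hl, rfl⟩ := this
      have hcK : c ∈ K := by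
        have := K.mul_mem hk (K.inv_mem (hLK hl))
        rwa [mul_inv_cancel_right] at this
      have : c ∈ H := by rw [← hH]; exact ⟨hcK, hCM hc⟩
      exact L.mul_mem (hHL this) hl
    · apply hLH
      refine le_antisymm ?_ hHL
      rw [← hH]
      exact le_inf hLK (le_sup_right.trans h1.le)
  -- kernel in K
  set x₀ : G ⧸ M := ((1 : G) : G ⧸ M) with hx₀
  have hst : ∀ g : G, g • x₀ = x₀ ↔ g ∈ M := by
    intro g
    rw [← MulAction.mem_stabilizer_iff, hx₀, MulAction.stabilizer_quotient]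
  have hsm : ∀ g : G, g • x₀ = (g : G ⧸ M) := by
    intro g; rw [hx₀]; show ((g * 1 : G) : G ⧸ M) = _; rw [mul_one]
  set B : Set (G ⧸ M) := {ω | ∃ l ∈ L, l • x₀ = ω} with hB
  have hx₀B : x₀ ∈ B := ⟨1, L.one_mem, one_smul _ _⟩
  have hblock : ∀ k ∈ K, ∀ b ∈ B, k • b ∈ B → k ∈ L := by
    rintro k hk _ ⟨l, hl, rfl⟩ ⟨l', hl', h⟩
    have h1 : l'⁻¹ * k * l ∈ H := by
      rw [← hH]
      refine ⟨K.mul_mem (K.mul_mem (K.inv_mem (hLK hl')) hk) (hLK hl), (hst _).mp ?_⟩
      rw [mul_smul, mul_smul, ← h, inv_smul_smul]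
    have h2 := L.mul_mem (L.mul_mem hl' (hHL h1)) (L.inv_mem hl)
    convert h2 using 1
    group
  have hLB : ∀ l ∈ L, ∀ b ∈ B, l • b ∈ B := by
    rintro l hl _ ⟨l', hl', rfl⟩
    exact ⟨l * l', L.mul_mem hl hl', mul_smul _ _ _⟩
  obtain ⟨x, hxB, hxx₀⟩ : ∃ x ∈ B, x ≠ x₀ := by
    by_contra hcon
    push Not at hcon
    apply hLH
    refine le_antisymm ?_ hHL
    intro l hl
    rw [← hH]
    exact ⟨hLK hl, (hst l).mp (hcon _ ⟨l, hl, rfl⟩)⟩
  obtain ⟨k', hk', hk'B⟩ : ∃ k ∈ K, k • x₀ ∉ B := by
    by_contra hcon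
    push Not at hcon
    apply hLK'
    exact le_antisymm hLK (fun k hk => hblock k hk x₀ hx₀B (hcon k hk))
  set y := k' • x₀ with hy
  have hyx₀ : y ≠ x₀ := fun h => hk'B (h ▸ hx₀B)
  have hyx : y ≠ x := fun h => hk'B (h ▸ hxB)
  have hcardn : Fintype.card (G ⧸ M) = n := by rw [← Nat.card_eq_fintype_card, ← hn]; rfl
  by_cases hΔ : ∀ ω : G ⧸ M, ∃ k ∈ K, k • x₀ = ω
  · -- transitive: another block
    set y' := k' • x with hy'
    have hyy' : y ≠ y' := by
      intro h
      exact hxx₀ (MulAction.injective k' h).symm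
    have hdis : ∀ b ∈ B, k' • b ∉ B := by
      intro b hb h
      have := hblock k' hk' b hb h
      exact hk'B ⟨k', this, rfl⟩
    obtain ⟨z, hzB, hzB'⟩ : ∃ z, z ∉ B ∧ ∀ b ∈ B, k' • b ≠ z := by
      by_contra hcon
      push Not at hcon
      have h1 : (Finset.univ : Finset (G ⧸ M)) = B.toFinset ∪ (B.toFinset.image (fun b => k' • b)) := by
        ext w
        simp only [Finset.mem_univ, Finset.mem_union, Set.mem_toFinset, Finset.mem_image, true_iff]
        by_cases hw : w ∈ B
        · exact Or.inl hw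
        · exact Or.inr (hcon w hw)
      have h2 : Disjoint B.toFinset (B.toFinset.image (fun b => k' • b)) := by
        rw [Finset.disjoint_left]
        intro w hw hw'
        simp only [Set.mem_toFinset, Finset.mem_image] at hw hw'
        obtain ⟨b, hb, rfl⟩ := hw'
        exact hdis b hb hw
      have h3 := congrArg Finset.card h1
      rw [Finset.card_union_of_disjoint h2, Finset.card_image_of_injective _ (MulAction.injective k'), Finset.card_univ, hcardn] at h3
      obtain ⟨m, hm⟩ := hodd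
      omega
    have hzy : z ≠ y := fun h => hzB' x₀ hx₀B h.symm
    have hzy' : z ≠ y' := fun h => hzB' x hxB h.symm
    have hy'B : y' ∉ B := hdis x hxB
    -- g : y ↦ z, y' ↦ y
    obtain ⟨τ, hτs, hτ1, hτ2, hτ3, hτ4⟩ := three hyy'.symm hzy.symm hzy'.symm
    obtain ⟨g, hg⟩ := hreal τ hτs
    have hfixB : ∀ b ∈ B, g • b = b := by
      intro b hb
      rw [hg]
      exact hτ4 b (fun h => hy'B (h ▸ hb)) (fun h => hk'B (h ▸ hb)) (fun h => hzB (h ▸ hb))
    have hgM : g ∈ M := (hst g).mp (hfixB x₀ hx₀B)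
    have hgK : g ∉ K := by
      intro hgK
      -- k'⁻¹ g k' maps x to x₀ and x₀ to k'⁻¹ z
      have h1 : k'⁻¹ * g * k' ∈ L := by
        refine hblock _ (K.mul_mem (K.mul_mem (K.inv_mem hk') hgK) hk') x hxB ?_
        rw [mul_smul, mul_smul, ← hy', hg, hτ1, hy, inv_smul_smul]
        exact hx₀B
      have h2 := hLB _ h1 x₀ hx₀B
      rw [mul_smul, mul_smul, ← hy, hg, hτ2] at h2
      exact hzB' _ h2 (smul_inv_smul _ _)
    -- S = M ⊓ Stab B
    let S : Subgroup G := M ⊓ MulAction.stabilizer G B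
    have hHS : H ≤ S := by
      intro h hh
      refine ⟨hHM hh, ?_⟩
      show h ∈ MulAction.stabilizer G B
      rw [MulAction.mem_stabilizer_set]
      intro b
      constructor
      · intro hb
        have := hLB _ (L.inv_mem (hHL hh)) _ hb
        rwa [inv_smul_smul] at this
      · exact hLB h (hHL hh) b
    have hgS : g ∈ S := by
      refine ⟨hgM, ?_⟩
      show g ∈ MulAction.stabilizer G B
      rw [MulAction.mem_stabilizer_set]
      intro b
      constructor
      · intro hb
        have h1 := hfixB _ hb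
        have h2 := MulAction.injective g h1
        rwa [h2] at hb
      · intro hb
        rw [hfixB b hb]
        exact hb
    rcases hHcoatom S hHS inf_le_left with h | h
    · exact hgK (hHK (h ▸ hgS))
    · -- all of M stabilizes B
      have hzx : z ≠ x := fun h => hzB (h ▸ hxB)
      obtain ⟨τ₂, hs, h1, h2, h3, h4⟩ := three hzx.symm hzy hyx.symm
      obtain ⟨g₂, hg₂⟩ := hreal τ₂ hs
      have hg₂M : g₂ ∈ M := (hst g₂).mp (by
        rw [hg₂]
        exact h4 x₀ hxx₀.symm (fun h => hzB (h ▸ hx₀B)) hyx₀.symm)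
      have hg₂S : g₂ ∈ S := h ▸ hg₂M
      have := (MulAction.mem_stabilizer_set.mp hg₂S.2 x).mpr hxB
      rw [hg₂, h1] at this
      exact hzB this
  · -- intransitive
    push Not at hΔ
    obtain ⟨ω₁, hω₁⟩ := hΔ
    set Δ : Set (G ⧸ M) := {ω | ∃ k ∈ K, k • x₀ = ω} with hΔdef
    have hKΔ : K ≤ MulAction.stabilizer G Δ := by
      intro k hk
      rw [MulAction.mem_stabilizer_set]
      intro b
      constructor
      · rintro ⟨k₁, hk₁, h⟩
        exact ⟨k⁻¹ * k₁, K.mul_mem (K.inv_mem hk) hk₁, by rw [mul_smul, h, inv_smul_smul]⟩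
      · rintro ⟨k₁, hk₁, h⟩
        exact ⟨k * k₁, K.mul_mem hk hk₁, by rw [mul_smul, h]⟩
    have hKeq : MulAction.stabilizer G Δ = K := by
      rcases hK.le_iff.mp hKΔ with h | h
      · exfalso
        obtain ⟨g, hg⟩ := MulAction.exists_smul_eq G x₀ ω₁
        have h1 : g ∈ MulAction.stabilizer G Δ := by rw [h]; trivial
        have h2 := (MulAction.mem_stabilizer_set.mp h1 x₀).mpr ⟨1, K.one_mem, one_smul _ _⟩
        rw [hg] at h2
        obtain ⟨k, hk, hk2⟩ := h2
        exact hω₁ k hk hk2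
      · exact h
    have hxΔ : x ∈ Δ := by
      obtain ⟨l, hl, h⟩ := hxB
      exact ⟨l, hLK hl, h⟩
    have hyΔ : y ∈ Δ := ⟨k', hk', rfl⟩
    have hx₀Δ : x₀ ∈ Δ := ⟨1, K.one_mem, one_smul _ _⟩
    have hfin : ∀ g : G, g • x₀ = x₀ → g • x = y → (∀ ω ∈ Δ, g • ω ∈ Δ) → False := by
      intro g h1 h2 h3
      have hgK : g ∈ K := by
        rw [← hKeq, MulAction.mem_stabilizer_set]
        intro b
        constructor
        · intro hb
          -- injectivity on finite set
          have h4 : Set.MapsTo (fun ω => g • ω) Δ Δ := h3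
          have h5 : Set.SurjOn (fun ω => g • ω) Δ Δ := by
            have h6 : Δ.Finite := Set.toFinite _
            have h7 : Set.InjOn (fun ω => g • ω) Δ := (MulAction.injective g).injOn
            exact ((Set.Finite.injOn_iff_bijOn_of_mapsTo h6 h4).mp h7).surjOn
          obtain ⟨b', hb', hb''⟩ := h5 hb
          rwa [← MulAction.injective g hb'']
        · exact h3 b
      have hgM : g ∈ M := (hst g).mp h1
      have hgL : g ∈ L := hHL (by rw [← hH]; exact ⟨hgK, hgM⟩)
      have := hLB g hgL x hxB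
      rw [h2] at this
      exact hk'B this
    by_cases hz : ∃ z ∈ Δ, z ≠ x₀ ∧ z ≠ x ∧ z ≠ y
    · obtain ⟨z, hzΔ, hz0, hzx, hzy⟩ := hz
      obtain ⟨τ, hs, h1, h2, h3, h4⟩ := three hyx.symm hzy.symm hzx.symm
      obtain ⟨g, hg⟩ := hreal τ hs
      refine hfin g (by rw [hg]; exact h4 x₀ hxx₀.symm hyx₀.symm hz0.symm) (by rw [hg, h1]) ?_
      intro ω hω
      rw [hg]
      by_cases e1 : ω = x
      · rw [e1, h1]; exact hyΔ
      by_cases e2 : ω = y
      · rw [e2, h2]; exact hzΔ
      by_cases e3 : ω = z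
      · rw [e3, h3]; exact hxΔ
      rw [h4 ω e1 e2 e3]; exact hω
    · push Not at hz
      -- two points outside Δ
      have hsub : ∀ ω ∈ Δ, ω = x₀ ∨ ω = x ∨ ω = y := by
        intro ω hω
        by_contra hcon
        push Not at hcon
        exact hcon.2.2 (hz ω hω hcon.1 hcon.2.1)
      have hω₁Δ : ω₁ ∉ Δ := fun ⟨k, hk, h⟩ => hω₁ k hk h
      obtain ⟨d, hdΔ, hd⟩ : ∃ d, d ∉ Δ ∧ d ≠ ω₁ := by
        by_contra hcon
        push Not at hcon
        have h1 : (Finset.univ : Finset (G ⧸ M)) = {x₀, x, y, ω₁} := by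
          ext w
          simp only [Finset.mem_univ, Finset.mem_insert, Finset.mem_singleton, true_iff]
          by_cases hw : w ∈ Δ
          · rcases hsub w hw with h | h | h
            · exact Or.inl h
            · exact Or.inr (Or.inl h)
            · exact Or.inr (Or.inr (Or.inl h))
          · exact Or.inr (Or.inr (Or.inr (hcon w hw)))
        have h2 := congrArg Finset.card h1
        rw [Finset.card_univ, hcardn] at h2
        have h3 : ({x₀, x, y, ω₁} : Finset (G ⧸ M)).card = 4 := by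
          rw [Finset.card_insert_of_notMem, Finset.card_insert_of_notMem, Finset.card_insert_of_notMem, Finset.card_singleton]
          · simp only [Finset.mem_singleton]
            intro h; exact hω₁Δ (h ▸ hyΔ)
          · simp only [Finset.mem_insert, Finset.mem_singleton, not_or]
            exact ⟨hyx.symm, fun h => hω₁Δ (h ▸ hxΔ)⟩
          · simp only [Finset.mem_insert, Finset.mem_singleton, not_or]
            exact ⟨hxx₀.symm, hyx₀.symm, fun h => hω₁Δ (h ▸ hx₀Δ)⟩
        rw [h3] at h2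
        obtain ⟨m, hm⟩ := hodd
        omega
      obtain ⟨g, hg⟩ := hreal (Equiv.swap x y * Equiv.swap ω₁ d) (by
        rw [Equiv.Perm.sign_mul, Equiv.Perm.sign_swap hyx.symm, Equiv.Perm.sign_swap hd.symm]; rfl)
      have hne1 : ∀ ω ∈ Δ, Equiv.swap ω₁ d ω = ω := by
        intro ω hω
        exact Equiv.swap_apply_of_ne_of_ne (fun h => hω₁Δ (h ▸ hω)) (fun h => hdΔ (h ▸ hω))
      refine hfin g ?_ ?_ ?_
      · rw [hg, Equiv.Perm.mul_apply, hne1 _ hx₀Δ, Equiv.swap_apply_of_ne_of_ne hxx₀.symm hyx₀.symm]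
      · rw [hg, Equiv.Perm.mul_apply, hne1 _ hxΔ, Equiv.swap_apply_left]
      · intro ω hω
        rw [hg, Equiv.Perm.mul_apply, hne1 _ hω]
        rcases hsub ω hω with h | h | h
        · rw [h, Equiv.swap_apply_of_ne_of_ne hxx₀.symm hyx₀.symm]; exact hx₀Δ
        · rw [h, Equiv.swap_apply_left]; exact hyΔ
        · rw [h, Equiv.swap_apply_right]; exact hxΔ

end Cfsg.Agent.S5885
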