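import Cfsg.Statements.S5887
import Cfsg.Agent.LibExtH19

set_option autoImplicit false
open Cfsg

namespace Cfsg.Agent.S5887


/-- Let F be a finite field, n a positive integer and r a composite number (r > 1, not prime) that divides n with r < n. Let K be a subalgebra of the algebra of n × n matrices over F which is a field of degree r over F (commutative, every non-zero element invertible, of dimension r over F). Then the normaliser N of K in GL_n(F) (a group of type ΓL_{n/r}(F_{q^r})) is not a maximal subgroup of GL_n(F), and N ∩ SL_n(F) is not a maximal subgroup of SL_n(F): both lie properly inside the normaliser of an intermediate subfield of prime degree over F. -/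
theorem result {F : Type*} [Field F]
    [Fintype F] (n r : ℕ) (hr1 : 1 < r) (hrp : ¬ r.Prime) (hrn : r ∣ n) (hlt : r < n)
    (K : Subalgebra F (Matrix (Fin n) (Fin n) F)) (hK : Cfsg.Geo.IsFieldSubalgebra r K) :
    ¬ IsCoatom (Cfsg.Geo.subalgebraNormalizer K) ∧
      ¬ Cfsg.Geo.IsMaximalIn (Cfsg.Geo.specialLinear (Fin n) F)
        (Cfsg.Geo.subalgebraNormalizer K ⊓ Cfsg.Geo.specialLinear (Fin n) F) := by
  classical
  have hfield : IsField K :=
    { exists_pair_ne := by
        have hn : 0 < n := by omega
        haveI : Nonempty (Fin n) := ⟨⟨0, hn⟩⟩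
        exact ⟨0, 1, zero_ne_one⟩
      mul_comm := fun x y => Subtype.ext (hK.comm x x.2 y y.2)
      mul_inv_cancel := by
        intro a ha
        obtain ⟨y, hy, hxy⟩ := hK.inv a a.2 (fun h => ha (Subtype.ext h))
        exact ⟨⟨y, hy⟩, Subtype.ext hxy⟩ }
  have hfr : Module.finrank F K = r := hK.finrank_eq
  haveI : Finite K := Module.finite_of_finite F
  letI : CommRing K := { (inferInstance : Ring K) with mul_comm := hfield.mul_comm }
  letI : Field K := hfield.toField
  letI algFK : Algebra F K := inferInstance
  have e : @AlgEquiv F K K _ _ _ algFK _ := AlgEquiv.refl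
  subst hfr
  exact CfsgLib.Ext19.comp_of_iso e (s := (Module.finrank F K).minFac) (Nat.minFac_prime hr1.ne') (Nat.minFac_dvd _)
    ((Nat.not_prime_iff_minFac_lt hr1).1 hrp) hlt hrn

end Cfsg.Agent.S5887
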