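import Cfsg.Statements.S5894
import Mathlib
import Cfsg.Agent.LibWr29

set_option autoImplicit false
open Cfsg

namespace Cfsg.Agent.S5894



/-- For every m ≥ 2 the symmetric group on 2m letters has a maximal subgroup M of index 2m together with a maximal subgroup H of M that is not second maximal: some maximal subgroup K of the symmetric group contains H without H being maximal in K. (One may take M the stabiliser of a letter, H ≅ S_m × S_{m−1} inside it, and K ≅ S_m ≀ S₂ the stabiliser of a partition into two m-sets, with H < S_m × S_m < K.) So the prime-index hypothesis in the second-maximality criterion cannot be relaxed to any even index ≥ 4. -/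
theorem result (m : ℕ) (hm : 2 ≤ m) :
    ∃ M H K : Subgroup (Equiv.Perm (Fin (2 * m))), IsCoatom M ∧ M.index = 2 * m ∧ H ≤ M ∧ IsCoatom (H.subgroupOf M) ∧
      IsCoatom K ∧ H ≤ K ∧ ¬ IsCoatom (H.subgroupOf K) := by
  classical
  obtain ⟨P, hP⟩ : ∃ P : Fin (2 * m) → Prop, P = fun i : Fin (2 * m) => (i : ℕ) < m := ⟨_, rfl⟩
  have hPi : ∀ i, P i ↔ (i : ℕ) < m := fun i => by rw [hP]
  obtain ⟨o, ho⟩ : ∃ o : Fin (2 * m), (o : ℕ) = 2 * m - 1 := ⟨⟨2 * m - 1, by omega⟩, rfl⟩
  obtain ⟨a0, ha0⟩ : ∃ o : Fin (2 * m), (o : ℕ) = 0 := ⟨⟨0, by omega⟩, rfl⟩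
  obtain ⟨a1, ha1⟩ : ∃ o : Fin (2 * m), (o : ℕ) = 1 := ⟨⟨1, by omega⟩, rfl⟩
  obtain ⟨b0, hb0⟩ : ∃ o : Fin (2 * m), (o : ℕ) = m := ⟨⟨m, by omega⟩, rfl⟩
  have h0o : a0 ≠ o := fun h => by rw [h] at ha0; omega
  have h1o : a1 ≠ o := fun h => by rw [h] at ha1; omega
  have h01 : a0 ≠ a1 := fun h => by rw [h] at ha0; omega
  have hbo : b0 ≠ o := fun h => by rw [h] at hb0; omega
  have hPo : ¬ P o := by rw [hPi]; omega
  have hPa0 : P a0 := by rw [hPi]; omega
  have hPa1 : P a1 := by rw [hPi]; omega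
  have hPb0 : ¬ P b0 := by rw [hPi]; omega
  have hS : (Finset.univ.filter P).card = m := by
    have h1 : Finset.univ.filter P = Finset.univ.map (Fin.castLEEmb (show m ≤ 2 * m by omega)) := by
      ext i
      rw [Finset.mem_filter, Finset.mem_map, hPi]
      constructor
      · rintro ⟨_, hi⟩
        exact ⟨⟨i, hi⟩, Finset.mem_univ _, rfl⟩
      · rintro ⟨j, _, rfl⟩
        exact ⟨Finset.mem_univ _, j.2⟩
    rw [h1, Finset.card_map, Finset.card_univ, Fintype.card_fin]
  have hcard : (Finset.univ.filter (fun i => ¬ P i ∧ i ≠ o)).card < (Finset.univ.filter P).card := by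
    have h1 : Finset.univ.filter (fun i => ¬ P i ∧ i ≠ o) ⊆ (Finset.univ.filter P)ᶜ.erase o := by
      intro i hi
      rw [Finset.mem_filter] at hi
      rw [Finset.mem_erase, Finset.mem_compl, Finset.mem_filter]
      exact ⟨hi.2.2, fun h => hi.2.1 h.2⟩
    have h2 := Finset.card_le_card h1
    have h3 : o ∈ (Finset.univ.filter P)ᶜ := by
      rw [Finset.mem_compl, Finset.mem_filter]
      exact fun h => hPo h.2
    rw [Finset.card_erase_of_mem h3, Finset.card_compl, hS, Fintype.card_fin] at h2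
    omega
  refine ⟨CfsgLib.Wr29.M o, CfsgLib.Wr29.M o ⊓ CfsgLib.Wr29.N P, CfsgLib.Wr29.K P, CfsgLib.Wr29.coatom_M h0o h1o h01, ?_, inf_le_left,
    CfsgLib.Wr29.coatom_H P hPo hPa0 hPb0 hbo hcard, CfsgLib.Wr29.coatom_K h01 hPa0 hPa1 hPb0, inf_le_right.trans (CfsgLib.Wr29.N_le_K P), ?_⟩
  · show (MulAction.stabilizer (Equiv.Perm (Fin (2 * m))) o).index = 2 * m
    rw [MulAction.index_stabilizer_of_transitive, Nat.card_eq_fintype_card, Fintype.card_fin]
  · intro hc
    have h1 : (CfsgLib.Wr29.N P).subgroupOf (CfsgLib.Wr29.K P) = ⊤ := by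
      apply hc.2
      rw [SetLike.lt_iff_le_and_exists]
      have hsw : Equiv.swap b0 o ∈ CfsgLib.Wr29.N P := CfsgLib.Wr29.swap_N (by simp [hPb0, hPo])
      refine ⟨fun x hx => hx.2, ⟨Equiv.swap b0 o, CfsgLib.Wr29.N_le_K P hsw⟩, hsw, ?_⟩
      intro h
      have h2 : Equiv.swap b0 o ∈ CfsgLib.Wr29.M o := h.1
      rw [CfsgLib.Wr29.mem_M, Equiv.swap_apply_right] at h2
      exact hbo h2
    have hrev : Fin.revPerm ∈ CfsgLib.Wr29.K P := by
      rw [CfsgLib.Wr29.mem_K]
      right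
      intro i
      rw [hPi, hPi, Fin.revPerm_apply, Fin.val_rev]
      have := i.2
      omega
    have h2 : (⟨Fin.revPerm, hrev⟩ : CfsgLib.Wr29.K P) ∈ (CfsgLib.Wr29.N P).subgroupOf (CfsgLib.Wr29.K P) := by rw [h1]; trivial
    have h3 : Fin.revPerm ∈ CfsgLib.Wr29.N P := h2
    have h4 := h3 a0
    rw [hPi, hPi, Fin.revPerm_apply, Fin.val_rev] at h4
    omega

end Cfsg.Agent.S5894
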