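import Cfsg.Statements.S5895
import Mathlib


set_option autoImplicit false
open Cfsg

namespace Cfsg.Agent.S5895

section
variable {F V : Type*} [Field F] [AddCommGroup V] [Module F V] [FiniteDimensional F V]

/-- moving `u` to `v` fixing `w` -/
theorem exists_move (w u v : V) (hu : u ∉ Submodule.span F {w}) (hv : v ∉ Submodule.span F {w}) :
    ∃ a : V ≃ₗ[F] V, a w = w ∧ a u = v := by
  -- a functional vanishing at w, nonzero at u and v
  have hex : ∃ φ : V →ₗ[F] F, φ w = 0 ∧ φ u ≠ 0 ∧ φ v ≠ 0 := by
    obtain ⟨φ, hφ, hφw⟩ := Submodule.exists_le_ker_of_notMem hu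
    obtain ⟨χ, hχ, hχw⟩ := Submodule.exists_le_ker_of_notMem hv
    have hw : w ∈ Submodule.span F {w} := Submodule.mem_span_singleton_self w
    have h1 : φ w = 0 := hφw hw
    have h2 : χ w = 0 := hχw hw
    by_cases h3 : φ v = 0
    · by_cases h4 : χ u = 0
      · exact ⟨φ + χ, by simp [h1, h2], by simpa [h4] using hφ, by simpa [h3] using hχ⟩
      · exact ⟨χ, h2, h4, hχ⟩
    · exact ⟨φ, h1, hφ, h3⟩
  obtain ⟨φ, h1, h2, h3⟩ := hex
  set ψ : V →ₗ[F] F := (φ u)⁻¹ • φ with hψ
  have hψw : ψ w = 0 := by simp [hψ, h1]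
  have hψu : ψ u = 1 := by simp [hψ, h2]
  have hψv : ψ v ≠ 0 := by simp [hψ, h2, h3]
  let f : V →ₗ[F] V := LinearMap.id + ψ.smulRight (v - u)
  have hf : ∀ x, f x = x + ψ x • (v - u) := fun x => by simp [f]
  have hinj : Function.Injective f := by
    rw [← LinearMap.ker_eq_bot, LinearMap.ker_eq_bot']
    intro x hx
    rw [hf] at hx
    have h4 := congrArg ψ hx
    rw [map_add, map_smul, map_sub, hψu, map_zero, smul_eq_mul] at h4
    have h5 : ψ x * ψ v = 0 := by linear_combination h4
    rcases mul_eq_zero.mp h5 with h6 | h6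
    · rw [h6, zero_smul, add_zero] at hx; exact hx
    · exact absurd h6 hψv
  refine ⟨LinearEquiv.ofInjectiveEndo f hinj, ?_, ?_⟩
  · rw [LinearEquiv.coe_ofInjectiveEndo, hf, hψw, zero_smul, add_zero]
  · rw [LinearEquiv.coe_ofInjectiveEndo, hf, hψu, one_smul]; abel

/-- line stabilizer -/
def St (w : V) (hw : w ≠ 0) : Subgroup (V ≃ₗ[F] V) where
  carrier := {f | f w ∈ Submodule.span F {w}}
  mul_mem' := by
    intro f g hf hg
    show f (g w) ∈ Submodule.span F {w}
    obtain ⟨c, hc⟩ := Submodule.mem_span_singleton.mp hg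
    rw [← hc, map_smul]
    exact Submodule.smul_mem _ _ hf
  one_mem' := Submodule.mem_span_singleton_self w
  inv_mem' := by
    intro f hf
    obtain ⟨c, hc⟩ := Submodule.mem_span_singleton.mp hf
    have hc0 : c ≠ 0 := by
      rintro rfl
      rw [zero_smul] at hc
      exact hw (f.injective (hc.symm.trans (map_zero f).symm))
    show f.symm w ∈ Submodule.span F {w}
    rw [Submodule.mem_span_singleton]
    refine ⟨c⁻¹, ?_⟩
    rw [LinearEquiv.eq_symm_apply, map_smul, ← hc, smul_smul, inv_mul_cancel₀ hc0, one_smul]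

theorem St_coatom (w : V) (hw : w ≠ 0) (hd : ∃ u : V, u ∉ Submodule.span F {w}) : IsCoatom (St (F := F) w hw) := by
  obtain ⟨u, hu⟩ := hd
  have hspan : ∀ (f : V ≃ₗ[F] V), f w ∉ Submodule.span F {w} → True := fun _ _ => trivial
  constructor
  · intro h
    -- some map moves w to u
    have h2 : w ∉ Submodule.span F {u} := by
      intro hc
      obtain ⟨c, hc'⟩ := Submodule.mem_span_singleton.mp hc
      apply hu
      have hc0 : c ≠ 0 := by rintro rfl; rw [zero_smul] at hc'; exact hw hc'.symm
      rw [Submodule.mem_span_singleton]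
      exact ⟨c⁻¹, by rw [← hc', smul_smul, inv_mul_cancel₀ hc0, one_smul]⟩
    have h3 : w + u ∉ Submodule.span F {u} := by
      intro hc
      apply h2
      have := Submodule.sub_mem _ hc (Submodule.mem_span_singleton_self u)
      rwa [add_sub_cancel_right] at this
    obtain ⟨a, _, ha⟩ := exists_move u w (w + u) h2 h3
    have h4 : a ∈ St (F := F) w hw := by rw [h]; trivial
    have h5 : a w ∈ Submodule.span F {w} := h4
    rw [ha] at h5
    apply hu
    have := Submodule.sub_mem _ h5 (Submodule.mem_span_singleton_self w)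
    rwa [add_sub_cancel_left] at this
  · intro L hL
    obtain ⟨f, hfL, hf⟩ := Set.exists_of_ssubset hL
    have hf' : f w ∉ Submodule.span F {w} := hf
    rw [eq_top_iff]
    intro h _
    by_cases hh : h w ∈ Submodule.span F {w}
    · exact hL.le hh
    · obtain ⟨a, haw, ha⟩ := exists_move w (f w) (h w) hf' hh
      have haS : a ∈ St (F := F) w hw := by
        show a w ∈ Submodule.span F {w}
        rw [haw]; exact Submodule.mem_span_singleton_self w
      have h1 : (a * f)⁻¹ * h ∈ St (F := F) w hw := by
        show (a * f).symm (h w) ∈ Submodule.span F {w}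
        have : (a * f).symm (h w) = w := by
          rw [LinearEquiv.symm_apply_eq]; exact ha.symm
        rw [this]; exact Submodule.mem_span_singleton_self w
      have h2 := L.mul_mem (L.mul_mem (hL.le haS) hfL) (hL.le h1)
      rwa [mul_inv_cancel_left] at h2
end

/-- For every prime p and every d ≥ 2 there is a finite group G with a maximal subgroup M of index p^d and a maximal subgroup H of M that is not second maximal in G: some maximal subgroup K of G contains H without H being maximal in K. (One may take G the affine group V ⋊ GL(V) of V = 𝔽_p^d, M = GL(V), H the stabiliser in M of a line W of V, and K = V ⋊ H, with H < W ⋊ H < K.) So the prime-index hypothesis in the second-maximality criterion cannot be relaxed to prime-power index. -/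
theorem result (p d : ℕ) (hp : p.Prime)
    (hd : 2 ≤ d) :
    ∃ (G : Type) (_ : Group G) (_ : Finite G) (M H K : Subgroup G), IsCoatom M ∧ M.index = p ^ d ∧ H ≤ M ∧
      IsCoatom (H.subgroupOf M) ∧ IsCoatom K ∧ H ≤ K ∧ ¬ IsCoatom (H.subgroupOf K) := by
  classical
  haveI : Fact p.Prime := ⟨hp⟩
  let F := ZMod p
  let V := Fin d → ZMod p
  let G := V ≃ᵃ[F] V
  haveI : Finite G := Finite.of_injective (fun g : G => (g : V → V)) DFunLike.coe_injective
  let w : V := Pi.single ⟨0, by omega⟩ 1
  let u₀ : V := Pi.single ⟨1, by omega⟩ 1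
  have hw : w ≠ 0 := by
    intro h
    have h1 : w ⟨0, by omega⟩ = 1 := Pi.single_eq_same _ _
    rw [h] at h1
    exact zero_ne_one h1
  have hu₀ : u₀ ∉ Submodule.span F {w} := by
    intro h
    obtain ⟨c, hc⟩ := Submodule.mem_span_singleton.mp h
    have h1 := congrFun hc ⟨1, by omega⟩
    have h2 : u₀ ⟨1, by omega⟩ = 1 := Pi.single_eq_same _ _
    have h3 : w ⟨1, by omega⟩ = 0 := Pi.single_eq_of_ne (by simp) _
    rw [h2, Pi.smul_apply, h3, smul_zero] at h1
    exact zero_ne_one h1
  let S := St (F := F) w hw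
  have hS : IsCoatom S := St_coatom w hw ⟨u₀, hu₀⟩
  let lin : G →* (V ≃ₗ[F] V) := AffineEquiv.linearHom
  have hlin : Function.Surjective lin := fun f => ⟨f.toAffineEquiv, by ext x; rfl⟩
  let M : Subgroup G :=
    { carrier := {g | g 0 = 0}
      mul_mem' := by intro a b ha hb; show a (b 0) = 0; rw [show b 0 = 0 from hb]; exact ha
      one_mem' := rfl
      inv_mem' := by
        intro a ha
        show a.symm 0 = 0
        rw [AffineEquiv.symm_apply_eq]; exact (show a 0 = 0 from ha).symm }
  have hMmem : ∀ g : G, g ∈ M ↔ g 0 = 0 := fun g => Iff.rfl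
  let K : Subgroup G := S.comap lin
  let H : Subgroup G := M ⊓ K
  let tr : V → G := fun v => AffineEquiv.constVAdd F V v
  have htr : ∀ v x, tr v x = v + x := fun v x => rfl
  have htrl : ∀ v, lin (tr v) = 1 := by
    intro v
    show (AffineEquiv.constVAdd F V v).linear = 1
    rw [AffineEquiv.linear_constVAdd]; rfl
  have haff : ∀ (g : G) x, g x = lin g x + g 0 := by
    intro g x
    have := g.map_vadd 0 x
    rw [vadd_eq_add, vadd_eq_add, add_zero] at this
    exact this
  -- transitivity
  have htrans : ∀ u v : V, u ≠ 0 → v ≠ 0 → ∃ a : V ≃ₗ[F] V, a u = v := by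
    intro u v hu hv
    obtain ⟨a, _, ha⟩ := exists_move (F := F) (0 : V) u v (by simpa using hu) (by simpa using hv)
    exact ⟨a, ha⟩
  have hMco : IsCoatom M := by
    constructor
    · intro h
      have : tr w ∈ M := by rw [h]; trivial
      rw [hMmem, htr, add_zero] at this
      exact hw this
    · intro L hL
      obtain ⟨f, hfL, hf⟩ := Set.exists_of_ssubset hL
      have hf' : f 0 ≠ 0 := hf
      rw [eq_top_iff]
      intro h _
      by_cases hh : h 0 = 0
      · exact hL.le hh
      · obtain ⟨a, ha⟩ := htrans (f 0) (h 0) hf' hh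
        have haM : (a.toAffineEquiv : G) ∈ M := by rw [hMmem]; exact map_zero a
        have h1 : ((a.toAffineEquiv : G) * f)⁻¹ * h ∈ M := by
          rw [hMmem]
          show ((a.toAffineEquiv : G) * f).symm (h 0) = 0
          rw [AffineEquiv.symm_apply_eq]; exact ha.symm
        have h2 := L.mul_mem (L.mul_mem (hL.le haM) hfL) (hL.le h1)
        rwa [mul_inv_cancel_left] at h2
  have hKco : IsCoatom K := Subgroup.isCoatom_comap_of_surjective hlin hS
  refine ⟨G, inferInstance, inferInstance, M, H, K, hMco, ?_, inf_le_left, ?_, hKco, inf_le_right, ?_⟩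
  · -- index
    letI : MulAction G V := { smul := fun g v => g v, one_smul := fun _ => rfl, mul_smul := fun _ _ _ => rfl }
    have : M = MulAction.stabilizer G (0 : V) := by
      ext g; rw [hMmem, MulAction.mem_stabilizer_iff]; rfl
    rw [this, MulAction.index_stabilizer]
    have h1 : MulAction.orbit G (0 : V) = Set.univ := by
      rw [Set.eq_univ_iff_forall]
      intro v
      exact ⟨tr v, by show tr v 0 = v; rw [htr, add_zero]⟩
    rw [h1, Set.ncard_univ, Nat.card_fun, Nat.card_zmod, Nat.card_fin]
  · have h1 : H.subgroupOf M = S.comap (lin.comp M.subtype) := by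
      ext g
      constructor
      · intro h; exact h.2
      · intro h; exact ⟨g.2, h⟩
    rw [h1]
    apply Subgroup.isCoatom_comap_of_surjective _ hS
    intro f
    exact ⟨⟨f.toAffineEquiv, by rw [hMmem]; exact map_zero f⟩, rfl⟩
  · intro hcon
    -- the intermediate group
    let L : Subgroup G :=
      { carrier := {g | g 0 ∈ Submodule.span F {w} ∧ lin g ∈ S}
        mul_mem' := by
          rintro a b ⟨ha, ha'⟩ ⟨hb, hb'⟩
          refine ⟨?_, by rw [map_mul]; exact S.mul_mem ha' hb'⟩
          show a (b 0) ∈ _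
          rw [haff]
          refine Submodule.add_mem _ ?_ ha
          obtain ⟨c, hc⟩ := Submodule.mem_span_singleton.mp hb
          rw [← hc, map_smul]
          exact Submodule.smul_mem _ _ ha'
        one_mem' := ⟨Submodule.zero_mem _, by rw [map_one]; exact S.one_mem⟩
        inv_mem' := by
          rintro a ⟨ha, ha'⟩
          refine ⟨?_, by rw [map_inv]; exact S.inv_mem ha'⟩
          show (a⁻¹ : G) 0 ∈ _
          have h1 : (lin a) ((a⁻¹ : G) 0) = - a 0 := by
            have := haff a ((a⁻¹ : G) 0)
            have h2 : a ((a⁻¹ : G) 0) = 0 := a.apply_symm_apply 0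
            rw [h2] at this
            exact (neg_eq_of_add_eq_zero_left this.symm).symm
          have h3 : (a⁻¹ : G) 0 = (lin a)⁻¹ (- a 0) := by
            rw [← h1]; exact ((lin a).symm_apply_apply _).symm
          rw [h3, map_neg]
          apply Submodule.neg_mem
          obtain ⟨c, hc⟩ := Submodule.mem_span_singleton.mp ha
          rw [← hc, map_smul]
          exact Submodule.smul_mem _ _ (S.inv_mem ha') }
    have hHL : H ≤ L := by
      rintro g ⟨h1, h2⟩
      refine ⟨?_, h2⟩
      rw [show g 0 = 0 from h1]; exact Submodule.zero_mem _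
    have hLK : L ≤ K := fun g hg => hg.2
    have h1 : H.subgroupOf K < L.subgroupOf K := by
      refine lt_of_le_of_ne (fun x hx => hHL hx) (fun h => ?_)
      have hwL : tr w ∈ L := ⟨by rw [htr, add_zero]; exact Submodule.mem_span_singleton_self w, by rw [htrl]; exact S.one_mem⟩
      have h2 : (⟨tr w, hLK hwL⟩ : K) ∈ L.subgroupOf K := hwL
      rw [← h] at h2
      have h3 : tr w 0 = 0 := h2.1
      rw [htr, add_zero] at h3
      exact hw h3
    have h2 := hcon.2 _ h1
    have h3 : tr u₀ ∈ K := by show lin (tr u₀) ∈ S; rw [htrl]; exact S.one_mem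
    have h4 : (⟨tr u₀, h3⟩ : K) ∈ L.subgroupOf K := by rw [h2]; trivial
    have h5 : tr u₀ 0 ∈ Submodule.span F {w} := h4.1
    rw [htr, add_zero] at h5
    exact hu₀ h5

end Cfsg.Agent.S5895
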