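import Cfsg.Statements.S5902
import Mathlib
import Cfsg.Agent.S5901

set_option autoImplicit false
open Cfsg

namespace Cfsg.Agent.S5902

theorem first {G : Type*} [Group G] [Finite G] (X M : Subgroup G)
    (hK : ComplementedLattice (Subgroup X))
    (hM : IsCoatom M) (hXM : X ≤ M) (huniq : ∀ M' : Subgroup G, IsCoatom M' → X ≤ M' → M' = M)
    (H : Subgroup G) (hH : ¬ H ≤ M.normalCore) : ∃ C : Subgroup G, H ⊔ C = ⊤ ∧ H ⊓ C = ⊥ := by
  have hint : ∀ Y : Subgroup G, (⊥ : Subgroup G) ≤ Y → Y ≤ X → ∃ C : Subgroup G, ⊥ ≤ C ∧ C ≤ X ∧ Y ⊔ C = X ∧ Y ⊓ C = ⊥ := by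
    intro Y _ hYX
    obtain ⟨C', hC'⟩ := hK.exists_isCompl (Y.subgroupOf X)
    refine ⟨C'.map X.subtype, bot_le, Subgroup.map_subtype_le _, ?_, ?_⟩
    · have h1 := hC'.sup_eq_top
      have h2 := congrArg (Subgroup.map X.subtype) h1
      rw [Subgroup.map_sup, Subgroup.subgroupOf_map_subtype, inf_of_le_left hYX] at h2
      rw [h2]
      ext x; simp
    · have h1 := hC'.inf_eq_bot
      rw [eq_bot_iff]
      rintro x ⟨hxY, ⟨y, hyC, rfl⟩⟩
      have : y ∈ (Y.subgroupOf X) ⊓ C' := ⟨hxY, hyC⟩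
      rw [h1, Subgroup.mem_bot] at this
      simp [this]
  have hX : X ≠ ⊤ := fun h => hM.1 (top_le_iff.mp (h ▸ hXM))
  -- some conjugate of H not in M
  have hex : ∃ g : G, ¬ H.map (MulAut.conj g).toMonoidHom ≤ M := by
    by_contra hcon
    push Not at hcon
    apply hH
    intro h hh g
    have := hcon g ⟨h, hh, rfl⟩
    exact this
  obtain ⟨g, hg⟩ := hex
  obtain ⟨C, hC1, hC2⟩ := Cfsg.Agent.S5901.compl_of ⊥ X M bot_le hX hint hXM huniq _ hg (by simp)
  refine ⟨C.map (MulAut.conj g⁻¹).toMonoidHom, ?_, ?_⟩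
  · have h2 := congrArg (Subgroup.map (MulAut.conj g⁻¹).toMonoidHom) hC1
    rw [Subgroup.map_sup, Subgroup.map_map] at h2
    have h3 : (MulAut.conj g⁻¹).toMonoidHom.comp (MulAut.conj g).toMonoidHom = MonoidHom.id G := by
      ext x; simp [mul_assoc]
    rw [h3, Subgroup.map_id] at h2
    rw [h2]
    exact Subgroup.map_top_of_surjective _ (MulAut.conj g⁻¹).surjective
  · have h2 := congrArg (Subgroup.map (MulAut.conj g⁻¹).toMonoidHom) hC2
    rw [Subgroup.map_inf _ _ _ (MulAut.conj g⁻¹).injective, Subgroup.map_map] at h2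
    have h3 : (MulAut.conj g⁻¹).toMonoidHom.comp (MulAut.conj g).toMonoidHom = MonoidHom.id G := by
      ext x; simp [mul_assoc]
    rw [h3, Subgroup.map_id, Subgroup.map_bot] at h2
    exact h2

/-- Let G be a finite group, X a subgroup whose own subgroup lattice is complemented, and suppose X lies in exactly one maximal subgroup M of G. Then every subgroup H of G not contained in the normal core of M has a complement in the subgroup lattice of G (some C with H ⊔ C = G and H ⊓ C = 1); in particular the subgroup lattice of G modulo the normal core of M is complemented. -/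
theorem result {G : Type*} [Group G] [Finite G] (X M : Subgroup G)
    (hK : ComplementedLattice (Subgroup X))
    (hM : IsCoatom M) (hXM : X ≤ M) (huniq : ∀ M' : Subgroup G, IsCoatom M' → X ≤ M' → M' = M) :
    (∀ H : Subgroup G, ¬ H ≤ M.normalCore → ∃ C : Subgroup G, H ⊔ C = ⊤ ∧ H ⊓ C = ⊥) ∧
    ComplementedLattice (Subgroup (G ⧸ M.normalCore)) := by
  refine ⟨first X M hK hM hXM huniq, ⟨fun H => ?_⟩⟩
  by_cases hb : H = ⊥
  · exact ⟨⊤, hb ▸ isCompl_bot_top⟩
  set π := QuotientGroup.mk' M.normalCore with hπ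
  have hH : ¬ H.comap π ≤ M.normalCore := by
    intro hle
    apply hb
    rw [eq_bot_iff]
    intro x hx
    obtain ⟨y, rfl⟩ := QuotientGroup.mk'_surjective M.normalCore x
    have : y ∈ M.normalCore := hle hx
    rw [Subgroup.mem_bot]
    exact (QuotientGroup.eq_one_iff y).mpr this
  obtain ⟨C, hC1, hC2⟩ := first X M hK hM hXM huniq _ hH
  refine ⟨C.map π, IsCompl.of_eq ?_ ?_⟩
  · rw [eq_bot_iff]
    rintro x ⟨hxH, ⟨c, hc, rfl⟩⟩
    have hcH : c ∈ H.comap π := hxH
    have : c ∈ H.comap π ⊓ C := ⟨hcH, hc⟩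
    rw [hC2, Subgroup.mem_bot] at this
    rw [this, map_one]; exact Subgroup.one_mem _
  · have h2 := congrArg (Subgroup.map π) hC1
    rw [Subgroup.map_sup, Subgroup.map_comap_eq_self_of_surjective (QuotientGroup.mk'_surjective _),
      Subgroup.map_top_of_surjective _ (QuotientGroup.mk'_surjective _)] at h2
    exact h2

end Cfsg.Agent.S5902
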