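import Cfsg.Statements.S5903
import Mathlib
import Cfsg.Agent.S5901

set_option autoImplicit false
open Cfsg

namespace Cfsg.Agent.S5903



/-- Let G be a finite simple group, X a subgroup lying in exactly one maximal subgroup M of G, and N a subgroup of prime order with N ≤ X that is central in M. If the subgroup lattice of X/N is complemented, then the subgroup lattice of G is complemented. -/
theorem result {G : Type*} [Group G] [Finite G] [IsSimpleGroup G] (X M N : Subgroup G)
    (hM : IsCoatom M) (hXM : X ≤ M) (huniq : ∀ M' : Subgroup G, IsCoatom M' → X ≤ M' → M' = M)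
    (hNX : N ≤ X) (hN : (Nat.card N).Prime) (hcen : ∀ n ∈ N, ∀ m ∈ M, m * n = n * m)
    [(N.subgroupOf X).Normal] (hK : ComplementedLattice (Subgroup (X ⧸ N.subgroupOf X))) :
    ComplementedLattice (Subgroup G) := by
  classical
  have hint : ∀ Y : Subgroup G, N ≤ Y → Y ≤ X → ∃ C : Subgroup G, N ≤ C ∧ C ≤ X ∧ Y ⊔ C = X ∧ Y ⊓ C = N := by
    intro Y hNY hYX
    set π := QuotientGroup.mk' (N.subgroupOf X) with hπ
    obtain ⟨C', hC'⟩ := hK.exists_isCompl ((Y.subgroupOf X).map π)
    have hker : π.ker = N.subgroupOf X := QuotientGroup.ker_mk' _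
    have hsurj : Function.Surjective π := QuotientGroup.mk'_surjective _
    have hYc : ((Y.subgroupOf X).map π).comap π = Y.subgroupOf X := by
      rw [Subgroup.comap_map_eq, hker, sup_eq_left]
      exact Subgroup.comap_mono hNY
    refine ⟨(C'.comap π).map X.subtype, ?_, Subgroup.map_subtype_le _, ?_, ?_⟩
    · intro n hn
      refine ⟨⟨n, hNX hn⟩, ?_, rfl⟩
      change π ⟨n, hNX hn⟩ ∈ C'
      have : π ⟨n, hNX hn⟩ = 1 := by
        rw [← MonoidHom.mem_ker, hker]; exact hn
      rw [this]; exact C'.one_mem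
    · have h1 := congrArg (Subgroup.comap π) hC'.sup_eq_top
      rw [Subgroup.comap_top, ← Subgroup.comap_sup_eq _ _ _ hsurj, hYc] at h1
      have h2 := congrArg (Subgroup.map X.subtype) h1
      rw [Subgroup.map_sup, Subgroup.subgroupOf_map_subtype, inf_of_le_left hYX] at h2
      rw [h2]
      ext x; simp
    · apply le_antisymm
      · rintro x ⟨hxY, ⟨y, hyC, rfl⟩⟩
        have h1 : π y ∈ ((Y.subgroupOf X).map π) ⊓ C' := ⟨⟨y, hxY, rfl⟩, hyC⟩
        rw [hC'.inf_eq_bot, Subgroup.mem_bot, ← MonoidHom.mem_ker, hker] at h1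
        exact h1
      · refine le_inf hNY ?_
        intro n hn
        refine ⟨⟨n, hNX hn⟩, ?_, rfl⟩
        change π ⟨n, hNX hn⟩ ∈ C'
        have : π ⟨n, hNX hn⟩ = 1 := by
          rw [← MonoidHom.mem_ker, hker]; exact hn
        rw [this]; exact C'.one_mem
  have hX : X ≠ ⊤ := fun h => hM.1 (top_le_iff.mp (h ▸ hXM))
  refine ⟨fun H => ?_⟩
  by_cases hb : H = ⊥
  · exact ⟨⊤, hb ▸ isCompl_bot_top⟩
  by_cases ht : H = ⊤
  · exact ⟨⊥, ht ▸ isCompl_top_bot⟩
  -- find a conjugate of H not in M meeting N trivially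
  have hex : ∃ g : G, ¬ H.map (MulAut.conj g).toMonoidHom ≤ M ∧ H.map (MulAut.conj g).toMonoidHom ⊓ N = ⊥ := by
    by_contra hcon
    push Not at hcon
    -- every conjugate of N is in H or centralizes H
    have hNp : Fact (Nat.card N).Prime := ⟨hN⟩
    have hdich : ∀ g : G, (∀ n ∈ N, g⁻¹ * n * g ∈ H) ∨ (∀ n ∈ N, ∀ h ∈ H, (g⁻¹ * n * g) * h = h * (g⁻¹ * n * g)) := by
      intro g
      by_cases hle : H.map (MulAut.conj g).toMonoidHom ≤ M
      · right
        intro n hn h hh
        have h1 : g * h * g⁻¹ ∈ M := hle ⟨h, hh, rfl⟩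
        have h2 := hcen n hn _ h1
        have : g⁻¹ * n * g * h = g⁻¹ * (n * (g * h * g⁻¹)) * g := by group
        rw [this, ← h2]; group
      · left
        have h1 := hcon g hle
        -- intersection with N nontrivial => N ≤ conj
        have h2 : N ≤ H.map (MulAut.conj g).toMonoidHom := by
          obtain h3 | h3 := Subgroup.eq_bot_or_eq_top_of_prime_card ((H.map (MulAut.conj g).toMonoidHom).subgroupOf N)
          · exfalso; apply h1
            rw [eq_bot_iff]
            rintro x ⟨hx1, hx2⟩
            have : (⟨x, hx2⟩ : N) ∈ (H.map (MulAut.conj g).toMonoidHom).subgroupOf N := hx1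
            rw [h3, Subgroup.mem_bot] at this
            exact congrArg Subtype.val this
          · exact Subgroup.subgroupOf_eq_top.mp h3
        intro n hn
        obtain ⟨h, hh, hhn⟩ := h2 hn
        have : g⁻¹ * n * g = h := by
          rw [← hhn]
          simp only [MulEquiv.coe_toMonoidHom, MulAut.conj_apply]; group
        rw [this]; exact hh
    -- normal closure of N is in the normalizer of H
    have hnc : Subgroup.normalClosure (N : Set G) ≤ Subgroup.normalizer (H : Set G) := by
      rw [Subgroup.normalClosure, Subgroup.closure_le]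
      intro x hx
      obtain ⟨n, hn, hx⟩ := Group.mem_conjugatesOfSet_iff.mp hx
      rw [isConj_iff] at hx
      obtain ⟨c, rfl⟩ := hx
      rcases hdich c⁻¹ with h1 | h1
      · have := h1 n hn
        rw [inv_inv] at this
        exact Subgroup.le_normalizer this
      · have h2 := h1 n hn
        rw [inv_inv] at h2
        rw [SetLike.mem_coe, Subgroup.mem_normalizer_iff]
        intro h
        constructor
        · intro hh
          rw [h2 h hh, mul_inv_cancel_right]; exact hh
        · intro hh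
          have h3 := h2 _ hh
          have h4 : c * n * c⁻¹ * (c * n * c⁻¹ * h * (c * n * c⁻¹)⁻¹) * (c * n * c⁻¹)⁻¹ = c * n * c⁻¹ * h * (c * n * c⁻¹)⁻¹ := by
            rw [h3]; group
          have h5 : h = c * n * c⁻¹ * h * (c * n * c⁻¹)⁻¹ := by
            have := congrArg (fun t => (c * n * c⁻¹)⁻¹ * t * (c * n * c⁻¹)) h4

            have e1 : (c * n * c⁻¹)⁻¹ * (c * n * c⁻¹ * (c * n * c⁻¹ * h * (c * n * c⁻¹)⁻¹) * (c * n * c⁻¹)⁻¹) * (c * n * c⁻¹) = c * n * c⁻¹ * h * (c * n * c⁻¹)⁻¹ := by group
            have e2 : (c * n * c⁻¹)⁻¹ * (c * n * c⁻¹ * h * (c * n * c⁻¹)⁻¹) * (c * n * c⁻¹) = h := by group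
            rw [e1, e2] at this
            exact this.symm
          rw [h5]; exact hh
    have hNne : N ≠ ⊥ := by
      rintro rfl
      simp at hN
      exact Nat.not_prime_one hN
    have htop : Subgroup.normalClosure (N : Set G) = ⊤ := by
      rcases (inferInstance : (Subgroup.normalClosure (N : Set G)).Normal).eq_bot_or_eq_top with h | h
      · exfalso; apply hNne
        rw [eq_bot_iff]
        exact (Subgroup.subset_normalClosure (s := (N : Set G))).trans (le_of_eq (congrArg _ h))
      · exact h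
    have hHn : H.Normal := by
      rw [← Subgroup.normalizer_eq_top_iff, eq_top_iff, ← htop]; exact hnc
    rcases hHn.eq_bot_or_eq_top with h | h
    · exact hb h
    · exact ht h
  obtain ⟨g, hg1, hg2⟩ := hex
  obtain ⟨C, hC1, hC2⟩ := Cfsg.Agent.S5901.compl_of N X M hNX hX hint hXM huniq _ hg1 hg2
  refine ⟨C.map (MulAut.conj g⁻¹).toMonoidHom, IsCompl.of_eq ?_ ?_⟩
  · have h2 := congrArg (Subgroup.map (MulAut.conj g⁻¹).toMonoidHom) hC2
    rw [Subgroup.map_inf _ _ _ (MulAut.conj g⁻¹).injective, Subgroup.map_map] at h2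
    have h3 : (MulAut.conj g⁻¹).toMonoidHom.comp (MulAut.conj g).toMonoidHom = MonoidHom.id G := by
      ext x; simp [mul_assoc]
    rw [h3, Subgroup.map_id, Subgroup.map_bot] at h2
    exact h2
  · have h2 := congrArg (Subgroup.map (MulAut.conj g⁻¹).toMonoidHom) hC1
    rw [Subgroup.map_sup, Subgroup.map_map] at h2
    have h3 : (MulAut.conj g⁻¹).toMonoidHom.comp (MulAut.conj g).toMonoidHom = MonoidHom.id G := by
      ext x; simp [mul_assoc]
    rw [h3, Subgroup.map_id] at h2
    rw [h2]
    exact Subgroup.map_top_of_surjective _ (MulAut.conj g⁻¹).surjective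

end Cfsg.Agent.S5903
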