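import Cfsg.Statements.S5904
import Mathlib


set_option autoImplicit false
open scoped Pointwise
open Cfsg

namespace Cfsg.Agent.S5904



/-- Let Ω be a finite set with more than two elements and O ⊆ Ω a subset with exactly as many elements as its complement. Then the setwise stabilizer of O in the symmetric group on Ω is not a maximal subgroup (it is properly contained in the stabilizer of the partition {O, Ω ∖ O}, which is proper). -/
theorem result {Ω : Type*} [Fintype Ω] [DecidableEq Ω] (hΩ : 2 < Fintype.card Ω)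
    (O : Set Ω) (hO : Nat.card O = Nat.card ↥Oᶜ) :
    ¬ IsCoatom (MulAction.stabilizer (Equiv.Perm Ω) O) := by
  classical
  intro hco
  haveI : Finite O := Set.toFinite O |>.to_subtype
  have hcardO : Nat.card O + Nat.card ↥Oᶜ = Fintype.card Ω := by
    rw [← Nat.card_eq_fintype_card, ← Nat.card_sum]
    exact Nat.card_congr (Equiv.Set.sumCompl O)
  have h2 : 1 < Nat.card O := by omega
  have hfO : Finite O := inferInstance
  have hfOc : Finite ↥Oᶜ := inferInstance
  obtain ⟨e⟩ : Nonempty (O ≃ ↥Oᶜ) := ⟨(Finite.equivFin _).trans ((finCongr hO).trans (Finite.equivFin _).symm)⟩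
  obtain ⟨⟨x, hx⟩, ⟨x', hx'⟩, hxx'⟩ := Finite.one_lt_card_iff_nontrivial.mp h2
  have hne : x ≠ x' := fun h => hxx' (Subtype.ext h)
  have h2c : 1 < Nat.card ↥Oᶜ := by omega
  obtain ⟨⟨y, hy⟩, ⟨y', hy'⟩, hyy'⟩ := Finite.one_lt_card_iff_nontrivial.mp h2c
  let K : Subgroup (Equiv.Perm Ω) := MulAction.stabilizer (Equiv.Perm Ω) ({O, Oᶜ} : Set (Set Ω))
  have hmem : ∀ g : Equiv.Perm Ω, g ∈ K → g • O = O ∨ g • O = Oᶜ := by
    intro g hg
    have h1 : g • ({O, Oᶜ} : Set (Set Ω)) = {O, Oᶜ} := hg
    have h2 : g • O ∈ g • ({O, Oᶜ} : Set (Set Ω)) := Set.smul_mem_smul_set (by simp)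
    rw [h1] at h2
    simpa using h2
  have hle : MulAction.stabilizer (Equiv.Perm Ω) O ≤ K := by
    intro g hg
    have h1 : g • O = O := hg
    have h2 : g • Oᶜ = Oᶜ := by rw [Set.smul_set_compl, h1]
    change g • ({O, Oᶜ} : Set (Set Ω)) = {O, Oᶜ}
    rw [Set.smul_set_insert, Set.smul_set_singleton, h1, h2]
  have he : ∀ z, z ∈ O → e.extendSubtype z ∈ Oᶜ := fun z hz => e.extendSubtype_mem z hz
  have he' : ∀ z, z ∉ O → e.extendSubtype z ∈ O := fun z hz => by
    have := e.extendSubtype_not_mem z hz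
    simpa using this
  have hsw : e.extendSubtype • O = Oᶜ := by
    ext z
    constructor
    · rintro ⟨w, hw, rfl⟩
      exact he w hw
    · intro hz
      refine ⟨e.extendSubtype⁻¹ z, ?_, ?_⟩
      · by_contra hcon
        have := he' _ hcon
        have h2 : e.extendSubtype (e.extendSubtype⁻¹ z) = z := by simp
        rw [h2] at this
        exact hz this
      · simp
  have hswc : e.extendSubtype • Oᶜ = O := by rw [Set.smul_set_compl, hsw, compl_compl]
  have hlt : MulAction.stabilizer (Equiv.Perm Ω) O < K := by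
    refine lt_of_le_of_ne hle ?_
    intro heq
    have : e.extendSubtype ∈ K := by
      change e.extendSubtype • ({O, Oᶜ} : Set (Set Ω)) = {O, Oᶜ}
      rw [Set.smul_set_insert, Set.smul_set_singleton, hsw, hswc, Set.pair_comm]
    rw [← heq] at this
    have h3 : e.extendSubtype • O = O := this
    rw [hsw] at h3
    have : x ∈ Oᶜ := by rw [h3]; exact hx
    exact this hx
  have htop := hco.2 _ hlt
  have h4 := hmem (Equiv.swap x y) (htop ▸ Subgroup.mem_top _)
  have h5 : y ∈ Equiv.swap x y • O := ⟨x, hx, by simp⟩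
  have h6 : x' ∈ Equiv.swap x y • O := ⟨x', hx', by
    change Equiv.swap x y x' = x'
    exact Equiv.swap_apply_of_ne_of_ne hne.symm (fun h => hy (h ▸ hx'))⟩
  rcases h4 with h4 | h4
  · rw [h4] at h5; exact hy h5
  · rw [h4] at h6; exact h6 hx'

end Cfsg.Agent.S5904
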