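import Cfsg.Statements.S5905
import Mathlib


set_option autoImplicit false
open Cfsg

namespace Cfsg.Agent.S5905

theorem mem_iff {Ω : Type*} {b : ℕ} (f : Ω → Fin b) (g : Equiv.Perm Ω) :
    g ∈ Subgroup.closure {g : Equiv.Perm Ω | ∀ x y : Ω, f x = f y ↔ f (g x) = f (g y)} ↔
      ∀ x y, f x = f y ↔ f (g x) = f (g y) := by
  constructor
  · intro hg
    induction hg using Subgroup.closure_induction with
    | mem x hx => exact hx
    | one => simp
    | mul a b _ _ ha hb => intro x y; rw [hb x y, ha]; rfl
    | inv a _ ha =>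
      intro x y
      have := ha (a⁻¹ x) (a⁻¹ y)
      simp at this
      exact this.symm
  · intro h; exact Subgroup.subset_closure h

theorem exists_equiv {Ω : Type*} [Fintype Ω] (a b : ℕ) 
    (f : Ω → Fin b) (hf : ∀ i : Fin b, Nat.card {x : Ω // f x = i} = a) :
    ∃ e : Ω ≃ Fin b × Fin a, ∀ x, (e x).1 = f x := by
  have φ : ∀ i : Fin b, {x : Ω // f x = i} ≃ Fin a := fun i => (Finite.equivFin _).trans (finCongr (hf i))
  refine ⟨(Equiv.sigmaFiberEquiv f).symm.trans ((Equiv.sigmaCongrRight φ).trans (Equiv.sigmaEquivProd _ _)), fun x => ?_⟩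
  rfl

/-- Let Ω be a finite set and f : Ω → Fin b a map onto b ≥ 2 labels whose fibres all have the same size a ≥ 2 (a partition of Ω into b blocks of size a, so |Ω| = ab). Then the stabilizer of this partition in the symmetric group on Ω — the permutations g such that x and y lie in the same block exactly when g x and g y do, a group isomorphic to the imprimitive wreath product S_a ≀ S_b — is a maximal subgroup of the symmetric group. -/
theorem result {Ω : Type*} [Fintype Ω] [DecidableEq Ω] (a b : ℕ) (ha : 2 ≤ a) (hb : 2 ≤ b)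
    (f : Ω → Fin b) (hf : ∀ i : Fin b, Nat.card {x : Ω // f x = i} = a) :
    IsCoatom (Subgroup.closure {g : Equiv.Perm Ω | ∀ x y : Ω, f x = f y ↔ f (g x) = f (g y)}) := by
  classical
  obtain ⟨e, he⟩ := exists_equiv a b f hf
  have h0a : 0 < a := by omega
  have h0b : 0 < b := by omega
  refine ⟨?_, ?_⟩
  · intro htop
    -- swap (0,0) and (1,0)
    set u := e.symm (⟨0, h0b⟩, ⟨0, h0a⟩) with hu
    set v := e.symm (⟨1, by omega⟩, ⟨0, h0a⟩) with hv
    set u' := e.symm (⟨0, h0b⟩, ⟨1, by omega⟩) with hu'
    have h1 := (mem_iff f (Equiv.swap u v)).mp (htop ▸ Subgroup.mem_top _) u u'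
    have hfu : f u = ⟨0, h0b⟩ := by rw [← he, hu, Equiv.apply_symm_apply]
    have hfv : f v = ⟨1, by omega⟩ := by rw [← he, hv, Equiv.apply_symm_apply]
    have hfu' : f u' = ⟨0, h0b⟩ := by rw [← he, hu', Equiv.apply_symm_apply]
    have huu' : u' ≠ u := by
      intro h
      have := e.symm.injective h
      simp at this
    have huv' : u' ≠ v := by
      intro h
      rw [h, hfv] at hfu'
      simp at hfu'
    rw [Equiv.swap_apply_left, Equiv.swap_apply_of_ne_of_ne huu' huv', hfu, hfu', hfv] at h1
    simp at h1
  · intro K hK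
    obtain ⟨g, hgK, hg⟩ := Set.exists_of_ssubset hK
    -- relation
    let R : Ω → Ω → Prop := fun x y => x = y ∨ Equiv.swap x y ∈ K
    have hRsymm : ∀ x y, R x y → R y x := by
      rintro x y (rfl | h)
      · exact Or.inl rfl
      · right; rw [Equiv.swap_comm]; exact h
    have hRtrans : ∀ x y z, R x y → R y z → R x z := by
      rintro x y z (rfl | h) (rfl | h')
      · exact Or.inl rfl
      · exact Or.inr h'
      · exact Or.inr h
      · by_cases hxz : x = z
        · exact Or.inl hxz
        by_cases hyz : y = z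
        · subst hyz; exact Or.inr h
        by_cases hxy : x = y
        · subst hxy; exact Or.inr h'
        right
        have : Equiv.swap x z = Equiv.swap y z * Equiv.swap x y * (Equiv.swap y z)⁻¹ := by
          rw [← Equiv.swap_apply_apply, Equiv.swap_apply_of_ne_of_ne hxy hxz, Equiv.swap_apply_left]
        rw [this]
        exact K.mul_mem (K.mul_mem h' h) (K.inv_mem h')
    have hRconj : ∀ k ∈ K, ∀ x y, R x y → R (k x) (k y) := by
      rintro k hk x y (rfl | h)
      · exact Or.inl rfl
      · right
        rw [Equiv.swap_apply_apply]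
        exact K.mul_mem (K.mul_mem hk h) (K.inv_mem hk)
    have hRf : ∀ x y, f x = f y → R x y := by
      intro x y hxy
      right
      apply hK.le
      rw [mem_iff]
      have hfs : ∀ z, f (Equiv.swap x y z) = f z := by
        intro z
        by_cases h1 : z = x
        · subst h1; rw [Equiv.swap_apply_left, hxy]
        by_cases h2 : z = y
        · subst h2; rw [Equiv.swap_apply_right, hxy]
        rw [Equiv.swap_apply_of_ne_of_ne h1 h2]
      intro z w
      rw [hfs, hfs]
    -- find u v in distinct fibres related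
    have huv : ∃ u v, f u ≠ f v ∧ R u v := by
      have hg' : ¬ ∀ x y : Ω, f x = f y ↔ f (g x) = f (g y) := fun h => hg ((mem_iff f g).mpr h)
      push Not at hg'
      obtain ⟨x, y, hxy⟩ := hg'
      rcases hxy with ⟨h1, h2⟩ | ⟨h1, h2⟩
      · exact ⟨g x, g y, h2, hRconj g hgK _ _ (hRf _ _ h1)⟩
      · refine ⟨x, y, h1, ?_⟩
        have := hRconj g⁻¹ (K.inv_mem hgK) _ _ (hRf _ _ h2)
        simpa using this
    obtain ⟨u, v, hfuv, hRuv⟩ := huv
    have hall : ∀ w, R u w := by
      intro w
      by_cases h1 : f w = f u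
      · exact hRf _ _ h1.symm
      by_cases h2 : f w = f v
      · exact hRtrans _ _ _ hRuv (hRf _ _ h2.symm)
      -- element swapping fibres of v and w
      let τ : Equiv.Perm (Fin b) := Equiv.swap (f v) (f w)
      let h : Equiv.Perm Ω := (e.trans (Equiv.prodCongr τ (Equiv.refl _))).trans e.symm
      have hfh : ∀ z, f (h z) = τ (f z) := by
        intro z
        rw [← he, ← he]
        simp [h]
      have hhK : h ∈ K := by
        apply hK.le
        rw [mem_iff]
        intro z z'
        rw [hfh, hfh]
        exact τ.injective.eq_iff.symm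
      have h3 := hRconj h hhK _ _ hRuv
      have h4 : f (h u) = f u := by
        rw [hfh]
        exact Equiv.swap_apply_of_ne_of_ne hfuv (fun h => h1 h.symm)
      have h5 : f (h v) = f w := by
        rw [hfh]
        exact Equiv.swap_apply_left _ _
      exact hRtrans _ _ _ (hRf _ _ h4.symm) (hRtrans _ _ _ h3 (hRf _ _ h5))
    rw [eq_top_iff, ← Equiv.Perm.closure_isSwap, Subgroup.closure_le]
    rintro σ ⟨x, y, hxy, rfl⟩
    rcases hRtrans _ _ _ (hRsymm _ _ (hall x)) (hall y) with h | h
    · exact absurd h hxy
    · exact h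

end Cfsg.Agent.S5905
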