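import Cfsg.Statements.S5908
import Cfsg.Agent.LibH22U32

set_option autoImplicit false
open Cfsg

namespace Cfsg.Agent.S5908


/-- The subgroup lattice of PSU₃(2) (the solvable group of order 72, realised over the field with 4 elements) is not complemented: some subgroup H has no subgroup X with H ⊔ X = ⊤ and H ⊓ X = ⊥. -/
theorem result {F : Type*} [Field F] [Fintype F] (hF : Fintype.card F = 4) :
    ¬ ComplementedLattice (Subgroup (Cfsg.PSU 3 F 2)) := by
  intro hcl
  obtain ⟨N, hN, h9, -, ⟨e⟩⟩ := Cfsg.Agent.H22.psu32 hF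
  haveI := hN
  have h72 : Nat.card (Cfsg.PSU 3 F 2) = 72 := Cfsg.Agent.H22.card_PSU32 hF
  haveI : Finite (Cfsg.PSU 3 F 2) := Nat.finite_of_card_ne_zero (by rw [h72]; norm_num)
  -- the map to the quaternion group
  set f : Cfsg.PSU 3 F 2 →* QuaternionGroup 2 := e.toMonoidHom.comp (QuotientGroup.mk' N) with hf
  have hfs : Function.Surjective f := e.surjective.comp (QuotientGroup.mk'_surjective N)
  have hfk : f.ker = N := by
    ext x
    rw [MonoidHom.mem_ker]
    show e (QuotientGroup.mk' N x) = 1 ↔ _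
    rw [EmbeddingLike.map_eq_one_iff]
    exact QuotientGroup.eq_one_iff x
  have hQ : ∀ x : QuaternionGroup 2, x * x = 1 → x = 1 ∨ x = QuaternionGroup.a 2 := by decide
  have hZn : ∀ x g : QuaternionGroup 2, (x = 1 ∨ x = QuaternionGroup.a 2) → (g * x * g⁻¹ = 1 ∨ g * x * g⁻¹ = QuaternionGroup.a 2) := by decide
  have hc4 : (QuaternionGroup.a 2 : QuaternionGroup 2) * QuaternionGroup.a 2 = 1 := by decide
  let Z : Subgroup (QuaternionGroup 2) := Subgroup.zpowers (QuaternionGroup.a 2)
  have hZc : Nat.card Z = 2 := by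
    rw [Nat.card_zpowers]
    exact orderOf_eq_prime_iff.2 ⟨by rw [pow_two]; exact hc4, by decide⟩
  have hZm : ∀ x : QuaternionGroup 2, x * x = 1 → x ∈ Z := by
    intro x hx
    rcases hQ x hx with h | h
    · rw [h]; exact one_mem _
    · rw [h]; exact Subgroup.mem_zpowers _
  have hZi : ∀ x ∈ Z, x = 1 ∨ x = QuaternionGroup.a 2 := by
    intro x hx
    apply hQ
    have : (⟨x, hx⟩ : Z) ^ Nat.card Z = 1 := pow_card_eq_one'
    rw [hZc] at this
    have h2 : x ^ 2 = 1 := congrArg Subtype.val this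
    rw [pow_two] at h2
    exact h2
  haveI hZnor : Z.Normal := ⟨fun x hx g => by
    rcases hZn x g (hZi x hx) with h | h
    · rw [h]; exact one_mem _
    · rw [h]; exact Subgroup.mem_zpowers _⟩
  let H : Subgroup (Cfsg.PSU 3 F 2) := Z.comap f
  haveI : H.Normal := hZnor.comap f
  have hHi : H.index = 4 := by
    rw [Subgroup.index_comap_of_surjective _ hfs]
    have := Z.card_mul_index
    rw [hZc, Nat.card_eq_fintype_card, QuaternionGroup.card] at this
    omega
  obtain ⟨X, hX⟩ := hcl.exists_isCompl H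
  have hXc : Nat.card X = 4 := by
    have h1 : H.relIndex X = H.index := by
      rw [← Subgroup.relIndex_sup_right, sup_comm, hX.sup_eq_top, Subgroup.relIndex_top_right]
    have h3 : (⊥ : Subgroup (Cfsg.PSU 3 F 2)).relIndex X = Nat.card X := Subgroup.relIndex_bot_left X
    have h4 : (H ⊓ X).relIndex X = H.relIndex X := Subgroup.inf_relIndex_right H X
    rw [hX.inf_eq_bot, h3, h1, hHi] at h4
    exact h4
  haveI : Fact (Nat.Prime 2) := ⟨Nat.prime_two⟩
  obtain ⟨x, hx⟩ := exists_prime_orderOf_dvd_card' (G := X) 2 (by rw [hXc]; norm_num)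
  have hx2 : x * x = 1 := by
    have := pow_orderOf_eq_one x
    rw [hx] at this
    rw [← pow_two]; exact this
  have hx1 : x ≠ 1 := by
    intro h
    rw [h, orderOf_one] at hx
    norm_num at hx
  have h5 : (x : Cfsg.PSU 3 F 2) ∈ H := by
    apply hZm
    rw [← map_mul]
    have : (x : Cfsg.PSU 3 F 2) * x = 1 := congrArg Subtype.val hx2
    rw [this, map_one]
  apply hx1
  apply Subtype.ext
  have h6 : (x : Cfsg.PSU 3 F 2) ∈ H ⊓ X := ⟨h5, x.2⟩
  rw [hX.inf_eq_bot] at h6
  exact Subgroup.mem_bot.1 h6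
end Cfsg.Agent.S5908
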