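import Cfsg.Statements.S5910
import Mathlib

set_option autoImplicit false
open Cfsg

namespace Cfsg.Agent.S5910


/-- Let Ω be a set with 8 elements and f : Ω → Fin 4 a labelling whose four fibres all have size 2 (a partition of the 8 points into 4 pairs). Then the group of even permutations preserving this partition, (S₂ ≀ S₄) ∩ A₈, is not a maximal subgroup of the alternating group A₈ (it lies in a subgroup isomorphic to the affine group AGL₃(2)). -/
theorem result {Ω : Type*} [Fintype Ω] [DecidableEq Ω] (h8 : Fintype.card Ω = 8)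
    (f : Ω → Fin 4) (hf : ∀ i : Fin 4, Nat.card {x : Ω // f x = i} = 2) :
    ¬ IsCoatom ((Subgroup.closure {g : Equiv.Perm Ω | ∀ x y : Ω, f x = f y ↔ f (g x) = f (g y)} ⊓ alternatingGroup Ω).subgroupOf (alternatingGroup Ω)) := by
  classical
  intro hco
  let V := ZMod 2 × ZMod 2
  have c4 : Fintype.card V = 4 := by decide
  -- coordinates
  obtain ⟨τ⟩ : Nonempty (Fin 4 ≃ V) := ⟨Fintype.equivOfCardEq (by rw [c4]; decide)⟩
  have hfib : ∀ i : Fin 4, Nonempty ({x : Ω // f x = i} ≃ ZMod 2) := by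
    intro i
    apply Fintype.card_eq.1
    rw [← Nat.card_eq_fintype_card, hf i]; decide
  have fib : ∀ i : Fin 4, {x : Ω // f x = i} ≃ ZMod 2 := fun i => (hfib i).some
  let e0 : Ω ≃ (Σ i : Fin 4, {x : Ω // f x = i}) := (Equiv.sigmaFiberEquiv f).symm
  let e1 : (Σ i : Fin 4, {x : Ω // f x = i}) ≃ (Σ _ : Fin 4, ZMod 2) := Equiv.sigmaCongrRight (fun i => fib i)
  let e2 : (Σ _ : Fin 4, ZMod 2) ≃ V × ZMod 2 := (Equiv.sigmaEquivProd _ _).trans (Equiv.prodCongr τ (Equiv.refl _))
  let e : Ω ≃ V × ZMod 2 := (e0.trans e1).trans e2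
  have he1 : ∀ x, (e x).1 = τ (f x) := fun x => rfl
  have hef : ∀ x y, f x = f y ↔ (e x).1 = (e y).1 := by
    intro x y
    rw [he1, he1]
    exact (EmbeddingLike.apply_eq_iff_eq τ).symm
  -- the affine group
  let K : Subgroup (Equiv.Perm (V × ZMod 2)) :=
    { carrier := {g | ∀ x y z, g (x + y + z) = g x + g y + g z}
      mul_mem' := by
        intro a b ha hb x y z
        show a (b (x + y + z)) = a (b x) + a (b y) + a (b z)
        rw [hb, ha]
      one_mem' := fun x y z => rfl
      inv_mem' := by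
        intro a ha x y z
        show a⁻¹ (x + y + z) = a⁻¹ x + a⁻¹ y + a⁻¹ z
        apply a.injective
        rw [ha]
        have h0 : ∀ w, a (a⁻¹ w) = w := fun w => a.apply_symm_apply w
        rw [h0, h0, h0, h0] }
  have hK : ∀ g, g ∈ K ↔ ∀ x y z, g (x + y + z) = g x + g y + g z := fun g => Iff.rfl
  let E : Equiv.Perm Ω ≃* Equiv.Perm (V × ZMod 2) := e.permCongrHom
  have hE : ∀ g x, E g (e x) = e (g x) := by
    intro g x
    show e (g (e.symm (e x))) = e (g x)
    rw [e.symm_apply_apply]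
  have hEs : ∀ g, Equiv.Perm.sign (E g) = Equiv.Perm.sign g := fun g => Equiv.Perm.sign_permCongr e g
  -- wreath elements
  have hw : ∀ g ∈ Subgroup.closure {g : Equiv.Perm Ω | ∀ x y : Ω, f x = f y ↔ f (g x) = f (g y)}, ∀ x y : Ω, f x = f y ↔ f (g x) = f (g y) := by
    intro g hg
    induction hg using Subgroup.closure_induction with
    | mem g h => exact h
    | one => intro x y; exact Iff.rfl
    | mul a b _ _ ha hb => intro x y; rw [hb x y, ha (b x) (b y)]; rfl
    | inv a _ ha =>
      intro x y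
      have h0 : ∀ w, a (a⁻¹ w) = w := fun w => a.apply_symm_apply w
      rw [ha (a⁻¹ x) (a⁻¹ y), h0, h0]
  have hsum : ∀ ε : V → ZMod 2, (∑ i, ε i) = 0 → ∀ x y z, ε (x + y + z) = ε x + ε y + ε z := by decide
  have hperm : ∀ σ : Equiv.Perm V, ∀ x y z, σ (x + y + z) = σ x + σ y + σ z := by decide
  have hmain : ∀ g : Equiv.Perm Ω, (∀ x y : Ω, f x = f y ↔ f (g x) = f (g y)) → Equiv.Perm.sign g = 1 → E g ∈ K := by
    intro g hg hs
    -- induced permutation
    have h1 : ∀ i : V, ∀ s t : ZMod 2, (E g (i, s)).1 = (E g (i, t)).1 := by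
      intro i s t
      obtain ⟨x, hx⟩ := e.surjective (i, s)
      obtain ⟨y, hy⟩ := e.surjective (i, t)
      rw [← hx, ← hy, hE, hE, ← hef, ← hg, hef, hx, hy]
    have hinj : Function.Injective (fun i : V => (E g (i, 0)).1) := by
      intro i j hij
      obtain ⟨x, hx⟩ := e.surjective (i, 0)
      obtain ⟨y, hy⟩ := e.surjective (j, 0)
      have hij' : (E g (i, 0)).1 = (E g (j, 0)).1 := hij
      rw [← hx, ← hy, hE, hE, ← hef, ← hg, hef, hx, hy] at hij'
      exact hij'
    let σ : Equiv.Perm V := Equiv.ofBijective _ (Finite.injective_iff_bijective.1 hinj)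
    have hσ : ∀ i s, (E g (i, s)).1 = σ i := fun i s => h1 i s 0
    let ε : V → ZMod 2 := fun i => (E g (i, 0)).2
    have h2 : ∀ i : V, (E g (i, 1)).2 = 1 + ε i := by
      intro i
      have h3 : E g (i, 1) ≠ E g (i, 0) := by
        intro h
        have := (E g).injective h
        have h10 : (1 : ZMod 2) = 0 := congrArg Prod.snd this
        exact absurd h10 (by decide)
      have h4 : (E g (i, 1)).2 ≠ ε i := by
        intro h
        exact h3 (Prod.ext ((hσ i 1).trans (hσ i 0).symm) h)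
      have : ∀ a b : ZMod 2, a ≠ b → a = 1 + b := by decide
      exact this _ _ h4
    have hform : ∀ i s, E g (i, s) = (σ i, s + ε i) := by
      intro i s
      have h01 : ∀ s : ZMod 2, s = 0 ∨ s = 1 := by decide
      refine Prod.ext (hσ i s) ?_
      rcases h01 s with h | h
      · rw [h]; show ε i = 0 + ε i; rw [zero_add]
      · rw [h]; exact h2 i
    -- sign
    have hdec : E g = (Equiv.prodCongrLeft (fun _ : ZMod 2 => σ)) * (Equiv.prodCongrRight (fun i : V => Equiv.addRight (ε i))) := by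
      apply Equiv.ext
      rintro ⟨i, s⟩
      rw [hform]
      rfl
    have hsg : Equiv.Perm.sign (E g) = ∏ i : V, Equiv.Perm.sign (Equiv.addRight (ε i) : Equiv.Perm (ZMod 2)) := by
      rw [hdec, map_mul]
      have e1 : Equiv.Perm.sign (Equiv.prodCongrLeft (fun _ : ZMod 2 => σ)) = 1 := by
        rw [Equiv.Perm.sign_prodCongrLeft, Finset.prod_const]
        have : (Finset.univ : Finset (ZMod 2)).card = 2 := by decide
        rw [this]
        exact Int.units_sq _
      rw [e1, one_mul, Equiv.Perm.sign_prodCongrRight]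
    rw [hEs, hs] at hsg
    have hsgn : ∀ a : ZMod 2, Equiv.Perm.sign (Equiv.addRight a : Equiv.Perm (ZMod 2)) = if a = 0 then 1 else -1 := by decide
    simp only [hsgn] at hsg
    have hsum0 : ∀ ε : V → ZMod 2, (1 : ℤˣ) = ∏ i : V, (if ε i = 0 then (1 : ℤˣ) else -1) → (∑ i, ε i) = 0 := by decide
    have h5 := hsum ε (hsum0 ε hsg)
    rw [hK]
    rintro ⟨i, s⟩ ⟨j, t⟩ ⟨k, u⟩
    show E g (i + j + k, s + t + u) = _
    rw [hform, hform, hform, hform, hperm, h5]
    ext
    · rfl
    · rfl
    · show s + t + u + (ε i + ε j + ε k) = (s + ε i) + (t + ε j) + (u + ε k)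
      ring
  -- cyclic coordinate permutation
  let c : Equiv.Perm (V × ZMod 2) :=
    { toFun := fun x => ((x.1.2, x.2), x.1.1)
      invFun := fun x => ((x.2, x.1.1), x.1.2)
      left_inv := fun x => rfl
      right_inv := fun x => rfl }
  have hc : c ∈ K := by
    rw [hK]; intro x y z; rfl
  have hc3 : c ^ 3 = 1 := by
    apply Equiv.ext; intro x; rfl
  have hsign : ∀ d : Equiv.Perm (V × ZMod 2), d ^ 3 = 1 → Equiv.Perm.sign d = 1 := by
    intro d hd
    have h1 : (Equiv.Perm.sign d) ^ 3 = 1 := by rw [← map_pow, hd, map_one]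
    have h2 : (Equiv.Perm.sign d) ^ 2 = 1 := Int.units_sq _
    rw [pow_succ, h2, one_mul] at h1
    exact h1
  -- a three-cycle
  let p0 : V × ZMod 2 := ((0, 0), 0)
  let p1 : V × ZMod 2 := ((0, 0), 1)
  let p2 : V × ZMod 2 := ((0, 1), 0)
  let t : Equiv.Perm (V × ZMod 2) := Equiv.swap p0 p1 * Equiv.swap p1 p2
  have ht : t ∉ K := by
    rw [hK]
    intro h
    have := h p0 ((1, 0), 0) ((1, 1), 0)
    revert this
    decide
  have ht3 : t ^ 3 = 1 := by decide
  -- the two subgroups
  set H := (Subgroup.closure {g : Equiv.Perm Ω | ∀ x y : Ω, f x = f y ↔ f (g x) = f (g y)} ⊓ alternatingGroup Ω).subgroupOf (alternatingGroup Ω) with hH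
  let M : Subgroup (alternatingGroup Ω) := (K.comap E.toMonoidHom).subgroupOf (alternatingGroup Ω)
  have hHM : H ≤ M := by
    intro g hg
    rw [hH, Subgroup.mem_subgroupOf, Subgroup.mem_inf] at hg
    exact hmain g.1 (hw _ hg.1) (Equiv.Perm.mem_alternatingGroup.1 hg.2)
  have hmk : ∀ d : Equiv.Perm (V × ZMod 2), d ^ 3 = 1 → ∃ g : alternatingGroup Ω, E g.1 = d := by
    intro d hd
    refine ⟨⟨E.symm d, ?_⟩, E.apply_symm_apply d⟩
    rw [Equiv.Perm.mem_alternatingGroup, ← hEs, E.apply_symm_apply]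
    exact hsign d hd
  obtain ⟨gc, hgc⟩ := hmk c hc3
  obtain ⟨gt, hgt⟩ := hmk t ht3
  have hM1 : M ≠ ⊤ := by
    intro h
    have : gt ∈ M := by rw [h]; exact Subgroup.mem_top _
    apply ht
    rw [← hgt]
    exact this
  have hM2 : H ≠ M := by
    intro h
    have h1 : gc ∈ H := by
      rw [h]
      show E gc.1 ∈ K
      rw [hgc]; exact hc
    rw [hH, Subgroup.mem_subgroupOf, Subgroup.mem_inf] at h1
    have h2 := hw _ h1.1
    obtain ⟨x, hx⟩ := e.surjective p0
    obtain ⟨y, hy⟩ := e.surjective p1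
    have h3 : f x = f y := by rw [hef, hx, hy]
    rw [h2 x y, hef, ← hE, ← hE, hgc, hx, hy] at h3
    revert h3
    decide
  exact hM1 (hco.2 M (lt_of_le_of_ne hHM hM2))
end Cfsg.Agent.S5910
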