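import Cfsg.Statements.S5913
import Mathlib


set_option autoImplicit false
open Cfsg

namespace Cfsg.Agent.S5913



/-- Let S be a non-abelian simple group and n a natural number. Every normal subgroup N of the direct power S^n (functions Fin n → S) is a subproduct: there is a set T of coordinates such that N consists exactly of the elements whose coordinates outside T are trivial. In particular the minimal normal subgroups of S^n are its n factors. -/
theorem result {S : Type*} [Group S] [IsSimpleGroup S] (hS : ¬ IsMulCommutative S) (n : ℕ)
    (N : Subgroup (Fin n → S)) [N.Normal] :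
    ∃ T : Finset (Fin n), ∀ x : Fin n → S, x ∈ N ↔ ∀ i, i ∉ T → x i = 1 := by
  classical
  refine ⟨Finset.univ.filter (fun i => ∃ x ∈ N, x i ≠ 1), fun x => ⟨fun hx i hi => ?_, fun hx => ?_⟩⟩
  · by_contra hcon
    exact hi (Finset.mem_filter.mpr ⟨Finset.mem_univ _, x, hx, hcon⟩)
  · -- factor subgroups
    have hfac : ∀ i, (∃ x ∈ N, x i ≠ 1) → ∀ s : S, Pi.mulSingle i s ∈ N := by
      rintro i ⟨y, hy, hyi⟩ s
      let K : Subgroup S := N.comap (MonoidHom.mulSingle (fun _ : Fin n => S) i)
      haveI : K.Normal := inferInstance
      have hK : K ≠ ⊥ := by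
        -- find t with [y i, t] ≠ 1
        have hz : Subgroup.center S = ⊥ := by
          rcases (inferInstance : (Subgroup.center S).Normal).eq_bot_or_eq_top with h | h
          · exact h
          · exfalso; apply hS
            refine ⟨⟨fun a b => ?_⟩⟩
            have : a ∈ Subgroup.center S := h ▸ Subgroup.mem_top _
            exact (Subgroup.mem_center_iff.mp this b).symm
        have hyc : y i ∉ Subgroup.center S := by
          rw [hz, Subgroup.mem_bot]; exact hyi
        rw [Subgroup.mem_center_iff] at hyc
        push Not at hyc
        obtain ⟨t, ht⟩ := hyc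
        have h1 : y * (Pi.mulSingle i t * y⁻¹ * (Pi.mulSingle i t)⁻¹) ∈ N :=
          N.mul_mem hy (‹N.Normal›.conj_mem _ (N.inv_mem hy) _)
        have h2 : y * (Pi.mulSingle i t * y⁻¹ * (Pi.mulSingle i t)⁻¹) = Pi.mulSingle i (y i * (t * (y i)⁻¹ * t⁻¹)) := by
          ext j
          by_cases hj : j = i
          · subst hj; simp
          · simp [Pi.mulSingle_eq_of_ne hj]
        rw [h2] at h1
        intro hbot
        have h3 : y i * (t * (y i)⁻¹ * t⁻¹) ∈ K := h1
        rw [hbot, Subgroup.mem_bot] at h3
        apply ht
        have h4 : y i * (t * (y i)⁻¹ * t⁻¹) * t * y i = y i * t := by group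
        rw [h3, one_mul] at h4
        exact h4
      rcases (inferInstance : K.Normal).eq_bot_or_eq_top with h | h
      · exact absurd h hK
      · have : s ∈ K := h ▸ Subgroup.mem_top _
        exact this
    apply Subgroup.pi_mem_of_mulSingle_mem
    intro i
    by_cases hi : x i = 1
    · rw [hi, Pi.mulSingle_one]; exact N.one_mem
    · apply hfac
      by_contra hcon
      exact hi (hx i (fun hmem => hcon (Finset.mem_filter.mp hmem).2))

end Cfsg.Agent.S5913
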