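import Cfsg.Statements.S5914
import Mathlib
import Cfsg.Agent.S0721
import Cfsg.Agent.S5913

set_option autoImplicit false
open Cfsg

namespace Cfsg.Agent.S5914

/-- characteristic subgroups are transported by isomorphisms -/
theorem char_map {G P : Type*} [Group G] [Group P] (e : G ≃* P) (H : Subgroup G) (hH : H.Characteristic) : (H.map e.toMonoidHom).Characteristic := by
  rw [Subgroup.characteristic_iff_map_le]
  intro φ
  rintro _ ⟨_, ⟨h, hh, rfl⟩, rfl⟩
  have h1 := (Subgroup.characteristic_iff_map_le.mp hH) ((e.trans φ).trans e.symm)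
  have h2 : ((e.trans φ).trans e.symm) h ∈ H := h1 ⟨h, hh, rfl⟩
  exact ⟨_, h2, by simp⟩

theorem char_pow {S : Type*} [Group S] [IsSimpleGroup S] {n : ℕ} (H : Subgroup (Fin n → S)) (hH : H.Characteristic) : H = ⊥ ∨ H = ⊤ := by
  classical
  haveI := hH
  haveI hn : H.Normal := inferInstance
  by_cases hbot : H = ⊥
  · exact Or.inl hbot
  right
  -- key: some single i s with s ≠ 1
  have hkey : ∃ i, ∃ s : S, s ≠ 1 ∧ (Pi.mulSingle i s : Fin n → S) ∈ H := by
    obtain ⟨x, hx, hx1⟩ := (Subgroup.ne_bot_iff_exists_ne_one.mp hbot) |> fun ⟨y, hy⟩ => (⟨y.1, y.2, fun h => hy (Subtype.ext h)⟩ : ∃ x, x ∈ H ∧ x ≠ 1)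
    obtain ⟨i, hi⟩ : ∃ i, x i ≠ 1 := by
      by_contra hcon
      push Not at hcon
      exact hx1 (funext hcon)
    by_cases hS : IsMulCommutative S
    · by_cases hj : ∃ j, j ≠ i
      · obtain ⟨j, hj⟩ := hj
        have hc : ∀ a b : S, a * b = b * a := hS.is_comm.comm
        let φ : (Fin n → S) ≃* (Fin n → S) :=
          { toFun := fun y => y * Pi.mulSingle j (y i)
            invFun := fun y => y * Pi.mulSingle j (y i)⁻¹
            left_inv := by
              intro y
              funext l
              by_cases hl : l = j
              · subst hl; simp [Pi.mulSingle_eq_of_ne hj.symm]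
              · simp [Pi.mulSingle_eq_of_ne hl]
            right_inv := by
              intro y
              funext l
              by_cases hl : l = j
              · subst hl; simp [Pi.mulSingle_eq_of_ne hj.symm]
              · simp [Pi.mulSingle_eq_of_ne hl]
            map_mul' := by
              intro y z
              funext l
              by_cases hl : l = j
              · subst hl
                simp only [Pi.mul_apply, Pi.mulSingle_eq_same]
                rw [mul_assoc, mul_assoc, ← mul_assoc (z l) (y i) (z i), hc (z l) (y i), mul_assoc]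
              · simp [Pi.mulSingle_eq_of_ne hl] }
        have h1 : φ x ∈ H := (Subgroup.characteristic_iff_map_le.mp hH) φ ⟨x, hx, rfl⟩
        refine ⟨j, x i, hi, ?_⟩
        have h2 := H.mul_mem (H.inv_mem hx) h1
        have h3 : x⁻¹ * φ x = Pi.mulSingle j (x i) := by
          show x⁻¹ * (x * Pi.mulSingle j (x i)) = _
          rw [inv_mul_cancel_left]
        rwa [h3] at h2
      · push Not at hj
        refine ⟨i, x i, hi, ?_⟩
        have : (Pi.mulSingle i (x i) : Fin n → S) = x := by
          funext l
          rw [hj l]; simp
        rw [this]; exact hx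
    · obtain ⟨T, hT⟩ := Cfsg.Agent.S5913.result hS n H
      refine ⟨i, x i, hi, ?_⟩
      rw [hT]
      intro l hl
      by_cases hli : l = i
      · exfalso
        apply hi
        rw [← hli]
        exact (hT x).mp hx l hl
      · exact Pi.mulSingle_eq_of_ne hli _
  obtain ⟨i, s, hs, hsH⟩ := hkey
  have hall : ∀ t, (Pi.mulSingle i t : Fin n → S) ∈ H := by
    let K : Subgroup S := H.comap (MonoidHom.mulSingle (fun _ : Fin n => S) i)
    have hKn : K.Normal := by
      constructor
      intro a ha g
      have h1 := hn.conj_mem _ ha (Pi.mulSingle i g)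
      show Pi.mulSingle i (g * a * g⁻¹) ∈ H
      convert h1 using 1
      funext l
      by_cases hl : l = i
      · subst hl; simp
      · simp [Pi.mulSingle_eq_of_ne hl]
    rcases hKn.eq_bot_or_eq_top with h | h
    · exfalso
      have : s ∈ K := hsH
      rw [h, Subgroup.mem_bot] at this
      exact hs this
    · intro t
      have : t ∈ K := by rw [h]; trivial
      exact this
  rw [eq_top_iff]
  intro y _
  apply Subgroup.pi_mem_of_mulSingle_mem
  intro j
  -- permute
  let φ : (Fin n → S) ≃* (Fin n → S) :=
    { toFun := fun y l => y (Equiv.swap i j l)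
      invFun := fun y l => y (Equiv.swap i j l)
      left_inv := by intro y; funext l; simp
      right_inv := by intro y; funext l; simp
      map_mul' := by intro y z; rfl }
  have h1 : φ (Pi.mulSingle i (y j)) ∈ H := (Subgroup.characteristic_iff_map_le.mp hH) φ ⟨_, hall (y j), rfl⟩
  have h2 : φ (Pi.mulSingle i (y j)) = Pi.mulSingle j (y j) := by
    funext l
    show (Pi.mulSingle i (y j) : Fin n → S) (Equiv.swap i j l) = _
    by_cases hl : l = j
    · subst hl; rw [Equiv.swap_apply_right]; simp
    · rw [Pi.mulSingle_eq_of_ne hl, Pi.mulSingle_eq_of_ne]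
      intro h
      apply hl
      rw [Equiv.swap_apply_eq_iff, Equiv.swap_apply_left] at h
      exact h
  rwa [h2] at h1

/-- A non-trivial finite group G is characteristically simple (its only characteristic subgroups are 1 and G) if and only if G is isomorphic to a direct power S^n (n ≥ 1) of some simple group S (possibly cyclic of prime order). -/
theorem result {G : Type*} [Group G] [Finite G] [Nontrivial G] :
    (∀ H : Subgroup G, H.Characteristic → H = ⊥ ∨ H = ⊤) ↔
    ∃ (S : Type) (_ : Group S) (_ : IsSimpleGroup S) (n : ℕ), 1 ≤ n ∧ Nonempty (G ≃* (Fin n → S)) := by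
  constructor
  · intro hchar
    classical
    let Γ := G ⋊[MonoidHom.id (MulAut G)] (MulAut G)
    haveI : Finite (MulAut G) := Finite.of_injective (fun φ : MulAut G => (φ : G → G)) (fun a b h => MulEquiv.ext (congrFun h))
    haveI : Finite Γ := Finite.of_equiv (G × MulAut G) (SemidirectProduct.equivProd).symm
    let N : Subgroup Γ := (SemidirectProduct.inl : G →* Γ).range
    have hN1 : N = (SemidirectProduct.rightHom : Γ →* MulAut G).ker := SemidirectProduct.range_inl_eq_ker_rightHom
    haveI hNn : N.Normal := by rw [hN1]; infer_instance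
    have hN : N ≠ ⊥ := by
      intro h
      obtain ⟨g, hg⟩ := exists_ne (1 : G)
      have : (SemidirectProduct.inl g : Γ) ∈ N := ⟨g, rfl⟩
      rw [h, Subgroup.mem_bot] at this
      exact hg (SemidirectProduct.inl_injective (this.trans (map_one _).symm))
    have hmin : ∀ M : Subgroup Γ, M.Normal → M ≤ N → M = ⊥ ∨ M = N := by
      intro M hM hMN
      have h1 : (M.comap (SemidirectProduct.inl : G →* Γ)).Characteristic := by
        rw [Subgroup.characteristic_iff_le_comap]
        intro φ g hg
        rw [Subgroup.mem_comap] at hg ⊢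
        rw [Subgroup.mem_comap]
        have h2 := hM.conj_mem _ hg (SemidirectProduct.inr φ)
        have h3 : (SemidirectProduct.inl (φ g) : Γ) = SemidirectProduct.inr φ * SemidirectProduct.inl g * (SemidirectProduct.inr φ)⁻¹ := by
          have := SemidirectProduct.inl_aut (φ := MonoidHom.id (MulAut G)) φ g
          rw [map_inv] at this
          exact this
        rw [← h3] at h2
        exact h2
      rcases hchar _ h1 with h | h
      · left
        rw [eq_bot_iff]
        intro x hx
        obtain ⟨g, rfl⟩ := hMN hx
        have : g ∈ M.comap (SemidirectProduct.inl : G →* Γ) := hx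
        rw [h, Subgroup.mem_bot] at this
        rw [this, map_one]; exact Subgroup.one_mem _
      · right
        refine le_antisymm hMN ?_
        rintro _ ⟨g, rfl⟩
        have : g ∈ M.comap (SemidirectProduct.inl : G →* Γ) := by rw [h]; trivial
        exact this
    obtain ⟨T, hT, m, hs, hm, ⟨e⟩⟩ := Cfsg.Agent.S0721.result N hN hmin
    exact ⟨T, hT, hs, m, hm, ⟨(MonoidHom.ofInjective (f := (SemidirectProduct.inl : G →* Γ)) SemidirectProduct.inl_injective).trans e⟩⟩
  · rintro ⟨S, hS, hs, n, hn, ⟨e⟩⟩ H hH
    have h1 := char_pow (H.map e.toMonoidHom) (char_map e H hH)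
    rcases h1 with h | h
    · left
      rwa [Subgroup.map_eq_bot_iff_of_injective _ e.injective] at h
    · right
      rw [eq_top_iff]
      intro g _
      have : e g ∈ H.map e.toMonoidHom := by rw [h]; trivial
      obtain ⟨g', hg', h2⟩ := this
      rwa [← e.injective h2]

end Cfsg.Agent.S5914
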