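import Cfsg.Statements.S5938
import Mathlib
import Mathlib
import Cfsg.Agent.LibDkZ29

set_option autoImplicit false
open Cfsg

namespace Cfsg.Agent.S5938

open CfsgLib.Dk29 MulAction

/-- Let p be a prime with p ≡ ±1 (mod 8) and F a field with p elements. Then PSL_2(F) has a maximal subgroup isomorphic to the symmetric group S_4. -/
theorem result {F : Type*} [Field F] [Fintype F] (p : ℕ) [Fact p.Prime] (hF : Fintype.card F = p) (hp : p % 8 = 1 ∨ p % 8 = 7) : ∃ H : Subgroup (Matrix.ProjectiveSpecialLinearGroup (Fin 2) F), IsCoatom H ∧ Nonempty (H ≃* Equiv.Perm (Fin 4)) := by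
  classical
  have hpp : p.Prime := Fact.out
  have hmod : Fintype.card F % 8 = 1 ∨ Fintype.card F % 8 = 7 := by rw [hF]; exact hp
  have hodd : Odd (Fintype.card F) := by rw [Nat.odd_iff]; omega
  obtain ⟨V, hV⟩ := exists_klein (F := F) hodd
  have hN := psl_norm_24 hmod V hV
  obtain ⟨e⟩ := (klein_norm_iso hodd V _ hV Subgroup.le_normalizer le_rfl).2 hN
  have hcard := psl_odd_card (F := F) hodd
  have h7 : 7 ≤ Fintype.card F := by
    have := hpp.two_le
    omega
  have hbig : 7 * (6 * 8) ≤ Fintype.card F * ((Fintype.card F - 1) * (Fintype.card F + 1)) := Nat.mul_le_mul h7 (Nat.mul_le_mul (by omega) (by omega))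
  refine ⟨_, ⟨?_, ?_⟩, ⟨e⟩⟩
  · intro h
    rw [h, Subgroup.card_top] at hN
    omega
  · intro L hNL
    by_contra hL
    have hlt : Nat.card (Subgroup.normalizer (V : Set (Matrix.ProjectiveSpecialLinearGroup (Fin 2) F))) < Nat.card L := by
      by_contra hcon
      exact hNL.ne (Subgroup.eq_of_le_of_card_ge hNL.le (by omega))
    have hdvd : Nat.card (Subgroup.normalizer (V : Set (Matrix.ProjectiveSpecialLinearGroup (Fin 2) F))) ∣ Nat.card L := Subgroup.card_dvd_of_le hNL.le
    rw [hN] at hlt hdvd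
    rcases a4_cases hodd L hL (((Subgroup.inclusion hNL.le).comp e.symm.toMonoidHom).comp (alternatingGroup (Fin 4)).subtype)
      (((Subgroup.inclusion_injective hNL.le).comp e.symm.injective).comp (alternatingGroup (Fin 4)).subtype_injective) with ⟨⟨e'⟩⟩ | ⟨⟨e'⟩⟩ | ⟨⟨e'⟩⟩ | ⟨k, m, hk, hm, hkm, -, -⟩
    · rw [Nat.card_congr e'.toEquiv, card_a4] at hlt; omega
    · rw [Nat.card_congr e'.toEquiv, card_s4] at hlt; omega
    · rw [Nat.card_congr e'.toEquiv, card_a5] at hdvd; omega
    · rw [hF] at hkm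
      rw [← hkm] at hpp
      exact Nat.Prime.not_prime_pow hm hpp

end Cfsg.Agent.S5938
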