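import Cfsg.Statements.S5941
import Mathlib
import Mathlib
import Cfsg.Agent.LibDkZ29

set_option autoImplicit false
open Cfsg

namespace Cfsg.Agent.S5941

open CfsgLib.Dk29 MulAction

/-- Let K and F be finite fields of odd characteristic with #F = (#K)². Then PSL_2(F) has a maximal subgroup isomorphic to PGL_2(K). -/
theorem result {F K : Type*} [Field F] [Fintype F] [Field K] [Fintype K] (q : ℕ) (hK : Fintype.card K = q) (hF : Fintype.card F = q ^ 2) (hq : Odd q) : ∃ H : Subgroup (Matrix.ProjectiveSpecialLinearGroup (Fin 2) F), IsCoatom H ∧ Nonempty (H ≃* Matrix.ProjGenLinGroup (Fin 2) K) := by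
  classical
  subst hK
  have hK1 : 1 < Fintype.card K := Fintype.one_lt_card
  have hodd : Odd (Fintype.card F) := by rw [hF]; exact hq.pow
  obtain ⟨σ⟩ := exists_emb (F := F) (K := K) 2 hF.symm
  have hcard := psl_odd_card (F := F) hodd
  have hK3 : 3 ≤ Fintype.card K := by obtain ⟨c, hc⟩ := hq; omega
  let f := pglPsl σ 2 even_two hF.symm hodd
  have hf : Function.Injective f := pglPsl_injective σ 2 even_two hF.symm hodd
  have e := MonoidHom.ofInjective hf
  have hcH : Nat.card f.range = Fintype.card K * ((Fintype.card K - 1) * (Fintype.card K + 1)) := by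
    rw [← Nat.card_congr e.toEquiv, card_PGL]
  have h24 : 3 * (2 * 4) ≤ Fintype.card K * ((Fintype.card K - 1) * (Fintype.card K + 1)) := Nat.mul_le_mul hK3 (Nat.mul_le_mul (by omega) (by omega))
  refine ⟨f.range, ⟨?_, ?_⟩, ⟨e.symm⟩⟩
  · intro h
    rw [h, Subgroup.card_top] at hcH
    rw [hcH, hF] at hcard
    have h1 : Fintype.card K ^ 2 - 1 = (Fintype.card K - 1) * (Fintype.card K + 1) := by
      obtain ⟨c, hc⟩ : ∃ c, Fintype.card K = c + 1 := ⟨Fintype.card K - 1, by omega⟩
      rw [hc, Nat.add_sub_cancel]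
      have : (c + 1) ^ 2 = c * (c + 1 + 1) + 1 := by ring
      omega
    rw [h1] at hcard
    have h2 : Fintype.card K ^ 2 * ((Fintype.card K - 1) * (Fintype.card K + 1) * (Fintype.card K ^ 2 + 1)) =
      (Fintype.card K * ((Fintype.card K - 1) * (Fintype.card K + 1))) * (Fintype.card K * (Fintype.card K ^ 2 + 1)) := by ring
    rw [h2, mul_comm 2] at hcard
    have h3 := Nat.eq_of_mul_eq_mul_left (by omega) hcard
    have h4 : 3 * 1 ≤ Fintype.card K * (Fintype.card K ^ 2 + 1) := Nat.mul_le_mul hK3 (by omega)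
    omega
  · intro L hHL
    by_contra hL
    obtain ⟨j, hj⟩ := exists_a4 (F := K) hq
    let i : alternatingGroup (Fin 4) →* L := (Subgroup.inclusion hHL.le).comp (e.toMonoidHom.comp (Matrix.ProjectiveSpecialLinearGroup.toPGL.comp j))
    have hi : Function.Injective i := (Subgroup.inclusion_injective hHL.le).comp (e.injective.comp (Matrix.ProjectiveSpecialLinearGroup.toPGL_injective.comp hj))
    have hlt : Nat.card f.range < Nat.card L := by
      by_contra hcon
      exact hHL.ne (Subgroup.eq_of_le_of_card_ge hHL.le (by omega))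
    have hdvd : Nat.card f.range ∣ Nat.card L := Subgroup.card_dvd_of_le hHL.le
    rw [hcH] at hlt hdvd
    rcases a4_cases hodd L hL i hi with ⟨⟨e'⟩⟩ | ⟨⟨e'⟩⟩ | ⟨⟨e'⟩⟩ | ⟨k, m, hk, hm, hkm, -, hc⟩
    · rw [Nat.card_congr e'.toEquiv, card_a4] at hlt; omega
    · rw [Nat.card_congr e'.toEquiv, card_s4] at hlt; omega
    · rw [Nat.card_congr e'.toEquiv, card_a5] at hlt hdvd
      by_cases hK3' : Fintype.card K = 3
      · rw [hK3'] at hdvd; omega
      · have hK5 : 5 ≤ Fintype.card K := by obtain ⟨c, hc⟩ := hq; omega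
        have h120 : 5 * (4 * 6) ≤ Fintype.card K * ((Fintype.card K - 1) * (Fintype.card K + 1)) := Nat.mul_le_mul hK5 (Nat.mul_le_mul (by omega) (by omega))
        omega
    · have hkK : Nat.card k ≤ Fintype.card K := by
        by_contra hcon
        push Not at hcon
        have h1 : Fintype.card K ^ 2 < Nat.card k ^ 2 := Nat.pow_lt_pow_left hcon (by norm_num)
        have h2 : Nat.card k ^ 2 ≤ Nat.card k ^ m := Nat.pow_le_pow_right (by omega) hm
        rw [hkm, hF] at h2
        omega
      have h3 : Nat.card k * ((Nat.card k - 1) * (Nat.card k + 1)) ≤ Fintype.card K * ((Fintype.card K - 1) * (Fintype.card K + 1)) :=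
        Nat.mul_le_mul hkK (Nat.mul_le_mul (by omega) (by omega))
      rcases hc with hc | ⟨-, hc⟩ <;> omega

end Cfsg.Agent.S5941
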