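import Cfsg.Statements.S5942
import Mathlib
import Mathlib
import Cfsg.Agent.LibDkAA29

set_option autoImplicit false
open Cfsg

namespace Cfsg.Agent.S5942

open CfsgLib.Dk29 MulAction

/-- Let K and F be finite fields of odd characteristic with #F = (#K)^r for an odd prime r. Then PSL_2(F) has a maximal subgroup isomorphic to PSL_2(K). -/
theorem result {F K : Type*} [Field F] [Fintype F] [Field K] [Fintype K] (q r : ℕ) (hK : Fintype.card K = q) (hF : Fintype.card F = q ^ r) (hq : Odd q) (hr : r.Prime) (hr2 : r ≠ 2) : ∃ H : Subgroup (Matrix.ProjectiveSpecialLinearGroup (Fin 2) F), IsCoatom H ∧ Nonempty (H ≃* Matrix.ProjectiveSpecialLinearGroup (Fin 2) K) := by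
  classical
  subst hK
  have hK1 : 1 < Fintype.card K := Fintype.one_lt_card
  have hodd : Odd (Fintype.card F) := by rw [hF]; exact hq.pow
  obtain ⟨σ⟩ := exists_emb (F := F) (K := K) r hF.symm
  have hcard := psl_odd_card (F := F) hodd
  have hcardK := psl_odd_card (F := K) hq
  have hK3 : 3 ≤ Fintype.card K := by obtain ⟨c, hc⟩ := hq; omega
  have hrodd := hr.odd_of_ne_two hr2
  have e := MonoidHom.ofInjective (pslMap_injective σ)
  have hcH : Nat.card (pslMap σ).range = Nat.card (Matrix.ProjectiveSpecialLinearGroup (Fin 2) K) := by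
    rw [← Nat.card_congr e.toEquiv]
  have h24 : 3 * (2 * 4) ≤ Fintype.card K * ((Fintype.card K - 1) * (Fintype.card K + 1)) := Nat.mul_le_mul hK3 (Nat.mul_le_mul (by omega) (by omega))
  have hlt' : Fintype.card K < Fintype.card F := by
    rw [hF]
    calc Fintype.card K = Fintype.card K ^ 1 := (pow_one _).symm
      _ < _ := Nat.pow_lt_pow_right hK1 hr.one_lt
  have hpar : Even (Fintype.card K) ↔ Even (Fintype.card F) := by
    constructor
    · intro h; exact absurd hq (Nat.not_odd_iff_even.mpr h)
    · intro h; exact absurd hodd (Nat.not_odd_iff_even.mpr h)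
  refine ⟨(pslMap σ).range, ⟨?_, ?_⟩, ⟨e.symm⟩⟩
  · intro h
    rw [h, Subgroup.card_top] at hcH
    have := card_psl_lt hlt' hpar
    omega
  · intro L hHL
    by_contra hL
    obtain ⟨j, hj⟩ := exists_a4 (F := K) hq
    let i : alternatingGroup (Fin 4) →* L := (Subgroup.inclusion hHL.le).comp (e.toMonoidHom.comp j)
    have hi : Function.Injective i := (Subgroup.inclusion_injective hHL.le).comp (e.injective.comp hj)
    have hlt : Nat.card (pslMap σ).range < Nat.card L := by
      by_contra hcon
      exact hHL.ne (Subgroup.eq_of_le_of_card_ge hHL.le (by omega))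
    have hdvd : Nat.card (pslMap σ).range ∣ Nat.card L := Subgroup.card_dvd_of_le hHL.le
    have hdvd' : Nat.card L ∣ Nat.card (Matrix.ProjectiveSpecialLinearGroup (Fin 2) F) := Subgroup.card_subgroup_dvd_card L
    rw [hcH] at hlt hdvd
    have hK5 : Fintype.card K ≠ 3 → 60 ≤ Nat.card (Matrix.ProjectiveSpecialLinearGroup (Fin 2) K) := by
      intro h
      have hK5 : 5 ≤ Fintype.card K := by obtain ⟨c, hc⟩ := hq; omega
      have h120 : 5 * (4 * 6) ≤ Fintype.card K * ((Fintype.card K - 1) * (Fintype.card K + 1)) := Nat.mul_le_mul hK5 (Nat.mul_le_mul (by omega) (by omega))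
      omega
    rcases a4_cases hodd L hL i hi with ⟨⟨e'⟩⟩ | ⟨⟨e'⟩⟩ | ⟨⟨e'⟩⟩ | ⟨k, m, hk, hm, hkm, -, hc⟩
    · rw [Nat.card_congr e'.toEquiv, card_a4] at hlt; omega
    · rw [Nat.card_congr e'.toEquiv, card_s4] at hlt hdvd'
      have hK3' : Fintype.card K = 3 := by
        by_contra hne
        have := hK5 hne
        omega
      have hmod : Fintype.card F % 8 = 3 ∨ Fintype.card F % 8 = 5 := by
        rw [hF, hK3']
        obtain ⟨c, hc⟩ := hrodd
        left
        rw [hc, pow_add, pow_mul, Nat.mul_mod, Nat.pow_mod]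
        norm_num
      exact psl_not_eight hmod (dvd_trans (by norm_num) hdvd')
    · rw [Nat.card_congr e'.toEquiv, card_a5] at hlt hdvd'
      have hK3' : Fintype.card K = 3 := by
        by_contra hne
        have := hK5 hne
        omega
      have h5' : 5 ∣ Fintype.card F * ((Fintype.card F - 1) * (Fintype.card F + 1)) := by
        rw [← hcard]
        exact Dvd.dvd.mul_left (dvd_trans (by norm_num) hdvd') _
      rw [hF, hK3'] at h5'
      exact pow_three_mod5 r hrodd (Nat.Coprime.dvd_of_dvd_mul_left (Nat.Coprime.pow_right r (by norm_num)) h5')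
    · obtain ⟨p, hp⟩ := CharP.exists K
      haveI := hp
      obtain ⟨⟨b, hb0⟩, hpp, hb⟩ := FiniteField.card K p
      have hb : Fintype.card K = p ^ b := hb
      have hkQ : Nat.card k = Fintype.card K := by
        apply sub_eq hpp b hb0 hb (by rw [hkm, hF]) hm hr
        have h1 : (Fintype.card K - 1) * (Fintype.card K + 1) ∣ 2 * Nat.card (Matrix.ProjectiveSpecialLinearGroup (Fin 2) K) := by
          rw [hcardK]; exact dvd_mul_left _ _
        have h2 : 2 * Nat.card (Matrix.ProjectiveSpecialLinearGroup (Fin 2) K) ∣ 2 * Nat.card L := Nat.mul_dvd_mul_left _ hdvd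
        refine (h1.trans h2).trans ?_
        rcases hc with hc | ⟨-, hc⟩
        · rw [hc]
        · rw [hc]; exact dvd_mul_left _ _
      rw [hkQ] at hc
      rcases hc with hc | ⟨-, hc⟩
      · rw [hc] at hdvd'
        rw [hF] at hcard
        exact two_part (Fintype.card K) r hq hrodd hK1 _ hcard hdvd'
      · omega

end Cfsg.Agent.S5942
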