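import Cfsg.Statements.S5943
import Mathlib
import Mathlib
import Cfsg.Agent.LibDkAA29

set_option autoImplicit false
open Cfsg

namespace Cfsg.Agent.S5943

open CfsgLib.Dk29 MulAction

/-- Let K and F be finite fields of characteristic 2 with #K = q > 2 and #F = q^r for a prime r. Then PSL_2(F) has a maximal subgroup isomorphic to PSL_2(K) (which equals PGL_2(K) in characteristic 2). -/
theorem result {F K : Type*} [Field F] [Fintype F] [Field K] [Fintype K] (q r : ℕ) (hK : Fintype.card K = q) (hF : Fintype.card F = q ^ r) (hq : Even q) (hq2 : q ≠ 2) (hr : r.Prime) : ∃ H : Subgroup (Matrix.ProjectiveSpecialLinearGroup (Fin 2) F), IsCoatom H ∧ Nonempty (H ≃* Matrix.ProjectiveSpecialLinearGroup (Fin 2) K) := by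
  classical
  subst hK
  have hK1 : 1 < Fintype.card K := Fintype.one_lt_card
  have hev : Even (Fintype.card F) := by rw [hF, Nat.even_pow]; exact ⟨hq, hr.ne_zero⟩
  obtain ⟨σ⟩ := exists_emb (F := F) (K := K) r hF.symm
  have hcard := psl_even_card' (F := F) hev
  have hcardK := psl_even_card' (F := K) hq
  have hK4 : 4 ≤ Fintype.card K := by obtain ⟨c, hc⟩ := hq; omega
  have e := MonoidHom.ofInjective (pslMap_injective σ)
  have hcH : Nat.card (pslMap σ).range = Nat.card (Matrix.ProjectiveSpecialLinearGroup (Fin 2) K) := by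
    rw [← Nat.card_congr e.toEquiv]
  have h60 : 4 * (3 * 5) ≤ Fintype.card K * ((Fintype.card K - 1) * (Fintype.card K + 1)) := Nat.mul_le_mul hK4 (Nat.mul_le_mul (by omega) (by omega))
  have hlt' : Fintype.card K < Fintype.card F := by
    rw [hF]
    calc Fintype.card K = Fintype.card K ^ 1 := (pow_one _).symm
      _ < _ := Nat.pow_lt_pow_right hK1 hr.one_lt
  refine ⟨(pslMap σ).range, ⟨?_, ?_⟩, ⟨e.symm⟩⟩
  · intro h
    rw [h, Subgroup.card_top] at hcH
    have := card_psl_lt hlt' (by simp [hq, hev])
    omega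
  · intro L hHL
    by_contra hL
    have hns : ¬ Group.IsSolvable L := by
      intro hs
      haveI := hs
      have h1 : Group.IsSolvable (pslMap σ).range := Group.isSolvable_of_isSolvable_injective (f := Subgroup.inclusion hHL.le) (Subgroup.inclusion_injective hHL.le)
      exact psl_not_solv hK4 (solv_equiv e h1)
    have hlt : Nat.card (pslMap σ).range < Nat.card L := by
      by_contra hcon
      exact hHL.ne (Subgroup.eq_of_le_of_card_ge hHL.le (by omega))
    have hdvd : Nat.card (pslMap σ).range ∣ Nat.card L := Subgroup.card_dvd_of_le hHL.le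
    rw [hcH] at hlt hdvd
    rcases nonsolv_cases L hL hns with ⟨⟨e'⟩⟩ | ⟨k, m, hk, hm, hkm, -, hc⟩
    · rw [Nat.card_congr e'.toEquiv, card_a5] at hlt; omega
    · have hkev : Even (Nat.card k) := by
        rw [← hkm, Nat.even_pow] at hev
        exact hev.1
      have hc : Nat.card L = Nat.card k * ((Nat.card k - 1) * (Nat.card k + 1)) := by
        rcases hc with hc | ⟨h, -⟩
        · exact hc
        · exact absurd h (Nat.not_odd_iff_even.mpr hkev)
      obtain ⟨p, hp⟩ := CharP.exists K
      haveI := hp
      obtain ⟨⟨b, hb0⟩, hpp, hb⟩ := FiniteField.card K p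
      have hb : Fintype.card K = p ^ b := hb
      have hkQ : Nat.card k = Fintype.card K := by
        apply sub_eq hpp b hb0 hb (by rw [hkm, hF]) hm hr
        rw [← hc]
        refine Dvd.dvd.mul_left (Dvd.dvd.trans ?_ hdvd) _
        rw [hcardK]; exact dvd_mul_left _ _
      rw [hkQ] at hc
      omega

end Cfsg.Agent.S5943
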