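import Cfsg.Statements.S5945
import Mathlib
import Cfsg.Agent.LibSnB29

set_option autoImplicit false
open Cfsg

namespace Cfsg.Agent.S5945



/-- The symmetric group S_6 has exactly 12 subgroups of index 6; each of them is isomorphic to S_5, and at least one of them is not the stabilizer of any point. -/
theorem result : Nat.card {H : Subgroup (Equiv.Perm (Fin 6)) // H.index = 6} = 12 ∧ (∀ H : Subgroup (Equiv.Perm (Fin 6)), H.index = 6 → Nonempty (H ≃* Equiv.Perm (Fin 5))) ∧ ∃ H : Subgroup (Equiv.Perm (Fin 6)), H.index = 6 ∧ ∀ a : Fin 6, H ≠ MulAction.stabilizer (Equiv.Perm (Fin 6)) a := by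
  have h6 : Fintype.card (Fin 6) = 6 := Fintype.card_fin 6
  obtain ⟨K, hK, hKs⟩ := CfsgLib.Sn29.exists_outer h6
  have hsi : ∀ x : Fin 6, (MulAction.stabilizer (Equiv.Perm (Fin 6)) x).index = 6 := fun x => by rw [CfsgLib.Sn29.index_stab, h6]
  refine ⟨?_, fun H hH => CfsgLib.Sn29.coset_iso_five h6 H hH, K, hK, hKs⟩
  let F : (Fin 6 ⊕ (Equiv.Perm (Fin 6) ⧸ K)) → {H : Subgroup (Equiv.Perm (Fin 6)) // H.index = 6} := fun z => match z with
    | Sum.inl x => ⟨MulAction.stabilizer (Equiv.Perm (Fin 6)) x, hsi x⟩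
    | Sum.inr d => ⟨MulAction.stabilizer (Equiv.Perm (Fin 6)) d, by rw [MulAction.index_stabilizer_of_transitive, ← Subgroup.index, hK]⟩
  have hF : Function.Bijective F := by
    constructor
    · rintro (x | d) (y | e) h
      · have h1 := congrArg Subtype.val h
        exact congrArg Sum.inl (CfsgLib.Sn29.stab_inj (by rw [h6]; norm_num) x y h1)
      · have h1 := congrArg Subtype.val h
        exact absurd h1.symm (CfsgLib.Sn29.outer_not_stab K hKs e x)
      · have h1 := congrArg Subtype.val h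
        exact absurd h1 (CfsgLib.Sn29.outer_not_stab K hKs d y)
      · have h1 := congrArg Subtype.val h
        exact congrArg Sum.inr (CfsgLib.Sn29.coset_stab_inj h6 K hK d e h1)
    · rintro ⟨H, hH⟩
      by_cases hs : ∃ x : Fin 6, H = MulAction.stabilizer (Equiv.Perm (Fin 6)) x
      · obtain ⟨x, rfl⟩ := hs
        exact ⟨Sum.inl x, rfl⟩
      · push Not at hs
        obtain ⟨d, hd⟩ := CfsgLib.Sn29.outer_conj h6 K H hK hH hKs hs
        exact ⟨Sum.inr d, Subtype.ext hd⟩
  rw [← Nat.card_congr (Equiv.ofBijective F hF), Nat.card_sum, Nat.card_eq_fintype_card, h6, ← Subgroup.index, hK]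

end Cfsg.Agent.S5945
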