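import Cfsg.Statements.S5947
import Mathlib


set_option autoImplicit false
open Cfsg

namespace Cfsg.Agent.S5947

open Polynomial in
theorem fieldEquiv {F A K : Type*} [Field F] [Fintype F] [Field A] [Algebra F A] [Finite A] [Field K] [Algebra F K] [Finite K]
    (h : Nat.card A = Nat.card K) : Nonempty (A ≃ₐ[F] K) := by
  haveI : Fintype A := Fintype.ofFinite A
  haveI : Fintype K := Fintype.ofFinite K
  haveI h1 : IsSplittingField F A (X ^ Fintype.card A - X) := FiniteField.isSplittingField_sub A F
  haveI h2 : IsSplittingField F K (X ^ Fintype.card K - X) := FiniteField.isSplittingField_sub K F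
  have h3 : Fintype.card A = Fintype.card K := by rw [← Nat.card_eq_fintype_card, h, Nat.card_eq_fintype_card]
  rw [h3] at h1
  exact ⟨(IsSplittingField.algEquiv A (X ^ Fintype.card K - X : F[X])).trans (IsSplittingField.algEquiv K (X ^ Fintype.card K - X : F[X])).symm⟩

theorem exists_sep {F V : Type*} [Field F] [AddCommGroup V] [Module F V] [Finite V] (A : Subalgebra F (Module.End F V))
    (hcomm : ∀ x ∈ A, ∀ y ∈ A, x * y = y * x) (N : ℕ) (hN : 1 < N) (hpow : ∀ x ∈ A, x ^ N = x) :
    ∃ v : V, ∀ a ∈ A, a v = 0 → a = 0 := by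
  classical
  haveI hfinE : Finite (Module.End F V) :=
    Finite.of_injective (fun f : Module.End F V => (f : V → V)) DFunLike.coe_injective
  obtain ⟨v, hv⟩ := Finite.exists_min (fun v : V => ({a : Module.End F V | a ∈ A ∧ a v = 0}).ncard)
  refine ⟨v, fun a ha hav => ?_⟩
  by_contra ha0
  set e := a ^ (N - 1) with he
  have heA : e ∈ A := pow_mem ha _
  have hea : e * a = a := by
    rw [he, ← pow_succ, Nat.sub_add_cancel hN.le, hpow a ha]
  have hee : e * e = e := by
    have h1 : e * e = (e * a) * a ^ (N - 2) := by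
      rw [mul_assoc, ← pow_succ']
      have : N - 2 + 1 = N - 1 := by omega
      rw [this]
    rw [h1, hea, ← pow_succ']
    have : N - 2 + 1 = N - 1 := by omega
    rw [this]
  have hev : e v = 0 := by
    have h1 : e = a ^ (N - 2) * a := by
      rw [← pow_succ]
      have : N - 2 + 1 = N - 1 := by omega
      rw [this]
    rw [h1, Module.End.mul_apply, hav, map_zero]
  have hene : e ≠ 0 := by
    intro h
    rw [h, zero_mul] at hea
    exact ha0 hea.symm
  obtain ⟨w, hw⟩ : ∃ w, e w ≠ 0 := by
    by_contra hcon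
    push Not at hcon
    exact hene (LinearMap.ext hcon)
  have hlt : ({b : Module.End F V | b ∈ A ∧ b (v + e w) = 0}).ncard < ({b : Module.End F V | b ∈ A ∧ b v = 0}).ncard := by
    apply Set.ncard_lt_ncard _ (Set.toFinite _)
    refine ⟨?_, ?_⟩
    · rintro b ⟨hb, hb0⟩
      refine ⟨hb, ?_⟩
      have h1 : b (e w) = 0 := by
        have h2 : e (b (v + e w)) = 0 := by rw [hb0, map_zero]
        rw [← Module.End.mul_apply, hcomm e heA b hb, Module.End.mul_apply, map_add, hev, zero_add, ← Module.End.mul_apply e, hee] at h2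
        exact h2
      rw [map_add, h1, add_zero] at hb0
      exact hb0
    · intro hsub
      have h1 := hsub (show e ∈ _ from ⟨heA, hev⟩)
      have h2 : e (v + e w) = 0 := h1.2
      rw [map_add, hev, zero_add, ← Module.End.mul_apply, hee] at h2
      exact hw h2
  exact absurd (hv (v + e w)) (not_le.mpr hlt)

/-- Let F ⊆ K be finite fields with |F| = q and [K : F] = n ≥ 2, regard K as an n-dimensional F-vector space, and let M ≤ GL_F(K) be the Singer group of multiplications by non-zero elements of K (cyclic of order q^n − 1). Assume (n, q) ≠ (6, 2), and that it is not the case that n = 2 with q a prime such that q + 1 is a power of 2. Then every abelian subgroup of GL_F(K) of order q^n − 1 is conjugate to M. -/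
theorem result {F K : Type*} [Field F] [Fintype F] [Field K] [Fintype K] [Algebra F K] (n : ℕ) (hn : 2 ≤ n) (hdim : Module.finrank F K = n)
    (hex1 : ¬ (n = 6 ∧ Fintype.card F = 2))
    (hex2 : ¬ (n = 2 ∧ (Fintype.card F).Prime ∧ ∃ a : ℕ, Fintype.card F + 1 = 2 ^ a))
    (U : Subgroup (Module.End F K)ˣ) (hU : IsMulCommutative U) (hcard : Nat.card U = Fintype.card K - 1) :
    ∃ g : (Module.End F K)ˣ, U.map (MulAut.conj g).toMonoidHom = (Units.map ((Algebra.lmul F K : K →ₐ[F] Module.End F K) : K →* Module.End F K)).range := by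
  classical
  haveI hfinE : Finite (Module.End F K) :=
    Finite.of_injective (fun f : Module.End F K => (f : K → K)) DFunLike.coe_injective
  haveI : Finite (Module.End F K)ˣ := inferInstance
  set q := Fintype.card F with hq
  set N := Fintype.card K with hN
  have hNq : N = q ^ n := by
    rw [hN, hq, ← hdim, ← Module.card_eq_pow_finrank]
  have hN1 : 1 < N := Fintype.one_lt_card
  -- the algebra
  set S : Set (Module.End F K) := (fun u : (Module.End F K)ˣ => (u : Module.End F K)) '' (U : Set _) with hS
  set A : Subalgebra F (Module.End F K) := Algebra.adjoin F S with hA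
  have hcomm : ∀ x ∈ A, ∀ y ∈ A, x * y = y * x := by
    have h1 : ∀ a ∈ S, ∀ b ∈ S, a * b = b * a := by
      rintro _ ⟨a, ha, rfl⟩ _ ⟨b, hb, rfl⟩
      have := hU.is_comm.comm ⟨a, ha⟩ ⟨b, hb⟩
      have h2 : a * b = b * a := congrArg Subtype.val this
      simp only [← Units.val_mul, h2]
    have := Algebra.isMulCommutative_adjoin F h1
    intro x hx y hy
    exact congrArg Subtype.val (this.is_comm.comm ⟨x, hx⟩ ⟨y, hy⟩)
  have hpow : ∀ x ∈ A, x ^ N = x := by
    obtain ⟨p, hp⟩ := CharP.exists F
    haveI := hp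
    obtain ⟨k, hpp, hk⟩ := FiniteField.card F p
    haveI : Fact p.Prime := ⟨hpp⟩
    haveI : CharP (Module.End F K) p := charP_of_injective_algebraMap (algebraMap F (Module.End F K)).injective p
    have hNp : N = p ^ ((k : ℕ) * n) := by rw [hNq, hq, hk, pow_mul]
    intro x hx
    refine Algebra.adjoin_induction (p := fun x _ => x ^ N = x) ?_ ?_ ?_ ?_ hx
    · rintro _ ⟨u, hu, rfl⟩
      have h1 : (⟨u, hu⟩ : U) ^ (Nat.card U) = 1 := pow_card_eq_one'
      rw [hcard] at h1
      have h2 : u ^ (N - 1) = 1 := congrArg Subtype.val h1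
      have h3 : u ^ N = u := by
        conv_rhs => rw [← one_mul u, ← h2, ← pow_succ, Nat.sub_add_cancel hN1.le]
      simp only [← Units.val_pow_eq_pow_val, h3]
    · intro r
      rw [← map_pow, hNq, hq, FiniteField.pow_card_pow]
    · intro x y hx hy h1 h2
      rw [hNp, add_pow_char_pow_of_commute p _ (hcomm x hx y hy), ← hNp, h1, h2]
    · intro x y hx hy h1 h2
      have h3 : Commute x y := hcomm x hx y hy
      rw [h3.mul_pow, h1, h2]
  obtain ⟨v, hv⟩ := exists_sep A hcomm N hN1 hpow
  have hUA : ∀ u ∈ U, (u : Module.End F K) ∈ A := fun u hu => Algebra.subset_adjoin ⟨u, hu, rfl⟩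
  -- cardinalities
  let ψ : A → K := fun a => (a : Module.End F K) v
  have hψ : Function.Injective ψ := by
    intro a b hab
    have h1 : ((a : Module.End F K) - (b : Module.End F K)) v = 0 := by
      rw [LinearMap.sub_apply, sub_eq_zero]; exact hab
    exact Subtype.ext (sub_eq_zero.mp (hv _ (A.sub_mem a.2 b.2) h1))
  haveI : Finite A := Subtype.finite
  let ι : Option U → A := fun o => o.elim 0 (fun u => ⟨((u : (Module.End F K)ˣ) : Module.End F K), hUA u u.2⟩)
  have hι : Function.Injective ι := by
    rintro (_ | ⟨a, ha⟩) (_ | ⟨b, hb⟩) h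
    · rfl
    · exfalso
      have h1 : (0 : Module.End F K) = (b : Module.End F K) := congrArg Subtype.val h
      exact b.ne_zero h1.symm
    · exfalso
      have h1 : (a : Module.End F K) = 0 := congrArg Subtype.val h
      exact a.ne_zero h1
    · have h1 : (a : Module.End F K) = b := congrArg Subtype.val h
      have h2 : a = b := Units.ext h1
      subst h2; rfl
  have hcA1 : Nat.card A ≤ N := by
    rw [hN, ← Nat.card_eq_fintype_card]
    exact Nat.card_le_card_of_injective ψ hψ
  have hcO : Nat.card (Option U) = N := by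
    haveI : Fintype U := Fintype.ofFinite U
    rw [Nat.card_eq_fintype_card, Fintype.card_option, ← Nat.card_eq_fintype_card, hcard]
    omega
  have hcA2 : N ≤ Nat.card A := by
    rw [← hcO]
    exact Nat.card_le_card_of_injective ι hι
  have hcA : Nat.card A = N := le_antisymm hcA1 hcA2
  have hψb : Function.Bijective ψ := by
    apply (Nat.bijective_iff_injective_and_card ψ).mpr
    exact ⟨hψ, by rw [hcA, hN, Nat.card_eq_fintype_card]⟩
  have hιb : Function.Bijective ι := by
    apply (Nat.bijective_iff_injective_and_card ι).mpr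
    exact ⟨hι, by rw [hcA, hcO]⟩
  have hAf : IsField A := by
    refine ⟨⟨0, 1, ?_⟩, fun x y => Subtype.ext (hcomm x x.2 y y.2), ?_⟩
    · intro h
      have h1 : (0 : Module.End F K) = 1 := congrArg Subtype.val h
      exact zero_ne_one h1
    · intro a ha
      obtain ⟨o, ho⟩ := hιb.2 a
      rcases o with _ | u
      · exact absurd ho.symm ha
      · refine ⟨⟨((u⁻¹ : U) : (Module.End F K)ˣ), hUA _ (u⁻¹).2⟩, ?_⟩
        rw [← ho]
        apply Subtype.ext
        change (((u : (Module.End F K)ˣ)) : Module.End F K) * (((u⁻¹ : U) : (Module.End F K)ˣ) : Module.End F K) = 1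
        rw [← Units.val_mul, ← Subgroup.coe_mul, mul_inv_cancel]; rfl
  letI : Field A := hAf.toField
  obtain ⟨φ⟩ := fieldEquiv (F := F) (A := A) (K := K) (by rw [hcA, hN, Nat.card_eq_fintype_card])
  let ψl : A →ₗ[F] K :=
    { toFun := ψ
      map_add' := fun a b => rfl
      map_smul' := fun c a => rfl }
  let ψe : A ≃ₗ[F] K := LinearEquiv.ofBijective ψl hψb
  let ge : K ≃ₗ[F] K := ψe.symm.trans φ.toLinearEquiv
  let g : (Module.End F K)ˣ := ⟨ge.toLinearMap, ge.symm.toLinearMap, by ext x; simp, by ext x; simp⟩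
  refine ⟨g, ?_⟩
  have hle : U.map (MulAut.conj g).toMonoidHom ≤ (Units.map ((Algebra.lmul F K : K →ₐ[F] Module.End F K) : K →* Module.End F K)).range := by
    rintro _ ⟨u, hu, rfl⟩
    set a : A := ⟨(u : Module.End F K), hUA u hu⟩ with ha
    have ha0 : a ≠ 0 := by
      intro h
      exact u.ne_zero (congrArg Subtype.val h)
    refine ⟨Units.mk0 (φ a) (by simpa using ha0), ?_⟩
    change _ = g * u * g⁻¹
    rw [eq_mul_inv_iff_mul_eq]
    apply Units.ext
    apply LinearMap.ext
    intro y
    obtain ⟨b, rfl⟩ := ψe.surjective y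
    have e1 : (g : Module.End F K) (ψe b) = φ b := by
      change φ (ψe.symm (ψe b)) = φ b
      rw [LinearEquiv.symm_apply_apply]
    have e2 : (u : Module.End F K) (ψe b) = ψe (a * b) := rfl
    change φ a * (g : Module.End F K) (ψe b) = (g : Module.End F K) ((u : Module.End F K) (ψe b))
    rw [e1, e2]
    have e3 : (g : Module.End F K) (ψe (a * b)) = φ (a * b) := by
      change φ (ψe.symm (ψe (a * b))) = φ (a * b)
      rw [LinearEquiv.symm_apply_apply]
    rw [e3, map_mul]
  apply Subgroup.eq_of_le_of_card_ge hle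
  have h1 : Nat.card (U.map (MulAut.conj g).toMonoidHom) = N - 1 := by
    rw [← hcard]
    exact (Nat.card_congr (Subgroup.equivMapOfInjective U (MulAut.conj g).toMonoidHom (MulAut.conj g).injective).toEquiv).symm
  rw [h1]
  have h2 : Nat.card Kˣ = N - 1 := by rw [Nat.card_eq_fintype_card, Fintype.card_units]
  rw [← h2]
  exact Nat.card_le_card_of_surjective _ (MonoidHom.rangeRestrict_surjective _)

end Cfsg.Agent.S5947
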